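import Cfsg.Agent.H19.FF11
import Cfsg.Agent.H2.JSub
import Cfsg.Agent.H2.Off

set_option autoImplicit false
set_option linter.style.haveILetI false
set_option linter.unusedVariables false
set_option linter.unusedSectionVars false

/-! Failure of factorization, part 12: maximal elementary abelian subgroups as offenders. -/

namespace Cfsg.Agent.H19.FF

open Cfsg Cfsg.Agent.H19.PGV Cfsg.Agent.H19.FF.FFS
open scoped commutatorElement

namespace QA

variable {p : ℕ} [Fact p.Prime] {Γ Γ' : Type*} {W : Type*} [Group Γ] [Group Γ'] [Finite Γ] [Finite Γ'] [AddCommGroup W] [Finite W]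
  [DistribMulAction Γ W] [DistribMulAction Γ' W] {ρ : Γ →* Γ'}

theorem gen_of (h : QA p W ρ) {N : Subgroup Γ'} [hN : N.Normal] {S : Set (Subgroup Γ)} (hNS : N = (sSup S).map ρ)
    (hS : ∀ A ∈ S, (∀ a ∈ A, ∀ b ∈ A, a * b = b * a) ∧ (∀ a ∈ A, a ^ p = 1) ∧
      ∀ B : Subgroup Γ, B ≤ A → Nat.card B * Nat.card (fixS W B) ≤ Nat.card A * Nat.card (fixS W A)) :
    sSup {B : Subgroup ↥N | TG p W B} = ⊤ := by
  have hle : ∀ A ∈ S, A.map ρ ≤ N := fun A hA => by
    rw [hNS]; exact Subgroup.map_mono (le_sSup hA)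
  have h1 : ∀ A ∈ S, A.map ρ ≤ (sSup {B : Subgroup ↥N | TG p W B}).map N.subtype := by
    intro A hA
    obtain ⟨h2, h3, h4⟩ := hS A hA
    have h5 := (h.ffs N).gen_TG _ _ rfl (h.OF_img (hle A hA) h2 h3 h4)
    have h6 : img ρ N A ≤ sSup {B : Subgroup ↥N | TG p W B} := h5.trans (sSup_le_sSup fun T hT => hT.2)
    have h7 := Subgroup.map_mono (f := N.subtype) h6
    unfold img at h7
    rwa [Subgroup.subgroupOf_map_subtype, inf_eq_left.mpr (hle A hA)] at h7
  have h2 : N ≤ (sSup {B : Subgroup ↥N | TG p W B}).map N.subtype := by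
    have h3 : (sSup S).map ρ ≤ (sSup {B : Subgroup ↥N | TG p W B}).map N.subtype := by
      rw [Subgroup.map_le_iff_le_comap]
      refine sSup_le fun A hA => ?_
      rw [← Subgroup.map_le_iff_le_comap]
      exact h1 A hA
    rw [← hNS] at h3
    exact h3
  rw [eq_top_iff]
  apply map_le_iff'.mp
  rw [← MonoidHom.range_eq_map, Subgroup.range_subtype]
  exact h2

end QA

section

variable {G : Type*} [Group G] [Finite G] {p : ℕ} [Fact p.Prime]

theorem EAIn_comm {U A : Subgroup G} (hA : H2.EAIn p U A) : ∀ a ∈ A, ∀ b ∈ A, a * b = b * a := by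
  intro a ha b hb
  exact congrArg Subtype.val (hA.2.1.1.is_comm.comm ⟨a, ha⟩ ⟨b, hb⟩)

theorem EAIn_off {V A : Subgroup G} [V.Normal] (hV : IsElementaryAbelian p V) (hA : H2.EAIn p ⊤ A) :
    ∀ B : Subgroup G, B ≤ A → Nat.card B * Nat.card (fixS (Wn V hV.1) B) ≤ Nat.card A * Nat.card (fixS (Wn V hV.1) A) := by
  intro B hB
  rw [Wn.card_fixS, Wn.card_fixS]
  exact (hA.isBestOffender le_top hV).1 B hB

/-- replacement: `V C_A(V)` is again of maximal order -/
theorem star {V A : Subgroup G} [hVn : V.Normal] (hV : IsElementaryAbelian p V) (hs : IsPSolvable p G)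
    (hO : pCore p (G ⧸ Subgroup.centralizer (V : Set G)) = ⊥) (hA : H2.EAIn p ⊤ A) :
    H2.EAIn p ⊤ (V ⊔ (A ⊓ Subgroup.centralizer (V : Set G))) := by
  have hqa := Wn.qa (hV := hV.1) hV.2 hs hO
  have hOF := hqa.OF_img (N := ⊤) (A := A) le_top (EAIn_comm hA) hA.2.1.2 (EAIn_off hV hA)
  have hcomm : ∀ x ∈ V, ∀ y ∈ A ⊓ Subgroup.centralizer (V : Set G), x * y = y * x := by
    intro x hx y hy
    exact Subgroup.mem_centralizer_iff.mp hy.2 x hx
  have hE : IsElementaryAbelian p (V ⊔ (A ⊓ Subgroup.centralizer (V : Set G))) :=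
    H2.isElementaryAbelian_sup hV (H18.isElementaryAbelian_mono hA.2.1 inf_le_left) hcomm
  refine hA.of_card_eq le_top hE ?_
  · have h1 := H2.card_sup_mul_card_inf_of_comm hcomm
    have h2 : Nat.card ↥(V ⊓ (A ⊓ Subgroup.centralizer (V : Set G))) ≤ Nat.card ↥(V ⊓ Subgroup.centralizer (A : Set G)) := by
      apply Subgroup.card_le_of_le
      rintro x ⟨hx1, hx2, -⟩
      refine ⟨hx1, ?_⟩
      show x ∈ Subgroup.centralizer (A : Set G)
      rw [Subgroup.mem_centralizer_iff]
      exact fun a ha => EAIn_comm hA a ha x hx2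
    have h3 := QA.card_img (ρ := QuotientGroup.mk' (Subgroup.centralizer (V : Set G))) (N := ⊤) (A := A) le_top
    rw [QuotientGroup.ker_mk', inf_comm] at h3
    have h4 : Nat.card (img (QuotientGroup.mk' (Subgroup.centralizer (V : Set G))) ⊤ A) *
        Nat.card ↥(V ⊓ Subgroup.centralizer (A : Set G)) = Nat.card V := by
      have h5 := hOF.2
      rw [hqa.fixS_img le_top, Wn.card_fixS] at h5
      exact h5
    have hpos : 0 < Nat.card ↥(V ⊓ Subgroup.centralizer (A : Set G)) := Nat.card_pos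
    refine Nat.le_of_mul_le_mul_right ?_ hpos
    calc Nat.card A * Nat.card ↥(V ⊓ Subgroup.centralizer (A : Set G))
        = Nat.card ↥(A ⊓ Subgroup.centralizer (V : Set G)) * (Nat.card (img (QuotientGroup.mk' (Subgroup.centralizer (V : Set G))) ⊤ A) *
        Nat.card ↥(V ⊓ Subgroup.centralizer (A : Set G))) := by rw [← h3]; ring
      _ = Nat.card V * Nat.card ↥(A ⊓ Subgroup.centralizer (V : Set G)) := by rw [h4]; ring
      _ = _ := h1.symm
      _ ≤ _ := Nat.mul_le_mul_left _ h2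

end

end Cfsg.Agent.H19.FF
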