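import Mathlib
import Cfsg.Agent.H19.CLarge

/-!
# A minimal centrally large subgroup normalized by the Thompson subgroup
-/

set_option autoImplicit false
set_option linter.style.haveILetI false

namespace Cfsg.Agent.H19

open Subgroup
open scoped Pointwise

variable {G : Type*} [Group G]

/-- If every element of `C` is a product `u w`, then `|C||U ∩ W| ≤ |U||W|`. -/
theorem card_le_of_forall_mul [Finite G] {U W C : Subgroup G} (hU : U ≤ C) (hW : W ≤ C)
    (h : ∀ c ∈ C, ∃ u ∈ U, ∃ w ∈ W, u * w = c) :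
    Nat.card C * Nat.card (U ⊓ W : Subgroup G) ≤ Nat.card U * Nat.card W := by
  have h1 := card_inf_mul_relIndex U W
  have h2 : Nat.card U * U.relIndex C = Nat.card C := card_relIndex hU
  have h3 : U.relIndex C ≤ U.relIndex W := by
    let φ := Subgroup.quotientSubgroupOfEmbeddingOfLE U hW
    have hsurj : Function.Surjective φ := by
      intro q
      obtain ⟨⟨c, hc⟩, rfl⟩ := QuotientGroup.mk_surjective q
      obtain ⟨u, hu, w, hw, huw⟩ := h c⁻¹ (inv_mem hc)
      refine ⟨QuotientGroup.mk ⟨w⁻¹, inv_mem hw⟩, ?_⟩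
      change (QuotientGroup.mk (⟨w⁻¹, hW (inv_mem hw)⟩ : C) : C ⧸ U.subgroupOf C) = QuotientGroup.mk ⟨c, hc⟩
      rw [QuotientGroup.eq, mem_subgroupOf]
      change (w⁻¹)⁻¹ * c ∈ U
      have : (w⁻¹)⁻¹ * c = u⁻¹ := by
        have e : c = w⁻¹ * u⁻¹ := by
          have := congrArg (·⁻¹) huw
          simp only [mul_inv_rev, inv_inv] at this
          exact this.symm
        rw [e]; group
      rw [this]
      exact inv_mem hu
    exact Nat.card_le_card_of_surjective φ hsurj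
  calc Nat.card C * Nat.card (U ⊓ W : Subgroup G)
      = (Nat.card U * U.relIndex C) * Nat.card (U ⊓ W : Subgroup G) := by rw [h2]
    _ ≤ (Nat.card U * U.relIndex W) * Nat.card (U ⊓ W : Subgroup G) := by gcongr
    _ = Nat.card U * (Nat.card (U ⊓ W : Subgroup G) * U.relIndex W) := by ring
    _ = _ := by rw [h1]

theorem card_eq_of_forall_mul [Finite G] {U W C : Subgroup G} (hU : U ≤ C) (hW : W ≤ C)
    (h : ∀ c ∈ C, ∃ u ∈ U, ∃ w ∈ W, u * w = c) :
    Nat.card C * Nat.card (U ⊓ W : Subgroup G) = Nat.card U * Nat.card W :=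
  le_antisymm (card_le_of_forall_mul hU hW h) (card_mul_card_le hU hW)

/-- counting with an almost-homomorphism into an abelian group -/
theorem card_count [Finite G] {A T N M A₁ : Subgroup G} (hT : ∀ x ∈ T, ∀ y ∈ T, x * y = y * x)
    (hNM : N ≤ M) (hMT : M ≤ T) (d : G → G) (hd : ∀ a ∈ A, d a ∈ M)
    (hmul : ∀ a ∈ A, ∀ b ∈ A, ∃ n ∈ N, d (a * b) = d a * d b * n)
    (hA₁ : ∀ a ∈ A, d a ∈ N → a ∈ A₁) :
    Nat.card A * Nat.card N ≤ Nat.card A₁ * Nat.card M := by
  haveI hn : (N.subgroupOf M).Normal := by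
    refine ⟨fun x hx g => ?_⟩
    rw [mem_subgroupOf] at hx ⊢
    have : ((g * x * g⁻¹ : M) : G) = x := by
      push_cast
      rw [hT _ (hMT g.2) _ (hMT x.2)]; group
    rw [this]; exact hx
  let ρ : A →* (M ⧸ N.subgroupOf M) :=
    MonoidHom.mk' (fun a => QuotientGroup.mk ⟨d a, hd a a.2⟩) (by
      intro a b
      obtain ⟨n, hn, h⟩ := hmul a a.2 b b.2
      rw [← QuotientGroup.mk_mul, QuotientGroup.eq, mem_subgroupOf]
      have : (((⟨d ((a * b : A) : G), hd _ (a * b).2⟩ : M)⁻¹ * (⟨d a, hd a a.2⟩ * ⟨d b, hd b b.2⟩) : M) : G) = n⁻¹ := by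
        push_cast
        rw [h]; group
      rw [this]
      exact inv_mem hn)
  have h1 : Nat.card A = Nat.card ρ.ker * Nat.card ρ.range := by
    rw [mul_comm, ← Nat.card_congr (QuotientGroup.quotientKerEquivRange ρ).toEquiv]
    exact Subgroup.card_eq_card_quotient_mul_card_subgroup _
  have h2 : Nat.card ρ.ker ≤ Nat.card A₁ := by
    have h3 : ρ.ker.map A.subtype ≤ A₁ := by
      rintro _ ⟨a, ha, rfl⟩
      apply hA₁ a a.2
      have h4 : ρ a = 1 := ha
      have h5 : (QuotientGroup.mk (⟨d a, hd a a.2⟩ : M) : M ⧸ N.subgroupOf M) = 1 := h4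
      rw [QuotientGroup.eq_one_iff, mem_subgroupOf] at h5
      exact h5
    calc Nat.card ρ.ker = Nat.card (ρ.ker.map A.subtype) :=
          Nat.card_congr (ρ.ker.equivMapOfInjective A.subtype A.subtype_injective).toEquiv
      _ ≤ _ := Subgroup.card_le_of_le h3
  have h3 : Nat.card ρ.range * Nat.card N ≤ Nat.card M := by
    have h4 : Nat.card ρ.range ≤ Nat.card (M ⧸ N.subgroupOf M) := Subgroup.card_le_card_group _
    have h5 : Nat.card (M ⧸ N.subgroupOf M) * Nat.card N = Nat.card M := by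
      rw [← H1.card_subgroupOf hNM]
      exact (Subgroup.card_eq_card_quotient_mul_card_subgroup _).symm
    calc _ ≤ Nat.card (M ⧸ N.subgroupOf M) * Nat.card N := by gcongr
      _ = _ := h5
  calc Nat.card A * Nat.card N = Nat.card ρ.ker * (Nat.card ρ.range * Nat.card N) := by rw [h1]; ring
    _ ≤ _ := by gcongr

/-- the family of abelian members of the lattice of measure-largest subgroups -/
def AbL (L : Subgroup G) : Prop := Cfsg.IsCentralizerLarge L ∧ ∀ x ∈ L, ∀ y ∈ L, x * y = y * x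

theorem AbL.le_centralizer {L : Subgroup G} (h : AbL L) : L ≤ centralizer (L : Set G) := by
  intro x hx
  rw [mem_centralizer_iff]
  intro y hy
  exact h.2 y hy x hx

theorem AbL.cc [Finite G] {L : Subgroup G} (h : AbL L) :
    centralizer ((centralizer (L : Set G) : Subgroup G) : Set G) = L := (large_centralizer h.1).2.symm

theorem AbL.cl [Finite G] {L : Subgroup G} (h : AbL L) : Cfsg.IsCentrallyLarge (centralizer (L : Set G)) := by
  rw [cl_iff]
  refine ⟨(large_centralizer h.1).1, ?_⟩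
  rw [h.cc]
  exact h.le_centralizer

theorem AbL.of_le [Finite G] {L M : Subgroup G} (h : AbL L) (hM : Cfsg.IsCentralizerLarge M) (hle : M ≤ L) : AbL M :=
  ⟨hM, fun x hx y hy => h.2 x (hle hx) y (hle hy)⟩

theorem AbL.inf_maxAb [Finite G] {T A : Subgroup G} (hT : AbL T) (hA : A ∈ Cfsg.maxAbelianSubgroups G) :
    AbL (T ⊓ A) ∧ centralizer ((T ⊓ A : Subgroup G) : Set G) = centralizer (T : Set G) ⊔ A ∧
    ((centralizer (T : Set G) ⊔ A : Subgroup G) : Set G) = (centralizer (T : Set G) : Set G) * (A : Set G) := by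
  obtain ⟨h1, h2, h3, h4⟩ := cl_sup_maxAb hT.cl hA
  have h5 : centralizer ((centralizer (T : Set G) ⊔ A : Subgroup G) : Set G) = T ⊓ A := by
    rw [centralizer_sup, hT.cc, maxAb_centralizer hA]
  have h6 := large_centralizer ((cl_iff _).mp h2).1
  rw [h5] at h6
  exact ⟨hT.of_le h6.1 inf_le_left, h6.2.symm, h1⟩

theorem AbL.sup_maxAb [Finite G] {T A : Subgroup G} (hT : AbL T) (hA : A ∈ Cfsg.maxAbelianSubgroups G) :
    (T ⊔ (centralizer (T : Set G) ⊓ A)) ∈ Cfsg.maxAbelianSubgroups G ∧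
    ((T ⊔ (centralizer (T : Set G) ⊓ A) : Subgroup G) : Set G) = (T : Set G) * ((centralizer (T : Set G) ⊓ A : Subgroup G) : Set G) := by
  obtain ⟨h1, h2, h3, h4⟩ := cl_sup_maxAb hT.cl hA
  rw [hT.cc] at h3 h4
  exact ⟨h3, h4⟩

/-- if `T ∩ A ≤ L` then `C(L) = C(T) C_A(L)` -/
theorem AbL.exists_mul [Finite G] {L T A : Subgroup G} (hLT : L ≤ T) (hT : AbL T)
    (hA : A ∈ Cfsg.maxAbelianSubgroups G) (h : T ⊓ A ≤ L) {x : G} (hx : x ∈ centralizer (L : Set G)) :
    ∃ c ∈ centralizer (T : Set G), ∃ b ∈ A ⊓ centralizer (L : Set G), c * b = x := by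
  obtain ⟨h1, h2, h3⟩ := hT.inf_maxAb hA
  have h4 : x ∈ centralizer ((T ⊓ A : Subgroup G) : Set G) :=
    Subgroup.centralizer_le (SetLike.coe_subset_coe.mpr h) hx
  have h5 : x ∈ (centralizer (T : Set G) : Set G) * (A : Set G) := by
    rw [← h3, ← h2]; exact h4
  obtain ⟨c, hc, b, hb, hcb⟩ := h5
  have hcb' : c * b = x := hcb
  refine ⟨c, hc, b, mem_inf.mpr ⟨hb, ?_⟩, hcb'⟩
  have : b = c⁻¹ * x := by rw [← hcb']; group
  rw [this]
  exact mul_mem (inv_mem (Subgroup.centralizer_le (SetLike.coe_subset_coe.mpr hLT) hc)) hx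

/-- `T` covers `L` in the lattice -/
def Cov (L T : Subgroup G) : Prop := L < T ∧ ∀ M : Subgroup G, Cfsg.IsCentralizerLarge M → L ≤ M → M ≤ T → M = L ∨ M = T

theorem sup_mem_iff_mul {T N : Subgroup G} (h : ((T ⊔ N : Subgroup G) : Set G) = (T : Set G) * (N : Set G)) {x : G} :
    x ∈ T ⊔ N ↔ ∃ t ∈ T, ∃ n ∈ N, t * n = x := by
  constructor
  · intro hx
    have : x ∈ (T : Set G) * (N : Set G) := by rw [← h]; exact hx
    obtain ⟨t, ht, n, hn, e⟩ := this
    exact ⟨t, ht, n, hn, e⟩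
  · rintro ⟨t, ht, n, hn, rfl⟩
    exact mul_mem ((le_sup_left : T ≤ T ⊔ N) ht) ((le_sup_right : N ≤ T ⊔ N) hn)

open scoped commutatorElement in
/-- **Claim Y** -/
theorem claimY [Finite G] [Group.IsNilpotent G] {L T A : Subgroup G} (hL : AbL L) (hT : AbL T)
    (hA : A ∈ Cfsg.maxAbelianSubgroups G) (hcov : Cov L T) (hAL : A ≤ normalizer (L : Set G))
    (hAT : A ≤ normalizer (T : Set G)) : ∀ a ∈ A, ∀ t ∈ T, a * t * a⁻¹ * t⁻¹ ∈ L := by
  classical
  have hLT : L ≤ T := hcov.1.le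
  have hAcomm := maxAb_comm hA
  have hTcomm := hT.2
  have hAL' : ∀ a ∈ A, ∀ l ∈ L, a * l * a⁻¹ ∈ L := fun a ha l hl => (mem_normalizer_iff.mp (hAL ha) l).mp hl
  have hAT' : ∀ a ∈ A, ∀ l ∈ T, a * l * a⁻¹ ∈ T := fun a ha l hl => (mem_normalizer_iff.mp (hAT ha) l).mp hl
  by_cases hTA : T ⊓ A ≤ L
  swap
  · -- then `T = L (T ∩ A)`
    have h1 := (hT.inf_maxAb hA).1
    have h2 := large_sup_inf hL.1 h1.1
    rcases hcov.2 _ h2.1 le_sup_left (sup_le hLT inf_le_left) with h | h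
    · exact absurd (le_sup_right.trans h.le) hTA
    · intro a ha t ht
      rw [← h, sup_mem_iff_mul (large_sup_coe hL.1 h1.1)] at ht
      obtain ⟨l, hl, b, hb, rfl⟩ := ht
      have h3 : a * b = b * a := hAcomm a ha b hb.2
      have h4 : a * (l * b) * a⁻¹ * (l * b)⁻¹ = a * l * a⁻¹ * l⁻¹ := by
        calc a * (l * b) * a⁻¹ * (l * b)⁻¹ = a * l * (b * a⁻¹) * b⁻¹ * l⁻¹ := by group
          _ = a * l * (a⁻¹ * b) * b⁻¹ * l⁻¹ := by
              rw [show b * a⁻¹ = a⁻¹ * b from by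
                rw [mul_inv_eq_iff_eq_mul, mul_assoc, ← h3]; group]
          _ = _ := by group
      rw [h4]
      exact mul_mem (hAL' a ha l hl) (inv_mem hl)
  -- main case
  by_contra hcon
  push Not at hcon
  obtain ⟨a₀, ha₀, t₀, ht₀, hat₀⟩ := hcon
  let D : G → G → G := fun a x => a * x * a⁻¹ * x⁻¹
  have hDdef : ∀ a x, D a x = a * x * a⁻¹ * x⁻¹ := fun _ _ => rfl
  have hDT : ∀ a ∈ A, ∀ x ∈ T, D a x ∈ T := fun a ha x hx => mul_mem (hAT' a ha x hx) (inv_mem hx)
  have hDL : ∀ a ∈ A, ∀ x ∈ L, D a x ∈ L := fun a ha x hx => mul_mem (hAL' a ha x hx) (inv_mem hx)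
  -- multiplicativity in `x`
  have hDmul : ∀ a ∈ A, ∀ x ∈ T, ∀ y ∈ T, D a (x * y) = D a x * D a y := by
    intro a ha x hx y hy
    have h1 := hTcomm (D a y) (hDT a ha y hy) x⁻¹ (inv_mem hx)
    rw [hDdef, hDdef, hDdef]
    calc a * (x * y) * a⁻¹ * (x * y)⁻¹ = a * x * a⁻¹ * ((a * y * a⁻¹ * y⁻¹) * x⁻¹) := by group
      _ = a * x * a⁻¹ * (x⁻¹ * (a * y * a⁻¹ * y⁻¹)) := by rw [← hDdef a y, h1]
      _ = _ := by group
  have hDinv : ∀ a ∈ A, ∀ x ∈ T, D a x⁻¹ = (D a x)⁻¹ := by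
    intro a ha x hx
    have h1 := hDmul a ha x hx x⁻¹ (inv_mem hx)
    have h2 : D a (x * x⁻¹) = 1 := by rw [hDdef]; group
    rw [h2] at h1
    exact (inv_eq_of_mul_eq_one_right h1.symm).symm
  -- commutation
  have hDcomm : ∀ a ∈ A, ∀ b ∈ A, ∀ x ∈ T, D a (D b x) = D b (D a x) := by
    intro a ha b hb x hx
    have key : ∀ a ∈ A, ∀ b ∈ A, D a (D b x) = ((a * b) * x * (a * b)⁻¹ * x) * ((a * x * a⁻¹)⁻¹ * (b * x * b⁻¹)⁻¹) := by
      intro a ha b hb
      have h1 : D a (D b x) = D a (b * x * b⁻¹) * D a x⁻¹ := by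
        rw [hDdef b x]; exact hDmul a ha _ (hAT' b hb x hx) _ (inv_mem hx)
      rw [h1, hDinv a ha x hx, hDdef, hDdef]
      have m1 : a * (b * x * b⁻¹) * a⁻¹ ∈ T := hAT' a ha _ (hAT' b hb x hx)
      have m2 : b * x * b⁻¹ ∈ T := hAT' b hb x hx
      have m3 : a * x * a⁻¹ ∈ T := hAT' a ha x hx
      calc a * (b * x * b⁻¹) * a⁻¹ * (b * x * b⁻¹)⁻¹ * (a * x * a⁻¹ * x⁻¹)⁻¹
          = (a * (b * x * b⁻¹) * a⁻¹) * ((b * x * b⁻¹)⁻¹ * (x * (a * x * a⁻¹)⁻¹)) := by group
        _ = (a * (b * x * b⁻¹) * a⁻¹) * ((x * (a * x * a⁻¹)⁻¹) * (b * x * b⁻¹)⁻¹) := by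
            rw [hTcomm _ (inv_mem m2) _ (mul_mem hx (inv_mem m3))]
        _ = _ := by group
    rw [key a ha b hb, key b hb a ha, hAcomm a ha b hb,
      hTcomm _ (inv_mem (hAT' a ha x hx)) _ (inv_mem (hAT' b hb x hx))]
  -- multiplicativity in `a`
  have hDmul2 : ∀ a b x, D (a * b) x = D a (D b x) * D b x * D a x := by
    intro a b x
    simp only [hDdef]
    group
  -- `F₀`
  let F₀ : Set G := {x | x ∈ T ∧ ∀ a ∈ A, D a x ∈ L}
  obtain ⟨t, ht, htF, htD⟩ : ∃ t ∈ T, t ∉ F₀ ∧ ∀ a ∈ A, D a t ∈ F₀ := by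
    -- maximal `k` with an element of `T ∩ γ_k` outside of `F₀`
    by_contra hno
    push Not at hno
    have hstep : ∀ k : ℕ, ∃ x ∈ (⊤ : Subgroup G).lowerCentralSeries k, x ∈ T ∧ x ∉ F₀ := by
      intro k
      induction k with
      | zero =>
        refine ⟨t₀, by simp, ht₀, fun h => hat₀ (h.2 a₀ ha₀)⟩
      | succ k ih =>
        obtain ⟨x, hx1, hx2, hx3⟩ := ih
        obtain ⟨a, ha, hax⟩ := hno x hx2 hx3
        refine ⟨D a x, ?_, hDT a ha x hx2, hax⟩
        have h1 : (⁅x, a⁆ : G)⁻¹ = D a x := by rw [commutatorElement_def, hDdef]; group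
        rw [← h1]
        exact inv_mem (Subgroup.commutator_mem_commutator hx1 (mem_top a))
    obtain ⟨n, hn⟩ := Subgroup.nilpotent_iff_lowerCentralSeries.mp (inferInstance : Group.IsNilpotent G)
    obtain ⟨x, hx1, hx2, hx3⟩ := hstep n
    rw [hn, mem_bot] at hx1
    apply hx3
    rw [hx1]
    refine ⟨one_mem _, fun a _ => ?_⟩
    have : D a 1 = 1 := by rw [hDdef]; group
    rw [this]; exact one_mem _
  -- the subgroup `U`
  let U : Subgroup G :=
    { carrier := {u | ∃ a ∈ A, ∃ l ∈ L, u = D a t * l}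
      one_mem' := ⟨1, one_mem _, 1, one_mem _, by rw [hDdef]; group⟩
      mul_mem' := by
        rintro _ _ ⟨a, ha, l, hl, rfl⟩ ⟨b, hb, m, hm, rfl⟩
        refine ⟨a * b, mul_mem ha hb, (D a (D b t))⁻¹ * (l * m), mul_mem (inv_mem ((htD b hb).2 a ha)) (mul_mem hl hm), ?_⟩
        rw [hDmul2]
        have m1 := hDT b hb t ht
        have m2 := hDT a ha t ht
        have m3 := hDT a ha _ m1
        have ml := hLT hl
        calc D a t * l * (D b t * m) = D a t * (l * D b t) * m := by group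
          _ = D a t * (D b t * l) * m := by rw [hTcomm _ ml _ m1]
          _ = (D a t * D b t) * (l * m) := by group
          _ = (D b t * D a t) * (l * m) := by rw [hTcomm _ m1 _ m2]
          _ = D a (D b t) * ((D a (D b t))⁻¹ * (D b t * D a t)) * (l * m) := by group
          _ = D a (D b t) * ((D b t * D a t) * (D a (D b t))⁻¹) * (l * m) := by
              rw [hTcomm _ (inv_mem m3) _ (mul_mem m1 m2)]
          _ = _ := by group
      inv_mem' := by
        rintro _ ⟨a, ha, l, hl, rfl⟩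
        refine ⟨a⁻¹, inv_mem ha, D a⁻¹ (D a t) * l⁻¹, mul_mem ((htD a ha).2 _ (inv_mem ha)) (inv_mem hl), ?_⟩
        have m1 := hDT a ha t ht
        have h0 : D (a⁻¹ * a) t = 1 := by rw [hDdef]; group
        rw [hDmul2] at h0
        have m2 := hDT a⁻¹ (inv_mem ha) t ht
        have m3 := hDT a⁻¹ (inv_mem ha) _ m1
        have h1 : (D a t)⁻¹ = D a⁻¹ t * D a⁻¹ (D a t) := by
          have h2 : D a⁻¹ (D a t) * D a t * D a⁻¹ t = (D a⁻¹ t * D a⁻¹ (D a t)) * D a t := by
            calc _ = D a⁻¹ (D a t) * D a t * D a⁻¹ t := rfl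
              _ = D a⁻¹ t * (D a⁻¹ (D a t) * D a t) := hTcomm _ (mul_mem m3 m1) _ m2
              _ = _ := by group
          rw [h2] at h0
          exact (eq_inv_of_mul_eq_one_left h0).symm
        rw [mul_inv_rev, h1, hTcomm _ (hLT (inv_mem hl)) _ (mul_mem m2 m3)]
        group }
  have hUmem : ∀ {u : G}, u ∈ U ↔ ∃ a ∈ A, ∃ l ∈ L, u = D a t * l := Iff.rfl
  have hLU : L ≤ U := fun l hl => ⟨1, one_mem _, l, hl, by rw [hDdef]; group⟩
  have hUT : U ≤ T := by
    rintro _ ⟨a, ha, l, hl, rfl⟩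
    exact mul_mem (hDT a ha t ht) (hLT hl)
  have hUF : ∀ u ∈ U, u ∈ F₀ := by
    rintro _ ⟨a, ha, l, hl, rfl⟩
    refine ⟨mul_mem (hDT a ha t ht) (hLT hl), fun b hb => ?_⟩
    rw [hDmul b hb _ (hDT a ha t ht) _ (hLT hl)]
    exact mul_mem ((htD a ha).2 b hb) (hDL b hb l hl)
  set B : Subgroup G := A ⊓ centralizer (L : Set G) with hB
  have hBA : B ≤ A := inf_le_left
  have hBL : ∀ b ∈ B, ∀ l ∈ L, D b l = 1 := by
    intro b hb l hl
    have := mem_centralizer_iff.mp hb.2 l hl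
    rw [hDdef, ← this]; group
  have hCLU : centralizer (U : Set G) ≤ centralizer (L : Set G) := Subgroup.centralizer_le hLU
  -- inequality 1 : `|C(L)||C_B(U)| ≤ |C(U)||B|`
  have i1 : Nat.card (centralizer (L : Set G)) * Nat.card (centralizer (U : Set G) ⊓ B : Subgroup G) ≤
      Nat.card (centralizer (U : Set G)) * Nat.card B := by
    refine card_le_of_forall_mul hCLU inf_le_right ?_
    intro x hx
    obtain ⟨c, hc, b, hb, h⟩ := AbL.exists_mul hLT hT hA hTA hx
    exact ⟨c, Subgroup.centralizer_le hUT hc, b, hb, h⟩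
  -- `A₁`
  let A₁ : Subgroup G :=
    { carrier := {a | a ∈ A ∧ D a t ∈ L}
      one_mem' := ⟨one_mem _, by rw [hDdef]; simp⟩
      mul_mem' := by
        rintro a b ⟨ha, ha2⟩ ⟨hb, hb2⟩
        refine ⟨mul_mem ha hb, ?_⟩
        rw [hDmul2]
        exact mul_mem (mul_mem (hDL a ha _ hb2) hb2) ha2
      inv_mem' := by
        rintro a ⟨ha, ha2⟩
        refine ⟨inv_mem ha, ?_⟩
        have h0 : D (a⁻¹ * a) t = 1 := by rw [hDdef]; group
        rw [hDmul2] at h0
        have h1 : D a⁻¹ t = (D a⁻¹ (D a t) * D a t)⁻¹ := (inv_eq_of_mul_eq_one_right h0).symm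
        rw [h1]
        exact inv_mem (mul_mem (hDL _ (inv_mem ha) _ ha2) ha2) }
  have hA₁A : A₁ ≤ A := fun a ha => ha.1
  -- inequality 2 : `|A||L| ≤ |A₁||U|`
  have i2 : Nat.card A * Nat.card L ≤ Nat.card A₁ * Nat.card U := by
    refine card_count (T := T) hTcomm hLU hUT (fun a => D a t) ?_ ?_ ?_
    · intro a ha
      exact ⟨a, ha, 1, one_mem _, by simp⟩
    · intro a ha b hb
      refine ⟨D a (D b t), (htD b hb).2 a ha, ?_⟩
      have m1 := hDT b hb t ht
      have m2 := hDT a ha t ht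
      have m3 := hDT a ha _ m1
      rw [hDmul2]
      calc D a (D b t) * D b t * D a t = D a (D b t) * (D b t * D a t) := by group
        _ = (D b t * D a t) * D a (D b t) := hTcomm _ m3 _ (mul_mem m1 m2)
        _ = _ := by rw [hTcomm _ m1 _ m2]
    · intro a ha h
      exact ⟨ha, h⟩
  -- inequality 3 : `|B||T ∩ A| ≤ |C_B(U)||C_T(A₁)|`
  have hTAc : ∀ x ∈ T, (∀ a ∈ A, D a x = 1) → x ∈ T ⊓ A := by
    intro x hx h
    refine mem_inf.mpr ⟨hx, ?_⟩
    rw [← maxAb_centralizer hA, mem_centralizer_iff]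
    intro a ha
    have h1 := h a ha
    rw [hDdef] at h1
    calc a * x = (a * x * a⁻¹ * x⁻¹) * (x * a) := by group
      _ = x * a := by rw [h1, one_mul]
  have i3 : Nat.card B * Nat.card (T ⊓ A : Subgroup G) ≤
      Nat.card (centralizer (U : Set G) ⊓ B : Subgroup G) * Nat.card (T ⊓ centralizer (A₁ : Set G) : Subgroup G) := by
    refine card_count (T := T) hTcomm ?_ inf_le_left (fun b => D b t) ?_ ?_ ?_
    · refine le_inf inf_le_left ?_
      rintro x ⟨hx1, hx2⟩
      rw [mem_centralizer_iff]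
      intro a ha
      exact hAcomm a ha.1 x hx2
    · intro b hb
      refine mem_inf.mpr ⟨hDT b (hBA hb) t ht, ?_⟩
      rw [mem_centralizer_iff]
      intro a ha
      have h1 : D a (D b t) = 1 := by
        rw [hDcomm a ha.1 b (hBA hb) t ht]
        exact hBL b hb _ ha.2
      rw [hDdef a] at h1
      calc a * D b t = (a * D b t * a⁻¹ * (D b t)⁻¹) * (D b t * a) := by group
        _ = _ := by rw [h1, one_mul]
    · intro b hb c hc
      have hbA := hBA hb
      have hcA := hBA hc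
      have m1 := hDT c hcA t ht
      have m2 := hDT b hbA t ht
      have m3 := hDT b hbA _ m1
      refine ⟨D b (D c t), ?_, ?_⟩
      · apply hTAc _ m3
        intro a ha
        rw [hDcomm a ha b hbA _ m1]
        exact hBL b hb _ ((htD c hcA).2 a ha)
      · rw [hDmul2]
        calc D b (D c t) * D c t * D b t = D b (D c t) * (D c t * D b t) := by group
          _ = (D c t * D b t) * D b (D c t) := hTcomm _ m3 _ (mul_mem m1 m2)
          _ = _ := by rw [hTcomm _ m1 _ m2]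
    · intro b hb h
      refine mem_inf.mpr ⟨?_, hb⟩
      rw [mem_centralizer_iff]
      rintro _ ⟨a, ha, l, hl, rfl⟩
      have h1 : D b (D a t * l) = 1 := by
        rw [hDmul b (hBA hb) _ (hDT a ha t ht) _ (hLT hl), hBL b hb l hl, mul_one,
          ← hDcomm a ha b (hBA hb) t ht, hDdef a]
        have h2 : a * D b t = D b t * a := hAcomm a ha _ h.2
        rw [h2]; group
      rw [hDdef b] at h1
      have h3 : b * (D a t * l) = (D a t * l) * b := by
        calc b * (D a t * l) = (b * (D a t * l) * b⁻¹ * (D a t * l)⁻¹) * ((D a t * l) * b) := by group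
          _ = _ := by rw [h1, one_mul]
      exact h3.symm
  -- inequality 4 : `|C_T(A₁)||A₁| ≤ |A||T ∩ A|`
  have i4 : Nat.card (T ⊓ centralizer (A₁ : Set G) : Subgroup G) * Nat.card A₁ ≤
      Nat.card A * Nat.card (T ⊓ A : Subgroup G) := by
    have h1 := card_mul_card_le (U := T ⊓ centralizer (A₁ : Set G)) (W := A₁)
      (C := (T ⊓ centralizer (A₁ : Set G)) ⊔ A₁) le_sup_left le_sup_right
    have h2 : Nat.card ((T ⊓ centralizer (A₁ : Set G)) ⊔ A₁ : Subgroup G) ≤ Nat.card A := by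
      apply hA.2
      apply isMulCommutative_of
      refine comm_sup (fun x hx y hy => hTcomm x hx.1 y hy.1) (fun x hx y hy => hAcomm x hx.1 y hy.1) ?_
      intro x hx y hy
      exact (mem_centralizer_iff.mp hx.2 y hy).symm
    have h3 : Nat.card ((T ⊓ centralizer (A₁ : Set G)) ⊓ A₁ : Subgroup G) ≤ Nat.card (T ⊓ A : Subgroup G) :=
      Subgroup.card_le_of_le (le_inf (inf_le_left.trans inf_le_left) (inf_le_right.trans hA₁A))
    exact h1.trans (Nat.mul_le_mul h2 h3)
  -- combine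
  have hfin : cdm L ≤ cdm U := by
    unfold cdm
    set p1 := Nat.card (centralizer (L : Set G)) with hp1
    set p2 := Nat.card (centralizer (U : Set G) ⊓ B : Subgroup G) with hp2
    set p3 := Nat.card (centralizer (U : Set G)) with hp3
    set p4 := Nat.card B with hp4
    set p5 := Nat.card (T ⊓ A : Subgroup G) with hp5
    set p6 := Nat.card (T ⊓ centralizer (A₁ : Set G) : Subgroup G) with hp6
    set p7 := Nat.card A₁ with hp7
    set p8 := Nat.card A with hp8
    set p9 := Nat.card L with hp9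
    set p10 := Nat.card U with hp10
    have hpos : 0 < p2 * p4 * p5 * p6 * p7 * p8 := by
      have := Nat.card_pos (α := (centralizer (U : Set G) ⊓ B : Subgroup G))
      have := Nat.card_pos (α := B)
      have := Nat.card_pos (α := (T ⊓ A : Subgroup G))
      have := Nat.card_pos (α := (T ⊓ centralizer (A₁ : Set G) : Subgroup G))
      have := Nat.card_pos (α := A₁)
      have := Nat.card_pos (α := A)
      positivity
    refine Nat.le_of_mul_le_mul_left ?_ hpos
    have j1 := Nat.mul_le_mul i1 i3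
    have j2 := Nat.mul_le_mul i4 i2
    have j3 := Nat.mul_le_mul j1 j2
    calc p2 * p4 * p5 * p6 * p7 * p8 * (p9 * p1) = p1 * p2 * (p4 * p5) * (p6 * p7 * (p8 * p9)) := by ring
      _ ≤ p3 * p4 * (p2 * p6) * (p8 * p5 * (p7 * p10)) := j3
      _ = _ := by ring
  have hUl : Cfsg.IsCentralizerLarge U := by
    rw [large_iff]
    exact le_antisymm (cdm_le_max U) ((large_iff.mp hL.1) ▸ hfin)
  rcases hcov.2 U hUl hLU hUT with h | h
  · apply htF
    refine ⟨ht, fun a ha => ?_⟩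
    have : D a t ∈ U := ⟨a, ha, 1, one_mem _, by simp⟩
    rw [h] at this
    exact this
  · exact htF (hUF t (h ▸ ht))

end Cfsg.Agent.H19
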