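import Mathlib
import Cfsg.Agent.H19.CLarge2

/-!
# A minimal centrally large subgroup normalized by the Thompson subgroup, part 2
-/

set_option autoImplicit false
set_option linter.style.haveILetI false

namespace Cfsg.Agent.H19

open Subgroup
open scoped Pointwise

variable {G : Type*} [Group G]

theorem le_normalizer_of_forall {A M : Subgroup G} (h : ∀ a ∈ A, ∀ m ∈ M, a * m * a⁻¹ ∈ M) :
    A ≤ normalizer (M : Set G) := by
  intro a ha
  rw [mem_normalizer_iff]
  intro m
  refine ⟨h a ha m, fun hm => ?_⟩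
  have h1 := h a⁻¹ (inv_mem ha) _ hm
  have : a⁻¹ * (a * m * a⁻¹) * a⁻¹⁻¹ = m := by group
  rwa [this] at h1

theorem centralizer_conj_smul (g : G) (C : Subgroup G) :
    centralizer ((MulAut.conj g • C : Subgroup G) : Set G) = MulAut.conj g • centralizer (C : Set G) := by
  ext y
  rw [H1.mem_conj_smul, mem_centralizer_iff, mem_centralizer_iff]
  constructor
  · intro h c hc
    have h1 := h (g * c * g⁻¹) (H1.conj_mem_conj_smul hc)
    calc c * (g⁻¹ * y * g) = g⁻¹ * (g * c * g⁻¹ * y) * g := by group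
      _ = g⁻¹ * (y * (g * c * g⁻¹)) * g := by rw [h1]
      _ = _ := by group
  · intro h c hc
    have h1 := h _ (H1.mem_conj_smul.mp hc)
    calc c * y = g * ((g⁻¹ * c * g) * (g⁻¹ * y * g)) * g⁻¹ := by group
      _ = g * ((g⁻¹ * y * g) * (g⁻¹ * c * g)) * g⁻¹ := by rw [h1]
      _ = _ := by group

theorem large_conj {C : Subgroup G} (g : G) (h : Cfsg.IsCentralizerLarge C) :
    Cfsg.IsCentralizerLarge (MulAut.conj g • C) := by
  rw [large_iff] at *
  rw [← h]
  unfold cdm
  rw [H1.card_conj_smul, centralizer_conj_smul, H1.card_conj_smul]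

theorem AbL.conj {C : Subgroup G} (g : G) (h : AbL C) : AbL (MulAut.conj g • C) := by
  refine ⟨large_conj g h.1, fun x hx y hy => ?_⟩
  rw [H1.mem_conj_smul] at hx hy
  have h1 := h.2 _ hx _ hy
  calc x * y = g * ((g⁻¹ * x * g) * (g⁻¹ * y * g)) * g⁻¹ := by group
    _ = g * ((g⁻¹ * y * g) * (g⁻¹ * x * g)) * g⁻¹ := by rw [h1]
    _ = _ := by group

theorem conj_smul_eq_of_mem_normalizer {g : G} {L : Subgroup G} (hg : g ∈ normalizer (L : Set G)) :
    MulAut.conj g • L = L := by
  rwa [H1.mem_normalizer_iff_conj_smul] at hg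

theorem Cov.conj {L T : Subgroup G} {g : G} (hg : g ∈ normalizer (L : Set G)) (h : Cov L T) :
    Cov L (MulAut.conj g • T) := by
  have hL := conj_smul_eq_of_mem_normalizer hg
  have hL' := conj_smul_eq_of_mem_normalizer (inv_mem hg)
  refine ⟨?_, ?_⟩
  · refine lt_of_le_of_ne ?_ ?_
    · have h1 := H1.conj_smul_le_conj_smul_iff (g := g).mpr h.1.le
      rwa [hL] at h1
    · intro he
      apply h.1.ne
      have h1 : MulAut.conj g⁻¹ • L = T := by
        rw [he, H1.conj_smul_smul]; simp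
      rw [← h1, hL']
  · intro M hM h1 h2
    have h3 := h.2 (MulAut.conj g⁻¹ • M) (large_conj _ hM) (by
      have h4 := H1.conj_smul_le_conj_smul_iff (g := g⁻¹).mpr h1
      rwa [hL'] at h4) (by
      have h4 := H1.conj_smul_le_conj_smul_iff (g := g⁻¹).mpr h2
      rw [H1.conj_smul_smul] at h4
      simpa using h4)
    rcases h3 with h3 | h3
    · left
      have h4 := congrArg (fun X => MulAut.conj g • X) h3
      simp only [H1.conj_smul_smul] at h4
      rw [hL] at h4
      simpa using h4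
    · right
      have h4 := congrArg (fun X => MulAut.conj g • X) h3
      simp only [H1.conj_smul_smul] at h4
      simpa using h4

theorem exists_cov_le [Finite G] {L T E A : Subgroup G} (hT : AbL T) (hLT : L < T) (hTE : T ≤ E)
    (hA : ∀ a ∈ A, ∀ t ∈ T, a * t * a⁻¹ * t⁻¹ ∈ L) :
    ∃ T', AbL T' ∧ Cov L T' ∧ T' ≤ E ∧ A ≤ normalizer (T' : Set G) := by
  obtain ⟨M, ⟨hM1, hM2, hM3⟩, hMmin⟩ := (Set.toFinite {M : Subgroup G | Cfsg.IsCentralizerLarge M ∧ L < M ∧ M ≤ T}).exists_minimal
    ⟨T, hT.1, hLT, le_rfl⟩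
  refine ⟨M, hT.of_le hM1 hM3, ⟨hM2, ?_⟩, hM3.trans hTE, ?_⟩
  · intro M' h1 h2 h3
    rcases eq_or_lt_of_le h2 with h | h
    · left; exact h.symm
    · right
      exact le_antisymm h3 (hMmin ⟨h1, h, h3.trans hM3⟩ h3)
  · apply le_normalizer_of_forall
    intro a ha m hm
    have h1 := hA a ha m (hM3 hm)
    have h2 : a * m * a⁻¹ = (a * m * a⁻¹ * m⁻¹) * m := by group
    rw [h2]
    exact mul_mem (hM2.le h1) hm

theorem comm_mod_of_sup_inf [Finite G] {L F A : Subgroup G}
    (hA : A ∈ Cfsg.maxAbelianSubgroups G) (hAL : A ≤ normalizer (L : Set G)) {t : G}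
    (ht : ∃ l ∈ L, ∃ b ∈ F ⊓ A, l * b = t) : ∀ a ∈ A, a * t * a⁻¹ * t⁻¹ ∈ L := by
  intro a ha
  obtain ⟨l, hl, b, hb, rfl⟩ := ht
  have h3 : a * b = b * a := maxAb_comm hA a ha b hb.2
  have h4 : a * (l * b) * a⁻¹ * (l * b)⁻¹ = a * l * a⁻¹ * l⁻¹ := by
    calc a * (l * b) * a⁻¹ * (l * b)⁻¹ = a * l * (b * a⁻¹) * b⁻¹ * l⁻¹ := by group
      _ = a * l * (a⁻¹ * b) * b⁻¹ * l⁻¹ := by
          rw [show b * a⁻¹ = a⁻¹ * b from by
            rw [mul_inv_eq_iff_eq_mul, mul_assoc, ← h3]; group]
      _ = _ := by group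
  rw [h4]
  exact mul_mem ((mem_normalizer_iff.mp (hAL ha) l).mp hl) (inv_mem hl)

/-- **Claim Z** -/
theorem claimZ [Finite G] {L E T A : Subgroup G} (hL : AbL L) (hA : A ∈ Cfsg.maxAbelianSubgroups G)
    (hAL : A ≤ normalizer (L : Set G)) (hAE : A ≤ normalizer (E : Set G)) (hT : AbL T) (hcov : Cov L T)
    (hTE : T ≤ E) : ∃ T', AbL T' ∧ Cov L T' ∧ T' ≤ E ∧ A ≤ normalizer (T' : Set G) := by
  classical
  have hLT : L ≤ T := hcov.1.le
  have hAcomm := maxAb_comm hA
  by_cases hTA : T ⊓ A ≤ L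
  swap
  · have h1 := (hT.inf_maxAb hA).1
    have h2 := large_sup_inf hL.1 h1.1
    rcases hcov.2 _ h2.1 le_sup_left (sup_le hLT inf_le_left) with h | h
    · exact absurd (le_sup_right.trans h.le) hTA
    · refine exists_cov_le hT hcov.1 hTE ?_
      intro a ha t ht
      rw [← h, sup_mem_iff_mul (large_sup_coe hL.1 h1.1)] at ht
      exact comm_mod_of_sup_inf hA hAL ht a ha
  by_cases hinv : ∀ a ∈ A, MulAut.conj a • T = T
  · exact ⟨T, hT, hcov, hTE, fun a ha => H1.mem_normalizer_iff_conj_smul.mpr (hinv a ha)⟩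
  push Not at hinv
  obtain ⟨a, ha, haT⟩ := hinv
  have hLa := conj_smul_eq_of_mem_normalizer (hAL ha)
  set S := MulAut.conj a • T with hS
  have hSab : AbL S := hT.conj a
  have hScov : Cov L S := hcov.conj (hAL ha)
  have hSE : S ≤ E := by
    have h1 := H1.conj_smul_le_conj_smul_iff (g := a).mpr hTE
    rwa [conj_smul_eq_of_mem_normalizer (hAE ha)] at h1
  have hLS : L ≤ S := hScov.1.le
  have hTc : T ≤ centralizer (L : Set G) := hT.le_centralizer.trans (Subgroup.centralizer_le hLT)
  have hSc : S ≤ centralizer (L : Set G) := hSab.le_centralizer.trans (Subgroup.centralizer_le hLS)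
  -- the key remark
  have key : ∀ b ∈ A, b ∈ centralizer (T : Set G) → b ∈ centralizer (S : Set G) := by
    intro b hb h
    rw [hS, centralizer_conj_smul, H1.mem_conj_smul]
    have : a⁻¹ * b * a = b := by
      rw [mul_assoc, hAcomm b hb a ha]; group
    rwa [this]
  have hFl := large_sup_inf hT.1 hSab.1
  have hFset := large_sup_coe hT.1 hSab.1
  set F := T ⊔ S with hF
  have hTF : T ≤ F := le_sup_left
  have hSF : S ≤ F := le_sup_right
  have hFc : F ≤ centralizer (L : Set G) := sup_le hTc hSc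
  have hFE : F ≤ E := sup_le hTE hSE
  by_cases hTS : S ≤ centralizer (T : Set G)
  · -- the abelian case
    have hFab : AbL F := by
      refine ⟨hFl.1, comm_sup hT.2 hSab.2 ?_⟩
      intro x hx y hy
      exact mem_centralizer_iff.mp (hTS hy) x hx
    have h1 := (hFab.inf_maxAb hA).1
    have h2 := (large_sup_inf hL.1 h1.1).1
    have hLF : L ≤ F := hLT.trans hTF
    have h3 : AbL (L ⊔ (F ⊓ A)) := hFab.of_le h2 (sup_le hLF inf_le_left)
    refine exists_cov_le h3 (lt_of_le_of_ne le_sup_left ?_) ((sup_le hLF inf_le_left).trans hFE) ?_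
    · intro he
      have hFA : F ⊓ A ≤ L := le_sup_right.trans he.ge
      apply haT
      have h4 : centralizer (T : Set G) ≤ centralizer (F : Set G) := by
        intro x hx
        obtain ⟨c, hc, b, hb, hcb⟩ := AbL.exists_mul hLF hFab hA hFA (Subgroup.centralizer_le hLT hx)
        have hbT : b ∈ centralizer (T : Set G) := by
          have : b = c⁻¹ * x := by rw [← hcb]; group
          rw [this]
          exact mul_mem (inv_mem (Subgroup.centralizer_le hTF hc)) hx
        have hbF : b ∈ centralizer (F : Set G) := by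
          rw [hF, centralizer_sup]
          exact mem_inf.mpr ⟨hbT, key b hb.1 hbT⟩
        rw [← hcb]
        exact mul_mem hc hbF
      have h5 : F ≤ T := by
        have h6 := Subgroup.centralizer_le (SetLike.coe_subset_coe.mpr h4)
        rwa [hFab.cc, hT.cc] at h6
      exact Subgroup.eq_of_le_of_card_ge (hSF.trans h5) (by rw [hS, H1.card_conj_smul])
    · intro a' ha' t ht
      rw [sup_mem_iff_mul (large_sup_coe hL.1 h1.1)] at ht
      exact comm_mod_of_sup_inf hA hAL ht a' ha'
  -- the nonabelian case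
  have hTCS : T ⊓ centralizer (S : Set G) = L := by
    rcases hcov.2 (T ⊓ centralizer (S : Set G)) (large_sup_inf hT.1 (large_centralizer hSab.1).1).2
      (le_inf hLT (Subgroup.le_centralizer_iff.mp hSc)) inf_le_left with h | h
    · exact h
    · exact absurd (Subgroup.le_centralizer_iff.mp (inf_eq_left.mp h)) hTS
  have hSCT : S ⊓ centralizer (T : Set G) = L := by
    rcases hScov.2 (S ⊓ centralizer (T : Set G)) (large_sup_inf hSab.1 (large_centralizer hT.1).1).2
      (le_inf hLS (Subgroup.le_centralizer_iff.mp hTc)) inf_le_left with h | h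
    · exact h
    · exact absurd (inf_eq_left.mp h) hTS
  have hFCT : ∀ x ∈ F, x ∈ centralizer (T : Set G) → x ∈ T := by
    intro x hx hxT
    rw [hF, sup_mem_iff_mul hFset] at hx
    obtain ⟨t, ht, s, hs, rfl⟩ := hx
    have h1 : s ∈ centralizer (T : Set G) := by
      have : s = t⁻¹ * (t * s) := by group
      rw [this]
      exact mul_mem (inv_mem (hT.le_centralizer ht)) hxT
    have h2 : s ∈ L := by rw [← hSCT]; exact mem_inf.mpr ⟨hs, h1⟩
    exact mul_mem ht (hLT h2)
  have hFcF : F ⊓ centralizer (F : Set G) = L := by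
    apply le_antisymm
    · rintro x ⟨hx1, hx2⟩
      rw [SetLike.mem_coe, hF, centralizer_sup] at hx2
      have h1 := hFCT x hx1 hx2.1
      rw [← hTCS]
      exact mem_inf.mpr ⟨h1, hx2.2⟩
    · exact le_inf (hLT.trans hTF) (Subgroup.le_centralizer_iff.mp hFc)
  have hprod : ∀ x ∈ centralizer (L : Set G), ∃ f ∈ F, ∃ c ∈ centralizer (F : Set G), f * c = x := by
    intro x hx
    have h1 := large_centralizer_inf hFl.1 (large_centralizer hFl.1).1
    rw [hFcF, ← (large_centralizer hFl.1).2, sup_comm] at h1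
    rw [h1] at hx
    exact (sup_mem_iff_mul (large_sup_coe hFl.1 (large_centralizer hFl.1).1)).mp hx
  -- `A' = L C_A(L)`
  obtain ⟨hA', hA'set⟩ := hL.sup_maxAb hA
  set A' := L ⊔ (centralizer (L : Set G) ⊓ A) with hA'def
  have hA'comm := maxAb_comm hA'
  have hLA' : L ≤ A' := le_sup_left
  have hA'c : A' ≤ centralizer (L : Set G) := sup_le hL.le_centralizer inf_le_left
  obtain ⟨hTB, hTBset⟩ := hT.sup_maxAb hA'
  set B₀ := centralizer (T : Set G) ⊓ A' with hB₀
  have hB₀F : B₀ ≤ centralizer (F : Set G) := by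
    intro y hy
    rw [hF, centralizer_sup]
    refine mem_inf.mpr ⟨hy.1, ?_⟩
    have h1 := (sup_mem_iff_mul hA'set).mp hy.2
    obtain ⟨l, hl, b, hb, hlb⟩ := h1
    have hlT : l ∈ centralizer (T : Set G) := hT.le_centralizer (hLT hl)
    have hlS : l ∈ centralizer (S : Set G) := hSab.le_centralizer (hLS hl)
    have hbT : b ∈ centralizer (T : Set G) := by
      have : b = l⁻¹ * y := by rw [← hlb]; group
      rw [this]
      exact mul_mem (inv_mem hlT) hy.1
    rw [← hlb]
    exact mul_mem hlS (key b hb.2 hbT)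
  have hTA' : T ⊓ A' = L := by
    apply le_antisymm
    · rintro y ⟨hy1, hy2⟩
      obtain ⟨l, hl, b, hb, hlb⟩ := (sup_mem_iff_mul hA'set).mp hy2
      have hbT : b ∈ T := by
        have : b = l⁻¹ * y := by rw [← hlb]; group
        rw [this]
        exact mul_mem (inv_mem (hLT hl)) hy1
      rw [← hlb]
      exact mul_mem hl (hTA (mem_inf.mpr ⟨hbT, hb.2⟩))
    · exact le_inf hLT hLA'
  -- decomposition of the elements of `A'`
  have hdec : ∀ y ∈ A', ∃ f ∈ F ⊓ A', ∃ c ∈ B₀, f * c = y := by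
    intro y hy
    obtain ⟨x, hx, c, hc, hxc⟩ := hprod y (hA'c hy)
    have hcc : c ∈ centralizer ((T ⊔ B₀ : Subgroup G) : Set G) := by
      rw [centralizer_sup]
      refine mem_inf.mpr ⟨Subgroup.centralizer_le hTF hc, ?_⟩
      have : c = x⁻¹ * y := by rw [← hxc]; group
      rw [this]
      refine mul_mem (inv_mem (Subgroup.le_centralizer_iff.mp hB₀F hx)) ?_
      rw [mem_centralizer_iff]
      intro b hb
      exact hA'comm b hb.2 y hy
    rw [maxAb_centralizer hTB] at hcc
    obtain ⟨t, ht, b, hb, htb⟩ := (sup_mem_iff_mul hTBset).mp hcc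
    have htL : t ∈ L := by
      rw [← hFcF]
      refine mem_inf.mpr ⟨hTF ht, ?_⟩
      have : t = c * b⁻¹ := by rw [← htb]; group
      rw [this]
      exact mul_mem hc (inv_mem (hB₀F hb))
    have hcB : c ∈ B₀ := by
      rw [← htb]
      exact mul_mem (mem_inf.mpr ⟨hT.le_centralizer ht, hLA' htL⟩) hb
    refine ⟨x, mem_inf.mpr ⟨hx, ?_⟩, c, hcB, hxc⟩
    have : x = y * c⁻¹ := by rw [← hxc]; group
    rw [this]
    exact mul_mem hy (inv_mem hcB.2)
  set T' := F ⊓ A' with hT'
  have hLT' : L ≤ T' := le_inf (hLT.trans hTF) hLA'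
  have hB₀A' : B₀ ≤ A' := inf_le_right
  have hLB₀ : L ≤ B₀ := le_inf (Subgroup.le_centralizer_iff.mp hTc) hLA'
  -- cardinalities
  have c1 : Nat.card A' * Nat.card L = Nat.card T' * Nat.card B₀ := by
    have h1 := card_eq_of_forall_mul (U := T') (W := B₀) (C := A') inf_le_right hB₀A' hdec
    have h2 : T' ⊓ B₀ = L := by
      apply le_antisymm
      · rw [← hFcF]
        exact le_inf (inf_le_left.trans inf_le_left) (inf_le_right.trans hB₀F)
      · exact le_inf hLT' hLB₀
    rwa [h2] at h1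
  have c2 : Nat.card A' * Nat.card L = Nat.card T * Nat.card B₀ := by
    have h1 := card_eq_of_forall_mul (U := T) (W := B₀) (C := T ⊔ B₀) le_sup_left le_sup_right
      (fun c hc => (sup_mem_iff_mul hTBset).mp hc)
    have h2 : T ⊓ B₀ = L := by
      apply le_antisymm
      · rw [← hTA']
        exact le_inf inf_le_left (inf_le_right.trans inf_le_right)
      · exact le_inf hLT hLB₀
    rw [h2] at h1
    have h3 : Nat.card (T ⊔ B₀ : Subgroup G) = Nat.card A' := le_antisymm (hA'.2 _ hTB.1) (hTB.2 _ hA'.1)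
    rwa [h3] at h1
  have c3 : Nat.card T' = Nat.card T := Nat.eq_of_mul_eq_mul_right Nat.card_pos (c1.symm.trans c2)
  have c4 : Nat.card (centralizer (T' : Set G)) * Nat.card L = Nat.card T' * Nat.card (centralizer (F : Set G)) := by
    have h1 := card_eq_of_forall_mul (U := T') (W := centralizer (F : Set G)) (C := centralizer (T' : Set G))
      (by intro x hx; rw [mem_centralizer_iff]; intro y hy; exact hA'comm y hy.2 x hx.2)
      (Subgroup.centralizer_le (inf_le_left : T' ≤ F)) (by
        intro y hy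
        obtain ⟨x, hx, c, hc, hxc⟩ := hprod y (Subgroup.centralizer_le hLT' hy)
        refine ⟨x, mem_inf.mpr ⟨hx, ?_⟩, c, hc, hxc⟩
        have hxT' : x ∈ centralizer (T' : Set G) := by
          have : x = y * c⁻¹ := by rw [← hxc]; group
          rw [this]
          exact mul_mem hy (inv_mem (Subgroup.centralizer_le (inf_le_left : T' ≤ F) hc))
        rw [← maxAb_centralizer hA', mem_centralizer_iff]
        intro z hz
        obtain ⟨f, hf, b, hb, rfl⟩ := hdec z hz
        have e1 : f * x = x * f := mem_centralizer_iff.mp hxT' f hf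
        have e2 : x * b = b * x := mem_centralizer_iff.mp (hB₀F hb) x hx
        calc f * b * x = f * (b * x) := by group
          _ = f * (x * b) := by rw [e2]
          _ = (f * x) * b := by group
          _ = (x * f) * b := by rw [e1]
          _ = _ := by group)
    have h2 : T' ⊓ centralizer (F : Set G) = L := by
      apply le_antisymm
      · rw [← hFcF]
        exact le_inf (inf_le_left.trans inf_le_left) inf_le_right
      · exact le_inf hLT' (Subgroup.le_centralizer_iff.mp hFc)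
    rwa [h2] at h1
  have c5 : Nat.card (centralizer (T : Set G)) * Nat.card L = Nat.card T * Nat.card (centralizer (F : Set G)) := by
    have h1 := card_eq_of_forall_mul (U := T) (W := centralizer (F : Set G)) (C := centralizer (T : Set G))
      hT.le_centralizer (Subgroup.centralizer_le hTF) (by
        intro y hy
        obtain ⟨x, hx, c, hc, hxc⟩ := hprod y (Subgroup.centralizer_le hLT hy)
        refine ⟨x, hFCT x hx ?_, c, hc, hxc⟩
        have : x = y * c⁻¹ := by rw [← hxc]; group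
        rw [this]
        exact mul_mem hy (inv_mem (Subgroup.centralizer_le hTF hc)))
    have h2 : T ⊓ centralizer (F : Set G) = L := by
      apply le_antisymm
      · rw [← hFcF]
        exact le_inf (inf_le_left.trans hTF) inf_le_right
      · exact le_inf hLT (Subgroup.le_centralizer_iff.mp hFc)
    rwa [h2] at h1
  have c6 : Nat.card (centralizer (T' : Set G)) = Nat.card (centralizer (T : Set G)) := by
    rw [c3] at c4
    exact Nat.eq_of_mul_eq_mul_right Nat.card_pos (c4.trans c5.symm)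
  have hT'l : AbL T' := by
    refine ⟨?_, fun x hx y hy => hA'comm x hx.2 y hy.2⟩
    have h1 := large_iff.mp hT.1
    rw [large_iff, ← h1]
    unfold cdm
    rw [c3, c6]
  refine exists_cov_le hT'l (lt_of_le_of_ne hLT' ?_) ((inf_le_left : T' ≤ F).trans hFE) ?_
  · intro he
    have h1 : Nat.card L = Nat.card T' := congrArg (fun X : Subgroup G => Nat.card X) he
    rw [c3] at h1
    exact hcov.1.ne (Subgroup.eq_of_le_of_card_ge hLT h1.ge)
  · intro a' ha' t ht
    obtain ⟨l, hl, b, hb, hlb⟩ := (sup_mem_iff_mul hA'set).mp ht.2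
    exact comm_mod_of_sup_inf (F := ⊤) hA hAL ⟨l, hl, b, mem_inf.mpr ⟨mem_top _, hb.2⟩, hlb⟩ a' ha'

theorem maxAb_conj {A : Subgroup G} (g : G) (hA : A ∈ Cfsg.maxAbelianSubgroups G) :
    MulAut.conj g • A ∈ Cfsg.maxAbelianSubgroups G := by
  refine ⟨isMulCommutative_of fun x hx y hy => ?_, fun B hB => ?_⟩
  · rw [H1.mem_conj_smul] at hx hy
    have h1 := maxAb_comm hA _ hx _ hy
    calc x * y = g * ((g⁻¹ * x * g) * (g⁻¹ * y * g)) * g⁻¹ := by group
      _ = g * ((g⁻¹ * y * g) * (g⁻¹ * x * g)) * g⁻¹ := by rw [h1]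
      _ = _ := by group
  · rw [H1.card_conj_smul]
    exact hA.2 B hB

theorem cl_conj [Finite G] {C : Subgroup G} (g : G) (h : Cfsg.IsCentrallyLarge C) :
    Cfsg.IsCentrallyLarge (MulAut.conj g • C) := by
  rw [cl_iff] at *
  refine ⟨large_conj g h.1, ?_⟩
  rw [centralizer_conj_smul]
  exact H1.conj_smul_le_conj_smul_iff.mpr h.2

/-- elements centralizing modulo `L` -/
theorem centralizes_mod_sSup {L A : Subgroup G} {S : Set (Subgroup G)}
    (hN : ∀ T ∈ S, T ≤ normalizer (L : Set G)) (hS : ∀ T ∈ S, ∀ a ∈ A, ∀ t ∈ T, a * t * a⁻¹ * t⁻¹ ∈ L) :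
    ∀ a ∈ A, ∀ t ∈ sSup S, a * t * a⁻¹ * t⁻¹ ∈ L := by
  let K : Subgroup G :=
    { carrier := {x | x ∈ normalizer (L : Set G) ∧ ∀ a ∈ A, a * x * a⁻¹ * x⁻¹ ∈ L}
      one_mem' := ⟨one_mem _, fun a _ => by simp⟩
      mul_mem' := by
        rintro x y ⟨hx1, hx2⟩ ⟨hy1, hy2⟩
        refine ⟨mul_mem hx1 hy1, fun a ha => ?_⟩
        have e : a * (x * y) * a⁻¹ * (x * y)⁻¹ = (a * x * a⁻¹ * x⁻¹) * (x * (a * y * a⁻¹ * y⁻¹) * x⁻¹) := by group
        rw [e]
        exact mul_mem (hx2 a ha) ((mem_normalizer_iff.mp hx1 _).mp (hy2 a ha))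
      inv_mem' := by
        rintro x ⟨hx1, hx2⟩
        refine ⟨inv_mem hx1, fun a ha => ?_⟩
        have e : a * x⁻¹ * a⁻¹ * x⁻¹⁻¹ = x⁻¹ * (a * x * a⁻¹ * x⁻¹)⁻¹ * x⁻¹⁻¹ := by group
        rw [e]
        exact (mem_normalizer_iff.mp (inv_mem hx1) _).mp (inv_mem (hx2 a ha)) }
  have h : sSup S ≤ K := sSup_le fun T hT t ht => ⟨hN T hT ht, fun a ha => hS T hT a ha t ht⟩
  intro a ha t ht
  exact (h ht).2 a ha

theorem AbL.le_thompson [Finite G] {L : Subgroup G} (hL : AbL L) : L ≤ Cfsg.thompsonSubgroupA G := by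
  obtain ⟨A, hA⟩ := exists_maxAb (G := G)
  exact le_sup_left.trans (le_sSup (hL.sup_maxAb hA).1)

theorem cl_centralizer_AbL [Finite G] {R : Subgroup G} (hR : Cfsg.IsCentrallyLarge R) :
    AbL (centralizer (R : Set G)) := by
  obtain ⟨h1, h2⟩ := (cl_iff R).mp hR
  refine ⟨(large_centralizer h1).1, fun x hx y hy => ?_⟩
  exact (mem_centralizer_iff.mp hx y (h2 hy)).symm

/-- there is a maximal abelian member of the lattice which is normalized by the Thompson subgroup -/
theorem exists_maximal_invariant [Finite G] [Group.IsNilpotent G] :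
    ∃ L : Subgroup G, AbL L ∧ Cfsg.thompsonSubgroupA G ≤ normalizer (L : Set G) ∧
      ∀ M : Subgroup G, AbL M → L ≤ M → M = L := by
  classical
  -- `L` maximal among the `J`-invariant abelian members
  obtain ⟨L, ⟨hL, hJL⟩, hLmax⟩ := (Set.toFinite {L : Subgroup G | AbL L ∧
      Cfsg.thompsonSubgroupA G ≤ normalizer (L : Set G)}).exists_maximal (by
    refine ⟨centralizer (Cfsg.centrallyLargeJoin G : Set G), cl_centralizer_AbL cl_join, ?_⟩
    intro g _
    rw [H1.mem_normalizer_iff_conj_smul, ← centralizer_conj_smul]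
    have h1 : MulAut.conj g • Cfsg.centrallyLargeJoin G ≤ Cfsg.centrallyLargeJoin G :=
      le_sSup (cl_conj g cl_join)
    rw [Subgroup.eq_of_le_of_card_ge h1 (by rw [H1.card_conj_smul])])
  refine ⟨L, hL, hJL, ?_⟩
  intro M₀ hM₀ hLM₀
  by_contra hne
  have hlt : L < M₀ := lt_of_le_of_ne hLM₀ (Ne.symm hne)
  obtain ⟨T₀, hT₀, hcov₀, _, _⟩ := exists_cov_le (E := ⊤) (A := ⊥) hM₀ hlt le_top (by
    intro a ha t _
    rw [mem_bot.mp ha]
    simp)
  have hAL : ∀ A ∈ Cfsg.maxAbelianSubgroups G, A ≤ normalizer (L : Set G) := fun A hA => (le_sSup hA).trans hJL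
  -- `H` maximal
  obtain ⟨H, ⟨hH1, T₁, hT₁, hcov₁, hHT₁⟩, hHmax⟩ := (Set.toFinite {H : Subgroup G |
      H ≤ sSup {A | A ∈ Cfsg.maxAbelianSubgroups G ∧ A ≤ H} ∧
        ∃ T, AbL T ∧ Cov L T ∧ H ≤ normalizer (T : Set G)}).exists_maximal
    ⟨⊥, bot_le, T₀, hT₀, hcov₀, bot_le⟩
  by_cases hex : ∃ A ∈ Cfsg.maxAbelianSubgroups G, A ≤ normalizer (H : Set G) ∧ ¬ A ≤ H
  · obtain ⟨A, hA, hAH, hAnH⟩ := hex
    set 𝓣 : Set (Subgroup G) := {T | AbL T ∧ Cov L T ∧ H ≤ normalizer (T : Set G)} with h𝓣
    have hE : Cfsg.IsCentralizerLarge (sSup 𝓣) :=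
      sSup_mem_of_sup_closed (S := 𝓣) (P := fun X => Cfsg.IsCentralizerLarge X) ⟨T₁, hT₁, hcov₁, hHT₁⟩ (fun T hT => hT.1.1)
        (fun _ _ h1 h2 => (large_sup_inf h1 h2).1)
    have hconj : ∀ a ∈ A, ∀ T ∈ 𝓣, MulAut.conj a • T ∈ 𝓣 := by
      rintro a ha T ⟨h1, h2, h3⟩
      refine ⟨h1.conj a, h2.conj (hAL A hA ha), ?_⟩
      intro h hh
      rw [H1.mem_normalizer_iff_conj_smul, H1.conj_smul_smul]
      have h4 : a⁻¹ * h * a ∈ H := by
        have h5 := (mem_normalizer_iff.mp (inv_mem (hAH ha)) h).mp hh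
        simpa using h5
      have h6 := conj_smul_eq_of_mem_normalizer (h3 h4)
      calc MulAut.conj (h * a) • T = MulAut.conj a • MulAut.conj (a⁻¹ * h * a) • T := by
            rw [H1.conj_smul_smul]; congr 2; group
        _ = _ := by rw [h6]
    have hAE : A ≤ normalizer ((sSup 𝓣 : Subgroup G) : Set G) := by
      intro a ha
      rw [H1.mem_normalizer_iff_conj_smul]
      have h1 : sSup 𝓣 ≤ MulAut.conj a • sSup 𝓣 := by
        refine sSup_le fun T hT => ?_
        have h2 := hconj a⁻¹ (inv_mem ha) T hT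
        have h3 := H1.conj_smul_le_conj_smul_iff (g := a).mpr (le_sSup h2 : MulAut.conj a⁻¹ • T ≤ sSup 𝓣)
        rw [H1.conj_smul_smul] at h3
        simpa using h3
      exact (Subgroup.eq_of_le_of_card_ge h1 (by rw [H1.card_conj_smul])).symm
    obtain ⟨T', hT', hcov', hT'E, hAT'⟩ := claimZ hL hA (hAL A hA) hAE hT₁ hcov₁
      (le_sSup (show T₁ ∈ 𝓣 from ⟨hT₁, hcov₁, hHT₁⟩))
    have hHT' : H ≤ normalizer (T' : Set G) := by
      refine hH1.trans (sSup_le ?_)
      rintro A₁ ⟨hA₁, hA₁H⟩
      have h1 := centralizes_mod_sSup (L := L) (A := A₁) (S := 𝓣)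
        (fun T hT => (hT.1.le_centralizer.trans (Subgroup.centralizer_le hT.2.1.1.le)).trans
          (by intro x hx; rw [mem_normalizer_iff]; intro l
              have hx' := mem_centralizer_iff.mp hx
              constructor
              · intro hl
                have : x * l * x⁻¹ = l := by rw [← hx' l hl]; group
                rw [this]; exact hl
              · intro hl
                have h2 := hx' _ hl
                have : x * l * x⁻¹ = l := by
                  have h3 : x * l * x⁻¹ * x = x * (x * l * x⁻¹) := h2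
                  have h4 : x * l = x * (x * l * x⁻¹) := by rw [← h3]; group
                  exact (mul_left_cancel h4).symm
                rw [← this]; exact hl))
        (fun T hT => claimY hL hT.1 hA₁ hT.2.1 (hAL A₁ hA₁) (hA₁H.trans hT.2.2))
      apply le_normalizer_of_forall
      intro a ha t ht
      have h2 : a * t * a⁻¹ = (a * t * a⁻¹ * t⁻¹) * t := by group
      rw [h2]
      exact mul_mem (hcov'.1.le (h1 a ha t (hT'E ht))) ht
    have h1 := hHmax (y := H ⊔ A) ⟨?_, T', hT', hcov', sup_le hHT' hAT'⟩ le_sup_left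
    · exact hAnH (le_sup_right.trans h1)
    · refine sup_le (hH1.trans (sSup_le_sSup ?_)) (le_sSup ⟨hA, le_sup_right⟩)
      rintro B ⟨hB1, hB2⟩
      exact ⟨hB1, hB2.trans le_sup_left⟩
  · push Not at hex
    have hNN : normalizer ((normalizer (H : Set G) : Subgroup G) : Set G) = normalizer (H : Set G) := by
      apply le_antisymm _ Subgroup.le_normalizer
      intro g hg
      have hg' := conj_smul_eq_of_mem_normalizer (inv_mem hg)
      have h1 : MulAut.conj g⁻¹ • H ≤ H := by
        have h2 : H ≤ MulAut.conj g • H := by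
          refine hH1.trans (sSup_le ?_)
          rintro A ⟨hA, hAH⟩
          have h3 := hex _ (maxAb_conj g⁻¹ hA) (by
            have h4 := H1.conj_smul_le_conj_smul_iff (g := g⁻¹).mpr (hAH.trans (Subgroup.le_normalizer (H := H)))
            rwa [hg'] at h4)
          have h5 := H1.conj_smul_le_conj_smul_iff (g := g).mpr h3
          rw [H1.conj_smul_smul] at h5
          simpa using h5
        have h5 := H1.conj_smul_le_conj_smul_iff (g := g⁻¹).mpr h2
        rw [H1.conj_smul_smul g⁻¹ g] at h5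
        simpa using h5
      have h2 := Subgroup.eq_of_le_of_card_ge h1 (by rw [H1.card_conj_smul])
      have h3 := H1.mem_normalizer_iff_conj_smul.mpr h2
      have := inv_mem h3
      rwa [inv_inv] at this
    have hN : normalizer (H : Set G) = ⊤ :=
      normalizerCondition_iff_only_full_group_self_normalizing.mp
        (Group.normalizerCondition_of_isNilpotent (G := G)) _ hNN
    have hJH : Cfsg.thompsonSubgroupA G ≤ H := by
      refine sSup_le fun A hA => hex A hA ?_
      rw [hN]; exact le_top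
    have h1 := hLmax (y := T₁) ⟨hT₁, hJH.trans hHT₁⟩ hcov₁.1.le
    exact absurd h1 (not_le_of_gt hcov₁.1)

/-- some minimal centrally large subgroup is normalized by `J(P)` and by all minimal centrally large subgroups -/
theorem exists_mcl_invariant [Finite G] [Group.IsNilpotent G] :
    ∃ Q : Subgroup G, Cfsg.IsMinimalCentrallyLarge Q ∧ Cfsg.thompsonSubgroupA G ≤ normalizer (Q : Set G) ∧
      Cfsg.minimalCentrallyLargeJoin G ≤ normalizer (Q : Set G) := by
  obtain ⟨L, hL, hJL, hmax⟩ := exists_maximal_invariant (G := G)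
  have hQ : Cfsg.IsMinimalCentrallyLarge (centralizer (L : Set G)) := by
    refine ⟨hL.cl, fun R h1 h2 => ?_⟩
    have h3 := hmax _ (cl_centralizer_AbL h2) (by
      have h4 := Subgroup.centralizer_le (SetLike.coe_subset_coe.mpr h1)
      rwa [hL.cc] at h4)
    rw [(large_centralizer ((cl_iff R).mp h2).1).2, h3]
  have hJQ : Cfsg.thompsonSubgroupA G ≤ normalizer ((centralizer (L : Set G) : Subgroup G) : Set G) := by
    intro g hg
    rw [H1.mem_normalizer_iff_conj_smul, ← centralizer_conj_smul, conj_smul_eq_of_mem_normalizer (hJL hg)]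
  refine ⟨_, hQ, hJQ, sSup_le ?_⟩
  intro R hR
  rw [← mcl_eq_inf_sup hR hQ.1]
  exact sup_le (inf_le_right.trans Subgroup.le_normalizer) ((cl_centralizer_AbL hR.1).le_thompson.trans hJQ)

end Cfsg.Agent.H19
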