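import Cfsg.Agent.H19.CharP

/-!
More on groups of characteristic `p`: self-centralizing normal subgroups of a Sylow subgroup.
-/

set_option autoImplicit false
set_option linter.style.haveILetI false

open Cfsg Subgroup

namespace Cfsg.Agent.H19

variable {G : Type*} [Group G]

/-- S2960 -/
theorem selfcentralizing [Finite G] {p : ℕ} [Fact p.Prime]
    (hG : Subgroup.centralizer (Cfsg.pCore p G : Set G) ≤ Cfsg.pCore p G) (T : Sylow p G) (Q : Subgroup G)
    (hQT : Q ≤ (T : Subgroup G)) (hQn : (T : Subgroup G) ≤ Subgroup.normalizer (Q : Set G))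
    (hC : (T : Subgroup G) ⊓ Subgroup.centralizer (Q : Set G) ≤ Q) :
    Subgroup.centralizer (Q : Set G) ≤ Q := by
  have hR := H1.pCore_isPGroup p G
  have hRn := H1.pCore_normal p G
  have hRT : pCore p G ≤ (T : Subgroup G) := H1.pCore_le_sylow T
  have hQp : IsPGroup p Q := T.isPGroup'.to_le hQT
  have hCp : IsPGroup p (centralizer (Q : Set G)) := by
    refine isPGroup_of_forall_coprime _ fun x hx hc => ?_
    have hxQ : ∀ b ∈ Q, Commute x b := fun b hb => (mem_centralizer_iff.mp hx b hb).symm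
    refine eq_one_of_charP hG hc ?_
    refine axb hR hQp hc ?_ ?_ hxQ ?_
    · rw [normalizer_eq_top]; exact mem_top x
    · rw [normalizer_eq_top]; exact le_top
    · intro r hr hrQ
      apply hxQ
      exact hC ⟨hRT hr, mem_centralizer_iff.mpr fun b hb => (hrQ b hb).symm⟩
  have hTn : (T : Subgroup G) ≤ normalizer (centralizer (Q : Set G) : Set G) := by
    intro t ht
    have h1 := mem_normalizer_iff.mp (hQn ht)
    rw [mem_normalizer_iff]
    intro y
    simp only [SetLike.mem_coe, mem_centralizer_iff]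
    constructor
    · intro h q hq
      have h2 : t⁻¹ * q * t ∈ Q := by
        rw [h1]; simpa [mul_assoc] using hq
      have h3 := h _ h2
      have h4 : t * (t⁻¹ * q * t * y) * t⁻¹ = t * (y * (t⁻¹ * q * t)) * t⁻¹ := by rw [h3]
      simpa [mul_assoc] using h4
    · intro h q hq
      have h3 := h _ ((h1 q).mp hq)
      have h4 : t⁻¹ * (t * q * t⁻¹ * (t * y * t⁻¹)) * t = t⁻¹ * (t * y * t⁻¹ * (t * q * t⁻¹)) * t := by
        rw [h3]
      simpa [mul_assoc] using h4
  have hsup : IsPGroup p ((T : Subgroup G) ⊔ centralizer (Q : Set G) : Subgroup G) :=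
    T.isPGroup'.to_sup_of_normal_right' hCp hTn
  have hT : (T : Subgroup G) ⊔ centralizer (Q : Set G) = T :=
    T.is_maximal' hsup le_sup_left
  intro x hx
  refine hC ⟨?_, hx⟩
  rw [← hT]
  exact (le_sup_right : centralizer (Q : Set G) ≤ _) hx

/-- S2961 -/
theorem charP_over [Finite G] {p : ℕ} [Fact p.Prime]
    (hG : Subgroup.centralizer (Cfsg.pCore p G : Set G) ≤ Cfsg.pCore p G) (T : Sylow p G) (Q : Subgroup G)
    (hQT : Q ≤ (T : Subgroup G)) (hQn : (T : Subgroup G) ≤ Subgroup.normalizer (Q : Set G))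
    (hC : (T : Subgroup G) ⊓ Subgroup.centralizer (Q : Set G) ≤ Q) (L : Subgroup G) (hQL : Q ≤ L) :
    Subgroup.centralizer (Cfsg.pCore p ↥L : Set ↥L) ≤ Cfsg.pCore p ↥L := by
  have hR := H1.pCore_isPGroup p G
  have hRn := H1.pCore_normal p G
  have hRT : pCore p G ≤ (T : Subgroup G) := H1.pCore_le_sylow T
  have hQp : IsPGroup p Q := T.isPGroup'.to_le hQT
  have hCQ := selfcentralizing hG T Q hQT hQn hC
  set R := pCore p G with hRdef
  -- `K = C_L(O_p(L))`
  set K : Subgroup G := L ⊓ centralizer (opOf p L : Set G) with hK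
  have hKmem : ∀ x, x ∈ K ↔ x ∈ L ∧ ∀ r ∈ opOf p L, Commute x r := by
    intro x
    rw [hK, mem_inf, mem_centralizer_iff]
    exact and_congr_right fun _ => ⟨fun h r hr => (h r hr).symm, fun h r hr => (h r hr).symm⟩
  have hOn := le_normalizer_opOf p L
  have hLK : L ≤ normalizer (K : Set G) := by
    have aux : ∀ l ∈ L, ∀ x ∈ K, l * x * l⁻¹ ∈ K := by
      intro l hl x hx
      rw [hKmem] at hx ⊢
      refine ⟨L.mul_mem (L.mul_mem hl hx.1) (L.inv_mem hl), fun r hr => ?_⟩
      have h1 : l⁻¹ * r * l ∈ opOf p L := by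
        rw [(mem_normalizer_iff.mp (hOn hl))]
        simpa [mul_assoc] using hr
      have h2 := hx.2 _ h1
      have h3 : l * (x * (l⁻¹ * r * l)) * l⁻¹ = l * (l⁻¹ * r * l * x) * l⁻¹ := by rw [h2.eq]
      change l * x * l⁻¹ * r = r * (l * x * l⁻¹)
      simpa [mul_assoc] using h3
    intro l hl
    rw [mem_normalizer_iff]
    intro x
    refine ⟨aux l hl x, fun h => ?_⟩
    have := aux l⁻¹ (L.inv_mem hl) _ h
    simpa [mul_assoc] using this
  -- `W = ⋂ L^r`
  let W : Subgroup G :=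
    { carrier := {n | n ∈ L ∧ ∀ r ∈ R, r⁻¹ * n * r ∈ L}
      mul_mem' := by
        rintro a b ⟨ha, ha'⟩ ⟨hb, hb'⟩
        refine ⟨L.mul_mem ha hb, fun r hr => ?_⟩
        have := L.mul_mem (ha' r hr) (hb' r hr)
        simpa [mul_assoc] using this
      one_mem' := ⟨L.one_mem, fun r _ => by simpa using L.one_mem⟩
      inv_mem' := by
        rintro a ⟨ha, ha'⟩
        refine ⟨L.inv_mem ha, fun r hr => ?_⟩
        have := L.inv_mem (ha' r hr)
        simpa [mul_assoc] using this }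
  have hWmem : ∀ n, n ∈ W ↔ n ∈ L ∧ ∀ r ∈ R, r⁻¹ * n * r ∈ L := fun n => Iff.rfl
  have hQW : Q ≤ W := by
    intro q hq
    refine ⟨hQL hq, fun r hr => hQL ?_⟩
    have := (mem_normalizer_iff.mp (hQn (hRT (R.inv_mem hr))) q).mp hq
    simpa using this
  have hLW : ∀ l ∈ L, ∀ n ∈ W, l * n * l⁻¹ ∈ W := by
    rintro l hl n ⟨hn, hn'⟩
    refine ⟨L.mul_mem (L.mul_mem hl hn) (L.inv_mem hl), fun r hr => ?_⟩
    have h1 : l⁻¹ * r * l ∈ R := by
      have := hRn.conj_mem r hr l⁻¹
      simpa using this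
    have h2 := L.mul_mem (L.mul_mem hl (hn' _ h1)) (L.inv_mem hl)
    simpa [mul_assoc] using h2
  -- `R ∩ L ≤ O_p(L)`
  have hRL : R ⊓ L ≤ opOf p L := by
    refine le_opOf inf_le_right ?_ (hR.to_le inf_le_left)
    intro g hg
    rw [mem_normalizer_iff]
    intro y
    rw [mem_inf, mem_inf]
    refine and_congr ?_ ?_
    · exact ⟨fun hy => hRn.conj_mem y hy g, fun hy => by
        have := hRn.conj_mem _ hy g⁻¹
        simpa [mul_assoc] using this⟩
    · exact ⟨fun hy => L.mul_mem (L.mul_mem hg hy) (L.inv_mem hg), fun hy => by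
        have := L.mul_mem (L.mul_mem (L.inv_mem hg) hy) hg
        simpa [mul_assoc] using this⟩
  -- `K ∩ W` is a `p`-group
  have hKW : IsPGroup p (K ⊓ W : Subgroup G) := by
    refine isPGroup_of_forall_coprime _ fun x hx hc => ?_
    obtain ⟨hxK', hxW⟩ := hx
    have hxK := (hKmem x).mp hxK'
    refine eq_one_of_charP hG hc fun r hr => ?_
    refine commute_of_quad hR hc hr (hRn.conj_mem r hr x) (hxK.2 _ (hRL ⟨?_, ?_⟩))
    · exact R.mul_mem (R.inv_mem hr) (hRn.conj_mem r hr x)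
    · have h1 := L.mul_mem (hxW.2 r hr) (L.inv_mem hxK.1)
      simpa [mul_assoc] using h1
  have hKWO : K ⊓ W ≤ opOf p L := by
    refine le_opOf (inf_le_left.trans inf_le_left) ?_ hKW
    intro l hl
    rw [mem_normalizer_iff]
    intro x
    have h1 := mem_normalizer_iff.mp (hLK hl) x
    show (x ∈ K ∧ x ∈ W) ↔ (l * x * l⁻¹ ∈ K ∧ l * x * l⁻¹ ∈ W)
    refine and_congr h1 ⟨hLW l hl x, fun h => ?_⟩
    have := hLW l⁻¹ (L.inv_mem hl) _ h
    simpa [mul_assoc] using this
  refine charP_subgroup_of_forall L fun x hxL hc hx => ?_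
  have hxK : x ∈ K := (hKmem x).mpr ⟨hxL, hx⟩
  have hQO : IsPGroup p (Q ⊔ opOf p L : Subgroup G) :=
    hQp.to_sup_of_normal_right' (opOf_isPGroup p L) (hQL.trans hOn)
  have hxQ : ∀ q ∈ Q, Commute x q := by
    intro q hq
    have h1 : q⁻¹ * (x * q * x⁻¹) ∈ K ⊓ W := by
      constructor
      · have h2 := K.mul_mem ((mem_normalizer_iff.mp (hLK (L.inv_mem (hQL hq))) x).mp hxK)
          (K.inv_mem hxK)
        simpa [mul_assoc] using h2
      · exact W.mul_mem (W.inv_mem (hQW hq)) (hLW x hxL q (hQW hq))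
    have h2 := hKWO h1
    refine commute_of_quad hQO hc ((le_sup_left : Q ≤ _) hq) ?_ (hx _ h2)
    have h3 := (Q ⊔ opOf p L).mul_mem ((le_sup_left : Q ≤ Q ⊔ opOf p L) hq)
      ((le_sup_right : opOf p L ≤ Q ⊔ opOf p L) h2)
    simpa [mul_assoc] using h3
  exact eq_one_of_mem_pGroup hQp (hCQ (mem_centralizer_iff.mpr fun q hq => (hxQ q hq).symm)) hc

end Cfsg.Agent.H19
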