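import Mathlib
import Cfsg.Agent.H23.Coprime
import Cfsg.Agent.H23.Coprime2

set_option autoImplicit false
set_option linter.all false

/-! Coprime automorphisms centralizing the centralizer of an involution (Bender-type counting). -/

namespace Cfsg.Agent.H19

open Subgroup
open scoped Pointwise commutatorElement

variable {X : Type*} [Group X] [Finite X]

/-- data: `A` acts coprimely on `G` and centralizes `C_G(t)` for an involution `t ∈ G` -/
structure CopInv (A G : Subgroup X) (t : X) : Prop where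
  hn : A ≤ normalizer (G : Set X)
  hcop : (Nat.card A).Coprime (Nat.card G)
  hs : Group.IsSolvable A ∨ Group.IsSolvable G
  ht : orderOf t = 2
  htG : t ∈ G
  hc : ∀ x ∈ G, x * t = t * x → x ∈ centralizer (A : Set X)

namespace CopInv

variable {A G : Subgroup X} {t : X}

theorem htt (h : CopInv A G t) : t * t = 1 := by
  have := pow_orderOf_eq_one t
  rw [h.ht, pow_two] at this; exact this

theorem htA (h : CopInv A G t) : t ∈ centralizer (A : Set X) := h.hc t h.htG rfl

theorem uniq (h : CopInv A G t) {g : X} (hg : g ∈ G) (hc : g⁻¹ * t * g ∈ centralizer (A : Set X)) :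
    g ∈ centralizer (A : Set X) := by
  have h1 : g⁻¹ * t * g⁻¹⁻¹ ∈ centralizer (A : Set X) := by rwa [inv_inv]
  obtain ⟨c, hc, he⟩ := H23.conj_of_mem_centralizer h.hn h.hcop h.hs t h.htA (inv_mem hg) h1
  rw [inv_inv] at he
  have h2 : (g * c) * t = t * (g * c) := by
    have : g * (c * t * c⁻¹) * g⁻¹ = t := by rw [he]; group
    calc (g * c) * t = (g * (c * t * c⁻¹) * g⁻¹) * (g * c) := by group
      _ = t * (g * c) := by rw [this]
  have h3 := h.hc (g * c) (mul_mem hg (mem_inf.1 hc).1) h2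
  have h4 : g = (g * c) * c⁻¹ := by group
  rw [h4]
  exact mul_mem h3 (inv_mem (mem_inf.1 hc).2)

/-- there is an `A`-invariant Sylow 2-subgroup of `G`, centralized by `A` -/
theorem exists_sylow (h : CopInv A G t) : ∃ S, H23.IsSylowOf 2 S G ∧ A ≤ normalizer (S : Set X) ∧
    S ≤ centralizer (A : Set X) := by
  haveI : Fact (Nat.Prime 2) := ⟨Nat.prime_two⟩
  have hz : zpowers t ≤ G := by rw [zpowers_le]; exact h.htG
  have hzp : IsPGroup 2 (zpowers t) := by
    apply IsPGroup.of_card (n := 1); rw [Nat.card_zpowers, h.ht, pow_one]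
  have hzA : zpowers t ≤ centralizer (A : Set X) := by rw [zpowers_le]; exact h.htA
  have hAz : A ≤ normalizer ((zpowers t : Subgroup X) : Set X) := by
    refine le_trans ?_ (centralizer_le_normalizer _)
    rw [le_centralizer_iff]; exact hzA
  obtain ⟨S, hS, hAS, hzS⟩ := H23.exists_invariant_sylow_ge (p := 2) h.hn h.hcop h.hs hz hzp hAz
  refine ⟨S, hS, hAS, ?_⟩
  have h2 : (Nat.card A).Coprime 2 := by
    refine Nat.Coprime.coprime_dvd_right ?_ h.hcop
    rw [← h.ht]
    have := orderOf_dvd_natCard (⟨t, h.htG⟩ : G)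
    rwa [Subgroup.orderOf_mk] at this
  refine H23.thompson_AxB (p := 2) (A := A) (B := zpowers t) hS.isPGroup h2 hzp hAS
    (hzS.trans le_normalizer) hzA ?_
  rintro x hx
  obtain ⟨hx1, hx2⟩ := mem_inf.1 hx
  refine h.hc x (hS.le hx1) ?_
  exact (mem_centralizer_iff.1 hx2 t (mem_zpowers t)).symm

/-- every `A`-invariant 2-subgroup of `G` is centralized by `A` -/
theorem two_cent (h : CopInv A G t) {Q : Subgroup X} (hQG : Q ≤ G) (hQ : IsPGroup 2 Q)
    (hAQ : A ≤ normalizer (Q : Set X)) : Q ≤ centralizer (A : Set X) := by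
  haveI : Fact (Nat.Prime 2) := ⟨Nat.prime_two⟩
  obtain ⟨S, hS, hAS, hSA⟩ := h.exists_sylow
  obtain ⟨P, hP, hAP, hQP⟩ := H23.exists_invariant_sylow_ge (p := 2) h.hn h.hcop h.hs hQG hQ hAQ
  obtain ⟨c, hc, he⟩ := H23.invariant_sylow_conj h.hn h.hcop h.hs hS hP hAS hAP
  refine hQP.trans ?_
  rw [← he]
  rintro _ ⟨s, hs, rfl⟩
  have hcA := (mem_inf.1 hc).2
  have hsA := hSA hs
  change c * s * c⁻¹ ∈ _
  exact mul_mem (mul_mem hcA hsA) (inv_mem hcA)

/-- an involution `u ∈ G` is conjugate, by an element centralizing `C_G(A) ∩ C_G(A)^u`, to an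
element of `C_G(A)` -/
theorem exists_conj (h : CopInv A G t) {u : X} (hu : u ∈ G) (huu : u * u = 1) :
    ∃ a ∈ G, (∀ x ∈ G, x ∈ centralizer (A : Set X) → u * x * u⁻¹ ∈ centralizer (A : Set X) →
      a * x = x * a) ∧ a * u * a⁻¹ ∈ centralizer (A : Set X) := by
  haveI : Fact (Nat.Prime 2) := ⟨Nat.prime_two⟩
  have hui : u⁻¹ = u := by rw [inv_eq_iff_mul_eq_one]; exact huu
  set H := G ⊓ centralizer (A : Set X) with hH
  -- D = H ∩ H^u
  set D : Subgroup X := H ⊓ H.map (MulAut.conj u).toMonoidHom with hD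
  have hDmem : ∀ x, x ∈ D ↔ x ∈ G ∧ x ∈ centralizer (A : Set X) ∧ u * x * u⁻¹ ∈ centralizer (A : Set X) := by
    intro x
    constructor
    · rintro ⟨h1, y, hy, rfl⟩
      refine ⟨(mem_inf.1 h1).1, (mem_inf.1 h1).2, ?_⟩
      change u * (u * y * u⁻¹) * u⁻¹ ∈ _
      have : u * (u * y * u⁻¹) * u⁻¹ = (u * u) * y * (u * u)⁻¹ := by group
      rw [this, huu]; simpa using (mem_inf.1 hy).2
    · rintro ⟨h1, h2, h3⟩
      refine ⟨mem_inf.2 ⟨h1, h2⟩, u * x * u⁻¹, mem_inf.2 ⟨mul_mem (mul_mem hu h1) (inv_mem hu), h3⟩, ?_⟩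
      change u * (u * x * u⁻¹) * u⁻¹ = x
      have : u * (u * x * u⁻¹) * u⁻¹ = (u * u) * x * (u * u)⁻¹ := by group
      rw [this, huu]; simp
  have hDu : ∀ x ∈ D, u * x * u⁻¹ ∈ D := by
    intro x hx
    rw [hDmem] at hx ⊢
    refine ⟨mul_mem (mul_mem hu hx.1) (inv_mem hu), hx.2.2, ?_⟩
    have : u * (u * x * u⁻¹) * u⁻¹ = (u * u) * x * (u * u)⁻¹ := by group
    rw [this, huu]; simpa using hx.2.1
  set M : Subgroup X := G ⊓ centralizer (D : Set X) with hM
  have hDA : ∀ x ∈ D, ∀ a ∈ A, a * x = x * a := fun x hx a ha =>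
    mem_centralizer_iff.1 ((hDmem x).1 hx).2.1 a ha
  -- u normalizes M
  have huM : zpowers u ≤ normalizer (M : Set X) := by
    apply H23.le_normalizer_of_conj_mem
    have key : ∀ m ∈ M, u * m * u⁻¹ ∈ M := by
      intro m hm
      refine mem_inf.2 ⟨mul_mem (mul_mem hu (mem_inf.1 hm).1) (inv_mem hu), ?_⟩
      rw [mem_centralizer_iff]
      intro x hx
      have h1 := mem_centralizer_iff.1 (mem_inf.1 hm).2 _ (hDu x hx)
      rw [hui] at h1 ⊢
      calc x * (u * m * u) = u * (u * x * u * m) * u := by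
              have : u * (u * x * u * m) * u = (u * u) * x * (u * m * u) := by group
              rw [this, huu, one_mul]
        _ = u * (m * (u * x * u)) * u := by rw [h1]
        _ = u * m * u * x * (u * u) := by group
        _ = u * m * u * x := by rw [huu, mul_one]
    intro a ha m hm
    rcases Subgroup.mem_zpowers_iff.1 ha with ⟨k, rfl⟩
    rcases Int.even_or_odd k with ⟨j, rfl⟩ | ⟨j, rfl⟩
    · have : u ^ (j + j) = 1 := by rw [← two_mul, zpow_mul]; simp [pow_two, huu]
      rw [this]; simpa using hm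
    · have : u ^ (2 * j + 1) = u := by rw [zpow_add, zpow_mul]; simp [pow_two, huu]
      rw [this]; exact key m hm
  -- A normalizes M ⊔ ⟨u⟩
  have hAM : A ≤ normalizer ((M ⊔ zpowers u : Subgroup X) : Set X) := by
    apply H23.le_normalizer_of_conj_mem
    intro a ha y hy
    obtain ⟨m, hm, w, hw, rfl⟩ := (H23.mem_sup_iff_of_le_normalizer huM).1 hy
    have hm' : a * m * a⁻¹ ∈ M := by
      refine mem_inf.2 ⟨H23.mem_normalizer_conj h.hn ha (mem_inf.1 hm).1, ?_⟩
      rw [mem_centralizer_iff]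
      intro x hx
      have h1 := mem_centralizer_iff.1 (mem_inf.1 hm).2 x hx
      have h2 := hDA x hx a ha
      calc x * (a * m * a⁻¹) = (x * a) * m * a⁻¹ := by group
        _ = (a * x) * m * a⁻¹ := by rw [h2]
        _ = a * (x * m) * a⁻¹ := by group
        _ = a * (m * x) * a⁻¹ := by rw [h1]
        _ = a * m * (x * a⁻¹) := by group
        _ = a * m * (a⁻¹ * x) := by
              have : x * a⁻¹ = a⁻¹ * x := by
                have := hDA x hx a⁻¹ (inv_mem ha)
                exact this.symm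
              rw [this]
        _ = a * m * a⁻¹ * x := by group
    have hw' : a * w * a⁻¹ ∈ (M ⊔ zpowers u : Subgroup X) := by
      have hk : a * u * a⁻¹ * u⁻¹ ∈ M := by
        have h0 : a * u * a⁻¹ * u⁻¹ ∈ G :=
          mul_mem (H23.mem_normalizer_conj h.hn ha hu) (inv_mem hu)
        refine mem_inf.2 ⟨h0, ?_⟩
        rw [mem_centralizer_iff]
        intro x hx
        have h1 := hDA x hx a ha
        have hx' : u⁻¹ * x * u ∈ D := by
          have := hDu x hx
          rw [hui] at this ⊢; exact this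
        have h2 := hDA _ hx' a⁻¹ (inv_mem ha)
        calc x * (a * u * a⁻¹ * u⁻¹) = (x * a) * (u * a⁻¹ * u⁻¹) := by group
          _ = (a * x) * (u * a⁻¹ * u⁻¹) := by rw [h1]
          _ = a * u * ((u⁻¹ * x * u) * a⁻¹) * u⁻¹ := by group
          _ = a * u * (a⁻¹ * (u⁻¹ * x * u)) * u⁻¹ := by rw [h2]
          _ = a * u * a⁻¹ * u⁻¹ * x := by group
      rcases Subgroup.mem_zpowers_iff.1 hw with ⟨k, rfl⟩
      rcases Int.even_or_odd k with ⟨j, rfl⟩ | ⟨j, rfl⟩
      · have : u ^ (j + j) = 1 := by rw [← two_mul, zpow_mul]; simp [pow_two, huu]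
        rw [this]; simp
      · have : u ^ (2 * j + 1) = u := by rw [zpow_add, zpow_mul]; simp [pow_two, huu]
        rw [this]
        have e : a * u * a⁻¹ = (a * u * a⁻¹ * u⁻¹) * u := by group
        rw [e]
        exact mul_mem (mem_sup_left hk) (mem_sup_right (mem_zpowers u))
    have e : a * (m * w) * a⁻¹ = (a * m * a⁻¹) * (a * w * a⁻¹) := by group
    rw [e]
    exact mul_mem (mem_sup_left hm') hw'
  have hMG : (M ⊔ zpowers u : Subgroup X) ≤ G := by
    refine sup_le inf_le_left ?_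
    rw [zpowers_le]; exact hu
  have hcop' : (Nat.card A).Coprime (Nat.card (M ⊔ zpowers u : Subgroup X)) :=
    Nat.Coprime.coprime_dvd_right (card_dvd_of_le hMG) h.hcop
  have hs' : Group.IsSolvable A ∨ Group.IsSolvable (M ⊔ zpowers u : Subgroup X) := by
    rcases h.hs with h1 | h1
    · exact Or.inl h1
    · right
      haveI := h1
      exact solvable_of_solvable_injective (Subgroup.inclusion_injective hMG)
  obtain ⟨T, hT, hAT⟩ := H23.exists_invariant_sylow hAM hcop' hs' 2
  have hTA : T ≤ centralizer (A : Set X) := h.two_cent (hT.le.trans hMG) hT.isPGroup hAT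
  have hup : IsPGroup 2 (zpowers u) := by
    rw [IsPGroup.iff_orderOf]
    rintro ⟨w, hw⟩
    rcases Subgroup.mem_zpowers_iff.1 hw with ⟨k, rfl⟩
    have h1 : orderOf (⟨u ^ k, hw⟩ : zpowers u) ∣ 2 := by
      rw [orderOf_dvd_iff_pow_eq_one]
      ext
      simp only [SubmonoidClass.mk_pow, OneMemClass.coe_one]
      rw [← zpow_natCast, ← zpow_mul, mul_comm, zpow_mul]
      simp [pow_two, huu]
    rcases (Nat.dvd_prime Nat.prime_two).1 h1 with h2 | h2
    · exact ⟨0, by rw [h2]; simp⟩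
    · exact ⟨1, by rw [h2]; simp⟩
  obtain ⟨T', hT', huT'⟩ := H23.exists_isSylowOf_ge (p := 2) (le_sup_right : zpowers u ≤ M ⊔ zpowers u) hup
  obtain ⟨y, hy, he⟩ := hT'.exists_conj hT
  obtain ⟨m, hm, w, hw, rfl⟩ := (H23.mem_sup_iff_of_le_normalizer huM).1 hy
  refine ⟨m, (mem_inf.1 hm).1, ?_, ?_⟩
  · intro x hx1 hx2 hx3
    have hx : x ∈ D := (hDmem x).2 ⟨hx1, hx2, hx3⟩
    exact (mem_centralizer_iff.1 (mem_inf.1 hm).2 x hx).symm
  · have h1 : (m * w) * u * (m * w)⁻¹ ∈ T := by
      rw [← he]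
      exact ⟨u, huT' (mem_zpowers u), rfl⟩
    have h2 : w * u * w⁻¹ = u := by
      rcases Subgroup.mem_zpowers_iff.1 hw with ⟨k, rfl⟩
      have : Commute (u ^ k) u := (Commute.refl u).zpow_left k
      rw [this.eq]; group
    have h3 : (m * w) * u * (m * w)⁻¹ = m * (w * u * w⁻¹) * m⁻¹ := by group
    rw [h3, h2] at h1
    exact hTA h1

end CopInv

end Cfsg.Agent.H19
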