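import Mathlib
import Cfsg.Agent.H19.CopInv

set_option autoImplicit false
set_option linter.all false

/-! Coprime automorphisms centralizing the centralizer of an involution: the coset count. -/

namespace Cfsg.Agent.H19

open Subgroup
open scoped Pointwise commutatorElement

variable {X : Type*} [Group X] [Finite X]

namespace CopInv

variable {A G : Subgroup X} {t : X}

/-- if `u` is a conjugate of `t` and `g⁻¹ u ∈ C_G(A)`, conjugation by a suitable `a` maps the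
conjugates of `t` in `g C_G(A)` into `C_G(A)` -/
theorem conj_coset (h : CopInv A G t) {g u : X} (hg : g ∈ G) (hu : u ∈ G) (huu : u * u = 1)
    (hgu : g⁻¹ * u ∈ centralizer (A : Set X)) :
    ∃ a ∈ G, ∀ k ∈ G, k * k = 1 → g⁻¹ * k ∈ centralizer (A : Set X) →
      a * k * a⁻¹ ∈ centralizer (A : Set X) ∧
      ∀ k' ∈ G, k' * k' = 1 → g⁻¹ * k' ∈ centralizer (A : Set X) →
        g⁻¹ * ((a * k * a⁻¹)⁻¹ * (a * k' * a⁻¹)) * g ∈ centralizer (A : Set X) := by
  obtain ⟨a, ha, hcomm, haA⟩ := h.exists_conj hu huu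
  have hui : u⁻¹ = u := by rw [inv_eq_iff_mul_eq_one]; exact huu
  have key : ∀ k ∈ G, k * k = 1 → g⁻¹ * k ∈ centralizer (A : Set X) →
      a * (u⁻¹ * k) = (u⁻¹ * k) * a ∧ u⁻¹ * k ∈ centralizer (A : Set X) ∧
      u⁻¹ * (u⁻¹ * k) * u ∈ centralizer (A : Set X) := by
    intro k hk hkk hgk
    have h1 : u⁻¹ * k ∈ centralizer (A : Set X) := by
      have : u⁻¹ * k = (g⁻¹ * u)⁻¹ * (g⁻¹ * k) := by group
      rw [this]; exact mul_mem (inv_mem hgu) hgk
    have h2 : u⁻¹ * (u⁻¹ * k) * u = (u⁻¹ * k)⁻¹ := by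
      have hki : k⁻¹ = k := by rw [inv_eq_iff_mul_eq_one]; exact hkk
      rw [mul_inv_rev, inv_inv, hki, hui]
      calc u * (u * k) * u = (u * u) * k * u := by group
        _ = k * u := by rw [huu, one_mul]
    have h3 : u⁻¹ * (u⁻¹ * k) * u ∈ centralizer (A : Set X) := by rw [h2]; exact inv_mem h1
    refine ⟨?_, h1, h3⟩
    apply hcomm _ (mul_mem (inv_mem hu) hk) h1
    rw [hui] at h3 ⊢; exact h3
  refine ⟨a, ha, fun k hk hkk hgk => ?_⟩
  obtain ⟨c1, c2, c3⟩ := key k hk hkk hgk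
  have e1 : a * k * a⁻¹ = (a * u * a⁻¹) * (u⁻¹ * k) := by
    calc a * k * a⁻¹ = a * u * a⁻¹ * (a * (u⁻¹ * k)) * a⁻¹ := by group
      _ = a * u * a⁻¹ * ((u⁻¹ * k) * a) * a⁻¹ := by rw [c1]
      _ = _ := by group
  refine ⟨by rw [e1]; exact mul_mem haA c2, fun k' hk' hkk' hgk' => ?_⟩
  obtain ⟨d1, d2, d3⟩ := key k' hk' hkk' hgk'
  have e2 : a * k' * a⁻¹ = (a * u * a⁻¹) * (u⁻¹ * k') := by
    calc a * k' * a⁻¹ = a * u * a⁻¹ * (a * (u⁻¹ * k')) * a⁻¹ := by group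
      _ = a * u * a⁻¹ * ((u⁻¹ * k') * a) * a⁻¹ := by rw [d1]
      _ = _ := by group
  have e3 : g⁻¹ * ((a * k * a⁻¹)⁻¹ * (a * k' * a⁻¹)) * g =
      (g⁻¹ * u) * ((u⁻¹ * (u⁻¹ * k) * u)⁻¹ * (u⁻¹ * (u⁻¹ * k') * u)) * (g⁻¹ * u)⁻¹ := by
    rw [e1, e2]; group
  rw [e3]
  exact mul_mem (mul_mem hgu (mul_mem (inv_mem c3) d3)) (inv_mem hgu)

theorem main (h : CopInv A G t) {g : X} (hg : g ∈ G) {x : X} (hx : x ∈ G)
    (hxA : x * t * x⁻¹ ∈ centralizer (A : Set X)) :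
    g⁻¹ * (t⁻¹ * (x * t * x⁻¹)) * g ∈ centralizer (A : Set X) := by
  classical
  haveI : Fintype X := Fintype.ofFinite X
  set K : Finset X := Finset.univ.filter (fun k => ∃ y ∈ G, y * t * y⁻¹ = k) with hK
  set GG : Finset X := Finset.univ.filter (fun y => y ∈ G) with hGG
  set HG : Finset X := Finset.univ.filter (fun y => y ∈ G ∧ y ∈ centralizer (A : Set X)) with hHG
  set KA : Finset X := K.filter (fun k => k ∈ centralizer (A : Set X)) with hKA
  have htt := h.htt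
  have hmemK : ∀ k, k ∈ K ↔ ∃ y ∈ G, y * t * y⁻¹ = k := fun k => by simp [hK]
  have hmemG : ∀ k, k ∈ GG ↔ k ∈ G := fun k => by simp [hGG]
  have hmemH : ∀ k, k ∈ HG ↔ k ∈ G ∧ k ∈ centralizer (A : Set X) := fun k => by simp [hHG]
  have hmemKA : ∀ k, k ∈ KA ↔ k ∈ K ∧ k ∈ centralizer (A : Set X) := fun k => by simp [hKA]
  have hKG : ∀ k ∈ K, k ∈ G := by
    intro k hk
    obtain ⟨y, hy, rfl⟩ := (hmemK k).1 hk
    exact mul_mem (mul_mem hy h.htG) (inv_mem hy)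
  have hKinv : ∀ k ∈ K, k * k = 1 := by
    intro k hk
    obtain ⟨y, hy, rfl⟩ := (hmemK k).1 hk
    calc (y * t * y⁻¹) * (y * t * y⁻¹) = y * (t * t) * y⁻¹ := by group
      _ = 1 := by rw [htt]; group
  have hKconj : ∀ k ∈ K, ∀ y ∈ G, y * k * y⁻¹ ∈ K := by
    intro k hk y hy
    obtain ⟨z, hz, rfl⟩ := (hmemK k).1 hk
    exact (hmemK _).2 ⟨y * z, mul_mem hy hz, by group⟩
  have htK : t ∈ K := (hmemK t).2 ⟨1, one_mem _, by group⟩
  -- count 1
  have c1 : ∀ y ∈ GG, (K.filter (fun k => y⁻¹ * k * y ∈ centralizer (A : Set X))).card = KA.card := by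
    intro y hy
    rw [hmemG] at hy
    apply Finset.card_bij (fun k _ => y⁻¹ * k * y)
    · intro k hk
      rw [Finset.mem_filter] at hk
      refine (hmemKA _).2 ⟨?_, hk.2⟩
      have := hKconj k hk.1 y⁻¹ (inv_mem hy)
      rwa [inv_inv] at this
    · intro k _ k' _ he
      simpa using he
    · intro k hk
      rw [hmemKA] at hk
      refine ⟨y * k * y⁻¹, ?_, by group⟩
      rw [Finset.mem_filter]
      refine ⟨hKconj k hk.1 y hy, ?_⟩
      have : y⁻¹ * (y * k * y⁻¹) * y = k := by group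
      rw [this]; exact hk.2
  have c2 : ∀ k ∈ K, (GG.filter (fun y => y⁻¹ * k * y ∈ centralizer (A : Set X))).card = HG.card := by
    intro k hk
    obtain ⟨z, hz, rfl⟩ := (hmemK k).1 hk
    apply Finset.card_bij (fun y _ => z⁻¹ * y)
    · intro y hy
      rw [Finset.mem_filter, hmemG] at hy
      rw [hmemH]
      have h1 : z⁻¹ * y ∈ G := mul_mem (inv_mem hz) hy.1
      refine ⟨h1, h.uniq h1 ?_⟩
      have : (z⁻¹ * y)⁻¹ * t * (z⁻¹ * y) = y⁻¹ * (z * t * z⁻¹) * y := by group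
      rw [this]; exact hy.2
    · intro y _ y' _ he
      simpa using he
    · intro w hw
      rw [hmemH] at hw
      refine ⟨z * w, ?_, by group⟩
      rw [Finset.mem_filter, hmemG]
      refine ⟨mul_mem hz hw.1, ?_⟩
      have : (z * w)⁻¹ * (z * t * z⁻¹) * (z * w) = w⁻¹ * t * w := by group
      rw [this]
      exact mul_mem (mul_mem (inv_mem hw.2) h.htA) hw.2
  have e1 : GG.card * KA.card = K.card * HG.card := by
    have := Finset.sum_card_bipartiteAbove_eq_sum_card_bipartiteBelow (s := K) (t := GG)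
      (fun k y => y⁻¹ * k * y ∈ centralizer (A : Set X))
    simp only [Finset.bipartiteAbove, Finset.bipartiteBelow] at this
    rw [Finset.sum_congr rfl c2, Finset.sum_congr rfl c1] at this
    simpa using this.symm
  have c4 : ∀ k ∈ K, (GG.filter (fun y => y⁻¹ * k ∈ HG)).card = HG.card := by
    intro k hk
    apply Finset.card_bij (fun y _ => y⁻¹ * k)
    · intro y hy
      exact (Finset.mem_filter.1 hy).2
    · intro y _ y' _ he
      simpa using he
    · intro w hw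
      refine ⟨k * w⁻¹, ?_, by group⟩
      rw [Finset.mem_filter, hmemG]
      refine ⟨mul_mem (hKG k hk) (inv_mem ((hmemH w).1 hw).1), ?_⟩
      have : (k * w⁻¹)⁻¹ * k = w := by group
      rw [this]; exact hw
  have e2 : ∑ y ∈ GG, (K.filter (fun k => y⁻¹ * k ∈ HG)).card = ∑ y ∈ GG, KA.card := by
    have := Finset.sum_card_bipartiteAbove_eq_sum_card_bipartiteBelow (s := K) (t := GG)
      (fun k y => y⁻¹ * k ∈ HG)
    simp only [Finset.bipartiteAbove, Finset.bipartiteBelow] at this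
    rw [Finset.sum_congr rfl c4] at this
    rw [← this]
    simp only [Finset.sum_const, smul_eq_mul]
    exact e1.symm
  have hmemf : ∀ y ∈ G, ∀ k, k ∈ K.filter (fun k => y⁻¹ * k ∈ HG) ↔
      k ∈ K ∧ y⁻¹ * k ∈ centralizer (A : Set X) := by
    intro y hy k
    rw [Finset.mem_filter, hmemH]
    constructor
    · rintro ⟨h1, h2, h3⟩; exact ⟨h1, h3⟩
    · rintro ⟨h1, h3⟩; exact ⟨h1, mul_mem (inv_mem hy) (hKG k h1), h3⟩
  -- the inequality
  have c3 : ∀ y ∈ GG, (K.filter (fun k => y⁻¹ * k ∈ HG)).card ≤ KA.card := by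
    intro y hy
    rw [hmemG] at hy
    by_cases hemp : (K.filter (fun k => y⁻¹ * k ∈ HG)) = ∅
    · rw [hemp]; simp
    obtain ⟨u, hu⟩ := Finset.nonempty_iff_ne_empty.2 hemp
    rw [hmemf y hy] at hu
    obtain ⟨a, ha, hall⟩ := h.conj_coset hy (hKG u hu.1) (hKinv u hu.1) hu.2
    apply Finset.card_le_card_of_injOn (fun k => a * k * a⁻¹)
    · intro k hk
      have hk' := (hmemf y hy k).1 hk
      exact (hmemKA _).2 ⟨hKconj k hk'.1 a ha, (hall k (hKG k hk'.1) (hKinv k hk'.1) hk'.2).1⟩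
    · intro k _ k' _ he
      simpa using he
  have c5 := (Finset.sum_eq_sum_iff_of_le c3).1 e2 g ((hmemG g).2 hg)
  have hpos : 0 < KA.card := Finset.card_pos.2 ⟨t, (hmemKA t).2 ⟨htK, h.htA⟩⟩
  rw [← c5] at hpos
  obtain ⟨u, hu⟩ := Finset.card_pos.1 hpos
  rw [hmemf g hg] at hu
  obtain ⟨a, ha, hall⟩ := h.conj_coset hg (hKG u hu.1) (hKinv u hu.1) hu.2
  have himg : (K.filter (fun k => g⁻¹ * k ∈ HG)).image (fun k => a * k * a⁻¹) = KA := by
    apply Finset.eq_of_subset_of_card_le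
    · intro z hz
      obtain ⟨k, hk, rfl⟩ := Finset.mem_image.1 hz
      have hk' := (hmemf g hg k).1 hk
      exact (hmemKA _).2 ⟨hKconj k hk'.1 a ha, (hall k (hKG k hk'.1) (hKinv k hk'.1) hk'.2).1⟩
    · rw [Finset.card_image_of_injective _ (fun k k' he => by simpa using he), c5]
  have hz1 : t ∈ KA := (hmemKA t).2 ⟨htK, h.htA⟩
  have hz2 : x * t * x⁻¹ ∈ KA := (hmemKA _).2 ⟨hKconj t htK x hx, hxA⟩
  rw [← himg] at hz1 hz2
  obtain ⟨k, hk, hke⟩ := Finset.mem_image.1 hz1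
  obtain ⟨k', hk', hke'⟩ := Finset.mem_image.1 hz2
  rw [hmemf g hg] at hk hk'
  have := (hall k (hKG k hk.1) (hKinv k hk.1) hk.2).2 k' (hKG k' hk'.1) (hKinv k' hk'.1) hk'.2

  rw [hke, hke'] at this
  exact this

/-- the normal closure property: `t⁻¹ t^x` lies in every conjugate of `C_G(A)` -/
theorem normal_sub (h : CopInv A G t) {x : X} (hx : x ∈ G)
    (hxA : x * t * x⁻¹ ∈ centralizer (A : Set X)) :
    ∃ N : Subgroup X, N ≤ G ∧ N ≤ centralizer (A : Set X) ∧ G ≤ normalizer (N : Set X) ∧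
      t⁻¹ * (x * t * x⁻¹) ∈ N := by
  refine ⟨⨅ g : G, (G ⊓ centralizer (A : Set X)).map (MulAut.conj (g : X)).toMonoidHom, ?_, ?_, ?_, ?_⟩
  · intro y hy
    rw [mem_iInf] at hy
    obtain ⟨z, hz, rfl⟩ := hy 1
    simpa using (mem_inf.1 hz).1
  · intro y hy
    rw [mem_iInf] at hy
    obtain ⟨z, hz, rfl⟩ := hy 1
    simpa using (mem_inf.1 hz).2
  · apply H23.le_normalizer_of_conj_mem
    intro g hg y hy
    rw [mem_iInf] at hy ⊢
    intro w
    obtain ⟨z, hz, he⟩ := hy ⟨g⁻¹ * w, mul_mem (inv_mem hg) w.2⟩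
    refine ⟨z, hz, ?_⟩
    change (w : X) * z * (w : X)⁻¹ = g * y * g⁻¹
    rw [← he]
    change _ = g * ((g⁻¹ * w) * z * (g⁻¹ * w)⁻¹) * g⁻¹
    group
  · rw [mem_iInf]
    intro g
    refine ⟨(g : X)⁻¹ * (t⁻¹ * (x * t * x⁻¹)) * g, mem_inf.2 ⟨?_, h.main g.2 hx hxA⟩, ?_⟩
    · exact mul_mem (mul_mem (inv_mem g.2) (mul_mem (inv_mem h.htG) (mul_mem (mul_mem hx h.htG) (inv_mem hx)))) g.2
    · change (g : X) * ((g : X)⁻¹ * (t⁻¹ * (x * t * x⁻¹)) * g) * (g : X)⁻¹ = _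
      group

end CopInv

end Cfsg.Agent.H19
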