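import Mathlib
import Cfsg.Prelude.Def_DStar
import Cfsg.Agent.H19.CharP
import Cfsg.Agent.H2.Frat
import Cfsg.Agent.H10.Basic
import Cfsg.Agent.H18.PCore

/-!
# `D*(S)`
-/

set_option autoImplicit false
set_option linter.style.haveILetI false

namespace Cfsg.Agent.H19

open Subgroup Cfsg
open scoped Pointwise commutatorElement

/-- `[⟨s⟩,⟨s⟩] ≤ N` if `s` centralizes `N` and `[a,b] ∈ N` for `a,b ∈ s`. -/
theorem commutator_closure_le {G : Type*} [Group G] {N : Subgroup G} {s : Set G}
    (h1 : ∀ a ∈ s, ∀ n ∈ N, a * n = n * a) (h2 : ∀ a ∈ s, ∀ b ∈ s, ⁅a, b⁆ ∈ N) :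
    ⁅closure s, closure s⁆ ≤ N := by
  have hcen : closure s ≤ centralizer (N : Set G) := by
    rw [closure_le]
    intro a ha
    rw [SetLike.mem_coe, mem_centralizer_iff]
    intro n hn
    exact (h1 a ha n hn).symm
  -- for fixed `t` the elements `c` centralizing `N` with `[c,t] ∈ N`
  have key : ∀ t : G, (∀ a ∈ s, ⁅a, t⁆ ∈ N) → ∀ c ∈ closure s, ⁅c, t⁆ ∈ N := by
    intro t ht c hc
    refine closure_induction (p := fun c _ => ⁅c, t⁆ ∈ N) ht ?_ ?_ ?_ hc
    · simp
    · intro x y hx hy hxt hyt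
      have e : ⁅x * y, t⁆ = x * ⁅y, t⁆ * x⁻¹ * ⁅x, t⁆ := by
        simp only [commutatorElement_def]; group
      have h3 := mem_centralizer_iff.mp (hcen hx) _ hyt
      rw [e, ← h3, mul_inv_cancel_right]
      exact mul_mem hyt hxt
    · intro x hx hxt
      have e : ⁅x⁻¹, t⁆ = x⁻¹ * ⁅x, t⁆⁻¹ * x := by
        simp only [commutatorElement_def]; group
      have h3 := mem_centralizer_iff.mp (hcen (inv_mem hx)) _ (inv_mem hxt)
      rw [e, ← h3, inv_mul_cancel_right]
      exact inv_mem hxt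
  rw [commutator_le]
  intro c hc d hd
  refine key d (fun a ha => ?_) c hc
  have h3 := key a (fun b hb => h2 b hb a ha) d hd
  have e : ⁅a, d⁆ = ⁅d, a⁆⁻¹ := (commutatorElement_inv d a).symm
  rw [e]
  exact inv_mem h3

/-- class at most two criterion -/
theorem class_two_of_gens {G : Type*} [Group G] {N A : Subgroup G} {x : G} (hA : IsMulCommutative A)
    (hAN : ∀ a ∈ A, ∀ n ∈ N, a * n = n * a) (hxN : ∀ n ∈ N, x * n = n * x) (h : ∀ a ∈ A, ⁅a, x⁆ ∈ N) :
    ⁅⁅A ⊔ zpowers x, A ⊔ zpowers x⁆, A ⊔ zpowers x⁆ = ⊥ := by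
  have hT : A ⊔ zpowers x = closure ((A : Set G) ∪ {x}) := by
    rw [Subgroup.closure_union, closure_eq, zpowers_eq_closure]
  have hcomm : ∀ a ∈ (A : Set G) ∪ {x}, ∀ n ∈ N, a * n = n * a := by
    rintro a (ha | ha) n hn
    · exact hAN a ha n hn
    · rw [Set.mem_singleton_iff.mp ha]; exact hxN n hn
  have h1 : ⁅A ⊔ zpowers x, A ⊔ zpowers x⁆ ≤ N := by
    rw [hT]
    refine commutator_closure_le hcomm ?_
    rintro a (ha | ha) b (hb | hb)
    · have : a * b = b * a := congrArg (Subtype.val : A → G) (hA.is_comm.comm ⟨a, ha⟩ ⟨b, hb⟩)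
      rw [commutatorElement_eq_one_iff_mul_comm.mpr this]
      exact one_mem _
    · rw [Set.mem_singleton_iff.mp hb]; exact h a ha
    · rw [Set.mem_singleton_iff.mp ha, ← commutatorElement_inv]
      exact inv_mem (h b hb)
    · rw [Set.mem_singleton_iff.mp ha, Set.mem_singleton_iff.mp hb, commutatorElement_self]
      exact one_mem _
  rw [commutator_eq_bot_iff_le_centralizer]
  refine h1.trans ?_
  intro n hn
  have h2 : A ⊔ zpowers x ≤ centralizer ({n} : Set G) := by
    rw [hT, closure_le]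
    intro a ha
    rw [SetLike.mem_coe, mem_centralizer_singleton_iff]
    exact hcomm a ha n hn
  rw [mem_centralizer_iff]
  intro t ht
  exact mem_centralizer_singleton_iff.mp (h2 ht)

/-- a member of the family centralizes every normal abelian subgroup -/
theorem dStarFamily_centralizes {S : Type*} [Group S] [Finite S] {p : ℕ} [Fact p.Prime] (hS : IsPGroup p S)
    {B : Subgroup S} (hB : B ∈ dStarFamily S) {N : Subgroup S} (hN : N.Normal) (hNab : IsMulCommutative N) :
    ∀ n ∈ N, ∀ b ∈ B, n * b = b * n := by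
  set N₀ : Subgroup S := N ⊓ centralizer (B : Set S) with hN₀
  have hNcomm : ∀ a ∈ N, ∀ b ∈ N, a * b = b * a := fun a ha b hb =>
    congrArg (Subtype.val : N → S) (hNab.is_comm.comm ⟨a, ha⟩ ⟨b, hb⟩)
  by_cases hlt : N₀ < N
  · exfalso
    have hBN : B ≤ normalizer (N : Set S) := by
      rw [Subgroup.normalizer_eq_top_iff.mpr hN]; exact le_top
    have hNN : N ≤ normalizer (N₀ : Set S) := by
      refine H18.le_normalizer_of_conj_mem ?_
      intro a ha y hy
      have : a * y * a⁻¹ = y := by rw [hNcomm a ha y hy.1]; group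
      rw [this]
      exact hy
    have hBN₀ : B ≤ normalizer (N₀ : Set S) := by
      refine H18.le_normalizer_inf hBN (H18.le_normalizer_centralizer Subgroup.le_normalizer)
    obtain ⟨x, hx, hx₀, hxB⟩ := exists_fixed_mod (hS.to_subgroup N) (hS.to_subgroup B) hlt hNN hBN hBN₀
    apply hx₀
    refine mem_inf.mpr ⟨hx, mem_centralizer_iff.mpr ?_⟩
    refine hB.2 x ?_
    refine class_two_of_gens (N := N₀) hB.1 ?_ ?_ ?_
    · intro a ha n hn
      exact mem_centralizer_iff.mp hn.2 a ha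
    · intro n hn
      exact hNcomm x hx n hn.1
    · intro a ha
      have h1 := hxB a ha
      have e : ⁅a, x⁆ = x * (x⁻¹ * (a * x * a⁻¹)) * x⁻¹ := by
        simp only [commutatorElement_def]; group
      rw [e]
      exact (mem_normalizer_iff.mp (hNN hx) _).mp h1
  · have h1 : N ≤ N₀ := by
      rcases lt_or_eq_of_le (inf_le_left : N₀ ≤ N) with h' | h'
      · exact absurd h' hlt
      · exact h'.ge
    intro n hn b hb
    exact (mem_centralizer_iff.mp (h1 hn).2 b hb).symm

theorem dStarFamily_map {S S' : Type*} [Group S] [Group S'] (φ : S ≃* S') {A : Subgroup S}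
    (hA : A ∈ dStarFamily S) : A.map φ.toMonoidHom ∈ dStarFamily S' := by
  refine ⟨⟨⟨?_⟩⟩, ?_⟩
  · rintro ⟨_, a, ha, rfl⟩ ⟨_, b, hb, rfl⟩
    apply Subtype.ext
    show φ a * φ b = φ b * φ a
    rw [← map_mul, ← map_mul]
    exact congrArg φ (congrArg (Subtype.val : A → S) (hA.1.is_comm.comm ⟨a, ha⟩ ⟨b, hb⟩))
  · intro x hx
    obtain ⟨y, rfl⟩ := φ.surjective x
    have h1 : A.map φ.toMonoidHom ⊔ zpowers (φ y) = (A ⊔ zpowers y).map φ.toMonoidHom := by
      rw [Subgroup.map_sup, MonoidHom.map_zpowers]; rfl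
    rw [h1, ← Subgroup.map_commutator, ← Subgroup.map_commutator,
      Subgroup.map_eq_bot_iff_of_injective _ φ.injective] at hx
    have h2 := hA.2 y hx
    rintro _ ⟨a, ha, rfl⟩
    show φ a * φ y = φ y * φ a
    rw [← map_mul, ← map_mul, h2 a ha]

theorem dStar_characteristic (S : Type*) [Group S] : (dStar S).Characteristic :=
  H10.sSup_characteristic fun φ _ hK => dStarFamily_map φ hK

theorem dStarFamily_subgroupOf {S : Type*} [Group S] {A M : Subgroup S} (hA : A ∈ dStarFamily S) (hAM : A ≤ M) :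
    A.subgroupOf M ∈ dStarFamily M := by
  refine ⟨⟨⟨?_⟩⟩, ?_⟩
  · rintro ⟨a, ha⟩ ⟨b, hb⟩
    apply Subtype.ext
    apply Subtype.ext
    exact congrArg (Subtype.val : A → S) (hA.1.is_comm.comm ⟨a, ha⟩ ⟨b, hb⟩)
  · intro x hx a ha
    apply Subtype.ext
    refine hA.2 (x : S) ?_ a ha
    have h1 : (A.subgroupOf M ⊔ zpowers x).map M.subtype = A ⊔ zpowers (x : S) := by
      rw [Subgroup.map_sup, MonoidHom.map_zpowers, Subgroup.map_subgroupOf_eq_of_le hAM]; rfl
    rw [← h1, ← Subgroup.map_commutator, ← Subgroup.map_commutator,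
      Subgroup.map_eq_bot_iff_of_injective _ M.subtype_injective]
    exact hx

/-- if the members of the family commute, `D*(S)` is a member -/
theorem dStar_mem_of_commute {S : Type*} [Group S]
    (h : ∀ A ∈ dStarFamily S, ∀ B ∈ dStarFamily S, ∀ a ∈ A, ∀ b ∈ B, a * b = b * a) : dStar S ∈ dStarFamily S := by
  have h1 : ∀ A ∈ dStarFamily S, dStar S ≤ centralizer (A : Set S) := by
    intro A hA
    refine sSup_le fun B hB => ?_
    intro b hb
    rw [mem_centralizer_iff]
    intro a ha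
    exact h A hA B hB a ha b hb
  have h2 : dStar S ≤ centralizer (dStar S : Set S) := by
    refine sSup_le fun A hA => ?_
    exact Subgroup.le_centralizer_iff.mp (h1 A hA)
  refine ⟨⟨⟨?_⟩⟩, ?_⟩
  · rintro ⟨a, ha⟩ ⟨b, hb⟩
    exact Subtype.ext (mem_centralizer_iff.mp (h2 hb) a ha)
  · intro x hx
    have h3 : dStar S ≤ centralizer ({x} : Set S) := by
      refine sSup_le fun A hA => ?_
      intro a ha
      rw [mem_centralizer_singleton_iff]
      refine hA.2 x ?_ a ha
      rw [eq_bot_iff, ← hx]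
      have h4 : A ⊔ zpowers x ≤ dStar S ⊔ zpowers x := sup_le_sup_right (le_sSup hA) _
      exact commutator_mono (commutator_mono h4 h4) h4
    intro a ha
    exact mem_centralizer_singleton_iff.mp (h3 ha)

theorem dStar_mem_aux (p : ℕ) [Fact p.Prime] (n : ℕ) : ∀ (S : Type*) [Group S] [Finite S], Nat.card S = n →
    IsPGroup p S → dStar S ∈ dStarFamily S := by
  induction n using Nat.strong_induction_on with
  | _ n ih =>
  intro S _ _ hcard hS
  apply dStar_mem_of_commute
  intro A hA B hB a ha b hb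
  by_cases hAt : A = ⊤
  · have hb' : b ∈ A := by rw [hAt]; exact mem_top b
    exact congrArg (Subtype.val : A → S) (hA.1.is_comm.comm ⟨a, ha⟩ ⟨b, hb'⟩)
  obtain ⟨M, hAM, hMi, hMn⟩ := H2.exists_le_index_eq hS hAt
  haveI := hMn
  have hMlt : Nat.card M < n := by
    have h1 := M.card_mul_index
    rw [hMi, hcard] at h1
    have h2 : 0 < Nat.card M := Nat.card_pos
    have h3 := (Fact.out : p.Prime).two_le
    nlinarith
  have h1 := ih _ hMlt M rfl (hS.to_subgroup M)
  have h2 : A.subgroupOf M ≤ dStar M := le_sSup (dStarFamily_subgroupOf hA hAM)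
  haveI := dStar_characteristic M
  have h3 : ((dStar M).map M.subtype).Normal := inferInstance
  have h4 : IsMulCommutative ((dStar M).map M.subtype : Subgroup S) := by
    refine ⟨⟨?_⟩⟩
    rintro ⟨_, a, ha, rfl⟩ ⟨_, b, hb, rfl⟩
    apply Subtype.ext
    show (a : S) * b = b * a
    have := congrArg (fun z : (dStar M) => ((z : M) : S)) (h1.1.is_comm.comm ⟨a, ha⟩ ⟨b, hb⟩)
    exact this
  have h5 := dStarFamily_centralizes hS hB h3 h4
  refine h5 a ?_ b hb
  exact ⟨⟨a, hAM ha⟩, h2 ha, rfl⟩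

theorem dStar_mem {S : Type*} [Group S] [Finite S] {p : ℕ} [Fact p.Prime] (hS : IsPGroup p S) :
    dStar S ∈ dStarFamily S := dStar_mem_aux p _ S rfl hS

end Cfsg.Agent.H19
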