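import Mathlib
import Cfsg.Prelude.Def_DStar
import Cfsg.Agent.H19.DStar
import Cfsg.Agent.H19.CLarge
import Cfsg.Agent.H2.ReplProp
import Cfsg.Agent.H23.PGroup

/-!
# `D*(S)` and the Thompson subgroup
-/

set_option autoImplicit false
set_option linter.style.haveILetI false

namespace Cfsg.Agent.H19

open Subgroup Cfsg
open scoped Pointwise commutatorElement

/-- Thompson replacement against a normal abelian subgroup (any prime) -/
theorem thompson_replacement {S : Type*} [Group S] [Finite S] {p : ℕ} [Fact p.Prime] (hS : IsPGroup p S)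
    {A B : Subgroup S} [B.Normal] (hA : A ∈ maxAbelianSubgroups S) (hB : ∀ x ∈ B, ∀ y ∈ B, x * y = y * x)
    (hnot : ¬ B ≤ normalizer (A : Set S)) :
    ∃ A' ∈ maxAbelianSubgroups S, A ⊓ B < A' ⊓ B ∧ A' ≤ normalizer (A : Set S) := by
  obtain ⟨b, hb, hbN, hbA⟩ : ∃ b ∈ B, b ∈ Subgroup.normalizer
      ((Subgroup.normalizer (A : Set S)) : Set S) ∧ b ∉ Subgroup.normalizer (A : Set S) := by
    obtain ⟨M, hM⟩ : ∃ M, M = Subgroup.normalizer (A : Set S) := ⟨_, rfl⟩
    rw [← hM] at hnot ⊢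
    have h1 : M < B ⊔ M := lt_of_le_of_ne le_sup_right (fun h => hnot (h ▸ le_sup_left))
    obtain ⟨x, hx1, hx2, hx3⟩ := H2.exists_mem_normalizer_not_mem (hS.to_subgroup (B ⊔ M)) h1
    obtain ⟨b, hb, m, hm, rfl⟩ := Subgroup.mem_sup_of_normal_left.1 hx1
    have hm' : m ∈ Subgroup.normalizer (M : Set S) := Subgroup.le_normalizer hm
    refine ⟨b, hb, ?_, ?_⟩
    · have := mul_mem hx2 (inv_mem hm')
      rwa [mul_inv_cancel_right] at this
    · intro h
      exact hx3 (mul_mem h hm)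
  have hBA : ⁅B, B⁆ ≤ A := by
    rw [commutator_le]
    intro x hx y hy
    rw [commutatorElement_eq_one_iff_mul_comm.mpr (hB x hx y hy)]
    exact one_mem _
  have h : H2.GR A B b := ⟨maxAb_comm hA, hBA, hb, hbN⟩
  have hB2 : p = 2 → ∀ x ∈ B, ∀ y ∈ B, x * y = y * x := fun _ => hB
  refine ⟨H2.repl A b, ⟨h.repl_comm hS hB2, ?_⟩, h.inf_B_lt hbA, h.repl_le_N⟩
  intro C hC
  rw [h.card_repl hS hB2]
  exact hA.2 C hC

/-- an abelian subgroup centralizing a maximal abelian subgroup lies in it -/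
theorem maxAb_mem_of_commute {S : Type*} [Group S] [Finite S] {A : Subgroup S} (hA : A ∈ maxAbelianSubgroups S)
    {x : S} (hx : ∀ a ∈ A, a * x = x * a) : x ∈ A := by
  have h1 := maxAb_centralizer hA
  rw [← h1, mem_centralizer_iff]
  exact hx

theorem dStar_centralizes_maxAb {S : Type*} [Group S] [Finite S] {p : ℕ} [Fact p.Prime] (hS : IsPGroup p S)
    {A : Subgroup S} (hA : A ∈ maxAbelianSubgroups S) : ∀ d ∈ dStar S, ∀ a ∈ A, a * d = d * a := by
  by_contra hcon
  set D := dStar S with hD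
  have hDm : D ∈ dStarFamily S := dStar_mem hS
  haveI hDn : D.Normal := by
    haveI := dStar_characteristic S
    rw [hD]; infer_instance
  have hDc : ∀ x ∈ D, ∀ y ∈ D, x * y = y * x := fun a ha b hb =>
    congrArg (Subtype.val : D → S) (hDm.1.is_comm.comm ⟨a, ha⟩ ⟨b, hb⟩)
  obtain ⟨A₁, hA₁, hA₁max⟩ := Set.Finite.exists_maximalFor (fun A : Subgroup S => Nat.card ↥(A ⊓ D))
    {A | A ∈ maxAbelianSubgroups S ∧ ¬ ∀ d ∈ D, ∀ a ∈ A, a * d = d * a} (Set.toFinite _) ⟨A, hA, hcon⟩
  obtain ⟨hA₁m, hA₁c⟩ := hA₁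
  by_cases hN : D ≤ normalizer (A₁ : Set S)
  · apply hA₁c
    intro d hd x hx
    refine (hDm.2 x ?_ d hd).symm
    refine class_two_of_gens (N := D ⊓ A₁) hDm.1 ?_ ?_ ?_
    · intro a ha n hn
      exact hDc a ha n hn.1
    · intro n hn
      exact maxAb_comm hA₁m x hx n hn.2
    · intro a ha
      refine mem_inf.mpr ⟨?_, ?_⟩
      · have h1 := hDn.conj_mem _ (inv_mem ha) x
        rw [commutatorElement_def]
        have e : a * x * a⁻¹ * x⁻¹ = a * (x * a⁻¹ * x⁻¹) := by group
        rw [e]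
        exact mul_mem ha h1
      · have h1 := (mem_normalizer_iff.mp (hN ha) x).mp hx
        rw [commutatorElement_def]
        exact mul_mem h1 (inv_mem hx)
  · obtain ⟨A', hA', hlt, hle⟩ := thompson_replacement hS hA₁m hDc hN
    have hA'c : ∀ d ∈ D, ∀ a ∈ A', a * d = d * a := by
      by_contra hcon'
      have h1 := hA₁max (j := A') ⟨hA', hcon'⟩ (Subgroup.card_le_of_le hlt.le)
      exact hlt.ne (Subgroup.eq_of_le_of_card_ge hlt.le h1)
    apply hN
    refine le_trans ?_ hle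
    intro d hd
    exact maxAb_mem_of_commute hA' (fun a ha => hA'c d hd a ha)

theorem dStar_le_thompson {S : Type*} [Group S] [Finite S] {p : ℕ} [Fact p.Prime] (hS : IsPGroup p S) :
    dStar S ≤ thompsonSubgroupA S ⊓ centralizer (thompsonSubgroupA S : Set S) := by
  intro d hd
  refine mem_inf.mpr ⟨?_, ?_⟩
  · obtain ⟨A, hA⟩ := exists_maxAb (G := S)
    exact (le_sSup hA : A ≤ thompsonSubgroupA S) (maxAb_mem_of_commute hA (dStar_centralizes_maxAb hS hA d hd))
  · have h1 : thompsonSubgroupA S ≤ centralizer ({d} : Set S) := by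
      refine sSup_le fun A hA => ?_
      intro a ha
      rw [mem_centralizer_singleton_iff]
      exact dStar_centralizes_maxAb hS hA d hd a ha
    rw [mem_centralizer_iff]
    intro t ht
    exact mem_centralizer_singleton_iff.mp (h1 ht)

theorem center_mem_dStarFamily (S : Type*) [Group S] : center S ∈ dStarFamily S := by
  refine ⟨⟨⟨?_⟩⟩, ?_⟩
  · rintro ⟨a, ha⟩ ⟨b, hb⟩
    exact Subtype.ext (mem_center_iff.mp hb a)
  · intro x _ a ha
    exact (mem_center_iff.mp ha x).symm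

end Cfsg.Agent.H19
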