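import Mathlib
import Cfsg.Prelude.Def_DStar
import Cfsg.Agent.H19.DStar2
import Cfsg.Agent.H2.ZJ2

/-!
# The `D*`-theorem
-/

set_option autoImplicit false
set_option linter.style.haveILetI false

namespace Cfsg.Agent.H19

open Cfsg Cfsg.Agent.H2
open scoped commutatorElement

variable {G : Type*} [Group G]

/-- the family of `D*` inside a group -/
def InD (S A : Subgroup G) : Prop :=
  A ≤ S ∧ (∀ a ∈ A, ∀ b ∈ A, a * b = b * a) ∧ ∀ x ∈ S,
    ⁅⁅A ⊔ Subgroup.zpowers x, A ⊔ Subgroup.zpowers x⁆, A ⊔ Subgroup.zpowers x⁆ = ⊥ → ∀ a ∈ A, a * x = x * a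

theorem InD.mono {S T A : Subgroup G} (h : InD S A) (hTS : T ≤ S) (hAT : A ≤ T) : InD T A :=
  ⟨hAT, h.2.1, fun x hx => h.2.2 x (hTS hx)⟩

theorem inD_iff {S A : Subgroup G} (hA : A ≤ S) : InD S A ↔ A.subgroupOf S ∈ dStarFamily S := by
  have key : ∀ x : S, (A.subgroupOf S ⊔ Subgroup.zpowers x).map S.subtype = A ⊔ Subgroup.zpowers (x : G) := by
    intro x
    rw [Subgroup.map_sup, MonoidHom.map_zpowers, Subgroup.map_subgroupOf_eq_of_le hA]; rfl
  constructor
  · rintro ⟨-, h1, h2⟩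
    refine ⟨⟨⟨?_⟩⟩, ?_⟩
    · rintro ⟨a, ha⟩ ⟨b, hb⟩
      exact Subtype.ext (Subtype.ext (h1 a ha b hb))
    · intro x hx a ha
      apply Subtype.ext
      refine h2 x x.2 ?_ a (Subgroup.mem_subgroupOf.1 ha)
      rw [← key, ← Subgroup.map_commutator, ← Subgroup.map_commutator, hx, Subgroup.map_bot]
  · rintro ⟨h1, h2⟩
    refine ⟨hA, ?_, ?_⟩
    · intro a ha b hb
      exact congrArg (fun z : A.subgroupOf S => ((z : S) : G))
        (h1.is_comm.comm ⟨⟨a, hA ha⟩, ha⟩ ⟨⟨b, hA hb⟩, hb⟩)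
    · intro x hx h a ha
      refine congrArg Subtype.val (h2 ⟨x, hx⟩ ?_ ⟨a, hA ha⟩ ha)
      rw [← Subgroup.map_eq_bot_iff_of_injective _ S.subtype_injective, Subgroup.map_commutator,
        Subgroup.map_commutator, key]
      exact h

theorem InD.le_dStarOf {S A : Subgroup G} (h : InD S A) : A ≤ dStarOf S := by
  have h1 := (inD_iff h.1).1 h
  rw [← Subgroup.map_subgroupOf_eq_of_le h.1]
  exact Subgroup.map_mono (le_sSup h1)

theorem inD_dStarOf [Finite G] {p : ℕ} [Fact p.Prime] {S : Subgroup G} (hS : IsPGroup p S) : InD S (dStarOf S) := by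
  have h1 : dStarOf S ≤ S := Subgroup.map_subtype_le _
  rw [inD_iff h1]
  have h2 : (dStarOf S).subgroupOf S = dStar S := by
    unfold dStarOf
    rw [Subgroup.subgroupOf, Subgroup.comap_map_eq_self_of_injective S.subtype_injective]
  rw [h2]
  exact dStar_mem hS

theorem le_normalizer_dStarOf (S : Subgroup G) :
    Subgroup.normalizer (S : Set G) ≤ Subgroup.normalizer ((dStarOf S : Subgroup G) : Set G) := by
  haveI := dStar_characteristic S
  exact H18.le_normalizer_map_of_characteristic le_rfl _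

theorem InD.conj {S A : Subgroup G} (h : InD S A) {g : G} (hg : g ∈ Subgroup.normalizer (S : Set G)) :
    InD S (A.map (MulAut.conj g).toMonoidHom) := by
  have hS : S.map (MulAut.conj g).toMonoidHom = S := (H18.mem_normalizer_iff_map).1 hg
  refine ⟨?_, ?_, ?_⟩
  · rw [← hS]; exact Subgroup.map_mono h.1
  · rintro _ ⟨a, ha, rfl⟩ _ ⟨b, hb, rfl⟩
    rw [← map_mul, ← map_mul, h.2.1 a ha b hb]
  · intro x hx hq
    rw [← hS] at hx
    obtain ⟨y, hy, rfl⟩ := hx
    have e : A.map (MulAut.conj g).toMonoidHom ⊔ Subgroup.zpowers ((MulAut.conj g).toMonoidHom y) =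
        (A ⊔ Subgroup.zpowers y).map (MulAut.conj g).toMonoidHom := by
      rw [Subgroup.map_sup, MonoidHom.map_zpowers]
    rw [e, ← Subgroup.map_commutator, ← Subgroup.map_commutator,
      Subgroup.map_eq_bot_iff_of_injective _ (MulAut.conj g).injective] at hq
    rintro _ ⟨a, ha, rfl⟩
    rw [← map_mul, ← map_mul, h.2.2 y hy hq a ha]

theorem dStar_normal [Finite G] {p : ℕ} [Fact p.Prime]
    (hc : Subgroup.centralizer (Cfsg.pCore p G : Set G) ≤ Cfsg.pCore p G)
    (hst : ∀ (P : Subgroup G) [P.Normal], IsPGroup p P → Cfsg.IsPStableOn p P) (S : Sylow p G) :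
    (Cfsg.dStarOf (S : Subgroup G)).Normal := by
  obtain ⟨D, hD⟩ : ∃ D, D = dStarOf (S : Subgroup G) := ⟨_, rfl⟩
  obtain ⟨T, hT⟩ : ∃ T, T = pCore p G := ⟨_, rfl⟩
  haveI hTn : T.Normal := by rw [hT]; infer_instance
  have hTp : IsPGroup p T := hT ▸ H18.isPGroup_pCore p G
  have hTS : T ≤ (S : Subgroup G) := hT ▸ H18.pCore_le_sylow S
  have hDin : InD (S : Subgroup G) D := hD ▸ inD_dStarOf S.2
  have hSD : (S : Subgroup G) ≤ Subgroup.normalizer (D : Set G) := by
    rw [hD]; exact Subgroup.le_normalizer.trans (le_normalizer_dStarOf _)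
  -- `D ≤ T`
  have hDT : D ≤ T := by
    intro z hz
    rw [hT]
    apply mem_pCore_of_quad hc (hst _ (H18.isPGroup_pCore p G))
    rw [← hT, eq_bot_iff]
    have hza : Subgroup.zpowers z ≤ D := by rwa [Subgroup.zpowers_le]
    have h3 : ⁅T, D⁆ ≤ D := by
      rw [← Subgroup.le_normalizer_iff_commutator_le_right]
      exact hTS.trans hSD
    have h4 : ⁅⁅T, Subgroup.zpowers z⁆, Subgroup.zpowers z⁆ ≤ ⁅D, D⁆ :=
      Subgroup.commutator_mono ((Subgroup.commutator_mono le_rfl hza).trans h3) hza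
    refine h4.trans ?_
    rw [Subgroup.commutator_le]
    intro x hx y hy
    rw [commutatorElement_eq_one_iff_mul_comm.2 (hDin.2.1 x hx y hy)]
    exact one_mem _
  -- the normal closure is abelian
  obtain ⟨V, hV⟩ : ∃ V, V = Subgroup.normalClosure (D : Set G) := ⟨_, rfl⟩
  haveI hVn : V.Normal := by rw [hV]; infer_instance
  have hDV : D ≤ V := hV ▸ Subgroup.le_normalClosure
  have hT' : InD T (dStarOf T) := inD_dStarOf hTp
  haveI hTD : (dStarOf T).Normal := by
    rw [← Subgroup.normalizer_eq_top_iff, ← top_le_iff]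
    refine le_trans ?_ (le_normalizer_dStarOf T)
    rw [Subgroup.normalizer_eq_top_iff.2 hTn]
  have hVT : V ≤ dStarOf T := by
    rw [hV]
    exact Subgroup.normalClosure_le_normal (hDin.mono hTS hDT).le_dStarOf
  have hVc : ∀ a ∈ V, ∀ b ∈ V, a * b = b * a := fun a ha b hb => hT'.2.1 a (hVT ha) b (hVT hb)
  have hVTT : V ≤ T := hVT.trans hT'.1
  have hVp : IsPGroup p V := hTp.to_le hVTT
  -- `V` is in the family
  have hVin : InD (S : Subgroup G) V := by
    refine ⟨hVTT.trans hTS, hVc, ?_⟩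
    intro x hx hq
    have hquad : ⁅⁅V, Subgroup.zpowers x⁆, Subgroup.zpowers x⁆ = ⊥ := by
      rw [eq_bot_iff, ← hq]
      exact Subgroup.commutator_mono (Subgroup.commutator_mono le_sup_left le_sup_right) le_sup_right
    obtain ⟨C, hC⟩ : ∃ C, C = Subgroup.centralizer (V : Set G) := ⟨_, rfl⟩
    haveI hCn : C.Normal := by rw [hC]; infer_instance
    have hx' : (QuotientGroup.mk x : G ⧸ C) ∈ pCore p (G ⧸ C) := by
      subst hC
      exact hst V hVp x hquad
    obtain ⟨L, hL⟩ : ∃ L, L = (pCore p (G ⧸ C)).comap (QuotientGroup.mk' C) := ⟨_, rfl⟩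
    haveI hLn : L.Normal := by rw [hL]; infer_instance
    have hxL : x ∈ L := by rw [hL]; exact hx'
    have hCL : C ≤ L := by
      intro c hc
      rw [hL, Subgroup.mem_comap]
      have : QuotientGroup.mk' C c = 1 := (QuotientGroup.eq_one_iff c).2 hc
      rw [this]; exact one_mem _
    -- `x` centralizes `V`
    have hxc : V ≤ Subgroup.centralizer ({x} : Set G) := by
      rw [hV, Subgroup.normalClosure, Subgroup.closure_le]
      intro v hv
      obtain ⟨d, hd, hdv⟩ := Group.mem_conjugatesOfSet_iff.1 hv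
      obtain ⟨g, rfl⟩ := isConj_iff.1 hdv
      rw [SetLike.mem_coe, Subgroup.mem_centralizer_singleton_iff]
      -- `g = n * s * c`
      obtain ⟨n, hn, y, hy, rfl⟩ := exists_frattini' S L g
      have hy' : (QuotientGroup.mk y : G ⧸ C) ∈ pCore p (G ⧸ C) := by
        rw [hL] at hy; exact hy
      obtain ⟨s, hs, c, hc', rfl⟩ := exists_mul_of_mem_pCore_quotient S hy'
      have hsL : s ∈ L := by
        have := mul_mem hy (inv_mem (hCL hc'))
        rwa [mul_inv_cancel_right] at this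
      have hcd : c * d * c⁻¹ = d := by
        rw [hC] at hc'
        have := comm_of_mem_centralizer hc' (hDV hd)
        rw [← this, mul_inv_cancel_right]
      obtain ⟨m, hm⟩ : ∃ m, m = n * s := ⟨_, rfl⟩
      have hmN : m ∈ Subgroup.normalizer (((S : Subgroup G) ⊓ L : Subgroup G) : Set G) := by
        rw [hm]
        exact mul_mem hn (Subgroup.le_normalizer (Subgroup.mem_inf.2 ⟨hs, hsL⟩))
      have e1 : n * (s * c) * d * (n * (s * c))⁻¹ = m * d * m⁻¹ := by
        have : n * (s * c) * d * (n * (s * c))⁻¹ = (n * s) * (c * d * c⁻¹) * (n * s)⁻¹ := by group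
        rw [this, hcd, hm]
      rw [e1]
      -- `x' = m⁻¹ x m` lies in `S`
      have hx1 : m⁻¹ * x * m ∈ (S : Subgroup G) ⊓ L := by
        have := conj_mem_of_norm' hmN (Subgroup.mem_inf.2 ⟨hx, hxL⟩)
        exact this
      have hq' : ⁅⁅D ⊔ Subgroup.zpowers (m⁻¹ * x * m), D ⊔ Subgroup.zpowers (m⁻¹ * x * m)⁆,
          D ⊔ Subgroup.zpowers (m⁻¹ * x * m)⁆ = ⊥ := by
        have h5 : D ⊔ Subgroup.zpowers (m⁻¹ * x * m) ≤ (V ⊔ Subgroup.zpowers x).map (MulAut.conj m⁻¹).toMonoidHom := by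
          rw [Subgroup.map_sup, MonoidHom.map_zpowers]
          refine sup_le_sup ?_ ?_
          · have h6 : V.map (MulAut.conj m⁻¹).toMonoidHom = V := (H18.mem_normalizer_iff_map).1 (by
              rw [Subgroup.normalizer_eq_top]; exact Subgroup.mem_top _)
            rw [h6]; exact hDV
          · rw [Subgroup.zpowers_le]
            have h7 : (MulAut.conj m⁻¹).toMonoidHom x = m⁻¹ * x * m := by
              show m⁻¹ * x * m⁻¹⁻¹ = _
              rw [inv_inv]
            rw [h7]; exact Subgroup.mem_zpowers _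
        rw [eq_bot_iff]
        refine (Subgroup.commutator_mono (Subgroup.commutator_mono h5 h5) h5).trans ?_
        rw [← Subgroup.map_commutator, ← Subgroup.map_commutator, hq, Subgroup.map_bot]
      have h8 := hDin.2.2 _ (Subgroup.mem_inf.1 hx1).1 hq' d hd
      have e2 : m * d * m⁻¹ * x = m * (d * (m⁻¹ * x * m)) * m⁻¹ := by group
      rw [e2, h8]; group
    intro a ha
    exact Subgroup.mem_centralizer_singleton_iff.1 (hxc ha)
  have hVD : V ≤ D := by rw [hD]; exact hVin.le_dStarOf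
  have hfin : D = V := le_antisymm hDV hVD
  rw [← hD, hfin]
  exact hVn

end Cfsg.Agent.H19
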