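import Cfsg.Agent.H23.Coprime3
import Cfsg.Agent.H23.PGroup2
import Cfsg.Agent.H18.PCore
import Cfsg.Agent.H18.PRes
import Cfsg.Agent.H18.Coprime
import Cfsg.Agent.L.SylIn
import Cfsg.Prelude.Def_TwoFusion
import Cfsg.Prelude.Def_Transfer

/-!
# Sylow subgroups extraspecial of order `p³` and exponent `p²`
-/

set_option autoImplicit false
set_option linter.all false

namespace Cfsg.Agent.H19

open Cfsg Subgroup
open scoped commutatorElement

variable {G : Type*} [Group G] {p : ℕ} [hp : Fact p.Prime]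

/-- elements of a group of prime order are powers of each nontrivial one -/
theorem exists_pow_of_card_prime {Z : Subgroup G} (hZ : Nat.card Z = p) {z ζ : G} (hz : z ∈ Z) (hz1 : z ≠ 1)
    (hζ : ζ ∈ Z) : ∃ j : ℕ, z ^ j = ζ := by
  classical
  haveI : Finite Z := Nat.finite_of_card_ne_zero (by rw [hZ]; exact hp.out.ne_zero)
  have hzp : z ^ p = 1 := by
    have : (⟨z, hz⟩ : Z) ^ p = 1 := by rw [← hZ]; exact pow_card_eq_one'
    exact congrArg Subtype.val this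
  have h4 : zpowers z = Z := by
    apply eq_of_le_of_card_ge (by rw [zpowers_le]; exact hz)
    rw [hZ, Nat.card_zpowers, orderOf_eq_prime hzp hz1]
  rw [← h4] at hζ
  have h5 : IsOfFinOrder z := isOfFinOrder_iff_pow_eq_one.2 ⟨p, hp.out.pos, hzp⟩
  obtain ⟨j, hj⟩ := (h5.mem_zpowers_iff_mem_range_orderOf (y := ζ)).1 hζ |> Finset.mem_image.1
  exact ⟨j, hj.2⟩

theorem exp_sq_aux [Finite G] (hp2 : p ≠ 2) (S : Subgroup G) (hSyl : L.SylIn p S ⊤) (hE : IsExtraspecial p ↥S)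
    (hcard : Nat.card S = p ^ 3) (hexp : Monoid.exponent ↥S = p ^ 2) :
    IsStronglyClosed ((center ↥S).map S.subtype) S := by
  have hodd : Odd p := hp.out.odd_of_ne_two hp2
  obtain ⟨Z, hZ⟩ : ∃ Z, Z = (center ↥S).map S.subtype := ⟨_, rfl⟩
  rw [← hZ]
  have hSP : IsPGroup p S := hSyl.isPGroup
  have hZS : Z ≤ S := by rw [hZ]; exact map_subtype_le _
  have hZc : ∀ z ∈ Z, ∀ s ∈ S, z * s = s * z := by
    intro z hz s hs
    rw [hZ] at hz
    obtain ⟨w, hw, rfl⟩ := hz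
    exact congrArg Subtype.val (mem_center_iff.1 hw ⟨s, hs⟩).symm
  have hZm : ∀ x ∈ S, (∀ s ∈ S, s * x = x * s) → x ∈ Z := by
    intro x hx h
    rw [hZ]
    refine ⟨⟨x, hx⟩, mem_center_iff.2 (fun s => Subtype.ext (h s s.2)), rfl⟩
  have hZcard : Nat.card Z = p := by
    rw [hZ, Subgroup.card_map_of_injective S.subtype_injective]
    exact hE.2
  have hcomm : ∀ a ∈ S, ∀ b ∈ S, ⁅a, b⁆ ∈ Z := by
    intro a ha b hb
    have h1 : ⁅(⟨a, ha⟩ : S), (⟨b, hb⟩ : S)⁆ ∈ center S := by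
      rw [← hE.1.2.2]
      exact commutator_mem_commutator (mem_top _) (mem_top _)
    rw [hZ]
    exact ⟨_, h1, rfl⟩
  have hzp : ∀ z ∈ Z, z ^ p = 1 := by
    intro z hz
    have : (⟨z, hz⟩ : Z) ^ p = 1 := by rw [← hZcard]; exact pow_card_eq_one'
    exact congrArg Subtype.val this
  have hpow : ∀ a ∈ S, ∀ b ∈ S, (a * b) ^ p = a ^ p * b ^ p := by
    intro a ha b hb
    have hc : ∀ z : S, Commute ⁅(⟨b, hb⟩ : S), (⟨a, ha⟩ : S)⁆ z := by
      intro z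
      apply Subtype.ext
      exact hZc _ (hcomm b hb a ha) z z.2
    have h1 := H23.mul_pow_of_class_two (⟨a, ha⟩ : S) ⟨b, hb⟩ hc p
    have h2 : (a * b) ^ p = a ^ p * b ^ p * ⁅b, a⁆ ^ (p * (p - 1) / 2) := congrArg Subtype.val h1
    obtain ⟨k, hk⟩ := hodd
    have h3 : p * (p - 1) / 2 = p * k := by
      have : p - 1 = 2 * k := by omega
      rw [this, show p * (2 * k) = 2 * (p * k) by ring, Nat.mul_div_cancel_left _ (by norm_num)]
    rw [h2, h3, pow_mul, hzp _ (hcomm b hb a ha), one_pow, mul_one]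
  have hpZ : ∀ a ∈ S, a ^ p ∈ Z := by
    intro a ha
    apply hZm _ (S.pow_mem ha p)
    intro b hb
    have h1 : b * a * b⁻¹ = ⁅b, a⁆ * a := by rw [commutatorElement_def]; group
    have h2 : (b * a * b⁻¹) ^ p = a ^ p := by
      rw [h1, hpow _ (hZS (hcomm b hb a ha)) _ ha, hzp _ (hcomm b hb a ha), one_mul]
    rw [conj_pow] at h2
    calc b * a ^ p = (b * a ^ p * b⁻¹) * b := by group
      _ = a ^ p * b := by rw [h2]
  -- the subgroup of elements of order dividing `p`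
  obtain ⟨Ω, hΩ⟩ : ∃ Ω : Subgroup G, ∀ x, x ∈ Ω ↔ x ∈ S ∧ x ^ p = 1 :=
    ⟨{ carrier := {x | x ∈ S ∧ x ^ p = 1}
       mul_mem' := fun {a b} ha hb => ⟨S.mul_mem ha.1 hb.1, by rw [hpow a ha.1 b hb.1, ha.2, hb.2, one_mul]⟩
       one_mem' := ⟨S.one_mem, one_pow p⟩
       inv_mem' := fun {a} ha => ⟨S.inv_mem ha.1, by rw [inv_pow, ha.2, inv_one]⟩ }, fun x => Iff.rfl⟩
  have hΩS : Ω ≤ S := fun x hx => ((hΩ x).1 hx).1
  have hΩlt : Ω < S := by
    refine lt_of_le_of_ne hΩS (fun h => ?_)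
    have h1 : Monoid.exponent ↥S ∣ p := by
      apply Monoid.exponent_dvd_of_forall_pow_eq_one
      intro x
      have : (x : G) ∈ Ω := by rw [h]; exact x.2
      exact Subtype.ext ((hΩ _).1 this).2
    rw [hexp] at h1
    have h2 := Nat.le_of_dvd hp.out.pos h1
    have h3 := hp.out.one_lt
    nlinarith
  have hZΩ : Z ≤ Ω := fun z hz => (hΩ z).2 ⟨hZS hz, hzp z hz⟩
  have hΩcard : Nat.card Ω ≤ p ^ 2 := by
    have h1 := H23.mul_card_le_of_lt hSP hΩlt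
    rw [hcard] at h1
    have : p * Nat.card Ω ≤ p * p ^ 2 := by rw [show p * p ^ 2 = p ^ 3 by ring]; exact h1
    exact Nat.le_of_mul_le_mul_left this hp.out.pos
  -- (*)
  have hstar : ∀ y ∈ S, y ∉ Z → ∀ ζ ∈ Z, ∃ u ∈ S, u * y * u⁻¹ = y * ζ := by
    intro y hyS hyZ ζ hζ
    have h1 : ∃ b ∈ S, b * y ≠ y * b := by
      by_contra hcon
      push Not at hcon
      exact hyZ (hZm y hyS hcon)
    obtain ⟨b, hb, hby⟩ := h1
    have h2 : y⁻¹ * (b * y * b⁻¹) ∈ Z := by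
      have := hcomm y⁻¹ (S.inv_mem hyS) b hb
      rw [commutatorElement_def, inv_inv] at this
      simpa [mul_assoc] using this
    have h3 : y⁻¹ * (b * y * b⁻¹) ≠ 1 := by
      intro h
      apply hby
      have : b * y * b⁻¹ = y := by
        calc b * y * b⁻¹ = y * (y⁻¹ * (b * y * b⁻¹)) := by group
          _ = y := by rw [h, mul_one]
      calc b * y = (b * y * b⁻¹) * b := by group
        _ = y * b := by rw [this]
    obtain ⟨z₀, hz₀⟩ : ∃ z₀, z₀ = y⁻¹ * (b * y * b⁻¹) := ⟨_, rfl⟩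
    rw [← hz₀] at h2 h3
    obtain ⟨j, hj⟩ := exists_pow_of_card_prime hZcard h2 h3 hζ
    refine ⟨b ^ j, S.pow_mem hb j, ?_⟩
    rw [← hj]
    apply H18.conj_pow_eq_mul_pow
    · rw [hz₀]; group
    · rw [← hZc z₀ h2 b hb]; group
  refine ⟨hZS, ?_⟩
  intro z hz g hgz
  by_contra hyZ
  obtain ⟨y, hy⟩ : ∃ y, y = g * z * g⁻¹ := ⟨_, rfl⟩
  rw [← hy] at hgz hyZ
  have hz1 : z ≠ 1 := by
    rintro rfl
    apply hyZ
    rw [hy]
    simpa using Z.one_mem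
  have hyp : y ^ p = 1 := by rw [hy, conj_pow, hzp z hz]; group
  have hyΩ : y ∈ Ω := (hΩ y).2 ⟨hgz, hyp⟩
  -- `Ω = Z ⟨y⟩`
  have hΩeq : Z ⊔ zpowers y = Ω := by
    apply eq_of_le_of_card_ge (sup_le hZΩ (by rw [zpowers_le]; exact hyΩ))
    refine hΩcard.trans ?_
    have hlt : Z < Z ⊔ zpowers y := by
      refine lt_of_le_of_ne le_sup_left (fun h => hyZ ?_)
      rw [h]; exact (le_sup_right : _ ≤ Z ⊔ _) (mem_zpowers y)
    have h1 := H23.mul_card_le_of_lt (hSP.to_le (sup_le hZS (by rw [zpowers_le]; exact hgz))) hlt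
    rw [hZcard] at h1
    rw [sq]; exact h1
  have hΩab : ∀ a ∈ Ω, a * y = y * a := by
    have : Ω ≤ centralizer ({y} : Set G) := by
      rw [← hΩeq]
      refine sup_le (fun a ha => ?_) ?_
      · rw [mem_centralizer_singleton_iff]
        exact hZc a ha y hgz
      · rw [zpowers_le, mem_centralizer_singleton_iff]
    intro a ha
    exact mem_centralizer_singleton_iff.1 (this ha)
  -- `h`
  obtain ⟨h, hhΩ, hhz⟩ : ∃ h, L.cj h Ω = Ω ∧ h * z * h⁻¹ = y := by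
    have h1 : Ω ≤ centralizer ({y} : Set G) := fun a ha => mem_centralizer_singleton_iff.2 (hΩab a ha)
    have h2 : L.cj g S ≤ centralizer ({y} : Set G) := by
      apply L.cj_le_of_forall
      intro s hs
      rw [mem_centralizer_singleton_iff, hy]
      calc g * s * g⁻¹ * (g * z * g⁻¹) = g * (s * z) * g⁻¹ := by group
        _ = g * (z * s) * g⁻¹ := by rw [hZc z hz s hs]
        _ = _ := by group
    have h3 : L.SylIn p (L.cj g S) (centralizer ({y} : Set G)) := by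
      have := hSyl.cj g
      rw [L.cj_top] at this
      exact this.of_le h2 le_top
    obtain ⟨c, hc, hcΩ⟩ := h3.exists_conj_le (hSP.to_le hΩS) h1
    have h4 : L.cj c Ω = L.cj g Ω := by
      apply eq_of_le_of_card_ge
      · intro x hx
        have h5 := hcΩ hx
        rw [L.mem_cj] at h5 hx ⊢
        refine (hΩ _).2 ⟨h5, ?_⟩
        have h6 : (c⁻¹ * x * c) ^ p = 1 := ((hΩ _).1 hx).2
        have h7 : x ^ p = 1 := by
          have h8 := conj_pow (i := p) (a := c⁻¹) (b := x)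
          rw [inv_inv] at h8
          rw [h8] at h6
          calc x ^ p = c * (c⁻¹ * x ^ p * c) * c⁻¹ := by group
            _ = 1 := by rw [h6]; group
        have h8 := conj_pow (i := p) (a := g⁻¹) (b := x)
        rw [inv_inv] at h8
        rw [h8, h7]; group
      · rw [L.card_cj, L.card_cj]
    refine ⟨c⁻¹ * g, ?_, ?_⟩
    · rw [← L.cj_cj, ← h4, L.cj_inv_cj]
    · have h5 := mem_centralizer_singleton_iff.1 hc
      calc c⁻¹ * g * z * (c⁻¹ * g)⁻¹ = c⁻¹ * (g * z * g⁻¹) * c := by group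
        _ = c⁻¹ * (y * c) := by rw [← hy]; group
        _ = c⁻¹ * (c * y) := by rw [h5]
        _ = y := by group
  have hmemh : ∀ a ∈ Ω, h⁻¹ * a * h ∈ Ω := by
    intro a ha
    rw [← hhΩ, L.mem_cj] at ha
    exact ha
  obtain ⟨u, huS, huy⟩ := hstar y hgz hyZ z hz
  have huz : u * z * u⁻¹ = z := by rw [← hZc z hz u huS]; group
  -- `v`
  obtain ⟨v, hvy, hvz⟩ : ∃ v, v * y * v⁻¹ = y ∧ v * z * v⁻¹ = z * y⁻¹ := by
    obtain ⟨x₁, hx₁⟩ : ∃ x₁, x₁ = h⁻¹ * z * h := ⟨_, rfl⟩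
    have h1 : x₁ ∈ Ω := hx₁ ▸ hmemh z (hZΩ hz)
    have h2 : x₁ ∉ Z := by
      intro h2
      obtain ⟨i, hi⟩ := exists_pow_of_card_prime hZcard hz hz1 h2
      have h3 : y ^ i = z := by
        rw [← hhz, conj_pow, hi, hx₁]; group
      have h4 : ¬ p ∣ i := by
        rintro ⟨k, rfl⟩
        apply hz1
        rw [← h3, pow_mul, hyp, one_pow]
      have h5 : Nat.Coprime i p := ((Nat.Prime.coprime_iff_not_dvd hp.out).2 h4).symm
      apply hyZ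
      have h6 : orderOf y ∣ p := orderOf_dvd_of_pow_eq_one hyp
      have h7 : (orderOf y).Coprime i := Nat.Coprime.coprime_dvd_left h6 h5.symm
      obtain ⟨m, hm⟩ := exists_pow_eq_self_of_coprime (x := y) (n := i) h7.symm
      rw [← hm, h3]
      exact Z.pow_mem hz m
    obtain ⟨u', hu'S, hu'⟩ := hstar x₁ (hΩS h1) h2 z⁻¹ (Z.inv_mem hz)
    refine ⟨h * u' * h⁻¹, ?_, ?_⟩
    · calc h * u' * h⁻¹ * y * (h * u' * h⁻¹)⁻¹ = h * (u' * (h⁻¹ * y * h) * u'⁻¹) * h⁻¹ := by group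
        _ = h * (u' * z * u'⁻¹) * h⁻¹ := by rw [← hhz]; group
        _ = h * (z * u' * u'⁻¹) * h⁻¹ := by rw [hZc z hz u' hu'S]
        _ = y := by rw [← hhz]; group
    · calc h * u' * h⁻¹ * z * (h * u' * h⁻¹)⁻¹ = h * (u' * (h⁻¹ * z * h) * u'⁻¹) * h⁻¹ := by group
        _ = h * (x₁ * z⁻¹) * h⁻¹ := by rw [← hx₁, hu']
        _ = z * (h * z * h⁻¹)⁻¹ := by rw [hx₁]; group
        _ = z * y⁻¹ := by rw [hhz]
  have hzy : z * y = y * z := hZc z hz y hgz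
  -- `k = uvu`
  obtain ⟨k, hk⟩ : ∃ k, k = u * v * u := ⟨_, rfl⟩
  have hkz : k * z * k⁻¹ = y⁻¹ := by
    calc k * z * k⁻¹ = u * (v * (u * z * u⁻¹) * v⁻¹) * u⁻¹ := by rw [hk]; group
      _ = u * (z * y⁻¹) * u⁻¹ := by rw [huz, hvz]
      _ = (u * z * u⁻¹) * (u * y * u⁻¹)⁻¹ := by group
      _ = z * (y * z)⁻¹ := by rw [huz, huy]
      _ = y⁻¹ := by group
  have hky : k * y * k⁻¹ = z := by
    calc k * y * k⁻¹ = u * (v * (u * y * u⁻¹) * v⁻¹) * u⁻¹ := by rw [hk]; group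
      _ = u * ((v * y * v⁻¹) * (v * z * v⁻¹)) * u⁻¹ := by rw [huy]; group
      _ = u * (y * (z * y⁻¹)) * u⁻¹ := by rw [hvy, hvz]
      _ = u * z * u⁻¹ := by
          have : y * (z * y⁻¹) = z := by rw [← mul_assoc, ← hzy]; group
          rw [this]
      _ = z := huz
  obtain ⟨t, ht⟩ : ∃ t, t = k * k := ⟨_, rfl⟩
  have htz : t * z * t⁻¹ = z⁻¹ := by
    calc t * z * t⁻¹ = k * (k * z * k⁻¹) * k⁻¹ := by rw [ht]; group
      _ = (k * y * k⁻¹)⁻¹ := by rw [hkz]; group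
      _ = z⁻¹ := by rw [hky]
  have hty : t * y * t⁻¹ = y⁻¹ := by
    calc t * y * t⁻¹ = k * (k * y * k⁻¹) * k⁻¹ := by rw [ht]; group
      _ = y⁻¹ := by rw [hky, hkz]
  have htZ : ∀ ζ ∈ Z, t * ζ * t⁻¹ = ζ⁻¹ := by
    intro ζ hζ
    obtain ⟨j, rfl⟩ := exists_pow_of_card_prime hZcard hz hz1 hζ
    rw [← conj_pow, htz, inv_pow]
  -- correct `t` to normalize `S`
  obtain ⟨C, hC⟩ : ∃ C, C = centralizer ({z} : Set G) ⊓ centralizer ({y} : Set G) := ⟨_, rfl⟩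
  have hCm : ∀ c, c ∈ C ↔ c * z * c⁻¹ = z ∧ c * y * c⁻¹ = y := by
    intro c
    rw [hC, mem_inf, mem_centralizer_singleton_iff, mem_centralizer_singleton_iff, mul_inv_eq_iff_eq_mul,
      mul_inv_eq_iff_eq_mul]
  have hactS : ∀ b ∈ S, b * z * b⁻¹ = z ∧ ∃ ζ ∈ Z, b * y * b⁻¹ = y * ζ := by
    intro b hb
    refine ⟨by rw [← hZc z hz b hb]; group, y⁻¹ * (b * y * b⁻¹), ?_, by group⟩
    have := hcomm y⁻¹ (S.inv_mem hgz) b hb
    rw [commutatorElement_def, inv_inv] at this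
    simpa [mul_assoc] using this
  have hSC : S ≤ normalizer (C : Set G) := by
    apply H18.le_normalizer_of_conj_mem
    intro b hb c hc
    have h1 := (hCm c).1 hc
    have hbi := hactS b⁻¹ (S.inv_mem hb)
    obtain ⟨ζ, hζ, hbζ⟩ := hbi.2
    rw [inv_inv] at hbζ
    have hbz := (hactS b hb).1
    have hbz' := hbi.1
    rw [inv_inv] at hbz'
    have hcζ : c * ζ * c⁻¹ = ζ := by
      obtain ⟨j, rfl⟩ := exists_pow_of_card_prime hZcard hz hz1 hζ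
      rw [← conj_pow, h1.1]
    refine (hCm _).2 ⟨?_, ?_⟩
    · calc b * c * b⁻¹ * z * (b * c * b⁻¹)⁻¹ = b * (c * (b⁻¹ * z * b) * c⁻¹) * b⁻¹ := by group
        _ = z := by rw [hbz', h1.1, hbz]
    · calc b * c * b⁻¹ * y * (b * c * b⁻¹)⁻¹ = b * (c * (b⁻¹ * y * b) * c⁻¹) * b⁻¹ := by group
        _ = b * ((c * y * c⁻¹) * (c * ζ * c⁻¹)) * b⁻¹ := by rw [hbζ]; group
        _ = b * (y * ζ) * b⁻¹ := by rw [h1.2, hcζ]
        _ = b * (b⁻¹ * y * b) * b⁻¹ := by rw [hbζ]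
        _ = y := by group
  have htS : L.cj t S ≤ S ⊔ C := by
    apply L.cj_le_of_forall
    intro b hb
    rw [H18.mem_sup_iff_of_le_normalizer hSC]
    refine ⟨b, hb, b⁻¹ * (t * b * t⁻¹), ?_, by group⟩
    obtain ⟨hbz, ζ, hζ, hbζ⟩ := hactS b hb
    have htz' : t⁻¹ * z * t = z⁻¹ := by
      calc t⁻¹ * z * t = t⁻¹ * (z⁻¹)⁻¹ * t := by rw [inv_inv]
        _ = t⁻¹ * (t * z * t⁻¹)⁻¹ * t := by rw [htz]
        _ = z⁻¹ := by group
    have hty' : t⁻¹ * y * t = y⁻¹ := by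
      calc t⁻¹ * y * t = t⁻¹ * (y⁻¹)⁻¹ * t := by rw [inv_inv]
        _ = t⁻¹ * (t * y * t⁻¹)⁻¹ * t := by rw [hty]
        _ = y⁻¹ := by group
    refine (hCm _).2 ⟨?_, ?_⟩
    · calc b⁻¹ * (t * b * t⁻¹) * z * (b⁻¹ * (t * b * t⁻¹))⁻¹
          = b⁻¹ * (t * (b * (t⁻¹ * z * t) * b⁻¹) * t⁻¹) * b := by group
        _ = b⁻¹ * (t * (b * z * b⁻¹)⁻¹ * t⁻¹) * b := by rw [htz']; group
        _ = b⁻¹ * (t * z * t⁻¹)⁻¹ * b := by rw [hbz]; group
        _ = b⁻¹ * (b * z * b⁻¹) * b := by rw [htz, inv_inv, hbz]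
        _ = z := by group
    · calc b⁻¹ * (t * b * t⁻¹) * y * (b⁻¹ * (t * b * t⁻¹))⁻¹
          = b⁻¹ * (t * (b * (t⁻¹ * y * t) * b⁻¹) * t⁻¹) * b := by group
        _ = b⁻¹ * (t * (b * y * b⁻¹)⁻¹ * t⁻¹) * b := by rw [hty']; group
        _ = b⁻¹ * ((t * y * t⁻¹) * (t * ζ * t⁻¹))⁻¹ * b := by rw [hbζ]; group
        _ = b⁻¹ * (ζ * y) * b := by rw [hty, htZ ζ hζ]; group
        _ = b⁻¹ * (b * y * b⁻¹) * b := by rw [hZc ζ hζ y hgz, hbζ]
        _ = y := by group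
  obtain ⟨t', htS', htz', hty'⟩ : ∃ t', L.cj t' S = S ∧ t' * z * t'⁻¹ = z⁻¹ ∧ t' * y * t'⁻¹ = y⁻¹ := by
    have h1 : L.SylIn p S (S ⊔ C) := hSyl.of_le le_sup_left le_top
    have h2 : L.SylIn p (L.cj t S) (S ⊔ C) := by
      have := hSyl.cj t
      rw [L.cj_top] at this
      exact this.of_le htS le_top
    obtain ⟨x, hx, hxS⟩ := h1.exists_conj_eq h2
    obtain ⟨c, hc, s, hs, rfl⟩ := (H18.mem_sup_iff_of_le_normalizer' hSC).1 hx
    rw [← L.cj_cj, L.cj_eq_self_of_mem hs] at hxS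
    have hc' := (hCm _).1 (C.inv_mem hc)
    rw [inv_inv] at hc'
    refine ⟨c⁻¹ * t, ?_, ?_, ?_⟩
    · rw [← L.cj_cj, ← hxS, L.cj_inv_cj]
    · calc c⁻¹ * t * z * (c⁻¹ * t)⁻¹ = c⁻¹ * (t * z * t⁻¹) * c := by group
        _ = (c⁻¹ * z * c)⁻¹ := by rw [htz]; group
        _ = z⁻¹ := by rw [hc'.1]
    · calc c⁻¹ * t * y * (c⁻¹ * t)⁻¹ = c⁻¹ * (t * y * t⁻¹) * c := by group
        _ = (c⁻¹ * y * c)⁻¹ := by rw [hty]; group
        _ = y⁻¹ := by rw [hc'.2]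
  have htZ' : ∀ ζ ∈ Z, t' * ζ * t'⁻¹ = ζ⁻¹ := by
    intro ζ hζ
    obtain ⟨j, rfl⟩ := exists_pow_of_card_prime hZcard hz hz1 hζ
    rw [← conj_pow, htz', inv_pow]
  -- all elements outside `Ω` commute with `y`
  have hout : ∀ b ∈ S, b ∉ Ω → b * y = y * b := by
    intro b hb hbΩ
    obtain ⟨b', hb'⟩ : ∃ b', b' = t' * b * t'⁻¹ := ⟨_, rfl⟩
    have hb'S : b' ∈ S := by rw [← htS', hb']; exact L.conj_mem_cj hb
    have h1 : b' ^ p = (b ^ p)⁻¹ := by rw [hb', conj_pow, htZ' _ (hpZ b hb)]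
    have h2 : b' * b ∈ Ω := (hΩ _).2 ⟨S.mul_mem hb'S hb, by rw [hpow _ hb'S _ hb, h1]; group⟩
    obtain ⟨-, ζ, hζ, hbζ⟩ := hactS b hb
    have h3 : b' * y⁻¹ * b'⁻¹ = y⁻¹ * ζ⁻¹ := by
      calc b' * y⁻¹ * b'⁻¹ = b' * (t' * y * t'⁻¹) * b'⁻¹ := by rw [hty']
        _ = t' * (b * y * b⁻¹) * t'⁻¹ := by rw [hb']; group
        _ = (t' * y * t'⁻¹) * (t' * ζ * t'⁻¹) := by rw [hbζ]; group
        _ = y⁻¹ * ζ⁻¹ := by rw [hty', htZ' ζ hζ]
    have hcy : b⁻¹ * y⁻¹ * b = y⁻¹ * ζ := by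
      have hζb := hZc ζ hζ b hb
      have hζy := hZc ζ hζ y hgz
      calc b⁻¹ * y⁻¹ * b = b⁻¹ * (ζ * (y * ζ)⁻¹) * b := by rw [mul_inv_rev]; group
        _ = b⁻¹ * (ζ * (b * y * b⁻¹)⁻¹) * b := by rw [hbζ]
        _ = b⁻¹ * (ζ * b) * y⁻¹ := by group
        _ = b⁻¹ * (b * ζ) * y⁻¹ := by rw [hζb]
        _ = ζ * y⁻¹ := by group
        _ = y⁻¹ * (y * ζ) * y⁻¹ := by group
        _ = y⁻¹ * (ζ * y) * y⁻¹ := by rw [hζy]
        _ = y⁻¹ * ζ := by group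
    have hey : b' * b * (y⁻¹ * ζ) * (b' * b)⁻¹ = y⁻¹ * ζ := by
      have h5 : Commute (b' * b) y := hΩab _ h2
      have h6 : Commute (b' * b) ζ := (hZc ζ hζ _ (S.mul_mem hb'S hb)).symm
      have h7 : Commute (b' * b) (y⁻¹ * ζ) := h5.inv_right.mul_right h6
      rw [h7.eq]; group
    have h4 : b' * y⁻¹ * b'⁻¹ = y⁻¹ * ζ := by
      rw [← hey, ← hcy]; group
    rw [h3] at h4
    have h5 : ζ⁻¹ = ζ := mul_left_cancel h4
    have h6 : ζ = 1 := by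
      have h7 : ζ ^ 2 = 1 := by
        rw [sq]
        calc ζ * ζ = ζ * ζ⁻¹ := by rw [h5]
          _ = 1 := by group
      have h8 : orderOf ζ ∣ 2 := orderOf_dvd_of_pow_eq_one h7
      have h9 : orderOf ζ ∣ p := orderOf_dvd_of_pow_eq_one (hzp ζ hζ)
      have h10 : Nat.Coprime 2 p := (Nat.coprime_primes Nat.prime_two hp.out).2 (Ne.symm hp2)
      exact orderOf_eq_one_iff.1 (Nat.eq_one_of_dvd_coprimes h10 h8 h9)
    rw [h6, mul_one, mul_inv_eq_iff_eq_mul] at hbζ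
    exact hbζ
  apply hyZ
  apply hZm y hgz
  intro s hs
  by_cases hsΩ : s ∈ Ω
  · exact hΩab s hsΩ
  · exact hout s hs hsΩ

end Cfsg.Agent.H19
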