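import Mathlib

/-!
# Transfer evaluated on `M` when `M ∩ M^g` lies in the kernel for `g ∉ M`
-/

set_option autoImplicit false
set_option linter.style.haveILetI false

namespace Cfsg.Agent.H19

open Subgroup MulAction MonoidHom

theorem transfer_eq_of_inf_le {G : Type*} [Group G] {M : Subgroup G} [M.FiniteIndex] {A : Type*} [CommGroup A]
    (ϕ : M →* A)
    (h : ∀ (g : G) (x : M) (hx : g⁻¹ * (x : G) * g ∈ M), g ∉ M → ϕ ⟨g⁻¹ * x * g, hx⟩ = 1) (m : M) :
    transfer ϕ (m : G) = ϕ m := by
  classical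
  letI : Fintype (G ⧸ M) := M.fintypeQuotientOfFiniteIndex
  letI : Fintype (Quotient (orbitRel (zpowers (m : G)) (G ⧸ M))) := Fintype.ofFinite _
  rw [transfer_eq_prod_quotient_orbitRel_zpowers_quot]
  set e : G ⧸ M := ((1 : G) : G ⧸ M) with he
  set q₀ : Quotient (orbitRel (zpowers (m : G)) (G ⧸ M)) := Quotient.mk'' e with hq₀
  have hme : ∀ k : ℤ, ((m : G) ^ k) • e = e := by
    intro k
    have h1 : ((m : G) ^ k) • e = (((m : G) ^ k * 1 : G) : G ⧸ M) := rfl
    rw [h1, he, QuotientGroup.eq, mul_one, mul_one]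
    exact inv_mem (zpow_mem m.2 k)
  have hq₀out : q₀.out = e := by
    have h1 : (orbitRel (zpowers (m : G)) (G ⧸ M)).r q₀.out e := Quotient.mk_out e
    obtain ⟨⟨_, k, rfl⟩, hk⟩ := h1
    rw [← hk]
    exact hme k
  rw [Finset.prod_eq_single q₀]
  · have hper : Function.minimalPeriod ((m : G) • ·) q₀.out = 1 := by
      rw [Function.minimalPeriod_eq_one_iff_isFixedPt, hq₀out]
      have := hme 1
      rwa [zpow_one] at this
    have ht : (q₀.out.out : G) ∈ M := by
      rw [hq₀out]
      have h1 : ((e.out : G) : G ⧸ M) = e := Quotient.out_eq' e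
      rw [he, QuotientGroup.eq] at h1
      have := inv_mem h1
      simpa using this
    have h2 : (⟨q₀.out.out⁻¹ * (m : G) ^ Function.minimalPeriod ((m : G) • ·) q₀.out * q₀.out.out,
        QuotientGroup.out_conj_pow_minimalPeriod_mem M (m : G) q₀.out⟩ : M) =
        (⟨q₀.out.out, ht⟩ : M)⁻¹ * m * ⟨q₀.out.out, ht⟩ := by
      apply Subtype.ext
      simp only [hper, pow_one]
      rfl
    rw [h2, map_mul, map_mul, map_inv, mul_comm (ϕ _)⁻¹, inv_mul_cancel_right]
  · intro q _ hq
    apply h q.out.out ⟨(m : G) ^ Function.minimalPeriod ((m : G) • ·) q.out, pow_mem m.2 _⟩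
    intro hmem
    apply hq
    have h1 : q.out = e := by
      have h2 : ((q.out.out : G) : G ⧸ M) = q.out := Quotient.out_eq' q.out
      rw [← h2, he, QuotientGroup.eq]
      simpa using inv_mem hmem
    rw [hq₀, ← h1]
    exact (Quotient.out_eq' q).symm
  · intro h1
    exact absurd (Finset.mem_univ _) h1

end Cfsg.Agent.H19
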