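import Mathlib
import Cfsg.Agent.H19.TransferTI
import Cfsg.Agent.H1.Basic
import Cfsg.Agent.H18.PCore

/-!
# Extremely closed subgroups in a maximal chain
-/

set_option autoImplicit false
set_option linter.style.haveILetI false

namespace Cfsg.Agent.H19

open Subgroup
open scoped Pointwise

theorem normalizer_conj_smul_le {G : Type*} [Group G] {M H : Subgroup G} (g : G) (h : M ≤ normalizer (H : Set G)) :
    MulAut.conj g • M ≤ normalizer ((MulAut.conj g • H : Subgroup G) : Set G) := by
  intro y hy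
  rw [H1.mem_conj_smul] at hy
  have h1 := H1.mem_normalizer_iff_conj_smul.mp (h hy)
  rw [H1.mem_normalizer_iff_conj_smul]
  have e : y * g = g * (g⁻¹ * y * g) := by group
  rw [H1.conj_smul_smul, e, ← H1.conj_smul_smul, h1]

theorem sup_eq_of_coatom {G : Type*} [Group G] {H M D : Subgroup G} (hHM : H ≤ M) (hmax : IsCoatom (H.subgroupOf M))
    (hD : D ≤ M) (hDH : ¬ D ≤ H) : H ⊔ D = M := by
  have h1 : H.subgroupOf M < (H ⊔ D).subgroupOf M := by
    refine lt_of_le_of_ne (Subgroup.comap_mono le_sup_left) fun h => hDH ?_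
    intro d hd
    have : (⟨d, hD hd⟩ : M) ∈ (H ⊔ D).subgroupOf M := (le_sup_right : D ≤ H ⊔ D) hd
    rw [← h] at this
    exact this
  have h2 := hmax.2 _ h1
  rw [subgroupOf_eq_top] at h2
  exact le_antisymm (sup_le hHM hD) h2

theorem normalizer_of_closed {G : Type*} [Group G] [Finite G] {H M : Subgroup G} (hHM : H ≤ M)
    (hcl : ∀ g : G, (H ⊔ MulAut.conj g • H) ⊓ M = H) : M ≤ normalizer (H : Set G) := by
  intro m hm
  have h1 : MulAut.conj m • H ≤ M := by
    intro y hy
    rw [H1.mem_conj_smul] at hy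
    have := M.mul_mem (M.mul_mem hm (hHM hy)) (M.inv_mem hm)
    simpa [mul_assoc] using this
  have h2 := hcl m
  rw [inf_eq_left.mpr (sup_le hHM h1)] at h2
  have h3 : MulAut.conj m • H ≤ H := le_sup_right.trans h2.le
  rw [H1.mem_normalizer_iff_conj_smul]
  exact Subgroup.eq_of_le_of_card_ge h3 (by rw [H1.card_conj_smul])

theorem normalClosure_inf_of_closed {G : Type*} [Group G] [Finite G] {H M : Subgroup G} (hHM : H ≤ M)
    (hcl : ∀ g : G, (H ⊔ MulAut.conj g • H) ⊓ M = H) (hmaxH : IsCoatom (H.subgroupOf M)) (hmaxM : IsCoatom M) :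
    Subgroup.normalClosure (H : Set G) ⊓ M = H := by
  have hHN : H ≤ Subgroup.normalClosure (H : Set G) := Subgroup.subset_normalClosure
  have hMH := normalizer_of_closed hHM hcl
  refine le_antisymm ?_ (le_inf hHN hHM)
  by_cases hex : ∃ g : G, g ∉ M ∧ ¬ (M ⊓ MulAut.conj g • M ≤ H)
  · obtain ⟨g, hg, hD⟩ := hex
    set D := M ⊓ MulAut.conj g • M with hDdef
    have hHD := sup_eq_of_coatom hHM hmaxH inf_le_left hD
    set X := H ⊔ MulAut.conj g • H with hX
    have hDX : D ≤ normalizer (X : Set G) :=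
      H18.le_normalizer_sup (inf_le_left.trans hMH) (inf_le_right.trans (normalizer_conj_smul_le g hMH))
    have hXX : X ≤ normalizer (X : Set G) := Subgroup.le_normalizer
    have hMX : M ≤ normalizer (X : Set G) := by
      rw [← hHD]
      exact sup_le (le_sup_left.trans hXX) hDX
    by_cases hXM : X ≤ M
    · have h1 := hcl g
      rw [inf_eq_left.mpr hXM] at h1
      have h2 : MulAut.conj g • H ≤ H := le_sup_right.trans h1.le
      have h3 : g ∈ normalizer (H : Set G) := by
        rw [H1.mem_normalizer_iff_conj_smul]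
        exact Subgroup.eq_of_le_of_card_ge h2 (by rw [H1.card_conj_smul])
      have h4 : normalizer (H : Set G) = ⊤ := by
        apply hmaxM.2
        exact lt_of_le_of_ne hMH fun h => hg (h ▸ h3)
      have h5 : H.Normal := Subgroup.normalizer_eq_top_iff.mp h4
      have h6 : Subgroup.normalClosure (H : Set G) = H := by
        haveI := h5
        exact Subgroup.normalClosure_eq_self H
      rw [h6]
      exact inf_le_left
    · have h4 : normalizer (X : Set G) = ⊤ := by
        apply hmaxM.2
        exact lt_of_le_of_ne hMX fun h => hXM (h ▸ hXX)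
      haveI h5 : X.Normal := Subgroup.normalizer_eq_top_iff.mp h4
      have h6 : Subgroup.normalClosure (H : Set G) ≤ X :=
        Subgroup.normalClosure_le_normal (SetLike.coe_subset_coe.mpr (le_sup_left : H ≤ X))
      refine le_trans (inf_le_inf_right _ h6) ?_
      exact (hcl g).le
  · push Not at hex
    haveI hn : (H.subgroupOf M).Normal := (H18.normal_subgroupOf_iff hHM).mpr hMH
    -- the quotient is cyclic
    obtain ⟨x, hx⟩ : ∃ x : M, x ∉ H.subgroupOf M := by
      by_contra hcon
      push Not at hcon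
      exact hmaxH.1 (eq_top_iff.mpr fun y _ => hcon y)
    have hgen : H.subgroupOf M ⊔ zpowers x = ⊤ := by
      apply hmaxH.2
      refine lt_of_le_of_ne le_sup_left fun h => hx ?_
      rw [h]
      exact (le_sup_right : zpowers x ≤ _) (mem_zpowers x)
    have hcyc : IsCyclic (M ⧸ H.subgroupOf M) := by
      refine ⟨QuotientGroup.mk x, fun y => ?_⟩
      obtain ⟨y, rfl⟩ := QuotientGroup.mk_surjective y
      have h1 : y ∈ H.subgroupOf M ⊔ zpowers x := by rw [hgen]; exact mem_top y
      obtain ⟨n, hn', z, ⟨k, rfl⟩, rfl⟩ := Subgroup.mem_sup_of_normal_left.mp h1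
      refine ⟨k, ?_⟩
      have h2 : (QuotientGroup.mk n : M ⧸ H.subgroupOf M) = 1 := (QuotientGroup.eq_one_iff n).mpr hn'
      simp only [QuotientGroup.mk_mul, h2, one_mul]
      rfl
    letI : CommGroup (M ⧸ H.subgroupOf M) := IsCyclic.commGroup
    set ϕ : M →* M ⧸ H.subgroupOf M := QuotientGroup.mk' (H.subgroupOf M) with hϕ
    have hϕ1 : ∀ m : M, ϕ m = 1 ↔ (m : G) ∈ H := fun m => QuotientGroup.eq_one_iff m
    have htr := transfer_eq_of_inf_le ϕ (by
      intro g y hy hg
      rw [hϕ1]
      have h1 : g⁻¹ ∉ M := fun h => hg (by simpa using inv_mem h)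
      refine hex g⁻¹ h1 ⟨hy, ?_⟩
      exact H1.mem_conj_smul.mpr (by simp [mul_assoc]))
    have h1 : Subgroup.normalClosure (H : Set G) ≤ (MonoidHom.transfer ϕ).ker := by
      refine Subgroup.normalClosure_le_normal ?_
      intro h hh
      rw [SetLike.mem_coe, MonoidHom.mem_ker]
      have h2 := htr ⟨h, hHM hh⟩
      rw [h2, hϕ1]
      exact hh
    rintro y ⟨hy1, hy2⟩
    have h2 := h1 hy1
    rw [MonoidHom.mem_ker] at h2
    have h3 := htr ⟨y, hy2⟩
    rw [h2] at h3
    exact (hϕ1 _).mp h3.symm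

end Cfsg.Agent.H19
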