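import Mathlib
import Cfsg.Agent.H19.ExtClosed
import Cfsg.Agent.H19.Sylow2
import Cfsg.Agent.H2.Frat

/-!
# Simple groups generated by two conjugates of a subgroup of prime index of a maximal subgroup
-/

set_option autoImplicit false
set_option linter.style.haveILetI false

namespace Cfsg.Agent.H19

open Subgroup
open scoped Pointwise

/-- a nonabelian simple group has no maximal subgroup of prime order -/
theorem not_prime_card_of_coatom {G : Type*} [Group G] [Finite G] [IsSimpleGroup G] {M : Subgroup G}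
    (hmaxM : IsCoatom M) (hp : (Nat.card M).Prime) : False := by
  haveI : Fact (Nat.card M).Prime := ⟨hp⟩
  have hM1 : M ≠ ⊥ := by
    rintro rfl
    rw [Subgroup.card_bot] at hp
    exact Nat.not_prime_one hp
  have hN : normalizer (M : Set G) = M := by
    by_contra hne
    have h1 : normalizer (M : Set G) = ⊤ := hmaxM.2 _ (lt_of_le_of_ne Subgroup.le_normalizer (Ne.symm hne))
    have h2 : M.Normal := Subgroup.normalizer_eq_top_iff.mp h1
    rcases h2.eq_bot_or_eq_top with h | h
    · exact hM1 h
    · exact hmaxM.1 h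
  have hMp : IsPGroup (Nat.card M) M := IsPGroup.of_card (n := 1) (by simp)
  have hsyl : H23.IsSylowOf (Nat.card M) M ⊤ := by
    refine H23.isSylowOf_of_normalizer ?_
    rw [top_inf_eq, hN]
    refine H23.isSylowOf_of_not_dvd le_rfl hMp ?_
    rw [Subgroup.relIndex_self]
    exact hp.one_lt.not_ge ∘ Nat.le_of_dvd one_pos
  have hidx := hsyl.not_dvd
  rw [Subgroup.relIndex_top_right] at hidx
  obtain ⟨P, hP⟩ := H2.exists_sylow_eq_of_isPGroup_of_not_dvd_index hMp hidx
  haveI hcyc : IsCyclic M := isCyclic_of_prime_card (p := Nat.card M) rfl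
  have hle : normalizer ((P : Subgroup G) : Set G) ≤ centralizer ((P : Subgroup G) : Set G) := by
    rw [hP, hN]
    intro a ha
    rw [mem_centralizer_iff]
    intro b hb
    exact congrArg (Subtype.val : M → G) (hcyc.isMulCommutative.is_comm.comm ⟨b, hb⟩ ⟨a, ha⟩)
  have hcomp := MonoidHom.ker_transferSylow_isComplement' P hle
  rcases (MonoidHom.normal_ker (MonoidHom.transferSylow P hle)).eq_bot_or_eq_top with h | h
  · have h1 := hcomp.sup_eq_top
    rw [h, bot_sup_eq, hP] at h1
    exact hmaxM.1 h1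
  · have h1 := hcomp.disjoint
    rw [h, top_disjoint, hP] at h1
    exact hM1 h1

theorem exists_generating_conj {G : Type*} [Group G] [Finite G] [IsSimpleGroup G] {M H : Subgroup G}
    (hmaxM : IsCoatom M) (hHM : H ≤ M) (hHn : (H.subgroupOf M).Normal) (hidx : (H.relIndex M).Prime) :
    ∃ g : G, H ⊔ MulAut.conj g • H = ⊤ := by
  by_contra hcon
  push Not at hcon
  have hMH : M ≤ normalizer (H : Set G) := (H18.normal_subgroupOf_iff hHM).mp hHn
  haveI : Fact (H.relIndex M).Prime := ⟨hidx⟩
  have hmaxH : IsCoatom (H.subgroupOf M) := H2.isCoatom_of_index_prime (p := H.relIndex M) rfl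
  have hH1 : H ≠ ⊥ := by
    rintro rfl
    rw [Subgroup.relIndex_bot_left] at hidx
    exact not_prime_card_of_coatom hmaxM hidx
  have hMne : M ≠ ⊥ := fun h => hH1 (le_bot_iff.mp (h ▸ hHM))
  have hNM : normalizer (M : Set G) = M := by
    by_contra hne
    have h1 : normalizer (M : Set G) = ⊤ := hmaxM.2 _ (lt_of_le_of_ne Subgroup.le_normalizer (Ne.symm hne))
    have h2 : M.Normal := Subgroup.normalizer_eq_top_iff.mp h1
    rcases h2.eq_bot_or_eq_top with h | h
    · exact hMne h
    · exact hmaxM.1 h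
  have hHneM : H ≠ M := by
    rintro rfl
    rw [Subgroup.relIndex_self] at hidx
    exact Nat.not_prime_one hidx
  obtain ⟨g, hg⟩ : ∃ g : G, (H ⊔ MulAut.conj g • H) ⊓ M ≠ H := by
    by_contra hall
    push Not at hall
    have h1 := normalClosure_inf_of_closed hHM hall hmaxH hmaxM
    have h2 : (Subgroup.normalClosure (H : Set G)) = ⊤ := by
      rcases (Subgroup.normalClosure_normal (s := (H : Set G))).eq_bot_or_eq_top with h | h
      · exact absurd (le_bot_iff.mp (h ▸ (Subgroup.subset_normalClosure : (H : Set G) ⊆ _))) hH1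
      · exact h
    rw [h2, top_inf_eq] at h1
    exact hHneM h1.symm
  set X := H ⊔ MulAut.conj g • H with hX
  have hHX : H ≤ X ⊓ M := le_inf le_sup_left hHM
  have hXM : M ≤ X := by
    have h1 := sup_eq_of_coatom hHM hmaxH (D := X ⊓ M) inf_le_right (fun h => hg (le_antisymm h hHX))
    rw [sup_eq_right.mpr hHX] at h1
    rw [← h1]
    exact inf_le_left
  have hXeq : X = M := by
    by_contra hne
    exact hcon g (hmaxM.2 X (lt_of_le_of_ne hXM (Ne.symm hne)))
  have hgH : MulAut.conj g • H ≤ M := by rw [← hXeq]; exact le_sup_right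
  set L := MulAut.conj g⁻¹ • M with hL
  set H' := MulAut.conj g⁻¹ • H with hH'
  have hHL : H ≤ L := by
    intro y hy
    rw [hL, H1.mem_conj_smul, inv_inv]
    exact hgH (H1.conj_mem_conj_smul hy)
  have hLH' : L ≤ normalizer (H' : Set G) := normalizer_conj_smul_le _ hMH
  have hcardL : Nat.card L = Nat.card M := H1.card_conj_smul _ _
  have hgN : g ∉ normalizer (H : Set G) := by
    intro h
    rw [H1.mem_normalizer_iff_conj_smul] at h
    rw [h, sup_idem] at hX
    exact hHneM (hX.symm.trans hXeq)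
  have hLM : L ≠ M := by
    intro h
    have h1 : g⁻¹ ∈ normalizer (M : Set G) := H1.mem_normalizer_iff_conj_smul.mpr h
    exact hgN (hMH (by rw [hNM] at h1; simpa using inv_mem h1))
  have hinf : M ⊓ L = H := by
    by_contra hne
    have h1 := sup_eq_of_coatom hHM hmaxH (D := M ⊓ L) inf_le_left (fun h => hne (le_antisymm h (le_inf hHM hHL)))
    rw [sup_eq_right.mpr (le_inf hHM hHL)] at h1
    have h2 : M ≤ L := by rw [← h1]; exact inf_le_right
    exact hLM (Subgroup.eq_of_le_of_card_ge h2 hcardL.le).symm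
  have hLmax : IsCoatom L := by
    constructor
    · intro h
      have h1 := hcardL
      rw [h, Subgroup.card_top] at h1
      exact hmaxM.1 (Subgroup.eq_top_of_card_eq M h1.symm)
    · intro Z hZ
      have h1 : M < MulAut.conj g • Z := by
        have h2 : MulAut.conj g • L < MulAut.conj g • Z := by
          refine lt_of_le_of_ne (Subgroup.pointwise_smul_le_pointwise_smul_iff.mpr hZ.le) fun h => hZ.ne ?_
          exact MulAction.injective _ h
        rwa [hL, H1.conj_smul_smul, mul_inv_cancel, H1.conj_one_smul] at h2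
      have h3 := hmaxM.2 _ h1
      rw [eq_top_iff]
      intro y _
      have h4 : g * y * g⁻¹ ∈ MulAut.conj g • Z := by rw [h3]; exact mem_top _
      rw [H1.mem_conj_smul] at h4
      simpa [mul_assoc] using h4
  have hNL : normalizer (L : Set G) = L := by
    by_contra hne
    have h1 : normalizer (L : Set G) = ⊤ := hLmax.2 _ (lt_of_le_of_ne Subgroup.le_normalizer (Ne.symm hne))
    have h2 : L.Normal := Subgroup.normalizer_eq_top_iff.mp h1
    rcases h2.eq_bot_or_eq_top with h | h
    · exact hH1 (le_bot_iff.mp (h ▸ hHL))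
    · exact hLmax.1 h
  obtain ⟨m, hm, hmH⟩ : ∃ m ∈ M, m ∉ H := by
    by_contra hall
    push Not at hall
    exact hHneM (le_antisymm hHM hall)
  have hmL : m ∉ L := fun h => hmH (hinf ▸ ⟨hm, h⟩)
  have hmHH : MulAut.conj m • H = H := H1.mem_normalizer_iff_conj_smul.mp (hMH hm)
  set Y := H' ⊔ MulAut.conj m • H' with hY
  have hHmL : H ≤ MulAut.conj m • L := by
    rw [← hmHH]
    exact Subgroup.pointwise_smul_le_pointwise_smul_iff.mpr hHL
  have hHY : H ≤ normalizer (Y : Set G) :=
    H18.le_normalizer_sup (hHL.trans hLH') (hHmL.trans (normalizer_conj_smul_le _ hLH'))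
  have hLeq : L = H' ⊔ H := by
    have h1 : L = MulAut.conj g⁻¹ • (H ⊔ MulAut.conj g • H) := by rw [hL, ← hXeq]
    rw [h1, H1.conj_smul_sup, H1.conj_smul_smul, inv_mul_cancel, H1.conj_one_smul]
  have hLY : L ≤ Y ⊔ H := by
    rw [hLeq]
    exact sup_le (le_sup_left.trans le_sup_left) le_sup_right
  have hmLY : MulAut.conj m • L ≤ Y ⊔ H := by
    rw [hLeq, H1.conj_smul_sup, hmHH]
    exact sup_le (le_sup_right.trans le_sup_left) le_sup_right
  have hYH : Y ⊔ H = ⊤ := by
    by_contra hne
    have h1 : L = Y ⊔ H := by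
      by_contra hne'
      exact hne (hLmax.2 _ (lt_of_le_of_ne hLY hne'))
    rw [← h1] at hmLY
    have h2 : MulAut.conj m • L = L := Subgroup.eq_of_le_of_card_ge hmLY (H1.card_conj_smul m L).ge
    have h3 : m ∈ normalizer (L : Set G) := H1.mem_normalizer_iff_conj_smul.mpr h2
    rw [hNL] at h3
    exact hmL h3
  have hYn : Y.Normal := by
    rw [← Subgroup.normalizer_eq_top_iff, eq_top_iff, ← hYH]
    exact sup_le Subgroup.le_normalizer hHY
  have hYtop : Y = ⊤ := by
    rcases hYn.eq_bot_or_eq_top with h | h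
    · exfalso
      have h1 : H' = ⊥ := le_bot_iff.mp (h ▸ (le_sup_left : H' ≤ Y))
      have h2 := H1.card_conj_smul g⁻¹ H
      rw [← hH', h1, Subgroup.card_bot] at h2
      exact hH1 (Subgroup.card_eq_one.mp h2.symm)
    · exact h
  apply hcon (g * m * g⁻¹)
  rw [eq_top_iff]
  intro y _
  have h1 : g⁻¹ * y * g ∈ Y := by rw [hYtop]; exact mem_top _
  have h2 : y ∈ MulAut.conj g • Y := H1.mem_conj_smul.mpr h1
  have h3 : MulAut.conj g • Y = H ⊔ MulAut.conj (g * m * g⁻¹) • H := by
    rw [hY, H1.conj_smul_sup, hH', H1.conj_smul_smul, H1.conj_smul_smul, H1.conj_smul_smul, mul_inv_cancel,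
      H1.conj_one_smul, mul_assoc]
  rwa [h3] at h2

end Cfsg.Agent.H19
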