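import Cfsg.Agent.H19.PGV12
import Cfsg.Agent.H23.Coprime4
import Cfsg.Agent.H2.Off

set_option autoImplicit false
set_option linter.style.haveILetI false
set_option linter.unusedVariables false

/-! Failure of factorization, part 1: offenders on a faithful module of a group with
self-centralizing `p'`-core (module form). -/

namespace Cfsg.Agent.H19.FF

open Cfsg Cfsg.Agent.H19.PGV

variable {X W : Type*} [Group X] [AddCommGroup W] [DistribMulAction X W]

/-- the set-up -/
structure FFS (p : ℕ) (W : Type*) [AddCommGroup W] [DistribMulAction X W] (Q : Subgroup X) : Prop where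
  hpW : ∀ w : W, p • w = 0
  hf : ∀ g : X, (∀ w : W, g • w = w) → g = 1
  hQn : Q.Normal
  hQp : (Nat.card Q).Coprime p
  hQc : Subgroup.centralizer (Q : Set X) ≤ Q

/-- elementary abelian -/
def EA (p : ℕ) (A : Subgroup X) : Prop := (∀ a ∈ A, ∀ b ∈ A, a * b = b * a) ∧ ∀ a ∈ A, a ^ p = 1

theorem EA.mono {p : ℕ} {A B : Subgroup X} (hA : EA p A) (h : B ≤ A) : EA p B :=
  ⟨fun a ha b hb => hA.1 a (h ha) b (h hb), fun a ha => hA.2 a (h ha)⟩

theorem EA.isPGroup {p : ℕ} {A : Subgroup X} (hA : EA p A) : IsPGroup p A := by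
  rintro ⟨g, hg⟩
  refine ⟨1, Subtype.ext ?_⟩
  show g ^ (p ^ 1) = 1
  rw [pow_one]
  exact hA.2 g hg

/-- the `A × B`-lemma on modules -/
theorem axb [Finite W] {p : ℕ} [Fact p.Prime] (hpW : ∀ w : W, p • w = 0) {N : Subgroup X} (hN : IsPGroup p N) {g : X}
    {m : ℕ} (hmp : m.Coprime p) (hg : g ^ m = 1) (hcomm : ∀ b ∈ N, b * g = g * b)
    (htriv : ∀ w ∈ fixS W N, g • w = w) : ∀ w : W, g • w = w := by
  have hbot : rg W g = ⊥ := by
    by_contra hne
    obtain ⟨u, hu, hu0, hfix⟩ := exists_fix hpW hN (U := rg W g) (by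
      rintro b hb _ ⟨v, _, rfl⟩
      refine ⟨b • v, trivial, ?_⟩
      rw [dl_apply, dl_apply, smul_sub, ← mul_smul, ← mul_smul, hcomm b hb]) hne
    have h2 : g • u = u := htriv u hfix
    have h3 : u ∈ rg W g ⊓ fixE W g := ⟨hu, h2⟩
    rw [rg, map_dl_inf_fixE hpW hmp hg] at h3
    exact hu0 h3
  intro v
  have := mem_rg (W := W) g v
  rw [hbot, AddSubgroup.mem_bot] at this
  exact sub_eq_zero.mp this

theorem pow_card_mem {Q : Subgroup X} [Finite X] {x : X} (hx : x ∈ Q) : x ^ Nat.card Q = 1 := by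
  have : (⟨x, hx⟩ : Q) ^ Nat.card Q = 1 := pow_card_eq_one'
  exact congrArg Subtype.val this

theorem card_eq_of_lt [Finite X] {p : ℕ} [Fact p.Prime] {A B : Subgroup X} (hA : EA p A) (hBA : B ≤ A) (hne : B ≠ A)
    (hle : Nat.card A ≤ p * Nat.card B) : Nat.card A = p * Nat.card B := by
  have hpp : p.Prime := Fact.out
  obtain ⟨i, hi⟩ := IsPGroup.iff_card.mp (hA.mono hBA).isPGroup
  obtain ⟨j, hj⟩ := IsPGroup.iff_card.mp hA.isPGroup
  have h3 : Nat.card B < Nat.card A := by
    refine lt_of_le_of_ne (Nat.le_of_dvd Nat.card_pos (Subgroup.card_dvd_of_le hBA)) ?_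
    intro heq
    exact hne (Subgroup.eq_of_le_of_card_ge hBA heq.ge)
  rw [hi, hj] at h3 hle ⊢
  have hij : i < j := (Nat.pow_lt_pow_iff_right hpp.one_lt).mp h3
  apply le_antisymm hle
  calc p * p ^ i = p ^ (i + 1) := by rw [pow_succ, mul_comm]
    _ ≤ p ^ j := Nat.pow_le_pow_right hpp.pos hij

set_option linter.unusedSectionVars false

namespace FFS

variable {p : ℕ} [Fact p.Prime] {Q : Subgroup X} [Finite X] [Finite W]

theorem inf_bot (h : FFS p W Q) {A : Subgroup X} (hA : EA p A) : ∀ a ∈ A, a ∈ Q → a = 1 := by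
  intro a ha haQ
  have h1 := hA.2 a ha
  have h2 : a ^ Nat.card Q = 1 := pow_card_mem haQ
  have h3 := Nat.dvd_gcd (orderOf_dvd_of_pow_eq_one h2) (orderOf_dvd_of_pow_eq_one h1)
  rw [h.hQp] at h3
  exact orderOf_eq_one_iff.mp (Nat.dvd_one.mp h3)

theorem le_norm (h : FFS p W Q) (A : Subgroup X) : A ≤ Subgroup.normalizer (Q : Set X) := by
  haveI := h.hQn
  rw [Subgroup.normalizer_eq_top]
  exact le_top

/-- good hyperplanes -/
theorem hyper (h : FFS p W Q) {A : Subgroup X} (hA : EA p A) {d : X} (hd : d ∈ A) (hd1 : d ≠ 1) :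
    ∃ B ≤ A, Nat.card A = p * Nat.card B ∧ ∃ x ∈ Q, (∀ b ∈ B, b * x = x * b) ∧ d * x ≠ x * d := by
  have hAc : IsMulCommutative A := ⟨⟨fun a b => Subtype.ext (hA.1 a.1 a.2 b.1 b.2)⟩⟩
  have hcop : (Nat.card A).Coprime (Nat.card Q) :=
    (H23.card_coprime_of_isPGroup hA.isPGroup h.hQp).symm
  have hgen := H23.iSup_cocyclic_centralizer hAc (h.le_norm A) hcop
  by_contra hcon
  push Not at hcon
  have hdQ : Q ≤ Subgroup.centralizer {d} := by
    rw [← hgen]
    refine iSup₂_le ?_
    intro B hB x hx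
    rw [Subgroup.mem_centralizer_singleton_iff]
    obtain ⟨hBA, a, ha, hBa⟩ := hB
    by_contra hne
    have hxB : ∀ b ∈ B, b * x = x * b := fun b hb => Subgroup.mem_centralizer_iff.mp hx.2 b hb
    refine hne (hcon B hBA ?_ x hx.1 hxB).symm
    -- the index
    have hBneA : B ≠ A := by
      rintro rfl
      exact hne (hxB d hd).symm
    have hBle : Nat.card A ≤ p * Nat.card B := by
      have h1 := H2.card_sup_mul_card_inf_of_comm (A := B) (B := Subgroup.zpowers a) (by
        intro x hx y hy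
        exact hA.1 x (hBA hx) y ((Subgroup.zpowers_le.mpr ha) hy))
      rw [hBa] at h1
      have h2 : 0 < Nat.card ↥(B ⊓ Subgroup.zpowers a) := Nat.card_pos
      have h3 : Nat.card (Subgroup.zpowers a) ≤ p := by
        rw [Nat.card_zpowers]
        exact Nat.le_of_dvd (Fact.out : p.Prime).pos (orderOf_dvd_of_pow_eq_one (hA.2 a ha))
      calc Nat.card A ≤ Nat.card A * Nat.card ↥(B ⊓ Subgroup.zpowers a) := Nat.le_mul_of_pos_right _ h2
        _ = Nat.card B * Nat.card (Subgroup.zpowers a) := h1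
        _ ≤ Nat.card B * p := Nat.mul_le_mul_left _ h3
        _ = _ := mul_comm _ _
    exact card_eq_of_lt hA hBA hBneA hBle
  have h1 : d ∈ Q := by
    apply h.hQc
    rw [Subgroup.mem_centralizer_iff]
    intro y hy
    exact Subgroup.mem_centralizer_singleton_iff.mp (hdQ hy)
  exact hd1 (h.inf_bot hA d hd h1)

/-- the fixed points drop -/
theorem fix_lt (h : FFS p W Q) {A B : Subgroup X} (hA : EA p A) (hBA : B ≤ A) {d x : X} (hd : d ∈ A) (hx : x ∈ Q)
    (hxB : ∀ b ∈ B, b * x = x * b) (hdx : d * x ≠ x * d) :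
    p * Nat.card (fixS W A) ≤ Nat.card (fixS W B) := by
  have hle : fixS W A ≤ fixS W B := fun w hw b hb => hw b (hBA hb)
  obtain ⟨i, hi⟩ := card_pow h.hpW (fixS W A)
  obtain ⟨j, hj⟩ := card_pow h.hpW (fixS W B)
  have hlt : fixS W A ≠ fixS W B := by
    intro heq
    have hQn := h.hQn
    set z := x * d * x⁻¹ * d⁻¹ with hz
    have hzQ : z ∈ Q := by
      have : z = x * (d * x⁻¹ * d⁻¹) := by rw [hz]; group
      rw [this]
      exact Q.mul_mem hx (hQn.conj_mem _ (Q.inv_mem hx) d)
    have hdB : ∀ b ∈ B, b * d = d * b := fun b hb => hA.1 b (hBA hb) d hd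
    have hzB : ∀ b ∈ B, b * z = z * b := by
      intro b hb
      have c1 : Commute b x := hxB b hb
      have c2 : Commute b d := hdB b hb
      exact ((c1.mul_right c2).mul_right c1.inv_right).mul_right c2.inv_right
    have hz1 : z = 1 := by
      apply h.hf
      refine axb h.hpW (hA.mono hBA).isPGroup h.hQp (pow_card_mem hzQ) hzB ?_
      intro w hw
      have hw' : w ∈ fixS W A := by rw [heq]; exact hw
      have hxw : x⁻¹ • w ∈ fixS W B := by
        intro b hb
        have c1 : Commute b x⁻¹ := (show Commute b x from hxB b hb).inv_right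
        rw [← mul_smul, c1.eq, mul_smul, hw b hb]
      rw [← heq] at hxw
      rw [hz, mul_smul, mul_smul, mul_smul, smul_inv_of_fix (hw' d hd), hxw d hd, smul_inv_smul]
    apply hdx
    rw [hz] at hz1
    have : x * d * x⁻¹ = d := by
      rw [mul_inv_eq_one] at hz1
      exact hz1
    rw [mul_inv_eq_iff_eq_mul] at this
    exact this.symm
  have hc : Nat.card (fixS W A) < Nat.card (fixS W B) := by
    refine lt_of_le_of_ne (card_le_of_le hle) ?_
    intro heq
    exact hlt (AddSubgroup.eq_of_le_of_card_ge hle heq.ge)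
  rw [hi, hj] at hc ⊢
  have hij : i < j := (Nat.pow_lt_pow_iff_right (Fact.out : p.Prime).one_lt).mp hc
  calc p * p ^ i = p ^ (i + 1) := by rw [pow_succ, mul_comm]
    _ ≤ p ^ j := Nat.pow_le_pow_right (Fact.out : p.Prime).pos hij

/-- `|A| |C_V(A)| ≤ |V|` -/
theorem off_le (h : FFS p W Q) : ∀ (n : ℕ) (A : Subgroup X), Nat.card A = n → EA p A →
    Nat.card A * Nat.card (fixS W A) ≤ Nat.card W := by
  intro n
  induction n using Nat.strong_induction_on with
  | _ n ih =>
    intro A hAn hA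
    by_cases hbot : A = ⊥
    · rw [hbot, Subgroup.card_bot, one_mul]
      exact Nat.card_le_card_of_injective _ Subtype.val_injective
    · obtain ⟨⟨d, hd⟩, hd1⟩ := Subgroup.ne_bot_iff_exists_ne_one.mp hbot
      have hd1' : d ≠ 1 := fun h => hd1 (Subtype.ext h)
      obtain ⟨B, hBA, hcard, x, hx, hxB, hdx⟩ := h.hyper hA hd hd1'
      have h1 := h.fix_lt hA hBA hd hx hxB hdx
      have hBpos : 0 < Nat.card B := Nat.card_pos
      have hlt : Nat.card B < n := by
        rw [← hAn, hcard]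
        exact lt_mul_of_one_lt_left hBpos (Fact.out : p.Prime).one_lt
      have h2 := ih _ hlt B rfl (hA.mono hBA)
      calc Nat.card A * Nat.card (fixS W A) = Nat.card B * (p * Nat.card (fixS W A)) := by rw [hcard]; ring
        _ ≤ Nat.card B * Nat.card (fixS W B) := Nat.mul_le_mul_left _ h1
        _ ≤ _ := h2

/-- offenders -/
def OF (p : ℕ) (W : Type*) [AddCommGroup W] [DistribMulAction X W] (A : Subgroup X) : Prop :=
  EA p A ∧ Nat.card A * Nat.card (fixS W A) = Nat.card W

/-- transvection groups -/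
def TG (p : ℕ) (W : Type*) [AddCommGroup W] [DistribMulAction X W] (A : Subgroup X) : Prop :=
  Nat.card A = p ∧ p * Nat.card (fixS W A) = Nat.card W

theorem off_iff (h : FFS p W Q) {A : Subgroup X} (hA : EA p A) :
    (∀ B : Subgroup X, B ≤ A → Nat.card B * Nat.card (fixS W B) ≤ Nat.card A * Nat.card (fixS W A)) ↔ OF p W A := by
  constructor
  · intro hB
    refine ⟨hA, le_antisymm (h.off_le _ A rfl hA) ?_⟩
    have h1 := hB ⊥ bot_le
    rw [Subgroup.card_bot, one_mul] at h1
    have h2 : fixS W (⊥ : Subgroup X) = ⊤ := by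
      rw [eq_top_iff]
      rintro w _ b hb
      rw [Subgroup.mem_bot.mp hb, one_smul]
    rw [h2, AddSubgroup.card_top] at h1
    exact h1
  · rintro ⟨_, h1⟩ B hBA
    rw [h1]
    exact h.off_le _ B rfl (hA.mono hBA)

theorem OF_hyper (h : FFS p W Q) {A : Subgroup X} (hA : OF p W A) {d : X} (hd : d ∈ A) (hd1 : d ≠ 1) :
    ∃ B ≤ A, Nat.card A = p * Nat.card B ∧ d ∉ B ∧ OF p W B := by
  obtain ⟨B, hBA, hcard, x, hx, hxB, hdx⟩ := h.hyper hA.1 hd hd1
  refine ⟨B, hBA, hcard, fun hdB => hdx (hxB d hdB), hA.1.mono hBA, ?_⟩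
  have h1 := h.fix_lt hA.1 hBA hd hx hxB hdx
  apply le_antisymm (h.off_le _ B rfl (hA.1.mono hBA))
  calc Nat.card W = Nat.card A * Nat.card (fixS W A) := hA.2.symm
    _ = Nat.card B * (p * Nat.card (fixS W A)) := by rw [hcard]; ring
    _ ≤ _ := Nat.mul_le_mul_left _ h1

theorem TG.EA {A : Subgroup X} (hA : TG p W A) : EA p A := by
  have h1 : IsCyclic A := isCyclic_of_prime_card hA.1
  constructor
  · intro a ha b hb
    haveI := h1
    have := IsCyclic.isMulCommutative (α := A)
    exact congrArg Subtype.val (this.is_comm.comm ⟨a, ha⟩ ⟨b, hb⟩)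
  · intro a ha
    have := pow_card_mem ha
    rwa [hA.1] at this

theorem TG.OF {A : Subgroup X} (hA : TG p W A) : OF p W A := ⟨hA.EA, by rw [hA.1, hA.2]⟩

theorem TG.ne_bot {A : Subgroup X} (hA : TG p W A) : A ≠ ⊥ := by
  intro h
  have h1 := hA.1
  rw [h, Subgroup.card_bot] at h1
  exact (Fact.out : p.Prime).one_lt.ne h1

/-- minimal offenders are transvection groups -/
theorem TG_of_min (h : FFS p W Q) {A : Subgroup X} (hA : OF p W A) (hne : A ≠ ⊥)
    (hmin : ∀ B : Subgroup X, B ≤ A → OF p W B → B ≠ ⊥ → B = A) : TG p W A := by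
  obtain ⟨⟨d, hd⟩, hd1⟩ := Subgroup.ne_bot_iff_exists_ne_one.mp hne
  have hd1' : d ≠ 1 := fun h => hd1 (Subtype.ext h)
  obtain ⟨B, hBA, hcard, hdB, hB⟩ := h.OF_hyper hA hd hd1'
  have hBbot : B = ⊥ := by
    by_contra hB1
    have := hmin B hBA hB hB1
    rw [this] at hdB
    exact hdB hd
  rw [hBbot, Subgroup.card_bot, mul_one] at hcard
  exact ⟨hcard, by rw [← hA.2, hcard]⟩

/-- offenders are generated by transvection groups -/
theorem gen_TG (h : FFS p W Q) : ∀ (n : ℕ) (A : Subgroup X), Nat.card A = n → OF p W A →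
    A ≤ sSup {T : Subgroup X | T ≤ A ∧ TG p W T} := by
  intro n
  induction n using Nat.strong_induction_on with
  | _ n ih =>
    intro A hAn hA
    have hpp : p.Prime := Fact.out
    by_cases hbot : A = ⊥
    · rw [hbot]; exact bot_le
    · obtain ⟨⟨d, hd⟩, hd1⟩ := Subgroup.ne_bot_iff_exists_ne_one.mp hbot
      have hd1' : d ≠ 1 := fun h => hd1 (Subtype.ext h)
      obtain ⟨B, hBA, hcard, hdB, hB⟩ := h.OF_hyper hA hd hd1'
      have hBpos : 0 < Nat.card B := Nat.card_pos
      have hlt : Nat.card B < n := by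
        rw [← hAn, hcard]
        exact lt_mul_of_one_lt_left hBpos hpp.one_lt
      by_cases hBbot : B = ⊥
      · -- A itself is a transvection group
        rw [hBbot, Subgroup.card_bot, mul_one] at hcard
        have hT : TG p W A := ⟨hcard, by rw [← hA.2, hcard]⟩
        exact le_sSup ⟨le_rfl, hT⟩
      · obtain ⟨⟨d', hd'⟩, hd1'⟩ := Subgroup.ne_bot_iff_exists_ne_one.mp hBbot
        have hd1'' : d' ≠ 1 := fun h => hd1' (Subtype.ext h)
        obtain ⟨B', hBA', hcard', hdB', hB'⟩ := h.OF_hyper hA (hBA hd') hd1''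
        have hlt' : Nat.card B' < n := by
          rw [← hAn, hcard']
          exact lt_mul_of_one_lt_left Nat.card_pos hpp.one_lt
        have i1 := ih _ hlt B rfl hB
        have i2 := ih _ hlt' B' rfl hB'
        have i1' : B ≤ sSup {T : Subgroup X | T ≤ A ∧ TG p W T} :=
          i1.trans (sSup_le_sSup (fun T hT => ⟨hT.1.trans hBA, hT.2⟩))
        have i2' : B' ≤ sSup {T : Subgroup X | T ≤ A ∧ TG p W T} :=
          i2.trans (sSup_le_sSup (fun T hT => ⟨hT.1.trans hBA', hT.2⟩))
        have hsup : B ⊔ B' = A := by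
          apply Subgroup.eq_of_le_of_card_ge (sup_le hBA hBA')
          -- B' is a proper subgroup of the join
          have h1 : B' < B ⊔ B' := by
            refine lt_of_le_of_ne le_sup_right ?_
            intro heq
            apply hdB'
            rw [heq]
            exact (le_sup_left : B ≤ B ⊔ B') hd'
          have h2 : Nat.card B' ∣ Nat.card ↥(B ⊔ B') := Subgroup.card_dvd_of_le le_sup_right
          obtain ⟨i, hi⟩ := IsPGroup.iff_card.mp (hA.1.mono hBA').isPGroup
          obtain ⟨j, hj⟩ := IsPGroup.iff_card.mp (hA.1.mono (sup_le hBA hBA')).isPGroup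
          have h3 : Nat.card B' < Nat.card ↥(B ⊔ B') := by
            refine lt_of_le_of_ne (Nat.le_of_dvd Nat.card_pos h2) ?_
            intro heq
            exact h1.ne (Subgroup.eq_of_le_of_card_ge le_sup_right heq.ge)
          rw [hi, hj] at h3
          have hij : i < j := (Nat.pow_lt_pow_iff_right hpp.one_lt).mp h3
          rw [hcard', hi, hj]
          calc p * p ^ i = p ^ (i + 1) := by rw [pow_succ, mul_comm]
            _ ≤ p ^ j := Nat.pow_le_pow_right hpp.pos hij
        calc A = B ⊔ B' := hsup.symm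
          _ ≤ _ := sup_le i1' i2'

end FFS

end Cfsg.Agent.H19.FF
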