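import Cfsg.Agent.H19.FF9
import Cfsg.Agent.H23.HHThmB
import Cfsg.Agent.H10.Basic

set_option autoImplicit false
set_option linter.style.haveILetI false
set_option linter.unusedVariables false
set_option linter.unusedSectionVars false

/-! Failure of factorization, part 11: groups acting with a kernel. -/

namespace Cfsg.Agent.H19.FF

open Cfsg Cfsg.Agent.H19.PGV Cfsg.Agent.H19.FF.FFS
open scoped commutatorElement

/-- action through a faithful quotient -/
structure QA (p : ℕ) {Γ Γ' : Type*} (W : Type*) [Group Γ] [Group Γ'] [AddCommGroup W] [DistribMulAction Γ W]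
    [DistribMulAction Γ' W] (ρ : Γ →* Γ') : Prop where
  surj : Function.Surjective ρ
  act : ∀ (g : Γ) (w : W), ρ g • w = g • w
  hf : ∀ x : Γ', (∀ w : W, x • w = w) → x = 1
  hpW : ∀ w : W, p • w = 0
  hO : pCore p Γ' = ⊥
  hs : IsPSolvable p Γ'

/-- image of a subgroup inside a subgroup of the quotient -/
def img {Γ Γ' : Type*} [Group Γ] [Group Γ'] (ρ : Γ →* Γ') (N : Subgroup Γ') (A : Subgroup Γ) : Subgroup ↥N :=
  (A.map ρ).subgroupOf N

namespace QA

variable {p : ℕ} [Fact p.Prime] {Γ Γ' : Type*} {W : Type*} [Group Γ] [Group Γ'] [Finite Γ] [Finite Γ'] [AddCommGroup W] [Finite W]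
  [DistribMulAction Γ W] [DistribMulAction Γ' W] {ρ : Γ →* Γ'}

theorem ffs (h : QA p W ρ) (N : Subgroup Γ') [hN : N.Normal] : FFS p W (pPrimeCore p ↥N) where
  hpW := h.hpW
  hf := fun g hg => Subtype.ext (h.hf g.1 hg)
  hQn := inferInstance
  hQp := H1.pPrimeCore_coprime p ↥N
  hQc := by
    apply H23.centralizer_pPrimeCore_le (H23.isPSolvable_subgroup N h.hs)
    have h1 := H10.pCore_map_subtype p (Subgroup.Normal.isSubnormal hN)
    rw [h.hO, bot_inf_eq] at h1
    exact (Subgroup.map_eq_bot_iff_of_injective _ N.subtype_injective).mp h1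

theorem mem_img {N : Subgroup Γ'} {A : Subgroup Γ} {x : ↥N} : x ∈ img ρ N A ↔ ∃ a ∈ A, ρ a = x.1 := Iff.rfl

theorem fixS_img (h : QA p W ρ) {N : Subgroup Γ'} {A : Subgroup Γ} (hA : A.map ρ ≤ N) :
    fixS W (img ρ N A) = fixS W A := by
  ext w
  constructor
  · intro hw a ha
    have h1 : ρ a ∈ N := hA ⟨a, ha, rfl⟩
    have h2 : (⟨ρ a, h1⟩ : ↥N) • w = w := hw ⟨ρ a, h1⟩ ⟨a, ha, rfl⟩
    have h3 : ρ a • w = w := h2
    rw [← h.act]; exact h3
  · rintro hw x ⟨a, ha, hax⟩
    have hax' : ρ a = x.1 := hax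
    have h1 : x • w = x.1 • w := rfl
    rw [h1, ← hax', h.act]
    exact hw a ha

theorem comS_img (h : QA p W ρ) {N : Subgroup Γ'} {A : Subgroup Γ} (hA : A.map ρ ≤ N) :
    comS W (img ρ N A) = comS W A := by
  apply le_antisymm
  · rw [comS_le]
    rintro x ⟨a, ha, hax⟩ w
    have hax' : ρ a = x.1 := hax
    have h1 : x • w = x.1 • w := rfl
    rw [h1, ← hax', h.act]
    exact mem_comS ha w
  · rw [comS_le]
    intro a ha w
    have h1 : ρ a ∈ N := hA ⟨a, ha, rfl⟩
    have h2 : a • w = (⟨ρ a, h1⟩ : ↥N) • w := by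
      show a • w = ρ a • w
      rw [h.act]
    rw [h2]
    exact mem_comS (show (⟨ρ a, h1⟩ : ↥N) ∈ img ρ N A from ⟨a, ha, rfl⟩) w

theorem card_img {N : Subgroup Γ'} {A : Subgroup Γ} (hA : A.map ρ ≤ N) :
    Nat.card ↥(ρ.ker ⊓ A) * Nat.card (img ρ N A) = Nat.card A := by
  have h1 : Nat.card (img ρ N A) = Nat.card (A.map ρ) := by
    rw [← map_card (img ρ N A)]
    unfold img
    rw [Subgroup.subgroupOf_map_subtype, inf_eq_left.mpr hA]
  rw [h1, ← Subgroup.relIndex_ker, ← Subgroup.inf_relIndex_right]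
  exact card_relIndex inf_le_right

theorem OF_img (h : QA p W ρ) {N : Subgroup Γ'} [hN : N.Normal] {A : Subgroup Γ} (hA : A.map ρ ≤ N)
    (hc : ∀ a ∈ A, ∀ b ∈ A, a * b = b * a) (hp : ∀ a ∈ A, a ^ p = 1)
    (hoff : ∀ B : Subgroup Γ, B ≤ A → Nat.card B * Nat.card (fixS W B) ≤ Nat.card A * Nat.card (fixS W A)) :
    OF p W (img ρ N A) := by
  have hEA : EA p (img ρ N A) := by
    constructor
    · rintro x ⟨a, ha, hax⟩ y ⟨b, hb, hby⟩
      apply Subtype.ext
      show x.1 * y.1 = y.1 * x.1
      have hax' : ρ a = x.1 := hax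
      have hby' : ρ b = y.1 := hby
      rw [← hax', ← hby', ← map_mul, ← map_mul, hc a ha b hb]
    · rintro x ⟨a, ha, hax⟩
      apply Subtype.ext
      show x.1 ^ p = 1
      have hax' : ρ a = x.1 := hax
      rw [← hax', ← map_pow, hp a ha, map_one]
  rw [← (h.ffs N).off_iff hEA]
  intro B' hB'
  set B := A ⊓ (B'.map N.subtype).comap ρ with hB
  have hBA : B ≤ A := inf_le_left
  have hBN : B.map ρ ≤ N := (Subgroup.map_mono hBA).trans hA
  have himg : img ρ N B = B' := by
    ext x
    constructor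
    · rintro ⟨b, ⟨_, hb⟩, hbx⟩
      obtain ⟨y, hy, hyb⟩ := hb
      have : y = x := Subtype.ext (hyb.trans hbx)
      rw [← this]; exact hy
    · intro hx
      obtain ⟨a, ha, hax⟩ := hB' hx
      exact ⟨a, ⟨ha, ⟨x, hx, hax.symm⟩⟩, hax⟩
  have hker : ρ.ker ⊓ B = ρ.ker ⊓ A := by
    apply le_antisymm (inf_le_inf_left _ hBA)
    rintro a ⟨ha1, ha2⟩
    refine ⟨ha1, ha2, ?_⟩
    show ρ a ∈ B'.map N.subtype
    have : ρ a = 1 := ha1
    rw [this]
    exact Subgroup.one_mem _
  have h1 := hoff B hBA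
  rw [← card_img hBN, ← card_img hA, hker, ← h.fixS_img hBN, ← h.fixS_img hA, himg] at h1
  rw [mul_assoc, mul_assoc] at h1
  exact Nat.le_of_mul_le_mul_left h1 Nat.card_pos

end QA

/-! ### a normal abelian subgroup as a module -/

section Wn

variable {G : Type*} [Group G]

/-- a normal abelian subgroup as a module for the group -/
def Wn (V : Subgroup G) [hn : V.Normal] (hV : IsMulCommutative V) : Type _ :=
  Wm V ⊤ hV (by rw [Subgroup.normalizer_eq_top])

variable {V : Subgroup G} [hn : V.Normal] {hV : IsMulCommutative V}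

namespace Wn

instance : AddCommGroup (Wn V hV) := (inferInstance : AddCommGroup (Wm V ⊤ hV _))
instance [Finite G] : Finite (Wn V hV) := (inferInstance : Finite (Wm V ⊤ hV _))

def val (w : Wn V hV) : G := Wm.val w
def mk {g : G} (hg : g ∈ V) : Wn V hV := Wm.mk hg
@[simp] theorem val_mk {g : G} (hg : g ∈ V) : (mk hg : Wn V hV).val = g := rfl
theorem val_mem (w : Wn V hV) : w.val ∈ V := Wm.val_mem w
theorem ext {w w' : Wn V hV} (h : w.val = w'.val) : w = w' := Wm.ext h
@[simp] theorem val_add (w w' : Wn V hV) : (w + w').val = w.val * w'.val := rfl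
@[simp] theorem val_zero : (0 : Wn V hV).val = 1 := rfl
@[simp] theorem val_neg (w : Wn V hV) : (-w).val = w.val⁻¹ := rfl
@[simp] theorem val_sub (w w' : Wn V hV) : (w - w').val = w.val * w'.val⁻¹ := by
  rw [sub_eq_add_neg, val_add, val_neg]
@[simp] theorem val_nsmul (n : ℕ) (w : Wn V hV) : (n • w).val = w.val ^ n := by
  induction n with
  | zero => simp
  | succ n ih => rw [succ_nsmul, val_add, ih, pow_succ]

instance : DistribMulAction G (Wn V hV) where
  smul g w := mk (hn.conj_mem _ w.val_mem g)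
  one_smul w := ext (by show (1 : G) * w.val * (1 : G)⁻¹ = w.val; group)
  mul_smul a b w := ext (by
    show (a * b) * w.val * (a * b)⁻¹ = a * (b * w.val * b⁻¹) * a⁻¹
    group)
  smul_zero a := ext (by show a * 1 * a⁻¹ = 1; group)
  smul_add a w w' := ext (by
    show a * (w.val * w'.val) * a⁻¹ = (a * w.val * a⁻¹) * (a * w'.val * a⁻¹)
    group)

@[simp] theorem val_smul (a : G) (w : Wn V hV) : (a • w).val = a * w.val * a⁻¹ := rfl

theorem smul_eq_of_mem {c : G} (hc : c ∈ Subgroup.centralizer (V : Set G)) (w : Wn V hV) : c • w = w := by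
  apply ext
  rw [val_smul, mul_inv_eq_iff_eq_mul]
  exact (Subgroup.mem_centralizer_iff.mp hc _ w.val_mem).symm

theorem mem_of_smul_eq {c : G} (hc : ∀ w : Wn V hV, c • w = w) : c ∈ Subgroup.centralizer (V : Set G) := by
  rw [Subgroup.mem_centralizer_iff]
  intro v hv
  have h2 := congrArg val (hc (mk hv))
  rw [val_smul, val_mk, mul_inv_eq_iff_eq_mul] at h2
  exact h2.symm

instance : DistribMulAction (G ⧸ Subgroup.centralizer (V : Set G)) (Wn V hV) where
  smul x w := Quotient.liftOn' x (fun g => g • w) (by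
    intro a b hab
    rw [QuotientGroup.leftRel_apply] at hab
    have h1 := smul_eq_of_mem hab w
    rw [mul_smul, inv_smul_eq_iff] at h1
    exact h1.symm)
  one_smul w := one_smul G w
  mul_smul x y w := by
    induction x using QuotientGroup.induction_on with
    | H a =>
      induction y using QuotientGroup.induction_on with
      | H b => exact mul_smul a b w
  smul_zero x := by
    induction x using QuotientGroup.induction_on with
    | H a => exact smul_zero a
  smul_add x w w' := by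
    induction x using QuotientGroup.induction_on with
    | H a => exact smul_add a w w'

theorem mk_smul (g : G) (w : Wn V hV) : (QuotientGroup.mk' (Subgroup.centralizer (V : Set G)) g) • w = g • w := rfl

theorem qa [Finite G] {p : ℕ} [Fact p.Prime] (hVp : ∀ v ∈ V, v ^ p = 1) (hs : IsPSolvable p G)
    (hO : pCore p (G ⧸ Subgroup.centralizer (V : Set G)) = ⊥) :
    QA p (Wn V hV) (QuotientGroup.mk' (Subgroup.centralizer (V : Set G))) where
  surj := QuotientGroup.mk'_surjective _
  act := fun _ _ => rfl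
  hf := by
    intro x hx
    induction x using QuotientGroup.induction_on with
    | H g => exact (QuotientGroup.eq_one_iff g).mpr (mem_of_smul_eq hx)
  hpW := by
    intro w
    apply ext
    rw [val_nsmul, val_zero]
    exact hVp _ w.val_mem
  hO := hO
  hs := H23.isPSolvable_quotient _ hs

/-- subgroups of the module as subgroups of the group -/
def toG (U : AddSubgroup (Wn V hV)) : Subgroup G := Wm.toG (U : AddSubgroup (Wm V ⊤ hV _))

theorem mem_toG {U : AddSubgroup (Wn V hV)} {g : G} : g ∈ toG U ↔ ∃ w ∈ U, w.val = g := Iff.rfl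
theorem val_mem_toG {U : AddSubgroup (Wn V hV)} {w : Wn V hV} : w.val ∈ toG U ↔ w ∈ U := Wm.val_mem_toG
theorem toG_sup (U U' : AddSubgroup (Wn V hV)) : toG (U ⊔ U') = toG U ⊔ toG U' := Wm.toG_sup _ _
theorem toG_inf (U U' : AddSubgroup (Wn V hV)) : toG (U ⊓ U') = toG U ⊓ toG U' := Wm.toG_inf _ _
theorem toG_iSup {ι : Sort*} (U : ι → AddSubgroup (Wn V hV)) : toG (⨆ i, U i) = ⨆ i, toG (U i) := Wm.toG_iSup _
theorem toG_bot : toG (⊥ : AddSubgroup (Wn V hV)) = ⊥ := Wm.toG_bot
theorem toG_top : toG (⊤ : AddSubgroup (Wn V hV)) = V := Wm.toG_top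
theorem toG_le {U U' : AddSubgroup (Wn V hV)} : toG U ≤ toG U' ↔ U ≤ U' := Wm.toG_le
theorem toG_inj {U U' : AddSubgroup (Wn V hV)} (h : toG U = toG U') : U = U' := Wm.toG_inj h
theorem card_toG (U : AddSubgroup (Wn V hV)) : Nat.card (toG U) = Nat.card U := Wm.card_toG _

theorem toG_fixS (B : Subgroup G) : toG (fixS (Wn V hV) B) = V ⊓ Subgroup.centralizer (B : Set G) := by
  ext g
  rw [mem_toG]
  constructor
  · rintro ⟨w, hw, rfl⟩
    refine ⟨w.val_mem, ?_⟩
    show w.val ∈ Subgroup.centralizer _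
    rw [Subgroup.mem_centralizer_iff]
    intro b hb
    have := congrArg val (hw b hb)
    rw [val_smul, mul_inv_eq_iff_eq_mul] at this
    exact this
  · rintro ⟨hg, hgc⟩
    refine ⟨mk hg, ?_, rfl⟩
    intro b hb
    apply ext
    rw [val_smul, val_mk, mul_inv_eq_iff_eq_mul]
    exact Subgroup.mem_centralizer_iff.mp hgc b hb

theorem toG_comS (B : Subgroup G) : toG (comS (Wn V hV) B) = ⁅V, B⁆ := by
  apply le_antisymm
  · let F : AddSubgroup (Wn V hV) :=
      { carrier := {w | w.val ∈ ⁅V, B⁆}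
        zero_mem' := by
          show (0 : Wn V hV).val ∈ ⁅V, B⁆
          rw [val_zero]
          exact Subgroup.one_mem _
        add_mem' := fun {w w'} ha hb => by
          show (w + w').val ∈ ⁅V, B⁆
          rw [val_add]
          exact Subgroup.mul_mem _ ha hb
        neg_mem' := fun {w} ha => by
          show (-w).val ∈ ⁅V, B⁆
          rw [val_neg]
          exact Subgroup.inv_mem _ ha }
    have h1 : comS (Wn V hV) B ≤ F := by
      rw [comS_le]
      intro x hx w
      show (x • w - w).val ∈ ⁅V, B⁆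
      rw [val_sub, val_smul, Subgroup.commutator_comm, ← commutatorElement_def]
      exact Subgroup.commutator_mem_commutator hx w.val_mem
    intro g hg
    obtain ⟨w, hw, rfl⟩ := mem_toG.mp hg
    exact h1 hw
  · rw [Subgroup.commutator_comm, Subgroup.commutator_le]
    intro x hx v hv
    have : ⁅x, v⁆ = ((x • (mk hv : Wn V hV)) - mk hv).val := by
      rw [val_sub, val_smul, commutatorElement_def]; rfl
    rw [this]
    exact val_mem_toG.mpr (mem_comS hx _)

theorem card_fixS (B : Subgroup G) :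
    Nat.card (fixS (Wn V hV) B) = Nat.card ↥(V ⊓ Subgroup.centralizer (B : Set G)) := by
  rw [← toG_fixS (hV := hV) B, card_toG]

end Wn

end Wn

end Cfsg.Agent.H19.FF
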