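import Cfsg.Agent.H19.FF1
import Cfsg.Agent.H2.QD2
import Cfsg.Agent.H2.SL2p
import Cfsg.Agent.H16.SLGen

set_option autoImplicit false
set_option linter.style.haveILetI false
set_option linter.unusedVariables false
set_option linter.unusedSectionVars false

/-! Failure of factorization, part 2: two conjugate transvection groups generate `SL(2,p)`. -/

namespace Cfsg.Agent.H19.FF

open Cfsg Cfsg.Agent.H19.PGV

variable {X W : Type*} [Group X] [AddCommGroup W] [DistribMulAction X W]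

abbrev SLp (p : ℕ) := Matrix.SpecialLinearGroup (Fin 2) (ZMod p)

section SL

variable {p : ℕ} [Fact p.Prime]

/-- the upper unipotent -/
def sU (p : ℕ) (c : ZMod p) : SLp p := ⟨!![1, c; 0, 1], by simp [Matrix.det_fin_two_of]⟩
/-- the lower unipotent -/
def sL (p : ℕ) (c : ZMod p) : SLp p := ⟨!![1, 0; c, 1], by simp [Matrix.det_fin_two_of]⟩

theorem sU_add (c d : ZMod p) : sU p (c + d) = sU p c * sU p d := by
  apply Subtype.ext
  show !![1, c + d; 0, 1] = !![1, c; 0, 1] * !![1, d; 0, 1]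
  rw [Matrix.mul_fin_two]
  congr 1
  simp [add_comm]

theorem sL_add (c d : ZMod p) : sL p (c + d) = sL p c * sL p d := by
  apply Subtype.ext
  show !![1, 0; c + d, 1] = !![1, 0; c, 1] * !![1, 0; d, 1]
  rw [Matrix.mul_fin_two]
  congr 1
  simp [add_comm]

theorem sU_zero : sU p 0 = 1 := by
  apply Subtype.ext
  show !![1, 0; 0, 1] = 1
  rw [Matrix.one_fin_two]

theorem sL_zero : sL p 0 = 1 := by
  apply Subtype.ext
  show !![1, 0; 0, 1] = 1
  rw [Matrix.one_fin_two]

theorem sU_pow (n : ℕ) : sU p (n : ZMod p) = sU p 1 ^ n := by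
  induction n with
  | zero => rw [Nat.cast_zero, sU_zero, pow_zero]
  | succ n ih => rw [Nat.cast_succ, sU_add, ih, pow_succ]

theorem sL_pow (n : ℕ) : sL p (n : ZMod p) = sL p 1 ^ n := by
  induction n with
  | zero => rw [Nat.cast_zero, sL_zero, pow_zero]
  | succ n ih => rw [Nat.cast_succ, sL_add, ih, pow_succ]

theorem sl_gen {H : Subgroup (SLp p)} (h1 : sU p 1 ∈ H) (h2 : sL p 1 ∈ H) : H = ⊤ := by
  have hU : ∀ c : ZMod p, sU p c ∈ H := by
    intro c
    have : c = ((c.val : ℕ) : ZMod p) := by rw [ZMod.natCast_val, ZMod.cast_id', id]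
    rw [this, sU_pow]
    exact H.pow_mem h1 _
  have hL : ∀ c : ZMod p, sL p c ∈ H := by
    intro c
    have : c = ((c.val : ℕ) : ZMod p) := by rw [ZMod.natCast_val, ZMod.cast_id', id]
    rw [this, sL_pow]
    exact H.pow_mem h2 _
  apply H16.eq_top_of_transvection_mem
  intro i j hij c
  fin_cases i <;> fin_cases j
  · exact absurd rfl hij
  · have : Matrix.SpecialLinearGroup.transvection hij c = sU p c := by
      apply Subtype.ext
      rw [Matrix.SpecialLinearGroup.transvection_coe]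
      ext a b
      fin_cases a <;> fin_cases b <;> simp [sU, Matrix.transvection, Matrix.single]
    rw [this]; exact hU c
  · have : Matrix.SpecialLinearGroup.transvection hij c = sL p c := by
      apply Subtype.ext
      rw [Matrix.SpecialLinearGroup.transvection_coe]
      ext a b
      fin_cases a <;> fin_cases b <;> simp [sL, Matrix.transvection, Matrix.single]
    rw [this]; exact hL c
  · exact absurd rfl hij

theorem sl_trans {k : Fin 2 → ZMod p} (hk : k ≠ 0) : ∃ M : SLp p, M.1.mulVec ![1, 0] = k := by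
  by_cases h0 : k 0 = 0
  · have h1 : k 1 ≠ 0 := by
      intro h
      apply hk
      funext i
      fin_cases i
      · exact h0
      · exact h
    refine ⟨⟨!![0, -(k 1)⁻¹; k 1, 0], ?_⟩, ?_⟩
    · rw [Matrix.det_fin_two_of]
      field_simp
      ring
    · funext i
      fin_cases i <;> simp [Matrix.mulVec, dotProduct, Fin.sum_univ_two, h0]
  · refine ⟨⟨!![k 0, 0; k 1, (k 0)⁻¹], ?_⟩, ?_⟩
    · rw [Matrix.det_fin_two_of]
      field_simp
      ring
    · funext i
      fin_cases i <;> simp [Matrix.mulVec, dotProduct, Fin.sum_univ_two]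

end SL

/-- `L` acts as `SL(2,p)` on a plane -/
structure Pl (p : ℕ) (W : Type*) [AddCommGroup W] [DistribMulAction X W] (L : Subgroup X)
    (ι : (Fin 2 → ZMod p) →+ W) (φ : L ≃* SLp p) : Prop where
  inj : Function.Injective ι
  act : ∀ (g : L) k, (g : X) • ι k = ι ((φ g).1.mulVec k)
  com : comS W L = ι.range
  dec : ι.range ⊔ fixS W L = ⊤

namespace FFS

variable {p : ℕ} [Fact p.Prime] {Q : Subgroup X} [Finite X] [Finite W]

theorem TG.zpowers {A : Subgroup X} (hA : TG p W A) {a : X} (ha : a ∈ A) (ha1 : a ≠ 1) : Subgroup.zpowers a = A := by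
  apply Subgroup.eq_of_le_of_card_ge (Subgroup.zpowers_le.mpr ha)
  rw [hA.1, Nat.card_zpowers]
  have h1 := orderOf_eq_prime (hA.EA.2 a ha) ha1
  rw [h1]

theorem TG.fixE_eq {A : Subgroup X} (hA : TG p W A) {a : X} (ha : a ∈ A) (ha1 : a ≠ 1) : fixE W a = fixS W A := by
  ext w
  constructor
  · intro hw b hb
    rw [← hA.zpowers ha ha1] at hb
    have hle : Subgroup.zpowers a ≤ fixer ⊤ (fun w' => w' = w) := by
      rw [Subgroup.zpowers_le]
      exact ⟨trivial, fun u hu => by rw [hu]; exact hw⟩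
    exact (hle hb).2 w rfl
  · intro hw
    exact hw a ha

theorem TG.card_rg {A : Subgroup X} (hA : TG p W A) {a : X} (ha : a ∈ A) (ha1 : a ≠ 1) : Nat.card (rg W a) = p := by
  have h1 := PGV.card_rg (W := W) a
  rw [hA.fixE_eq ha ha1, ← hA.2] at h1
  exact Nat.eq_of_mul_eq_mul_right Nat.card_pos h1

/-- subgroups of prime order -/
theorem eq_of_mem_card_prime {U U' : AddSubgroup W} (hU : Nat.card U = p) {u : W} (hu : u ∈ U) (hu' : u ∈ U')
    (hu0 : u ≠ 0) : U ≤ U' := by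
  have h1 : Nat.card ↥(U ⊓ U') ∣ Nat.card U := AddSubgroup.card_dvd_of_le inf_le_left
  rw [hU] at h1
  rcases (Nat.dvd_prime (Fact.out : p.Prime)).mp h1 with h2 | h2
  · exfalso
    have h3 : U ⊓ U' = ⊥ := AddSubgroup.card_eq_one.mp h2
    have h4 : u ∈ U ⊓ U' := ⟨hu, hu'⟩
    rw [h3] at h4
    exact hu0 h4
  · have h3 : U ⊓ U' = U := AddSubgroup.eq_of_le_of_card_ge inf_le_left (by rw [h2, hU])
    exact inf_eq_left.mp h3

theorem TG.quad (h : FFS p W Q) {A : Subgroup X} (hA : TG p W A) {a b : X} (ha : a ∈ A) (ha1 : a ≠ 1) (hb : b ∈ A) :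
    ∀ u ∈ rg W a, b • u = u := by
  have hinv : ∀ g ∈ A, ∀ u ∈ rg W a, g • u ∈ rg W a := by
    rintro g hg _ ⟨w, _, rfl⟩
    refine ⟨g • w, trivial, ?_⟩
    rw [dl_apply, dl_apply, smul_sub, ← mul_smul, ← mul_smul, hA.EA.1 g hg a ha]
  have hne : rg W a ≠ ⊥ := by
    intro h0
    have h1 := hA.card_rg ha ha1
    rw [h0, AddSubgroup.card_bot] at h1
    exact (Fact.out : p.Prime).one_lt.ne h1
  obtain ⟨u₀, hu₀, hu0, hfix⟩ := exists_fix h.hpW hA.EA.isPGroup hinv hne
  have hle : rg W a ≤ fixS W A := eq_of_mem_card_prime (hA.card_rg ha ha1) hu₀ hfix hu0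
  exact fun u hu => hle hu b hb

theorem TG.rg_eq (h : FFS p W Q) {A : Subgroup X} (hA : TG p W A) {a b : X} (ha : a ∈ A) (ha1 : a ≠ 1) (hb : b ∈ A)
    (hb1 : b ≠ 1) : rg W a = rg W b := by
  have hle : ∀ i : ℤ, ∀ w, (a ^ i) • w - w ∈ rg W a := by
    have hS : Subgroup.zpowers a ≤
      ({ carrier := {g | g ∈ A ∧ ∀ w : W, g • w - w ∈ rg W a}
         mul_mem' := by
          rintro g g' ⟨hg, hg1⟩ ⟨hg', hg1'⟩
          refine ⟨A.mul_mem hg hg', fun w => ?_⟩
          have : (g * g') • w - w = (g • (g' • w) - g' • w) + (g' • w - w) := by rw [mul_smul]; abel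
          rw [this]
          exact AddSubgroup.add_mem _ (hg1 _) (hg1' _)
         one_mem' := ⟨A.one_mem, fun w => by rw [one_smul, sub_self]; exact AddSubgroup.zero_mem _⟩
         inv_mem' := by
          rintro g ⟨hg, hg1⟩
          refine ⟨A.inv_mem hg, fun w => ?_⟩
          have : g⁻¹ • w - w = -(g • (g⁻¹ • w) - g⁻¹ • w) := by rw [smul_inv_smul]; abel
          rw [this]
          exact AddSubgroup.neg_mem _ (hg1 _) } : Subgroup X) := by
      rw [Subgroup.zpowers_le]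
      exact ⟨ha, fun w => mem_rg a w⟩
    exact fun i w => (hS ⟨i, rfl⟩).2 w
  apply (AddSubgroup.eq_of_le_of_card_ge ?_ (by rw [hA.card_rg ha ha1, hA.card_rg hb hb1])).symm
  rintro _ ⟨w, _, rfl⟩
  rw [← hA.zpowers ha ha1] at hb
  obtain ⟨i, rfl⟩ := hb
  exact hle i w

theorem fixS_cj (A : Subgroup X) (x : X) : Nat.card (fixS W (cj x A)) = Nat.card (fixS W A) := by
  refine Nat.card_congr ⟨fun w => ⟨x⁻¹ • w.1, fun b hb => ?_⟩, fun w => ⟨x • w.1, fun b hb => ?_⟩, ?_, ?_⟩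
  · have := w.2 _ (cj_mem x hb)
    rw [mul_smul, mul_smul] at this
    rw [eq_inv_smul_iff]
    exact this
  · obtain ⟨c, hc, rfl⟩ := mem_cj.mp hb
    rw [mul_smul, mul_smul, inv_smul_smul, w.2 c hc]
  · intro w; exact Subtype.ext (smul_inv_smul x w.1)
  · intro w; exact Subtype.ext (inv_smul_smul x w.1)

theorem card_cj (A : Subgroup X) (x : X) : Nat.card (cj x A) = Nat.card A :=
  Nat.card_congr (A.equivMapOfInjective _ (MulAut.conj x).injective).symm.toEquiv

theorem TG.cj {A : Subgroup X} (hA : TG p W A) (x : X) : TG p W (cj x A) :=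
  ⟨by rw [card_cj, hA.1], by rw [fixS_cj, hA.2]⟩

/-- the pair lemma -/
theorem TG.pair (h : FFS p W Q) {A : Subgroup X} (hA : TG p W A) {x : X} (hx : x ∈ Q) (hne : PGV.cj x A ≠ A)
    {a b : X} (ha : a ∈ A) (ha1 : a ≠ 1) (hb : b ∈ PGV.cj x A) (hb1 : b ≠ 1) {u : W} (hu : u ∈ rg W a) (hu0 : u ≠ 0) :
    b • u ≠ u := by
  intro hbu
  have hB := hA.cj x
  have hQn := h.hQn
  -- all of B fixes rg a pointwise
  have hBfix : ∀ c ∈ PGV.cj x A, ∀ w ∈ rg W a, c • w = w := by
    have h1 : u ∈ fixS W (PGV.cj x A) := by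
      rw [← hB.fixE_eq hb hb1]; exact hbu
    have h2 : rg W a ≤ fixS W (PGV.cj x A) := eq_of_mem_card_prime (hA.card_rg ha ha1) hu h1 hu0
    exact fun c hc w hw => h2 hw c hc
  set b₀ := x * a * x⁻¹ with hb₀
  have hb₀m : b₀ ∈ PGV.cj x A := cj_mem x ha
  set z := b₀ * a⁻¹ with hz
  have hzQ : z ∈ Q := by
    have : z = x * (a * x⁻¹ * a⁻¹) := by rw [hz, hb₀]; group
    rw [this]
    exact Q.mul_mem hx (hQn.conj_mem _ (Q.inv_mem hx) a)
  have hafix : ∀ w ∈ rg W a, a⁻¹ • w = w := fun w hw => hA.quad h ha ha1 (A.inv_mem ha) w hw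
  have hzfix : ∀ w ∈ rg W a, z • w = w := by
    intro w hw
    rw [hz, mul_smul, hafix w hw, hBfix b₀ hb₀m w hw]
  have hainv : ∀ w : W, a⁻¹ • w - w ∈ rg W a := by
    intro w
    have : a⁻¹ • w - w = -(a • (a⁻¹ • w) - a⁻¹ • w) := by rw [smul_inv_smul]; abel
    rw [this]
    exact AddSubgroup.neg_mem _ (mem_rg a _)
  have hstep : ∀ k : ℕ, ∀ w : W, z ^ k • w - b₀ ^ k • w ∈ rg W a := by
    intro k
    induction k with
    | zero => intro w; simp
    | succ k ih =>
      intro w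
      have e1 : z ^ (k + 1) • w - b₀ ^ (k + 1) • w =
          z • (z ^ k • w - b₀ ^ k • w) + b₀ • (a⁻¹ • (b₀ ^ k • w) - b₀ ^ k • w) := by
        have e2 : z • (b₀ ^ k • w) = b₀ • (a⁻¹ • (b₀ ^ k • w)) := by rw [hz, mul_smul]
        rw [pow_succ' z, pow_succ' b₀, mul_smul z, mul_smul b₀ (b₀ ^ k), smul_sub, smul_sub, e2]
        abel
      rw [e1, hzfix _ (ih w), hBfix b₀ hb₀m _ (hainv _)]
      exact AddSubgroup.add_mem _ (ih w) (hainv _)
  have hb₀p : b₀ ^ p = 1 := hB.EA.2 b₀ hb₀m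
  have hzp : z ^ p = 1 := by
    apply h.hf
    intro w
    have h1 := hstep p w
    rw [hb₀p, one_smul] at h1
    have h2 : ∀ i : ℕ, ∀ w ∈ rg W a, z ^ i • w = w := by
      intro i
      induction i with
      | zero => intro w hw; simp
      | succ i ih => intro w hw; rw [pow_succ, mul_smul, hzfix w hw, ih w hw]
    exact F1 h.hpW h.hQp (g := z ^ p) (by rw [← pow_mul, mul_comm, pow_mul, pow_card_mem hzQ, one_pow]) (h2 p _ h1)
  have hz1 : z = 1 := by
    have h3 := Nat.dvd_gcd (orderOf_dvd_of_pow_eq_one (pow_card_mem hzQ)) (orderOf_dvd_of_pow_eq_one hzp)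
    rw [h.hQp] at h3
    exact orderOf_eq_one_iff.mp (Nat.dvd_one.mp h3)
  apply hne
  rw [hz, mul_inv_eq_one] at hz1
  have h5 := hB.zpowers hb₀m (by rw [hz1]; exact ha1)
  have h6 := hA.zpowers ha ha1
  rw [← h5, hz1, h6]

/-- multiples inside a group of prime order -/
theorem exists_nsmul {U : AddSubgroup W} (hpW : ∀ w : W, p • w = 0) (hU : Nat.card U = p) {u : W} (hu : u ∈ U)
    (hu0 : u ≠ 0) : ∀ w ∈ U, ∃ k : ℕ, w = k • u := by
  intro w hw
  have h1 : U ≤ AddSubgroup.zmultiples u := eq_of_mem_card_prime hU hu (AddSubgroup.mem_zmultiples u) hu0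
  obtain ⟨k, hk⟩ := AddSubgroup.mem_zmultiples_iff.mp (h1 hw)
  refine ⟨(k % p).toNat, ?_⟩
  rw [← hk]
  have hp0 : (p : ℤ) ≠ 0 := by exact_mod_cast (Fact.out : p.Prime).ne_zero
  have h2 : ((k % p).toNat : ℤ) = k % p := Int.toNat_of_nonneg (Int.emod_nonneg k hp0)
  rw [← natCast_zsmul, h2]
  conv_lhs => rw [← Int.emod_add_mul_ediv k p, add_zsmul, mul_comm, mul_zsmul]
  rw [natCast_zsmul, hpW, smul_zero, add_zero]

end FFS

end Cfsg.Agent.H19.FF
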