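import Cfsg.Agent.H19.FF2

set_option autoImplicit false
set_option linter.style.haveILetI false
set_option linter.unusedVariables false
set_option linter.unusedSectionVars false

/-! Failure of factorization, part 3: the plane of two conjugate transvection groups. -/

namespace Cfsg.Agent.H19.FF

open Cfsg Cfsg.Agent.H19.PGV

variable {X W : Type*} [Group X] [AddCommGroup W] [DistribMulAction X W]

namespace FFS

variable {p : ℕ} [Fact p.Prime] {Q : Subgroup X} [Finite X] [Finite W]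

theorem TG.exists_ne {A : Subgroup X} (hA : TG p W A) : ∃ a ∈ A, a ≠ 1 := by
  obtain ⟨⟨a, ha⟩, ha1⟩ := Subgroup.ne_bot_iff_exists_ne_one.mp hA.ne_bot
  exact ⟨a, ha, fun h => ha1 (Subtype.ext h)⟩

theorem cj_inv_cj (A : Subgroup X) (x : X) : cj x⁻¹ (cj x A) = A := by
  rw [cj_cj, inv_mul_cancel, cj_one]

theorem exists_Pl (h : FFS p W Q) {A : Subgroup X} (hA : TG p W A) {x : X} (hx : x ∈ Q) (hne : PGV.cj x A ≠ A) :
    ∃ (ι : (Fin 2 → ZMod p) →+ W) (φ : ↥(A ⊔ PGV.cj x A) ≃* SLp p), Pl p W (A ⊔ PGV.cj x A) ι φ ∧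
      ∃ a ∈ A, a ≠ 1 ∧ ι ![1, 0] ∈ rg W a := by
  classical
  have hpp : p.Prime := Fact.out
  obtain ⟨a, ha, ha1⟩ := hA.exists_ne
  have hB := hA.cj x
  set B := PGV.cj x A with hBdef
  obtain ⟨b, hb, hb1⟩ := hB.exists_ne
  have hne' : PGV.cj x⁻¹ B ≠ B := by
    rw [hBdef, cj_inv_cj]
    exact hne.symm
  have haB : a ∈ PGV.cj x⁻¹ B := by rw [hBdef, cj_inv_cj]; exact ha
  -- v
  have hrb : rg W b ≠ ⊥ := by
    intro h0
    have h1 := hB.card_rg hb hb1
    rw [h0, AddSubgroup.card_bot] at h1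
    exact hpp.one_lt.ne h1
  obtain ⟨⟨v, hv⟩, hv0'⟩ := AddSubgroup.ne_bot_iff_exists_ne_zero.mp hrb
  have hv0 : v ≠ 0 := fun h0 => hv0' (Subtype.ext h0)
  have hav : a • v ≠ v := hB.pair h (Q.inv_mem hx) hne' hb hb1 haB ha1 hv hv0
  set u := a • v - v with hudef
  have hu : u ∈ rg W a := mem_rg a v
  have hu0 : u ≠ 0 := fun h0 => hav (sub_eq_zero.mp h0)
  have hbu : b • u ≠ u := hA.pair h hx hne ha ha1 hb hb1 hu hu0
  have hbv : b • v = v := hB.quad h hb hb1 hb v hv
  have hau : a • u = u := hA.quad h ha ha1 ha u hu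
  obtain ⟨c, hc⟩ := exists_nsmul h.hpW (hB.card_rg hb hb1) hv hv0 (b • u - u) (mem_rg b u)
  have hcp : Nat.Coprime c p := by
    rw [Nat.coprime_comm, Nat.Prime.coprime_iff_not_dvd hpp]
    rintro ⟨k, hk⟩
    apply hbu
    rw [hk, mul_comm, mul_nsmul, h.hpW] at hc
    exact sub_eq_zero.mp hc
  obtain ⟨j, -, hj⟩ := Nat.exists_mul_mod_eq_one_of_coprime hcp hpp.one_lt
  have hbj : ∀ i : ℕ, b ^ i • u = u + (i * c) • v := by
    intro i
    induction i with
    | zero => simp
    | succ i ih =>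
      have e1 : b • u = u + c • v := by rw [← hc]; abel
      have e2 : b • ((i * c) • v) = (i * c) • v := by rw [smul_comm b (i * c), hbv]
      rw [pow_succ', mul_smul, ih, smul_add, e1, e2, Nat.succ_mul, add_nsmul]
      abel
  -- normalize b
  obtain ⟨b', hb', hb'u, hb'v⟩ : ∃ b' ∈ B, b' • u = u + v ∧ b' • v = v := by
    refine ⟨b ^ j, B.pow_mem hb j, ?_, ?_⟩
    · rw [hbj]
      congr 1
      have h3 := Nat.div_add_mod (c * j) p
      rw [hj] at h3
      rw [mul_comm j c, ← h3, add_nsmul, one_nsmul, mul_comm, mul_nsmul, h.hpW, zero_add]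
    · have : ∀ i : ℕ, b ^ i • v = v := by
        intro i
        induction i with
        | zero => simp
        | succ i ih => rw [pow_succ, mul_smul, hbv, ih]
      exact this j
  have hb'1 : b' ≠ 1 := by
    rintro rfl
    rw [one_smul] at hb'u
    exact hv0 (by simpa using hb'u.symm)
  have hav' : a • v = v + u := by rw [hudef]; abel
  -- module structure
  letI : Module (ZMod p) W := AddCommGroup.zmodModule h.hpW
  have hzs : ∀ (c : ZMod p) (g : X) (w : W), g • (c • w) = c • (g • w) := by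
    intro c g w
    have : c = ((c.val : ℕ) : ZMod p) := by rw [ZMod.natCast_val, ZMod.cast_id', id]
    rw [this, Nat.cast_smul_eq_nsmul, Nat.cast_smul_eq_nsmul, smul_comm]
  have hzm : ∀ (c : ZMod p) (U : AddSubgroup W) (w : W), w ∈ U → c • w ∈ U := by
    intro c U w hw
    have : c = ((c.val : ℕ) : ZMod p) := by rw [ZMod.natCast_val, ZMod.cast_id', id]
    rw [this, Nat.cast_smul_eq_nsmul]
    exact U.nsmul_mem hw _
  let ι : (Fin 2 → ZMod p) →+ W :=
    { toFun := fun k => k 0 • u + k 1 • v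
      map_zero' := by simp
      map_add' := by
        intro k l
        simp only [Pi.add_apply, add_smul]
        abel }
  have hι : ∀ k, ι k = k 0 • u + k 1 • v := fun k => rfl
  have haι : ∀ k, a • ι k = ι k + k 1 • u := by
    intro k
    rw [hι, smul_add, hzs, hzs, hau, hav', smul_add]
    abel
  have hbι : ∀ k, b' • ι k = ι k + k 0 • v := by
    intro k
    rw [hι, smul_add, hzs, hzs, hb'u, hb'v, smul_add]
    abel
  have hzu : ∀ c : ZMod p, c • u = 0 → c = 0 := by
    intro c hc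
    by_contra hc0
    apply hu0
    have : u = (c⁻¹ * c) • u := by rw [inv_mul_cancel₀ hc0, one_smul]
    rw [this, mul_smul, hc, smul_zero]
  have hinj : Function.Injective ι := by
    rw [injective_iff_map_eq_zero]
    intro k hk
    have h1 := haι k
    rw [hk, smul_zero, zero_add] at h1
    have h2 : k 1 = 0 := hzu _ h1.symm
    have h3 := hι k
    rw [hk, h2, zero_smul, add_zero] at h3
    have h4 : k 0 = 0 := hzu _ h3.symm
    funext i
    fin_cases i
    · exact h4
    · exact h2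
  set L := A ⊔ B with hL
  have haL : a ∈ L := (le_sup_left : A ≤ L) ha
  have hbL : b' ∈ L := (le_sup_right : B ≤ L) hb'
  have hLle : ∀ S : Subgroup X, a ∈ S → b' ∈ S → L ≤ S := by
    intro S h1 h2
    rw [hL]
    refine sup_le ?_ ?_
    · rw [← hA.zpowers ha ha1, Subgroup.zpowers_le]; exact h1
    · rw [← hB.zpowers hb' hb'1, Subgroup.zpowers_le]; exact h2
  have hgen : Subgroup.closure {(⟨a, haL⟩ : L), ⟨b', hbL⟩} = ⊤ := by
    rw [eq_top_iff]
    rintro ⟨g, hg⟩ _
    have h1 : L ≤ (Subgroup.closure {(⟨a, haL⟩ : L), ⟨b', hbL⟩}).map L.subtype := by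
      apply hLle
      · exact ⟨⟨a, haL⟩, Subgroup.subset_closure (by simp), rfl⟩
      · exact ⟨⟨b', hbL⟩, Subgroup.subset_closure (by simp), rfl⟩
    obtain ⟨g', hg', hgg⟩ := h1 hg
    have : g' = ⟨g, hg⟩ := Subtype.ext hgg
    rw [← this]; exact hg'
  obtain ⟨φ, hφa, hφb, hφ⟩ := H2.exists_sl_hom (F := ZMod p) hgen (fun (g : L) (w : W) => (g : X) • w)
    (fun w => one_smul X w) (fun g g' w => mul_smul (g : X) (g' : X) w) hinj (A := sU p 1) (B := sL p 1) (by
      intro k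
      show a • ι k = ι _
      rw [haι, hι, hι]
      have e0 : ((sU p 1).1.mulVec k) 0 = k 0 + k 1 := by
        simp [sU, Matrix.mulVec, dotProduct, Fin.sum_univ_two]
      have e1 : ((sU p 1).1.mulVec k) 1 = k 1 := by
        simp [sU, Matrix.mulVec, dotProduct, Fin.sum_univ_two]
      rw [e0, e1, add_smul]
      abel) (by
      intro k
      show b' • ι k = ι _
      rw [hbι, hι, hι]
      have e0 : ((sL p 1).1.mulVec k) 0 = k 0 := by
        simp [sL, Matrix.mulVec, dotProduct, Fin.sum_univ_two]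
      have e1 : ((sL p 1).1.mulVec k) 1 = k 0 + k 1 := by
        simp [sL, Matrix.mulVec, dotProduct, Fin.sum_univ_two]
      rw [e0, e1, add_smul]
      abel)
  -- decomposition
  have hfixL : ∀ w : W, a • w = w → b' • w = w → w ∈ fixS W L := by
    intro w h1 h2 g hg
    have hle : L ≤ fixer ⊤ (fun w' => w' = w) := by
      apply hLle
      · exact ⟨trivial, fun u hu => by rw [hu]; exact h1⟩
      · exact ⟨trivial, fun u hu => by rw [hu]; exact h2⟩
    exact (hle hg).2 w rfl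
  have hdec : ι.range ⊔ fixS W L = ⊤ := by
    rw [eq_top_iff]
    intro w _
    obtain ⟨n, hn⟩ := exists_nsmul h.hpW (hA.card_rg ha ha1) hu hu0 (a • w - w) (mem_rg a w)
    have hrb' : rg W b' = rg W b := hB.rg_eq h hb' hb'1 hb hb1
    obtain ⟨m, hm⟩ := exists_nsmul h.hpW (hB.card_rg hb hb1) hv hv0 (b' • w - w) (by rw [← hrb']; exact mem_rg b' w)
    set k : Fin 2 → ZMod p := ![(m : ZMod p), (n : ZMod p)] with hk
    have hk0 : k 0 = (m : ZMod p) := rfl
    have hk1 : k 1 = (n : ZMod p) := rfl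
    have ea : a • w = w + n • u := by rw [← hn]; abel
    have eb : b' • w = w + m • v := by rw [← hm]; abel
    have e1 : a • (w - ι k) = w - ι k := by
      rw [smul_sub, haι, hk1, ea, Nat.cast_smul_eq_nsmul]
      abel
    have e2 : b' • (w - ι k) = w - ι k := by
      rw [smul_sub, hbι, hk0, eb, Nat.cast_smul_eq_nsmul]
      abel
    have : w = ι k + (w - ι k) := by abel
    rw [this]
    exact AddSubgroup.add_mem _ ((le_sup_left : ι.range ≤ _) ⟨k, rfl⟩) ((le_sup_right : fixS W L ≤ _) (hfixL _ e1 e2))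
  have hdec' : ∀ w : W, ∃ k, ∃ c ∈ fixS W L, w = ι k + c := by
    intro w
    have : w ∈ ι.range ⊔ fixS W L := by rw [hdec]; trivial
    obtain ⟨_, ⟨k, rfl⟩, c, hc, hw⟩ := AddSubgroup.mem_sup.mp this
    exact ⟨k, c, hc, hw.symm⟩
  have hφinj : Function.Injective φ := by
    rw [injective_iff_map_eq_one]
    intro g hg
    apply Subtype.ext
    apply h.hf
    intro w
    obtain ⟨k, c, hc, rfl⟩ := hdec' w
    have e1 : (g : X) • ι k = ι k := by
      have := hφ g k
      rw [hg] at this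
      have e2 : (1 : SLp p).1 = 1 := rfl
      rw [e2, Matrix.one_mulVec] at this
      exact this
    rw [smul_add, e1, hc g.1 g.2]
  have hφsurj : Function.Surjective φ := by
    rw [← MonoidHom.range_eq_top]
    apply sl_gen
    · exact ⟨_, hφa⟩
    · exact ⟨_, hφb⟩
  refine ⟨ι, MulEquiv.ofBijective φ ⟨hφinj, hφsurj⟩, ⟨hinj, fun g k => hφ g k, ?_, hdec⟩, a, ha, ha1, ?_⟩
  · apply le_antisymm
    · rw [comS_le]
      intro g hg w
      obtain ⟨k, c, hc, rfl⟩ := hdec' w
      have e1 := hφ ⟨g, hg⟩ k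
      have e1' : g • ι k = ι ((φ ⟨g, hg⟩).1.mulVec k) := e1
      rw [smul_add, e1', hc g hg]
      refine ⟨(φ ⟨g, hg⟩).1.mulVec k - k, ?_⟩
      rw [map_sub]
      abel
    · rintro _ ⟨k, rfl⟩
      rw [hι]
      have hu' : u ∈ comS W L := mem_comS haL v
      have hv' : v ∈ comS W L := by
        have : v = b' • u - u := by rw [hb'u]; abel
        rw [this]
        exact mem_comS hbL u
      exact AddSubgroup.add_mem _ (hzm _ _ _ hu') (hzm _ _ _ hv')
  · rw [hι]
    have e0 : (![1, 0] : Fin 2 → ZMod p) 0 = 1 := rfl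
    have e1 : (![1, 0] : Fin 2 → ZMod p) 1 = 0 := rfl
    rw [e0, e1, one_smul, zero_smul, add_zero]
    exact hu

end FFS

/-! ### consequences -/

namespace Pl

variable {p : ℕ} [Fact p.Prime] [Finite X] [Finite W] {L : Subgroup X} {ι : (Fin 2 → ZMod p) →+ W} {φ : L ≃* SLp p}

theorem card_com (h : Pl p W L ι φ) : Nat.card (comS W L) = p ^ 2 := by
  rw [h.com]
  have h1 : Nat.card ι.range = Nat.card (Fin 2 → ZMod p) :=
    (Nat.card_congr (Equiv.ofInjective ι h.inj)).symm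
  rw [h1, Nat.card_eq_fintype_card, Fintype.card_fun, ZMod.card, Fintype.card_fin]

theorem decomp (h : Pl p W L ι φ) (w : W) : ∃ u ∈ comS W L, ∃ c ∈ fixS W L, w = u + c := by
  have : w ∈ ι.range ⊔ fixS W L := by rw [h.dec]; trivial
  rw [← h.com] at this
  obtain ⟨u, hu, c, hc, hw⟩ := AddSubgroup.mem_sup.mp this
  exact ⟨u, hu, c, hc, hw.symm⟩

theorem smul_com (h : Pl p W L ι φ) {g : X} (hg : g ∈ L) {u : W} (hu : u ∈ comS W L) : g • u ∈ comS W L := by
  rw [h.com] at hu ⊢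
  obtain ⟨k, rfl⟩ := hu
  exact ⟨_, (h.act ⟨g, hg⟩ k).symm⟩

theorem inf_bot (h : Pl p W L ι φ) : comS W L ⊓ fixS W L = ⊥ := by
  rw [eq_bot_iff]
  rintro w ⟨h1, h2⟩
  rw [h.com] at h1
  obtain ⟨k, rfl⟩ := h1
  have hM : ∀ M : SLp p, M.1.mulVec k = k := by
    intro M
    apply h.inj
    have h3 := h.act (φ.symm M) k
    rw [MulEquiv.apply_symm_apply] at h3
    rw [← h3]
    exact h2 _ (φ.symm M).2
  have e1 := congrFun (hM (sU p 1)) 0
  have e2 := congrFun (hM (sL p 1)) 1
  simp [sU, sL, Matrix.mulVec, dotProduct, Fin.sum_univ_two] at e1 e2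
  have : k = 0 := by
    funext i
    fin_cases i
    · exact e2
    · exact e1
  rw [this, map_zero]
  exact AddSubgroup.zero_mem _

theorem trans (h : Pl p W L ι φ) {w w' : W} (hw : w ∈ comS W L) (hw0 : w ≠ 0) (hw' : w' ∈ comS W L) (hw0' : w' ≠ 0) :
    ∃ g ∈ L, g • w = w' := by
  rw [h.com] at hw hw'
  obtain ⟨k, rfl⟩ := hw
  obtain ⟨k', rfl⟩ := hw'
  have hk : k ≠ 0 := by rintro rfl; exact hw0 (map_zero ι)
  have hk' : k' ≠ 0 := by rintro rfl; exact hw0' (map_zero ι)
  obtain ⟨M, hM⟩ := sl_trans hk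
  obtain ⟨M', hM'⟩ := sl_trans hk'
  refine ⟨(φ.symm (M' * M⁻¹)).1, (φ.symm (M' * M⁻¹)).2, ?_⟩
  rw [h.act, MulEquiv.apply_symm_apply]
  congr 1
  have e1 : (M' * M⁻¹).1 = M'.1 * (M⁻¹).1 := rfl
  have e2 : (M⁻¹).1.mulVec k = ![1, 0] := by
    rw [← hM, Matrix.mulVec_mulVec]
    have e3 : (M⁻¹).1 * M.1 = 1 := by
      have : (M⁻¹ * M).1 = (M⁻¹).1 * M.1 := rfl
      rw [← this, inv_mul_cancel]; rfl
    rw [e3, Matrix.one_mulVec]
  rw [e1, ← Matrix.mulVec_mulVec, e2, hM']

theorem card_fix (h : Pl p W L ι φ) : p ^ 2 * Nat.card (fixS W L) = Nat.card W := by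
  have h1 := card_mul_le_sup_add (comS W L) (fixS W L)
  have h2 : comS W L ⊔ fixS W L = ⊤ := by rw [h.com]; exact h.dec
  rw [h.inf_bot, h2, AddSubgroup.card_top, AddSubgroup.card_bot, mul_one, h.card_com] at h1
  apply le_antisymm h1
  -- W is covered by sums
  have h3 : Function.Surjective (fun x : comS W L × fixS W L => (x.1.1 + x.2.1 : W)) := by
    intro w
    obtain ⟨u, hu, c, hc, rfl⟩ := h.decomp w
    exact ⟨(⟨u, hu⟩, ⟨c, hc⟩), rfl⟩
  have h4 := Nat.card_le_card_of_surjective _ h3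
  rw [Nat.card_prod, h.card_com] at h4
  exact h4

/-- faithful on the plane -/
theorem faithful (h : Pl p W L ι φ) (hf : ∀ g : X, (∀ w : W, g • w = w) → g = 1) {g : X} (hg : g ∈ L)
    (hu : ∀ u ∈ comS W L, g • u = u) : g = 1 := by
  apply hf
  intro w
  obtain ⟨u, hu', c, hc, rfl⟩ := h.decomp w
  rw [smul_add, hu u hu', hc g hg]

end Pl

end Cfsg.Agent.H19.FF
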