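import Cfsg.Agent.H19.FF3

set_option autoImplicit false
set_option linter.style.haveILetI false
set_option linter.unusedVariables false
set_option linter.unusedSectionVars false

/-! Failure of factorization, part 4: the group `[Q, A] A` of a transvection group `A`. -/

namespace Cfsg.Agent.H19.FF

open Cfsg Cfsg.Agent.H19.PGV
open scoped commutatorElement

variable {X W : Type*} [Group X] [AddCommGroup W] [DistribMulAction X W]

/-- the group spanned by a transvection group and its commutator with `Q` -/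
def EG (Q A : Subgroup X) : Subgroup X := ⁅Q, A⁆ ⊔ A

theorem le_EG (Q A : Subgroup X) : A ≤ EG Q A := le_sup_right

theorem cj_le_EG {Q A : Subgroup X} {x : X} (hx : x ∈ Q) : PGV.cj x A ≤ EG Q A := by
  intro y hy
  obtain ⟨a, ha, rfl⟩ := mem_cj.mp hy
  have : x * a * x⁻¹ = ⁅x, a⁆ * a := by rw [commutatorElement_def]; group
  rw [this]
  exact (EG Q A).mul_mem ((le_sup_left : ⁅Q, A⁆ ≤ EG Q A) (Subgroup.commutator_mem_commutator hx ha)) (le_EG Q A ha)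

namespace FFS

variable {p : ℕ} [Fact p.Prime] {Q : Subgroup X} [Finite X] [Finite W]

/-- moving element -/
theorem TG.exists_move (h : FFS p W Q) {A : Subgroup X} (hA : TG p W A) : ∃ x ∈ Q, PGV.cj x A ≠ A := by
  by_contra hcon
  push Not at hcon
  have hQn := h.hQn
  obtain ⟨a, ha, ha1⟩ := hA.exists_ne
  apply ha1
  apply h.inf_bot hA.EA a ha
  apply h.hQc
  rw [Subgroup.mem_centralizer_iff]
  intro x hx
  have h1 : x * a * x⁻¹ ∈ A := by rw [← hcon x hx]; exact cj_mem x ha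
  have h2 : x * a * x⁻¹ * a⁻¹ ∈ A := A.mul_mem h1 (A.inv_mem ha)
  have h3 : x * a * x⁻¹ * a⁻¹ ∈ Q := by
    have : x * a * x⁻¹ * a⁻¹ = x * (a * x⁻¹ * a⁻¹) := by group
    rw [this]
    exact Q.mul_mem hx (hQn.conj_mem _ (Q.inv_mem hx) a)
  have h4 := h.inf_bot hA.EA _ h2 h3
  rw [mul_inv_eq_one, mul_inv_eq_iff_eq_mul] at h4
  exact h4

theorem EG_le (h : FFS p W Q) (A : Subgroup X) : EG Q A ≤ Q ⊔ A := by
  haveI := h.hQn
  exact sup_le_sup_right (Subgroup.commutator_le_left Q A) A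

theorem TG.exists_rep0 (h : FFS p W Q) {A : Subgroup X} (hA : TG p W A) {x : X} (hx : x ∈ Q) (hne : PGV.cj x A ≠ A)
    {a : X} (ha : a ∈ A) (ha1 : a ≠ 1) {u : W} (hu : u ∈ rg W a) (hu0 : u ≠ 0) {w : W}
    (hw : w ∈ comS W (A ⊔ PGV.cj x A)) (hw0 : w ≠ 0) : ∃ r ∈ Q, r ∈ A ⊔ PGV.cj x A ∧ w = r • u := by
  obtain ⟨ι, φ, hPl, -⟩ := h.exists_Pl hA hx hne
  have hQn := h.hQn
  have huP : u ∈ comS W (A ⊔ PGV.cj x A) := by
    obtain ⟨v, _, rfl⟩ := hu
    exact mem_comS ((le_sup_left : A ≤ _) ha) v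
  obtain ⟨g, hg, rfl⟩ := hPl.trans huP hu0 hw hw0
  have hgQ : g ∈ Q ⊔ A := by
    refine (le_trans (sup_le (le_EG Q A) (cj_le_EG hx)) (h.EG_le A)) hg
  obtain ⟨r, hr, a', ha', rfl⟩ := Subgroup.mem_sup_of_normal_left.mp hgQ
  refine ⟨r, hr, ?_, ?_⟩
  · have : r = (r * a') * a'⁻¹ := by group
    rw [this]
    exact Subgroup.mul_mem _ hg (Subgroup.inv_mem _ ((le_sup_left : A ≤ _) ha'))
  · rw [mul_smul, hA.quad h ha ha1 ha' u hu]

theorem TG.exists_u {A : Subgroup X} (hA : TG p W A) {a : X} (ha : a ∈ A) (ha1 : a ≠ 1) : ∃ u ∈ rg W a, u ≠ 0 := by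
  have hrb : rg W a ≠ ⊥ := by
    intro h0
    have h1 := hA.card_rg ha ha1
    rw [h0, AddSubgroup.card_bot] at h1
    exact (Fact.out : p.Prime).one_lt.ne h1
  obtain ⟨⟨v, hv⟩, hv0'⟩ := AddSubgroup.ne_bot_iff_exists_ne_zero.mp hrb
  exact ⟨v, hv, fun h0 => hv0' (Subtype.ext h0)⟩

theorem cj_le_of_mem {A L : Subgroup X} (hAL : A ≤ L) {r : X} (hr : r ∈ L) : PGV.cj r A ≤ L := by
  intro y hy
  obtain ⟨a, ha, rfl⟩ := mem_cj.mp hy
  exact L.mul_mem (L.mul_mem hr (hAL ha)) (L.inv_mem hr)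

theorem TG.cj_le (h : FFS p W Q) {A : Subgroup X} (hA : TG p W A) {x : X} (hx : x ∈ Q) (hne : PGV.cj x A ≠ A) {y : X}
    (hy : y ∈ Q) : PGV.cj y A ≤ A ⊔ PGV.cj x A := by
  have hpp : p.Prime := Fact.out
  obtain ⟨ι, φ, hPl, -⟩ := h.exists_Pl hA hx hne
  obtain ⟨a, ha, ha1⟩ := hA.exists_ne
  obtain ⟨u, hu, hu0⟩ := hA.exists_u ha ha1
  have hC := hA.cj y
  set P := comS W (A ⊔ PGV.cj x A) with hP
  have hne0 : P ⊓ fixS W (PGV.cj y A) ≠ ⊥ := by
    intro h0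
    have h1 := card_mul_le_sup_add P (fixS W (PGV.cj y A))
    rw [h0, AddSubgroup.card_bot, mul_one, hPl.card_com] at h1
    have h2 : Nat.card ↥(P ⊔ fixS W (PGV.cj y A)) ≤ Nat.card W :=
      Nat.card_le_card_of_injective _ Subtype.val_injective
    have h3 : 0 < Nat.card ↥(fixS W (PGV.cj y A)) := Nat.card_pos
    have h4 := h1.trans h2
    rw [← hC.2] at h4
    have h5 := Nat.le_of_mul_le_mul_right h4 h3
    have h6 : p * p ≤ p * 1 := by rw [mul_one, ← pow_two]; exact h5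
    have h7 := Nat.le_of_mul_le_mul_left h6 hpp.pos
    exact absurd hpp.one_lt (by omega)
  obtain ⟨⟨w, hwP, hwC⟩, hw0⟩ := AddSubgroup.ne_bot_iff_exists_ne_zero.mp hne0
  have hw0' : w ≠ 0 := fun h0 => hw0 (Subtype.ext h0)
  obtain ⟨r, hrQ, hrL, hr⟩ := hA.exists_rep0 h hx hne ha ha1 hu hu0 hwP hw0'
  have hfix : ∀ b ∈ PGV.cj (r⁻¹ * y) A, b • u = u := by
    intro b hb
    rw [← cj_cj] at hb
    obtain ⟨c, hc, rfl⟩ := mem_cj.mp hb
    have h1 := hwC c hc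
    rw [hr] at h1
    rw [inv_inv, mul_smul, mul_smul, h1, inv_smul_smul]
  have heq : PGV.cj (r⁻¹ * y) A = A := by
    by_contra hne'
    have hB := hA.cj (r⁻¹ * y)
    obtain ⟨b, hb, hb1⟩ := hB.exists_ne
    exact hA.pair h (Q.mul_mem (Q.inv_mem hrQ) hy) hne' ha ha1 hb hb1 hu hu0 (hfix b hb)
  have h2 : PGV.cj y A = PGV.cj r A := by
    have := congrArg (PGV.cj r) heq
    rw [cj_cj, mul_inv_cancel_left] at this
    exact this
  rw [h2]
  exact cj_le_of_mem le_sup_left hrL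

theorem TG.EG_eq (h : FFS p W Q) {A : Subgroup X} (hA : TG p W A) {x : X} (hx : x ∈ Q) (hne : PGV.cj x A ≠ A) :
    EG Q A = A ⊔ PGV.cj x A := by
  apply le_antisymm
  · refine sup_le ?_ le_sup_left
    rw [Subgroup.commutator_le]
    intro y hy a ha
    rw [commutatorElement_def]
    exact Subgroup.mul_mem _ (hA.cj_le h hx hne hy (cj_mem y ha))
      (Subgroup.inv_mem _ ((le_sup_left : A ≤ _) ha))
  · exact sup_le (le_EG Q A) (cj_le_EG hx)

theorem TG.exists_plane (h : FFS p W Q) {A : Subgroup X} (hA : TG p W A) :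
    ∃ (ι : (Fin 2 → ZMod p) →+ W) (φ : ↥(EG Q A) ≃* SLp p), Pl p W (EG Q A) ι φ := by
  obtain ⟨x, hx, hne⟩ := hA.exists_move h
  rw [hA.EG_eq h hx hne]
  obtain ⟨ι, φ, hPl, -⟩ := h.exists_Pl hA hx hne
  exact ⟨ι, φ, hPl⟩

theorem TG.exists_rep (h : FFS p W Q) {A : Subgroup X} (hA : TG p W A)
    {a : X} (ha : a ∈ A) (ha1 : a ≠ 1) {u : W} (hu : u ∈ rg W a) (hu0 : u ≠ 0) {w : W}
    (hw : w ∈ comS W (EG Q A)) (hw0 : w ≠ 0) : ∃ r ∈ Q, r ∈ EG Q A ∧ w = r • u := by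
  obtain ⟨x, hx, hne⟩ := hA.exists_move h
  rw [hA.EG_eq h hx hne] at hw ⊢
  exact hA.exists_rep0 h hx hne ha ha1 hu hu0 hw hw0

theorem cj_EG (h : FFS p W Q) (A : Subgroup X) (y : X) : PGV.cj y (EG Q A) = EG Q (PGV.cj y A) := by
  have hQn := h.hQn
  have hQ : Q.map (MulAut.conj y).toMonoidHom = Q := by
    ext z
    rw [Subgroup.mem_map]
    constructor
    · rintro ⟨w, hw, rfl⟩
      exact hQn.conj_mem w hw y
    · intro hz
      refine ⟨y⁻¹ * z * y, ?_, ?_⟩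
      · have := hQn.conj_mem z hz y⁻¹
        rwa [inv_inv] at this
      · show y * (y⁻¹ * z * y) * y⁻¹ = z
        group
  unfold PGV.cj EG
  rw [Subgroup.map_sup, Subgroup.map_commutator, hQ]

theorem TG.cj_EG_le (h : FFS p W Q) {A : Subgroup X} (hA : TG p W A) {y : X} (hy : y ∈ Q) :
    PGV.cj y (EG Q A) ≤ EG Q A := by
  obtain ⟨x, hx, hne⟩ := hA.exists_move h
  have h1 := hA.EG_eq h hx hne
  have h2 : PGV.cj y (EG Q A) = PGV.cj y A ⊔ PGV.cj (y * x) A := by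
    rw [h1, ← cj_cj]
    exact Subgroup.map_sup _ _ _
  rw [h2]
  exact sup_le (cj_le_EG hy) (cj_le_EG (Q.mul_mem hy hx))

theorem eq_of_cj_le {E : Subgroup X} {y : X} (h1 : PGV.cj y E ≤ E) : PGV.cj y E = E :=
  Subgroup.eq_of_le_of_card_ge h1 (by rw [card_cj])

theorem TG.cj_EG_eq (h : FFS p W Q) {A : Subgroup X} (hA : TG p W A) {y : X} (hy : y ∈ Q) :
    PGV.cj y (EG Q A) = EG Q A := eq_of_cj_le (hA.cj_EG_le h hy)

theorem TG.EG_cj (h : FFS p W Q) {A : Subgroup X} (hA : TG p W A) {y : X} (hy : y ∈ Q) :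
    EG Q (PGV.cj y A) = EG Q A := by
  rw [← h.cj_EG, hA.cj_EG_eq h hy]

theorem smul_comS {E : Subgroup X} {y : X} (hE : PGV.cj y E = E) {w : W} (hw : w ∈ comS W E) : y • w ∈ comS W E := by
  have h1 : comS W E ≤ (comS W E).comap (DistribSMul.toAddMonoidHom W y) := by
    rw [comS_le]
    intro x hx v
    show y • (x • v - v) ∈ comS W E
    have e : y • (x • v - v) = (y * x * y⁻¹) • (y • v) - y • v := by
      rw [smul_sub, mul_smul, mul_smul, inv_smul_smul]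
    rw [e]
    apply mem_comS
    rw [← hE]
    exact cj_mem y hx
  exact h1 hw

theorem TG.smul_plane (h : FFS p W Q) {A : Subgroup X} (hA : TG p W A) {y : X} (hy : y ∈ Q) {w : W}
    (hw : w ∈ comS W (EG Q A)) : y • w ∈ comS W (EG Q A) := smul_comS (hA.cj_EG_eq h hy) hw

end FFS

end Cfsg.Agent.H19.FF
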