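import Cfsg.Agent.H19.FF4

set_option autoImplicit false
set_option linter.style.haveILetI false
set_option linter.unusedVariables false
set_option linter.unusedSectionVars false

/-! Failure of factorization, part 5: two planes. -/

namespace Cfsg.Agent.H19.FF

open Cfsg Cfsg.Agent.H19.PGV
open scoped commutatorElement

variable {X W : Type*} [Group X] [AddCommGroup W] [DistribMulAction X W]

/-- stabilizer of the series `0 ≤ P ≤ W` -/
def stabP (P : AddSubgroup W) : Subgroup X where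
  carrier := {z | (∀ u ∈ P, z • u = u) ∧ ∀ w, z • w - w ∈ P}
  mul_mem' := by
    rintro a b ⟨ha, ha'⟩ ⟨hb, hb'⟩
    refine ⟨fun u hu => by rw [mul_smul, hb u hu, ha u hu], fun w => ?_⟩
    have : (a * b) • w - w = (a • (b • w) - b • w) + (b • w - w) := by rw [mul_smul]; abel
    rw [this]
    exact P.add_mem (ha' _) (hb' _)
  one_mem' := ⟨fun u _ => one_smul X u, fun w => by rw [one_smul, sub_self]; exact P.zero_mem⟩
  inv_mem' := by
    rintro a ⟨ha, ha'⟩
    refine ⟨fun u hu => by rw [inv_smul_eq_iff, ha u hu], fun w => ?_⟩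
    have : a⁻¹ • w - w = -(a • (a⁻¹ • w) - a⁻¹ • w) := by rw [smul_inv_smul]; abel
    rw [this]
    exact P.neg_mem (ha' _)

namespace FFS

variable {p : ℕ} [Fact p.Prime] {Q : Subgroup X} [Finite X] [Finite W]

theorem stabP_pow (h : FFS p W Q) {P : AddSubgroup W} {z : X} (hz : z ∈ stabP (X := X) P) : z ^ p = 1 := by
  apply h.hf
  intro w
  have h1 : ∀ k : ℕ, z ^ k • w = w + k • (z • w - w) := by
    intro k
    induction k with
    | zero => simp
    | succ k ih =>
      have e : z • (k • (z • w - w)) = k • (z • w - w) := hz.1 _ (P.nsmul_mem (hz.2 w) k)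
      rw [pow_succ', mul_smul, ih, smul_add, e, succ_nsmul]
      abel
  rw [h1, h.hpW, add_zero]

theorem stabP_inf (h : FFS p W Q) {P : AddSubgroup W} {z : X} (hz : z ∈ stabP (X := X) P) (hzQ : z ∈ Q) : z = 1 := by
  have h3 := Nat.dvd_gcd (orderOf_dvd_of_pow_eq_one (pow_card_mem hzQ)) (orderOf_dvd_of_pow_eq_one (h.stabP_pow hz))
  rw [h.hQp] at h3
  exact orderOf_eq_one_iff.mp (Nat.dvd_one.mp h3)

theorem triv_of_plane (h : FFS p W Q) {P : AddSubgroup W} (hP : ∀ y ∈ Q, ∀ w ∈ P, y • w ∈ P) {z : X}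
    (hz1 : ∀ u ∈ P, z • u = u) (hz2 : ∀ w, z • w - w ∈ P) : z = 1 := by
  have hz : z ∈ stabP (X := X) P := ⟨hz1, hz2⟩
  have hQn := h.hQn
  apply h.stabP_inf hz
  apply h.hQc
  rw [Subgroup.mem_centralizer_iff]
  intro y hy
  have h1 : y * z * y⁻¹ ∈ stabP (X := X) P := by
    refine ⟨fun u hu => ?_, fun w => ?_⟩
    · rw [mul_smul, mul_smul, hz1 _ (hP _ (Q.inv_mem hy) u hu), smul_inv_smul]
    · have : (y * z * y⁻¹) • w - w = y • (z • (y⁻¹ • w) - y⁻¹ • w) := by
        rw [mul_smul, mul_smul, smul_sub, smul_inv_smul]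
      rw [this]
      exact hP y hy _ (hz2 _)
  have h2 : y * z * y⁻¹ * z⁻¹ ∈ stabP (X := X) P := Subgroup.mul_mem _ h1 (Subgroup.inv_mem _ hz)
  have h3 : y * z * y⁻¹ * z⁻¹ ∈ Q := by
    have : y * z * y⁻¹ * z⁻¹ = y * (z * y⁻¹ * z⁻¹) := by group
    rw [this]
    exact Q.mul_mem hy (hQn.conj_mem _ (Q.inv_mem hy) z)
  have h4 := h.stabP_inf h2 h3
  rw [mul_inv_eq_one, mul_inv_eq_iff_eq_mul] at h4
  exact h4

/-- range of a conjugate -/
theorem smul_mem_rg_cj {a r : X} {u : W} (hu : u ∈ rg W a) : r • u ∈ rg W (r * a * r⁻¹) := by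
  obtain ⟨v, _, rfl⟩ := hu
  have : r • (dl W a v) = (r * a * r⁻¹) • (r • v) - r • v := by
    rw [dl_apply, smul_sub, mul_smul, mul_smul, inv_smul_smul]
  rw [this]
  exact mem_rg _ _

theorem TG.mem_plane {A : Subgroup X} {a : X} (ha : a ∈ A) : rg W a ≤ comS W (EG Q A) := by
  rintro _ ⟨v, _, rfl⟩
  exact mem_comS (le_EG Q A ha) v

theorem TG.eq_cj_of_rg (h : FFS p W Q) {A B : Subgroup X} (hA : TG p W A) (hB : TG p W B) {b : X} (hb : b ∈ B)
    (hb1 : b ≠ 1) (hle : rg W b ≤ comS W (EG Q A)) : ∃ r ∈ Q, r ∈ EG Q A ∧ B = PGV.cj r A := by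
  have hpp : p.Prime := Fact.out
  obtain ⟨ι, φ, hPl⟩ := hA.exists_plane h
  obtain ⟨a, ha, ha1⟩ := hA.exists_ne
  obtain ⟨u₀, hu₀, hu₀0⟩ := hA.exists_u ha ha1
  obtain ⟨u, hu, hu0⟩ := hB.exists_u hb hb1
  obtain ⟨r, hrQ, hrE, hr⟩ := hA.exists_rep h ha ha1 hu₀ hu₀0 (hle hu) hu0
  refine ⟨r, hrQ, hrE, ?_⟩
  set a' := r * a * r⁻¹ with ha'
  have hA' := hA.cj r
  have ha'm : a' ∈ PGV.cj r A := cj_mem r ha
  have ha'1 : a' ≠ 1 := by
    intro h0
    apply ha1
    rw [ha', mul_inv_eq_one] at h0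
    simpa using h0
  have hua' : u ∈ rg W a' := by rw [hr]; exact smul_mem_rg_cj hu₀
  have hPinv : ∀ y ∈ Q, ∀ w ∈ comS W (EG Q A), y • w ∈ comS W (EG Q A) := fun y hy w hw => hA.smul_plane h hy hw
  have hEinv : a' ∈ EG Q A := cj_le_EG hrQ ha'm
  have ha'u : a' • u = u := hA'.quad h ha'm ha'1 ha'm u hua'
  have hbu : b • u = u := hB.quad h hb hb1 hb u hu
  have hrga' : rg W a' ≤ comS W (EG Q A) := by
    rintro _ ⟨v, _, rfl⟩
    exact mem_comS hEinv v
  -- key: something fixing u and a vector w outside ⟨u⟩ in the plane is trivial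
  obtain ⟨w, hwP, hwu⟩ : ∃ w ∈ comS W (EG Q A), w ∉ rg W a' := by
    by_contra hcon
    push Not at hcon
    have h1 : Nat.card (comS W (EG Q A)) ≤ Nat.card (rg W a') := card_le_of_le hcon
    rw [hPl.card_com, hA'.card_rg ha'm ha'1] at h1
    have h6 : p * p ≤ p * 1 := by rw [mul_one, ← pow_two]; exact h1
    have h7 := Nat.le_of_mul_le_mul_left h6 hpp.pos
    exact absurd hpp.one_lt (by omega)
  have key : ∀ z : X, z • u = u → z • w = w → (∀ v : W, z • v - v ∈ comS W (EG Q A)) → z = 1 := by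
    intro z hzu hzw hzv
    refine h.triv_of_plane hPinv ?_ hzv
    have h1 : rg W a' ≤ fixE W z ⊓ comS W (EG Q A) := by
      have h2 := eq_of_mem_card_prime (hA'.card_rg ha'm ha'1) hua' (U' := fixE W z ⊓ comS W (EG Q A))
        ⟨hzu, hle hu⟩ hu0
      exact h2
    have h2 : Nat.card ↥(fixE W z ⊓ comS W (EG Q A)) ∣ p ^ 2 := by
      rw [← hPl.card_com]
      exact AddSubgroup.card_dvd_of_le inf_le_right
    obtain ⟨k, hk, hk'⟩ := (Nat.dvd_prime_pow hpp).mp h2
    have h3 : rg W a' ≠ fixE W z ⊓ comS W (EG Q A) := by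
      intro heq
      apply hwu
      rw [heq]
      exact ⟨hzw, hwP⟩
    have h4 : Nat.card (rg W a') < Nat.card ↥(fixE W z ⊓ comS W (EG Q A)) := by
      refine lt_of_le_of_ne (card_le_of_le h1) ?_
      intro heq
      exact h3 (AddSubgroup.eq_of_le_of_card_ge h1 heq.ge)
    rw [hA'.card_rg ha'm ha'1, hk'] at h4
    have h5 : k = 2 := by
      by_contra hk2
      have : k ≤ 1 := by omega
      have h6 : p ^ k ≤ p ^ 1 := Nat.pow_le_pow_right hpp.pos this
      rw [pow_one] at h6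
      omega
    rw [h5, ← hPl.card_com] at hk'
    have h6 := AddSubgroup.eq_of_le_of_card_ge (inf_le_right : fixE W z ⊓ comS W (EG Q A) ≤ _) hk'.ge
    intro v hv
    rw [← h6] at hv
    exact hv.1
  obtain ⟨i, hi⟩ := exists_nsmul h.hpW (hA'.card_rg ha'm ha'1) hua' hu0 (a' • w - w) (mem_rg a' w)
  obtain ⟨j, hj⟩ := exists_nsmul h.hpW (hB.card_rg hb hb1) hu hu0 (b • w - w) (mem_rg b w)
  have hip : Nat.Coprime i p := by
    rw [Nat.coprime_comm, Nat.Prime.coprime_iff_not_dvd hpp]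
    rintro ⟨k, hk⟩
    apply ha'1
    refine key a' ha'u ?_ (fun v => hrga' (mem_rg a' v))
    rw [hk, mul_comm, mul_nsmul, h.hpW] at hi
    exact sub_eq_zero.mp hi
  obtain ⟨m, -, hm⟩ := Nat.exists_mul_mod_eq_one_of_coprime hip hpp.one_lt
  have haw : ∀ k : ℕ, a' ^ k • w = w + (k * i) • u := by
    intro k
    induction k with
    | zero => simp
    | succ k ih =>
      have e1 : a' • w = w + i • u := by rw [← hi]; abel
      have e2 : a' • ((k * i) • u) = (k * i) • u := by rw [smul_comm a' (k * i), ha'u]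
      rw [pow_succ', mul_smul, ih, smul_add, e1, e2, Nat.succ_mul, add_nsmul]
      abel
  have hau : ∀ k : ℕ, a' ^ k • u = u := by
    intro k
    induction k with
    | zero => simp
    | succ k ih => rw [pow_succ, mul_smul, ha'u, ih]
  have hmw : a' ^ (m * j) • w = b • w := by
    rw [haw]
    have e1 : b • w = w + j • u := by rw [← hj]; abel
    rw [e1]
    congr 1
    have h3 := Nat.div_add_mod (i * m) p
    rw [hm] at h3
    have : m * j * i = (i * m) * j := by ring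
    rw [this, ← h3, add_mul, one_mul, add_nsmul, mul_assoc, mul_comm p, mul_nsmul]
    have h4 : (i * m / p * j) • p • u = 0 := by rw [h.hpW, smul_zero]
    have h5 : p • ((i * m / p * j) • u) = 0 := h.hpW _
    first
      | rw [h4, zero_add]
      | rw [h5, zero_add]
  have hz : (a' ^ (m * j))⁻¹ * b = 1 := by
    apply key
    · rw [mul_smul, hbu, inv_smul_eq_iff, hau]
    · rw [mul_smul, inv_smul_eq_iff, hmw]
    · intro v
      have e : ((a' ^ (m * j))⁻¹ * b) • v - v = (a' ^ (m * j))⁻¹ • (b • v - v) + ((a' ^ (m * j))⁻¹ • v - v) := by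
        rw [mul_smul, smul_sub]; abel
      rw [e]
      refine AddSubgroup.add_mem _ ?_ ?_
      · have : (a' ^ (m * j))⁻¹ ∈ EG Q A := Subgroup.inv_mem _ (Subgroup.pow_mem _ hEinv _)
        exact hPl.smul_com this (hle (mem_rg b v))
      · exact mem_comS (Subgroup.inv_mem _ (Subgroup.pow_mem _ hEinv _)) v
  have hb' : b ∈ PGV.cj r A := by
    rw [inv_mul_eq_one] at hz
    rw [← hz]
    exact Subgroup.pow_mem _ ha'm _
  have hBle : B ≤ PGV.cj r A := by
    rw [← hB.zpowers hb hb1, Subgroup.zpowers_le]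
    exact hb'
  exact Subgroup.eq_of_le_of_card_ge hBle (by rw [hA'.1, hB.1])

end FFS

end Cfsg.Agent.H19.FF
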