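import Cfsg.Agent.H19.FF5

set_option autoImplicit false
set_option linter.style.haveILetI false
set_option linter.unusedVariables false
set_option linter.unusedSectionVars false

/-! Failure of factorization, part 6: the direct product structure (module form). -/

namespace Cfsg.Agent.H19.FF

open Cfsg Cfsg.Agent.H19.PGV
open scoped commutatorElement

variable {X W : Type*} [Group X] [AddCommGroup W] [DistribMulAction X W]

namespace FFS

variable {p : ℕ} [Fact p.Prime] {Q : Subgroup X} [Finite X] [Finite W]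

/-- `Q ∩ E_A` and `E_A` have the same fixed points -/
theorem TG.fix_of_QE (h : FFS p W Q) {A : Subgroup X} (hA : TG p W A) {w : W}
    (hw : ∀ q ∈ Q, q ∈ EG Q A → q • w = w) : w ∈ fixS W (EG Q A) := by
  have hpp : p.Prime := Fact.out
  obtain ⟨ι, φ, hPl⟩ := hA.exists_plane h
  obtain ⟨a, ha, ha1⟩ := hA.exists_ne
  obtain ⟨u₀, hu₀, hu₀0⟩ := hA.exists_u ha ha1
  obtain ⟨u, hu, c, hc, rfl⟩ := hPl.decomp w
  have hu' : ∀ q ∈ Q, q ∈ EG Q A → q • u = u := by
    intro q hq hqE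
    have h1 := hw q hq hqE
    rw [smul_add, hc q hqE] at h1
    exact add_right_cancel h1
  by_cases hu0 : u = 0
  · rw [hu0, zero_add]; exact hc
  · exfalso
    obtain ⟨r, hr, hrE, hru⟩ := hA.exists_rep h ha ha1 hu₀ hu₀0 hu hu0
    have hall : ∀ v ∈ comS W (EG Q A), v ≠ 0 → v = u := by
      intro v hv hv0
      obtain ⟨s, hs, hsE, hsv⟩ := hA.exists_rep h ha ha1 hu₀ hu₀0 hv hv0
      have h1 := hu' (s * r⁻¹) (Q.mul_mem hs (Q.inv_mem hr)) (Subgroup.mul_mem _ hsE (Subgroup.inv_mem _ hrE))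
      rw [mul_smul] at h1
      have h2 : r⁻¹ • u = u₀ := by rw [hru, inv_smul_smul]
      rw [h2, ← hsv] at h1
      exact h1
    have h3 : Nat.card (comS W (EG Q A)) ≤ 2 := by
      classical
      have hinj : Function.Injective (fun v : comS W (EG Q A) => (if v.1 = 0 then (0 : Fin 2) else 1)) := by
        intro v v' hvv
        by_cases h1 : v.1 = 0
        · by_cases h2 : v'.1 = 0
          · exact Subtype.ext (h1.trans h2.symm)
          · simp [h1, h2] at hvv
        · by_cases h2 : v'.1 = 0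
          · simp [h1, h2] at hvv
          · exact Subtype.ext ((hall v.1 v.2 h1).trans (hall v'.1 v'.2 h2).symm)
      have := Nat.card_le_card_of_injective _ hinj
      rwa [Nat.card_eq_fintype_card (α := Fin 2), Fintype.card_fin] at this
    rw [hPl.card_com] at h3
    have : 2 * 2 ≤ p * p := Nat.mul_le_mul hpp.two_le hpp.two_le
    rw [pow_two] at h3
    omega

/-- the dichotomy -/
theorem TG.dich (h : FFS p W Q) {A B : Subgroup X} (hA : TG p W A) (hB : TG p W B) :
    (∃ r ∈ Q, r ∈ EG Q A ∧ B = PGV.cj r A) ∨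
      ((∀ g ∈ EG Q A, ∀ w ∈ comS W (EG Q B), g • w = w) ∧ (∀ g ∈ EG Q B, ∀ w ∈ comS W (EG Q A), g • w = w) ∧
        comS W (EG Q A) ⊓ comS W (EG Q B) = ⊥) := by
  by_cases hbot : comS W (EG Q A) ⊓ comS W (EG Q B) = ⊥
  · right
    have key : ∀ {A B : Subgroup X}, TG p W A → TG p W B → comS W (EG Q A) ⊓ comS W (EG Q B) = ⊥ →
        ∀ g ∈ EG Q A, ∀ w ∈ comS W (EG Q B), g • w = w := by
      intro A B hA hB hbot g hg w hw
      refine hA.fix_of_QE h ?_ g hg
      intro q hq hqE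
      have h1 : q • w - w ∈ comS W (EG Q A) := mem_comS hqE w
      have h2 : q • w - w ∈ comS W (EG Q B) := AddSubgroup.sub_mem _ (hB.smul_plane h hq hw) hw
      have h3 : q • w - w ∈ comS W (EG Q A) ⊓ comS W (EG Q B) := ⟨h1, h2⟩
      rw [hbot, AddSubgroup.mem_bot] at h3
      exact sub_eq_zero.mp h3
    exact ⟨key hA hB hbot, key hB hA (by rw [inf_comm]; exact hbot), hbot⟩
  · left
    obtain ⟨⟨w, hwA, hwB⟩, hw0⟩ := AddSubgroup.ne_bot_iff_exists_ne_zero.mp hbot
    have hw0' : w ≠ 0 := fun h0 => hw0 (Subtype.ext h0)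
    obtain ⟨b, hb, hb1⟩ := hB.exists_ne
    obtain ⟨u, hu, hu0⟩ := hB.exists_u hb hb1
    obtain ⟨r, hr, hrE, hrw⟩ := hB.exists_rep h hb hb1 hu hu0 hwB hw0'
    refine hA.eq_cj_of_rg h hB hb hb1 ?_
    have huA : u ∈ comS W (EG Q A) := by
      have : u = r⁻¹ • w := by rw [hrw, inv_smul_smul]
      rw [this]
      exact hA.smul_plane h (Q.inv_mem hr) hwA
    exact eq_of_mem_card_prime (hB.card_rg hb hb1) hu huA hu0

theorem comm_of_triv (h : FFS p W Q) {E F : Subgroup X} (h1 : ∀ g ∈ E, ∀ w ∈ comS W F, g • w = w)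
    (h2 : ∀ g ∈ F, ∀ w ∈ comS W E, g • w = w) : ∀ g ∈ E, ∀ f ∈ F, g * f = f * g := by
  intro g hg f hf
  have : (f * g)⁻¹ * (g * f) = 1 := by
    apply h.hf
    intro w
    rw [mul_smul, inv_smul_eq_iff, mul_smul, mul_smul]
    have e1 : g • (f • w) = g • w + (f • w - w) := by
      have : g • (f • w - w) = f • w - w := h1 g hg _ (mem_comS hf w)
      rw [smul_sub] at this
      rw [← this]; abel
    have e2 : f • (g • w) = f • w + (g • w - w) := by
      have : f • (g • w - w) = g • w - w := h2 f hf _ (mem_comS hg w)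
      rw [smul_sub] at this
      rw [← this]; abel
    rw [e1, e2]; abel
  rw [inv_mul_eq_one] at this
  exact this.symm

/-- `X` normalizes `E_A` -/
theorem TG.norm (h : FFS p W Q) (hgen : sSup {B : Subgroup X | TG p W B} = ⊤) {A : Subgroup X} (hA : TG p W A) (x : X) :
    PGV.cj x (EG Q A) = EG Q A := by
  have h1 : sSup {B : Subgroup X | TG p W B} ≤ Subgroup.normalizer (EG Q A : Set X) := by
    refine sSup_le ?_
    intro B hB
    rcases hA.dich h hB with ⟨r, hr, hrE, rfl⟩ | ⟨h1, h2, -⟩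
    · exact (cj_le_of_mem (le_EG Q A) hrE).trans Subgroup.le_normalizer
    · have h3 := h.comm_of_triv h1 h2
      intro b hb
      rw [Subgroup.mem_normalizer_iff]
      have hbE := le_EG Q B hb
      intro y
      constructor
      · intro hy
        have := h3 y hy b hbE
        rw [← this, mul_inv_cancel_right]; exact hy
      · intro hy
        have := h3 _ hy b hbE
        have e : b * y * b⁻¹ = y := by
          have e1 : b⁻¹ * (b * y * b⁻¹) * b = b * y * b⁻¹ := by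
            rw [mul_assoc, this, inv_mul_cancel_left]
          have e2 : b⁻¹ * (b * y * b⁻¹) * b = y := by group
          rw [← e1, e2]
        rw [e] at hy
        exact hy
  apply eq_of_cj_le
  intro y hy
  obtain ⟨z, hz, rfl⟩ := mem_cj.mp hy
  have hx : x ∈ Subgroup.normalizer (EG Q A : Set X) := h1 (by rw [hgen]; trivial)
  exact (Subgroup.mem_normalizer_iff.mp hx z).mp hz

/-- the centralizer of the plane -/
def CP (Q A : Subgroup X) (W : Type*) [AddCommGroup W] [DistribMulAction X W] : Subgroup X :=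
  fixer (⊤ : Subgroup X) (fun w : W => w ∈ comS W (EG Q A))

theorem mem_CP {A : Subgroup X} {x : X} : x ∈ CP Q A W ↔ ∀ w ∈ comS W (EG Q A), x • w = w :=
  ⟨fun hx w hw => hx.2 w hw, fun hx => ⟨trivial, fun w hw => hx w hw⟩⟩

theorem TG.inf_CP (h : FFS p W Q) {A : Subgroup X} (hA : TG p W A) : EG Q A ⊓ CP Q A W = ⊥ := by
  obtain ⟨ι, φ, hPl⟩ := hA.exists_plane h
  rw [eq_bot_iff]
  rintro g ⟨hg, hgC⟩
  exact Subgroup.mem_bot.mpr (hPl.faithful h.hf hg (mem_CP.mp hgC))

theorem TG.comm_CP (h : FFS p W Q) (hgen : sSup {B : Subgroup X | TG p W B} = ⊤) {A : Subgroup X} (hA : TG p W A) :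
    ∀ g ∈ EG Q A, ∀ c ∈ CP Q A W, g * c = c * g := by
  intro g hg c hc
  have hc' := mem_CP.mp hc
  have hinv : ∀ x : X, ∀ w ∈ comS W (EG Q A), x • w ∈ comS W (EG Q A) := fun x w hw => smul_comS (hA.norm h hgen x) hw
  have h1 : g * c * g⁻¹ * c⁻¹ ∈ EG Q A := by
    have : g * c * g⁻¹ * c⁻¹ = g * (c * g⁻¹ * c⁻¹) := by group
    rw [this]
    refine Subgroup.mul_mem _ hg ?_
    have h2 := cj_mem c (Subgroup.inv_mem _ hg)
    rw [hA.norm h hgen c] at h2
    exact h2
  have h2 : g * c * g⁻¹ * c⁻¹ ∈ CP Q A W := by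
    rw [mem_CP]
    intro w hw
    have e1 : c⁻¹ • w = w := smul_inv_of_fix (hc' w hw)
    rw [mul_smul, e1, mul_smul, mul_smul, hc' _ (hinv g⁻¹ w hw), smul_inv_smul]
  have h3 : g * c * g⁻¹ * c⁻¹ ∈ EG Q A ⊓ CP Q A W := ⟨h1, h2⟩
  rw [hA.inf_CP h, Subgroup.mem_bot, mul_inv_eq_one, mul_inv_eq_iff_eq_mul] at h3
  exact h3

theorem TG.sup_CP (h : FFS p W Q) (hgen : sSup {B : Subgroup X | TG p W B} = ⊤) {A : Subgroup X} (hA : TG p W A) :
    EG Q A ⊔ CP Q A W = ⊤ := by
  rw [eq_top_iff, ← hgen]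
  refine sSup_le ?_
  intro B hB
  rcases hA.dich h hB with ⟨r, hr, hrE, rfl⟩ | ⟨h1, h2, -⟩
  · exact (cj_le_of_mem (le_EG Q A) hrE).trans le_sup_left
  · refine le_trans ?_ le_sup_right
    intro b hb
    rw [mem_CP]
    exact h2 b (le_EG Q B hb)

theorem TG.com_CP (h : FFS p W Q) (hgen : sSup {B : Subgroup X | TG p W B} = ⊤) {A : Subgroup X} (hA : TG p W A) :
    comS W (CP Q A W) ≤ fixS W (EG Q A) := by
  obtain ⟨ι, φ, hPl⟩ := hA.exists_plane h
  rw [comS_le]
  intro c hc w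
  obtain ⟨u, hu, v, hv, rfl⟩ := hPl.decomp w
  have e : c • (u + v) - (u + v) = c • v - v := by rw [smul_add, mem_CP.mp hc u hu]; abel
  rw [e]
  refine AddSubgroup.sub_mem _ ?_ hv
  intro g hg
  rw [← mul_smul, hA.comm_CP h hgen g hg c hc, mul_smul, hv g hg]

/-- for `EG Q A ≠ EG Q B`, `E_B` centralizes the plane of `A` -/
theorem TG.le_CP (h : FFS p W Q) {A B : Subgroup X} (hA : TG p W A) (hB : TG p W B) (hne : EG Q B ≠ EG Q A) :
    EG Q B ≤ CP Q A W := by
  rcases hA.dich h hB with ⟨r, hr, hrE, rfl⟩ | ⟨h1, h2, -⟩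
  · exact absurd (hA.EG_cj h hr) hne
  · intro b hb
    rw [mem_CP]
    exact h2 b hb

theorem TG.plane_le_fix (h : FFS p W Q) {A B : Subgroup X} (hA : TG p W A) (hB : TG p W B) (hne : EG Q B ≠ EG Q A) :
    comS W (EG Q B) ≤ fixS W (EG Q A) := by
  intro w hw g hg
  exact mem_CP.mp (hB.le_CP h hA hne.symm hg) w hw

/-- indexing set -/
def ES (p : ℕ) (W : Type*) [AddCommGroup W] [DistribMulAction X W] (Q : Subgroup X) : Set (Subgroup X) :=
  {E | ∃ A : Subgroup X, TG p W A ∧ E = EG Q A}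

theorem sSup_ES (hgen : sSup {B : Subgroup X | TG p W B} = ⊤) : sSup (ES p W Q) = ⊤ := by
  rw [eq_top_iff, ← hgen]
  refine sSup_le ?_
  intro B hB
  exact (le_EG Q B).trans (le_sSup ⟨B, hB, rfl⟩)

theorem indep_ES (h : FFS p W Q) : sSupIndep (ES p W Q) := by
  rintro E ⟨A, hA, rfl⟩
  rw [disjoint_iff, eq_bot_iff, ← hA.inf_CP h]
  refine inf_le_inf_left _ (sSup_le ?_)
  rintro F ⟨⟨B, hB, rfl⟩, hne⟩
  exact hA.le_CP h hB hne

/-- fixed points of `X` are those of `Q` -/
theorem fix_Q (h : FFS p W Q) (hgen : sSup {B : Subgroup X | TG p W B} = ⊤) : fixS W Q ≤ fixS W (⊤ : Subgroup X) := by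
  intro w hw x _
  have h1 : sSup {B : Subgroup X | TG p W B} ≤ fixer (⊤ : Subgroup X) (fun v : W => v = w) := by
    refine sSup_le ?_
    intro B hB b hb
    refine ⟨trivial, ?_⟩
    rintro v rfl
    exact hB.fix_of_QE h (fun q hq _ => hw q hq) b (le_EG Q B hb)
  rw [hgen] at h1
  exact (h1 (Subgroup.mem_top x)).2 w rfl

theorem plane_of_gen {S : Set (Subgroup X)} {U : AddSubgroup W} (hU : ∀ B ∈ S, comS W B ≤ U) : comS W (sSup S) ≤ U := by
  let T : Subgroup X :=
    { carrier := {z | ∀ w : W, z • w - w ∈ U}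
      mul_mem' := by
        intro a b ha hb w
        have : (a * b) • w - w = (a • (b • w) - b • w) + (b • w - w) := by rw [mul_smul]; abel
        rw [this]
        exact U.add_mem (ha _) (hb _)
      one_mem' := by
        intro w
        rw [one_smul, sub_self]
        exact U.zero_mem
      inv_mem' := by
        intro a ha w
        have : a⁻¹ • w - w = -(a • (a⁻¹ • w) - a⁻¹ • w) := by rw [smul_inv_smul]; abel
        rw [this]
        exact U.neg_mem (ha _) }
  have h1 : sSup S ≤ T := sSup_le (fun B hB b hb w => hU B hB (mem_comS hb w))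
  rw [comS_le]
  exact fun x hx w => h1 hx w

/-- the norm map of `Q` -/
noncomputable def nm [Fintype Q] : W →+ W where
  toFun w := ∑ q : Q, (q : X) • w
  map_zero' := by simp
  map_add' a b := by simp [Finset.sum_add_distrib]

theorem nm_fix [Fintype Q] (w : W) : nm (Q := Q) w ∈ fixS W Q := by
  intro q hq
  show q • ∑ r : Q, (r : X) • w = ∑ r : Q, (r : X) • w
  rw [Finset.smul_sum]
  refine Fintype.sum_equiv (Equiv.mulLeft (⟨q, hq⟩ : Q)) _ _ ?_
  intro r
  rw [← mul_smul]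
  rfl

theorem nm_of_fix [Fintype Q] {w : W} (hw : w ∈ fixS W Q) : nm (Q := Q) w = Nat.card Q • w := by
  show ∑ r : Q, (r : X) • w = _
  rw [Finset.sum_congr rfl (fun (r : Q) _ => hw (r : X) r.2), Finset.sum_const, Finset.card_univ,
    Nat.card_eq_fintype_card]

/-- no fixed vector in the sum of the planes -/
theorem fix_inf (h : FFS p W Q) (hgen : sSup {B : Subgroup X | TG p W B} = ⊤) {w : W} (hw : w ∈ fixS W (⊤ : Subgroup X))
    (hw' : w ∈ ⨆ E ∈ ES p W Q, comS W E) : w = 0 := by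
  classical
  haveI : Fintype Q := Fintype.ofFinite Q
  have h1 : (⨆ E ∈ ES p W Q, comS W E) ≤ (nm (Q := Q) (W := W)).ker := by
    refine iSup₂_le ?_
    rintro E ⟨A, hA, rfl⟩ u hu
    obtain ⟨ι, φ, hPl⟩ := hA.exists_plane h
    rw [AddMonoidHom.mem_ker]
    have h2 : nm (Q := Q) u ∈ comS W (EG Q A) := AddSubgroup.sum_mem _ (fun q _ => hA.smul_plane h q.2 hu)
    have h3 : nm (Q := Q) u ∈ fixS W (EG Q A) := hA.fix_of_QE h (fun q hq _ => nm_fix u q hq)
    have h4 : nm (Q := Q) u ∈ comS W (EG Q A) ⊓ fixS W (EG Q A) := ⟨h2, h3⟩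
    rw [hPl.inf_bot, AddSubgroup.mem_bot] at h4
    exact h4
  have h2 : nm (Q := Q) w = 0 := h1 hw'
  rw [nm_of_fix (fun q hq => hw q trivial)] at h2
  exact cop_zero h.hQp (h.hpW w) h2

/-- `W` is the sum of the fixed points and the planes -/
theorem fix_sup (h : FFS p W Q) (hgen : sSup {B : Subgroup X | TG p W B} = ⊤) :
    fixS W (⊤ : Subgroup X) ⊔ ⨆ E ∈ ES p W Q, comS W E = ⊤ := by
  classical
  haveI : Fintype Q := Fintype.ofFinite Q
  have hcom : ∀ x : X, ∀ w : W, x • w - w ∈ ⨆ E ∈ ES p W Q, comS W E := by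
    intro x w
    have h1 : comS W (sSup (ES p W Q)) ≤ ⨆ E ∈ ES p W Q, comS W E :=
      plane_of_gen (fun B hB => le_iSup₂_of_le B hB le_rfl)
    rw [sSup_ES hgen] at h1
    exact h1 (mem_comS (Subgroup.mem_top x) w)
  rw [eq_top_iff]
  intro w _
  have hp1 : 1 < p := (Fact.out : p.Prime).one_lt
  obtain ⟨m, -, hm⟩ := Nat.exists_mul_mod_eq_one_of_coprime h.hQp hp1
  have e1 : (Nat.card Q * m) • w = w := by
    have h3 := Nat.div_add_mod (Nat.card Q * m) p
    rw [hm] at h3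
    rw [← h3, add_nsmul, one_nsmul, mul_comm p, mul_nsmul, h.hpW]
    simp
  have e2 : Nat.card Q • w ∈ fixS W (⊤ : Subgroup X) ⊔ ⨆ E ∈ ES p W Q, comS W E := by
    have e3 : Nat.card Q • w = nm (Q := Q) w - ∑ q : Q, ((q : X) • w - w) := by
      show _ = (∑ q : Q, (q : X) • w) - _
      rw [Finset.sum_sub_distrib, Finset.sum_const, Finset.card_univ, Nat.card_eq_fintype_card]
      abel
    rw [e3]
    refine AddSubgroup.sub_mem _ ((le_sup_left : fixS W (⊤ : Subgroup X) ≤ _) (h.fix_Q hgen (nm_fix w))) ?_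
    exact (le_sup_right : (⨆ E ∈ ES p W Q, comS W E) ≤ _) (AddSubgroup.sum_mem _ (fun q _ => hcom q w))
  rw [← e1, mul_comm, mul_nsmul']
  exact AddSubgroup.nsmul_mem _ e2 m

end FFS

end Cfsg.Agent.H19.FF
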