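import Cfsg.Agent.H19.FF6
import Cfsg.Agent.H23.PSolvable
import Cfsg.Agent.H2.SL2p
import Cfsg.Agent.H18.SL23

set_option autoImplicit false
set_option linter.style.haveILetI false
set_option linter.unusedVariables false
set_option linter.unusedSectionVars false

/-! Failure of factorization, part 7: `p ≤ 3` and the structure of `[Q, A]`. -/

namespace Cfsg.Agent.H19.FF

open Cfsg Cfsg.Agent.H19.PGV
open scoped commutatorElement

variable {X W : Type*} [Group X] [AddCommGroup W] [DistribMulAction X W]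

namespace FFS

variable {p : ℕ} [Fact p.Prime] {Q : Subgroup X} [Finite X] [Finite W]

theorem TG.relIndex (h : FFS p W Q) {A : Subgroup X} (hA : TG p W A) : Q.relIndex (EG Q A) = p := by
  haveI := h.hQn
  have h1 : EG Q A ⊔ Q = A ⊔ Q := by
    apply le_antisymm
    · exact sup_le ((h.EG_le A).trans (by rw [sup_comm])) le_sup_right
    · exact sup_le_sup_right (le_EG Q A) Q
  have h2 : Q.relIndex (EG Q A ⊔ Q) = Q.relIndex (EG Q A) := Subgroup.relIndex_sup_right _ _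
  have h3 : Q.relIndex (A ⊔ Q) = Q.relIndex A := Subgroup.relIndex_sup_right _ _
  have h4 : Q ⊓ A = ⊥ := by
    rw [eq_bot_iff]
    rintro a ⟨haQ, haA⟩
    exact Subgroup.mem_bot.mpr (h.inf_bot hA.EA a haA haQ)
  rw [← h2, h1, h3, ← Subgroup.inf_relIndex_right, h4, Subgroup.relIndex_bot_left, hA.1]

theorem TG.card_EG (h : FFS p W Q) {A : Subgroup X} (hA : TG p W A) :
    Nat.card (Q.subgroupOf (EG Q A)) * p = Nat.card (EG Q A) := by
  have := Subgroup.card_mul_index (Q.subgroupOf (EG Q A))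
  have h2 : (Q.subgroupOf (EG Q A)).index = p := hA.relIndex h
  rw [h2] at this
  exact this

theorem card_sub_cop (h : FFS p W Q) (L : Subgroup X) : (Nat.card (Q.subgroupOf L)).Coprime p := by
  refine Nat.Coprime.coprime_dvd_left ?_ h.hQp
  have h1 : Nat.card (Q.subgroupOf L) = Nat.card ↥(Q ⊓ L) := by
    rw [← Subgroup.subgroupOf_map_subtype]
    exact Nat.card_congr ((Q.subgroupOf L).equivMapOfInjective _ L.subtype_injective).toEquiv
  rw [h1]
  exact Subgroup.card_dvd_of_le inf_le_left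

theorem TG.p_le (h : FFS p W Q) {A : Subgroup X} (hA : TG p W A) : p = 2 ∨ p = 3 := by
  have hpp : p.Prime := Fact.out
  haveI := h.hQn
  obtain ⟨ι, φ, hPl⟩ := hA.exists_plane h
  have h1 : IsPSolvable p ↥(EG Q A) := by
    apply H23.isPSolvable_of_extension (Q.subgroupOf (EG Q A))
    · exact H23.isPSolvable_of_card_coprime (h.card_sub_cop _)
    · apply H23.isPSolvable_of_isPGroup
      apply IsPGroup.of_card (n := 1)
      rw [pow_one]
      exact hA.relIndex h
  have h2 : IsPSolvable p (SLp p) := H23.isPSolvable_of_equiv φ h1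
  have h3 := H2.le_three_of_isPSolvable h2
  have h4 := hpp.two_le
  omega

theorem card_SL22 : Nat.card (SLp 2) = 6 := by
  haveI : Fact (Nat.Prime 2) := ⟨Nat.prime_two⟩
  have := H5.card_SL2 (F := ZMod 2) (q := 2) (ZMod.card 2)
  rw [this]; norm_num

theorem com_le (h : FFS p W Q) (A : Subgroup X) : ⁅Q, A⁆ ≤ Q := by
  haveI := h.hQn
  exact Subgroup.commutator_le_left Q A

theorem TG.card_QE (h : FFS p W Q) {A : Subgroup X} (hA : TG p W A) :
    (p = 2 ∧ Nat.card (Q.subgroupOf (EG Q A)) = 3) ∨ (p = 3 ∧ Nat.card (Q.subgroupOf (EG Q A)) = 8) := by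
  obtain ⟨ι, φ, hPl⟩ := hA.exists_plane h
  have h1 := hA.card_EG h
  rw [Nat.card_congr φ.toEquiv] at h1
  rcases hA.p_le h with rfl | rfl
  · rw [card_SL22] at h1
    left; exact ⟨rfl, by omega⟩
  · have h2 : Nat.card (SLp 3) = 24 := H18.card_SL23
    rw [h2] at h1
    right; exact ⟨rfl, by omega⟩

/-- `[Q, A] = Q ∩ E_A` -/
theorem TG.com_eq (h : FFS p W Q) {A : Subgroup X} (hA : TG p W A) : ⁅Q, A⁆ = Q ⊓ EG Q A := by
  haveI := h.hQn
  apply le_antisymm (le_inf (h.com_le A) le_sup_left)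
  have hnorm : A ≤ Subgroup.normalizer ((⁅Q, A⁆ : Subgroup X) : Set X) := by
    intro a ha
    have h2 : PGV.cj a ⁅Q, A⁆ ≤ ⁅Q, A⁆ := by
      have e : PGV.cj a ⁅Q, A⁆ = ⁅PGV.cj a Q, PGV.cj a A⁆ := Subgroup.map_commutator _ _ _
      rw [e]
      apply Subgroup.commutator_mono
      · intro y hy
        obtain ⟨q, hq, rfl⟩ := mem_cj.mp hy
        exact h.hQn.conj_mem q hq a
      · exact cj_le_of_mem le_rfl ha
    have h3 := eq_of_cj_le h2
    rw [Subgroup.mem_normalizer_iff]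
    exact cj_eq_iff_norm.mp h3
  intro g hg
  have hgE : g ∈ ⁅Q, A⁆ ⊔ A := hg.2
  rw [H23.mem_sup_iff_of_le_normalizer hnorm] at hgE
  obtain ⟨q, hq, a, ha, rfl⟩ := hgE
  have haQ : a ∈ Q := by
    have : a = q⁻¹ * (q * a) := by group
    rw [this]
    exact Q.mul_mem (Q.inv_mem (h.com_le A hq)) hg.1
  have := h.inf_bot hA.EA a ha haQ
  rw [this, mul_one]
  exact hq

theorem TG.card_com (h : FFS p W Q) {A : Subgroup X} (hA : TG p W A) :
    (p = 2 ∧ Nat.card ↥⁅Q, A⁆ = 3) ∨ (p = 3 ∧ Nat.card ↥⁅Q, A⁆ = 8) := by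
  have h1 : Nat.card (Q.subgroupOf (EG Q A)) = Nat.card ↥⁅Q, A⁆ := by
    rw [hA.com_eq h, ← Subgroup.subgroupOf_map_subtype]
    exact Nat.card_congr ((Q.subgroupOf (EG Q A)).equivMapOfInjective _ (EG Q A).subtype_injective).toEquiv
  rw [← h1]
  exact hA.card_QE h

theorem TG.nonabelian (h : FFS p W Q) {A : Subgroup X} (hA : TG p W A) (hp : p = 3) : ¬ IsMulCommutative ↥⁅Q, A⁆ := by
  haveI := h.hQn
  intro hcomm
  obtain ⟨ι, φ, hPl⟩ := hA.exists_plane h
  obtain ⟨T, hT, x, hx, y, hy, hxy⟩ := H2.exists_nonabelian_two (p := p) (by omega)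
  have key : ∀ z ∈ T, (φ.symm z).1 ∈ ⁅Q, A⁆ := by
    intro z hz
    rw [hA.com_eq h]
    refine ⟨?_, (φ.symm z).2⟩
    have h1 : φ.symm z ∈ Q.subgroupOf (EG Q A) := by
      obtain ⟨k, hk⟩ := hT ⟨z, hz⟩
      have hk' : z ^ 2 ^ k = 1 := congrArg Subtype.val hk
      have h2 : ((φ.symm z : ↥(EG Q A)) : ↥(EG Q A) ⧸ Q.subgroupOf (EG Q A)) = 1 := by
        have h3 : ((φ.symm z : ↥(EG Q A)) : ↥(EG Q A) ⧸ Q.subgroupOf (EG Q A)) ^ (2 ^ k) = 1 := by
          rw [← QuotientGroup.mk_pow, ← map_pow, hk', map_one]; rfl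
        have h4 : ((φ.symm z : ↥(EG Q A)) : ↥(EG Q A) ⧸ Q.subgroupOf (EG Q A)) ^ p = 1 := by
          have h5 : Nat.card (↥(EG Q A) ⧸ Q.subgroupOf (EG Q A)) = p := hA.relIndex h
          have h6 := pow_card_eq_one' (x := ((φ.symm z : ↥(EG Q A)) : ↥(EG Q A) ⧸ Q.subgroupOf (EG Q A)))
          rwa [h5] at h6
        have h7 := Nat.dvd_gcd (orderOf_dvd_of_pow_eq_one h3) (orderOf_dvd_of_pow_eq_one h4)
        have h8 : Nat.gcd (2 ^ k) p = 1 := by
          rw [hp]
          exact Nat.Coprime.pow_left k (by norm_num)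
        rw [h8] at h7
        exact orderOf_eq_one_iff.mp (Nat.dvd_one.mp h7)
      exact (QuotientGroup.eq_one_iff _).mp h2
    exact Subgroup.mem_subgroupOf.mp h1
  apply hxy
  have h1 := congrArg Subtype.val (hcomm.is_comm.comm ⟨_, key x hx⟩ ⟨_, key y hy⟩)
  have h2 : φ.symm x * φ.symm y = φ.symm y * φ.symm x := Subtype.ext h1
  rw [← map_mul, ← map_mul] at h2
  exact φ.symm.injective h2

end FFS

end Cfsg.Agent.H19.FF
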