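import Cfsg.Agent.H19.FF7
import Cfsg.Agent.H1.Cores

set_option autoImplicit false
set_option linter.style.haveILetI false
set_option linter.unusedVariables false
set_option linter.unusedSectionVars false

/-! Failure of factorization, part 8: independent transvection groups; an elementary abelian subgroup as a module. -/

namespace Cfsg.Agent.H19.FF

open Cfsg Cfsg.Agent.H19.PGV
open scoped commutatorElement

namespace FFS

variable {X W : Type*} [Group X] [AddCommGroup W] [DistribMulAction X W]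
variable {p : ℕ} [Fact p.Prime] {Q : Subgroup X} [Finite X] [Finite W]

theorem le_or_disj {A B : Subgroup X} (hA : TG p W A) : A ≤ B ∨ Disjoint A B := by
  have hpp : p.Prime := Fact.out
  by_cases h : A ⊓ B = ⊥
  · right; rw [disjoint_iff]; exact h
  · left
    have h1 : Nat.card ↥(A ⊓ B) ∣ p := by
      rw [← hA.1]
      exact Subgroup.card_dvd_of_le inf_le_left
    rcases (Nat.dvd_prime hpp).mp h1 with h2 | h2
    · exact absurd ((Subgroup.card_eq_one).mp h2) h
    · have h3 : A ⊓ B = A := Subgroup.eq_of_le_of_card_ge inf_le_left (by rw [h2, hA.1])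
      rw [← h3]
      exact inf_le_right

theorem exists_indep (h : FFS p W Q) {A : Subgroup X} (hA : OF p W A) :
    ∃ S : Set (Subgroup X), (∀ T ∈ S, T ≤ A ∧ TG p W T) ∧ sSupIndep S ∧ sSup S = A := by
  classical
  obtain ⟨S, ⟨hS1, hS2⟩, hmin⟩ := WellFounded.has_min (r := fun a b : Set (Subgroup X) => a < b) wellFounded_lt
    {S : Set (Subgroup X) | (∀ T ∈ S, T ≤ A ∧ TG p W T) ∧ sSup S = A}
    ⟨{T : Subgroup X | T ≤ A ∧ TG p W T}, fun T hT => hT,
      le_antisymm (sSup_le fun T hT => hT.1) (h.gen_TG _ A rfl hA)⟩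
  refine ⟨S, hS1, ?_, hS2⟩
  intro T hT
  rcases le_or_disj (B := sSup (S \ {T})) (hS1 T hT).2 with h1 | h1
  · exfalso
    apply hmin (S \ {T}) ⟨fun T' hT' => hS1 T' hT'.1, ?_⟩
    · refine ⟨Set.sdiff_subset, fun hle => ?_⟩
      exact (hle hT).2 rfl
    · apply le_antisymm
      · exact sSup_le fun T' hT' => (hS1 T' hT'.1).1
      · rw [← hS2]
        refine sSup_le fun T' hT' => ?_
        by_cases h2 : T' = T
        · rw [h2]; exact h1
        · exact le_sSup ⟨hT', h2⟩
  · exact h1

end FFS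

section Transfer

variable {G : Type*} [Group G]

/-- an abelian subgroup as a module for a subgroup normalizing it -/
def Wm (V H : Subgroup G) (hV : IsMulCommutative V) (hHV : H ≤ Subgroup.normalizer (V : Set G)) : Type _ := Additive ↥V

variable {V H : Subgroup G} {hV : IsMulCommutative V} {hHV : H ≤ Subgroup.normalizer (V : Set G)}

namespace Wm

instance : AddCommGroup (Wm V H hV hHV) :=
  { (inferInstance : AddGroup (Additive ↥V)) with
    add_comm := fun a b => congrArg Additive.ofMul (hV.is_comm.comm (Additive.toMul a) (Additive.toMul b)) }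

instance [Finite G] : Finite (Wm V H hV hHV) := (inferInstance : Finite (Additive ↥V))

def val (w : Wm V H hV hHV) : G := ((Additive.toMul (α := ↥V) w : ↥V) : G)

def mk {g : G} (hg : g ∈ V) : Wm V H hV hHV := Additive.ofMul (⟨g, hg⟩ : ↥V)

@[simp] theorem val_mk {g : G} (hg : g ∈ V) : (mk hg : Wm V H hV hHV).val = g := rfl
theorem val_mem (w : Wm V H hV hHV) : w.val ∈ V := (Additive.toMul (α := ↥V) w : ↥V).2
theorem ext {w w' : Wm V H hV hHV} (h : w.val = w'.val) : w = w' :=
  (Additive.toMul (α := ↥V)).injective (Subtype.ext h)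
@[simp] theorem val_add (w w' : Wm V H hV hHV) : (w + w').val = w.val * w'.val := rfl
@[simp] theorem val_zero : (0 : Wm V H hV hHV).val = 1 := rfl
@[simp] theorem val_neg (w : Wm V H hV hHV) : (-w).val = w.val⁻¹ := rfl
@[simp] theorem val_sub (w w' : Wm V H hV hHV) : (w - w').val = w.val * w'.val⁻¹ := by
  rw [sub_eq_add_neg, val_add, val_neg]
@[simp] theorem val_nsmul (n : ℕ) (w : Wm V H hV hHV) : (n • w).val = w.val ^ n := by
  induction n with
  | zero => simp
  | succ n ih => rw [succ_nsmul, val_add, ih, pow_succ]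

theorem conj_mem (h : ↥H) {v : G} (hv : v ∈ V) (hHV : H ≤ Subgroup.normalizer (V : Set G)) : (h : G) * v * (h : G)⁻¹ ∈ V :=
  (Subgroup.mem_normalizer_iff.mp (hHV h.2) v).mp hv

instance : DistribMulAction ↥H (Wm V H hV hHV) where
  smul h w := mk (conj_mem h w.val_mem hHV)
  one_smul w := ext (by show (1 : G) * w.val * (1 : G)⁻¹ = w.val; group)
  mul_smul a b w := ext (by
    show ((a * b : ↥H) : G) * w.val * ((a * b : ↥H) : G)⁻¹ = (a : G) * ((b : G) * w.val * (b : G)⁻¹) * (a : G)⁻¹
    rw [Subgroup.coe_mul]; group)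
  smul_zero a := ext (by show (a : G) * 1 * (a : G)⁻¹ = 1; group)
  smul_add a w w' := ext (by
    show (a : G) * (w.val * w'.val) * (a : G)⁻¹ = ((a : G) * w.val * (a : G)⁻¹) * ((a : G) * w'.val * (a : G)⁻¹)
    group)

@[simp] theorem val_smul (a : ↥H) (w : Wm V H hV hHV) : (a • w).val = (a : G) * w.val * (a : G)⁻¹ := rfl

/-- the inclusion as a homomorphism -/
def hom : Multiplicative (Wm V H hV hHV) →* G where
  toFun w := (Multiplicative.toAdd w).val
  map_one' := rfl
  map_mul' _ _ := rfl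

theorem hom_inj : Function.Injective (hom : Multiplicative (Wm V H hV hHV) →* G) := fun _ _ h => ext h

/-- subgroups of the module as subgroups of the group -/
def toG (U : AddSubgroup (Wm V H hV hHV)) : Subgroup G := (AddSubgroup.toSubgroup U).map hom

theorem mem_toG {U : AddSubgroup (Wm V H hV hHV)} {g : G} : g ∈ toG U ↔ ∃ w ∈ U, w.val = g := Iff.rfl

theorem val_mem_toG {U : AddSubgroup (Wm V H hV hHV)} {w : Wm V H hV hHV} : w.val ∈ toG U ↔ w ∈ U := by
  rw [mem_toG]
  constructor
  · rintro ⟨w', hw', hh⟩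
    rw [← ext hh]; exact hw'
  · exact fun hw => ⟨w, hw, rfl⟩

theorem toG_sup (U U' : AddSubgroup (Wm V H hV hHV)) : toG (U ⊔ U') = toG U ⊔ toG U' := by
  unfold toG
  rw [OrderIso.map_sup, Subgroup.map_sup]

theorem toG_iSup {ι : Sort*} (U : ι → AddSubgroup (Wm V H hV hHV)) : toG (⨆ i, U i) = ⨆ i, toG (U i) := by
  unfold toG
  rw [OrderIso.map_iSup, Subgroup.map_iSup]

theorem toG_inf (U U' : AddSubgroup (Wm V H hV hHV)) : toG (U ⊓ U') = toG U ⊓ toG U' := by
  unfold toG
  rw [OrderIso.map_inf, Subgroup.map_inf _ _ _ hom_inj]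

theorem toG_bot : toG (⊥ : AddSubgroup (Wm V H hV hHV)) = ⊥ := by
  unfold toG
  rw [OrderIso.map_bot, Subgroup.map_bot]

theorem toG_top : toG (⊤ : AddSubgroup (Wm V H hV hHV)) = V := by
  ext g
  rw [mem_toG]
  constructor
  · rintro ⟨w, _, rfl⟩; exact w.val_mem
  · exact fun hg => ⟨mk hg, trivial, rfl⟩

theorem toG_le {U U' : AddSubgroup (Wm V H hV hHV)} : toG U ≤ toG U' ↔ U ≤ U' := by
  constructor
  · intro h w hw
    exact val_mem_toG.mp (h (val_mem_toG.mpr hw))
  · intro h g hg
    obtain ⟨w, hw, rfl⟩ := mem_toG.mp hg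
    exact val_mem_toG.mpr (h hw)

theorem toG_inj {U U' : AddSubgroup (Wm V H hV hHV)} (h : toG U = toG U') : U = U' :=
  le_antisymm (toG_le.mp h.le) (toG_le.mp h.ge)

theorem card_toG (U : AddSubgroup (Wm V H hV hHV)) : Nat.card (toG U) = Nat.card U := by
  refine Nat.card_congr ⟨fun g => ⟨(mem_toG.mp g.2).choose, (mem_toG.mp g.2).choose_spec.1⟩,
    fun w => ⟨w.1.val, val_mem_toG.mpr w.2⟩, ?_, ?_⟩
  · intro g; exact Subtype.ext (mem_toG.mp g.2).choose_spec.2
  · intro w
    apply Subtype.ext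
    exact ext (mem_toG.mp (val_mem_toG.mpr w.2 : w.1.val ∈ toG U)).choose_spec.2

theorem card_V : Nat.card (Wm V H hV hHV) = Nat.card V := rfl

theorem toG_fixS (B : Subgroup ↥H) :
    toG (fixS (Wm V H hV hHV) B) = V ⊓ Subgroup.centralizer ((B.map H.subtype : Subgroup G) : Set G) := by
  ext g
  rw [mem_toG]
  constructor
  · rintro ⟨w, hw, rfl⟩
    refine ⟨w.val_mem, ?_⟩
    show w.val ∈ Subgroup.centralizer _
    rw [Subgroup.mem_centralizer_iff]
    rintro _ ⟨b, hb, rfl⟩
    have := congrArg val (hw b hb)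
    rw [val_smul, mul_inv_eq_iff_eq_mul] at this
    exact this
  · rintro ⟨hg, hgc⟩
    refine ⟨mk hg, ?_, rfl⟩
    intro b hb
    apply ext
    rw [val_smul, val_mk, mul_inv_eq_iff_eq_mul]
    exact Subgroup.mem_centralizer_iff.mp hgc b ⟨b, hb, rfl⟩

theorem toG_comS (B : Subgroup ↥H) : toG (comS (Wm V H hV hHV) B) = ⁅V, B.map H.subtype⁆ := by
  apply le_antisymm
  · let F : AddSubgroup (Wm V H hV hHV) :=
      { carrier := {w | w.val ∈ ⁅V, B.map H.subtype⁆}
        zero_mem' := by
          show (0 : Wm V H hV hHV).val ∈ ⁅V, B.map H.subtype⁆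
          rw [val_zero]
          exact Subgroup.one_mem _
        add_mem' := fun {w w'} ha hb => by
          show (w + w').val ∈ ⁅V, B.map H.subtype⁆
          rw [val_add]
          exact Subgroup.mul_mem _ ha hb
        neg_mem' := fun {w} ha => by
          show (-w).val ∈ ⁅V, B.map H.subtype⁆
          rw [val_neg]
          exact Subgroup.inv_mem _ ha }
    have h1 : comS (Wm V H hV hHV) B ≤ F := by
      rw [comS_le]
      intro x hx w
      show (x • w - w).val ∈ ⁅V, B.map H.subtype⁆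
      rw [val_sub, val_smul, Subgroup.commutator_comm, ← commutatorElement_def]
      exact Subgroup.commutator_mem_commutator ⟨x, hx, rfl⟩ w.val_mem
    intro g hg
    obtain ⟨w, hw, rfl⟩ := mem_toG.mp hg
    exact h1 hw
  · rw [Subgroup.commutator_comm, Subgroup.commutator_le]
    rintro _ ⟨x, hx, rfl⟩ v hv
    have : ⁅H.subtype x, v⁆ = ((x • (mk hv : Wm V H hV hHV)) - mk hv).val := by
      rw [val_sub, val_smul, commutatorElement_def]; rfl
    rw [this]
    exact val_mem_toG.mpr (mem_comS hx _)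

end Wm

end Transfer

end Cfsg.Agent.H19.FF
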