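import Cfsg.Agent.H19.FF8

set_option autoImplicit false
set_option linter.style.haveILetI false
set_option linter.unusedVariables false
set_option linter.unusedSectionVars false

/-! Failure of factorization, part 9: the dictionary. -/

namespace Cfsg.Agent.H19.FF

open Cfsg Cfsg.Agent.H19.PGV Cfsg.Agent.H19.FF.FFS
open scoped commutatorElement

variable {G : Type*} [Group G]

/-- the hypotheses of the structure theorem -/
structure Hyp (p : ℕ) (V H : Subgroup G) : Prop where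
  hV : Cfsg.IsElementaryAbelian p V
  hHV : H ≤ Subgroup.normalizer (V : Set G)
  hf : H ⊓ Subgroup.centralizer (V : Set G) = ⊥
  hS1 : Subgroup.centralizer (Cfsg.pPrimeCore p ↥H : Set ↥H) ≤ Cfsg.pPrimeCore p ↥H

/-- minimal nontrivially acting best offenders -/
def MinOff (p : ℕ) (V A : Subgroup G) : Prop :=
  Cfsg.IsBestOffenderOn p V A ∧ ⁅V, A⁆ ≠ ⊥ ∧
    ∀ B : Subgroup G, B ≤ A → Cfsg.IsBestOffenderOn p V B → ⁅V, B⁆ ≠ ⊥ → B = A

theorem exists_map_of_le {C H : Subgroup G} (h : C ≤ H) : ∃ C' : Subgroup ↥H, C'.map H.subtype = C :=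
  ⟨C.subgroupOf H, by rw [Subgroup.subgroupOf_map_subtype, inf_eq_left.mpr h]⟩

theorem map_inj {H : Subgroup G} {B C : Subgroup ↥H} (h : B.map H.subtype = C.map H.subtype) : B = C :=
  Subgroup.map_injective H.subtype_injective h

theorem map_le_iff' {H : Subgroup G} {B C : Subgroup ↥H} : B.map H.subtype ≤ C.map H.subtype ↔ B ≤ C :=
  Subgroup.map_le_map_iff_of_injective H.subtype_injective

theorem map_card {H : Subgroup G} (B : Subgroup ↥H) : Nat.card (B.map H.subtype) = Nat.card B :=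
  (Nat.card_congr (B.equivMapOfInjective _ H.subtype_injective).toEquiv).symm

theorem map_le_self {H : Subgroup G} (B : Subgroup ↥H) : B.map H.subtype ≤ H := by
  rintro _ ⟨x, _, rfl⟩; exact x.2

namespace Hyp

variable {p : ℕ} {V H : Subgroup G}

/-- the module -/
abbrev MW (hh : Hyp p V H) : Type _ := Wm V H hh.hV.1 hh.hHV

theorem faithful (hh : Hyp p V H) (g : ↥H) (hg : ∀ w : hh.MW, g • w = w) : g = 1 := by
  have h1 : (g : G) ∈ H ⊓ Subgroup.centralizer (V : Set G) := by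
    refine ⟨g.2, ?_⟩
    show (g : G) ∈ Subgroup.centralizer (V : Set G)
    rw [Subgroup.mem_centralizer_iff]
    intro v hv
    have h2 := congrArg Wm.val (hg (Wm.mk hv))
    rw [Wm.val_smul, Wm.val_mk, mul_inv_eq_iff_eq_mul] at h2
    exact h2.symm
  rw [hh.hf, Subgroup.mem_bot] at h1
  exact Subtype.ext h1

variable [Finite G] [Fact p.Prime]

theorem ffs (hh : Hyp p V H) : FFS p hh.MW (pPrimeCore p ↥H) where
  hpW := by
    intro w
    apply Wm.ext
    rw [Wm.val_nsmul, Wm.val_zero]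
    exact hh.hV.2 _ w.val_mem
  hf := hh.faithful
  hQn := inferInstance
  hQp := H1.pPrimeCore_coprime p ↥H
  hQc := hh.hS1

theorem card_fix (hh : Hyp p V H) (B : Subgroup ↥H) :
    Nat.card ↥(V ⊓ Subgroup.centralizer ((B.map H.subtype : Subgroup G) : Set G)) = Nat.card (fixS hh.MW B) := by
  rw [← Wm.toG_fixS (hV := hh.hV.1) (hHV := hh.hHV) B, Wm.card_toG]

theorem com_ne_bot (hh : Hyp p V H) (B : Subgroup ↥H) : ⁅V, B.map H.subtype⁆ ≠ ⊥ ↔ B ≠ ⊥ := by
  rw [← Wm.toG_comS (hV := hh.hV.1) (hHV := hh.hHV) B]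
  constructor
  · rintro h rfl
    apply h
    have : comS hh.MW (⊥ : Subgroup ↥H) = ⊥ := by
      rw [eq_bot_iff, comS_le]
      intro x hx w
      rw [Subgroup.mem_bot.mp hx, one_smul, sub_self]
      exact AddSubgroup.zero_mem _
    rw [this, Wm.toG_bot]
  · intro h h0
    apply h
    rw [← Wm.toG_bot (hV := hh.hV.1) (hHV := hh.hHV)] at h0
    have h1 := Wm.toG_inj h0
    rw [eq_bot_iff]
    intro x hx
    rw [Subgroup.mem_bot]
    apply hh.faithful
    intro w
    have h2 := mem_comS (W := hh.MW) hx w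
    rw [h1, AddSubgroup.mem_bot] at h2
    exact sub_eq_zero.mp h2

theorem off_iff (hh : Hyp p V H) (B : Subgroup ↥H) :
    IsBestOffenderOn p V (B.map H.subtype) ↔ OF p hh.MW B := by
  have key : (⁅B.map H.subtype, B.map H.subtype⁆ ≤ Subgroup.centralizer (V : Set G) ∧
      ∀ a ∈ B.map H.subtype, a ^ p ∈ Subgroup.centralizer (V : Set G)) ↔ EA p B := by
    constructor
    · rintro ⟨h1, h2⟩
      constructor
      · intro a ha b hb
        have h3 : ⁅(a : G), (b : G)⁆ ∈ H ⊓ Subgroup.centralizer (V : Set G) :=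
          ⟨by rw [commutatorElement_def]; exact (a * b * a⁻¹ * b⁻¹).2,
            h1 (Subgroup.commutator_mem_commutator ⟨a, ha, rfl⟩ ⟨b, hb, rfl⟩)⟩
        rw [hh.hf, Subgroup.mem_bot, commutatorElement_eq_one_iff_mul_comm] at h3
        exact Subtype.ext h3
      · intro a ha
        have h3 : (a : G) ^ p ∈ H ⊓ Subgroup.centralizer (V : Set G) := ⟨(a ^ p).2, h2 _ ⟨a, ha, rfl⟩⟩
        rw [hh.hf, Subgroup.mem_bot] at h3
        exact Subtype.ext h3
    · rintro ⟨h1, h2⟩
      constructor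
      · rw [Subgroup.commutator_le]
        rintro _ ⟨a, ha, rfl⟩ _ ⟨b, hb, rfl⟩
        have h3 := congrArg Subtype.val (h1 a ha b hb)
        have h4 : ⁅H.subtype a, H.subtype b⁆ = 1 := commutatorElement_eq_one_iff_mul_comm.mpr h3
        rw [h4]
        exact Subgroup.one_mem _
      · rintro _ ⟨a, ha, rfl⟩
        have h3 : (H.subtype a) ^ p = 1 := congrArg Subtype.val (h2 a ha)
        rw [h3]
        exact Subgroup.one_mem _
  unfold IsBestOffenderOn
  rw [key]
  constructor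
  · rintro ⟨h1, h2⟩
    rw [← hh.ffs.off_iff h2]
    intro C hC
    have h3 := h1 (C.map H.subtype) (map_le_iff'.mpr hC)
    rw [hh.card_fix, hh.card_fix, map_card, map_card] at h3
    exact h3
  · intro h1
    refine ⟨?_, h1.1⟩
    intro C hC
    obtain ⟨C', rfl⟩ := exists_map_of_le (hC.trans (map_le_self B))
    rw [hh.card_fix, hh.card_fix, map_card, map_card]
    exact (hh.ffs.off_iff h1.1).mpr h1 C' (map_le_iff'.mp hC)

theorem min_iff (hh : Hyp p V H) (B : Subgroup ↥H) : MinOff p V (B.map H.subtype) ↔ TG p hh.MW B := by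
  constructor
  · rintro ⟨h1, h2, h3⟩
    refine hh.ffs.TG_of_min ((hh.off_iff B).mp h1) ((hh.com_ne_bot B).mp h2) ?_
    intro C hC hCo hCne
    exact map_inj (h3 _ (map_le_iff'.mpr hC) ((hh.off_iff C).mpr hCo) ((hh.com_ne_bot C).mpr hCne))
  · intro h
    refine ⟨(hh.off_iff B).mpr h.OF, (hh.com_ne_bot B).mpr h.ne_bot, ?_⟩
    intro C hC hCo hCne
    obtain ⟨C', rfl⟩ := exists_map_of_le (hC.trans (map_le_self B))
    congr 1
    have hC' := map_le_iff'.mp hC
    have hCne' := (hh.com_ne_bot C').mp hCne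
    apply Subgroup.eq_of_le_of_card_ge hC'
    have h1 : Nat.card C' ∣ p := by
      rw [← h.1]
      exact Subgroup.card_dvd_of_le hC'
    rcases (Nat.dvd_prime (Fact.out : p.Prime)).mp h1 with h2 | h2
    · exact absurd ((Subgroup.card_eq_one).mp h2) hCne'
    · rw [h2, h.1]

theorem EG_map (H : Subgroup G) (Q B : Subgroup ↥H) :
    ⁅Q.map H.subtype, B.map H.subtype⁆ ⊔ B.map H.subtype = (EG Q B).map H.subtype := by
  unfold EG
  rw [Subgroup.map_sup, Subgroup.map_commutator]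

theorem gen (hh : Hyp p V H)
    (hS3 : H = ⨆ A : {A : Subgroup G // A ≤ H ∧ Cfsg.IsBestOffenderOn p V A}, (A : Subgroup G)) :
    sSup {B : Subgroup ↥H | TG p hh.MW B} = ⊤ := by
  rw [eq_top_iff]
  apply map_le_iff'.mp
  have h1 : (⊤ : Subgroup ↥H).map H.subtype = H := by
    rw [← MonoidHom.range_eq_map, Subgroup.range_subtype]
  rw [h1]
  conv_lhs => rw [hS3]
  refine iSup_le ?_
  rintro ⟨A, hAH, hA⟩
  obtain ⟨A', rfl⟩ := exists_map_of_le hAH
  apply map_le_iff'.mpr
  refine (hh.ffs.gen_TG _ A' rfl ((hh.off_iff A').mp hA)).trans (sSup_le_sSup ?_)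
  exact fun T hT => hT.2

theorem centr_map (hh : Hyp p V H) (B : Subgroup ↥H) (C : Subgroup ↥H) :
    C.map H.subtype ⊓ Subgroup.centralizer ((⁅V, B.map H.subtype⁆ : Subgroup G) : Set G) =
      (fixer C (fun w : hh.MW => w ∈ comS hh.MW B)).map H.subtype := by
  ext g
  constructor
  · rintro ⟨⟨x, hx, rfl⟩, h2⟩
    refine ⟨x, ⟨hx, ?_⟩, rfl⟩
    intro w hw
    apply Wm.ext
    have h3 : w.val ∈ ⁅V, B.map H.subtype⁆ := by
      rw [← Wm.toG_comS (hV := hh.hV.1) (hHV := hh.hHV) B]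
      exact Wm.val_mem_toG.mpr hw
    have h4 := Subgroup.mem_centralizer_iff.mp h2 _ h3
    rw [Wm.val_smul, mul_inv_eq_iff_eq_mul]
    exact h4.symm
  · rintro ⟨x, ⟨hx, hx2⟩, rfl⟩
    refine ⟨⟨x, hx, rfl⟩, ?_⟩
    show H.subtype x ∈ Subgroup.centralizer _
    rw [Subgroup.mem_centralizer_iff]
    intro v hv
    rw [SetLike.mem_coe, ← Wm.toG_comS (hV := hh.hV.1) (hHV := hh.hHV) B] at hv
    obtain ⟨w, hw, rfl⟩ := Wm.mem_toG.mp hv
    have h3 := congrArg Wm.val (hx2 w hw)
    rw [Wm.val_smul, mul_inv_eq_iff_eq_mul] at h3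
    exact h3.symm

end Hyp

end Cfsg.Agent.H19.FF
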