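import Cfsg.Agent.H19.HSub3
import Cfsg.Agent.H1.Basic
import Cfsg.Agent.H19.Sylow

/-!
# `ℋ`-subgroups in quotients; normal Sylow subgroup for the largest prime
-/

set_option autoImplicit false
set_option linter.style.haveILetI false

namespace Cfsg.Agent.H19

open Subgroup
open scoped Pointwise
open H23 (IsSylowOf)

variable {G : Type*} [Group G] {p : ℕ}

/-- the property of being an `ℋ`-subgroup -/
def HSub (F : Subgroup G) : Prop :=
  ∀ g : G, F.map (MulAut.conj g).toMonoidHom ⊓ normalizer (F : Set G) ≤ F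

theorem HSub.quotient [Finite G] [hp : Fact p.Prime] {R F : Subgroup G} [hR : R.Normal] (hF : IsPGroup p F)
    (hRc : (Nat.card R).Coprime p) (h : HSub F) : HSub (F.map (QuotientGroup.mk' R)) := by
  intro gb yb hyb
  obtain ⟨h1, h2⟩ := mem_inf.mp hyb
  obtain ⟨g, rfl⟩ := QuotientGroup.mk'_surjective R gb
  obtain ⟨_, ⟨f, hf, rfl⟩, hfy⟩ := h1
  set y : G := g * f * g⁻¹ with hy
  have hyy : QuotientGroup.mk' R y = yb := by
    rw [← hfy, hy, map_mul, map_mul, map_inv]; rfl
  rw [← hyy] at h2 ⊢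
  set X := F ⊔ R with hX
  have hXcomap : (F.map (QuotientGroup.mk' R)).comap (QuotientGroup.mk' R) = X := by
    rw [Subgroup.comap_map_eq, QuotientGroup.ker_mk']
  have hnormX : y ∈ normalizer (X : Set G) := by
    rw [H18.mem_normalizer_iff_conj]
    intro x
    rw [← hXcomap, mem_comap, mem_comap, map_mul, map_mul, map_inv]
    exact H18.mem_normalizer_iff_conj.mp h2 _
  have hcopFR : (Nat.card F).Coprime (Nat.card R) := by
    obtain ⟨n, hn⟩ := H18.card_isPGroup_iff.mp hF
    rw [hn]; exact (hRc.pow_right n).symm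
  have hFn : F ≤ normalizer (R : Set G) := by rw [normalizer_eq_top_iff.mpr hR]; exact le_top
  have hFX : IsSylowOf p F X := by
    refine H23.isSylowOf_of_not_dvd le_sup_left hF ?_
    have h3 : Nat.card F * F.relIndex X = Nat.card X := card_relIndex le_sup_left
    have h4 : Nat.card X = Nat.card R * Nat.card F := by
      rw [hX, sup_comm]; exact H23.card_sup_of_coprime hFn hcopFR
    have h5 : F.relIndex X = Nat.card R := by
      rw [h4, mul_comm] at h3
      exact Nat.eq_of_mul_eq_mul_right Nat.card_pos h3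
    rw [h5]
    exact (Nat.Prime.coprime_iff_not_dvd hp.out).mp hRc.symm
  have hyp : IsPGroup p (zpowers y) := by
    have h3 : IsPGroup p (F.map (MulAut.conj g).toMonoidHom) := hF.map _
    refine H18.isPGroup_mono h3 (zpowers_le.mpr ⟨f, hf, rfl⟩)
  have hcopyR : (Nat.card (zpowers y)).Coprime (Nat.card R) := by
    obtain ⟨n, hn⟩ := H18.card_isPGroup_iff.mp hyp
    rw [hn]; exact (hRc.pow_right n).symm
  obtain ⟨x, hxR, hx⟩ := H23.exists_conj_invariant (A := zpowers y) (G := R)
    (by rw [normalizer_eq_top_iff.mpr hR]; exact le_top) hcopyR (Or.inl (H23.isSolvable_of_isPGroup hyp)) F (by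
      intro a ha
      have haX : a ∈ normalizer (X : Set G) := (zpowers_le.mpr hnormX) ha
      obtain ⟨u, huX, hu⟩ := hFX.exists_conj (hFX.conj haX)
      have hu' : u ∈ R ⊔ F := by rw [sup_comm]; exact huX
      obtain ⟨r, hr, f', hf', rfl⟩ := (H23.mem_sup_iff_of_le_normalizer hFn).mp hu'
      refine ⟨r, hr, ?_⟩
      rw [← hu, ← H1.conj_smul_smul, H1.conj_smul_self_of_mem hf'])
  have hyx : y ∈ normalizer ((MulAut.conj x • F : Subgroup G) : Set G) := hx (mem_zpowers y)
  have h3 : x⁻¹ * y * x ∈ normalizer (F : Set G) := by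
    rw [H1.mem_normalizer_iff_conj_smul] at hyx ⊢
    rw [H1.conj_smul_smul] at hyx
    rw [mul_assoc, ← H1.conj_smul_smul, hyx, H1.conj_smul_smul, inv_mul_cancel, H1.conj_one_smul]
  have h4 : x⁻¹ * y * x ∈ F := by
    refine h (x⁻¹ * g) (mem_inf.mpr ⟨⟨f, hf, ?_⟩, h3⟩)
    show (x⁻¹ * g) * f * (x⁻¹ * g)⁻¹ = x⁻¹ * y * x
    rw [hy]; group
  refine ⟨x⁻¹ * y * x, h4, ?_⟩
  have h6 : QuotientGroup.mk' R x = 1 := (QuotientGroup.eq_one_iff x).mpr hxR
  rw [map_mul, map_mul, map_inv, h6, inv_one, one_mul, mul_one]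

/-- the hypothesis of S3032 for the normal subgroup `E` -/
def HSylow (E : Subgroup G) : Prop :=
  ∀ (p : ℕ), p.Prime → ∀ P : Subgroup G, P ≤ E → IsPGroup p P → ¬ p ∣ P.relIndex E → ¬ IsCyclic ↥P →
      ∃ D : Subgroup G, D ≤ P ∧ 1 < Nat.card D ∧ Nat.card D < Nat.card P ∧
        ∀ F : Subgroup G, F ≤ P → (Nat.card F = Nat.card D ∨ (Nat.card D = 2 ∧ Nat.card F = 4)) → HSub F

/-- a normal Hall subgroup of `E` has a normal `p`-complement for its smallest prime divisor -/
theorem exists_complement_of_hsylow [Finite G] {E K : Subgroup G} (h : HSylow E) (hKE : K ≤ E)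
    (hcop : (Nat.card K).Coprime (K.relIndex E)) (hmf : (Nat.card K).minFac = p) (hp : p.Prime) :
    Cfsg.HasNormalPComplement p K := by
  haveI : Fact p.Prime := ⟨hp⟩
  have hpK : p ∣ Nat.card K := by rw [← hmf]; exact Nat.minFac_dvd _
  let P : Sylow p K := default
  set P' := (P : Subgroup K).map K.subtype with hP'
  have hP'K : P' ≤ K := Subgroup.map_subtype_le _
  have hP'p : IsPGroup p P' := P.2.map _
  have hsub : P'.subgroupOf K = P := by
    rw [hP', subgroupOf, comap_map_eq_self_of_injective K.subtype_injective]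
  have hPi : ¬ p ∣ P'.relIndex E := by
    rw [← relIndex_mul_relIndex P' K E hP'K hKE]
    intro hd
    rcases (Nat.Prime.dvd_mul hp).mp hd with hd | hd
    · rw [relIndex, hsub] at hd
      exact P.not_dvd_index hd
    · exact hp.one_lt.ne' (Nat.eq_one_of_dvd_coprimes hcop hpK hd)
  by_cases hc : IsCyclic P'
  · have hc' : IsCyclic (P : Subgroup K) := by
      let e := (P : Subgroup K).equivMapOfInjective K.subtype K.subtype_injective
      exact isCyclic_of_surjective e.symm e.symm.surjective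
    haveI := hc'
    exact ⟨P, _, MonoidHom.normal_ker _, IsCyclic.isComplement' hmf hc'⟩
  · obtain ⟨D, hDP, hD1, hD2, hF⟩ := h p hp P' (hP'K.trans hKE) hP'p hPi hc
    obtain ⟨d, hd⟩ := H18.card_isPGroup_iff.mp (H18.isPGroup_mono hP'p hDP)
    obtain ⟨n, hn⟩ := H18.card_isPGroup_iff.mp hP'p
    have hd1 : 1 ≤ d := by
      rcases Nat.eq_zero_or_pos d with h0 | h0
      · rw [hd, h0, pow_zero] at hD1; omega
      · exact h0
    have hdn : d + 1 ≤ n := by
      rw [hd, hn] at hD2
      exact (Nat.pow_lt_pow_iff_right hp.one_lt).mp hD2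
    have hcard : ∀ F : Subgroup K, Nat.card (F.map K.subtype) = Nat.card F := fun F =>
      card_map_of_injective K.subtype_injective
    refine hasNormalPComplement_of_allSC P hd1 ?_ ?_ ?_
    · intro F hFP hFc y hy g hg
      have h1 := strongly_of_hsub (E := F.map K.subtype) (P := P') (Subgroup.map_mono hFP) hP'p
        (hF (F.map K.subtype) (Subgroup.map_mono hFP) (by rw [hcard, hd]; exact hFc)) (y := y) (g := g)
        ⟨y, hy, rfl⟩ ⟨_, hg, rfl⟩
      obtain ⟨z, hz, hzy⟩ := h1
      have h2 : z = g * y * g⁻¹ := Subtype.ext hzy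
      rw [← h2]; exact hz
    · rw [← hcard, ← hP', hn]; exact Nat.pow_le_pow_right hp.pos hdn
    · by_contra hcon
      obtain ⟨q, hq, hq1, hq2⟩ := Nat.Prime.not_coprime_iff_dvd.mp hcon
      have h1 : p ≤ q := by rw [← hmf]; exact Nat.minFac_le_of_dvd hq.two_le hq1
      have h2 := Nat.le_of_dvd (Nat.sub_pos_of_lt hp.one_lt) hq2
      have h3 := hp.two_le
      omega

/-- the Sylow subgroup for the largest prime divisor is normal -/
theorem exists_normal_sylow_of_hsylow [Finite G] {E : Subgroup G} [hE : E.Normal] (h : HSylow E) {r : ℕ} (hr : r.Prime)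
    (hrE : r ∣ Nat.card E) (hmax : ∀ q : ℕ, q.Prime → q ∣ Nat.card E → q ≤ r) :
    ∃ K : Subgroup G, K.Normal ∧ K ≤ E ∧ IsPGroup r K ∧ K ≠ ⊥ ∧ (Nat.card K).Coprime (K.relIndex E) := by
  obtain ⟨K, hK⟩ := (Set.toFinite {K : Subgroup G | K.Normal ∧ K ≤ E ∧ (Nat.card K).Coprime (K.relIndex E) ∧
    r ∣ Nat.card K}).exists_minimal ⟨E, hE, le_rfl, by rw [relIndex_self]; exact Nat.coprime_one_right _, hrE⟩
  obtain ⟨⟨hKn, hKE, hKc, hKr⟩, hKmin⟩ := hK
  have hK1 : K ≠ ⊥ := by
    rintro rfl
    rw [card_bot] at hKr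
    exact hr.one_lt.ne' (Nat.dvd_one.mp hKr)
  have hcard1 : Nat.card K ≠ 1 := fun h1 => hK1 (Subgroup.card_eq_one.mp h1)
  set p := (Nat.card K).minFac with hp
  have hpp : p.Prime := Nat.minFac_prime hcard1
  haveI : Fact p.Prime := ⟨hpp⟩
  haveI : Fact r.Prime := ⟨hr⟩
  refine ⟨K, hKn, hKE, ?_, hK1, hKc⟩
  by_cases hpr : p = r
  · -- all primes dividing `|K|` equal `r`
    rw [H18.card_isPGroup_iff]
    refine ⟨(Nat.card K).primeFactorsList.length, Nat.eq_prime_pow_of_unique_prime_dvd Nat.card_pos.ne' ?_⟩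
    intro q hq hqK
    have h1 : q ≤ r := hmax q hq (hqK.trans (card_dvd_of_le hKE))
    have h2 : p ≤ q := Nat.minFac_le_of_dvd hq.two_le hqK
    omega
  · exfalso
    obtain ⟨N, hNn, hNp, k, hk⟩ := H2.hasNormalPComplement_iff.mp
      (exists_complement_of_hsylow h hKE hKc hp.symm hpp)
    set L := N.map K.subtype with hL
    have hLK : L ≤ K := Subgroup.map_subtype_le _
    have hLcard : Nat.card L = Nat.card N := card_map_of_injective K.subtype_injective
    have hLi : L.relIndex K = p ^ k := by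
      rw [relIndex, hL, subgroupOf, comap_map_eq_self_of_injective K.subtype_injective, hk]
    have hLn : L.Normal := by
      refine ⟨?_⟩
      rintro _ ⟨x, hx, rfl⟩ g
      have hgK : g * (x : G) * g⁻¹ ∈ K := hKn.conj_mem _ x.2 g
      refine ⟨⟨g * (x : G) * g⁻¹, hgK⟩, ?_, rfl⟩
      have h1 := (H2.mem_normal_complement_iff hNp hk x).mp hx
      refine (H2.mem_normal_complement_iff hNp hk _).mpr ?_
      have h2 : orderOf (⟨g * (x : G) * g⁻¹, hgK⟩ : K) = orderOf x := by
        rw [Subgroup.orderOf_mk, ← Subgroup.orderOf_coe x]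
        exact orderOf_injective (MulAut.conj g).toMonoidHom (MulAut.conj g).injective (x : G)
      rw [h2]; exact h1
    have hcardK : Nat.card K = Nat.card L * p ^ k := by
      rw [← hLi]; exact (card_relIndex hLK).symm
    have hLcop : (Nat.card L).Coprime (L.relIndex E) := by
      rw [← relIndex_mul_relIndex L K E hLK hKE, hLi]
      apply Nat.Coprime.mul_right
      · apply Nat.Coprime.pow_right
        rw [hLcard, Nat.coprime_comm]
        exact (Nat.Prime.coprime_iff_not_dvd hpp).mpr hNp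
      · exact hKc.coprime_dvd_left (card_dvd_of_le hLK)
    have hLr : r ∣ Nat.card L := by
      rw [hcardK] at hKr
      rcases (Nat.Prime.dvd_mul hr).mp hKr with h1 | h1
      · exact h1
      · exact absurd ((Nat.prime_dvd_prime_iff_eq hr hpp).mp (hr.dvd_of_dvd_pow h1)).symm hpr
    have hKL : K ≤ L := hKmin ⟨hLn, hLK.trans hKE, hLcop, hLr⟩ hLK
    have h1 : p ∣ Nat.card L := by
      have h2 : L = K := le_antisymm hLK hKL
      rw [h2]; exact Nat.minFac_dvd _
    rw [hLcard] at h1
    exact hNp h1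

/-- quotients inherit the hypothesis -/
theorem HSylow.quotient [Finite G] {E K : Subgroup G} {r : ℕ} (hr : r.Prime) (h : HSylow E) [hKn : K.Normal] (hKE : K ≤ E)
    (hKr : IsPGroup r K) (hK1 : K ≠ ⊥) (hcop : (Nat.card K).Coprime (K.relIndex E)) :
    HSylow (E.map (QuotientGroup.mk' K)) := by
  haveI : Fact r.Prime := ⟨hr⟩
  intro q hq Pb hPbE hPbq hPbi hPbc
  haveI : Fact q.Prime := ⟨hq⟩
  set π := QuotientGroup.mk' K with hπ
  obtain ⟨a, ha⟩ := H18.card_isPGroup_iff.mp hKr
  have ha0 : a ≠ 0 := by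
    rintro rfl
    exact hK1 (Subgroup.card_eq_one.mp (by rw [ha, pow_zero]))
  have hcardE : Nat.card (E.map π) = K.relIndex E := H1.card_map_mk' K E
  obtain ⟨b, hb⟩ := H18.card_isPGroup_iff.mp hPbq
  have hqr : q ≠ r := by
    rintro rfl
    apply hPbc
    have h1 : Nat.card Pb ∣ K.relIndex E := by rw [← hcardE]; exact card_dvd_of_le hPbE
    have h2 : (Nat.card K).Coprime (Nat.card Pb) := hcop.coprime_dvd_right h1
    rw [ha, hb] at h2
    have h3 : b = 0 := by
      by_contra hb0
      exact hq.one_lt.ne' (Nat.eq_one_of_dvd_coprimes h2 (dvd_pow_self q ha0) (dvd_pow_self q hb0))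
    rw [h3, pow_zero] at hb
    rw [Subgroup.card_eq_one.mp hb]
    infer_instance
  have hKq : (Nat.card K).Coprime q := by
    rw [ha]; exact ((Nat.coprime_primes hr hq).mpr hqr.symm).pow_left a
  set X := Pb.comap π with hX
  have hKX : K ≤ X := by
    intro x hx
    rw [hX, mem_comap, hπ, QuotientGroup.mk'_apply, (QuotientGroup.eq_one_iff x).mpr hx]
    exact one_mem _
  have hXE : X ≤ E := by
    have h1 := Subgroup.comap_mono (f := π) hPbE
    rw [Subgroup.comap_map_eq, hπ, QuotientGroup.ker_mk', sup_eq_left.mpr hKE] at h1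
    exact h1
  have hXmap : X.map π = Pb := Subgroup.map_comap_eq_self_of_surjective (QuotientGroup.mk'_surjective K) Pb
  have hXcard : Nat.card X = Nat.card K * q ^ b := by
    rw [← hb, ← hXmap, H1.card_map_mk' K X]
    exact (card_relIndex hKX).symm
  obtain ⟨P, hP⟩ := H23.exists_isSylowOf q X
  obtain ⟨c, hc⟩ := H18.card_isPGroup_iff.mp hP.isPGroup
  have hPX : Nat.card P * P.relIndex X = Nat.card X := card_relIndex hP.le
  have hPcard : Nat.card P = q ^ b := by
    rw [hc]
    apply Nat.dvd_antisymm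
    · have h1 : q ^ c ∣ Nat.card K * q ^ b := by rw [← hXcard, ← hPX, hc]; exact dvd_mul_right _ _
      exact (Nat.Coprime.dvd_of_dvd_mul_left ((hKq.pow_right c).symm) h1)
    · have h1 : q ^ b ∣ q ^ c * P.relIndex X := by rw [← hc, hPX, hXcard]; exact dvd_mul_left _ _
      have h2 : (q ^ b).Coprime (P.relIndex X) :=
        Nat.Coprime.pow_left b ((Nat.Prime.coprime_iff_not_dvd hq).mpr hP.not_dvd)
      exact h2.dvd_of_dvd_mul_right h1
  have hinf : ∀ F : Subgroup G, F ≤ P → Nat.card (F.map π) = Nat.card F := by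
    intro F hF
    have h1 := H1.card_map_mk'_mul K F
    have h2 : F ⊓ K = ⊥ := by
      rw [inf_comm]
      exact H18.inf_eq_bot_of_coprime hKq (H18.isPGroup_mono hP.isPGroup hF)
    rw [h2, card_bot, one_mul] at h1
    exact h1
  have hPmap : P.map π = Pb := by
    apply Subgroup.eq_of_le_of_card_ge
    · rw [← hXmap]; exact Subgroup.map_mono hP.le
    · rw [hinf P le_rfl, hPcard, hb]
  have hPi : ¬ q ∣ P.relIndex E := by
    rw [← relIndex_mul_relIndex P X E hP.le hXE]
    intro hd
    rcases (Nat.Prime.dvd_mul hq).mp hd with hd | hd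
    · exact hP.not_dvd hd
    · rw [hX, relIndex_comap] at hd
      exact hPbi hd
  have hPc : ¬ IsCyclic P := by
    intro hc
    apply hPbc
    rw [← hPmap]
    exact isCyclic_of_surjective (π.subgroupMap P) (π.subgroupMap_surjective P)
  obtain ⟨D, hDP, hD1, hD2, hF⟩ := h q hq P (hP.le.trans hXE) hP.isPGroup hPi hPc
  refine ⟨D.map π, by rw [← hPmap]; exact Subgroup.map_mono hDP, by rw [hinf D hDP]; exact hD1,
    by rw [hinf D hDP, ← hPmap, hinf P le_rfl]; exact hD2, ?_⟩
  intro Fb hFb hFbc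
  set F := P ⊓ Fb.comap π with hFdef
  have hFP : F ≤ P := inf_le_left
  have hFmap : F.map π = Fb := by
    apply le_antisymm
    · rintro _ ⟨x, hx, rfl⟩
      exact hx.2
    · intro x hx
      have hx' : x ∈ P.map π := by rw [hPmap]; exact hFb hx
      obtain ⟨y, hy, rfl⟩ := hx'
      exact ⟨y, mem_inf.mpr ⟨hy, hx⟩, rfl⟩
  rw [← hFmap]
  refine HSub.quotient (p := q) (H18.isPGroup_mono hP.isPGroup hFP) hKq (hF F hFP ?_)
  rw [← hinf F hFP, hFmap, ← hinf D hDP]
  exact hFbc

theorem isSupersolvable_of_hsylow (n : ℕ) : ∀ (G : Type*) [Group G] [Finite G] (E : Subgroup G) [E.Normal],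
    Nat.card E = n → Cfsg.IsSupersolvable (G ⧸ E) → HSylow E → Cfsg.IsSupersolvable G := by
  induction n using Nat.strong_induction_on with
  | _ n ih =>
    intro G _ _ E hE hn hss h
    by_cases hE1 : E = ⊥
    · subst hE1
      exact isSupersolvable_of_equiv QuotientGroup.quotientBot hss
    have hcard1 : Nat.card E ≠ 1 := fun h1 => hE1 (Subgroup.card_eq_one.mp h1)
    -- the largest prime divisor
    obtain ⟨r, hrmem, hrmax⟩ := (Nat.card E).primeFactors.exists_max_image id
      (Nat.nonempty_primeFactors.mpr (Nat.one_lt_iff_ne_zero_and_ne_one.mpr ⟨Nat.card_pos.ne', hcard1⟩))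
    have hr : r.Prime := Nat.prime_of_mem_primeFactors hrmem
    haveI : Fact r.Prime := ⟨hr⟩
    obtain ⟨K, hKn, hKE, hKr, hK1, hKc⟩ := exists_normal_sylow_of_hsylow h hr (Nat.dvd_of_mem_primeFactors hrmem)
      (fun q hq hqE => hrmax q (Nat.mem_primeFactors.mpr ⟨hq, hqE, Nat.card_pos.ne'⟩))
    obtain ⟨a, ha⟩ := H18.card_isPGroup_iff.mp hKr
    have hdvdK : r ∣ Nat.card K := by
      rw [ha]; apply dvd_pow_self
      rintro rfl
      exact hK1 (Subgroup.card_eq_one.mp (by rw [ha, pow_zero]))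
    haveI : (E.map (QuotientGroup.mk' K)).Normal := hE.map _ (QuotientGroup.mk'_surjective K)
    have hsq : Cfsg.IsSupersolvable (G ⧸ K) := by
      refine ih (Nat.card (E.map (QuotientGroup.mk' K))) ?_ (G ⧸ K) (E.map (QuotientGroup.mk' K)) rfl
        (isSupersolvable_of_equiv (QuotientGroup.quotientQuotientEquivQuotient K E hKE).symm hss)
        (HSylow.quotient hr h hKE hKr hK1 hKc)
      rw [H1.card_map_mk' K E, ← hn, ← card_relIndex hKE]
      have h1 : 0 < K.relIndex E := Nat.pos_of_ne_zero (by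
        intro h0
        have := card_relIndex hKE
        rw [h0, mul_zero] at this
        exact Nat.card_pos.ne this)
      have h2 : 1 < Nat.card K := lt_of_lt_of_le hr.one_lt (Nat.le_of_dvd Nat.card_pos hdvdK)
      nlinarith
    refine isSupersolvable_of_all_normal (p := r) K hKr ?_ hsq
    by_cases hc : IsCyclic K
    · exact Or.inl hc
    right
    obtain ⟨D, hDK, hD1, hD2, hF⟩ := h r hr K hKE hKr (by
      intro hd
      exact hr.one_lt.ne' (Nat.eq_one_of_dvd_coprimes hKc hdvdK hd)) hc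
    obtain ⟨d, hd⟩ := H18.card_isPGroup_iff.mp (H18.isPGroup_mono hKr hDK)
    have hd1 : 1 ≤ d := by
      rcases Nat.eq_zero_or_pos d with h0 | h0
      · rw [hd, h0, pow_zero] at hD1; omega
      · exact h0
    have hdn : d + 1 ≤ a := by
      rw [hd, ha] at hD2
      exact (Nat.pow_lt_pow_iff_right hr.one_lt).mp hD2
    refine ⟨d, hd1, by rw [ha]; exact Nat.pow_le_pow_right hr.pos hdn, ?_⟩
    intro F hFK hFc
    have hFh := hF F hFK (by rw [hd]; exact hFc)
    have hKF := le_normalizer_of_hsub hFK hKr hFh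
    rw [← normalizer_eq_top_iff, eq_top_iff]
    intro g _
    rw [H18.mem_normalizer_iff_map]
    have h1 : F.map (MulAut.conj g).toMonoidHom ≤ F := by
      refine le_trans (le_inf le_rfl ?_) (hFh g)
      refine le_trans ?_ hKF
      rintro _ ⟨x, hx, rfl⟩
      exact hKn.conj_mem x (hFK hx) g
    exact Subgroup.eq_of_le_of_card_ge h1 (by rw [card_map_of_injective (MulAut.conj g).injective])

end Cfsg.Agent.H19
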