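import Mathlib
import Cfsg.Agent.H19.IsoCube
import Cfsg.Agent.H19.AlpS5
import Cfsg.Agent.H22.OddPG10
import Cfsg.Agent.H23.PGroup2

/-!
# Stabilizers of chains and essential subgroups
-/

set_option autoImplicit false
set_option linter.all false

namespace Cfsg.Agent.H19

open Subgroup
open scoped commutatorElement

universe u

variable {G : Type u} [Group G] {p : ℕ}

theorem comm_mem_of_card [Finite G] [hp : Fact p.Prime] {R A B : Subgroup G} (hR : IsPGroup p R) (hA : IsPGroup p A)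
    (hRA : R ≤ normalizer (A : Set G)) (hRB : R ≤ normalizer (B : Set G)) (hAB : A ≤ normalizer (B : Set G))
    (hBA : B ≤ A) (hcard : Nat.card A ≤ p * Nat.card B) : ∀ r ∈ R, ∀ a ∈ A, ⁅r, a⁆ ∈ B := by
  obtain ⟨T, hT⟩ : ∃ T, T = R ⊔ A := ⟨_, rfl⟩
  have hTp : IsPGroup p T := by rw [hT]; exact H18.isPGroup_sup_of_le_normalizer hR hA hRA
  have hRT : R ≤ T := hT ▸ le_sup_left
  have hAT : A ≤ T := hT ▸ le_sup_right
  have hTA : T ≤ normalizer (A : Set G) := by rw [hT]; exact sup_le hRA le_normalizer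
  have hTB : T ≤ normalizer (B : Set G) := by rw [hT]; exact sup_le hRB hAB
  haveI hAn : (A.subgroupOf T).Normal := normal_subgroupOf_of_le_normalizer hTA
  haveI hBn : (B.subgroupOf T).Normal := normal_subgroupOf_of_le_normalizer hTB
  have hAn' : ((A.subgroupOf T).map (QuotientGroup.mk' (B.subgroupOf T))).Normal :=
    hAn.map _ (QuotientGroup.mk'_surjective _)
  have h1 : (A.subgroupOf T).map (QuotientGroup.mk' (B.subgroupOf T)) ≤ center (T ⧸ B.subgroupOf T) := by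
    apply H23.le_center_of_card_le (hTp.to_quotient _)
    have h2 : Nat.card ((A.subgroupOf T).map (QuotientGroup.mk' (B.subgroupOf T))) * Nat.card B = Nat.card A := by
      have h3 := H2.card_comap_mk' (B.subgroupOf T) ((A.subgroupOf T).map (QuotientGroup.mk' (B.subgroupOf T)))
      rw [Subgroup.comap_map_eq, QuotientGroup.ker_mk', sup_eq_left.2 (show B.subgroupOf T ≤ A.subgroupOf T from fun y hy => hBA hy),
        Nat.card_congr (Subgroup.subgroupOfEquivOfLe hAT).toEquiv,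
        Nat.card_congr (Subgroup.subgroupOfEquivOfLe (hBA.trans hAT)).toEquiv] at h3
      exact h3.symm
    have h3 : 0 < Nat.card B := Nat.card_pos
    rw [← h2] at hcard
    exact Nat.le_of_mul_le_mul_right hcard h3
  intro r hr a ha
  have h2 := mem_center_iff.1 (h1 ⟨⟨a, hAT ha⟩, ha, rfl⟩) (QuotientGroup.mk' _ ⟨r, hRT hr⟩)
  have h3 : QuotientGroup.mk' (B.subgroupOf T) ⁅(⟨r, hRT hr⟩ : T), ⟨a, hAT ha⟩⁆ = 1 := by
    rw [map_commutatorElement, commutatorElement_eq_one_iff_mul_comm]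
    exact h2
  have h4 : ⁅(⟨r, hRT hr⟩ : T), ⟨a, hAT ha⟩⁆ ∈ B.subgroupOf T := (QuotientGroup.eq_one_iff _).1 h3
  exact h4

/-- stabilizer of a section -/
def stb (N A B : Subgroup G) (hNB : N ≤ normalizer (B : Set G)) : Subgroup G where
  carrier := {n | n ∈ N ∧ ∀ a ∈ A, ⁅n, a⁆ ∈ B}
  one_mem' := ⟨one_mem _, fun a _ => by rw [commutatorElement_one_left]; exact one_mem _⟩
  mul_mem' := by
    rintro n m ⟨hn, hn'⟩ ⟨hm, hm'⟩
    refine ⟨mul_mem hn hm, fun a ha => ?_⟩
    have h1 : ⁅n * m, a⁆ = (n * ⁅m, a⁆ * n⁻¹) * ⁅n, a⁆ := by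
      rw [commutatorElement_def, commutatorElement_def, commutatorElement_def]; group
    rw [h1]
    exact mul_mem ((mem_normalizer_iff.1 (hNB hn) _).1 (hm' a ha)) (hn' a ha)
  inv_mem' := by
    rintro n ⟨hn, hn'⟩
    refine ⟨inv_mem hn, fun a ha => ?_⟩
    have h1 : ⁅n⁻¹, a⁆ = n⁻¹ * ⁅n, a⁆⁻¹ * n⁻¹⁻¹ := by
      rw [commutatorElement_def, commutatorElement_def]; group
    rw [h1]
    exact (mem_normalizer_iff.1 (hNB (inv_mem hn)) _).1 (inv_mem (hn' a ha))

theorem mem_stb {N A B : Subgroup G} {hNB : N ≤ normalizer (B : Set G)} {n : G} :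
    n ∈ stb N A B hNB ↔ n ∈ N ∧ ∀ a ∈ A, ⁅n, a⁆ ∈ B := Iff.rfl

theorem stb_le {N A B : Subgroup G} {hNB : N ≤ normalizer (B : Set G)} : stb N A B hNB ≤ N := fun n hn => hn.1

theorem le_normalizer_stb {N A B : Subgroup G} {hNB : N ≤ normalizer (B : Set G)} (hNA : N ≤ normalizer (A : Set G)) :
    N ≤ normalizer (stb N A B hNB : Set G) := by
  apply H18.le_normalizer_of_conj_mem
  intro m hm n hn
  refine ⟨mul_mem (mul_mem hm hn.1) (inv_mem hm), fun a ha => ?_⟩
  have h1 : ⁅m * n * m⁻¹, a⁆ = m * ⁅n, m⁻¹ * a * m⁻¹⁻¹⁆ * m⁻¹ := by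
    rw [commutatorElement_def, commutatorElement_def]; group
  rw [h1]
  exact (mem_normalizer_iff.1 (hNB hm) _).1 (hn.2 _ ((mem_normalizer_iff.1 (hNA (inv_mem hm)) _).1 ha))

theorem comm_le_of_stb {N A B K : Subgroup G} {hNB : N ≤ normalizer (B : Set G)} (hK : K ≤ stb N A B hNB) : ⁅A, K⁆ ≤ B := by
  rw [Subgroup.commutator_comm, Subgroup.commutator_le]
  intro k hk a ha
  exact (hK hk).2 a ha

section Ess

open Cfsg

variable [Finite G] [hp : Fact p.Prime] {P Q X : Subgroup G}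

theorem Ess.not_sylow (hE : Ess p P Q X) : ¬ P ⊓ normalizer (Q : Set G) ≤ Q := by
  intro h
  have h1 : L.SylIn p (P ⊓ normalizer (Q : Set G)) (normalizer (Q : Set G)) := hE.fn.2
  have h2 : P ⊓ normalizer (Q : Set G) = Q := le_antisymm h (le_inf hE.fn.1 le_normalizer)
  rw [h2] at h1
  exact h1.not_dvd (hE.dvd.trans ⟨_, (Subgroup.relIndex_mul_relIndex Q X _ hE.le hE.le').symm⟩)

/-- the star principle -/
theorem Ess.star (hE : Ess p P Q X) {D : Subgroup G}
    (crit : ∀ A : Subgroup G, A ≤ normalizer (Q : Set G) → (Nat.card A).Coprime p →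
      D ≤ centralizer (A : Set G) → Q ≤ centralizer (A : Set G)) {N₁ : Subgroup G}
    (h1 : N₁ ≤ normalizer (Q : Set G)) (h2 : normalizer (Q : Set G) ≤ normalizer (N₁ : Set G))
    (h3 : ∀ A : Subgroup G, A ≤ N₁ → (Nat.card A).Coprime p → D ≤ centralizer (A : Set G)) :
    ¬ P ⊓ normalizer (Q : Set G) ≤ N₁ := by
  intro hR
  have hn : (N₁.subgroupOf (normalizer (Q : Set G))).Normal := normal_subgroupOf_of_le_normalizer h2
  have hle : N₁.subgroupOf (normalizer (Q : Set G)) ≤ pPrimePCore p ↥(normalizer (Q : Set G)) := by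
    apply le_pPrimePCore hn
    intro y hy
    have hyN : (y : G) ∈ N₁ := hy
    obtain ⟨k, hk⟩ := H18.exists_pow_coprime (p := p) (y : G)
    have hA : zpowers ((y : G) ^ p ^ k) ≤ N₁ := by
      rw [zpowers_le]; exact pow_mem hyN _
    have hAc : (Nat.card (zpowers ((y : G) ^ p ^ k))).Coprime p := by rw [Nat.card_zpowers]; exact hk
    have h4 := crit _ (hA.trans h1) hAc (h3 _ hA hAc)
    have h5 : (y : G) ^ p ^ k ∈ Q ⊔ centralizer (Q : Set G) := by
      apply (le_sup_right : centralizer (Q : Set G) ≤ _)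
      rw [mem_centralizer_iff]
      intro q hq
      exact (mem_centralizer_iff.1 (h4 hq) _ (mem_zpowers _)).symm
    rw [← hE.rad] at h5
    obtain ⟨z, hz, hzy⟩ := h5
    have hzy' : z = y ^ p ^ k := Subtype.ext (by rw [Subgroup.coe_pow]; exact hzy)
    obtain ⟨m, hm⟩ := exists_pow_of_mem_pPrimePCore hz
    refine ⟨k + m, ?_⟩
    rw [pow_add, pow_mul, ← hzy']
    exact hm
  apply hE.not_sylow
  intro r hr
  have h4 : r ∈ Q ⊔ centralizer (Q : Set G) := by
    rw [← hE.rad]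
    exact ⟨⟨r, hr.2⟩, hle (hR hr), rfl⟩
  rw [H18.mem_sup_iff_of_le_normalizer (H18.le_normalizer_centralizer le_normalizer)] at h4
  obtain ⟨q, hq, c, hc, rfl⟩ := h4
  have hqP : q ∈ P := hE.fn.1 hq
  have hcP : c ∈ P := by
    have := mul_mem (inv_mem hqP) hr.1
    rwa [inv_mul_cancel_left] at this
  exact mul_mem hq (hE.cen (Subgroup.mem_inf.2 ⟨hcP, hc⟩))

end Ess

end Cfsg.Agent.H19
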