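import Mathlib
import Cfsg.Agent.H19.IsoStab

/-!
# Essential subgroups in rank two with an isolated element
-/

set_option autoImplicit false
set_option linter.all false

namespace Cfsg.Agent.H19

open Subgroup Cfsg
open scoped commutatorElement

universe u

variable {G : Type u} [Group G] {p : ℕ} [Finite G] [hp : Fact p.Prime] {P Q X : Subgroup G}

theorem Ess.chainA (hP : IsPGroup p P) (hE : Ess p P Q X) {D : Subgroup G}
    (crit : ∀ A : Subgroup G, A ≤ normalizer (Q : Set G) → (Nat.card A).Coprime p →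
      D ≤ centralizer (A : Set G) → Q ≤ centralizer (A : Set G)) (hDQ : D ≤ Q)
    (hD : normalizer (Q : Set G) ≤ normalizer (D : Set G)) {B C : Subgroup G}
    (hBD : B ≤ D) (hCB : C ≤ B) (hB : normalizer (Q : Set G) ≤ normalizer (B : Set G))
    (hC : normalizer (Q : Set G) ≤ centralizer (C : Set G))
    (h1 : ∀ r ∈ P ⊓ normalizer (Q : Set G), ∀ d ∈ D, ⁅r, d⁆ ∈ B)
    (h2 : ∀ r ∈ P ⊓ normalizer (Q : Set G), ∀ b ∈ B, ⁅r, b⁆ ∈ C) : False := by
  have hC' : normalizer (Q : Set G) ≤ normalizer (C : Set G) := hC.trans (centralizer_le_normalizer _)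
  have hQp : IsPGroup p Q := hP.to_le hE.fn.1
  have hcop : ∀ (K M : Subgroup G), M ≤ Q → (Nat.card K).Coprime p → (Nat.card K).Coprime (Nat.card M) := by
    intro K M hM hK
    obtain ⟨k, hk⟩ := IsPGroup.iff_card.1 (hQp.to_le hM)
    rw [hk]
    exact hK.pow_right k
  refine hE.star crit (N₁ := stb _ D B hB ⊓ stb _ B C hC') (inf_le_left.trans stb_le) ?_ ?_ ?_
  · exact H18.le_normalizer_inf (le_normalizer_stb hD) (le_normalizer_stb hB)
  · intro K hK hKc
    have hKN : K ≤ normalizer (Q : Set G) := hK.trans (inf_le_left.trans stb_le)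
    have h3 : C ≤ centralizer (K : Set G) := by
      rw [Subgroup.le_centralizer_iff]
      exact hKN.trans hC
    have h4 : B ≤ centralizer (K : Set G) :=
      H23.le_centralizer_of_commutator_le (hKN.trans hB) (hcop K B (hBD.trans hDQ) hKc)
        (comm_le_of_stb (hK.trans inf_le_right)) h3
    exact H23.le_centralizer_of_commutator_le (hKN.trans hD) (hcop K D hDQ hKc)
        (comm_le_of_stb (hK.trans inf_le_left)) h4
  · intro r hr
    exact ⟨⟨hr.2, h1 r hr⟩, ⟨hr.2, h2 r hr⟩⟩

theorem Ess.exists_D (hp2 : p ≠ 2) (hrank : PRankLE p 2 G) (hP : IsPGroup p P) (hE : Ess p P Q X) {x : G}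
    (hxp : x ^ p = 1) (hx1 : x ≠ 1) (hxQ : x ∈ Q) (hNx : normalizer (Q : Set G) ≤ centralizer ({x} : Set G)) :
    ∃ D ≤ Q, Cu p D x ∧ normalizer (Q : Set G) ≤ normalizer (D : Set G) ∧
      (∀ L : Subgroup G, zpowers x ≤ L → L ≤ D → normalizer (Q : Set G) ≤ normalizer (L : Set G) →
        L = zpowers x ∨ L = D) ∧
      ¬ ∀ r ∈ P ⊓ normalizer (Q : Set G), ∀ d ∈ D, ⁅r, d⁆ ∈ zpowers x := by
  have hQp : IsPGroup p Q := hP.to_le hE.fn.1
  obtain ⟨D, hDQ, hDN, hDe, hDc, -, crit⟩ := H22.exists_crit (p := p) hp2 hQp (pRankLE_of_subgroup hrank Q)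
  have hDp : IsPGroup p D := hQp.to_le hDQ
  have hRp : IsPGroup p (P ⊓ normalizer (Q : Set G) : Subgroup G) := hP.to_le inf_le_left
  have hxN : ∀ n ∈ normalizer (Q : Set G), n * x = x * n := fun n hn => mem_centralizer_singleton_iff.1 (hNx hn)
  have hxc : normalizer (Q : Set G) ≤ centralizer (zpowers x : Set G) := by
    intro n hn
    rw [mem_centralizer_iff]
    intro z hz
    exact (commute_zpowers (hxN n hn) z hz).symm
  have hcx : Nat.card (zpowers x) = p := by rw [Nat.card_zpowers, orderOf_eq_prime hxp hx1]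
  have hxn : normalizer (Q : Set G) ≤ normalizer (zpowers x : Set G) := hxc.trans (centralizer_le_normalizer _)
  have hbot : ∀ H : Subgroup G, H ≤ normalizer ((⊥ : Subgroup G) : Set G) := by
    intro H; rw [normalizer_eq_top]; exact le_top
  -- `D` is not abelian
  have hna : ¬ IsMulCommutative D := by
    intro hab
    have hc2 := hrank D hab hDe
    by_cases hxD : x ∈ D
    · refine hE.chainA hP crit hDQ hDN (B := zpowers x) (C := zpowers x) (zpowers_le.2 hxD) le_rfl hxn hxc ?_ ?_
      · apply comm_mem_of_card hRp hDp (inf_le_right.trans hDN) (inf_le_right.trans hxn)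
          ((hDQ.trans le_normalizer).trans hxn) (zpowers_le.2 hxD)
        rw [hcx, ← pow_two]; exact hc2
      · intro r hr b hb
        rw [commutatorElement_eq_one_iff_mul_comm.2 (commute_zpowers (hxN r hr.2) b hb)]
        exact one_mem _
    · -- `|D| ≤ p`
      have hDc : Nat.card D ≤ p := by
        have h1 : IsElementaryAbelian p (D ⊔ zpowers x : Subgroup G) := by
          apply H22.ea_sup_zpowers ⟨hab, hDe⟩ _ hxp
          rw [mem_centralizer_iff]
          intro d hd
          exact hxN d (le_normalizer (hDQ hd))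
        have h2 := hrank _ h1.1 h1.2
        have h3 := H22.card_mul_le_sup_zpowers (p := p) hQp (U := D) hDQ hxQ hxD
        have h4 : p * Nat.card D ≤ p * p := by
          calc p * Nat.card D ≤ _ := h3
            _ ≤ p ^ 2 := h2
            _ = p * p := by ring
        exact Nat.le_of_mul_le_mul_left h4 hp.out.pos
      refine hE.chainA hP crit hDQ hDN (B := ⊥) (C := ⊥) bot_le le_rfl (hbot _) ?_ ?_ ?_
      · intro n _
        rw [mem_centralizer_iff]
        intro z hz
        rw [SetLike.mem_coe, mem_bot] at hz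
        rw [hz]; simp
      · apply comm_mem_of_card hRp hDp (inf_le_right.trans hDN) (hbot _) (hbot _) bot_le
        rw [Subgroup.card_bot, mul_one]; exact hDc
      · intro r hr b hb
        rw [mem_bot] at hb
        rw [hb, commutatorElement_one_right]; exact one_mem _
  have hcard : Nat.card D = p ^ 3 := by
    obtain ⟨k, hk⟩ := IsPGroup.iff_card.1 hDp
    have h1 : ¬ k ≤ 2 := by
      intro h
      apply hna
      apply H23.isMulCommutative_of_card_le_sq hDp
      rw [hk]
      exact Nat.pow_le_pow_right hp.out.pos h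
    rw [hk] at hDc
    have h2 := (Nat.pow_le_pow_iff_right hp.out.one_lt).1 hDc
    have h3 : k = 3 := by omega
    rw [hk, h3]
  have hnab : ∃ a ∈ D, ∃ b ∈ D, a * b ≠ b * a := by
    by_contra hcon
    push Not at hcon
    exact hna ⟨⟨fun a b => Subtype.ext (hcon a a.2 b b.2)⟩⟩
  have hxDc : ∀ d ∈ D, x * d = d * x := fun d hd => (hxN d (le_normalizer (hDQ hd))).symm
  have hxD : x ∈ D := by
    obtain ⟨a, ha, b, hb, hab⟩ := hnab
    have h1 := (H22.cube_center hDp hcard hna).1
    obtain ⟨z, hz, hzo⟩ := exists_orderOf_eq_of_ne_bot (p := p)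
      (R := D ⊓ centralizer (D : Set G)) (hDp.to_le inf_le_left) (by
        intro h
        rw [h, Subgroup.card_bot] at h1
        exact hp.out.one_lt.ne h1)
    have hz1 : z ≠ 1 := by
      rintro rfl
      rw [orderOf_one] at hzo
      exact hp.out.one_lt.ne hzo
    have hzc : ∀ d ∈ D, z * d = d * z := fun d hd => (mem_centralizer_iff.1 hz.2 d hd).symm
    have haz : a ∉ zpowers z := by
      rintro ⟨i, rfl⟩
      exact hab (Commute.zpow_left (show Commute z b from hzc b hb) i).eq
    obtain ⟨c, hc, d, hd, e⟩ := mem_of_rank2 hrank (x := z) (z := a) (y := x) (by rw [← hzo]; exact pow_orderOf_eq_one z) hz1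
      (hDe a ha) haz hxp (hzc a ha) (hxDc z hz.1).symm (hxDc a ha).symm
    rw [← e]
    exact mul_mem ((zpowers_le.2 hz.1 : zpowers z ≤ D) hc) ((zpowers_le.2 ha : zpowers a ≤ D) hd)
  have hCu : Cu p D x := ⟨hcard, hDe, hnab, hxD, hx1, hxDc⟩
  refine ⟨D, hDQ, hCu, hDN, ?_, ?_⟩
  · intro L hxL hLD hLN
    by_contra hcon
    push Not at hcon
    have h1 : zpowers x < L := lt_of_le_of_ne hxL (Ne.symm hcon.1)
    have h2 : L < D := lt_of_le_of_ne hLD hcon.2
    have hLp : IsPGroup p L := hDp.to_le hLD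
    have hLc : Nat.card L = p ^ 2 := by
      obtain ⟨k, hk⟩ := IsPGroup.iff_card.1 hLp
      have h3 : Nat.card (zpowers x) < Nat.card L :=
        lt_of_le_of_ne (Nat.le_of_dvd Nat.card_pos (Subgroup.card_dvd_of_le h1.le))
          (fun h => h1.ne (Subgroup.eq_of_le_of_card_ge h1.le h.ge))
      have h4 : Nat.card L < Nat.card D :=
        lt_of_le_of_ne (Nat.le_of_dvd Nat.card_pos (Subgroup.card_dvd_of_le h2.le))
          (fun h => h2.ne (Subgroup.eq_of_le_of_card_ge h2.le h.ge))
      rw [hcx, hk] at h3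
      rw [hk, hcard] at h4
      have h5 : 1 < k := (Nat.pow_lt_pow_iff_right hp.out.one_lt).1 (by rw [pow_one]; exact h3)
      have h6 : k < 3 := (Nat.pow_lt_pow_iff_right hp.out.one_lt).1 h4
      have h7 : k = 2 := by omega
      rw [hk, h7]
    refine hE.chainA hP crit hDQ hDN (B := L) (C := zpowers x) hLD hxL hLN hxc ?_ ?_
    · apply comm_mem_of_card hRp hDp (inf_le_right.trans hDN) (inf_le_right.trans hLN)
          ((hDQ.trans le_normalizer).trans hLN) hLD
      rw [hcard, hLc, ← pow_succ']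
    · apply comm_mem_of_card hRp hLp (inf_le_right.trans hLN) (inf_le_right.trans hxn)
          (((hLD.trans hDQ).trans le_normalizer).trans hxn) hxL
      rw [hLc, hcx, ← pow_two]
  · intro h
    refine hE.chainA hP crit hDQ hDN (B := zpowers x) (C := zpowers x) (zpowers_le.2 hxD) le_rfl hxn hxc h ?_
    intro r hr b hb
    rw [commutatorElement_eq_one_iff_mul_comm.2 (commute_zpowers (hxN r hr.2) b hb)]
    exact one_mem _

end Cfsg.Agent.H19
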