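import Mathlib
import Cfsg.Agent.H19.AlpS5

/-!
# The focal subgroup theorem for strong conjugation families
-/

set_option autoImplicit false
set_option linter.all false

namespace Cfsg.Agent.H19

open Cfsg Subgroup Cfsg.Agent.L
open scoped commutatorElement

variable {G : Type*} [Group G] {p : ℕ}

theorem SCh.focal [Finite G] {S F : Subgroup G} {A : Set G} {g : G}
    (H : SCh S (GP p S) A g) : A ⊆ S →
    (∀ a ∈ S, ∀ y ∈ normalizer (S : Set G), a⁻¹ * (y⁻¹ * a * y) ∈ F) →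
    (∀ H x, GP p S H x → ∀ a ∈ H, a⁻¹ * (x⁻¹ * a * x) ∈ F) → ∀ a ∈ A, a⁻¹ * (g⁻¹ * a * g) ∈ F := by
  induction H with
  | base A y hy => intro hA h1 h2 a ha; exact h1 a (hA ha) y hy
  | cons A H x g hx hA _ ih =>
    intro hAS h1 h2 a ha
    have hxH : x ∈ nz H := GP.nz H x hx
    have hHS : H ≤ S := by
      obtain ⟨X, hX, -⟩ := hx
      exact hX.fn.1
    have h3 := ih (by
      rintro _ ⟨b, hb, rfl⟩
      apply hHS
      exact (mem_normalizer_iff.1 (inv_mem hxH) b).1 (hA hb)) h1 h2 (x⁻¹ * a * x⁻¹⁻¹) ⟨a, ha, rfl⟩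
    have h4 := h2 H x hx a (hA ha)
    have h5 : a⁻¹ * ((x * g)⁻¹ * a * (x * g)) =
        (a⁻¹ * (x⁻¹ * a * x)) * ((x⁻¹ * a * x⁻¹⁻¹)⁻¹ * (g⁻¹ * (x⁻¹ * a * x⁻¹⁻¹) * g)) := by group
    rw [h5]
    exact mul_mem h4 h3
  | left A c g hc _ ih =>
    intro hAS h1 h2 a ha
    have h3 := ih hAS h1 h2 a ha
    have h4 := mem_centralizer_iff.1 hc a ha
    have h5 : a⁻¹ * ((c * g)⁻¹ * a * (c * g)) = a⁻¹ * (g⁻¹ * a * g) := by
      have h6 : (c * g)⁻¹ * a * (c * g) = g⁻¹ * c⁻¹ * (a * c) * g := by group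
      rw [h6, h4]; group
    rw [h5]
    exact h3

theorem focal_alp [Finite G] [hp : Fact p.Prime] {P : Subgroup G} (hP : SylIn p P ⊤) (F : Subgroup G)
    (h1 : ∀ a ∈ P, ∀ y ∈ normalizer (P : Set G), a⁻¹ * (y⁻¹ * a * y) ∈ F)
    (h2 : ∀ H x, GP p P H x → ∀ a ∈ H, a⁻¹ * (x⁻¹ * a * x) ∈ F) : P ⊓ commutator G ≤ F := by
  obtain ⟨S, hS⟩ : ∃ S : Sylow p G, (S : Subgroup G) = P := by
    have hi := hP.not_dvd
    rw [Subgroup.relIndex_top_right] at hi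
    exact ⟨IsPGroup.toSylow hP.isPGroup hi, rfl⟩
  have h5 : P ⊓ commutator G = (S : Subgroup G).focalSubgroup := by
    rw [← Subgroup.commutator_inf_eq_focalSubgroup S, inf_comm, hS]
  rw [h5, hS, Subgroup.focalSubgroup, Subgroup.closure_le]
  rintro _ ⟨hm, x, hx, u, rfl⟩
  have h3 : u * x⁻¹ * u⁻¹ ∈ P := by
    have := mul_mem (inv_mem hx) hm
    rw [commutatorElement_def] at this
    convert this using 1; group
  have h6 := alpS P hP ({x⁻¹} : Set G) u⁻¹ (by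
    rintro _ rfl; exact inv_mem hx) (by
    rintro _ ⟨b, rfl, rfl⟩
    rw [inv_inv]
    exact h3)
  have h7 := h6.focal (F := F) (by rintro _ rfl; exact inv_mem hx) h1 h2 x⁻¹ rfl
  have h8 : ⁅x, u⁆ = x⁻¹⁻¹ * (u⁻¹⁻¹ * x⁻¹ * u⁻¹) := by rw [commutatorElement_def]; group
  rw [h8]
  exact h7

end Cfsg.Agent.H19
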