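import Mathlib

/-!
# Products of two opposite transvections
-/

set_option autoImplicit false
set_option linter.all false

namespace Cfsg.Agent.H19

open Subgroup

universe u

variable {G : Type u} [Group G] {p : ℕ}

theorem shear_zpow {r v w : G} {a : ℤ} (hv : r * v * r⁻¹ = v) (hw : r * w * r⁻¹ = w * v ^ a) (hvw : v * w = w * v) (k : ℤ) :
    r ^ k * v * (r ^ k)⁻¹ = v ∧ r ^ k * w * (r ^ k)⁻¹ = w * v ^ (a * k) := by
  have hc : Commute v w := hvw
  have h1 : ∀ k : ℤ, r ^ k * v * (r ^ k)⁻¹ = v := by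
    intro k
    have h2 : Commute r v := by
      change r * v = v * r
      rw [mul_inv_eq_iff_eq_mul] at hv
      exact hv
    have h3 := (h2.zpow_left k).eq
    rw [h3]; group
  refine ⟨h1 k, ?_⟩
  induction k using Int.induction_on with
  | zero => simp
  | succ i ih =>
    have e : r ^ ((i : ℤ) + 1) * w * (r ^ ((i : ℤ) + 1))⁻¹ = r * (r ^ (i : ℤ) * w * (r ^ (i : ℤ))⁻¹) * r⁻¹ := by
      rw [add_comm, zpow_add, zpow_one]; group
    rw [e, ih]
    have e2 : r * (w * v ^ (a * (i : ℤ))) * r⁻¹ = (r * w * r⁻¹) * (r * v * r⁻¹) ^ (a * (i : ℤ)) := by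
      rw [conj_zpow]; group
    rw [e2, hw, hv, mul_assoc, ← zpow_add]
    congr 2; ring
  | pred i ih =>
    have e : r ^ (-(i : ℤ) - 1) * w * (r ^ (-(i : ℤ) - 1))⁻¹ = r⁻¹ * (r ^ (-(i : ℤ)) * w * (r ^ (-(i : ℤ)))⁻¹) * r := by
      rw [sub_eq_add_neg, add_comm, zpow_add, zpow_neg_one]; group
    rw [e, ih]
    have hv' : r⁻¹ * v * r = v := by
      have := h1 (-1)
      rw [zpow_neg_one, inv_inv] at this; exact this
    have hw' : r⁻¹ * w * r = w * v ^ (-a) := by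
      have e3 : r⁻¹ * (r * w * r⁻¹) * r = w := by group
      rw [hw] at e3
      have e4 : r⁻¹ * (w * v ^ a) * r = (r⁻¹ * w * r) * (r⁻¹ * v * r) ^ a := by
        have := conj_zpow (i := a) (a := r⁻¹) (b := v)
        rw [inv_inv] at this
        rw [this]; group
      rw [e4, hv'] at e3
      rw [zpow_neg]
      exact eq_mul_inv_of_mul_eq e3
    have e5 : r⁻¹ * (w * v ^ (a * -(i : ℤ))) * r = (r⁻¹ * w * r) * (r⁻¹ * v * r) ^ (a * -(i : ℤ)) := by
      have := conj_zpow (i := a * -(i : ℤ)) (a := r⁻¹) (b := v)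
      rw [inv_inv] at this
      rw [this]; group
    rw [e5, hv', hw', mul_assoc, ← zpow_add]
    congr 2; ring

theorem exists_shear {r v w : G} {a : ℤ} (hv : r * v * r⁻¹ = v) (hw : r * w * r⁻¹ = w * v ^ a) (hvw : v * w = w * v)
    (hvp : v ^ p = 1) (ha : IsCoprime a (p : ℤ)) (c : ℤ) :
    ∃ ρ ∈ zpowers r, ρ * v * ρ⁻¹ = v ∧ ρ * w * ρ⁻¹ = w * v ^ c := by
  obtain ⟨u, t, hut⟩ := ha
  obtain ⟨h1, h2⟩ := shear_zpow hv hw hvw (u * c)
  refine ⟨r ^ (u * c), ⟨_, rfl⟩, h1, ?_⟩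
  rw [h2]
  congr 1
  have h3 : a * (u * c) = c + p * (-t * c) := by
    have : a * u = 1 - t * p := by linarith
    calc a * (u * c) = (a * u) * c := by ring
      _ = (1 - t * p) * c := by rw [this]
      _ = _ := by ring
  rw [h3, zpow_add, zpow_mul, zpow_natCast, hvp, one_zpow, mul_one]

/-- the diagonal element -/
theorem exists_diag {r r' v w : G} {a b : ℤ} (hv : r * v * r⁻¹ = v) (hw : r * w * r⁻¹ = w * v ^ a)
    (hw' : r' * w * r'⁻¹ = w) (hv' : r' * v * r'⁻¹ = v * w ^ b) (hvw : v * w = w * v)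
    (hvp : v ^ p = 1) (hwp : w ^ p = 1) (ha : IsCoprime a (p : ℤ)) (hb : IsCoprime b (p : ℤ)) {c d : ℤ}
    (hcd : (p : ℤ) ∣ c * d - 1) :
    ∃ s, s * v * s⁻¹ = v ^ c ∧ s * w * s⁻¹ = w ^ d := by
  have hC : Commute v w := hvw
  have step : ∀ c d : ℤ, (p : ℤ) ∣ c * d - 1 → ∃ m, m * v * m⁻¹ = w ^ (-d) ∧ m * w * m⁻¹ = v ^ c := by
    intro c d hcd
    obtain ⟨ρ, -, h1, h2⟩ := exists_shear hv hw hvw hvp ha c
    obtain ⟨σ, -, h3, h4⟩ := exists_shear hw' hv' hvw.symm hwp hb (-d)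
    obtain ⟨k, hk⟩ := hcd
    have hvk : v ^ (c * d) = v := by
      have : c * d = p * k + 1 := by linarith
      rw [this, zpow_add, zpow_mul, zpow_natCast, hvp, one_zpow, one_mul, zpow_one]
    have hwk : w ^ (c * d) = w := by
      have : c * d = p * k + 1 := by linarith
      rw [this, zpow_add, zpow_mul, zpow_natCast, hwp, one_zpow, one_mul, zpow_one]
    refine ⟨ρ * σ * ρ, ?_, ?_⟩
    · have e : (ρ * σ * ρ) * v * (ρ * σ * ρ)⁻¹ = ρ * (σ * (ρ * v * ρ⁻¹) * σ⁻¹) * ρ⁻¹ := by group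
      rw [e, h1, h4]
      have e2 : ρ * (v * w ^ (-d)) * ρ⁻¹ = (ρ * v * ρ⁻¹) * (ρ * w * ρ⁻¹) ^ (-d) := by
        rw [conj_zpow]; group
      rw [e2, h1, h2, (hC.symm.zpow_right c).mul_zpow, ← zpow_mul]
      have e3 : v ^ (c * -d) = v⁻¹ := by
        rw [mul_neg, zpow_neg, hvk]
      rw [e3]
      have e4 : Commute v (w ^ (-d)) := hC.zpow_right _
      rw [← mul_assoc, e4.eq, mul_inv_cancel_right]
    · have e : (ρ * σ * ρ) * w * (ρ * σ * ρ)⁻¹ = ρ * (σ * (ρ * w * ρ⁻¹) * σ⁻¹) * ρ⁻¹ := by group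
      rw [e, h2]
      have e1 : σ * (w * v ^ c) * σ⁻¹ = (σ * w * σ⁻¹) * (σ * v * σ⁻¹) ^ c := by
        rw [conj_zpow]; group
      rw [e1, h3, h4, (hC.zpow_right (-d)).mul_zpow, ← zpow_mul]
      have e3 : w ^ (-d * c) = w⁻¹ := by
        rw [neg_mul, zpow_neg, mul_comm d c, hwk]
      rw [e3]
      have e4 : w * (v ^ c * w⁻¹) = v ^ c := by
        have : Commute w (v ^ c) := hC.symm.zpow_right _
        rw [← mul_assoc, this.eq, mul_inv_cancel_right]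
      rw [e4, ← conj_zpow, h1]
  obtain ⟨m, hm1, hm2⟩ := step (-c) (-d) (by rw [neg_mul_neg]; exact hcd)
  obtain ⟨m', hm1', hm2'⟩ := step 1 1 (by simp)
  refine ⟨m * m', ?_, ?_⟩
  · have e : (m * m') * v * (m * m')⁻¹ = m * (m' * v * m'⁻¹) * m⁻¹ := by group
    rw [e, hm1', ← conj_zpow, hm2, ← zpow_mul]
    congr 1; ring
  · have e : (m * m') * w * (m * m')⁻¹ = m * (m' * w * m'⁻¹) * m⁻¹ := by group
    rw [e, hm2', ← conj_zpow, hm1, ← zpow_mul]
    congr 1; ring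

end Cfsg.Agent.H19
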