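import Mathlib
import Cfsg.Agent.H19.IsoEss1
import Cfsg.Agent.H19.IsoLin

/-!
# Frames: the action of the normalizer of an essential subgroup
-/

set_option autoImplicit false
set_option linter.all false

namespace Cfsg.Agent.H19

open Subgroup Cfsg
open scoped commutatorElement

universe u

variable {G : Type u} [Group G] {p : ℕ} [Finite G] [hp : Fact p.Prime]

theorem mem_normalizer_of_map_le {L : Subgroup G} {n : G} (h : L.map (MulAut.conj n).toMonoidHom ≤ L) :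
    n ∈ normalizer (L : Set G) := by
  rw [H18.mem_normalizer_iff_map]
  apply Subgroup.eq_of_le_of_card_ge h
  rw [Subgroup.card_map_of_injective (MulAut.conj n).injective]

theorem Cu.exists_fix {D : Subgroup G} {x : G} (C : Cu p D x) {R : Subgroup G} (hR : IsPGroup p R) (hDR : D ≤ R)
    (hRD : R ≤ normalizer (D : Set G)) (hRx : ∀ r ∈ R, r * x = x * r) :
    ∃ v ∈ D, v ∉ zpowers x ∧ ∀ r ∈ R, ⁅r, v⁆ ∈ zpowers x := by
  haveI hDn : (D.subgroupOf R).Normal := normal_subgroupOf_of_le_normalizer hRD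
  obtain ⟨Z, hZ⟩ : ∃ Z, Z = (zpowers x).subgroupOf R := ⟨_, rfl⟩
  have hZc : Z ≤ center R := by
    intro z hz
    rw [mem_center_iff]
    intro g
    rw [hZ] at hz
    exact Subtype.ext (commute_zpowers (hRx g g.2) z hz)
  haveI hZn : Z.Normal := by
    constructor
    intro z hz g
    have := mem_center_iff.1 (hZc hz) g
    rw [this]
    simpa using hz
  have hDn' : ((D.subgroupOf R).map (QuotientGroup.mk' Z)).Normal :=
    hDn.map _ (QuotientGroup.mk'_surjective _)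
  have hne : (D.subgroupOf R).map (QuotientGroup.mk' Z) ≠ ⊥ := by
    intro h
    obtain ⟨a, ha, b, hb, hab⟩ := C.nab
    have h1 : (⟨a, hDR ha⟩ : R) ∈ Z := by
      rw [← QuotientGroup.eq_one_iff, ← mem_bot, ← h]
      exact ⟨⟨a, hDR ha⟩, ha, rfl⟩
    rw [hZ] at h1
    exact hab (C.zx h1 (C.xc b hb).symm)
  have h1 := H2.inf_center_ne_bot_of_normal (hR.to_quotient Z) _ hne
  obtain ⟨y, hy, hy1⟩ : ∃ y, y ∈ (D.subgroupOf R).map (QuotientGroup.mk' Z) ⊓ center (R ⧸ Z) ∧ y ≠ 1 := by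
    by_contra hcon
    push Not at hcon
    apply h1
    rw [eq_bot_iff]
    intro y hy
    rw [mem_bot]
    exact hcon y hy
  obtain ⟨⟨v, hv, rfl⟩, hyc⟩ := hy
  refine ⟨v, hv, ?_, ?_⟩
  · intro h
    apply hy1
    apply (QuotientGroup.eq_one_iff _).2
    rw [hZ]; exact h
  · intro r hr
    have h2 := mem_center_iff.1 hyc (QuotientGroup.mk' Z ⟨r, hr⟩)
    have h3 : QuotientGroup.mk' Z ⁅(⟨r, hr⟩ : R), v⁆ = 1 := by
      rw [map_commutatorElement, commutatorElement_eq_one_iff_mul_comm]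
      exact h2
    have h4 : ⁅(⟨r, hr⟩ : R), v⁆ ∈ Z := (QuotientGroup.eq_one_iff _).1 h3
    rw [hZ] at h4
    exact h4

structure Fr (p : ℕ) (D R : Subgroup G) (x v w : G) : Prop where
  C : Cu p D x
  Dn : D.Normal
  xc : ∀ n : G, n * x = x * n
  DR : D ≤ R
  vD : v ∈ D
  wD : w ∈ D
  vx : v ∉ zpowers x
  wL : w ∉ zpowers x ⊔ zpowers v
  span : (zpowers x ⊔ zpowers v) ⊔ zpowers w = D
  Rv : ∀ r ∈ R, ⁅r, v⁆ ∈ zpowers x
  RD : ∀ r ∈ R, ∀ d ∈ D, ⁅r, d⁆ ∈ zpowers x ⊔ zpowers v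
  r0 : ∃ r ∈ R, ⁅r, w⁆ ∉ zpowers x
  diag : ∀ c d : ℤ, (p : ℤ) ∣ c * d - 1 → ∃ a ∈ normalizer (R : Set G), (∃ z ∈ zpowers x, a * v * a⁻¹ = v ^ c * z) ∧
    ∃ l ∈ zpowers x ⊔ zpowers v, a * w * a⁻¹ = l * w ^ d

theorem exists_Fr {D R : Subgroup G} [hDn : D.Normal] {x : G} (C : Cu p D x) (hxc : ∀ n : G, n * x = x * n)
    (irr : ∀ L : Subgroup G, zpowers x ≤ L → L ≤ D → L.Normal → L = zpowers x ∨ L = D) (hR : L.SylIn p R ⊤)
    (hDR : D ≤ R) (ntr : ¬ ∀ r ∈ R, ∀ d ∈ D, ⁅r, d⁆ ∈ zpowers x) : ∃ v w, Fr p D R x v w := by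
  have hDN : ∀ H : Subgroup G, H ≤ normalizer (D : Set G) := fun H => by rw [normalizer_eq_top]; exact le_top
  obtain ⟨v, hvD, hvx, hRv⟩ := C.exists_fix hR.isPGroup hDR (hDN R) (fun r _ => hxc r)
  obtain ⟨M, hM⟩ : ∃ M, M = zpowers x ⊔ zpowers v := ⟨_, rfl⟩
  have hxM : zpowers x ≤ M := hM ▸ le_sup_left
  have hvM : v ∈ M := hM ▸ (le_sup_right : zpowers v ≤ _) (mem_zpowers v)
  have hMD : M ≤ D := by rw [hM]; exact sup_le C.zle (zpowers_le.2 hvD)
  -- the quotient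
  have hZn : (zpowers x).Normal := by
    constructor
    intro z hz g
    have := commute_zpowers (hxc g) z hz
    rw [this]
    simpa using hz
  obtain ⟨f, hf⟩ : ∃ f : G →* G ⧸ zpowers x, f = QuotientGroup.mk' (zpowers x) := ⟨_, rfl⟩
  have hfs : Function.Surjective f := by rw [hf]; exact QuotientGroup.mk'_surjective _
  have hfk : ∀ y, f y = 1 ↔ y ∈ zpowers x := by intro y; rw [hf]; exact QuotientGroup.eq_one_iff y
  have hfx : (zpowers x).map f = ⊥ := by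
    rw [eq_bot_iff]
    rintro _ ⟨z, hz, rfl⟩
    rw [mem_bot, hfk]; exact hz
  have hfM : M.map f = zpowers (f v) := by
    rw [hM, Subgroup.map_sup, hfx, bot_sup_eq, MonoidHom.map_zpowers]
  have hmapM : ∀ n : G, n * v * n⁻¹ ∈ M → n ∈ normalizer (M : Set G) := by
    intro n hn
    apply mem_normalizer_of_map_le
    rw [hM, Subgroup.map_sup, MonoidHom.map_zpowers, MonoidHom.map_zpowers, ← hM]
    refine sup_le ?_ ?_
    · rw [zpowers_le]
      have : (MulAut.conj n).toMonoidHom x = x := by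
        change n * x * n⁻¹ = x
        rw [hxc]; group
      rw [this]
      exact hxM (mem_zpowers x)
    · rw [zpowers_le]; exact hn
  have hRM : R ≤ normalizer (M : Set G) := by
    intro r hr
    apply hmapM
    have h1 : r * v * r⁻¹ = ⁅r, v⁆ * v := by rw [commutatorElement_def]; group
    rw [h1]
    exact mul_mem (hxM (hRv r hr)) hvM
  have hMc : p * p ≤ Nat.card M := by
    have h1 := H22.card_mul_le_sup_zpowers (p := p) C.pg (U := zpowers x) C.zle hvD hvx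
    rw [C.card_x, ← hM] at h1
    exact h1
  have hMne : M ≠ D := by
    intro h
    obtain ⟨a, ha, b, hb, hab⟩ := C.nab
    rw [← h] at ha hb
    have hxx : ∀ z ∈ zpowers x, ∀ y : G, y * z = z * y := fun z hz y => commute_zpowers (hxc y) z hz
    have h2 : ∀ y ∈ M, y ∈ centralizer (M : Set G) := by
      have h3 : v ∈ centralizer (M : Set G) := by
        rw [hM]; exact mem_centralizer_sup (fun z hz => hxx z hz v) (commute_zpowers rfl)
      intro y hy
      rw [hM] at hy ⊢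
      refine mem_centralizer_sup (fun z hz => hxx z hz y) ?_
      have h4 : y * v = v * y := by
        rw [← hM] at hy
        exact (mem_centralizer_iff.1 h3 y hy)
      exact commute_zpowers h4
    exact hab (mem_centralizer_iff.1 (h2 b hb) a ha)
  have hRD : ∀ r ∈ R, ∀ d ∈ D, ⁅r, d⁆ ∈ M := by
    apply comm_mem_of_card hR.isPGroup C.pg (hDN R) hRM (hDR.trans hRM) hMD
    rw [C.card]
    calc p ^ 3 = p * (p * p) := by ring
      _ ≤ p * Nat.card M := Nat.mul_le_mul_left _ hMc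
  -- a second line
  obtain ⟨n, hn⟩ : ∃ n : G, n * v * n⁻¹ ∉ M := by
    by_contra hcon
    push Not at hcon
    have h1 : M.Normal := by
      rw [← normalizer_eq_top_iff, eq_top_iff]
      intro n _
      exact hmapM n (hcon n)
    rcases irr M hxM hMD h1 with h2 | h2
    · exact hvx (h2 ▸ hvM)
    · exact hMne h2
  obtain ⟨w, hw⟩ : ∃ w, w = n * v * n⁻¹ := ⟨_, rfl⟩
  rw [← hw] at hn
  have hwD : w ∈ D := by rw [hw]; exact hDn.conj_mem v hvD n
  have hspan : M ⊔ zpowers w = D := by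
    apply Subgroup.eq_of_le_of_card_ge
    · exact sup_le hMD (zpowers_le.2 hwD)
    · have h1 := H22.card_mul_le_sup_zpowers (p := p) C.pg (U := M) hMD hwD hn
      rw [C.card]
      calc p ^ 3 = p * (p * p) := by ring
        _ ≤ p * Nat.card M := Nat.mul_le_mul_left _ hMc
        _ ≤ _ := h1
  -- elements acting trivially on `v` and `w`
  have htriv : ∀ r : G, ⁅r, v⁆ ∈ zpowers x → ⁅r, w⁆ ∈ zpowers x → ∀ d ∈ D, ⁅r, d⁆ ∈ zpowers x := by
    intro r h1 h2
    have h3 : D ≤ (centralizer ({f r} : Set (G ⧸ zpowers x))).comap f := by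
      rw [← hspan, hM]
      have h4 : ∀ y, ⁅r, y⁆ ∈ zpowers x → y ∈ (centralizer ({f r} : Set (G ⧸ zpowers x))).comap f := by
        intro y hy
        rw [mem_comap, mem_centralizer_singleton_iff, ← map_mul, ← map_mul]
        rw [← hfk, map_commutatorElement, commutatorElement_eq_one_iff_mul_comm] at hy
        rw [map_mul, map_mul]; exact hy.symm
      refine sup_le (sup_le ?_ ?_) ?_
      · rw [zpowers_le]
        apply h4
        rw [commutatorElement_eq_one_iff_mul_comm.2 (hxc r)]; exact one_mem _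
      · rw [zpowers_le]; exact h4 v h1
      · rw [zpowers_le]; exact h4 w h2
    intro d hd
    have h5 := mem_centralizer_singleton_iff.1 (mem_comap.1 (h3 hd))
    rw [← hfk, map_commutatorElement, commutatorElement_eq_one_iff_mul_comm]
    exact h5.symm
  have hr0 : ∃ r ∈ R, ⁅r, w⁆ ∉ zpowers x := by
    by_contra hcon
    push Not at hcon
    exact ntr (fun r hr d hd => htriv r (hRv r hr) (hcon r hr) d hd)
  obtain ⟨r, hr, hrw⟩ := hr0
  -- in the quotient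
  have hfv : f v ^ p = 1 := by rw [← map_pow, C.exp v hvD, map_one]
  have hfw : f w ^ p = 1 := by rw [← map_pow, C.exp w hwD, map_one]
  have hfvw : f v * f w = f w * f v := by
    rw [← commutatorElement_eq_one_iff_mul_comm, ← map_commutatorElement, hfk]
    exact C.comm_mem hvD hwD
  have hconj : ∀ g y : G, f g * f y * (f g)⁻¹ = f ⁅g, y⁆ * f y := by
    intro g y
    rw [commutatorElement_def]; simp
  have hcopr : ∀ (y : G) (a : ℤ), f y ^ p = 1 → f y ^ a ≠ 1 → IsCoprime a (p : ℤ) := by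
    intro y a h1 h2
    apply IsCoprime.symm
    apply (Nat.prime_iff_prime_int.1 hp.out).coprime_iff_not_dvd.2
    rintro ⟨k, rfl⟩
    apply h2
    rw [zpow_mul, zpow_natCast, h1, one_zpow]
  have h1 : f r * f v * (f r)⁻¹ = f v := by
    rw [hconj, (hfk _).2 (hRv r hr), one_mul]
  obtain ⟨a, ha⟩ : ∃ a : ℤ, f ⁅r, w⁆ = f v ^ a := by
    have h2 : f ⁅r, w⁆ ∈ M.map f := ⟨_, hRD r hr w hwD, rfl⟩
    rw [hfM] at h2
    obtain ⟨a, ha⟩ := h2
    exact ⟨a, ha.symm⟩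
  have h2 : f r * f w * (f r)⁻¹ = f w * f v ^ a := by
    rw [hconj, ha]
    exact (Commute.zpow_left (show Commute (f v) (f w) from hfvw) a).eq
  have hac : IsCoprime a (p : ℤ) := hcopr v a hfv (by rw [← ha, Ne, hfk]; exact hrw)
  obtain ⟨r', hr'⟩ : ∃ r', r' = n * r * n⁻¹ := ⟨_, rfl⟩
  have hr'w : ⁅r', w⁆ ∈ zpowers x := by
    have h3 : ⁅r', w⁆ = n * ⁅r, v⁆ * n⁻¹ := by
      rw [hr', hw, commutatorElement_def, commutatorElement_def]; group
    rw [h3]
    exact hZn.conj_mem _ (hRv r hr) n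
  have hr'v : ⁅r', v⁆ ∉ zpowers x := by
    intro h3
    have h4 := htriv r' h3 hr'w (n * w * n⁻¹) (hDn.conj_mem w hwD n)
    apply hrw
    have h5 : ⁅r', n * w * n⁻¹⁆ = n * ⁅r, w⁆ * n⁻¹ := by
      rw [hr', commutatorElement_def, commutatorElement_def]; group
    rw [h5] at h4
    have h6 := hZn.conj_mem _ h4 n⁻¹
    have h7 : n⁻¹ * (n * ⁅r, w⁆ * n⁻¹) * n⁻¹⁻¹ = ⁅r, w⁆ := by group
    rwa [h7] at h6
  have h3 : f r' * f w * (f r')⁻¹ = f w := by
    rw [hconj, (hfk _).2 hr'w, one_mul]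
  obtain ⟨b, hb⟩ : ∃ b : ℤ, f ⁅r', v⁆ = f w ^ b := by
    have h4 : ⁅r', v⁆ = n * ⁅r, n⁻¹ * v * n⁻¹⁻¹⁆ * n⁻¹ := by
      rw [hr', commutatorElement_def, commutatorElement_def]; group
    have h5 := hRD r hr (n⁻¹ * v * n⁻¹⁻¹) (hDn.conj_mem v hvD n⁻¹)
    have h6 : f ⁅r, n⁻¹ * v * n⁻¹⁻¹⁆ ∈ M.map f := ⟨_, h5, rfl⟩
    rw [hfM] at h6
    obtain ⟨b, hb⟩ := h6
    refine ⟨b, ?_⟩
    have hb' : f v ^ b = f ⁅r, n⁻¹ * v * n⁻¹⁻¹⁆ := hb
    rw [h4, map_mul, map_mul, map_inv, ← hb', ← conj_zpow, hw, map_mul, map_mul, map_inv]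
  have h4 : f r' * f v * (f r')⁻¹ = f v * f w ^ b := by
    rw [hconj, hb]
    exact (Commute.zpow_left (show Commute (f w) (f v) from hfvw.symm) b).eq
  have hbc : IsCoprime b (p : ℤ) := hcopr w b hfw (by rw [← hb, Ne, hfk]; exact hr'v)
  refine ⟨v, w, C, hDn, hxc, hDR, hvD, hwD, hvx, by rw [← hM]; exact hn, by rw [← hM]; exact hspan, hRv,
    by rw [← hM]; exact hRD, ⟨r, hr, hrw⟩, ?_⟩
  intro c d hcd
  obtain ⟨s, hs1, hs2⟩ := exists_diag h1 h2 h3 h4 hfvw hfv hfw hac hbc hcd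
  obtain ⟨m, rfl⟩ := hfs s
  rw [← hM]
  -- `m` normalizes `M`
  have hmv : ∃ z ∈ zpowers x, m * v * m⁻¹ = v ^ c * z := by
    refine ⟨(v ^ c)⁻¹ * (m * v * m⁻¹), ?_, by group⟩
    rw [← hfk, map_mul, map_inv, map_zpow, map_mul, map_mul, map_inv, hs1, inv_mul_cancel]
  have hmw : ∃ z ∈ zpowers x, m * w * m⁻¹ = w ^ d * z := by
    refine ⟨(w ^ d)⁻¹ * (m * w * m⁻¹), ?_, by group⟩
    rw [← hfk, map_mul, map_inv, map_zpow, map_mul, map_mul, map_inv, hs2, inv_mul_cancel]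
  have hmM : m ∈ normalizer (M : Set G) := by
    apply hmapM
    obtain ⟨z, hz, e⟩ := hmv
    rw [e]
    exact mul_mem (zpow_mem hvM c) (hxM hz)
  have hNx : normalizer (M : Set G) ≤ normalizer (zpowers x : Set G) := by
    rw [normalizer_eq_top (zpowers x)]; exact le_top
  obtain ⟨T, hT⟩ : ∃ T, T = stb (normalizer (M : Set G)) D M le_rfl ⊓ stb (normalizer (M : Set G)) M (zpowers x) hNx := ⟨_, rfl⟩
  have hTN : T ≤ normalizer (M : Set G) := by rw [hT]; exact inf_le_left.trans stb_le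
  have hNT : normalizer (M : Set G) ≤ normalizer (T : Set G) := by
    rw [hT]
    exact H18.le_normalizer_inf (le_normalizer_stb (hDN _)) (le_normalizer_stb le_rfl)
  have hRT : R ≤ T := by
    intro g hg
    rw [hT]
    refine ⟨⟨hRM hg, hRD g hg⟩, ⟨hRM hg, ?_⟩⟩
    intro y hy
    have h5 : M ≤ (centralizer ({f g} : Set (G ⧸ zpowers x))).comap f := by
      have h4 : ∀ y, ⁅g, y⁆ ∈ zpowers x → y ∈ (centralizer ({f g} : Set (G ⧸ zpowers x))).comap f := by
        intro y hy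
        rw [mem_comap, mem_centralizer_singleton_iff]
        rw [← hfk, map_commutatorElement, commutatorElement_eq_one_iff_mul_comm] at hy
        exact hy.symm
      rw [hM]
      refine sup_le ?_ ?_
      · rw [zpowers_le]
        apply h4
        rw [commutatorElement_eq_one_iff_mul_comm.2 (hxc g)]; exact one_mem _
      · rw [zpowers_le]; exact h4 v (hRv g hg)
    have h6 := mem_centralizer_singleton_iff.1 (mem_comap.1 (h5 hy))
    rw [← hfk, map_commutatorElement, commutatorElement_eq_one_iff_mul_comm]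
    exact h6.symm
  have hRTs : L.SylIn p R T := hR.of_le hRT le_top
  obtain ⟨g, hg, c', hc', e⟩ := H18.frattini_sylIn hTN hNT hRTs hmM
  have hg' : g = m * c'⁻¹ := by rw [e]; group
  have hc'' : c'⁻¹ ∈ T := inv_mem hc'
  rw [hT] at hc''
  refine ⟨g, hg.2, ?_, ?_⟩
  · obtain ⟨z, hz, ez⟩ := hmv
    have h5 : c'⁻¹ * v * c'⁻¹⁻¹ = ⁅c'⁻¹, v⁆ * v := by rw [commutatorElement_def]; group
    have h6 := hc''.2.2 v hvM
    have h7 : m * ⁅c'⁻¹, v⁆ * m⁻¹ = ⁅c'⁻¹, v⁆ := by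
      rw [commute_zpowers (hxc m) _ h6]; group
    refine ⟨⁅c'⁻¹, v⁆ * z, mul_mem h6 hz, ?_⟩
    calc g * v * g⁻¹ = m * (c'⁻¹ * v * c'⁻¹⁻¹) * m⁻¹ := by rw [hg']; group
      _ = (m * ⁅c'⁻¹, v⁆ * m⁻¹) * (m * v * m⁻¹) := by rw [h5]; group
      _ = ⁅c'⁻¹, v⁆ * (v ^ c * z) := by rw [h7, ez]
      _ = v ^ c * (⁅c'⁻¹, v⁆ * z) := by
        have := commute_zpowers (hxc (v ^ c)) _ h6
        rw [← mul_assoc, ← mul_assoc, this]
  · obtain ⟨z, hz, ez⟩ := hmw
    have h5 : c'⁻¹ * w * c'⁻¹⁻¹ = ⁅c'⁻¹, w⁆ * w := by rw [commutatorElement_def]; group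
    have h6 := hc''.1.2 w hwD
    refine ⟨(m * ⁅c'⁻¹, w⁆ * m⁻¹) * z, mul_mem ((mem_normalizer_iff.1 hmM _).1 h6) (hxM hz), ?_⟩
    calc g * w * g⁻¹ = m * (c'⁻¹ * w * c'⁻¹⁻¹) * m⁻¹ := by rw [hg']; group
      _ = (m * ⁅c'⁻¹, w⁆ * m⁻¹) * (m * w * m⁻¹) := by rw [h5]; group
      _ = (m * ⁅c'⁻¹, w⁆ * m⁻¹) * (w ^ d * z) := by rw [ez]
      _ = (m * ⁅c'⁻¹, w⁆ * m⁻¹) * z * w ^ d := by
        have := commute_zpowers (hxc (w ^ d)) _ hz
        rw [this, ← mul_assoc]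

end Cfsg.Agent.H19
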