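import Mathlib
import Cfsg.Agent.H19.IsoFr
import Cfsg.Agent.H19.IsoL7

/-!
# Frames, II
-/

set_option autoImplicit false
set_option linter.all false

namespace Cfsg.Agent.H19

open Subgroup Cfsg
open scoped commutatorElement

universe u

variable {G : Type u} [Group G] {p : ℕ}

/-- elements of `R` inverted by `h` modulo `R'` -/
noncomputable def invSub (R : Subgroup G) (h : G) (hh : h ∈ normalizer (R : Set G)) : Subgroup G :=
  (((Abelianization.of (G := R)).comp ((Subgroup.normalizerMonoidHom R ⟨h, hh⟩ : R ≃* R) : R →* R)) *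
    (Abelianization.of (G := R))).ker.map R.subtype

theorem mem_invSub {R : Subgroup G} {h : G} {hh : h ∈ normalizer (R : Set G)} {g : G} :
    g ∈ invSub R h hh ↔ g ∈ R ∧ h * g * h⁻¹ * g ∈ ⁅R, R⁆ := by
  have hcm : ⁅R, R⁆ = (commutator R).map R.subtype := by
    rw [_root_.commutator_def, Subgroup.map_commutator, ← MonoidHom.range_eq_map, Subgroup.range_subtype]
  have key : ∀ y : R, y ∈ (((Abelianization.of (G := R)).comp ((Subgroup.normalizerMonoidHom R ⟨h, hh⟩ : R ≃* R) : R →* R)) *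
      (Abelianization.of (G := R))).ker ↔ h * y * h⁻¹ * y ∈ ⁅R, R⁆ := by
    intro y
    rw [MonoidHom.mem_ker, MonoidHom.mul_apply, MonoidHom.comp_apply, ← map_mul, ← MonoidHom.mem_ker, Abelianization.ker_of, hcm]
    constructor
    · intro h1; exact ⟨_, h1, rfl⟩
    · rintro ⟨z, hz, e⟩
      have : z = (Subgroup.normalizerMonoidHom R ⟨h, hh⟩ : R ≃* R) y * y := Subtype.ext e
      rw [this] at hz; exact hz
  constructor
  · rintro ⟨y, hy, rfl⟩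
    exact ⟨y.2, (key y).1 hy⟩
  · rintro ⟨h1, h2⟩
    exact ⟨⟨g, h1⟩, (key ⟨g, h1⟩).2 h2, rfl⟩

variable [Finite G] [hp : Fact p.Prime]

namespace Fr

variable {D R : Subgroup G} {x v w : G} (F : Fr p D R x v w)
include F

theorem xR : x ∈ R := F.DR F.C.xD

theorem MD : zpowers x ⊔ zpowers v ≤ D := sup_le F.C.zle (zpowers_le.2 F.vD)

theorem M_le : zpowers x ⊔ zpowers v ≤ ⁅R, R⁆ := by
  obtain ⟨r, hr, hrw⟩ := F.r0
  have hxR : zpowers x ≤ ⁅R, R⁆ := by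
    rw [← F.C.der]; exact commutator_mono F.DR F.DR
  have h1 := F.RD r hr w F.wD
  have h2 := H22.card_mul_le_sup_zpowers (p := p) F.C.pg (U := zpowers x) F.C.zle (F.MD h1) hrw
  rw [F.C.card_x] at h2
  have h3 := H22.card_mul_le_sup_zpowers (p := p) F.C.pg (U := zpowers x ⊔ zpowers v) F.MD F.wD F.wL
  rw [F.span, F.C.card] at h3
  have h4 : zpowers x ⊔ zpowers ⁅r, w⁆ = zpowers x ⊔ zpowers v := by
    apply Subgroup.eq_of_le_of_card_ge
    · exact sup_le le_sup_left (zpowers_le.2 h1)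
    · refine le_trans ?_ h2
      apply Nat.le_of_mul_le_mul_left _ hp.out.pos
      calc p * Nat.card (zpowers x ⊔ zpowers v : Subgroup G) ≤ p ^ 3 := h3
        _ = p * (p * p) := by ring
  rw [← h4]
  refine sup_le hxR ?_
  rw [zpowers_le]
  exact commutator_mem_commutator hr (F.DR F.wD)

theorem exists_t : ∃ t ∈ normalizer (R : Set G), ∀ d ∈ D, t * d * t⁻¹ * d ∈ ⁅R, R⁆ := by
  obtain ⟨a, haR, ⟨z, hz, hav⟩, l, hl, haw⟩ := F.diag (-1) (-1) (by norm_num)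
  refine ⟨a, haR, ?_⟩
  have hM := F.M_le
  have hle : D ≤ invSub R a haR := by
    rw [← F.span]
    refine sup_le (sup_le ?_ ?_) ?_
    · rw [zpowers_le, mem_invSub]
      refine ⟨F.xR, ?_⟩
      have h1 : a * x * a⁻¹ * x = x * x := by rw [F.xc a]; group
      rw [h1]
      have hx : x ∈ ⁅R, R⁆ := hM ((le_sup_left : zpowers x ≤ _) (mem_zpowers x))
      exact mul_mem hx hx
    · rw [zpowers_le, mem_invSub]
      refine ⟨F.DR F.vD, ?_⟩
      have hv : v ∈ ⁅R, R⁆ := hM ((le_sup_right : zpowers v ≤ _) (mem_zpowers v))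
      rw [hav]
      exact mul_mem (mul_mem (zpow_mem hv _) (hM ((le_sup_left : zpowers x ≤ _) hz))) hv
    · rw [zpowers_le, mem_invSub]
      refine ⟨F.DR F.wD, ?_⟩
      rw [haw, zpow_neg_one, inv_mul_cancel_right]
      exact hM hl
  intro d hd
  exact (mem_invSub.1 (hle hd)).2

theorem false_of_gt (hp3 : 3 < p) (hrank : PRankLE p 2 G) (hRp : IsPGroup p R) : False := by
  have hD := F.Dn
  obtain ⟨k₀, hk₀⟩ := hp.out.odd_of_ne_two (by omega : p ≠ 2)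
  obtain ⟨m, hm⟩ : ∃ m : ℕ, m = k₀ + 1 := ⟨_, rfl⟩
  have hpm : (p : ℤ) = 2 * (m : ℤ) - 1 := by rw [hm]; push_cast; omega
  obtain ⟨a, haR, ⟨z, hz, hav⟩, l, hl, haw⟩ := F.diag (2 : ℤ) (m : ℤ) ⟨1, by linarith⟩
  obtain ⟨M, hM⟩ : ∃ M, M = zpowers x ⊔ zpowers v := ⟨_, rfl⟩
  rw [← hM] at hl
  have hxM : zpowers x ≤ M := hM ▸ le_sup_left
  have hvM : v ∈ M := hM ▸ (le_sup_right : zpowers v ≤ _) (mem_zpowers v)
  have hMD : M ≤ D := by rw [hM]; exact F.MD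
  -- the quotient
  haveI hZn : (zpowers x).Normal := by
    constructor
    intro z hz g
    have := commute_zpowers (F.xc g) z hz
    rw [this]
    simpa using hz
  obtain ⟨f, hf⟩ : ∃ f : G →* G ⧸ zpowers x, f = QuotientGroup.mk' (zpowers x) := ⟨_, rfl⟩
  have hfk : ∀ y, f y = 1 ↔ y ∈ zpowers x := by intro y; rw [hf]; exact QuotientGroup.eq_one_iff y
  have hfx : (zpowers x).map f = ⊥ := by
    rw [eq_bot_iff]
    rintro _ ⟨z, hz, rfl⟩
    rw [mem_bot, hfk]; exact hz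
  have hfM : M.map f = zpowers (f v) := by
    rw [hM, Subgroup.map_sup, hfx, bot_sup_eq, MonoidHom.map_zpowers]
  have hfMm : ∀ y ∈ M, ∃ i : ℤ, f y = f v ^ i := by
    intro y hy
    have h1 : f y ∈ M.map f := ⟨_, hy, rfl⟩
    rw [hfM] at h1
    obtain ⟨i, hi⟩ := h1
    exact ⟨i, hi.symm⟩
  have hfv : f v ^ p = 1 := by rw [← map_pow, F.C.exp v F.vD, map_one]
  have hfw : f w ^ p = 1 := by rw [← map_pow, F.C.exp w F.wD, map_one]
  have hfD : ∀ y ∈ D, ∀ y' ∈ D, Commute (f y) (f y') := by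
    intro y hy y' hy'
    change f y * f y' = f y' * f y
    rw [← commutatorElement_eq_one_iff_mul_comm, ← map_commutatorElement, hfk]
    exact F.C.comm_mem hy hy'
  have hVW := hfD v F.vD w F.wD
  -- powers of `a`
  have hfav : f a * f v * (f a)⁻¹ = f v ^ 2 := by
    rw [← map_inv, ← map_mul, ← map_mul, hav, map_mul, (hfk z).2 hz, mul_one, map_zpow]
    exact zpow_natCast (f v) 2
  obtain ⟨i₀, hi₀⟩ := hfMm l hl
  have hfaw : f a * f w * (f a)⁻¹ = f v ^ i₀ * f w ^ m := by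
    rw [← map_inv, ← map_mul, ← map_mul, haw, map_mul, hi₀, map_zpow, zpow_natCast]
  have hpows : ∀ j : ℕ, (f a) ^ j * f v * ((f a) ^ j)⁻¹ = f v ^ (2 ^ j) ∧
      ∃ i : ℤ, (f a) ^ j * f w * ((f a) ^ j)⁻¹ = f v ^ i * f w ^ (m ^ j) := by
    intro j
    induction j with
    | zero => exact ⟨by simp, 0, by simp⟩
    | succ j ih =>
      obtain ⟨h1, i, h2⟩ := ih
      constructor
      · have e : (f a) ^ (j + 1) * f v * ((f a) ^ (j + 1))⁻¹ = f a * ((f a) ^ j * f v * ((f a) ^ j)⁻¹) * (f a)⁻¹ := by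
          rw [pow_succ']; group
        rw [e, h1, ← conj_pow, hfav, ← pow_mul, pow_succ, mul_comm 2]
      · have e : (f a) ^ (j + 1) * f w * ((f a) ^ (j + 1))⁻¹ = f a * ((f a) ^ j * f w * ((f a) ^ j)⁻¹) * (f a)⁻¹ := by
          rw [pow_succ']; group
        have e2 : f a * (f v ^ i * f w ^ (m ^ j)) * (f a)⁻¹ = (f a * f v * (f a)⁻¹) ^ i * (f a * f w * (f a)⁻¹) ^ (m ^ j) := by
          rw [conj_zpow, conj_pow]; group
        refine ⟨2 * i + i₀ * (m ^ j : ℕ), ?_⟩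
        rw [e, h2, e2, hfav, hfaw, ((hVW.zpow_left i₀).pow_right m).mul_pow, ← pow_mul, ← zpow_natCast (f v) 2, ← zpow_mul,
          ← zpow_natCast (f v ^ i₀), ← zpow_mul, ← mul_assoc, ← zpow_add, pow_succ' m j]
        norm_num
  obtain ⟨k, hk⟩ := H18.exists_pow_coprime (p := p) a
  obtain ⟨a₁, ha₁⟩ : ∃ a₁, a₁ = a ^ p ^ k := ⟨_, rfl⟩
  rw [← ha₁] at hk
  obtain ⟨h1, i₁, h2⟩ := hpows (p ^ k)
  rw [← map_pow, ← ha₁] at h1 h2
  have hfer : ∀ (y : G) (c : ℕ), f y ^ p = 1 → f y ^ (c ^ p ^ k) = f y ^ c := by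
    intro y c hy
    have h3 : orderOf (f y) ∣ p := orderOf_dvd_of_pow_eq_one hy
    rw [pow_eq_pow_iff_modEq]
    refine Nat.ModEq.of_dvd h3 ?_
    rw [← ZMod.natCast_eq_natCast_iff]
    push_cast
    exact ZMod.pow_card_pow (c : ZMod p)
  rw [hfer v 2 hfv] at h1
  rw [hfer w m hfw] at h2
  have ha₁R : a₁ ∈ normalizer (R : Set G) := by rw [ha₁]; exact pow_mem haR _
  obtain ⟨A, hA⟩ : ∃ A, A = zpowers a₁ := ⟨_, rfl⟩
  have haA : a₁ ∈ A := by rw [hA]; exact mem_zpowers _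
  have hAR : A ≤ normalizer (R : Set G) := by rw [hA, zpowers_le]; exact ha₁R
  have hAD : A ≤ normalizer (D : Set G) := by rw [normalizer_eq_top D]; exact le_top
  have hAc : (Nat.card A).Coprime p := by rw [hA, Nat.card_zpowers]; exact hk
  -- `D ≤ [D, A]`
  obtain ⟨D₁, hD₁⟩ : ∃ D₁, D₁ = ⁅D, A⁆ := ⟨_, rfl⟩
  have hcD₁ : ∀ d ∈ D, ⁅a₁, d⁆ ∈ D₁ := by
    intro d hd
    rw [hD₁, Subgroup.commutator_comm]
    exact commutator_mem_commutator haA hd
  have hxtop : zpowers x ≤ D₁ ⊔ zpowers x := le_sup_right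
  have hmod : ∀ (y : G) (y' : G), f y = f y' → y ∈ D₁ ⊔ zpowers x → y' ∈ D₁ ⊔ zpowers x := by
    intro y y' h3 h4
    have h5 : y⁻¹ * y' ∈ zpowers x := by rw [← hfk, map_mul, map_inv, h3, inv_mul_cancel]
    have h6 : y' = y * (y⁻¹ * y') := by group
    rw [h6]
    exact mul_mem h4 (hxtop h5)
  have hvD₁ : v ∈ D₁ ⊔ zpowers x := by
    refine hmod ⁅a₁, v⁆ v ?_ ((le_sup_left : D₁ ≤ _) (hcD₁ v F.vD))
    have h3 : f ⁅a₁, v⁆ = (f a₁ * f v * (f a₁)⁻¹) * (f v)⁻¹ := by rw [commutatorElement_def]; simp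
    rw [h3, h1, pow_two, mul_inv_cancel_right]
  have hwD₁ : w ∈ D₁ ⊔ zpowers x := by
    have h3 : f ⁅a₁, w⁆ = f (v ^ i₁ * w ^ ((m : ℤ) - 1)) := by
      have h4 : f ⁅a₁, w⁆ = (f a₁ * f w * (f a₁)⁻¹) * (f w)⁻¹ := by rw [commutatorElement_def]; simp
      rw [h4, h2, map_mul, map_zpow, map_zpow, zpow_sub, zpow_one, zpow_natCast, mul_assoc]
    have h4 := hmod _ _ h3 ((le_sup_left : D₁ ≤ _) (hcD₁ w F.wD))
    have h5 : w ^ ((m : ℤ) - 1) ∈ D₁ ⊔ zpowers x := by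
      have := mul_mem (inv_mem (zpow_mem hvD₁ i₁)) h4
      rwa [inv_mul_cancel_left] at this
    have h6 : (w ^ ((m : ℤ) - 1)) ^ (2 : ℤ) = w⁻¹ := by
      rw [← zpow_mul]
      have : ((m : ℤ) - 1) * 2 = p * 1 + (-1) := by linarith
      rw [this, zpow_add, zpow_mul, zpow_natCast, F.C.exp w F.wD, one_zpow, one_mul, zpow_neg_one]
    have h7 := zpow_mem h5 2
    rw [h6] at h7
    simpa using inv_mem h7
  have hDle : D ≤ D₁ ⊔ zpowers x := by
    rw [← F.span]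
    exact sup_le (sup_le le_sup_right (zpowers_le.2 hvD₁)) (zpowers_le.2 hwD₁)
  have hxD₁ : zpowers x ≤ D₁ := by
    rw [← F.C.der, Subgroup.commutator_le]
    intro y hy y' hy'
    have h3 : ∀ y ∈ D, ∃ d ∈ D₁, ∃ z ∈ zpowers x, y = d * z := by
      intro y hy
      have := hDle hy
      rw [H18.mem_sup_iff_of_le_normalizer (by rw [normalizer_eq_top (zpowers x)]; exact le_top)] at this
      obtain ⟨d, hd, z, hz, e⟩ := this
      exact ⟨d, hd, z, hz, e.symm⟩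
    obtain ⟨d, hd, z, hz, rfl⟩ := h3 y hy
    obtain ⟨d', hd', z', hz', rfl⟩ := h3 y' hy'
    have hz1 : ∀ g : G, g * z = z * g := fun g => commute_zpowers (F.xc g) z hz
    have hz1' : ∀ g : G, g * z' = z' * g := fun g => commute_zpowers (F.xc g) z' hz'
    have h4 : ⁅d * z, d' * z'⁆ = ⁅d, d'⁆ := by
      rw [commutatorElement_def, commutatorElement_def]
      calc d * z * (d' * z') * (d * z)⁻¹ * (d' * z')⁻¹ = d * (z * d') * z' * z⁻¹ * d⁻¹ * z'⁻¹ * d'⁻¹ := by group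
        _ = d * (d' * z) * z' * z⁻¹ * d⁻¹ * z'⁻¹ * d'⁻¹ := by rw [hz1 d']
        _ = d * d' * (z * z') * z⁻¹ * d⁻¹ * z'⁻¹ * d'⁻¹ := by group
        _ = d * d' * (z' * z) * z⁻¹ * d⁻¹ * z'⁻¹ * d'⁻¹ := by rw [hz1' z]
        _ = d * d' * (z' * d⁻¹) * z'⁻¹ * d'⁻¹ := by group
        _ = d * d' * (d⁻¹ * z') * z'⁻¹ * d'⁻¹ := by rw [hz1' d⁻¹]
        _ = d * d' * d⁻¹ * d'⁻¹ := by group
    rw [h4]
    exact mul_mem (mul_mem (mul_mem hd hd') (inv_mem hd)) (inv_mem hd')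
  obtain ⟨R₂, hR₂⟩ : ∃ R₂, R₂ = ⁅R, A⁆ := ⟨_, rfl⟩
  have hDR₂ : D ≤ R₂ := by
    refine (hDle.trans (sup_le le_rfl hxD₁)).trans ?_
    rw [hD₁, hR₂]
    exact commutator_mono F.DR le_rfl
  have hR₂R : R₂ ≤ R := by rw [hR₂]; exact H23.commutator_le_of_le_normalizer hAR
  have hcop : (Nat.card A).Coprime (Nat.card R) := by
    obtain ⟨j, hj⟩ := IsPGroup.iff_card.1 hRp
    rw [hj]; exact hAc.pow_right j
  have hCu := ell7 hp3 hrank (R := R₂) (A := A) (hRp.to_le hR₂R) (by rw [hR₂]; exact Subgroup.normalizer_commutator_ge_right _ _)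
    hAc (by rw [hR₂]; exact H23.commutator_commutator_eq hAR hcop) (hDR₂ F.C.xD) F.C.xp F.C.x1
    (fun r _ => (F.xc r).symm) (fun r _ => F.xc r)
  have hDeq : D = R₂ := Subgroup.eq_of_le_of_card_ge hDR₂ (by rw [F.C.card, hCu.card])
  -- the contradiction
  obtain ⟨r, hr, hrw⟩ := F.r0
  obtain ⟨e, he⟩ := hfMm ⁅r, w⁆ (by rw [hM]; exact F.RD r hr w F.wD)
  have hδ : a₁ * r * a₁⁻¹ * r⁻¹ ∈ D := by
    rw [hDeq, hR₂, Subgroup.commutator_comm, ← commutatorElement_def]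
    exact commutator_mem_commutator haA hr
  have hrv : f r * f v * (f r)⁻¹ = f v := by
    have : f r * f v * (f r)⁻¹ = f ⁅r, v⁆ * f v := by rw [commutatorElement_def]; simp
    rw [this, (hfk _).2 (F.Rv r hr), one_mul]
  have hrw' : f r * f w * (f r)⁻¹ = f v ^ e * f w := by
    have : f r * f w * (f r)⁻¹ = f ⁅r, w⁆ * f w := by rw [commutatorElement_def]; simp
    rw [this, he]
  obtain ⟨δ, hδd⟩ : ∃ δ, δ = f (a₁ * r * a₁⁻¹ * r⁻¹) := ⟨_, rfl⟩
  have hδv : Commute δ (f v) := by rw [hδd]; exact hfD _ hδ _ F.vD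
  have hδw : Commute δ (f w) := by rw [hδd]; exact hfD _ hδ _ F.wD
  have hδa : f a₁ * f r * (f a₁)⁻¹ = δ * f r := by rw [hδd]; simp
  have hL : f a₁ * (f r * f w * (f r)⁻¹) * (f a₁)⁻¹ = f v ^ (2 * e) * (f v ^ i₁ * f w ^ m) := by
    rw [hrw']
    have : f a₁ * (f v ^ e * f w) * (f a₁)⁻¹ = (f a₁ * f v * (f a₁)⁻¹) ^ e * (f a₁ * f w * (f a₁)⁻¹) := by
      rw [conj_zpow]; group
    rw [this, h1, h2, ← zpow_natCast (f v) 2, ← zpow_mul]
    norm_num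
  have hR' : f a₁ * (f r * f w * (f r)⁻¹) * (f a₁)⁻¹ = f v ^ i₁ * f v ^ (e * m) * f w ^ m := by
    have e1 : f a₁ * (f r * f w * (f r)⁻¹) * (f a₁)⁻¹ =
        (f a₁ * f r * (f a₁)⁻¹) * (f a₁ * f w * (f a₁)⁻¹) * (f a₁ * f r * (f a₁)⁻¹)⁻¹ := by group
    have e2 : (δ * f r) * (f v ^ i₁ * f w ^ m) * (δ * f r)⁻¹ = δ * ((f r * f v * (f r)⁻¹) ^ i₁ * (f r * f w * (f r)⁻¹) ^ m) * δ⁻¹ := by
      rw [conj_zpow, conj_pow]; group
    rw [e1, hδa, h2, e2, hrv, hrw', (hVW.zpow_left e).mul_pow, ← zpow_natCast (f v ^ e), ← zpow_mul]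
    have e3 : Commute δ (f v ^ i₁ * (f v ^ (e * (m : ℤ)) * f w ^ m)) :=
      (hδv.zpow_right _).mul_right ((hδv.zpow_right _).mul_right (hδw.pow_right _))
    rw [e3.eq, mul_inv_cancel_right, mul_assoc]
  rw [hL] at hR'
  have h5 : f v ^ (2 * e) = f v ^ (e * m) := by
    have h6 : f v ^ (2 * e) * (f v ^ i₁ * f w ^ m) = f v ^ (e * m) * (f v ^ i₁ * f w ^ m) := by
      rw [hR', ← mul_assoc, ← zpow_add, ← zpow_add, add_comm]
    exact mul_right_cancel h6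
  have h6 : (f v ^ e) ^ ((2 : ℤ) - m) = 1 := by
    rw [← zpow_mul]
    have : e * (2 - (m : ℤ)) = 2 * e - e * m := by ring
    rw [this, zpow_sub, h5, mul_inv_cancel]
  have h7 : f v ^ e ≠ 1 := by
    rw [← he, Ne, hfk]; exact hrw
  have h8 : orderOf (f v ^ e) = p := by
    apply orderOf_eq_prime _ h7
    rw [← zpow_natCast, ← zpow_mul, mul_comm, zpow_mul, zpow_natCast, hfv, one_zpow]
  have h9 := orderOf_dvd_iff_zpow_eq_one.2 h6
  rw [h8] at h9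
  obtain ⟨t, ht⟩ := h9
  have h10 : (p : ℤ) ∣ 3 := ⟨1 + 2 * t, by nlinarith⟩
  have h11 : p ∣ 3 := by exact_mod_cast h10
  have := Nat.le_of_dvd (by norm_num) h11
  omega

end Fr

end Cfsg.Agent.H19
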