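import Mathlib
import Cfsg.Agent.H19.IsoFr2
import Cfsg.Agent.H19.IsoFocal
import Cfsg.Agent.H19.Isolated2

/-!
# Essential subgroups in rank two with an isolated element, II
-/

set_option autoImplicit false
set_option linter.all false

namespace Cfsg.Agent.H19

open Subgroup Cfsg
open scoped commutatorElement

universe u

variable {G : Type u} [Group G] {p : ℕ} [Finite G] [hp : Fact p.Prime] {P Q X D : Subgroup G} {x : G}

structure ED (p : ℕ) (P Q D : Subgroup G) (x : G) : Prop where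
  DQ : D ≤ Q
  C : Cu p D x
  ND : normalizer (Q : Set G) ≤ normalizer (D : Set G)
  irr : ∀ L : Subgroup G, zpowers x ≤ L → L ≤ D → normalizer (Q : Set G) ≤ normalizer (L : Set G) →
        L = zpowers x ∨ L = D
  ntr : ¬ ∀ r ∈ P ⊓ normalizer (Q : Set G), ∀ d ∈ D, ⁅r, d⁆ ∈ zpowers x
  xN : ∀ n ∈ normalizer (Q : Set G), n * x = x * n
  QP : Q ≤ P
  Pp : IsPGroup p P

theorem exists_ED (hp2 : p ≠ 2) (hrank : PRankLE p 2 G) (hP : IsPGroup p P) (hE : Ess p P Q X)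
    (hxp : x ^ p = 1) (hx1 : x ≠ 1) (hxP : x ∈ P) (hiso : IsIsolated x) : ∃ D, ED p P Q D x := by
  have hxQ : x ∈ Q := by
    apply hE.cen
    refine Subgroup.mem_inf.2 ⟨hxP, ?_⟩
    rw [mem_centralizer_iff]
    intro q hq
    exact (isolated_commute hP hxP hiso q (hE.fn.1 hq)).eq.symm
  have hNx := isolated_normalizer_le hiso (hP.to_le hE.fn.1) hxQ
  obtain ⟨D, h1, h2, h3, h4, h5⟩ := hE.exists_D hp2 hrank hP hxp hx1 hxQ hNx
  exact ⟨D, h1, h2, h3, h4, h5, fun n hn => mem_centralizer_singleton_iff.1 (hNx hn), hE.fn.1, hP⟩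

namespace ED

variable (E : ED p P Q D x)
include E

theorem xQ : x ∈ Q := E.DQ E.C.xD

theorem Qp : IsPGroup p Q := E.Pp.to_le E.QP

theorem QD_comm : ∀ q ∈ Q, ∀ d ∈ D, ⁅q, d⁆ ∈ zpowers x := by
  have hQN : Q ≤ normalizer (Q : Set G) := le_normalizer
  have hxn : normalizer (Q : Set G) ≤ normalizer (zpowers x : Set G) := by
    apply H18.le_normalizer_of_conj_mem
    intro n hn z hz
    have := commute_zpowers (E.xN n hn) z hz
    rw [this]; simpa using hz
  obtain ⟨v, hvD, hvx, hv⟩ := E.C.exists_fix E.Qp E.DQ (hQN.trans E.ND) (fun r hr => E.xN r (hQN hr))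
  have hDx : D ≤ normalizer (zpowers x : Set G) := (E.DQ.trans hQN).trans hxn
  have h1 := E.irr (stb D Q (zpowers x) hDx) ?_ stb_le ?_
  · rcases h1 with h1 | h1
    · exfalso
      apply hvx
      rw [← h1]
      refine ⟨hvD, fun q hq => ?_⟩
      rw [← commutatorElement_inv]
      exact inv_mem (hv q hq)
    · intro q hq d hd
      rw [← h1] at hd
      have := hd.2 q hq
      rw [← commutatorElement_inv]
      exact inv_mem this
  · rw [zpowers_le]
    refine ⟨E.C.xD, fun q hq => ?_⟩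
    rw [commutatorElement_eq_one_iff_mul_comm.2 (E.xN q (hQN hq)).symm]
    exact one_mem _
  · apply H18.le_normalizer_of_conj_mem
    intro n hn d hd
    refine ⟨(mem_normalizer_iff.1 (E.ND hn) _).1 hd.1, fun q hq => ?_⟩
    have h2 : ⁅n * d * n⁻¹, q⁆ = n * ⁅d, n⁻¹ * q * n⁻¹⁻¹⁆ * n⁻¹ := by
      rw [commutatorElement_def, commutatorElement_def]; group
    rw [h2]
    have h3 := hd.2 _ ((mem_normalizer_iff.1 (inv_mem hn) q).1 hq)
    have := commute_zpowers (E.xN n hn) _ h3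
    rw [this]; simpa using h3

theorem split {q : G} (hq : q ∈ Q) : ∃ d ∈ D, ∃ z ∈ Q ⊓ centralizer (D : Set G), q = d * z := by
  obtain ⟨d, hd, z, hz, e⟩ := E.C.split (E.xN q (le_normalizer hq)) (E.QD_comm q hq)
  refine ⟨d, hd, z, Subgroup.mem_inf.2 ⟨?_, ?_⟩, e⟩
  · have : z = d⁻¹ * q := by rw [e]; group
    rw [this]
    exact mul_mem (inv_mem (E.DQ hd)) hq
  · rw [mem_centralizer_iff]
    intro y hy
    exact (hz y hy).symm

theorem Zcyc (hp2 : p ≠ 2) (hrank : PRankLE p 2 G) : IsCyclic ↥(Q ⊓ centralizer (D : Set G) : Subgroup G) := by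
  refine E.C.cyc hp2 hrank (E.Qp.to_le inf_le_left) ?_ ?_
  · intro z hz d hd
    exact (mem_centralizer_iff.1 hz.2 d hd).symm
  · refine Subgroup.mem_inf.2 ⟨E.xQ, ?_⟩
    rw [mem_centralizer_iff]
    intro d hd
    exact (E.C.xc d hd).symm

theorem class_two (hp2 : p ≠ 2) (hrank : PRankLE p 2 G) : ∀ a ∈ Q, ∀ b ∈ Q, ∀ c ∈ Q, ⁅⁅a, b⁆, c⁆ = 1 := by
  intro a ha b hb c hc
  obtain ⟨d, hd, z, hz, rfl⟩ := E.split ha
  obtain ⟨d', hd', z', hz', rfl⟩ := E.split hb
  haveI := E.Zcyc hp2 hrank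
  have hzz : z * z' = z' * z := congrArg Subtype.val (IsCyclic.commGroup.mul_comm (⟨z, hz⟩ :
    ↥(Q ⊓ centralizer (D : Set G) : Subgroup G)) ⟨z', hz'⟩)
  have hzd : ∀ y ∈ D, z * y = y * z := fun y hy => (mem_centralizer_iff.1 hz.2 y hy).symm
  have hzd' : ∀ y ∈ D, z' * y = y * z' := fun y hy => (mem_centralizer_iff.1 hz'.2 y hy).symm
  have h1 : ⁅d * z, d' * z'⁆ = ⁅d, d'⁆ := by
    rw [commutatorElement_def, commutatorElement_def]
    calc d * z * (d' * z') * (d * z)⁻¹ * (d' * z')⁻¹ = d * (z * d') * z' * z⁻¹ * d⁻¹ * z'⁻¹ * d'⁻¹ := by group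
      _ = d * (d' * z) * z' * z⁻¹ * d⁻¹ * z'⁻¹ * d'⁻¹ := by rw [hzd d' hd']
      _ = d * d' * (z * z') * z⁻¹ * d⁻¹ * z'⁻¹ * d'⁻¹ := by group
      _ = d * d' * (z' * z) * z⁻¹ * d⁻¹ * z'⁻¹ * d'⁻¹ := by rw [hzz]
      _ = d * d' * (z' * d⁻¹) * z'⁻¹ * d'⁻¹ := by group
      _ = d * d' * (d⁻¹ * z') * z'⁻¹ * d'⁻¹ := by rw [hzd' d⁻¹ (inv_mem hd)]
      _ = d * d' * d⁻¹ * d'⁻¹ := by group
  rw [h1, commutatorElement_eq_one_iff_mul_comm]
  exact E.C.zx (E.C.comm_mem hd hd') (E.xN c (le_normalizer hc))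

theorem class_three : ∃ a ∈ P ⊓ normalizer (Q : Set G), ∃ b ∈ P ⊓ normalizer (Q : Set G),
    ∃ c ∈ P ⊓ normalizer (Q : Set G), ⁅⁅a, b⁆, c⁆ ≠ 1 := by
  have hQR : Q ≤ P ⊓ normalizer (Q : Set G) := le_inf E.QP le_normalizer
  have h1 := E.ntr
  push Not at h1
  obtain ⟨r, hr, d, hd, hrd⟩ := h1
  have h2 : ⁅r, d⁆ ∈ D := by
    rw [commutatorElement_def]
    exact mul_mem ((mem_normalizer_iff.1 (E.ND hr.2) d).1 hd) (inv_mem hd)
  refine ⟨r, hr, d, hQR (E.DQ hd), ?_⟩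
  by_contra hcon
  push Not at hcon
  apply hrd
  apply E.C.mem_x_of_comm h2
  intro c hc
  have := hcon c (hQR (E.DQ hc))
  rwa [commutatorElement_eq_one_iff_mul_comm] at this

theorem res_comm (hp2 : p ≠ 2) (hrank : PRankLE p 2 G) {Y : Subgroup G} (hY : Y ≤ normalizer (Q : Set G)) :
    ∀ q ∈ Q, ∀ n ∈ (pResidual p ↥Y).map Y.subtype, ⁅q, n⁆ ∈ D := by
  have h1 : (pResidual p ↥Y).map Y.subtype ≤ centralizer ((Q ⊓ centralizer (D : Set G) : Subgroup G) : Set G) := by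
    rw [H18.pRes_eq_closure, Subgroup.closure_le]
    rintro a ⟨haY, hac⟩
    have haN := hY haY
    have h2 := E.C.cent_le hp2 hrank (Z := Q ⊓ centralizer (D : Set G)) (A := zpowers a) (E.Qp.to_le inf_le_left) (by
      intro z hz d hd
      exact (mem_centralizer_iff.1 hz.2 d hd).symm) (by
      rw [zpowers_le]
      exact H18.le_normalizer_inf le_rfl (H18.le_normalizer_centralizer E.ND) haN) (by rw [Nat.card_zpowers]; exact hac) (by
      intro y hy
      exact ((commute_zpowers (E.xN a haN).symm) y hy).symm)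
    rw [SetLike.mem_coe, mem_centralizer_iff]
    intro z hz
    exact (mem_centralizer_iff.1 (h2 hz) a (mem_zpowers a)).symm
  intro q hq n hn
  have hnN : n ∈ normalizer (Q : Set G) := hY (Subgroup.map_subtype_le _ hn)
  obtain ⟨d, hd, z, hz, rfl⟩ := E.split hq
  have h2 : z * n = n * z := mem_centralizer_iff.1 (h1 hn) z hz
  have h3 : ⁅d * z, n⁆ = d * (n * d * n⁻¹)⁻¹ := by
    rw [commutatorElement_def]
    calc d * z * n * (d * z)⁻¹ * n⁻¹ = d * (z * n) * z⁻¹ * d⁻¹ * n⁻¹ := by group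
      _ = d * (n * z) * z⁻¹ * d⁻¹ * n⁻¹ := by rw [h2]
      _ = _ := by group
  rw [h3]
  exact mul_mem hd (inv_mem ((mem_normalizer_iff.1 (E.ND hnN) d).1 hd))

/-- the frame in the normalizer -/
theorem exists_frame (hR : L.SylIn p (P ⊓ normalizer (Q : Set G)) (normalizer (Q : Set G))) :
    ∃ v w : ↥(normalizer (Q : Set G)), Fr p (D.subgroupOf (normalizer (Q : Set G)))
      ((P ⊓ normalizer (Q : Set G)).subgroupOf (normalizer (Q : Set G))) ⟨x, le_normalizer E.xQ⟩ v w := by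
  have hDN : D ≤ normalizer (Q : Set G) := E.DQ.trans le_normalizer
  haveI hDn : (D.subgroupOf (normalizer (Q : Set G))).Normal := normal_subgroupOf_of_le_normalizer E.ND
  have hzx : (zpowers (⟨x, le_normalizer E.xQ⟩ : ↥(normalizer (Q : Set G)))).map (normalizer (Q : Set G)).subtype = zpowers x := by
    rw [MonoidHom.map_zpowers]; rfl
  have hmem : ∀ y : ↥(normalizer (Q : Set G)), y ∈ zpowers (⟨x, le_normalizer E.xQ⟩ : ↥(normalizer (Q : Set G))) ↔
      (y : G) ∈ zpowers x := by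
    intro y
    rw [← hzx]
    constructor
    · intro h; exact ⟨y, h, rfl⟩
    · rintro ⟨z, hz, e⟩
      have : z = y := Subtype.ext e
      rwa [← this]
  have hsyl : L.SylIn p ((P ⊓ normalizer (Q : Set G)).subgroupOf (normalizer (Q : Set G))) ⊤ := by
    refine ⟨le_top, hR.isPGroup.comap_of_injective _ (Subgroup.subtype_injective _), ?_⟩
    rw [Subgroup.relIndex_top_right]
    exact hR.not_dvd
  refine exists_Fr ?_ ?_ ?_ hsyl ?_ ?_
  · refine ⟨?_, ?_, ?_, E.C.xD, ?_, ?_⟩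
    · rw [← E.C.card]
      exact Nat.card_congr (Subgroup.subgroupOfEquivOfLe hDN).toEquiv
    · intro d hd
      exact Subtype.ext (E.C.exp d hd)
    · obtain ⟨a, ha, b, hb, hab⟩ := E.C.nab
      exact ⟨⟨a, hDN ha⟩, ha, ⟨b, hDN hb⟩, hb, fun h => hab (congrArg Subtype.val h)⟩
    · intro h; exact E.C.x1 (congrArg Subtype.val h)
    · intro d hd
      exact Subtype.ext (E.C.xc d hd)
  · intro n
    exact Subtype.ext (E.xN n n.2)
  · intro L' h1 h2 h3
    have h4 := E.irr (L'.map (normalizer (Q : Set G)).subtype) (by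
      rw [← hzx]; exact Subgroup.map_mono h1) (by
      rintro _ ⟨y, hy, rfl⟩
      exact h2 hy) (by
      apply H18.le_normalizer_of_conj_mem
      rintro n hn _ ⟨y, hy, rfl⟩
      exact ⟨_, h3.conj_mem y hy ⟨n, hn⟩, rfl⟩)
    rcases h4 with h4 | h4
    · left
      rw [← hzx] at h4
      exact Subgroup.map_injective (Subgroup.subtype_injective _) h4
    · right
      apply Subgroup.map_injective (Subgroup.subtype_injective (normalizer (Q : Set G)))
      rw [h4, Subgroup.subgroupOf_map_subtype, inf_eq_left.2 hDN]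
  · intro d hd
    exact ⟨E.QP (E.DQ hd), d.2⟩
  · intro h
    apply E.ntr
    intro r hr d hd
    exact (hmem _).1 (h ⟨r, hr.2⟩ hr ⟨d, hDN hd⟩ hd)

theorem false_of_gt (hp3 : 3 < p) (hrank : PRankLE p 2 G)
    (hR : L.SylIn p (P ⊓ normalizer (Q : Set G)) (normalizer (Q : Set G))) : False := by
  obtain ⟨v, w, F⟩ := E.exists_frame hR
  exact F.false_of_gt hp3 (pRankLE_of_subgroup hrank _) (hR.isPGroup.comap_of_injective _ (Subgroup.subtype_injective _))

theorem exists_t (hR : L.SylIn p (P ⊓ normalizer (Q : Set G)) (normalizer (Q : Set G))) :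
    ∃ t ∈ normalizer ((P ⊓ normalizer (Q : Set G) : Subgroup G) : Set G), ∀ d ∈ D, t * d * t⁻¹ * d ∈ ⁅P, P⁆ := by
  obtain ⟨v, w, F⟩ := E.exists_frame hR
  obtain ⟨t, ht, h⟩ := F.exists_t
  refine ⟨t, ?_, ?_⟩
  · rw [mem_normalizer_iff] at ht ⊢
    intro y
    constructor
    · intro hy
      exact (ht ⟨y, hy.2⟩).1 hy
    · intro hy
      have h1 : y ∈ normalizer (Q : Set G) := by
        have := mul_mem (mul_mem (inv_mem t.2) hy.2) t.2
        have e : (t : G)⁻¹ * (t * y * (t : G)⁻¹) * t = y := by group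
        rwa [e] at this
      exact (ht ⟨y, h1⟩).2 hy
  · intro d hd
    have hDN : D ≤ normalizer (Q : Set G) := E.DQ.trans le_normalizer
    have h1 := h ⟨d, hDN hd⟩ hd
    have h2 : (t : G) * d * (t : G)⁻¹ * d ∈ (⁅(P ⊓ normalizer (Q : Set G)).subgroupOf (normalizer (Q : Set G)),
      (P ⊓ normalizer (Q : Set G)).subgroupOf (normalizer (Q : Set G))⁆ : Subgroup _).map (normalizer (Q : Set G)).subtype :=
      ⟨_, h1, rfl⟩
    rw [Subgroup.map_commutator, Subgroup.subgroupOf_map_subtype, inf_eq_left.2 inf_le_right] at h2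
    exact (commutator_mono inf_le_left inf_le_left) h2

end ED

theorem SCh.base_of_no {S : Subgroup G} {A : Set G} {g : G} (H : SCh S (GP p S) A g) :
    (∀ H y, GP p S H y → ¬ A ⊆ (H : Set G)) → ∃ c ∈ centralizer A, ∃ y ∈ normalizer (S : Set G), g = c * y := by
  induction H with
  | base A y hy => intro _; exact ⟨1, one_mem _, y, hy, by group⟩
  | cons A H x g hx hA _ ih => intro h; exact absurd hA (h H x hx)
  | left A c g hc _ ih =>
    intro h
    obtain ⟨c', hc', y, hy, rfl⟩ := ih h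
    exact ⟨c * c', mul_mem hc hc', y, hy, by group⟩

/-- the main conclusion about essential subgroups -/
theorem ess_key (hp2 : p ≠ 2) (hrank : PRankLE p 2 G) (hP : L.SylIn p P ⊤)
    (hxp : x ^ p = 1) (hx1 : x ≠ 1) (hxP : x ∈ P) (hiso : IsIsolated x) (hE : Ess p P Q X) :
    p = 3 ∧ (∃ a ∈ P, ∃ b ∈ P, ∃ c ∈ P, ⁅⁅a, b⁆, c⁆ ≠ 1) ∧ ∃ D : Subgroup G, D ≤ Q ∧
      (∀ q ∈ Q, ∀ n ∈ (pResidual p ↥X).map X.subtype, ⁅q, n⁆ ∈ D) ∧
      (∃ a ∈ D, ∃ b ∈ D, a * b ≠ b * a) ∧ (∀ d ∈ D, d ^ p = 1) ∧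
      ∃ h ∈ normalizer (P : Set G), ∀ d ∈ D, h * d * h⁻¹ * d ∈ ⁅P, P⁆ := by
  obtain ⟨D, E⟩ := exists_ED hp2 hrank hP.isPGroup hE hxp hx1 hxP hiso
  have hR : L.SylIn p (P ⊓ normalizer (Q : Set G)) (normalizer (Q : Set G)) := hE.fn.2
  refine ⟨?_, ?_, D, E.DQ, E.res_comm hp2 hrank hE.le', E.C.nab, E.C.exp, ?_⟩
  · by_contra h3
    have h4 : 3 < p := by
      have := hp.out.two_le
      omega
    exact E.false_of_gt h4 hrank hR
  · obtain ⟨a, ha, b, hb, c, hc, h⟩ := E.class_three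
    exact ⟨a, ha.1, b, hb.1, c, hc.1, h⟩
  · obtain ⟨t, ht, htd⟩ := E.exists_t hR
    have h1 := alpS P hP ((P ⊓ normalizer (Q : Set G) : Subgroup G) : Set G) t inf_le_left (by
      rintro _ ⟨b, hb, rfl⟩
      exact ((mem_normalizer_iff.1 (inv_mem ht) b).1 hb).1)
    obtain ⟨c, hc, y, hy, e⟩ := h1.base_of_no (by
      rintro H z ⟨Y, hEY, -⟩ hsub
      obtain ⟨D', E'⟩ := exists_ED hp2 hrank hP.isPGroup hEY hxp hx1 hxP hiso
      obtain ⟨a, ha, b, hb, c, hc, h⟩ := E.class_three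
      exact h (E'.class_two hp2 hrank a (hsub ha) b (hsub hb) c (hsub hc)))
    refine ⟨y, hy, ?_⟩
    intro d hd
    have hdR : d ∈ P ⊓ normalizer (Q : Set G) := ⟨E.QP (E.DQ hd), le_normalizer (E.DQ hd)⟩
    have h2 : t * d * t⁻¹ ∈ P ⊓ normalizer (Q : Set G) := (mem_normalizer_iff.1 ht d).1 hdR
    have h3 := mem_centralizer_iff.1 hc _ h2
    have h4 : y * d * y⁻¹ = t * d * t⁻¹ := by
      calc y * d * y⁻¹ = c⁻¹ * (c * y * d * (c * y)⁻¹) * c := by group
        _ = c⁻¹ * (t * d * t⁻¹ * c) := by rw [← e]; group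
        _ = c⁻¹ * (c * (t * d * t⁻¹)) := by rw [h3]
        _ = t * d * t⁻¹ := by group
    rw [h4]
    exact htd d hd

end Cfsg.Agent.H19
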