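import Mathlib
import Cfsg.Agent.H25.FrobKernel
import Cfsg.Agent.H1.FrobComp
import Cfsg.Agent.H19.Isolated
import Cfsg.Agent.H19.CentricRadical

/-!
# isolated `p`-elements centralizing all `p'`-subgroups they normalize are central
-/

set_option autoImplicit false
set_option linter.style.haveILetI false

namespace Cfsg.Agent.H19

open Subgroup
open scoped Pointwise

theorem isolated_central_aux {p : ℕ} [hp : Fact p.Prime] (n : ℕ) : ∀ (G : Type*) [Group G] [Finite G] (x : G),
    Nat.card G = n → (∃ k : ℕ, orderOf x = p ^ k) → Cfsg.IsIsolated x →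
    (∀ H : Subgroup G, (Nat.card H).Coprime p → (∀ h ∈ H, x * h * x⁻¹ ∈ H) → ∀ h ∈ H, x * h = h * x) →
    x ∈ Subgroup.center G := by
  induction n using Nat.strong_induction_on with
  | _ n ih =>
    intro G _ _ x hn hxp hiso hb
    by_contra hxc
    set C := centralizer ({x} : Set G) with hC
    have hxC : x ∈ C := mem_centralizer_singleton_iff.mpr rfl
    have hCtop : C ≠ ⊤ := by
      intro h
      apply hxc
      rw [mem_center_iff]
      intro g
      have h1 : g ∈ C := by rw [h]; exact mem_top g
      exact mem_centralizer_singleton_iff.mp h1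
    -- proper subgroups containing `x` lie in `C`
    have hprop : ∀ H : Subgroup G, x ∈ H → H ≠ ⊤ → H ≤ C := by
      intro H hxH hH
      have hlt : Nat.card H < n := by
        rw [← hn]
        exact lt_of_le_of_ne (Nat.le_of_dvd Nat.card_pos (card_subgroup_dvd_card H))
          (fun h => hH (eq_top_of_card_eq H h))
      have h1 := ih (Nat.card H) hlt H ⟨x, hxH⟩ rfl (by rw [Subgroup.orderOf_mk]; exact hxp)
        (isolated_of_subgroup hxH hiso) (by
          intro K hK hKn k hk
          have hK' : (Nat.card (K.map H.subtype)).Coprime p := by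
            rw [card_map_of_injective H.subtype_injective]; exact hK
          refine Subtype.ext (hb (K.map H.subtype) hK' ?_ k ⟨k, hk, rfl⟩)
          rintro _ ⟨k', hk', rfl⟩
          exact ⟨_, hKn k' hk', rfl⟩)
      intro h hh
      have h2 := mem_center_iff.mp h1 ⟨h, hh⟩
      exact mem_centralizer_singleton_iff.mpr (congrArg Subtype.val h2)
    -- `C` meets its conjugates in `Z(G)`
    have hTI : ∀ g : G, g ∉ C → C ⊓ MulAut.conj g • C ≤ center G := by
      intro g hg
      set D := C ⊓ MulAut.conj g • C with hD
      have hxD : x ∈ centralizer (D : Set G) := by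
        rw [mem_centralizer_iff]
        intro d hd
        exact mem_centralizer_singleton_iff.mp (mem_inf.mp hd).1
      have hgD : g * x * g⁻¹ ∈ centralizer (D : Set G) := by
        rw [mem_centralizer_iff]
        intro d hd
        have h1 := (mem_inf.mp hd).2
        rw [H1.mem_conj_smul] at h1
        have h2 := mem_centralizer_singleton_iff.mp h1
        calc d * (g * x * g⁻¹) = g * ((g⁻¹ * d * g) * x) * g⁻¹ := by group
          _ = g * (x * (g⁻¹ * d * g)) * g⁻¹ := by rw [h2]
          _ = _ := by group
      have htop : centralizer (D : Set G) = ⊤ := by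
        by_contra hne
        have h1 := hprop _ hxD hne hgD
        have h2 : Commute x (g * x * g⁻¹) := (mem_centralizer_singleton_iff.mp h1).symm
        have h3 := hiso g h2
        apply hg
        rw [mem_centralizer_singleton_iff]
        calc g * x = (g * x * g⁻¹) * g := by group
          _ = x * g := by rw [h3]
      intro d hd
      rw [mem_center_iff]
      intro y
      exact (mem_centralizer_iff.mp (htop ▸ mem_top y) d hd).symm
    set Z := center G with hZ
    have hZC : Z ≤ C := fun z hz => mem_centralizer_singleton_iff.mpr ((mem_center_iff.mp hz x).symm)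
    set π := QuotientGroup.mk' Z with hπ
    have hker : π.ker = Z := QuotientGroup.ker_mk' Z
    have hfrob : Cfsg.IsFrobeniusComplement (C.map π) := by
      refine ⟨?_, ?_, ?_⟩
      · intro h
        rw [Subgroup.map_eq_bot_iff, hker] at h
        exact hxc (h hxC)
      · intro h
        apply hCtop
        have h1 := congrArg (Subgroup.comap π) h
        rw [Subgroup.comap_map_eq, hker, sup_eq_left.mpr hZC, Subgroup.comap_top] at h1
        exact h1
      · intro gb hgb
        obtain ⟨g, rfl⟩ := QuotientGroup.mk'_surjective Z gb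
        have hg : g ∉ C := fun h => hgb ⟨g, h, rfl⟩
        rw [eq_bot_iff]
        intro yb hyb
        obtain ⟨h1, h2⟩ := mem_inf.mp hyb
        rw [← H1.map_conj_smul] at h2
        obtain ⟨y, hy, rfl⟩ := h1
        obtain ⟨y', hy', hyy⟩ := h2
        have h3 : y' ∈ C := by
          have h4 : y⁻¹ * y' ∈ Z := by
            rw [← hker, MonoidHom.mem_ker, map_mul, map_inv, hyy, inv_mul_cancel]
          have h5 : y' = y * (y⁻¹ * y') := by group
          rw [h5]; exact C.mul_mem hy (hZC h4)
        have h4 : y' ∈ Z := hTI g hg (mem_inf.mpr ⟨h3, hy'⟩)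
        rw [mem_bot, ← hyy]
        exact (QuotientGroup.eq_one_iff y').mpr h4
    obtain ⟨N, -, hNn, hNc⟩ := Cfsg.Agent.H25.frobenius_kernel hfrob
    have hcop := H1.frob_coprime hfrob
    set K := N.comap π with hK
    have hKn : K.Normal := hNn.comap π
    have hZK : Z ≤ K := by
      intro z hz
      rw [hK, mem_comap]
      have : π z = 1 := (QuotientGroup.eq_one_iff z).mpr hz
      rw [this]; exact one_mem _
    have hKmap : K.map π = N := Subgroup.map_comap_eq_self_of_surjective (QuotientGroup.mk'_surjective Z) N
    -- `p` divides `|C / Z|`, so not `|K / Z|`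
    have hpC : p ∣ Nat.card (C.map π) := by
      obtain ⟨k, hk⟩ := hxp
      have hx1 : π x ≠ 1 := fun h => hxc ((QuotientGroup.eq_one_iff x).mp h)
      have h1 : orderOf (π x) ∣ p ^ k := by rw [← hk]; exact orderOf_map_dvd _ _
      obtain ⟨j, _, hj⟩ := (Nat.dvd_prime_pow hp.out).mp h1
      have hj0 : j ≠ 0 := by
        rintro rfl
        exact hx1 (orderOf_eq_one_iff.mp (by rw [hj, pow_zero]))
      have h2 : orderOf (π x) ∣ Nat.card (C.map π) := Subgroup.orderOf_dvd_natCard _ ⟨x, hxC, rfl⟩
      rw [hj] at h2
      exact (dvd_pow_self p hj0).trans h2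
    have hNp : ¬ p ∣ Z.relIndex K := by
      intro h
      have h1 : Nat.card N = (C.map π).index := by
        have h2 := hNc.card_mul_card
        have h3 := (C.map π).card_mul_index
        rw [mul_comm] at h2
        exact Nat.eq_of_mul_eq_mul_left Nat.card_pos (h2.trans h3.symm)
      have h2 : Z.relIndex K = Nat.card N := by rw [← hKmap, H1.card_map_mk' Z K]
      rw [h2, h1] at h
      exact hp.out.one_lt.ne' (Nat.eq_one_of_dvd_coprimes hcop hpC h)
    obtain ⟨Zp, hZp⟩ := H23.exists_isSylowOf p Z
    obtain ⟨K₀, hK₀K, hK₀c, hK₀s, hK₀n⟩ := exists_pprime_of_central (Z := Zp) (C := K) (hZp.le.trans hZK) hZp.isPGroup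
      (by
        intro k _
        rw [mem_centralizer_iff]
        intro z hz
        exact (mem_center_iff.mp (hZp.le hz) k).symm) (by
        rw [← relIndex_mul_relIndex Zp Z K hZp.le hZK]
        intro hd
        rcases (Nat.Prime.dvd_mul hp.out).mp hd with hd | hd
        · exact hZp.not_dvd hd
        · exact hNp hd)
    have hKC : K ≤ C := by
      rw [← hK₀s]
      refine sup_le (hZp.le.trans hZC) (fun h hh => ?_)
      have hxn : x ∈ normalizer (K₀ : Set G) := hK₀n (by rw [normalizer_eq_top_iff.mpr hKn]; exact mem_top x)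
      exact mem_centralizer_singleton_iff.mpr ((hb K₀ hK₀c (fun h hh => H18.conj_mem_of_mem_normalizer hxn hh) h hh).symm)
    -- contradiction
    have h1 : N ≤ C.map π := by rw [← hKmap]; exact Subgroup.map_mono hKC
    have h2 := hNc.sup_eq_top
    rw [sup_eq_right.mpr h1] at h2
    exact hfrob.2.1 h2

theorem isolated_central {G : Type*} [Group G] [Finite G] {p : ℕ} [Fact p.Prime] {x : G}
    (hxp : ∃ k : ℕ, orderOf x = p ^ k) (hiso : Cfsg.IsIsolated x)
    (hb : ∀ H : Subgroup G, (Nat.card H).Coprime p → (∀ h ∈ H, x * h * x⁻¹ ∈ H) → ∀ h ∈ H, x * h = h * x) :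
    x ∈ Subgroup.center G :=
  isolated_central_aux _ G x rfl hxp hiso hb

end Cfsg.Agent.H19
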