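import Mathlib
import Cfsg.Agent.H19.IsoT2
import Cfsg.Agent.H19.Cube
import Cfsg.Agent.H2.Cyc
import Cfsg.Agent.H23.Pow3

/-!
# Rank two `p`-groups inverted modulo the derived group, III
-/

set_option autoImplicit false
set_option linter.all false

namespace Cfsg.Agent.H19

open Subgroup
open scoped commutatorElement

universe u

theorem pow_index_mem_commutator {G : Type u} [Group G] [Finite G] (M : Subgroup G) {w : G} (hw : w ∈ center G)
    (hwc : w ∈ commutator G) : w ^ M.index ∈ ⁅M, M⁆ := by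
  have key : ∀ (k : ℕ) (g₀ : G), g₀⁻¹ * w ^ k * g₀ ∈ M → g₀⁻¹ * w ^ k * g₀ = w ^ k := by
    intro k g₀ _
    have h1 := mem_center_iff.1 (pow_mem hw k) g₀
    calc g₀⁻¹ * w ^ k * g₀ = g₀⁻¹ * (w ^ k * g₀) := by group
      _ = g₀⁻¹ * (g₀ * w ^ k) := by rw [h1]
      _ = w ^ k := by group
  have h1 := MonoidHom.transfer_eq_pow (H := M) (Abelianization.of (G := M)) w key
  have h2 : MonoidHom.transfer (Abelianization.of (G := M)) w = 1 :=
    Abelianization.commutator_subset_ker _ hwc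
  rw [h2] at h1
  have h3 : (⟨w ^ M.index, MonoidHom.transfer_eq_pow_aux w key⟩ : M) ∈ commutator M := by
    rw [← Abelianization.ker_of M]
    exact h1.symm
  have h4 : w ^ M.index ∈ (commutator M).map M.subtype := ⟨_, h3, rfl⟩
  rw [_root_.commutator_def, Subgroup.map_commutator, ← MonoidHom.range_eq_map, Subgroup.range_subtype] at h4
  exact h4

variable {G : Type u} [Group G] {p : ℕ} {P E : Subgroup G} {x h : G}

namespace TD

variable [Finite G] [hp : Fact p.Prime] (D : TD p P E x h)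
include D

theorem index_M : ((P ⊓ centralizer (E : Set G)).subgroupOf P).index = p := by
  obtain ⟨y, hy, hyx⟩ := D.exists_y
  have h1 : (P ⊓ centralizer (E : Set G)).subgroupOf P = (D.chi hy).ker := by
    ext g
    rw [mem_subgroupOf, MonoidHom.mem_ker]
    have h2 : D.chi hy g = ⁅(g : G), y⁆ := rfl
    rw [h2, commutatorElement_eq_one_iff_mul_comm]
    constructor
    · rintro ⟨-, h3⟩
      exact D.le_comm_of_centralizer h3 hy
    · intro h3
      exact ⟨g.2, D.cent_of_comm g.2 hy hyx h3⟩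
  rw [h1, Subgroup.index_ker]
  have h2 : (D.chi hy).range ≤ zpowers x := by
    rintro _ ⟨g, rfl⟩
    exact D.comm_mem g.2 hy
  have h3 := Subgroup.card_dvd_of_le h2
  rw [D.card_x] at h3
  rcases (Nat.dvd_prime hp.out).1 h3 with h4 | h4
  · exfalso
    apply D.nc
    intro g hg
    have h5 : (D.chi hy).range = ⊥ := Subgroup.card_eq_one.1 h4
    have h6 : ⁅g, y⁆ ∈ (D.chi hy).range := ⟨⟨g, hg⟩, rfl⟩
    rw [h5, mem_bot, commutatorElement_eq_one_iff_mul_comm] at h6
    exact D.cent_of_comm hg hy hyx h6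
  · exact h4

theorem mem_of_B {w : G} (hw : ∀ b ∈ P, b ∉ centralizer (E : Set G) → h * b * h⁻¹ = b⁻¹ → w * b = b * w)
    (hwX : w ∈ P ⊓ centralizer (E : Set G)) (hwh : h * w = w * h) : ∀ g ∈ P, w * g = g * w := by
  obtain ⟨b, hb, hbE, hbh⟩ := D.exists_b
  have hwb := hw b hb hbE hbh
  -- `C_P(w) P' = P`
  have hle : P ≤ (P ⊓ centralizer ({w} : Set G)) ⊔ ⁅P, P⁆ := by
    obtain ⟨S, hS⟩ : ∃ S, S = (P ⊓ centralizer ({w} : Set G)) ⊔ ⁅P, P⁆ := ⟨_, rfl⟩
    have hcS : ∀ g ∈ P, g * w = w * g → g ∈ S := by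
      intro g hg hgw
      rw [hS]
      exact (le_sup_left : (P ⊓ centralizer ({w} : Set G)) ≤ _) (Subgroup.mem_inf.2 ⟨hg, mem_centralizer_singleton_iff.2 hgw⟩)
    have hPS : ⁅P, P⁆ ≤ S := by rw [hS]; exact le_sup_right
    rw [← hS]
    have hN : ∀ n ∈ (⁅P ⊓ centralizer (E : Set G), zpowers h⁆ : Subgroup G), n ∈ S := by
      intro n hn
      have hnP : n ∈ P := (D.N_le hn).1
      have hnE := (D.N_le hn).2
      have h1 := hw (n * b * n) (mul_mem (mul_mem hnP hb) hnP) (by
        intro h2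
        apply hbE
        have h3 : b = n⁻¹ * (n * b * n) * n⁻¹ := by group
        rw [h3]
        exact mul_mem (mul_mem (inv_mem hnE) h2) (inv_mem hnE)) (by
        have h3 : h * (n * b * n) * h⁻¹ = (h * n * h⁻¹) * (h * b * h⁻¹) * (h * n * h⁻¹) := by group
        rw [h3, hbh, D.N_inv hn]; group)
      have h2 : (b⁻¹ * (n * b * n)) * w = w * (b⁻¹ * (n * b * n)) := by
        have h3 : Commute w b := hwb
        have h4 : Commute w (n * b * n) := h1
        exact (h3.inv_right.mul_right h4).eq.symm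
      have h3 : b⁻¹ * (n * b * n) ∈ S := hcS _ (mul_mem (inv_mem hb) (mul_mem (mul_mem hnP hb) hnP)) h2
      have h4 : n * n = ⁅n, b⁻¹⁆ * (b⁻¹ * (n * b * n)) := by
        rw [commutatorElement_def]; group
      have h5 : n * n ∈ S := by
        rw [h4]
        exact mul_mem (hPS (commutator_mem_commutator hnP (inv_mem hb))) h3
      obtain ⟨k, hk⟩ := D.pP ⟨n, hnP⟩
      exact odd_pow_mem D.hp2 ⟨k, congrArg Subtype.val hk⟩ h5
    intro g hg
    obtain ⟨k, hk⟩ := D.exists_zpow hb hbE hg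
    obtain ⟨c, hc, hch, n, hn, e⟩ := D.M_dec (m := g * b ^ k) (Subgroup.mem_inf.2 ⟨mul_mem hg (zpow_mem hb k), hk⟩)
    have h1 : g = c * n * (b ^ k)⁻¹ := by rw [← e]; group
    rw [h1]
    refine mul_mem (mul_mem (hcS c hc.1 (D.X_comm hc hch hwX hwh)) (hN n hn)) (inv_mem ?_)
    exact hcS _ (zpow_mem hb k) (Commute.zpow_right (show Commute w b from hwb) k).eq.symm
  have h1 : (centralizer ({w} : Set G)).subgroupOf P = ⊤ := by
    apply frattini_nongenerating
    rw [eq_top_iff]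
    refine le_trans ?_ (sup_le_sup_left (H2.commutator_le_frattini D.pP) _)
    intro g _
    have h2 := hle g.2
    have h3 : (g : G) ∈ (((centralizer ({w} : Set G)).subgroupOf P) ⊔ commutator P).map P.subtype := by
      rw [Subgroup.map_sup, Subgroup.subgroupOf_map_subtype, _root_.commutator_def, Subgroup.map_commutator,
        ← MonoidHom.range_eq_map, Subgroup.range_subtype, inf_comm]
      exact h2
    obtain ⟨g', hg', e⟩ := h3
    have : g' = g := Subtype.ext e
    rwa [this] at hg'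
  intro g hg
  have h2 : (⟨g, hg⟩ : P) ∈ (centralizer ({w} : Set G)).subgroupOf P := by rw [h1]; exact mem_top _
  exact (mem_centralizer_singleton_iff.1 (mem_subgroupOf.1 h2)).symm

theorem exists_good : ∃ b, ∃ hb : b ∈ P, b ∉ centralizer (E : Set G) ∧ h * b * h⁻¹ = b⁻¹ ∧
    Nat.card ↥(P ⊓ centralizer (E : Set G) ⊓ centralizer ({b} : Set G) : Subgroup G) ≤ p := by
  by_contra hcon
  push Not at hcon
  obtain ⟨X, hX⟩ : ∃ X, X = P ⊓ centralizer (E : Set G) ⊓ centralizer (zpowers h : Set G) := ⟨_, rfl⟩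
  have hXc : IsCyclic X := hX ▸ D.X_cyclic
  have hXp : IsPGroup p X := D.pP.to_le (by rw [hX]; exact inf_le_left.trans inf_le_left)
  have hBX : ∀ b ∈ P, b ∉ centralizer (E : Set G) → h * b * h⁻¹ = b⁻¹ →
      P ⊓ centralizer (E : Set G) ⊓ centralizer ({b} : Set G) ≤ X := by
    intro b hb hbE hbh
    rw [hX]
    exact le_inf inf_le_left (D.B_le hb hbE hbh)
  have hBp : ∀ b ∈ P, b ∉ centralizer (E : Set G) → h * b * h⁻¹ = b⁻¹ →
      p ^ 2 ∣ Nat.card ↥(P ⊓ centralizer (E : Set G) ⊓ centralizer ({b} : Set G) : Subgroup G) := by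
    intro b hb hbE hbh
    obtain ⟨k, hk⟩ := IsPGroup.iff_card.1 (D.pP.to_le
      ((inf_le_left.trans inf_le_left : P ⊓ centralizer (E : Set G) ⊓ centralizer ({b} : Set G) ≤ P)))
    have h1 := hcon b hb hbE hbh
    rw [hk] at h1 ⊢
    apply pow_dvd_pow
    by_contra h2
    have h3 : k ≤ 1 := by omega
    have h4 := Nat.pow_le_pow_right hp.out.pos h3
    rw [pow_one] at h4
    omega
  obtain ⟨b₀, hb₀, hbE₀, hbh₀⟩ := D.exists_b
  -- a subgroup of order `p²` of `X`
  have hcyc : ∀ A B : Subgroup G, A ≤ X → B ≤ X → Nat.card A = Nat.card B → A = B := by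
    intro A B hA hB hAB
    have h1 : Nat.card (A.subgroupOf X) = Nat.card (B.subgroupOf X) := by
      rw [Nat.card_congr (Subgroup.subgroupOfEquivOfLe hA).toEquiv,
        Nat.card_congr (Subgroup.subgroupOfEquivOfLe hB).toEquiv, hAB]
    have h2 : A.subgroupOf X = B.subgroupOf X := H2.eq_of_card_eq_of_isCyclic h1
    have h3 := congrArg (Subgroup.map X.subtype) h2
    rwa [Subgroup.subgroupOf_map_subtype, Subgroup.subgroupOf_map_subtype, inf_eq_left.2 hA, inf_eq_left.2 hB] at h3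
  have hsub : ∀ b ∈ P, b ∉ centralizer (E : Set G) → h * b * h⁻¹ = b⁻¹ →
      ∃ W ≤ P ⊓ centralizer (E : Set G) ⊓ centralizer ({b} : Set G), Nat.card W = p ^ 2 := by
    intro b hb hbE hbh
    obtain ⟨K, hK⟩ := Sylow.exists_subgroup_card_pow_prime p (hBp b hb hbE hbh)
    refine ⟨K.map (Subgroup.subtype _), Subgroup.map_subtype_le _, ?_⟩
    rw [Subgroup.card_map_of_injective (Subgroup.subtype_injective _), hK]
  obtain ⟨W, hWB, hW⟩ := hsub b₀ hb₀ hbE₀ hbh₀
  have hWX : W ≤ X := hWB.trans (hBX b₀ hb₀ hbE₀ hbh₀)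
  have hWall : ∀ b ∈ P, b ∉ centralizer (E : Set G) → h * b * h⁻¹ = b⁻¹ →
      W ≤ P ⊓ centralizer (E : Set G) ⊓ centralizer ({b} : Set G) := by
    intro b hb hbE hbh
    obtain ⟨W', hW'B, hW'⟩ := hsub b hb hbE hbh
    rw [hcyc W W' hWX (hW'B.trans (hBX b hb hbE hbh)) (hW.trans hW'.symm)]
    exact hW'B
  -- an element of `W` outside `⟨x⟩`
  obtain ⟨w, hwW, hwx⟩ : ∃ w ∈ W, w ∉ zpowers x := by
    by_contra hcon2
    push Not at hcon2
    have h1 : Nat.card W ≤ Nat.card (zpowers x) := Nat.le_of_dvd Nat.card_pos (Subgroup.card_dvd_of_le hcon2)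
    rw [hW, D.card_x] at h1
    have := hp.out.one_lt
    nlinarith
  have hwX := hWX hwW
  rw [hX] at hwX
  have hwh := D.mem_cz.1 hwX.2
  have hwc := D.mem_of_B (w := w) (fun b hb hbE hbh => (mem_centralizer_singleton_iff.1 (hWall b hb hbE hbh hwW).2))
    hwX.1 hwh
  have hwP : w ∈ P := hwX.1.1
  -- `w ∈ P'`
  have hwd : w ∈ ⁅P, P⁆ := by
    have h1 := D.inv w hwP
    have h2 : h * w * h⁻¹ * w = w * w := by rw [hwh]; group
    rw [h2] at h1
    obtain ⟨k, hk⟩ := D.pP ⟨w, hwP⟩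
    exact odd_pow_mem D.hp2 ⟨k, congrArg Subtype.val hk⟩ h1
  -- transfer
  have h3 := pow_index_mem_commutator ((P ⊓ centralizer (E : Set G)).subgroupOf P) (w := ⟨w, hwP⟩) (by
    rw [mem_center_iff]
    intro g
    exact Subtype.ext (hwc g g.2).symm) (by
    have h4 : w ∈ (commutator P).map P.subtype := by
      rw [_root_.commutator_def, Subgroup.map_commutator, ← MonoidHom.range_eq_map, Subgroup.range_subtype]
      exact hwd
    obtain ⟨w', hw', e⟩ := h4
    have : w' = ⟨w, hwP⟩ := Subtype.ext e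
    rwa [this] at hw')
  rw [D.index_M] at h3
  have h4 : w ^ p ∈ ⁅P ⊓ centralizer (E : Set G), P ⊓ centralizer (E : Set G)⁆ := by
    have h5 : w ^ p ∈ (⁅(P ⊓ centralizer (E : Set G)).subgroupOf P, (P ⊓ centralizer (E : Set G)).subgroupOf P⁆ : Subgroup P).map P.subtype :=
      ⟨_, h3, rfl⟩
    rw [Subgroup.map_commutator, Subgroup.subgroupOf_map_subtype, inf_eq_left.2 inf_le_left] at h5
    exact h5
  have h5 := D.MM_le h4
  have h6 : w ^ p ∈ (⁅P ⊓ centralizer (E : Set G), zpowers h⁆ : Subgroup G) ⊓ centralizer (zpowers h : Set G) :=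
    Subgroup.mem_inf.2 ⟨h5, pow_mem hwX.2 p⟩
  rw [D.NX_inf, mem_bot] at h6
  exact hwx (D.X_om hwX.1 hwh h6)

theorem final : ∃ k : ℕ, 1 ≤ k ∧ Nat.card P = p ^ (2 * k + 1) ∧
    (∀ _ : Group.IsNilpotent P, Group.nilpotencyClass P = 2 * k) ∧ (k = 1 → ∀ y ∈ P, y ^ p = 1) ∧ ¬ IsMulCommutative P := by
  obtain ⟨b, hb, hbE, hbh, hB⟩ := D.exists_good
  have hp1 := hp.out.one_lt
  obtain ⟨n, hn⟩ := IsPGroup.iff_card.1 D.pP
  have hcc := D.card_cent hb hbE hbh hB
  have hn2 : 2 < n := by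
    have h1 : Nat.card E < Nat.card P := by
      refine lt_of_le_of_ne (Nat.le_of_dvd Nat.card_pos (Subgroup.card_dvd_of_le D.EP)) ?_
      intro h2
      have h3 := Subgroup.eq_of_le_of_card_ge D.EP h2.ge
      apply D.nc
      rw [← h3]
      intro a ha
      rw [mem_centralizer_iff]
      intro e he
      exact D.Ea e he a ha
    rw [D.Ec, hn] at h1
    exact (Nat.pow_lt_pow_iff_right hp1).1 h1
  obtain ⟨φ, hφ⟩ : ∃ φ : P ≃* P, ∀ g : P, (φ g : G) = h * g * h⁻¹ :=
    ⟨Subgroup.normalizerMonoidHom P ⟨h, D.hP⟩, fun g => rfl⟩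
  have hmx := maxcl_aux n P φ ⟨b, hb⟩ (by omega) hn (Subtype.ext (by rw [hφ]; exact hbh)) hcc (by
    intro g
    have h4 : h * g * h⁻¹ * g ∈ (commutator P).map P.subtype := by
      rw [_root_.commutator_def, Subgroup.map_commutator, ← MonoidHom.range_eq_map, Subgroup.range_subtype]
      exact D.inv g g.2
    obtain ⟨w', hw', e⟩ := h4
    have : w' = φ g * g := Subtype.ext (by rw [Subgroup.coe_mul, hφ]; exact e)
    rwa [this] at hw')
  have hxP : x ∈ P := D.EP D.xE
  have h1 := hmx.2 ⟨x, hxP⟩ (by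
    rw [mem_center_iff]
    intro g
    exact Subtype.ext (D.xc g g.2).symm)
  have h2 : x = x ^ ((-1 : ℤ) ^ (n - 1)) := by
    have h3 := congrArg Subtype.val h1
    rw [hφ] at h3
    have h4 : h * x * h⁻¹ = x := by rw [D.hx]; group
    rw [h4] at h3
    simpa using h3
  have hev : Even (n - 1) := by
    by_contra hodd
    rw [Nat.not_even_iff_odd] at hodd
    rw [hodd.neg_one_pow, zpow_neg_one] at h2
    have h3 : x * x = 1 := by nth_rewrite 1 [h2]; exact inv_mul_cancel _
    exact D.x1 (odd_pow_mem (H := ⊥) D.hp2 ⟨1, by rw [pow_one]; exact D.xp⟩ (mem_bot.2 h3))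
  obtain ⟨k, hk⟩ := hev
  have hnk : n = 2 * k + 1 := by omega
  subst hnk
  have hncm : ¬ IsMulCommutative P := by
    intro hP
    apply D.nc
    intro a ha
    rw [mem_centralizer_iff]
    intro e he
    exact congrArg Subtype.val (hP.is_comm.comm ⟨e, D.EP he⟩ ⟨a, ha⟩)
  refine ⟨k, by omega, hn, ?_, ?_, hncm⟩
  · intro h3
    rw [hmx.1 h3]
    omega
  · intro hk1
    subst hk1
    have hn' : Nat.card P = p ^ 3 := hn
    have hE := extraspecial_of_card_cube hn' hncm
    have hbp := D.b_pow hb hbE hbh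
    have hcl : ⁅commutator P, (⊤ : Subgroup P)⁆ = ⊥ := by
      rw [hE.1.2.2, Subgroup.commutator_eq_bot_iff_le_centralizer]
      intro z hz
      rw [mem_centralizer_iff]
      intro g _
      exact mem_center_iff.1 hz g
    -- `P = E⟨b⟩`
    have hgen : closure {g : P | g ^ p = 1} = ⊤ := by
      have h3 : E.subgroupOf P ⊔ zpowers (⟨b, hb⟩ : P) = ⊤ := by
        have h4 := H22.card_mul_le_sup_zpowers (p := p) D.pP (U := E) D.EP hb (by
          intro hbE'
          apply hbE
          rw [mem_centralizer_iff]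
          intro e he
          exact D.Ea e he b hbE')
        have h5 : E ⊔ zpowers b = P := by
          apply Subgroup.eq_of_le_of_card_ge
          · exact sup_le D.EP (zpowers_le.2 hb)
          · rw [hn', pow_succ, ← D.Ec, mul_comm]
            exact h4
        apply Subgroup.map_injective P.subtype_injective
        rw [Subgroup.map_sup, Subgroup.subgroupOf_map_subtype, inf_eq_left.2 D.EP, MonoidHom.map_zpowers,
          ← MonoidHom.range_eq_map, Subgroup.range_subtype]
        exact h5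
      rw [eq_top_iff, ← h3]
      refine sup_le ?_ ?_
      · intro e he
        exact subset_closure (Subtype.ext (D.Ee e he))
      · rw [zpowers_le]
        exact subset_closure (Subtype.ext hbp)
    intro y hy
    have h3 := H23.pow_eq_one_of_mem_closure (R := P) hp.out (Or.inl ⟨D.hp2, hcl⟩) (g := ⟨y, hy⟩) (by
      rw [hgen]; exact mem_top _)
    exact congrArg Subtype.val h3

end TD

end Cfsg.Agent.H19
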