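import Mathlib
import Cfsg.Agent.H19.IsoEss2
import Cfsg.Agent.H19.IsoT3

/-!
# Isolated elements in rank two: perfect groups
-/

set_option autoImplicit false
set_option linter.all false

namespace Cfsg.Agent.H19

open Subgroup Cfsg
open scoped commutatorElement

universe u

variable {G : Type u} [Group G] {p : ℕ} [Finite G] [hp : Fact p.Prime] {P : Subgroup G} {x : G}

theorem exists_sz {N : Subgroup G} (hP : L.SylIn p P N) (hN : N ≤ normalizer (P : Set G)) :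
    ∃ A ≤ N, (Nat.card A).Coprime p ∧ P ⊔ A = N := by
  haveI hn : (P.subgroupOf N).Normal := normal_subgroupOf_of_le_normalizer hN
  have hPN := hP.le
  have hcard : Nat.card (P.subgroupOf N) = Nat.card P := Nat.card_congr (Subgroup.subgroupOfEquivOfLe hPN).toEquiv
  have hcop : (Nat.card (P.subgroupOf N)).Coprime (P.subgroupOf N).index := by
    rw [hcard]
    obtain ⟨k, hk⟩ := IsPGroup.iff_card.1 hP.isPGroup
    rw [hk]
    exact Nat.Coprime.pow_left k ((Nat.Prime.coprime_iff_not_dvd hp.out).2 hP.not_dvd)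
  obtain ⟨H, hH⟩ := Subgroup.exists_right_complement'_of_coprime hcop
  refine ⟨H.map N.subtype, Subgroup.map_subtype_le _, ?_, ?_⟩
  · rw [Subgroup.card_map_of_injective N.subtype_injective]
    have h1 : Nat.card H = (P.subgroupOf N).index := by
      rw [← hH.symm.index_eq_card]
    rw [h1]
    exact ((Nat.Prime.coprime_iff_not_dvd hp.out).2 hP.not_dvd).symm
  · have h1 := hH.sup_eq_top
    have h2 := congrArg (Subgroup.map N.subtype) h1
    rw [Subgroup.map_sup, Subgroup.subgroupOf_map_subtype, inf_eq_left.2 hPN, ← MonoidHom.range_eq_map,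
      Subgroup.range_subtype] at h2
    exact h2

theorem focal_F (hperf : commutator G = ⊤) (hP : L.SylIn p P ⊤) {A : Subgroup G} (hAP : A ≤ normalizer (P : Set G))
    (hN : P ⊔ A = normalizer (P : Set G)) (F : Subgroup G) (hPP : ⁅P, P⁆ ≤ F)
    (hPA : ∀ a ∈ P, ∀ c ∈ A, a⁻¹ * (c⁻¹ * a * c) ∈ F)
    (hE : ∀ Q X : Subgroup G, Ess p P Q X → ∀ q ∈ Q, ∀ n ∈ (pResidual p ↥X).map X.subtype, ⁅q, n⁆ ∈ F) : P ≤ F := by
  have h1 := focal_alp hP F ?_ ?_
  · rw [hperf, inf_top_eq] at h1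
    exact h1
  · intro a ha y hy
    rw [← hN, sup_comm, H18.mem_sup_iff_of_le_normalizer hAP] at hy
    obtain ⟨c, hc, u, hu, rfl⟩ := hy
    have hcaP : c⁻¹ * a * c ∈ P := by
      have := (mem_normalizer_iff.1 (inv_mem (hAP hc)) a).1 ha
      rwa [inv_inv] at this
    have e : a⁻¹ * ((c * u)⁻¹ * a * (c * u)) = a⁻¹ * (c⁻¹ * a * c) * ⁅(c⁻¹ * a * c)⁻¹, u⁻¹⁆ := by
      rw [commutatorElement_def]; group
    rw [e]
    exact mul_mem (hPA a ha c hc) (hPP (commutator_mem_commutator (inv_mem hcaP) (inv_mem hu)))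
  · rintro H y ⟨X, hX, hy⟩ a ha
    have h2 := hE H X hX a⁻¹ (inv_mem ha) y⁻¹ (inv_mem hy)
    have e : a⁻¹ * (y⁻¹ * a * y) = ⁅a⁻¹, y⁻¹⁆ := by rw [commutatorElement_def]; group
    rw [e]
    exact h2

theorem eq_top_of_sup_commutator (hP : IsPGroup p P) {H : Subgroup G} (hH : H ≤ P) (h : P ≤ H ⊔ ⁅P, P⁆) : H = P := by
  have h1 : H.subgroupOf P = ⊤ := by
    apply frattini_nongenerating
    rw [eq_top_iff]
    refine le_trans ?_ (sup_le_sup_left (H2.commutator_le_frattini hP) _)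
    intro g _
    have h2 := h g.2
    have h3 : (g : G) ∈ (H.subgroupOf P ⊔ commutator P).map P.subtype := by
      rw [Subgroup.map_sup, Subgroup.subgroupOf_map_subtype, _root_.commutator_def, Subgroup.map_commutator,
        ← MonoidHom.range_eq_map, Subgroup.range_subtype, inf_eq_left.2 hH]
      exact h2
    obtain ⟨g', hg', e⟩ := h3
    have : g' = g := Subtype.ext e
    rwa [this] at hg'
  apply le_antisymm hH
  intro g hg
  have h2 : (⟨g, hg⟩ : P) ∈ H.subgroupOf P := by rw [h1]; exact mem_top _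
  exact h2

theorem comm_eq_of_no_ess (hperf : commutator G = ⊤) (hP : L.SylIn p P ⊤) {A : Subgroup G}
    (hAP : A ≤ normalizer (P : Set G)) (hN : P ⊔ A = normalizer (P : Set G))
    (hE : ∀ Q X : Subgroup G, ¬ Ess p P Q X) : ⁅P, A⁆ = P := by
  apply eq_top_of_sup_commutator hP.isPGroup (H23.commutator_le_of_le_normalizer hAP)
  apply focal_F hperf hP hAP hN _ le_sup_right
  · intro a ha c hc
    apply (le_sup_left : ⁅P, A⁆ ≤ _)
    have e : a⁻¹ * (c⁻¹ * a * c) = ⁅a⁻¹, c⁻¹⁆ := by rw [commutatorElement_def]; group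
    rw [e]
    exact commutator_mem_commutator (inv_mem ha) (inv_mem hc)
  · intro Q X hQ
    exact absurd hQ (hE Q X)

/-- the conclusion from a cube structure on `P` -/
theorem Cu.concl (C : Cu p P x) : IsExtraspecial p ↥P ∧ Nat.card P = p ^ 3 ∧ ∀ y ∈ P, y ^ p = 1 :=
  ⟨extraspecial_of_card_cube C.card C.nab', C.card, C.exp⟩

theorem Cu.class_two {D Q : Subgroup G} (C : Cu p D x) (hp2 : p ≠ 2) (hrank : PRankLE p 2 G) (hQ : IsPGroup p Q)
    (hDQ : D ≤ Q) (hxQ : ∀ q ∈ Q, q * x = x * q) (hq : ∀ q ∈ Q, ∀ d ∈ D, ⁅q, d⁆ ∈ zpowers x) :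
    (∀ q ∈ Q, ∃ d ∈ D, ∃ z ∈ Q ⊓ centralizer (D : Set G), q = d * z) ∧
    ∀ a ∈ Q, ∀ b ∈ Q, ∀ c ∈ Q, ⁅⁅a, b⁆, c⁆ = 1 := by
  have hsp : ∀ q ∈ Q, ∃ d ∈ D, ∃ z ∈ Q ⊓ centralizer (D : Set G), q = d * z := by
    intro q hq'
    obtain ⟨d, hd, z, hz, e⟩ := C.split (hxQ q hq') (hq q hq')
    refine ⟨d, hd, z, Subgroup.mem_inf.2 ⟨?_, ?_⟩, e⟩
    · have : z = d⁻¹ * q := by rw [e]; group
      rw [this]
      exact mul_mem (inv_mem (hDQ hd)) hq'
    · rw [mem_centralizer_iff]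
      intro y hy
      exact (hz y hy).symm
  have hcyc : IsCyclic ↥(Q ⊓ centralizer (D : Set G) : Subgroup G) := by
    refine C.cyc hp2 hrank (hQ.to_le inf_le_left) ?_ ?_
    · intro z hz d hd
      exact (mem_centralizer_iff.1 hz.2 d hd).symm
    · refine Subgroup.mem_inf.2 ⟨hDQ C.xD, ?_⟩
      rw [mem_centralizer_iff]
      intro d hd
      exact (C.xc d hd).symm
  refine ⟨hsp, ?_⟩
  intro a ha b hb c hc
  obtain ⟨d, hd, z, hz, rfl⟩ := hsp a ha
  obtain ⟨d', hd', z', hz', rfl⟩ := hsp b hb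
  have hzz : z * z' = z' * z := congrArg Subtype.val (IsCyclic.commGroup.mul_comm (⟨z, hz⟩ :
    ↥(Q ⊓ centralizer (D : Set G) : Subgroup G)) ⟨z', hz'⟩)
  have hzd : ∀ y ∈ D, z * y = y * z := fun y hy => (mem_centralizer_iff.1 hz.2 y hy).symm
  have hzd' : ∀ y ∈ D, z' * y = y * z' := fun y hy => (mem_centralizer_iff.1 hz'.2 y hy).symm
  have h1 : ⁅d * z, d' * z'⁆ = ⁅d, d'⁆ := by
    rw [commutatorElement_def, commutatorElement_def]
    calc d * z * (d' * z') * (d * z)⁻¹ * (d' * z')⁻¹ = d * (z * d') * z' * z⁻¹ * d⁻¹ * z'⁻¹ * d'⁻¹ := by group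
      _ = d * (d' * z) * z' * z⁻¹ * d⁻¹ * z'⁻¹ * d'⁻¹ := by rw [hzd d' hd']
      _ = d * d' * (z * z') * z⁻¹ * d⁻¹ * z'⁻¹ * d'⁻¹ := by group
      _ = d * d' * (z' * z) * z⁻¹ * d⁻¹ * z'⁻¹ * d'⁻¹ := by rw [hzz]
      _ = d * d' * (z' * d⁻¹) * z'⁻¹ * d'⁻¹ := by group
      _ = d * d' * (d⁻¹ * z') * z'⁻¹ * d'⁻¹ := by rw [hzd' d⁻¹ (inv_mem hd)]
      _ = d * d' * d⁻¹ * d'⁻¹ := by group
  rw [h1, commutatorElement_eq_one_iff_mul_comm]
  exact C.zx (C.comm_mem hd hd') (hxQ c hc)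

/-- the case `p > 3` -/
theorem iso_perfect_gt (hp3 : 3 < p) (hrank : PRankLE p 2 G) (hperf : commutator G = ⊤) (hP : L.SylIn p P ⊤)
    (hxp : x ^ p = 1) (hx1 : x ≠ 1) (hxP : x ∈ P) (hiso : IsIsolated x) : Cu p P x := by
  have hp2 : p ≠ 2 := by omega
  have hPN : L.SylIn p P (normalizer (P : Set G)) := hP.of_le le_normalizer le_top
  obtain ⟨A, hA, hAc, hAs⟩ := exists_sz hPN le_rfl
  have hNx := isolated_normalizer_le hiso hP.isPGroup hxP
  have h1 := comm_eq_of_no_ess hperf hP hA hAs (fun Q X hQ => by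
    have := (ess_key hp2 hrank hP hxp hx1 hxP hiso hQ).1
    omega)
  exact ell7 hp3 hrank hP.isPGroup hA hAc h1 hxP hxp hx1 (fun r hr => isolated_commute hP.isPGroup hxP hiso r hr)
    (fun a ha => mem_centralizer_singleton_iff.1 (hNx (hA ha)))

/-- the case where `Ω₁(Z₂(P))` is not abelian -/
theorem iso_perfect_cube (hp2 : p ≠ 2) (hrank : PRankLE p 2 G) (hperf : commutator G = ⊤) (hP : L.SylIn p P ⊤)
    (hxP : x ∈ P) (hiso : IsIsolated x) {W : Subgroup G} (hWP : W ≤ P)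
    (hWn : normalizer (P : Set G) ≤ normalizer (W : Set G)) (C : Cu p W x)
    (hc : ∀ g ∈ P, ∀ w ∈ W, ∀ g' ∈ P, ⁅g, w⁆ * g' = g' * ⁅g, w⁆) : Cu p P x := by
  have hPN : L.SylIn p P (normalizer (P : Set G)) := hP.of_le le_normalizer le_top
  obtain ⟨A, hA, hAc, hAs⟩ := exists_sz hPN le_rfl
  have hNx := isolated_normalizer_le hiso hP.isPGroup hxP
  have hxN : ∀ n ∈ normalizer (P : Set G), n * x = x * n := fun n hn => mem_centralizer_singleton_iff.1 (hNx hn)
  obtain ⟨hsp, hcl⟩ := C.class_two hp2 hrank hP.isPGroup hWP (fun q hq => hxN q (le_normalizer hq)) (by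
    intro g hg w hw
    apply C.mem_x_of_comm
    · rw [commutatorElement_def]
      exact mul_mem ((mem_normalizer_iff.1 (hWn (le_normalizer hg)) w).1 hw) (inv_mem hw)
    · intro d hd
      exact hc g hg w hw d (hWP hd))
  have h1 := comm_eq_of_no_ess hperf hP hA hAs (fun Q X hQ => by
    obtain ⟨a, ha, b, hb, c, hc, h⟩ := (ess_key hp2 hrank hP C.xp C.x1 hxP hiso hQ).2.1
    exact h (hcl a ha b hb c hc))
  have h2 : P ⊓ centralizer (W : Set G) ≤ centralizer (A : Set G) := by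
    apply C.cent_le hp2 hrank (hP.isPGroup.to_le inf_le_left) _ _ hAc (fun a ha => hxN a (hA ha))
    · intro z hz d hd
      exact (mem_centralizer_iff.1 hz.2 d hd).symm
    · exact H18.le_normalizer_inf hA (H18.le_normalizer_centralizer (hA.trans hWn))
  have h3 : P ≤ W := by
    rw [← h1, Subgroup.commutator_le]
    intro g hg a ha
    obtain ⟨w, hw, z, hz, rfl⟩ := hsp g hg
    have h4 : z * a = a * z := (mem_centralizer_iff.1 (h2 hz) a ha).symm
    have h5 : ⁅w * z, a⁆ = w * (a * w * a⁻¹)⁻¹ := by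
      rw [commutatorElement_def]
      calc w * z * a * (w * z)⁻¹ * a⁻¹ = w * (z * a) * z⁻¹ * w⁻¹ * a⁻¹ := by group
        _ = w * (a * z) * z⁻¹ * w⁻¹ * a⁻¹ := by rw [h4]
        _ = _ := by group
    rw [h5]
    exact mul_mem hw (inv_mem ((mem_normalizer_iff.1 (hWn (hA ha)) w).1 hw))
  have h4 : W = P := le_antisymm hWP h3
  rw [← h4]; exact C

end Cfsg.Agent.H19
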