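import Mathlib
import Cfsg.Agent.H19.IsoMain2
import Cfsg.Agent.H22.OddPG3

/-!
# Isolated elements in rank two: perfect groups, conclusion
-/

set_option autoImplicit false
set_option linter.all false

namespace Cfsg.Agent.H19

open Subgroup Cfsg
open scoped commutatorElement

universe u

variable {G : Type u} [Group G] {p : ℕ} [Finite G] [hp : Fact p.Prime] {P : Subgroup G} {x : G}

theorem iso_perfect (hp2 : p ≠ 2) (hrank : PRankLE p 2 G) (hperf : commutator G = ⊤) (hP : L.SylIn p P ⊤)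
    (hxp : x ^ p = 1) (hx1 : x ≠ 1) (hxP : x ∈ P) (hiso : IsIsolated x) (hcyc : ¬ IsCyclic P) :
    (IsExtraspecial p ↥P ∧ Nat.card P = p ^ 3 ∧ ∀ y ∈ P, y ^ p = 1) ∨
      (p = 3 ∧ ∃ k : ℕ, 2 ≤ k ∧ Nat.card P = 3 ^ (2 * k + 1) ∧
        ∃ _ : Group.IsNilpotent ↥P, Group.nilpotencyClass ↥P = 2 * k) := by
  by_cases h3 : p = 3
  swap
  · left
    have h4 : 3 < p := by
      have := hp.out.two_le
      omega
    exact (iso_perfect_gt h4 hrank hperf hP hxp hx1 hxP hiso).concl
  have hPp := hP.isPGroup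
  have hNx := isolated_normalizer_le hiso hP.isPGroup hxP
  have hxN : ∀ n ∈ normalizer (P : Set G), n * x = x * n := fun n hn => mem_centralizer_singleton_iff.1 (hNx hn)
  have hxc : ∀ g ∈ P, x * g = g * x := fun g hg => (hxN g (le_normalizer hg)).symm
  obtain ⟨W', -, hW'c, hW'⟩ := H22.omega_zz (R := P) (p := p) hp2
  obtain ⟨W, hW⟩ : ∃ W, W = W'.map P.subtype := ⟨_, rfl⟩
  have hWP : W ≤ P := by rw [hW]; exact Subgroup.map_subtype_le _
  have hWn : normalizer (P : Set G) ≤ normalizer (W : Set G) := by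
    rw [hW]; exact H18.le_normalizer_map_of_characteristic le_rfl W'
  have hZ2 : ∀ z : P, z ∈ Subgroup.upperCentralSeries P 2 ↔ ∀ g : P, ⁅z, g⁆ ∈ center P := by
    intro z
    rw [Subgroup.mem_upperCentralSeries_succ_iff, Subgroup.upperCentralSeries_one]
  have hWmem : ∀ y, y ∈ W ↔ ∃ hy : y ∈ P, (⟨y, hy⟩ : P) ∈ W' := by
    intro y
    rw [hW]
    constructor
    · rintro ⟨z, hz, rfl⟩; exact ⟨z.2, hz⟩
    · rintro ⟨hy, h⟩; exact ⟨_, h, rfl⟩
  have hWe : ∀ y ∈ W, y ^ p = 1 := by
    intro y hy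
    obtain ⟨hyP, h⟩ := (hWmem y).1 hy
    exact congrArg Subtype.val ((hW' _).1 h).2
  have hWc : ∀ g ∈ P, ∀ w ∈ W, ∀ g' ∈ P, ⁅g, w⁆ * g' = g' * ⁅g, w⁆ := by
    intro g hg w hw g' hg'
    obtain ⟨hwP, h⟩ := (hWmem w).1 hw
    have h1 := (hZ2 _).1 ((hW' _).1 h).1 ⟨g, hg⟩
    have h2 : ⁅(⟨g, hg⟩ : P), ⟨w, hwP⟩⁆ ∈ center P := by
      rw [← commutatorElement_inv]; exact inv_mem h1
    exact (congrArg Subtype.val (mem_center_iff.1 h2 ⟨g', hg'⟩)).symm
  have hxW : x ∈ W := by
    rw [hWmem]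
    refine ⟨hxP, (hW' _).2 ⟨(hZ2 _).2 ?_, Subtype.ext hxp⟩⟩
    intro g
    have : ⁅(⟨x, hxP⟩ : P), g⁆ = 1 := by
      rw [commutatorElement_eq_one_iff_mul_comm]
      exact Subtype.ext (hxc g g.2)
    rw [this]; exact one_mem _
  have hWp : IsPGroup p W := hPp.to_le hWP
  have hWcard : Nat.card W ≤ p ^ 3 := by
    have h1 : Nat.card W = Nat.card W' := by rw [hW]; exact Subgroup.card_map_of_injective P.subtype_injective
    rw [h1]
    exact H22.exp_card_le hPp (pRankLE_of_subgroup hrank P) (fun y hy => ((hW' y).1 hy).2)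
  obtain ⟨k, hk⟩ := IsPGroup.iff_card.1 hWp
  by_cases hab : IsMulCommutative W
  swap
  · -- nonabelian case
    have hk3 : k = 3 := by
      have h1 : ¬ k ≤ 2 := by
        intro h
        apply hab
        apply H23.isMulCommutative_of_card_le_sq hWp
        rw [hk]
        exact Nat.pow_le_pow_right hp.out.pos h
      rw [hk] at hWcard
      have h2 := (Nat.pow_le_pow_iff_right hp.out.one_lt).1 hWcard
      omega
    rw [hk3] at hk
    have hnab : ∃ a ∈ W, ∃ b ∈ W, a * b ≠ b * a := by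
      by_contra hcon
      push Not at hcon
      exact hab ⟨⟨fun a b => Subtype.ext (hcon a a.2 b b.2)⟩⟩
    have C : Cu p W x := ⟨hk, hWe, hnab, hxW, hx1, fun d hd => hxc d (hWP hd)⟩
    left
    exact (iso_perfect_cube hp2 hrank hperf hP hxP hiso hWP hWn C hWc).concl
  · -- abelian case
    have hW2 : Nat.card W ≤ p ^ 2 := hrank W hab hWe
    have hWge : p ^ 2 ≤ Nat.card W := by
      obtain ⟨B, -, hB⟩ := H22.exists_maxNEA (p := p) (⊥ : Subgroup P) H22.isEA_bot
      haveI := hB.nor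
      have hBp : IsPGroup p B := hPp.to_subgroup B
      obtain ⟨j, hj⟩ := IsPGroup.iff_card.1 hBp
      have hj2 : 2 ≤ j := by
        by_contra hcon
        have hBc : Nat.card B ≤ p := by
          rw [hj]
          calc p ^ j ≤ p ^ 1 := Nat.pow_le_pow_right hp.out.pos (by omega)
            _ = p := pow_one p
        have hBZ := H23.le_center_of_card_le hPp hBc
        have hall : ∀ y : P, y ^ p = 1 → y ∈ B := by
          intro y hy
          apply H22.omega_cent_max hp2 hPp hB _ hy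
          rw [mem_centralizer_iff]
          intro b hb
          exact (mem_center_iff.1 (hBZ hb) y).symm
        apply hcyc
        apply isCyclic_of_unique_order_p hp2 _ hPp
        intro a b ha hb ha1
        have h1 : zpowers a = B := by
          apply Subgroup.eq_of_le_of_card_ge
          · rw [zpowers_le]; exact hall a ha
          · rw [Nat.card_zpowers, orderOf_eq_prime ha ha1]; exact hBc
        rw [h1]
        exact hall b hb
      have hB2 : Nat.card B = p ^ 2 := by
        have h1 := pRankLE_of_subgroup hrank P B hB.ea.1 hB.ea.2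
        rw [hj] at h1
        have h2 := (Nat.pow_le_pow_iff_right hp.out.one_lt).1 h1
        have h4 : j = 2 := by omega
        rw [hj, h4]
      have hBW : B ≤ W' := by
        obtain ⟨Z, hZB, hZc, -, hZ⟩ := H22.sq_comm_mem hPp hB2
        intro b hb
        refine (hW' b).2 ⟨(hZ2 b).2 (fun g => ?_), hB.ea.2 b hb⟩
        rw [← commutatorElement_inv]
        exact inv_mem (hZc (hZ b hb g))
      have h1 : Nat.card W = Nat.card W' := by rw [hW]; exact Subgroup.card_map_of_injective P.subtype_injective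
      rw [h1, ← hB2]
      exact Nat.le_of_dvd Nat.card_pos (Subgroup.card_dvd_of_le hBW)
    have hWeq : Nat.card W = p ^ 2 := le_antisymm hW2 hWge
    obtain ⟨k, hk1, hk2, hk3, hk4, hk5⟩ := iso_perfect_E hp2 h3 hrank hperf hP hxp hx1 hxP hiso hWP hWn hWeq hWe
      (fun a ha b hb => congrArg Subtype.val (hab.is_comm.comm ⟨a, ha⟩ ⟨b, hb⟩)) hxW
    by_cases hk : k = 1
    · left
      subst hk
      exact ⟨extraspecial_of_card_cube hk2 hk5, hk2, hk4 rfl⟩
    · right
      refine ⟨h3, k, by omega, ?_, ?_⟩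
      · rw [hk2, h3]
      · haveI := hPp.isNilpotent
        exact ⟨inferInstance, hk3 inferInstance⟩

end Cfsg.Agent.H19
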