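import Mathlib
import Cfsg.Agent.H19.IsoMain3
import Cfsg.Agent.H19.IsoRank3

/-!
# Isolated elements in rank two: the general case
-/

set_option autoImplicit false
set_option linter.all false

namespace Cfsg.Agent.H19

open Subgroup Cfsg
open scoped commutatorElement

universe u

variable {G : Type u} [Group G] {p : ℕ} [Finite G] [hp : Fact p.Prime]

theorem isolated_conj {x : G} (h : IsIsolated x) (g : G) : IsIsolated (g * x * g⁻¹) := by
  intro k hk
  obtain ⟨m, hm⟩ : ∃ m, m = g⁻¹ * k * g := ⟨_, rfl⟩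
  have h1 : Commute x (m * x * m⁻¹) := by
    have h2 : g⁻¹ * ((g * x * g⁻¹) * (k * (g * x * g⁻¹) * k⁻¹)) * g = g⁻¹ * ((k * (g * x * g⁻¹) * k⁻¹) * (g * x * g⁻¹)) * g := by
      rw [hk.eq]
    have h3 : g⁻¹ * ((g * x * g⁻¹) * (k * (g * x * g⁻¹) * k⁻¹)) * g = x * (m * x * m⁻¹) := by rw [hm]; group
    have h4 : g⁻¹ * ((k * (g * x * g⁻¹) * k⁻¹) * (g * x * g⁻¹)) * g = (m * x * m⁻¹) * x := by rw [hm]; group
    rw [h3, h4] at h2
    exact h2
  have h5 := h m h1
  have h6 : k * (g * x * g⁻¹) * k⁻¹ = g * (m * x * m⁻¹) * g⁻¹ := by rw [hm]; group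
  rw [h6, h5]

theorem zpowers_eq_of_mem {x z : G} (hx : x ^ p = 1) (hz : z ∈ zpowers x) (hz1 : z ≠ 1) : x ∈ zpowers z := by
  have hx1 : x ≠ 1 := by
    rintro rfl
    rw [zpowers_one_eq_bot, mem_bot] at hz
    exact hz1 hz
  have hzp : z ^ p = 1 := by
    obtain ⟨i, rfl⟩ := hz
    change (x ^ i) ^ p = 1
    rw [← zpow_natCast, ← zpow_mul, mul_comm, zpow_mul, zpow_natCast, hx, one_zpow]
  have h1 : zpowers z = zpowers x := by
    apply Subgroup.eq_of_le_of_card_ge
    · rwa [zpowers_le]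
    · rw [Nat.card_zpowers, Nat.card_zpowers, orderOf_eq_prime hzp hz1, orderOf_eq_prime hx hx1]
  rw [h1]; exact mem_zpowers x

theorem cyclic_of_not_mem (hp2 : p ≠ 2) (hrank : PRankLE p 2 G) {x : G} (hx : orderOf x = p) (hiso : IsIsolated x)
    {K : Subgroup G} [hK : K.Normal] (hxK : x ∉ K) (P : Sylow p K) : IsCyclic ↥(P : Subgroup K) := by
  have hPp : IsPGroup p ((P : Subgroup K).map K.subtype) := P.isPGroup'.map _
  obtain ⟨S, hS⟩ := hPp.exists_le_sylow
  have hzx : IsPGroup p (zpowers x) := isPGroup_zpowers ⟨1, by rw [hx, pow_one]⟩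
  obtain ⟨S', hS'⟩ := hzx.exists_le_sylow
  obtain ⟨g, hg⟩ := MulAction.exists_smul_eq G S' S
  obtain ⟨y, hy⟩ : ∃ y, y = g * x * g⁻¹ := ⟨_, rfl⟩
  have hyS : y ∈ (S : Subgroup G) := by
    rw [← hg, hy]
    exact Subgroup.smul_mem_pointwise_smul x (MulAut.conj g) _ (hS' (mem_zpowers x))
  have hxp : x ^ p = 1 := by rw [← hx]; exact pow_orderOf_eq_one x
  have hx1 : x ≠ 1 := by
    rintro rfl
    rw [orderOf_one] at hx
    exact hp.out.one_lt.ne hx
  have hyp : y ^ p = 1 := by rw [hy, conj_pow, hxp]; group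
  have hyK : y ∉ K := by
    intro h
    apply hxK
    have := hK.conj_mem y h g⁻¹
    rw [hy] at this
    have e : g⁻¹ * (g * x * g⁻¹) * g⁻¹⁻¹ = x := by group
    rwa [e] at this
  have hy1 : y ≠ 1 := by
    rintro rfl
    exact hyK (one_mem _)
  have hyiso : IsIsolated y := hy ▸ isolated_conj hiso g
  have hyc : ∀ k : K, k ∈ (P : Subgroup K) → y * k = k * y := fun k hk =>
    isolated_commute S.isPGroup' hyS hyiso k (hS ⟨k, hk, rfl⟩)
  apply isCyclic_of_unique_order_p hp2 _ P.isPGroup'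
  intro a b ha hb ha1
  haveI hnt : Nontrivial (P : Subgroup K) := ⟨a, 1, ha1⟩
  haveI := P.isPGroup'.center_nontrivial
  obtain ⟨c, hc, hco⟩ := exists_orderOf_eq_of_ne_bot (p := p) (R := center (P : Subgroup K))
    (P.isPGroup'.to_subgroup _) ((Subgroup.nontrivial_iff_ne_bot _).1 this)
  have hc1 : c ≠ 1 := by
    rintro rfl
    rw [orderOf_one] at hco
    exact hp.out.one_lt.ne hco
  have hcp : c ^ p = 1 := orderOf_dvd_iff_pow_eq_one.1 hco.dvd
  have key : ∀ b : (P : Subgroup K), b ^ p = 1 → b ∈ zpowers c := by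
    intro b hb
    have h1 : (((c : K) : G)) ∉ zpowers y := by
      intro h
      apply hyK
      have h2 := zpowers_eq_of_mem (p := p) hyp h (fun h => hc1 (Subtype.ext (Subtype.ext h)))
      exact (zpowers_le.2 (c : K).2 : zpowers ((c : K) : G) ≤ K) h2
    obtain ⟨α, hα, β, hβ, e⟩ := mem_of_rank2 (p := p) hrank (x := y) (z := ((c : K) : G)) (y := ((b : K) : G)) hyp hy1
      (congrArg (fun z : (P : Subgroup K) => ((z : K) : G)) hcp) h1
      (congrArg (fun z : (P : Subgroup K) => ((z : K) : G)) hb) (hyc c c.2) (hyc b b.2)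
      (congrArg (fun z : (P : Subgroup K) => ((z : K) : G)) (mem_center_iff.1 hc b)).symm
    have hβK : β ∈ K := (zpowers_le.2 (c : K).2 : zpowers ((c : K) : G) ≤ K) hβ
    have hαK : α ∈ K := by
      have : α = ((b : K) : G) * β⁻¹ := by rw [← e]; group
      rw [this]
      exact mul_mem (b : K).2 (inv_mem hβK)
    have hα1 : α = 1 := by
      by_contra h
      have h2 := zpowers_eq_of_mem (p := p) hyp hα h
      exact hyK ((zpowers_le.2 hαK : zpowers α ≤ K) h2)
    rw [hα1, one_mul] at e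
    obtain ⟨i, hi⟩ := hβ
    refine ⟨i, Subtype.ext (Subtype.ext ?_)⟩
    rw [← e, ← hi]
    simp
  exact (zpowers_le.2 (zpowers_eq_of_mem (p := p) hcp (key a ha) ha1) : zpowers c ≤ zpowers a) (key b hb)

theorem simple_perfect {K : Type*} [Group K] (hs : IsSimpleGroup K) (hna : ¬ IsMulCommutative K) : commutator K = ⊤ := by
  rcases hs.eq_bot_or_eq_top_of_normal (commutator K) inferInstance with h | h
  · exfalso
    apply hna
    refine ⟨⟨fun a b => ?_⟩⟩
    have h1 : ⁅a, b⁆ ∈ commutator K := commutator_mem_commutator (mem_top a) (mem_top b)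
    rw [h, mem_bot, commutatorElement_eq_one_iff_mul_comm] at h1
    exact h1
  · exact h

theorem iso_mem_case (hp2 : p ≠ 2) (hrank : PRankLE p 2 G) {x : G} (hx : orderOf x = p) (hiso : IsIsolated x)
    {K : Subgroup G} (hs : IsSimpleGroup K) (hna : ¬ IsMulCommutative K) (hxK : x ∈ K) (P : Sylow p K) :
    (∃ g : G, g * x * g⁻¹ ∈ (P : Subgroup K).map K.subtype) ∧
    ((IsExtraspecial p ↥(P : Subgroup K) ∧ Nat.card (P : Subgroup K) = p ^ 3 ∧ ∀ y ∈ (P : Subgroup K), y ^ p = 1) ∨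
      (p = 3 ∧ ∃ k : ℕ, 2 ≤ k ∧ Nat.card (P : Subgroup K) = 3 ^ (2 * k + 1) ∧
        ∃ _ : Group.IsNilpotent ↥(P : Subgroup K), Group.nilpotencyClass ↥(P : Subgroup K) = 2 * k)) := by
  have hxp : x ^ p = 1 := by rw [← hx]; exact pow_orderOf_eq_one x
  have hx1 : x ≠ 1 := by
    rintro rfl
    rw [orderOf_one] at hx
    exact hp.out.one_lt.ne hx
  obtain ⟨x', hx'⟩ : ∃ x' : K, x' = ⟨x, hxK⟩ := ⟨_, rfl⟩
  have hx'p : x' ^ p = 1 := by rw [hx']; exact Subtype.ext hxp
  have hx'1 : x' ≠ 1 := by rw [hx']; exact fun h => hx1 (congrArg Subtype.val h)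
  have hx'iso : IsIsolated x' := by rw [hx']; exact isolated_of_subgroup hxK hiso
  have hx'o : orderOf x' = p := orderOf_eq_prime hx'p hx'1
  have hzx : IsPGroup p (zpowers x') := isPGroup_zpowers ⟨1, by rw [hx'o, pow_one]⟩
  obtain ⟨S', hS'⟩ := hzx.exists_le_sylow
  obtain ⟨k, hk⟩ := MulAction.exists_smul_eq K S' P
  have hkx : k * x' * k⁻¹ ∈ (P : Subgroup K) := by
    rw [← hk]
    exact Subgroup.smul_mem_pointwise_smul x' (MulAut.conj k) _ (hS' (mem_zpowers x'))
  have hperf := simple_perfect hs hna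
  refine ⟨⟨k, ⟨k * x' * k⁻¹, hkx, by rw [hx']; rfl⟩⟩, ?_⟩
  have hyp : (k * x' * k⁻¹) ^ p = 1 := by rw [conj_pow, hx'p]; group
  have hy1 : k * x' * k⁻¹ ≠ 1 := by
    intro h
    apply hx'1
    have e : x' = k⁻¹ * (k * x' * k⁻¹) * k := by group
    rw [e, h]; group
  refine iso_perfect hp2 (pRankLE_of_subgroup hrank K) hperf (L.sylIn_top P) hyp hy1 hkx (isolated_conj hx'iso k) ?_
  intro hcyc
  have h1 : HasNormalPComplement p K := by
    apply hasNormalPComplement_of_isolated_cyclic (x := x') ⟨1, by rw [hx'o, pow_one]⟩ hx'iso hx'1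
    intro T
    have e := (Sylow.equiv T P)
    exact isCyclic_of_surjective e.symm.toMonoidHom e.symm.surjective
  apply not_dvd_of_perfect_npc hperf h1
  rw [← hx'o]
  exact orderOf_dvd_natCard x'

end Cfsg.Agent.H19
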