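import Mathlib
import Cfsg.Agent.H22.OddPG3
import Cfsg.Agent.H22.OddPG4

/-!
# `p`-groups with an element whose centralizer has order `p²`
-/

set_option autoImplicit false
set_option linter.all false

namespace Cfsg.Agent.H19

open Subgroup
open scoped commutatorElement

universe u

variable {p : ℕ}

theorem maxcl_aux [hp : Fact p.Prime] (n : ℕ) : ∀ (G : Type u) [Group G] [Finite G] (φ : G ≃* G) (b : G),
    2 ≤ n → Nat.card G = p ^ n → φ b = b⁻¹ → Nat.card (centralizer ({b} : Set G)) ≤ p ^ 2 →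
    (∀ g, φ g * g ∈ commutator G) →
    (∀ h : Group.IsNilpotent G, Group.nilpotencyClass G = n - 1) ∧ ∀ z ∈ center G, φ z = z ^ ((-1 : ℤ) ^ (n - 1)) := by
  induction n with
  | zero => intro G _ _ φ b h; omega
  | succ n ih =>
  intro G _ _ φ b hn hcard hb hcb hinv
  have hG : IsPGroup p G := IsPGroup.iff_card.2 ⟨_, hcard⟩
  haveI hGn : Group.IsNilpotent G := hG.isNilpotent
  have hp1 : 1 < p := hp.out.one_lt
  haveI hnt : Nontrivial G := by
    rw [← Finite.one_lt_card_iff_nontrivial, hcard]
    exact Nat.one_lt_pow (by omega) hp1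
  by_cases hn2 : n = 1
  · -- order `p²`
    subst hn2
    have hcomm : ∀ x y : G, x * y = y * x := by
      have := IsPGroup.commutative_of_card_eq_prime_sq (p := p) (G := G) (by rw [hcard])
      intro x y
      exact this x y
    have hcm : commutator G = ⊥ := by
      rw [_root_.commutator_def, Subgroup.commutator_eq_bot_iff_le_centralizer]
      intro x _
      rw [mem_centralizer_iff]
      intro y _
      exact hcomm y x
    refine ⟨fun h => ?_, fun z _ => ?_⟩
    · have h1 : Group.nilpotencyClass G ≤ 1 := by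
        rw [← Subgroup.upperCentralSeries_eq_top_iff_nilpotencyClass_le, Subgroup.upperCentralSeries_one, eq_top_iff]
        intro x _
        rw [mem_center_iff]
        intro g
        exact hcomm g x
      have h2 : Group.nilpotencyClass G ≠ 0 := by
        intro h0
        rw [Group.nilpotencyClass_zero_iff_subsingleton] at h0
        exact not_subsingleton G h0
      omega
    · have h1 := hinv z
      rw [hcm, mem_bot] at h1
      have h2 : φ z = z⁻¹ := eq_inv_of_mul_eq_one_left h1
      rw [h2]; simp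
  have hn3 : 2 ≤ n := by omega
  -- the centre
  obtain ⟨Z, hZ⟩ : ∃ Z, Z = center G := ⟨_, rfl⟩
  have hbZ : b ∉ center G := by
    intro h
    have h1 : centralizer ({b} : Set G) = ⊤ := by
      rw [eq_top_iff]
      intro g _
      rw [mem_centralizer_singleton_iff]
      exact mem_center_iff.1 h g
    rw [h1, Subgroup.card_top, hcard] at hcb
    have := Nat.pow_lt_pow_right hp1 (show 2 < n + 1 by omega)
    omega
  have hZcb : center G ≤ centralizer ({b} : Set G) := by
    intro z hz
    rw [mem_centralizer_singleton_iff]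
    exact (mem_center_iff.1 hz b).symm
  have hbcb : b ∈ centralizer ({b} : Set G) := by rw [mem_centralizer_singleton_iff]
  have hcpow : ∀ H : Subgroup G, ∃ k, Nat.card H = p ^ k := fun H => IsPGroup.iff_card.1 (hG.to_subgroup H)
  obtain ⟨kz, hkz⟩ := hcpow (center G)
  obtain ⟨kb, hkb⟩ := hcpow (centralizer ({b} : Set G))
  have hkb2 : kb ≤ 2 := by
    rw [hkb] at hcb
    exact (Nat.pow_le_pow_iff_right hp1).1 hcb
  have hlt1 : Nat.card (center G) < Nat.card (centralizer ({b} : Set G)) := by
    have h1 : center G < centralizer ({b} : Set G) := lt_of_le_of_ne hZcb (fun h => hbZ (h ▸ hbcb))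
    exact lt_of_le_of_ne (Nat.le_of_dvd Nat.card_pos (Subgroup.card_dvd_of_le h1.le))
      (fun h => h1.ne (Subgroup.eq_of_le_of_card_ge h1.le h.ge))
  have hkzb : kz < kb := by
    rw [hkz, hkb] at hlt1
    exact (Nat.pow_lt_pow_iff_right hp1).1 hlt1
  have hkz0 : kz ≠ 0 := by
    rintro rfl
    have h1 : center G = ⊥ := Subgroup.card_eq_one.1 (by rw [hkz, pow_zero])
    haveI := hG.center_nontrivial
    exact (Subgroup.nontrivial_iff_ne_bot _).1 this h1
  have hkz1 : kz = 1 := by omega
  have hkb3 : kb = 2 := by omega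
  rw [hkz1, pow_one] at hkz
  rw [hkb3] at hkb
  -- the quotient
  obtain ⟨f, hf⟩ : ∃ f : G →* G ⧸ center G, f = QuotientGroup.mk' (center G) := ⟨_, rfl⟩
  have hfs : Function.Surjective f := by rw [hf]; exact QuotientGroup.mk'_surjective _
  have hfk : ∀ x, f x = 1 ↔ x ∈ center G := by
    intro x; rw [hf]; exact QuotientGroup.eq_one_iff x
  have hqcard : Nat.card (G ⧸ center G) = p ^ n := by
    have h1 := Subgroup.card_mul_index (center G)
    rw [Subgroup.index_eq_card, hkz, hcard, pow_succ, mul_comm] at h1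
    exact Nat.eq_of_mul_eq_mul_right (by omega) h1
  have hφc : (center G).map φ.toMonoidHom = center G :=
    Subgroup.characteristic_iff_map_eq.1 inferInstance φ
  let ψ : G ⧸ center G ≃* G ⧸ center G := QuotientGroup.congr (center G) (center G) φ hφc
  have hψ : ∀ x, ψ (f x) = f (φ x) := by
    intro x; rw [hf]; rfl
  have hqb : Nat.card (centralizer ({f b} : Set (G ⧸ center G))) ≤ p ^ 2 := by
    have h1 := H22.card_le_of_comm (R := G) (W := (centralizer ({f b} : Set (G ⧸ center G))).comap f) (Z := center G)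
      le_rfl b (by
        intro w hw
        rw [mem_comap, mem_centralizer_singleton_iff] at hw
        rw [← hfk, map_commutatorElement, commutatorElement_eq_one_iff_mul_comm]
        exact hw)
    have h2 : Nat.card (((centralizer ({f b} : Set (G ⧸ center G))).comap f ⊓ centralizer ({b} : Set G) : Subgroup G)) ≤ p ^ 2 := by
      refine le_trans ?_ hcb
      exact Nat.le_of_dvd Nat.card_pos (Subgroup.card_dvd_of_le inf_le_right)
    have h3 : Nat.card ((centralizer ({f b} : Set (G ⧸ center G))).comap f) =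
        Nat.card (center G) * Nat.card (centralizer ({f b} : Set (G ⧸ center G))) := by
      have h4 := H2.card_comap_mk' (center G) (centralizer ({f b} : Set (G ⧸ center G)))
      rw [← hf, mul_comm] at h4
      exact h4
    rw [h3, hkz] at h1
    exact Nat.le_of_mul_le_mul_left (h1.trans (Nat.mul_le_mul_left _ h2)) (by omega)
  have hψinv : ∀ g, ψ g * g ∈ commutator (G ⧸ center G) := by
    intro g
    obtain ⟨x, rfl⟩ := hfs g
    rw [hψ, ← map_mul]
    have h1 : f (φ x * x) ∈ (commutator G).map f := ⟨_, hinv x, rfl⟩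
    rw [_root_.commutator_def, Subgroup.map_commutator, Subgroup.map_top_of_surjective _ hfs, ← _root_.commutator_def] at h1
    exact h1
  obtain ⟨ih1, ih2⟩ := ih (G ⧸ center G) ψ (f b) hn3 hqcard (by rw [hψ, hb, map_inv]) hqb hψinv
  constructor
  · intro h
    have h1 := ih1 inferInstance
    have h2 := Group.nilpotencyClass_eq_quotient_center_plus_one (G := G)
    omega
  -- the element `z₂`
  obtain ⟨Z₂, hZ₂⟩ : ∃ Z₂, Z₂ = (center (G ⧸ center G)).comap f := ⟨_, rfl⟩
  have hZ₂c : ∀ z ∈ Z₂, ∀ g, ⁅z, g⁆ ∈ center G := by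
    intro z hz g
    rw [hZ₂, mem_comap, mem_center_iff] at hz
    rw [← hfk, map_commutatorElement, commutatorElement_eq_one_iff_mul_comm]
    exact (hz (f g)).symm
  obtain ⟨z₂, hz₂, hz₂b⟩ : ∃ z₂ ∈ Z₂, z₂ * b ≠ b * z₂ := by
    by_contra hcon
    push Not at hcon
    have h1 : Z₂ ≤ centralizer ({b} : Set G) := by
      intro z hz
      rw [mem_centralizer_singleton_iff]
      exact hcon z hz
    have hqpg : IsPGroup p (G ⧸ center G) := hG.to_quotient _
    haveI : Nontrivial (G ⧸ center G) := by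
      rw [← Finite.one_lt_card_iff_nontrivial, hqcard]
      exact Nat.one_lt_pow (by omega) hp1
    have h2 : center G < Z₂ := by
      refine lt_of_le_of_ne ?_ ?_
      · intro z hz
        rw [hZ₂, mem_comap, (hfk z).2 hz]; exact one_mem _
      · intro h
        haveI := hqpg.center_nontrivial
        apply (Subgroup.nontrivial_iff_ne_bot _).1 this
        rw [eq_bot_iff]
        intro x hx
        obtain ⟨y, rfl⟩ := hfs x
        rw [mem_bot, hfk, h, hZ₂]
        exact hx
    have h3 : Z₂ = centralizer ({b} : Set G) := by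
      apply Subgroup.eq_of_le_of_card_ge h1
      obtain ⟨k2, hk2⟩ := hcpow Z₂
      have h4 : Nat.card (center G) < Nat.card Z₂ :=
        lt_of_le_of_ne (Nat.le_of_dvd Nat.card_pos (Subgroup.card_dvd_of_le h2.le))
          (fun h => h2.ne (Subgroup.eq_of_le_of_card_ge h2.le h.ge))
      rw [hk2, hkz] at h4
      have h5 : 1 < k2 := by
        by_contra h6
        have h7 : k2 ≤ 1 := by omega
        have := Nat.pow_le_pow_right (by omega : 0 < p) h7
        rw [pow_one] at this
        omega
      rw [hkb, hk2]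
      exact Nat.pow_le_pow_right (by omega) h5
    -- `b ∈ Z₂`
    have hbZ₂ : b ∈ Z₂ := h3 ▸ hbcb
    have h5 := H22.card_le_of_comm (R := G) (W := ⊤) (Z := center G) le_rfl b (by
      intro w _
      have := hZ₂c b hbZ₂ w
      rw [← commutatorElement_inv]
      exact inv_mem this)
    rw [Subgroup.card_top, hcard, hkz, top_inf_eq, hkb] at h5
    have hn4 : n = 2 := by
      by_contra hne
      have h6 : 3 ≤ n := by omega
      have h7 : p ^ (n + 1) ≤ p ^ 3 := by
        calc p ^ (n + 1) ≤ p * p ^ 2 := h5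
          _ = p ^ 3 := by ring
      have h8 := (Nat.pow_le_pow_iff_right hp1).1 h7
      omega
    subst hn4
    -- quotient abelian
    have hcomm : ∀ x y : G ⧸ center G, x * y = y * x := by
      have := IsPGroup.commutative_of_card_eq_prime_sq (p := p) (G := G ⧸ center G) hqcard
      intro x y
      exact this x y
    have h6 : Z₂ = ⊤ := by
      rw [eq_top_iff]
      intro x _
      rw [hZ₂, mem_comap, mem_center_iff]
      intro g
      exact hcomm g (f x)
    rw [h3] at h6
    rw [h6, Subgroup.card_top, hcard] at hkb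
    have := Nat.pow_right_injective hp.out.two_le hkb
    omega
  -- the sign
  obtain ⟨t, ht⟩ : ∃ t, t = ⁅z₂, b⁆ := ⟨_, rfl⟩
  have htZ : t ∈ center G := ht ▸ hZ₂c z₂ hz₂ b
  have ht1 : t ≠ 1 := by
    intro h
    rw [ht, commutatorElement_eq_one_iff_mul_comm] at h
    exact hz₂b h
  have h1 := ih2 (f z₂) (by rw [hZ₂] at hz₂; exact hz₂)
  rw [hψ, ← map_zpow] at h1
  obtain ⟨ε, hε⟩ : ∃ ε, ε = (-1 : ℤ) ^ (n - 1) := ⟨_, rfl⟩
  rw [← hε] at h1
  have h2 : (z₂ ^ ε)⁻¹ * φ z₂ ∈ center G := by
    rw [← hfk, map_mul, h1, map_inv, inv_mul_cancel]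
  obtain ⟨w, hw⟩ : ∃ w, w = (z₂ ^ ε)⁻¹ * φ z₂ := ⟨_, rfl⟩
  rw [← hw] at h2
  have h3 : φ z₂ = z₂ ^ ε * w := by rw [hw]; group
  have h4 : φ t = t ^ (ε * (-1)) := by
    rw [ht, map_commutatorElement, h3, hb]
    have h5 : ⁅z₂ ^ ε * w, b⁻¹⁆ = ⁅z₂ ^ ε, b⁻¹⁆ := by
      have hwc := mem_center_iff.1 h2
      rw [commutatorElement_def, commutatorElement_def, mul_inv_rev]
      calc z₂ ^ ε * w * b⁻¹ * (w⁻¹ * (z₂ ^ ε)⁻¹) * b⁻¹⁻¹ = z₂ ^ ε * (w * b⁻¹) * w⁻¹ * (z₂ ^ ε)⁻¹ * b⁻¹⁻¹ := by group
        _ = z₂ ^ ε * (b⁻¹ * w) * w⁻¹ * (z₂ ^ ε)⁻¹ * b⁻¹⁻¹ := by rw [hwc]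
        _ = _ := by group
    rw [h5]
    have h6 := H22.comm_zpow_zpow (v := z₂) (w := b) (c := t) ht.symm
      (show Commute t z₂ from (mem_center_iff.1 htZ z₂).symm) (show Commute t b from (mem_center_iff.1 htZ b).symm) ε (-1)
    rw [zpow_neg_one] at h6
    rw [h6, ht]
  have hZt : center G = zpowers t := by
    symm
    apply Subgroup.eq_of_le_of_card_ge
    · rwa [zpowers_le]
    · rw [hkz]
      have h5 : zpowers t ≠ ⊥ := by rwa [Ne, zpowers_eq_bot]
      obtain ⟨k, hk⟩ := hcpow (zpowers t)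
      rw [hk]
      have hk0 : k ≠ 0 := by
        rintro rfl
        exact h5 (Subgroup.card_eq_one.1 (by rw [hk, pow_zero]))
      calc p = p ^ 1 := (pow_one p).symm
        _ ≤ p ^ k := Nat.pow_le_pow_right (by omega) (by omega)
  intro z hz
  rw [hZt] at hz
  obtain ⟨j, rfl⟩ := hz
  change φ (t ^ j) = (t ^ j) ^ ((-1 : ℤ) ^ (n + 1 - 1))
  rw [map_zpow, h4, ← zpow_mul, ← zpow_mul]
  congr 1
  have h5 : n + 1 - 1 = (n - 1) + 1 := by omega
  rw [h5, pow_succ, ← hε, mul_comm]

end Cfsg.Agent.H19
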