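import Mathlib
import Cfsg.Agent.H22.OddPG7
import Cfsg.Agent.H22.OddPG1

/-!
# `p`-central groups, `p` odd: `|M / ℧(M)| ≤ |Ω(M)|`
-/

set_option autoImplicit false
set_option linter.all false

namespace Cfsg.Agent.H19

open Subgroup
open scoped commutatorElement

universe u

variable {p : ℕ}

theorem comm_of_zpowers_sup {G : Type u} [Group G] [Finite G] [hp : Fact p.Prime] (hG : IsPGroup p G) {a : G}
    (h : zpowers a ⊔ commutator G = ⊤) : ∀ x y : G, x * y = y * x := by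
  have h1 : zpowers a = ⊤ := by
    apply frattini_nongenerating
    rw [eq_top_iff, ← h]
    exact sup_le_sup_left (H2.commutator_le_frattini hG) _
  intro x y
  have hx : x ∈ zpowers a := by rw [h1]; exact mem_top _
  have hy : y ∈ zpowers a := by rw [h1]; exact mem_top _
  obtain ⟨i, rfl⟩ := hx
  obtain ⟨j, rfl⟩ := hy
  exact (Commute.refl a).zpow_zpow i j

theorem pcen_comm (hp2 : p ≠ 2) [hp : Fact p.Prime] (n : ℕ) : ∀ (G : Type u) [Group G] [Finite G], Nat.card G = n →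
    IsPGroup p G → (∀ x : G, x ^ p = 1 → x ∈ center G) → ∀ a b : G, (a ^ p) ^ p = 1 → ⁅a, b⁆ ^ p = 1 := by
  induction n using Nat.strong_induction_on with
  | _ n ih =>
  intro G _ _ hcard hG hc a b ha
  by_cases hab : ∀ x y : G, x * y = y * x
  · rw [commutatorElement_eq_one_iff_mul_comm.2 (hab a b), one_pow]
  obtain ⟨H, hH⟩ : ∃ H, H = zpowers a ⊔ commutator G := ⟨_, rfl⟩
  have hHt : H ≠ ⊤ := by
    intro h
    exact hab (comm_of_zpowers_sup hG (a := a) (by rw [← hH, h]))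
  have hHn : H.Normal := by
    apply Subgroup.Normal.of_commutator_le
    rw [hH]; exact le_sup_right
  have haH : a ∈ H := by rw [hH]; exact (le_sup_left : zpowers a ≤ _) (mem_zpowers a)
  have ha'H : b * a * b⁻¹ ∈ H := hHn.conj_mem a haH b
  obtain ⟨a', ha'⟩ : ∃ a', a' = b * a * b⁻¹ := ⟨_, rfl⟩
  rw [← ha'] at ha'H
  have hlt : Nat.card H < n := by
    rw [← hcard]
    exact lt_of_le_of_ne (Nat.le_of_dvd Nat.card_pos (Subgroup.card_subgroup_dvd_card H))
          (fun h => hHt (Subgroup.eq_top_of_card_eq H h))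
  have h1 := ih _ hlt H rfl (hG.to_subgroup H) (by
    intro x hx
    have h2 : (x : G) ∈ center G := hc _ (by exact_mod_cast congrArg Subtype.val hx)
    rw [mem_center_iff] at h2 ⊢
    intro g
    exact Subtype.ext (h2 g)) ⟨a, haH⟩ ⟨a', ha'H⟩ (Subtype.ext ha)
  have h2 : ⁅a, a'⁆ ^ p = 1 := congrArg (Subtype.val : H → G) h1
  have h3 : ⁅a, a'⁆ ∈ center G := hc _ h2
  have hap : a ^ p ∈ center G := hc _ ha
  rw [mem_center_iff] at h3 hap
  -- `c = [a⁻¹, a']`
  have hc1 : a⁻¹ * a' = ⁅a⁻¹, a'⁆ * (a' * a⁻¹) := by rw [commutatorElement_def]; group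
  have hc2 : ⁅a⁻¹, a'⁆ = ⁅a, a'⁆⁻¹ := by
    have h4 : ⁅a⁻¹, a'⁆ = a⁻¹ * ⁅a, a'⁆⁻¹ * a := by
      rw [commutatorElement_def, commutatorElement_def]; group
    rw [h4]
    have h5 := h3 a
    have h6 : a⁻¹ * ⁅a, a'⁆⁻¹ * a = (a⁻¹ * ⁅a, a'⁆ * a)⁻¹ := by group
    rw [h6]
    congr 1
    calc a⁻¹ * ⁅a, a'⁆ * a = a⁻¹ * (⁅a, a'⁆ * a) := by group
      _ = a⁻¹ * (a * ⁅a, a'⁆) := by rw [← h5]
      _ = ⁅a, a'⁆ := by group
  have hcx : ∀ g : G, Commute ⁅a⁻¹, a'⁆ g := by
    intro g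
    rw [hc2]
    exact (show Commute ⁅a, a'⁆ g from (h3 g).symm).inv_left
  have hcp : ⁅a⁻¹, a'⁆ ^ p = 1 := by rw [hc2, inv_pow, h2, inv_one]
  have h5 := H22.mul_pow_class_two hc1 (hcx a') (hcx a⁻¹) p
  rw [H22.pow_eq_one_of_dvd hcp (H22.half_dvd_odd hp.out hp2), one_mul] at h5
  have h6 : a' ^ p = a ^ p := by
    rw [ha', conj_pow, hap b]; group
  rw [h6, inv_pow, mul_inv_cancel] at h5
  have h7 : a' * a⁻¹ = ⁅b, a⁆ := by rw [ha', commutatorElement_def]
  rw [h7] at h5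
  rw [← commutatorElement_inv, inv_pow, h5, inv_one]

/-- the subgroup of elements of order dividing `p` -/
def pcOmega {G : Type u} [Group G] (hc : ∀ x : G, x ^ p = 1 → x ∈ center G) : Subgroup G where
  carrier := {x | x ^ p = 1}
  one_mem' := one_pow p
  mul_mem' := by
    intro a b ha hb
    have h1 : Commute a b := (mem_center_iff.1 (hc b hb) a)
    change (a * b) ^ p = 1
    rw [h1.mul_pow, ha, hb, one_mul]
  inv_mem' := by
    intro a ha
    change (a⁻¹) ^ p = 1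
    rw [inv_pow, ha, inv_one]

theorem mem_pcOmega {G : Type u} [Group G] (hc : ∀ x : G, x ^ p = 1 → x ∈ center G) {x : G} :
    x ∈ pcOmega hc ↔ x ^ p = 1 := Iff.rfl

theorem pcOmega_normal {G : Type u} [Group G] (hc : ∀ x : G, x ^ p = 1 → x ∈ center G) : (pcOmega hc).Normal := by
  constructor
  intro x hx g
  rw [mem_pcOmega] at hx ⊢
  rw [conj_pow, hx]; simp

theorem pcen_quot (hp2 : p ≠ 2) [hp : Fact p.Prime] {G : Type u} [Group G] [Finite G]
    (hG : IsPGroup p G) (hc : ∀ x : G, x ^ p = 1 → x ∈ center G) [(pcOmega hc).Normal] :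
    ∀ x : G ⧸ pcOmega hc, x ^ p = 1 → x ∈ center (G ⧸ pcOmega hc) := by
  intro x hx
  obtain ⟨a, rfl⟩ := QuotientGroup.mk'_surjective _ x
  rw [← map_pow] at hx
  have h1 : a ^ p ∈ pcOmega hc := (QuotientGroup.eq_one_iff _).1 hx
  rw [mem_center_iff]
  intro y
  obtain ⟨b, rfl⟩ := QuotientGroup.mk'_surjective _ y
  have h2 : ⁅a, b⁆ ∈ pcOmega hc := pcen_comm hp2 _ G rfl hG hc a b h1
  have h3 : QuotientGroup.mk' (pcOmega hc) ⁅a, b⁆ = 1 := (QuotientGroup.eq_one_iff _).2 h2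
  rw [map_commutatorElement, commutatorElement_eq_one_iff_mul_comm] at h3
  exact h3.symm

theorem pcen_inj (hp2 : p ≠ 2) [hp : Fact p.Prime] (n : ℕ) : ∀ (G : Type u) [Group G] [Finite G], Nat.card G = n →
    IsPGroup p G → (∀ x : G, x ^ p = 1 → x ∈ center G) → ∀ a b : G, a ^ p = b ^ p → (a⁻¹ * b) ^ p = 1 := by
  induction n using Nat.strong_induction_on with
  | _ n ih =>
  intro G _ _ hcard hG hc a b hab
  haveI := pcOmega_normal hc
  by_cases hΩ : pcOmega hc = ⊥
  · -- trivial group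
    have h1 : Nat.card G = 1 := by
      by_contra hne
      haveI : Nontrivial G := by
        rw [← Finite.one_lt_card_iff_nontrivial]
        have := Nat.card_pos (α := G); omega
      obtain ⟨k, hk, hk'⟩ := (IsPGroup.nontrivial_iff_card hG).1 inferInstance
      obtain ⟨z, hz⟩ := exists_prime_orderOf_dvd_card' (G := G) p (hk' ▸ dvd_pow_self p hk.ne')
      have h2 : z ∈ pcOmega hc := by rw [mem_pcOmega, ← hz]; exact pow_orderOf_eq_one z
      rw [hΩ, mem_bot] at h2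
      rw [h2, orderOf_one] at hz
      exact hp.out.one_lt.ne hz
    haveI : Subsingleton G := (Nat.card_eq_one_iff_unique.1 h1).1
    exact Subsingleton.elim _ _
  have hlt : Nat.card (G ⧸ pcOmega hc) < n := by
    rw [← hcard]
    have h3 := Subgroup.card_mul_index (pcOmega hc)
    rw [Subgroup.index_eq_card] at h3
    have h4 : 0 < Nat.card (G ⧸ pcOmega hc) := Nat.card_pos
    have hRc : 1 < Nat.card (pcOmega hc) := by
      haveI := (Subgroup.nontrivial_iff_ne_bot _).2 hΩ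
      exact Finite.one_lt_card
    rw [← h3]
    calc Nat.card (G ⧸ pcOmega hc) = 1 * Nat.card (G ⧸ pcOmega hc) := (one_mul _).symm
      _ < Nat.card (pcOmega hc) * Nat.card (G ⧸ pcOmega hc) := Nat.mul_lt_mul_of_pos_right hRc h4
  have h1 := ih _ hlt (G ⧸ pcOmega hc) rfl (hG.to_quotient _) (pcen_quot hp2 hG hc)
    (QuotientGroup.mk' _ a) (QuotientGroup.mk' _ b) (by rw [← map_pow, ← map_pow, hab])
  obtain ⟨c, hcdef⟩ : ∃ c, c = a⁻¹ * b := ⟨_, rfl⟩
  have hcp : (c ^ p) ^ p = 1 := by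
    have h2 : c ^ p ∈ pcOmega hc := by
      rw [← QuotientGroup.eq_one_iff]
      have : (QuotientGroup.mk' (pcOmega hc)) (c ^ p) = 1 := by
        rw [map_pow, hcdef, map_mul, map_inv]; exact h1
      exact this
    exact h2
  have hb : b = a * c := by rw [hcdef]; group
  have he : c * a = ⁅c, a⁆ * (a * c) := by rw [commutatorElement_def]; group
  have hep : ⁅c, a⁆ ^ p = 1 := pcen_comm hp2 _ G rfl hG hc c a hcp
  have hez := mem_center_iff.1 (hc _ hep)
  have h5 := H22.mul_pow_class_two he (show Commute ⁅c, a⁆ a from (hez a).symm) (show Commute ⁅c, a⁆ c from (hez c).symm) p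
  rw [H22.pow_eq_one_of_dvd hep (H22.half_dvd_odd hp.out hp2), one_mul, ← hb, ← hab] at h5
  rw [← hcdef]
  exact (left_eq_mul.1 h5)

theorem pcen_card (hp2 : p ≠ 2) [hp : Fact p.Prime] {G : Type u} [Group G] [Finite G]
    (hG : IsPGroup p G) (hc : ∀ x : G, x ^ p = 1 → x ∈ center G) :
    Nat.card G ≤ Nat.card (pcOmega hc) * Nat.card (H22.agemo p (⊤ : Subgroup G)) := by
  classical
  haveI := pcOmega_normal hc
  rw [← Subgroup.card_mul_index (pcOmega hc), Subgroup.index_eq_card]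
  apply Nat.mul_le_mul_left
  -- the map
  let f : G ⧸ pcOmega hc → H22.agemo p (⊤ : Subgroup G) := fun x =>
    ⟨(Quotient.out x) ^ p, Subgroup.subset_closure ⟨Quotient.out x, mem_top _, rfl⟩⟩
  apply Nat.card_le_card_of_injective f
  intro x y hxy
  have h1 : (Quotient.out x) ^ p = (Quotient.out y) ^ p := congrArg Subtype.val hxy
  have h2 := pcen_inj hp2 _ G rfl hG hc _ _ h1
  have h3 : ((Quotient.out x : G) : G ⧸ pcOmega hc) = ((Quotient.out y : G) : G ⧸ pcOmega hc) :=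
    QuotientGroup.eq.2 h2
  have h4 : ((Quotient.out x : G) : G ⧸ pcOmega hc) = x := Quotient.out_eq' x
  have h5 : ((Quotient.out y : G) : G ⧸ pcOmega hc) = y := Quotient.out_eq' y
  rw [h4, h5] at h3
  exact h3

/-- ambient form -/
theorem pcen_bound (hp2 : p ≠ 2) [hp : Fact p.Prime] {G : Type u} [Group G] [Finite G] {M E : Subgroup G}
    (hM : IsPGroup p M) (hc : ∀ x ∈ M, x ^ p = 1 → ∀ y ∈ M, x * y = y * x) (hE : ∀ x ∈ M, x ^ p = 1 → x ∈ E)
    (hEc : Nat.card E ≤ p ^ 2) : Nat.card M ≤ p ^ 2 * Nat.card (H22.agemo p M) := by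
  have hc' : ∀ x : M, x ^ p = 1 → x ∈ center M := by
    intro x hx
    rw [mem_center_iff]
    intro y
    exact Subtype.ext (hc x x.2 (by exact_mod_cast congrArg Subtype.val hx) y y.2).symm
  have h1 := pcen_card hp2 hM hc'
  rw [H22.card_agemo_top] at h1
  refine h1.trans (Nat.mul_le_mul_right _ (le_trans ?_ hEc))
  have h2 : Nat.card (pcOmega hc') = Nat.card ((pcOmega hc').map M.subtype) :=
    (Subgroup.card_map_of_injective M.subtype_injective).symm
  rw [h2]
  apply Nat.le_of_dvd Nat.card_pos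
  apply Subgroup.card_dvd_of_le
  rintro _ ⟨x, hx, rfl⟩
  exact hE x x.2 (by exact_mod_cast congrArg Subtype.val ((mem_pcOmega hc').1 hx))

end Cfsg.Agent.H19
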