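import Mathlib
import Cfsg.Agent.H19.PCen
import Cfsg.Agent.H19.MaxCl
import Cfsg.Agent.H19.PCyclic
import Cfsg.Agent.H22.OddPG6
import Cfsg.Agent.H22.OddPG4
import Cfsg.Agent.H23.Coprime
import Cfsg.Agent.H23.Coprime3
import Cfsg.Agent.H1.Coprime2
import Cfsg.Agent.H18.PRes

/-!
# Rank two `p`-groups inverted modulo the derived group, centralizing a central element of order `p`
-/

set_option autoImplicit false
set_option linter.all false

namespace Cfsg.Agent.H19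

open Subgroup
open scoped commutatorElement

universe u

variable {G : Type u} [Group G] {p : ℕ}

structure TD (p : ℕ) (P E : Subgroup G) (x h : G) : Prop where
  pP : IsPGroup p P
  hp2 : p ≠ 2
  EP : E ≤ P
  Ec : Nat.card E = p ^ 2
  Ee : ∀ e ∈ E, e ^ p = 1
  Ea : ∀ a ∈ E, ∀ b ∈ E, a * b = b * a
  PE : P ≤ normalizer (E : Set G)
  hE : h ∈ normalizer (E : Set G)
  hP : h ∈ normalizer (P : Set G)
  xE : x ∈ E
  x1 : x ≠ 1
  xc : ∀ g ∈ P, x * g = g * x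
  om : ∀ m ∈ P, m ∈ centralizer (E : Set G) → m ^ p = 1 → m ∈ E
  nc : ¬ P ≤ centralizer (E : Set G)
  hx : h * x = x * h
  ho : (orderOf h).Coprime p
  h2 : ∀ g ∈ P, (h * h) * g = g * (h * h)
  inv : ∀ g ∈ P, h * g * h⁻¹ * g ∈ ⁅P, P⁆

section

variable {P E : Subgroup G} {x h : G}

theorem ea_span [Finite G] [hp : Fact p.Prime] (hpE : IsPGroup p E) (hEc : Nat.card E = p ^ 2) {x e : G}
    (hx : x ∈ E) (hxp : x ^ p = 1) (hx1 : x ≠ 1) (he : e ∈ E) (hex : e ∉ zpowers x) : E = zpowers x ⊔ zpowers e := by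
  symm
  apply Subgroup.eq_of_le_of_card_ge
  · exact sup_le (zpowers_le.2 hx) (zpowers_le.2 he)
  · have h1 := H22.card_mul_le_sup_zpowers hpE (U := zpowers x) (zpowers_le.2 hx) he hex
    rw [Nat.card_zpowers, orderOf_eq_prime hxp hx1, ← pow_two, ← hEc] at h1
    exact h1

theorem mem_centralizer_sup {A B : Subgroup G} {g : G} (h1 : ∀ a ∈ A, g * a = a * g) (h2 : ∀ b ∈ B, g * b = b * g) :
    g ∈ centralizer ((A ⊔ B : Subgroup G) : Set G) := by
  have h3 : A ⊔ B ≤ centralizer ({g} : Set G) := by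
    refine sup_le ?_ ?_
    · intro a ha
      rw [mem_centralizer_singleton_iff]; exact (h1 a ha).symm
    · intro a ha
      rw [mem_centralizer_singleton_iff]; exact (h2 a ha).symm
  rw [mem_centralizer_iff]
  intro y hy
  exact mem_centralizer_singleton_iff.1 (h3 hy)

theorem commute_zpowers {g x : G} (h : g * x = x * g) : ∀ a ∈ zpowers x, g * a = a * g := by
  rintro _ ⟨i, rfl⟩
  exact (Commute.zpow_right (show Commute g x from h) i).eq

namespace TD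

variable [Finite G] [hp : Fact p.Prime] (D : TD p P E x h)
include D

theorem pE : IsPGroup p E := D.pP.to_le D.EP

theorem xp : x ^ p = 1 := D.Ee x D.xE

theorem card_x : Nat.card (zpowers x) = p := by rw [Nat.card_zpowers, orderOf_eq_prime D.xp D.x1]

theorem span {e : G} (he : e ∈ E) (hex : e ∉ zpowers x) : E = zpowers x ⊔ zpowers e :=
  ea_span D.pE D.Ec D.xE D.xp D.x1 he hex

theorem cent_of_comm {b e : G} (hb : b ∈ P) (he : e ∈ E) (hex : e ∉ zpowers x) (hbe : b * e = e * b) :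
    b ∈ centralizer (E : Set G) := by
  rw [D.span he hex]
  exact mem_centralizer_sup (commute_zpowers (D.xc b hb).symm) (commute_zpowers hbe)

theorem mem_of_comm {b e : G} (hb : b ∈ P) (hbE : b ∉ centralizer (E : Set G)) (he : e ∈ E) (hbe : b * e = e * b) :
    e ∈ zpowers x := by
  by_contra hex
  exact hbE (D.cent_of_comm hb he hex hbe)

theorem zx_comm {z : G} (hz : z ∈ zpowers x) {g : G} (hg : g ∈ P) : z * g = g * z :=
  (commute_zpowers (D.xc g hg).symm z hz).symm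

theorem comm_mem {g e : G} (hg : g ∈ P) (he : e ∈ E) : ⁅g, e⁆ ∈ zpowers x := by
  have hEn : (E.subgroupOf P).Normal := H10.normal_subgroupOf_of_le D.PE
  obtain ⟨Z, hZE, hZc, hZp, hZ⟩ := H22.sq_comm_mem (R := P) (p := p) D.pP (E := E.subgroupOf P) (by
    rw [← D.Ec]
    exact Nat.card_congr (Subgroup.subgroupOfEquivOfLe D.EP).toEquiv)
  have h1 : ∀ z ∈ Z, (z : G) ∈ zpowers x := by
    intro z hz
    by_contra hcon
    apply D.nc
    intro g hg
    refine D.cent_of_comm hg (hZE hz) hcon ?_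
    have := mem_center_iff.1 (hZc hz) ⟨g, hg⟩
    exact congrArg Subtype.val this
  exact h1 _ (hZ ⟨e, D.EP he⟩ he ⟨g, hg⟩)

/-- the commutator map with a fixed element of `E` -/
theorem comm_mul {g g' e : G} (hg : g ∈ P) (hg' : g' ∈ P) (he : e ∈ E) : ⁅g * g', e⁆ = ⁅g, e⁆ * ⁅g', e⁆ := by
  have h1 : ⁅g * g', e⁆ = (g * ⁅g', e⁆ * g⁻¹) * ⁅g, e⁆ := by
    rw [commutatorElement_def, commutatorElement_def, commutatorElement_def]; group
  have h2 := D.zx_comm (D.comm_mem hg' he) hg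
  have h3 : g * ⁅g', e⁆ * g⁻¹ = ⁅g', e⁆ := by rw [← h2]; group
  rw [h1, h3]
  exact D.zx_comm (D.comm_mem hg' he) (D.EP ((zpowers_le.2 D.xE : zpowers x ≤ E) (D.comm_mem hg he)))

/-- the commutator homomorphism -/
def chi {e : G} (he : e ∈ E) : P →* G :=
  MonoidHom.mk' (fun g => ⁅(g : G), e⁆) (fun a b => D.comm_mul a.2 b.2 he)

theorem derived_le : ⁅P, P⁆ ≤ centralizer (E : Set G) := by
  rw [Subgroup.commutator_le]
  intro a ha b hb
  rw [mem_centralizer_iff]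
  intro e he
  have h1 : D.chi he ⁅(⟨a, ha⟩ : P), ⟨b, hb⟩⁆ = 1 := by
    rw [map_commutatorElement, commutatorElement_eq_one_iff_mul_comm]
    exact D.zx_comm (D.comm_mem ha he) (D.EP ((zpowers_le.2 D.xE : zpowers x ≤ E) (D.comm_mem hb he)))
  have h2 : ⁅⁅a, b⁆, e⁆ = 1 := h1
  rw [commutatorElement_eq_one_iff_mul_comm] at h2
  exact h2.symm

theorem exists_y : ∃ y ∈ E, y ∉ zpowers x := by
  by_contra hcon
  push Not at hcon
  have h1 : Nat.card E ≤ Nat.card (zpowers x) := Nat.le_of_dvd Nat.card_pos (Subgroup.card_dvd_of_le hcon)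
  rw [D.Ec, D.card_x] at h1
  have := hp.out.one_lt
  nlinarith

theorem exists_zpow {b g : G} (hb : b ∈ P) (hbE : b ∉ centralizer (E : Set G)) (hg : g ∈ P) :
    ∃ k : ℤ, g * b ^ k ∈ centralizer (E : Set G) := by
  obtain ⟨y, hy, hyx⟩ := D.exists_y
  obtain ⟨c, hc⟩ : ∃ c, c = ⁅b, y⁆ := ⟨_, rfl⟩
  have hcx : c ∈ zpowers x := hc ▸ D.comm_mem hb hy
  have hc1 : c ≠ 1 := by
    intro h1
    rw [hc, commutatorElement_eq_one_iff_mul_comm] at h1
    exact hbE (D.cent_of_comm hb hy hyx h1)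
  have hcp : c ^ p = 1 := D.Ee c ((zpowers_le.2 D.xE : zpowers x ≤ E) hcx)
  have hz : zpowers c = zpowers x := by
    apply Subgroup.eq_of_le_of_card_ge
    · rwa [zpowers_le]
    · rw [D.card_x, Nat.card_zpowers, orderOf_eq_prime hcp hc1]
  obtain ⟨k, hk⟩ : ⁅g, y⁆⁻¹ ∈ zpowers c := by
    rw [hz]; exact inv_mem (D.comm_mem hg hy)
  refine ⟨k, D.cent_of_comm (mul_mem hg (zpow_mem hb k)) hy hyx ?_⟩
  rw [← commutatorElement_eq_one_iff_mul_comm, D.comm_mul hg (zpow_mem hb k) hy]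
  have h1 : ⁅b ^ k, y⁆ = c ^ k := by
    have h2 := map_zpow (D.chi hy) ⟨b, hb⟩ k
    have h3 : D.chi hy (⟨b, hb⟩ ^ k) = ⁅b ^ k, y⁆ := rfl
    rw [h3] at h2
    rw [h2, hc]; rfl
  have hk' : c ^ k = ⁅g, y⁆⁻¹ := hk
  rw [h1, hk', mul_inv_cancel]

theorem hinvM {g : G} (hg : g ∈ P) : h * g * h⁻¹ * g ∈ centralizer (E : Set G) := D.derived_le (D.inv g hg)

theorem hgP {g : G} (hg : g ∈ P) : h * g * h⁻¹ ∈ P := (mem_normalizer_iff.1 D.hP g).1 hg

theorem hgE {g : G} (hg : g ∈ E) : h * g * h⁻¹ ∈ E := (mem_normalizer_iff.1 D.hE g).1 hg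

theorem h_inv_E {e : G} (he : e ∈ E) : h * e * h⁻¹ * e ∈ zpowers x := by
  obtain ⟨b, hb, hbE⟩ := SetLike.not_le_iff_exists.1 D.nc
  obtain ⟨m, hm⟩ : ∃ m, m = h * b * h⁻¹ * b := ⟨_, rfl⟩
  have hmC : m ∈ centralizer (E : Set G) := hm ▸ D.hinvM hb
  have hmP : m ∈ P := by rw [hm]; exact mul_mem (D.hgP hb) hb
  have he' := D.hgE he
  -- `[b, e] = h [b, e] h⁻¹ = [m b⁻¹, e'] = [b, e']⁻¹`
  have h1 : h * ⁅b, e⁆ * h⁻¹ = ⁅b, e⁆ := by
    have h2 := commute_zpowers D.hx _ (D.comm_mem hb he)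
    rw [h2]; group
  have h2 : h * ⁅b, e⁆ * h⁻¹ = ⁅m * b⁻¹, h * e * h⁻¹⁆ := by
    rw [hm, commutatorElement_def, commutatorElement_def]; group
  have h3 : ⁅m, h * e * h⁻¹⁆ = 1 := by
    rw [commutatorElement_eq_one_iff_mul_comm]
    exact (mem_centralizer_iff.1 hmC _ he').symm
  rw [D.comm_mul hmP (inv_mem hb) he', h3, one_mul] at h2
  have h4 : ⁅b⁻¹, h * e * h⁻¹⁆ = ⁅b, h * e * h⁻¹⁆⁻¹ := by
    have h5 := map_inv (D.chi he') ⟨b, hb⟩
    exact h5
  rw [h1, h4] at h2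
  -- `[b, e' e] = 1`
  have h5 : ⁅b, h * e * h⁻¹ * e⁆ = 1 := by
    have h6 : ⁅b, h * e * h⁻¹ * e⁆ = ⁅b, h * e * h⁻¹⁆ * ((h * e * h⁻¹) * ⁅b, e⁆ * (h * e * h⁻¹)⁻¹) := by
      rw [commutatorElement_def, commutatorElement_def, commutatorElement_def]; group
    have h7 := D.zx_comm (D.comm_mem hb he) (D.EP he')
    have h8 : (h * e * h⁻¹) * ⁅b, e⁆ * (h * e * h⁻¹)⁻¹ = ⁅b, e⁆ := by rw [← h7]; group
    rw [h6, h8, h2, mul_inv_cancel]
  rw [commutatorElement_eq_one_iff_mul_comm] at h5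
  exact D.mem_of_comm hb hbE (mul_mem he' he) h5

end TD

end

end Cfsg.Agent.H19
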