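import Mathlib
import Cfsg.Prelude.Def_SubgroupEmbedding
import Cfsg.Agent.H10.Comp
import Cfsg.Agent.H10.Sig
import Cfsg.Agent.H1.Chief
import Cfsg.Agent.H1.Cores
import Cfsg.Agent.H1.Coprime
import Cfsg.Agent.H23.Subnormal
import Cfsg.Agent.S3012

/-!
# Minimal counterexamples to the Sidki pair statement
-/

set_option autoImplicit false
set_option linter.style.haveILetI false

namespace Cfsg.Agent.H19

open Subgroup Cfsg
open scoped Pointwise

universe u

variable {G : Type u} [Group G]

theorem odd_mem_of_sq_mem {H : Subgroup G} {h : G} (hodd : Odd (orderOf h)) (h2 : h * h ∈ H) : h ∈ H := by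
  obtain ⟨m, hm⟩ := hodd
  have h3 : h = (h * h) ^ (m + 1) := by
    rw [← sq, ← pow_mul]
    have : 2 * (m + 1) = orderOf h + 1 := by omega
    rw [this, pow_succ, pow_orderOf_eq_one, one_mul]
  rw [h3]
  exact pow_mem h2 _

theorem odd_eq_one_of_sq {h : G} (hodd : Odd (orderOf h)) (h2 : h * h = 1) : h = 1 := by
  have := odd_mem_of_sq_mem (H := (⊥ : Subgroup G)) hodd (by rw [h2]; exact one_mem _)
  exact mem_bot.mp this

theorem mem_centralizer_of_commutes {K : Subgroup G} {x : G} (h : ∀ k ∈ K, x * k = k * x) :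
    x ∈ centralizer (K : Set G) := by
  rw [mem_centralizer_iff]
  intro k hk
  exact (h k hk).symm

/-- an element of `O₂(U K)` centralizes `K` if `O₂(G) = 1` and `K` is subnormal and normalized by `U` -/
theorem centralizes_of_mem_pCore [Finite G] (hO : pCore 2 G = ⊥) {K U : Subgroup G} (hK : K.IsSubnormal)
    (hUK : U ≤ normalizer (K : Set G)) {x : G} (hx : x ∈ (pCore 2 ↥(U ⊔ K)).map (U ⊔ K).subtype) :
    x ∈ centralizer (K : Set G) := by
  haveI : Fact (Nat.Prime 2) := ⟨Nat.prime_two⟩
  set H := U ⊔ K with hH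
  set Q := (pCore 2 ↥H).map H.subtype with hQ
  have hKH : K ≤ H := le_sup_right
  have hQp : IsPGroup 2 Q := (H10.pCore_isPGroup 2 _).map _
  have hHQ : H ≤ normalizer (Q : Set G) := by
    have h := H1.pCore_normal 2 ↥H
    intro g hg
    rw [mem_normalizer_iff]
    have key : ∀ g ∈ H, ∀ y ∈ Q, g * y * g⁻¹ ∈ Q := by
      rintro g hg _ ⟨z, hz, rfl⟩
      exact ⟨⟨g, hg⟩ * z * ⟨g, hg⟩⁻¹, h.conj_mem z hz ⟨g, hg⟩, rfl⟩
    intro y
    refine ⟨key g hg y, fun hy => ?_⟩
    have h1 := key g⁻¹ (inv_mem hg) _ hy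
    have e : g⁻¹ * (g * y * g⁻¹) * g⁻¹⁻¹ = y := by group
    rwa [e] at h1
  have hHK : H ≤ normalizer (K : Set G) := sup_le hUK le_normalizer
  have hD : (Q ⊓ K).IsSubnormal := by
    apply H23.IsSubnormal.of_le_normalizer hK inf_le_right
    intro k hk
    rw [H1.mem_normalizer_iff_conj_smul, H1.conj_smul_inf,
      H1.mem_normalizer_iff_conj_smul.mp (hHQ (hKH hk)), H1.mem_normalizer_iff_conj_smul.mp (hHK (hKH hk))]
  have hD2 : Q ⊓ K ≤ ⊥ := by
    rw [← hO]
    exact H10.subnormal_pGroup_le_pCore hD (hQp.to_le inf_le_left)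
  apply mem_centralizer_of_commutes
  intro k hk
  have hxH : x ∈ H := by
    obtain ⟨y, _, rfl⟩ := hx
    exact y.2
  have h1 : x * k * x⁻¹ * k⁻¹ ∈ Q ⊓ K := by
    refine mem_inf.mpr ⟨?_, ?_⟩
    · have : x * k * x⁻¹ * k⁻¹ = x * (k * x⁻¹ * k⁻¹) := by group
      rw [this]
      exact mul_mem hx ((mem_normalizer_iff.mp (hHQ (hKH hk)) _).mp (inv_mem hx))
    · exact mul_mem ((mem_normalizer_iff.mp (hHK hxH) _).mp hk) (inv_mem hk)
  have h2 := mem_bot.mp (hD2 h1)
  calc x * k = (x * k * x⁻¹ * k⁻¹) * (k * x) := by group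
    _ = k * x := by rw [h2, one_mul]

/-- a minimal counterexample -/
structure SMin (V : Subgroup G) [Finite G] : Prop where
  el : IsElementaryAbelian 2 V
  ne : V ≠ ⊥
  sid : IsSidkiPair V
  core : V ⊓ pCore 2 G = ⊥
  minG : ∀ (H : Type u) [Group H] [Finite H] (W : Subgroup H), Nat.card H < Nat.card G →
    IsElementaryAbelian 2 W → W ≠ ⊥ → IsSidkiPair W → W ⊓ pCore 2 H ≠ ⊥
  minV : ∀ W : Subgroup G, Nat.card W < Nat.card V → IsElementaryAbelian 2 W → W ≠ ⊥ →
    IsSidkiPair W → W ⊓ pCore 2 G ≠ ⊥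

variable [Finite G] {V : Subgroup G}

theorem elab_subgroupOf' {U H : Subgroup G} (hU : IsElementaryAbelian 2 U) : IsElementaryAbelian 2 (U.subgroupOf H) := by
  apply H10.elab_of_comm
  · intro a ha b hb
    rw [mem_subgroupOf] at ha hb
    exact Subtype.ext (H10.elab_comm hU ha hb)
  · intro a ha
    rw [mem_subgroupOf] at ha
    apply Subtype.ext
    push_cast
    exact hU.2 _ ha

theorem sidki_subgroupOf (hS : IsSidkiPair V) {H : Subgroup G} (hV : V ≤ H) : IsSidkiPair (V.subgroupOf H) := by
  intro h v hv hodd hinv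
  rw [mem_subgroupOf] at hv
  obtain ⟨w, hw, hw1, hwc⟩ := hS (h : G) (v : G) hv (by rwa [Subgroup.orderOf_coe]) (congrArg Subtype.val hinv)
  refine ⟨⟨w, hV hw⟩, by rw [mem_subgroupOf]; exact hw, fun e => hw1 (congrArg Subtype.val e), Subtype.ext hwc⟩

theorem SMin.use (h : SMin V) {H U : Subgroup G} (hUH : U ≤ H) (hlt : H ≠ ⊤) (hU : IsElementaryAbelian 2 U)
    (hU1 : U ≠ ⊥) (hS : IsSidkiPair (U.subgroupOf H)) : ∃ x ∈ U, x ≠ 1 ∧ x ∈ (pCore 2 ↥H).map H.subtype := by
  have hcard : Nat.card H < Nat.card G := by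
    have h := H1.card_lt_of_lt' (lt_top_iff_ne_top.mpr hlt)
    rwa [Subgroup.card_top] at h
  have h1 : U.subgroupOf H ≠ ⊥ := by
    intro e
    apply hU1
    rw [eq_bot_iff]
    intro x hx
    have : (⟨x, hUH hx⟩ : H) ∈ U.subgroupOf H := by rw [mem_subgroupOf]; exact hx
    rw [e, mem_bot] at this
    rw [mem_bot]
    exact congrArg Subtype.val this
  have h2 := h.minG H (U.subgroupOf H) hcard (elab_subgroupOf' hU) h1 hS
  obtain ⟨y, hy⟩ := Subgroup.ne_bot_iff_exists_ne_one.mp h2
  have hy2 := y.2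
  rw [mem_inf, mem_subgroupOf] at hy2
  refine ⟨((y : H) : G), hy2.1, fun e => hy (Subtype.ext (Subtype.ext e)), ⟨_, hy2.2, rfl⟩⟩

theorem SMin.core_eq (h : SMin V) : pCore 2 G = ⊥ := by
  haveI : Fact (Nat.Prime 2) := ⟨Nat.prime_two⟩
  by_contra hne
  haveI hn := H1.pCore_normal 2 G
  have h1 := S3012.result V (pCore 2 G) h.el h.ne h.sid h.core
  have hlt : Nat.card (G ⧸ pCore 2 G) < Nat.card G := by
    rw [← Subgroup.index_eq_card]
    have h1 := (pCore 2 G).card_mul_index
    have h2 : 1 < Nat.card (pCore 2 G) := by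
      rw [Subgroup.one_lt_card_iff_ne_bot]; exact hne
    have h3 : 0 < (pCore 2 G).index := Nat.pos_of_ne_zero Subgroup.index_ne_zero_of_finite
    nlinarith
  have h2 : V.map (QuotientGroup.mk' (pCore 2 G)) ≠ ⊥ := by
    intro e
    rw [Subgroup.map_eq_bot_iff, QuotientGroup.ker_mk'] at e
    apply h.ne
    rw [← inf_eq_left.mpr e, h.core]
  have h3 : IsElementaryAbelian 2 (V.map (QuotientGroup.mk' (pCore 2 G))) := by
    apply H10.elab_of_comm
    · rintro _ ⟨a, ha, rfl⟩ _ ⟨b, hb, rfl⟩
      rw [← map_mul, ← map_mul, H10.elab_comm h.el ha hb]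
    · rintro _ ⟨a, ha, rfl⟩
      rw [← map_pow, h.el.2 a ha, map_one]
  have h4 := h.minG (G ⧸ pCore 2 G) _ hlt h3 h2 h1
  apply h4
  rw [H1.pCore_quotient_eq_bot, inf_bot_eq]

theorem SMin.normal_core (h : SMin V) {K : Subgroup G} (hK : K.Normal) : (pCore 2 ↥K).map K.subtype = ⊥ := by
  haveI : Fact (Nat.Prime 2) := ⟨Nat.prime_two⟩
  rw [H10.pCore_map_subtype 2 hK.isSubnormal, h.core_eq, bot_inf_eq]

/-- **Step A**: `V K = G` for all minimal normal subgroups `K` -/
theorem SMin.sup_eq_top (h : SMin V) {K : Subgroup G} (hK : H23.IsMinNormal K) : V ⊔ K = ⊤ := by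
  haveI : Fact (Nat.Prime 2) := ⟨Nat.prime_two⟩
  by_contra hVK
  haveI hKn := hK.1
  have hO := h.core_eq
  have hN : ∀ U : Subgroup G, U ≤ normalizer (K : Set G) := fun U => by
    rw [Subgroup.normalizer_eq_top]; exact le_top
  set C := centralizer (K : Set G) with hC
  haveI hCn : C.Normal := H10.normal_centralizer_of_normal hKn
  have hsq : ∀ v ∈ V, v * v = 1 := fun v hv => by rw [← sq]; exact h.el.2 v hv
  -- `V ∩ C ≠ 1`
  obtain ⟨x, hxV, hx1, hxO⟩ := h.use (H := V ⊔ K) le_sup_left hVK h.el h.ne (sidki_subgroupOf h.sid le_sup_left)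
  have hxC : x ∈ C := centralizes_of_mem_pCore hO hKn.isSubnormal (hN V) hxO
  set W := V ⊓ C with hW
  have hW1 : W ≠ ⊥ := by
    intro e
    have : x ∈ W := mem_inf.mpr ⟨hxV, hxC⟩
    rw [e, mem_bot] at this
    exact hx1 this
  -- elements of `K ∩ C` of square one are trivial
  have hZK : ∀ z ∈ K ⊓ C, z * z = 1 → z = 1 := by
    intro z hz hz2
    let E : Subgroup G :=
      { carrier := {z | z ∈ K ⊓ C ∧ z * z = 1}
        one_mem' := ⟨one_mem _, by simp⟩
        mul_mem' := by
          rintro a b ⟨ha, ha2⟩ ⟨hb, hb2⟩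
          refine ⟨mul_mem ha hb, ?_⟩
          have hab : a * b = b * a := mem_centralizer_iff.mp hb.2 a ha.1
          calc a * b * (a * b) = a * (b * a) * b := by group
            _ = a * (a * b) * b := by rw [hab]
            _ = (a * a) * (b * b) := by group
            _ = 1 := by rw [ha2, hb2, one_mul]
        inv_mem' := by
          rintro a ⟨ha, ha2⟩
          refine ⟨inv_mem ha, ?_⟩
          rw [← mul_inv_rev, ha2, inv_one] }
    have hEn : E.Normal := by
      refine ⟨fun a ha g => ⟨?_, ?_⟩⟩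
      · exact (inferInstance : (K ⊓ C).Normal).conj_mem a ha.1 g
      · calc g * a * g⁻¹ * (g * a * g⁻¹) = g * (a * a) * g⁻¹ := by group
          _ = 1 := by rw [ha.2]; group
    have hEp : IsPGroup 2 E := by
      intro a
      refine ⟨1, ?_⟩
      apply Subtype.ext
      push_cast
      rw [sq]
      exact a.2.2
    have h1 := H10.le_pCore hEn hEp
    rw [hO] at h1
    exact mem_bot.mp (h1 (show z ∈ E from ⟨hz, hz2⟩))
  have hWel : IsElementaryAbelian 2 W := H10.elab_mono h.el inf_le_left
  -- `W` is a Sidki pair in `G`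
  have hWS : IsSidkiPair W := by
    intro g w hw hodd hinv
    have hgC : g ∈ C := by
      have h1 : w * (g * w⁻¹ * g⁻¹) ∈ C := mul_mem hw.2 (hCn.conj_mem _ (inv_mem hw.2) g)
      have h2 : w * (g * w⁻¹ * g⁻¹) = (g * g)⁻¹ := by
        calc w * (g * w⁻¹ * g⁻¹) = (w * g * w⁻¹) * g⁻¹ := by group
          _ = (g * g)⁻¹ := by rw [hinv]; group
      rw [h2] at h1
      exact odd_mem_of_sq_mem hodd (by have := inv_mem h1; rwa [inv_inv] at this)
    by_contra hno
    push Not at hno
    set Vh := V ⊓ centralizer {g} with hVh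
    have hVhC : ∀ u ∈ Vh, u ∈ C → u = 1 := by
      intro u hu huC
      by_contra hu1
      exact hno u (mem_inf.mpr ⟨hu.1, huC⟩) hu1 (mem_centralizer_singleton_iff.mp hu.2)
    have hVh1 : Vh ≠ ⊥ := by
      intro e
      obtain ⟨u, hu, hu1, huc⟩ := h.sid g w hw.1 hodd hinv
      have : u ∈ Vh := mem_inf.mpr ⟨hu, mem_centralizer_singleton_iff.mpr huc⟩
      rw [e, mem_bot] at this
      exact hu1 this
    have hVhel : IsElementaryAbelian 2 Vh := H10.elab_mono h.el inf_le_left
    set H := Vh ⊔ K with hH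
    have hHt : H ≠ ⊤ := by
      intro e
      apply hVK
      rw [eq_top_iff, ← e]
      exact sup_le_sup_right inf_le_left K
    have hmemH : ∀ {y : G}, y ∈ H → ∃ v ∈ Vh, ∃ k ∈ K, v * k = y := by
      intro y hy
      rw [hH, Subgroup.mem_sup_of_normal_right] at hy
      exact hy
    have hSH : IsSidkiPair (Vh.subgroupOf H) := by
      intro k v hv hkodd hkinv
      rw [mem_subgroupOf] at hv
      have hkodd' : Odd (orderOf (k : G)) := by rwa [Subgroup.orderOf_coe]
      have hkinv' : (v : G) * k * (v : G)⁻¹ = (k : G)⁻¹ := congrArg Subtype.val hkinv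
      -- `k ∈ K`
      have hkK : (k : G) ∈ K := by
        obtain ⟨u, hu, k', hk', e⟩ := hmemH k.2
        apply odd_mem_of_sq_mem hkodd'
        rw [← e]
        have : u * k' * (u * k') = (u * k' * u⁻¹) * (u * u) * k' := by group
        rw [this, hsq u hu.1, mul_one]
        exact mul_mem (hKn.conj_mem _ hk' u) hk'
      have hgk : g * k = k * g := (mem_centralizer_iff.mp hgC k hkK).symm
      have hwk : w * k = k * w := (mem_centralizer_iff.mp hw.2 k hkK).symm
      have hvg : (v : G) * g = g * v := mem_centralizer_singleton_iff.mp hv.2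
      have hyodd : Odd (orderOf (g * k)) :=
        Odd.of_dvd_nat (hodd.mul hkodd') (Commute.orderOf_mul_dvd_mul_orderOf hgk)
      have hyinv : (w * v) * (g * k) * (w * v)⁻¹ = (g * k)⁻¹ := by
        calc (w * v) * (g * k) * (w * v)⁻¹ = w * ((v * g) * k * (v : G)⁻¹) * w⁻¹ := by group
          _ = w * ((g * v) * k * (v : G)⁻¹) * w⁻¹ := by rw [hvg]
          _ = (w * g * w⁻¹) * (w * (v * k * (v : G)⁻¹) * w⁻¹) := by group
          _ = (w * g * w⁻¹) * (w * (k : G)⁻¹ * w⁻¹) := by rw [hkinv']
          _ = g⁻¹ * (w * k * w⁻¹)⁻¹ := by rw [hinv]; group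
          _ = g⁻¹ * (k : G)⁻¹ := by rw [hwk]; group
          _ = (k * g)⁻¹ := by group
          _ = _ := by rw [hgk]
      obtain ⟨u, hu, hu1, huc⟩ := h.sid (g * k) (w * v) (mul_mem hw.1 hv.1) hyodd hyinv
      -- `z = g⁻¹ g^u`
      have hz : g⁻¹ * (u * g * u⁻¹) = k * (u * k * u⁻¹)⁻¹ := by
        have e : (u * g * u⁻¹) * (u * k * u⁻¹) = g * k := by
          calc (u * g * u⁻¹) * (u * k * u⁻¹) = u * (g * k) * u⁻¹ := by group
            _ = g * k := by rw [huc]; group
        calc g⁻¹ * (u * g * u⁻¹) = g⁻¹ * ((u * g * u⁻¹) * (u * k * u⁻¹)) * (u * k * u⁻¹)⁻¹ := by group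
          _ = g⁻¹ * (g * k) * (u * k * u⁻¹)⁻¹ := by rw [e]
          _ = _ := by group
      set z := g⁻¹ * (u * g * u⁻¹) with hzdef
      have hzC : z ∈ C := mul_mem (inv_mem hgC) (hCn.conj_mem _ hgC u)
      have hzK : z ∈ K := by rw [hz]; exact mul_mem hkK (inv_mem (hKn.conj_mem _ hkK u))
      have hug : u * g * u⁻¹ = g * z := by rw [hzdef]; group
      have huw : u * w = w * u := H10.elab_comm h.el hu hw.1
      have hwz : w * z * w⁻¹ = z := by rw [← mem_centralizer_iff.mp hw.2 z hzK]; group
      have hgz : z * g = g * z := mem_centralizer_iff.mp hgC z hzK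
      have hz2 : z * z = 1 := by
        have e1 : w * (g * z) * w⁻¹ = (g * z)⁻¹ := by
          rw [← hug]
          calc w * (u * g * u⁻¹) * w⁻¹ = (w * u) * g * (w * u)⁻¹ := by group
            _ = (u * w) * g * (u * w)⁻¹ := by rw [huw]
            _ = u * (w * g * w⁻¹) * u⁻¹ := by group
            _ = _ := by rw [hinv]; group
        have e2 : w * (g * z) * w⁻¹ = g⁻¹ * z := by
          calc w * (g * z) * w⁻¹ = (w * g * w⁻¹) * (w * z * w⁻¹) := by group
            _ = _ := by rw [hinv, hwz]
        have e3 : (g * z)⁻¹ = g⁻¹ * z⁻¹ := by rw [← hgz]; group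
        rw [e2, e3] at e1
        have e4 := mul_left_cancel e1
        calc z * z = z⁻¹ * z := by rw [← e4]
          _ = 1 := by group
      have hz1 : z = 1 := hZK z (mem_inf.mpr ⟨hzK, hzC⟩) hz2
      rw [hz1, mul_one] at hug
      have hugc : u * g = g * u := mul_inv_eq_iff_eq_mul.mp hug
      have hukc : u * k = k * u := by
        have : g * (u * k) = g * (k * u) := by
          calc g * (u * k) = (g * u) * k := by group
            _ = (u * g) * k := by rw [hugc]
            _ = u * (g * k) := by group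
            _ = (g * k) * u := huc
            _ = _ := by group
        exact mul_left_cancel this
      have huVh : u ∈ Vh := mem_inf.mpr ⟨hu, mem_centralizer_singleton_iff.mpr hugc⟩
      exact ⟨⟨u, (le_sup_left : Vh ≤ H) huVh⟩, by rw [mem_subgroupOf]; exact huVh,
        fun e => hu1 (congrArg Subtype.val e), Subtype.ext hukc⟩
    obtain ⟨y, hyV, hy1, hyO⟩ := h.use (H := H) le_sup_left hHt hVhel hVh1 hSH
    exact hy1 (hVhC y hyV (centralizes_of_mem_pCore hO hKn.isSubnormal (hN Vh) hyO))
  -- so `W = V`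
  have hWV : V ≤ C := by
    by_contra hnle
    have hlt : W < V := lt_of_le_of_ne inf_le_left (fun e => hnle (inf_eq_left.mp e))
    have h1 := h.minV W (H1.card_lt_of_lt' hlt) hWel hW1 hWS
    rw [hO, inf_bot_eq] at h1
    exact h1 rfl
  by_cases hCt : C = ⊤
  · -- `K` is central
    have hKZ : ∀ k ∈ K, ∀ g : G, g * k = k * g := by
      intro k hk g
      have : g ∈ C := by rw [hCt]; exact mem_top g
      exact (mem_centralizer_iff.mp this k hk).symm
    have hVK1 : V ⊓ K = ⊥ := by
      rw [eq_bot_iff]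
      rintro y ⟨hy1, hy2⟩
      rw [mem_bot]
      exact hZK y (mem_inf.mpr ⟨hy2, by rw [hCt]; exact mem_top y⟩) (hsq y hy1)
    have h1 := S3012.result V K h.el h.ne h.sid hVK1
    have hlt : Nat.card (G ⧸ K) < Nat.card G := by
      rw [← Subgroup.index_eq_card]
      have h1 := K.card_mul_index
      have h2 : 1 < Nat.card K := by
        rw [Subgroup.one_lt_card_iff_ne_bot]; exact hK.2.1
      have h3 : 0 < K.index := Nat.pos_of_ne_zero Subgroup.index_ne_zero_of_finite
      nlinarith
    have h2 : V.map (QuotientGroup.mk' K) ≠ ⊥ := by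
      intro e
      rw [Subgroup.map_eq_bot_iff, QuotientGroup.ker_mk'] at e
      apply h.ne
      rw [← inf_eq_left.mpr e, hVK1]
    have h3 : IsElementaryAbelian 2 (V.map (QuotientGroup.mk' K)) := by
      apply H10.elab_of_comm
      · rintro _ ⟨a, ha, rfl⟩ _ ⟨b, hb, rfl⟩
        rw [← map_mul, ← map_mul, H10.elab_comm h.el ha hb]
      · rintro _ ⟨a, ha, rfl⟩
        rw [← map_pow, h.el.2 a ha, map_one]
    have h4 := h.minG (G ⧸ K) _ hlt h3 h2 h1
    obtain ⟨y, hy⟩ := Subgroup.ne_bot_iff_exists_ne_one.mp h4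
    obtain ⟨hy1, hy2⟩ := mem_inf.mp y.2
    obtain ⟨v, hvV, hvy⟩ := hy1
    -- the preimage of `O₂(G/K)`
    set X := (pCore 2 (G ⧸ K)).comap (QuotientGroup.mk' K) with hX
    haveI hXn : X.Normal := (H1.pCore_normal 2 (G ⧸ K)).comap _
    have hKX : K ≤ X := by
      intro k hk
      rw [hX, Subgroup.mem_comap]
      have : QuotientGroup.mk' K k = 1 := (QuotientGroup.eq_one_iff k).mpr hk
      rw [this]; exact one_mem _
    have hXnil : Group.IsNilpotent X := by
      let f : X →* (pCore 2 (G ⧸ K)) := (QuotientGroup.mk' K).subgroupComap _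
      have hf : f.ker ≤ center X := by
        intro a ha
        have ha1 : QuotientGroup.mk' K (a : G) = 1 := congrArg Subtype.val ha
        have ha2 : (a : G) ∈ K := (QuotientGroup.eq_one_iff _).mp ha1
        rw [mem_center_iff]
        intro b
        exact Subtype.ext (hKZ a ha2 b)
      haveI : Group.IsNilpotent (pCore 2 (G ⧸ K)) := (H10.pCore_isPGroup 2 (G ⧸ K)).isNilpotent
      exact Subgroup.isNilpotent_of_ker_le_center f hf
    have hvX : v ∈ X := by
      rw [hX, Subgroup.mem_comap, hvy]; exact hy2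
    have hvF := H10.le_fitting hXn hXnil hvX
    rw [H1.fitting_eq_iSup_pCore] at hvF
    have hvO := H1.iSup_pCore_eq_sup (G := G) 2 hvF
    rw [hO, bot_sup_eq] at hvO
    have hvodd : Odd (orderOf v) := by
      have h5 : orderOf v ∣ Nat.card (pPrimeCore 2 G) := by
        have := orderOf_dvd_natCard (⟨v, hvO⟩ : pPrimeCore 2 G)
        rwa [Subgroup.orderOf_mk] at this
      exact Odd.of_dvd_nat (Nat.coprime_two_right.mp (H1.pPrimeCore_coprime 2 G)) h5
    have hv1 : v = 1 := odd_eq_one_of_sq hvodd (hsq v hvV)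
    apply hy
    apply Subtype.ext
    rw [← hvy, hv1, map_one]
    rfl
  · obtain ⟨y, hyV, hy1, hyO⟩ := h.use (H := C) hWV hCt h.el h.ne (sidki_subgroupOf h.sid hWV)
    rw [h.normal_core hCn, mem_bot] at hyO
    exact hy1 hyO

/-- elements of `V` that centralize a subgroup `K` with `V K = G` are trivial -/
theorem SMin.eq_one_of_centralizes (h : SMin V) {K : Subgroup G} (hVK : V ⊔ K = ⊤) {v : G} (hv : v ∈ V)
    (hc : v ∈ centralizer (K : Set G)) : v = 1 := by
  haveI : Fact (Nat.Prime 2) := ⟨Nat.prime_two⟩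
  have h1 : (⊤ : Subgroup G) ≤ centralizer ({v} : Set G) := by
    rw [← hVK]
    refine sup_le ?_ ?_
    · intro u hu
      rw [mem_centralizer_singleton_iff]
      exact H10.elab_comm h.el hu hv
    · intro k hk
      rw [mem_centralizer_singleton_iff]
      exact mem_centralizer_iff.mp hc k hk
  have hcomm : ∀ g : G, g * v = v * g := fun g => mem_centralizer_singleton_iff.mp (h1 (mem_top g))
  have hn : (zpowers v).Normal := by
    refine ⟨?_⟩
    rintro _ ⟨n, rfl⟩ g
    refine ⟨n, ?_⟩
    have : Commute g v := hcomm g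
    show v ^ n = g * v ^ n * g⁻¹
    rw [(this.zpow_right n).eq]; group
  have hp : IsPGroup 2 (zpowers v) := by
    rcases eq_or_ne v 1 with e | e
    · rw [e, zpowers_one_eq_bot]; exact IsPGroup.of_bot
    · have ho : orderOf v = 2 := orderOf_eq_prime (h.el.2 v hv) e
      exact IsPGroup.iff_card.mpr ⟨1, by rw [Nat.card_zpowers, ho, pow_one]⟩
  have h2 := H10.le_pCore hn hp
  rw [h.core_eq] at h2
  exact mem_bot.mp (h2 (mem_zpowers v))

/-- **Step B**: minimal normal subgroups are not solvable -/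
theorem SMin.not_solvable (h : SMin V) {K : Subgroup G} (hK : H23.IsMinNormal K) : ¬ Group.IsSolvable K := by
  haveI : Fact (Nat.Prime 2) := ⟨Nat.prime_two⟩
  intro hs
  have hVK := h.sup_eq_top hK
  haveI hKn := hK.1
  obtain ⟨hKab, r, hr, hKr, _⟩ := H1.minimal_normal_solvable hKn hK.2.1 hK.2.2 hs
  haveI := Fact.mk hr
  have hKcomm : ∀ a ∈ K, ∀ b ∈ K, a * b = b * a := by
    intro a ha b hb
    exact congrArg Subtype.val (hKab.is_comm.comm ⟨a, ha⟩ ⟨b, hb⟩)
  have hr2 : r ≠ 2 := by
    rintro rfl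
    have h1 := H10.le_pCore hKn hKr
    rw [h.core_eq, le_bot_iff] at h1
    exact hK.2.1 h1
  have hKodd : ∀ k ∈ K, Odd (orderOf k) := by
    intro k hk
    obtain ⟨n, hn⟩ := IsPGroup.iff_orderOf.mp hKr ⟨k, hk⟩
    rw [Subgroup.orderOf_mk] at hn
    rw [hn]
    exact (hr.odd_of_ne_two hr2).pow
  have hsq : ∀ v ∈ V, v * v = 1 := fun v hv => by rw [← sq]; exact h.el.2 v hv
  -- nontrivial elements of `V` invert `K`
  have hinv : ∀ v ∈ V, v ≠ 1 → ∀ k ∈ K, v * k * v⁻¹ = k⁻¹ := by
    intro v hv hv1
    have hDn : (K ⊓ centralizer {v}).Normal := by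
      rw [← Subgroup.normalizer_eq_top_iff, eq_top_iff, ← hVK]
      refine sup_le ?_ ?_
      · intro u hu
        rw [H1.mem_normalizer_iff_conj_smul, H1.conj_smul_inf, H1.conj_smul_normal]
        congr 1
        rw [← H1.mem_normalizer_iff_conj_smul]
        apply Subgroup.le_normalizer
        rw [mem_centralizer_singleton_iff]
        exact H10.elab_comm h.el hu hv
      · intro k hk
        rw [mem_normalizer_iff]
        intro y
        constructor
        · rintro ⟨hy1, hy2⟩
          have : k * y * k⁻¹ = y := by rw [hKcomm k hk y hy1]; group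
          rw [this]; exact ⟨hy1, hy2⟩
        · rintro ⟨hy1, hy2⟩
          have hyK : y ∈ K := by
            have : y = k⁻¹ * (k * y * k⁻¹) * k := by group
            rw [this]; exact mul_mem (mul_mem (inv_mem hk) hy1) hk
          have : k * y * k⁻¹ = y := by rw [hKcomm k hk y hyK]; group
          rw [this] at hy1 hy2; exact ⟨hy1, hy2⟩
    rcases hK.2.2 _ hDn inf_le_left with e | e
    · -- fixed point free
      intro k hk
      have h1 : k * (v * k * v⁻¹) = 1 := by
        have h2 : k * (v * k * v⁻¹) ∈ K ⊓ centralizer {v} := by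
          refine mem_inf.mpr ⟨mul_mem hk (hKn.conj_mem k hk v), ?_⟩
          rw [mem_centralizer_singleton_iff]
          have hvi : v⁻¹ = v := inv_eq_of_mul_eq_one_left (hsq v hv)
          have e1 : v * (k * (v * k * v⁻¹)) = (k * (v * k * v⁻¹)) * v := by
            calc v * (k * (v * k * v⁻¹)) = (v * k * v⁻¹) * ((v * v) * k) * v⁻¹ := by group
              _ = (v * k * v⁻¹) * k * v := by rw [hsq v hv, one_mul, hvi]
              _ = _ := by rw [hKcomm _ (hKn.conj_mem k hk v) k hk]
          exact e1.symm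
        rw [e, mem_bot] at h2
        exact h2
      exact (inv_eq_of_mul_eq_one_right h1).symm
    · exfalso
      apply hv1
      apply h.eq_one_of_centralizes hVK hv
      rw [mem_centralizer_iff]
      intro k hk
      have : k ∈ K ⊓ centralizer {v} := by rw [e]; exact hk
      exact mem_centralizer_singleton_iff.mp this.2
  obtain ⟨v, hv⟩ := Subgroup.ne_bot_iff_exists_ne_one.mp h.ne
  have hv1 : (v : G) ≠ 1 := fun e => hv (Subtype.ext e)
  obtain ⟨k, hk⟩ := Subgroup.ne_bot_iff_exists_ne_one.mp hK.2.1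
  have hk1 : (k : G) ≠ 1 := fun e => hk (Subtype.ext e)
  obtain ⟨w, hw, hw1, hwc⟩ := h.sid k v v.2 (hKodd k k.2) (hinv v v.2 hv1 k k.2)
  have h1 := hinv w hw hw1 k k.2
  apply hk1
  apply odd_eq_one_of_sq (hKodd k k.2)
  calc (k : G) * k = (w * k * w⁻¹) * k := by rw [hwc]; group
    _ = 1 := by rw [h1]; group

theorem SMin.fitting_eq (h : SMin V) : fittingSubgroup G = ⊥ := by
  by_contra hne
  obtain ⟨K, hK, hKF⟩ := H23.exists_isMinNormal_le (H10.fitting_normal G) hne
  apply h.not_solvable hK
  haveI := H10.fitting_isNilpotent G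
  exact H10.isSolvable_of_le hKF inferInstance

theorem SMin.comp_center (h : SMin V) {K : Subgroup G} (hK : IsComponent K) {x : G} (hx : x ∈ K)
    (hc : x ∈ centralizer (K : Set G)) : x = 1 := by
  have h1 : (K ⊓ centralizer (K : Set G)).IsSubnormal := by
    apply H23.IsSubnormal.of_le_normalizer hK.1 inf_le_left
    intro k hk
    rw [mem_normalizer_iff]
    intro y
    have key : ∀ y ∈ centralizer (K : Set G), k * y * k⁻¹ = y := by
      intro y hy
      rw [mem_centralizer_iff.mp hy k hk]; group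
    constructor
    · rintro ⟨hy1, hy2⟩
      rw [key y hy2]; exact ⟨hy1, hy2⟩
    · rintro ⟨hy1, hy2⟩
      have : y = k⁻¹ * (k * y * k⁻¹) * k := by group
      have h3 : k⁻¹ * (k * y * k⁻¹) * k = k * y * k⁻¹ := by
        have h4 := mem_centralizer_iff.mp hy2 k hk
        calc k⁻¹ * (k * y * k⁻¹) * k = k⁻¹ * ((k * y * k⁻¹) * k) := by group
          _ = k⁻¹ * (k * (k * y * k⁻¹)) := by rw [h4]
          _ = _ := by group
      rw [this, h3]; exact ⟨hy1, hy2⟩
  have h2 : Group.IsNilpotent (K ⊓ centralizer (K : Set G) : Subgroup G) := by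
    apply H10.isNilpotent_of_comm
    intro a b
    exact Subtype.ext (mem_centralizer_iff.mp b.2.2 a a.2.1)
  have h3 := H10.subnormal_nilpotent_le_fitting h1 h2
  rw [h.fitting_eq] at h3
  exact mem_bot.mp (h3 (mem_inf.mpr ⟨hx, hc⟩))

/-- **Step C**: components are normal -/
theorem SMin.comp_normal (h : SMin V) {K₁ : Subgroup G} (hK₁ : IsComponent K₁) : V ≤ normalizer (K₁ : Set G) := by
  classical
  haveI : Fact (Nat.Prime 2) := ⟨Nat.prime_two⟩
  have hO := h.core_eq
  have hsq : ∀ v ∈ V, v * v = 1 := fun v hv => by rw [← sq]; exact h.el.2 v hv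
  by_contra hnV
  have hconj : ∀ g : G, IsComponent (MulAut.conj g • K₁) := fun g => H10.component_map_equiv (MulAut.conj g) hK₁
  -- a minimal normal subgroup containing `K₁` : the normal closure is generated by conjugates
  have hVKtop : ∀ v ∈ V, v ∈ centralizer (K₁ : Set G) → v = 1 := by
    intro v hv hc
    -- `T`, the join of the `V`-conjugates
    obtain ⟨K, hK, hKle⟩ := H23.exists_isMinNormal_le (N := Subgroup.normalClosure (K₁ : Set G)) inferInstance (by
      intro e
      apply H10.comp_ne_bot hK₁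
      rw [eq_bot_iff, ← e]
      exact Subgroup.le_normalClosure)
    have hVK := h.sup_eq_top hK
    haveI := hK.1
    -- `K₁ ≤ K`
    have hK₁K : K₁ ≤ K := by
      rcases H10.comp_le_or_commutes_normal hK₁ hK.1 with e | e
      · exact e
      · exfalso
        have h1 : Subgroup.normalClosure (K₁ : Set G) ≤ centralizer (K : Set G) := by
          haveI := H10.normal_centralizer_of_normal hK.1
          apply Subgroup.normalClosure_le_normal
          rw [Subgroup.commutator_eq_bot_iff_le_centralizer] at e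
          exact Subgroup.le_centralizer_iff.mp e
        have h2 : IsMulCommutative K := by
          rw [← Subgroup.le_centralizer_iff_isMulCommutative]
          exact hKle.trans h1
        have h3 : Group.IsNilpotent K := H10.isNilpotent_of_comm (fun a b => h2.is_comm.comm a b)
        exact h.not_solvable hK inferInstance
    apply h.eq_one_of_centralizes hVK hv
    -- `v` centralizes `K`
    have hgen : K ≤ ⨆ u : V, MulAut.conj (u : G) • K₁ := by
      have hTn : (⨆ u : V, MulAut.conj (u : G) • K₁).Normal := by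
        rw [← Subgroup.normalizer_eq_top_iff, eq_top_iff, ← hVK]
        refine sup_le ?_ ?_
        · intro w hw
          rw [mem_normalizer_iff]
          have key : ∀ w ∈ V, ∀ y ∈ (⨆ u : V, MulAut.conj (u : G) • K₁), w * y * w⁻¹ ∈ (⨆ u : V, MulAut.conj (u : G) • K₁) := by
            intro w hw
            have : (⨆ u : V, MulAut.conj (u : G) • K₁) ≤ (⨆ u : V, MulAut.conj (u : G) • K₁).comap (MulAut.conj w).toMonoidHom := by
              refine iSup_le fun u => ?_
              intro y hy
              rw [Subgroup.mem_comap]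
              have h1 : MulAut.conj (w * u) • K₁ ≤ (⨆ u : V, MulAut.conj (u : G) • K₁) :=
                le_iSup (fun u : V => MulAut.conj (u : G) • K₁) ⟨w * u, mul_mem hw u.2⟩
              apply h1
              rw [← H1.conj_smul_smul]
              exact H1.conj_mem_conj_smul hy
            exact fun y hy => this hy
          intro y
          refine ⟨key w hw y, fun hy => ?_⟩
          have h1 := key w⁻¹ (inv_mem hw) _ hy
          have e : w⁻¹ * (w * y * w⁻¹) * w⁻¹⁻¹ = y := by group
          rwa [e] at h1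
        · -- `K` normalizes each component
          have hKlay : K ≤ layer G := by
            obtain ⟨L, hL, hLK⟩ : ∃ L : Subgroup G, IsComponent L ∧ L ≤ K := ⟨K₁, hK₁, hK₁K⟩
            haveI := H10.layer_normal G
            rcases hK.2.2 (K ⊓ layer G) inferInstance inf_le_left with e | e
            · exfalso
              apply H10.comp_ne_bot hL
              rw [eq_bot_iff, ← e]
              exact le_inf hLK (H10.le_layer hL)
            · exact inf_eq_left.mp e
          intro k hk
          have h1 : ∀ u : V, MulAut.conj k • MulAut.conj (u : G) • K₁ = MulAut.conj (u : G) • K₁ := fun u =>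
            H1.mem_normalizer_iff_conj_smul.mp (H10.layer_le_normalizer_comp (hconj u) (hKlay hk))
          rw [H1.mem_normalizer_iff_conj_smul]
          have h2 : MulAut.conj k • (⨆ u : V, MulAut.conj (u : G) • K₁) ≤ ⨆ u : V, MulAut.conj (u : G) • K₁ := by
            have : MulAut.conj k • (⨆ u : V, MulAut.conj (u : G) • K₁) = (⨆ u : V, MulAut.conj (u : G) • K₁).map (MulAut.conj k).toMonoidHom := rfl
            rw [this, Subgroup.map_iSup]
            refine iSup_le fun u => ?_
            exact (h1 u).le.trans (le_iSup (fun u : V => MulAut.conj (u : G) • K₁) u)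
          exact Subgroup.eq_of_le_of_card_ge h2 (by rw [H1.card_conj_smul])
      have hTK : (⨆ u : V, MulAut.conj (u : G) • K₁) ≤ K := by
        refine iSup_le fun u => ?_
        have := H1.conj_smul_le_conj_smul_iff (g := (u : G)).mpr hK₁K
        rwa [H1.conj_smul_normal (N := K)] at this
      rcases hK.2.2 _ hTn hTK with e | e
      · exfalso
        apply H10.comp_ne_bot hK₁
        rw [eq_bot_iff, ← e]
        have := le_iSup (fun u : V => MulAut.conj (u : G) • K₁) 1
        simpa using this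
      · exact e.ge
    have h3 : (⨆ u : V, MulAut.conj (u : G) • K₁) ≤ centralizer ({v} : Set G) := by
      refine iSup_le fun u => ?_
      intro y hy
      rw [H1.mem_conj_smul] at hy
      rw [mem_centralizer_singleton_iff]
      have h4 := mem_centralizer_iff.mp hc _ hy
      have huv : (u : G) * v = v * u := H10.elab_comm h.el u.2 hv
      have huv' : (u : G)⁻¹ * v = v * (u : G)⁻¹ := (show Commute (u : G) v from huv).inv_left.eq
      calc y * v = u * (((u : G)⁻¹ * y * u) * ((u : G)⁻¹ * v * u)) * (u : G)⁻¹ := by group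
        _ = u * (((u : G)⁻¹ * y * u) * (v * (u : G)⁻¹ * u)) * (u : G)⁻¹ := by rw [huv']
        _ = u * (((u : G)⁻¹ * y * u) * v) * (u : G)⁻¹ := by group
        _ = u * (v * ((u : G)⁻¹ * y * u)) * (u : G)⁻¹ := by rw [h4]
        _ = (u * v) * (u : G)⁻¹ * y := by group
        _ = (v * u) * (u : G)⁻¹ * y := by rw [huv]
        _ = v * y := by group
    rw [mem_centralizer_iff]
    intro k hk
    exact mem_centralizer_singleton_iff.mp (h3 (hgen hk))
  -- the normalizer `V₀`
  set V₀ := V ⊓ normalizer (K₁ : Set G) with hV₀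
  have hV₀mem : ∀ {u : G}, u ∈ V → (u ∈ V₀ ↔ MulAut.conj u • K₁ = K₁) := by
    intro u hu
    rw [← H1.mem_normalizer_iff_conj_smul]
    exact ⟨fun e => e.2, fun e => ⟨hu, e⟩⟩
  -- elements commuting with a nontrivial element of `K₁`
  have hcent : ∀ x ∈ K₁, x ≠ 1 → ∀ w ∈ V, w * x = x * w → w ∈ V₀ := by
    intro x hx hx1 w hw hwx
    rw [hV₀mem hw]
    by_contra hne
    have h1 := H10.comp_commutes (hconj w) hK₁ hne
    rw [Subgroup.commutator_eq_bot_iff_le_centralizer] at h1
    apply hx1
    apply h.comp_center hK₁ hx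
    apply h1
    rw [H1.mem_conj_smul]
    have : w⁻¹ * x * w = x := by
      calc w⁻¹ * x * w = w⁻¹ * (x * w) := by group
        _ = w⁻¹ * (w * x) := by rw [hwx]
        _ = x := by group
    rwa [this]
  have hV₀el : IsElementaryAbelian 2 V₀ := H10.elab_mono h.el inf_le_left
  by_cases hV₀1 : V₀ = ⊥
  · -- regular action
    obtain ⟨v, hv, hvn⟩ := SetLike.not_le_iff_exists.mp hnV
    -- an element of odd order
    obtain ⟨x, hx, hx1, hxodd⟩ : ∃ x ∈ K₁, x ≠ 1 ∧ Odd (orderOf x) := by
      by_contra hno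
      push Not at hno
      have h2 : IsPGroup 2 K₁ := by
        rw [IsPGroup.iff_card]
        have h3 : ∀ q : ℕ, q.Prime → q ∣ Nat.card K₁ → q = 2 := by
          intro q hq hqd
          haveI := Fact.mk hq
          by_contra hne
          obtain ⟨y, hy⟩ := exists_prime_orderOf_dvd_card' q hqd
          have h4 := hno y y.2 (by
            intro e
            have : y = 1 := Subtype.ext e
            rw [this, orderOf_one] at hy
            exact hq.one_lt.ne hy)
          apply h4
          rw [Subgroup.orderOf_coe, hy]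
          exact hq.odd_of_ne_two hne
        exact ⟨_, Nat.eq_prime_pow_of_unique_prime_dvd Nat.card_pos.ne' (fun {d} hd hdd => h3 d hd hdd)⟩
      have h3 := H10.subnormal_pGroup_le_pCore hK₁.1 h2
      rw [hO, le_bot_iff] at h3
      exact H10.comp_ne_bot hK₁ h3
    have hvv := hsq v hv
    have hvi : v⁻¹ = v := inv_eq_of_mul_eq_one_left hvv
    -- different conjugates commute
    have hdiff : ∀ a ∈ V, a ≠ 1 → MulAut.conj a • K₁ ≤ centralizer (K₁ : Set G) := by
      intro a ha ha1
      have h1 : MulAut.conj a • K₁ ≠ K₁ := by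
        intro e
        have := (hV₀mem ha).mpr e
        rw [hV₀1, mem_bot] at this
        exact ha1 this
      have h2 := H10.comp_commutes (hconj a) hK₁ h1
      rwa [Subgroup.commutator_eq_bot_iff_le_centralizer] at h2
    have hv1 : v ≠ 1 := by
      rintro rfl
      exact hvn (one_mem _)
    set x' := v * x * v⁻¹ with hx'
    have hx'm : x' ∈ MulAut.conj v • K₁ := H1.conj_mem_conj_smul hx
    have hxx' : x * x' = x' * x := mem_centralizer_iff.mp (hdiff v hv hv1 hx'm) x hx
    have hinv : v * (x * x'⁻¹) * v⁻¹ = (x * x'⁻¹)⁻¹ := by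
      have e : v * x' * v⁻¹ = x := by
        rw [hx', hvi]
        calc v * (v * x * v) * v = (v * v) * x * (v * v) := by group
          _ = x := by rw [hvv]; group
      calc v * (x * x'⁻¹) * v⁻¹ = (v * x * v⁻¹) * (v * x' * v⁻¹)⁻¹ := by group
        _ = x' * x⁻¹ := by rw [e, ← hx']
        _ = _ := by group
    have hx'odd : Odd (orderOf x') := by
      have : orderOf x' = orderOf x := orderOf_injective (MulAut.conj v).toMonoidHom (MulAut.conj v).injective x
      rw [this]; exact hxodd
    have hodd : Odd (orderOf (x * x'⁻¹)) := by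
      refine Odd.of_dvd_nat (hxodd.mul hx'odd) ?_
      have h1 : Commute x x'⁻¹ := (show Commute x x' from hxx').inv_right
      have := h1.orderOf_mul_dvd_mul_orderOf
      rwa [orderOf_inv] at this
    obtain ⟨w, hw, hw1, hwc⟩ := h.sid _ v hv hodd hinv
    by_cases hwv : w = v
    · rw [hwv] at hwc
      have h1 : x * x'⁻¹ = 1 := by
        apply odd_eq_one_of_sq hodd
        calc (x * x'⁻¹) * (x * x'⁻¹) = (v * (x * x'⁻¹) * v⁻¹) * (x * x'⁻¹) := by rw [hwc]; group
          _ = 1 := by rw [hinv]; group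
      have h2 : x = x' := mul_inv_eq_one.mp h1
      apply hx1
      apply h.comp_center hK₁ hx
      rw [h2]
      exact hdiff v hv hv1 hx'm
    · apply hx1
      apply h.comp_center hK₁ hx
      have h1 : x = (w * x * w⁻¹) * (w * x' * w⁻¹)⁻¹ * x' := by
        have h2 : (w * x * w⁻¹) * (w * x' * w⁻¹)⁻¹ = x * x'⁻¹ := by
          calc (w * x * w⁻¹) * (w * x' * w⁻¹)⁻¹ = w * (x * x'⁻¹) * w⁻¹ := by group
            _ = _ := by rw [hwc]; group
        rw [h2]; group
      rw [h1]
      refine mul_mem (mul_mem (hdiff w hw hw1 (H1.conj_mem_conj_smul hx)) (inv_mem ?_)) (hdiff v hv hv1 hx'm)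
      have h3 : w * v ≠ 1 := by
        intro e
        apply hwv
        have : w = v⁻¹ := eq_inv_of_mul_eq_one_left e
        rw [this, hvi]
      apply hdiff (w * v) (mul_mem hw hv) h3
      rw [← H1.conj_smul_smul]
      exact H1.conj_mem_conj_smul hx'm
  · -- `V₀ ≠ 1`
    set H := V₀ ⊔ K₁ with hH
    have hHn : H ≤ normalizer (K₁ : Set G) := sup_le inf_le_right le_normalizer
    have hHt : H ≠ ⊤ := by
      intro e
      apply hnV
      exact le_top.trans (e ▸ hHn)
    by_cases hS : IsSidkiPair (V₀.subgroupOf H)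
    · obtain ⟨y, hyV, hy1, hyO⟩ := h.use (H := H) le_sup_left hHt hV₀el hV₀1 hS
      exact hy1 (hVKtop y hyV.1 (centralizes_of_mem_pCore hO hK₁.1 inf_le_right hyO))
    · unfold IsSidkiPair at hS
      push Not at hS
      obtain ⟨k, v, hv, hodd, hinv, hno⟩ := hS
      rw [mem_subgroupOf] at hv
      have hodd' : Odd (orderOf (k : G)) := by rwa [Subgroup.orderOf_coe]
      have hinv' : (v : G) * k * (v : G)⁻¹ = (k : G)⁻¹ := congrArg Subtype.val hinv
      have hkK : (k : G) ∈ K₁ := by
        have hk : (k : G) ∈ K₁ ⊔ V₀ := by rw [sup_comm]; exact k.2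
        obtain ⟨u, hu, k', hk', e⟩ := (H1.mem_sup_iff_of_le_normalizer' (N := K₁) (H := V₀) inf_le_right).mp hk
        apply odd_mem_of_sq_mem hodd'
        rw [← e]
        have : u * k' * (u * k') = (u * k' * u⁻¹) * (u * u) * k' := by group
        rw [this, hsq u hu.1, mul_one]
        exact mul_mem ((mem_normalizer_iff.mp hu.2 _).mp hk') hk'
      have hk1 : (k : G) ≠ 1 := by
        intro e
        obtain ⟨u, hu⟩ := Subgroup.ne_bot_iff_exists_ne_one.mp hV₀1
        refine hno ⟨u, (le_sup_left : V₀ ≤ H) u.2⟩ (by rw [mem_subgroupOf]; exact u.2)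
          (fun e' => hu (Subtype.ext (congrArg (fun z : H => (z : G)) e'))) ?_
        apply Subtype.ext
        push_cast
        rw [e, mul_one, one_mul]
      obtain ⟨w, hw, hw1, hwc⟩ := h.sid (k : G) v hv.1 hodd' hinv'
      have hwV₀ := hcent k hkK hk1 w hw hwc
      exact hno ⟨w, (le_sup_left : V₀ ≤ H) hwV₀⟩ (by rw [mem_subgroupOf]; exact hwV₀)
        (fun e' => hw1 (congrArg Subtype.val e')) (Subtype.ext hwc)

theorem SMin.main (h : SMin V) : IsSimpleGroup ↥(generalizedFittingSubgroup G) ∧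
    ¬ IsMulCommutative ↥(generalizedFittingSubgroup G) ∧ V ⊔ generalizedFittingSubgroup G = ⊤ := by
  classical
  haveI : Fact (Nat.Prime 2) := ⟨Nat.prime_two⟩
  have hG : (⊤ : Subgroup G) ≠ ⊥ := by
    intro e
    apply h.ne
    rw [eq_bot_iff, ← e]; exact le_top
  obtain ⟨K, hK, _⟩ := H23.exists_isMinNormal_le (N := (⊤ : Subgroup G)) inferInstance hG
  haveI := hK.1
  have hVK := h.sup_eq_top hK
  have hns := h.not_solvable hK
  have hF := h.fitting_eq
  obtain ⟨K₁, hK₁, hK₁K⟩ := H10.exists_component_le hK.1.isSubnormal hns (by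
    rw [hF]
    intro x _
    rw [mem_centralizer_iff]
    intro y hy
    rw [mem_bot.mp hy]; simp)
  have hV := h.comp_normal hK₁
  have hKlay : K ≤ layer G := by
    haveI := H10.layer_normal G
    rcases hK.2.2 (K ⊓ layer G) inferInstance inf_le_left with e | e
    · exfalso
      apply H10.comp_ne_bot hK₁
      rw [eq_bot_iff, ← e]
      exact le_inf hK₁K (H10.le_layer hK₁)
    · exact inf_eq_left.mp e
  have hK₁n : K₁.Normal := by
    rw [← Subgroup.normalizer_eq_top_iff, eq_top_iff, ← hVK]
    exact sup_le hV (hKlay.trans (H10.layer_le_normalizer_comp hK₁))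
  have hKeq : K₁ = K := by
    rcases hK.2.2 K₁ hK₁n hK₁K with e | e
    · exact absurd e (H10.comp_ne_bot hK₁)
    · exact e
  subst hKeq
  -- `C(K₁) = 1`
  have hC : centralizer (K₁ : Set G) = ⊥ := by
    have hCn := H10.normal_centralizer_of_normal hK₁n
    have h1 : IsPGroup 2 (centralizer (K₁ : Set G)) := by
      intro c
      -- `c² ∈ K₁`
      refine ⟨1, ?_⟩
      have h2 : ((c : G)) * c ∈ K₁ := by
        have h3 : (c : G) ∈ V ⊔ K₁ := by rw [hVK]; exact mem_top _
        rw [Subgroup.mem_sup_of_normal_right] at h3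
        obtain ⟨u, hu, k, hk, e⟩ := h3
        rw [← e]
        have : u * k * (u * k) = (u * k * u⁻¹) * (u * u) * k := by group
        rw [this, ← sq u, h.el.2 u hu, mul_one]
        exact mul_mem (hK₁n.conj_mem k hk u) hk
      have h3 : (c : G) * c = 1 := h.comp_center hK₁ h2 (mul_mem c.2 c.2)
      apply Subtype.ext
      push_cast
      rw [sq]; exact h3
    have h2 := H10.le_pCore hCn h1
    rw [h.core_eq, le_bot_iff] at h2
    exact h2
  have hlay : layer G = K₁ := by
    apply le_antisymm _ (H10.le_layer hK₁)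
    refine sSup_le fun L hL => ?_
    by_cases e : L = K₁
    · exact e.le
    · exfalso
      have h1 := H10.comp_commutes hL hK₁ e
      rw [Subgroup.commutator_eq_bot_iff_le_centralizer, hC, le_bot_iff] at h1
      exact H10.comp_ne_bot hL h1
  have hGF : generalizedFittingSubgroup G = K₁ := by
    unfold generalizedFittingSubgroup
    rw [hlay, hF, sup_bot_eq]
  rw [hGF]
  refine ⟨?_, H10.comp_not_comm hK₁, hVK⟩
  haveI := H10.qs_nontrivial hK₁.2
  refine ⟨fun N hN => ?_⟩
  rcases H10.qs_normal_eq_top_or_le_center hK₁.2 hN with e | e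
  · right; exact e
  · left
    rw [eq_bot_iff]
    intro x hx
    rw [mem_bot]
    apply Subtype.ext
    apply h.comp_center hK₁ x.2
    rw [mem_centralizer_iff]
    intro k hk
    exact congrArg Subtype.val (mem_center_iff.mp (e hx) ⟨k, hk⟩)

end Cfsg.Agent.H19
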