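import Cfsg.Agent.H19.FF12
import Cfsg.Agent.H18.PRes
import Cfsg.Agent.H18.Subnormal
import Cfsg.Agent.H13.FaithV
import Cfsg.Agent.H19.Sylow2
import Cfsg.Agent.H19.Sidki
import Cfsg.Agent.H2.OmegaZ
import Cfsg.Prelude.Def_JComponents

set_option autoImplicit false
set_option linter.style.haveILetI false
set_option linter.unusedVariables false
set_option linter.unusedSectionVars false

/-! `J(T)`-components, part 1: the four-group `W_K` attached to a group `K` with `|K : O₂(K)| = 3`. -/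

namespace Cfsg.Agent.H19.JC

open Cfsg
open scoped commutatorElement

local notation "𝕆(" p ", " H ")" => Subgroup.map (Subgroup.subtype H) (Cfsg.pResidual p ↥H)

variable {G : Type*} [Group G]

theorem closure_odd (K : Subgroup G) : Subgroup.closure {g : G | g ∈ K ∧ Odd (orderOf g)} = 𝕆(2, K) := by
  rw [H18.pRes_eq_closure]
  congr 1
  ext g
  exact and_congr_right fun _ => Nat.coprime_two_right.symm

theorem le_norm_of_com {K J : Subgroup G} (h : ⁅K, J⁆ ≤ K) : J ≤ Subgroup.normalizer (K : Set G) :=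
  H23.commutator_le_iff_normalizer.mp h

theorem pow_relIndex_mem {A K : Subgroup G} (hn : K ≤ Subgroup.normalizer (A : Set G)) {x : G} (hx : x ∈ K) :
    x ^ (A.relIndex K) ∈ A := by
  haveI : (A.subgroupOf K).Normal := by
    constructor
    intro n hn' g
    rw [Subgroup.mem_subgroupOf] at hn' ⊢
    exact (Subgroup.mem_normalizer_iff.mp (hn g.2) n).mp hn'
  have h1 := Subgroup.pow_index_mem (A.subgroupOf K) (⟨x, hx⟩ : K)
  rw [Subgroup.mem_subgroupOf] at h1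
  exact h1

theorem norm_oz (S : Subgroup G) :
    Subgroup.normalizer (S : Set G) ≤ Subgroup.normalizer (omegaCenterOf S : Set G) := by
  intro g hg
  rw [H18.mem_normalizer_iff_map] at hg ⊢
  show (omegaOne 2 (S ⊓ Subgroup.centralizer (S : Set G))).map (MulAut.conj g).toMonoidHom = _
  rw [H2.oz_map_conj, hg]
  rfl

theorem mem_oz {S : Subgroup G} {x : G} :
    x ∈ omegaCenterOf S ↔ x ∈ S ∧ (∀ s ∈ S, s * x = x * s) ∧ x ^ 2 = 1 := H2.mem_oz_iff

theorem oz_le (S : Subgroup G) : omegaCenterOf S ≤ S := fun x hx => (mem_oz.mp hx).1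

/-- `K` is generated by elements of odd order and `O₂(K)` has index 3 -/
structure C3 (K : Subgroup G) : Prop where
  odd : 𝕆(2, K) = K
  idx : (pCoreOf 2 K).relIndex K = 3

namespace C3

variable {K : Subgroup G}

theorem dich (h : C3 K) {H : Subgroup G} (h1 : pCoreOf 2 K ≤ H) (h2 : H ≤ K) : H = pCoreOf 2 K ∨ H = K := by
  have h3 := Subgroup.relIndex_mul_relIndex _ _ _ h1 h2
  rw [h.idx] at h3
  rcases (Nat.dvd_prime Nat.prime_three).mp (Dvd.intro _ h3) with h4 | h4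
  · left
    exact le_antisymm (Subgroup.relIndex_eq_one.mp h4) h1
  · right
    rw [h4] at h3
    have h5 : H.relIndex K = 1 := by omega
    exact le_antisymm h2 (Subgroup.relIndex_eq_one.mp h5)

theorem cube (h : C3 K) {x : G} (hx : x ∈ K) : x ^ 3 ∈ pCoreOf 2 K := by
  have := pow_relIndex_mem (H18.le_normalizer_pCoreOf (p := 2) K) hx
  rwa [h.idx] at this

theorem ne_pcore (h : C3 K) : pCoreOf 2 K ≠ K := by
  intro h1
  have := h.idx
  rw [h1, Subgroup.relIndex_self] at this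
  omega

theorem exists_gen (h : C3 K) : ∃ d ∈ K, Odd (orderOf d) ∧ d ∉ pCoreOf 2 K := by
  by_contra hcon
  push Not at hcon
  apply h.ne_pcore
  apply le_antisymm (H18.pCoreOf_le K)
  have h1 : 𝕆(2, K) ≤ pCoreOf 2 K := by
    rw [← closure_odd, Subgroup.closure_le]
    rintro x ⟨hx, ho⟩
    exact hcon x hx ho
  rwa [h.odd] at h1

theorem gen (h : C3 K) {d : G} (hd : d ∈ K) (hdR : d ∉ pCoreOf 2 K) : pCoreOf 2 K ⊔ Subgroup.zpowers d = K := by
  rcases h.dich (H := pCoreOf 2 K ⊔ Subgroup.zpowers d) le_sup_left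
    (sup_le (H18.pCoreOf_le K) (Subgroup.zpowers_le.mpr hd)) with h1 | h1
  · exfalso
    apply hdR
    rw [← h1]
    exact Subgroup.mem_sup_right (Subgroup.mem_zpowers d)
  · exact h1

theorem le_norm_U : Subgroup.normalizer (K : Set G) ≤ Subgroup.normalizer (omegaCenterOf (pCoreOf 2 K) : Set G) :=
  (H18.normalizer_le_normalizer_pCoreOf K).trans (norm_oz _)

theorem wOf_le_U : wOf K ≤ omegaCenterOf (pCoreOf 2 K) :=
  H23.commutator_le_iff_normalizer.mpr (Subgroup.le_normalizer.trans le_norm_U)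

theorem wOf_le_R : wOf K ≤ pCoreOf 2 K := wOf_le_U.trans (oz_le _)

theorem wOf_le : wOf K ≤ K := wOf_le_R.trans (H18.pCoreOf_le K)

theorem norm_wOf : Subgroup.normalizer (K : Set G) ≤ Subgroup.normalizer (wOf K : Set G) :=
  H18.le_normalizer_commutator le_norm_U le_rfl

theorem wOf_sq {w : G} (hw : w ∈ wOf K) : w ^ 2 = 1 := (mem_oz.mp (wOf_le_U hw)).2.2

theorem wOf_comm {w r : G} (hw : w ∈ wOf K) (hr : r ∈ pCoreOf 2 K) : r * w = w * r :=
  (mem_oz.mp (wOf_le_U hw)).2.1 r hr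

theorem wOf_comm' {w r : G} (hw : w ∈ wOf K) (hr : r ∈ wOf K) : r * w = w * r :=
  wOf_comm hw (wOf_le_R hr)

theorem wOf_abel : IsMulCommutative (wOf K) := ⟨⟨fun a b => Subtype.ext (wOf_comm' b.2 a.2)⟩⟩

theorem wOf_elem : IsElementaryAbelian 2 (wOf K) := by
  rw [H20.isElementaryAbelian_iff]
  exact ⟨fun a ha b hb => wOf_comm' hb ha, fun a ha => wOf_sq ha⟩

theorem exists_com (h : C3 K) {d : G} (hd : d ∈ K) (hdR : d ∉ pCoreOf 2 K) {w : G} (hw : w ∈ wOf K) :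
    ∃ u ∈ omegaCenterOf (pCoreOf 2 K), w = d * u * d⁻¹ * u⁻¹ := by
  set U := omegaCenterOf (pCoreOf 2 K) with hU
  have hUc : ∀ u ∈ U, ∀ v ∈ U, u * v = v * u := fun u hu v hv =>
    (mem_oz.mp hv).2.1 u (oz_le _ hu)
  have hKU : K ≤ Subgroup.normalizer (U : Set G) := Subgroup.le_normalizer.trans le_norm_U
  have hcj : ∀ k ∈ K, ∀ u ∈ U, k * u * k⁻¹ ∈ U := fun k hk u hu =>
    (Subgroup.mem_normalizer_iff.mp (hKU hk) u).mp hu
  let X : Subgroup G :=
    { carrier := {w | ∃ u ∈ U, w = d * u * d⁻¹ * u⁻¹}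
      mul_mem' := by
        rintro _ _ ⟨u, hu, rfl⟩ ⟨v, hv, rfl⟩
        refine ⟨u * v, U.mul_mem hu hv, ?_⟩
        have h1 : u⁻¹ * (d * v * d⁻¹) = (d * v * d⁻¹) * u⁻¹ := hUc _ (U.inv_mem hu) _ (hcj d hd v hv)
        have h2 : u⁻¹ * v⁻¹ = v⁻¹ * u⁻¹ := hUc _ (U.inv_mem hu) _ (U.inv_mem hv)
        calc d * u * d⁻¹ * u⁻¹ * (d * v * d⁻¹ * v⁻¹) = d * u * d⁻¹ * (u⁻¹ * (d * v * d⁻¹)) * v⁻¹ := by group
          _ = d * u * d⁻¹ * (d * v * d⁻¹) * (u⁻¹ * v⁻¹) := by rw [h1]; group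
          _ = _ := by rw [h2]; group
      one_mem' := ⟨1, U.one_mem, by group⟩
      inv_mem' := by
        rintro _ ⟨u, hu, rfl⟩
        refine ⟨u⁻¹, U.inv_mem hu, ?_⟩
        have h1 : u * (d * u⁻¹ * d⁻¹) = (d * u⁻¹ * d⁻¹) * u := hUc _ hu _ (hcj d hd _ (U.inv_mem hu))
        calc (d * u * d⁻¹ * u⁻¹)⁻¹ = u * (d * u⁻¹ * d⁻¹) := by group
          _ = _ := by rw [h1, inv_inv] }
  let Y : Subgroup G :=
    { carrier := {k | k ∈ K ∧ ∀ u ∈ U, k * u * k⁻¹ * u⁻¹ ∈ X}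
      mul_mem' := by
        rintro a b ⟨ha, ha'⟩ ⟨hb, hb'⟩
        refine ⟨K.mul_mem ha hb, fun u hu => ?_⟩
        have h1 := X.mul_mem (ha' _ (hcj b hb u hu)) (hb' u hu)
        have h2 : a * (b * u * b⁻¹) * a⁻¹ * (b * u * b⁻¹)⁻¹ * (b * u * b⁻¹ * u⁻¹) = a * b * u * (a * b)⁻¹ * u⁻¹ := by
          group
        rwa [h2] at h1
      one_mem' := ⟨K.one_mem, fun u hu => by
        have : (1 : G) * u * 1⁻¹ * u⁻¹ = 1 := by group
        rw [this]; exact X.one_mem⟩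
      inv_mem' := by
        rintro a ⟨ha, ha'⟩
        refine ⟨K.inv_mem ha, fun u hu => ?_⟩
        have h0 := hcj a⁻¹ (K.inv_mem ha) u hu
        have h1 := X.inv_mem (ha' _ h0)
        have h2 : (a * (a⁻¹ * u * a⁻¹⁻¹) * a⁻¹ * (a⁻¹ * u * a⁻¹⁻¹)⁻¹)⁻¹ = a⁻¹ * u * a⁻¹⁻¹ * u⁻¹ := by group
        rwa [h2] at h1 }
  have hY : K ≤ Y := by
    rw [← h.gen hd hdR]
    apply sup_le
    · intro r hr
      refine ⟨H18.pCoreOf_le K hr, fun u hu => ?_⟩
      have : r * u * r⁻¹ * u⁻¹ = 1 := by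
        rw [(mem_oz.mp hu).2.1 r hr]; group
      rw [this]; exact X.one_mem
    · rw [Subgroup.zpowers_le]
      exact ⟨hd, fun u hu => ⟨u, hu, rfl⟩⟩
  have h1 : wOf K ≤ X := by
    show ⁅U, K⁆ ≤ X
    rw [Subgroup.commutator_comm, Subgroup.commutator_le]
    intro k hk u hu
    rw [commutatorElement_def]
    exact (hY hk).2 u hu
  exact h1 hw

/-- elements of `K ∖ O₂(K)` act without fixed points on `W_K` -/
theorem fpf (h : C3 K) {d : G} (hd : d ∈ K) (hdR : d ∉ pCoreOf 2 K) {w : G} (hw : w ∈ wOf K)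
    (hc : d * w = w * d) : w = 1 := by
  obtain ⟨u, hu, rfl⟩ := h.exists_com hd hdR hw
  set U := omegaCenterOf (pCoreOf 2 K) with hU
  have hUc : ∀ u ∈ U, ∀ v ∈ U, u * v = v * u := fun u hu v hv =>
    (mem_oz.mp hv).2.1 u (oz_le _ hu)
  have hKU : K ≤ Subgroup.normalizer (U : Set G) := Subgroup.le_normalizer.trans le_norm_U
  have hcj : ∀ k ∈ K, ∀ u ∈ U, k * u * k⁻¹ ∈ U := fun k hk u hu =>
    (Subgroup.mem_normalizer_iff.mp (hKU hk) u).mp hu
  set w := d * u * d⁻¹ * u⁻¹ with hw'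
  have hw1 : d * w * d⁻¹ = w := by rw [hc]; group
  have h3 : w ^ 3 = 1 := by
    have hd3 : d * (d * (d * u * d⁻¹) * d⁻¹) * d⁻¹ = u := by
      have h4 := (mem_oz.mp hu).2.1 _ (h.cube hd)
      have h6 : d ^ 3 = d * d * d := by rw [pow_succ, pow_two]
      rw [h6] at h4
      calc d * (d * (d * u * d⁻¹) * d⁻¹) * d⁻¹ = (d * d * d * u) * (d * d * d)⁻¹ := by group
        _ = u := by rw [h4]; group
    obtain ⟨x, hx⟩ : ∃ x, x = d * u * d⁻¹ := ⟨_, rfl⟩
    obtain ⟨y, hy⟩ : ∃ y, y = d * x * d⁻¹ := ⟨_, rfl⟩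
    have ew : w = x * u⁻¹ := by rw [hx]
    have ew1 : w = y * x⁻¹ := by
      calc w = d * w * d⁻¹ := hw1.symm
        _ = d * (x * u⁻¹) * d⁻¹ := by rw [← ew]
        _ = (d * x * d⁻¹) * (d * u * d⁻¹)⁻¹ := by group
        _ = _ := by rw [← hx, ← hy]
    have ew2 : w = u * y⁻¹ := by
      calc w = d * w * d⁻¹ := hw1.symm
        _ = d * (y * x⁻¹) * d⁻¹ := by rw [← ew1]
        _ = (d * y * d⁻¹) * (d * x * d⁻¹)⁻¹ := by group
        _ = _ := by
          rw [← hy]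
          have : d * y * d⁻¹ = u := by rw [hy, hx]; exact hd3
          rw [this]
    have : w ^ 3 = w * (w * w) := by rw [pow_succ, pow_two, mul_assoc]
    rw [this]
    calc w * (w * w) = (u * y⁻¹) * ((y * x⁻¹) * (x * u⁻¹)) := by rw [← ew, ← ew1, ← ew2]
      _ = 1 := by group
  have h2 : w ^ 2 = 1 := wOf_sq hw
  calc w = w ^ 3 * (w ^ 2)⁻¹ := by rw [pow_succ, h2]; group
    _ = 1 := by rw [h3, h2]; group

theorem conj_mem_w {d : G} (hd : d ∈ K) {w : G} (hw : w ∈ wOf K) : d * w * d⁻¹ ∈ wOf K :=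
  (Subgroup.mem_normalizer_iff.mp (norm_wOf (Subgroup.le_normalizer hd)) w).mp hw

/-- irreducibility -/
theorem irr [Finite G] (h : C3 K) (hW : Nat.card (wOf K) = 4) {d : G} (hd : d ∈ K) (hdR : d ∉ pCoreOf 2 K) {X : Subgroup G}
    (hX : X ≤ wOf K) (hdX : ∀ x ∈ X, d * x * d⁻¹ ∈ X) : X = ⊥ ∨ X = wOf K := by
  by_cases hbot : X = ⊥
  · exact Or.inl hbot
  right
  apply Subgroup.eq_of_le_of_card_ge hX
  rw [hW]
  by_contra hlt
  push Not at hlt
  obtain ⟨⟨x, hx⟩, hx1⟩ := Subgroup.ne_bot_iff_exists_ne_one.mp hbot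
  have hx1' : x ≠ 1 := fun h => hx1 (Subtype.ext h)
  have h1 : Nat.card X ∣ 4 := by
    rw [← hW]; exact Subgroup.card_dvd_of_le hX
  have hne : d * x * d⁻¹ ≠ x := by
    intro h2
    apply hx1'
    apply h.fpf hd hdR (hX hx)
    calc d * x = (d * x * d⁻¹) * d := by group
      _ = x * d := by rw [h2]
  have hne1 : d * x * d⁻¹ ≠ 1 := by
    intro h2
    apply hx1'
    have : x = d⁻¹ * (d * x * d⁻¹) * d := by group
    rw [this, h2]; group
  have h3 : 3 ≤ Nat.card X := by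
    have hle : ({1, x, d * x * d⁻¹} : Set G) ⊆ (X : Set G) := by
      rintro y (rfl | rfl | rfl)
      · exact X.one_mem
      · exact hx
      · exact hdX _ hx
    have h4 := Set.ncard_le_ncard hle (Set.toFinite _)
    rw [Set.ncard_eq_three.mpr ⟨1, x, d * x * d⁻¹, Ne.symm hx1', Ne.symm hne1, Ne.symm hne, rfl⟩] at h4
    exact h4
  have h5 : Nat.card X = 3 := by omega
  rw [h5] at h1
  omega

theorem inf_centralizer (h : C3 K) (hW : wOf K ≠ ⊥) : K ⊓ Subgroup.centralizer (wOf K : Set G) = pCoreOf 2 K := by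
  rcases h.dich (H := K ⊓ Subgroup.centralizer (wOf K : Set G)) (le_inf (H18.pCoreOf_le K) (by
      intro r hr
      rw [Subgroup.mem_centralizer_iff]
      exact fun w hw => (wOf_comm hw hr).symm)) inf_le_left with h1 | h1
  · exact h1
  · exfalso
    apply hW
    obtain ⟨d, hd, _, hdR⟩ := h.exists_gen
    rw [eq_bot_iff]
    intro w hw
    rw [Subgroup.mem_bot]
    apply h.fpf hd hdR hw
    have h2 : d ∈ K ⊓ Subgroup.centralizer (wOf K : Set G) := by rw [h1]; exact hd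
    exact (Subgroup.mem_centralizer_iff.mp h2.2 w hw).symm

end C3

end Cfsg.Agent.H19.JC
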