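import Cfsg.Agent.H19.JC9

set_option autoImplicit false
set_option linter.style.haveILetI false
set_option linter.unusedVariables false
set_option linter.unusedSectionVars false

/-! `J(T)`-components, part 10: maximal straddling subgroups. -/

namespace Cfsg.Agent.H19.JC

open Cfsg Cfsg.Agent.H19.PGV Cfsg.Agent.H19.FF Cfsg.Agent.H19.FF.FFS
open scoped commutatorElement

variable {G : Type*} [Group G] [Finite G]

theorem a_eq {T A : Subgroup G} (hA : H2.EAIn 2 T A) : maxElemAbelianOrder T = Nat.card A := by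
  unfold maxElemAbelianOrder
  have h1 : ((fun A : Subgroup ↥T => Nat.card ↥A) '' maxElementaryAbelianSubgroups 2 ↥T) = {Nat.card A} := by
    ext n
    constructor
    · rintro ⟨B, hB, rfl⟩
      rw [H2.mem_maxElem_iff] at hB
      show Nat.card B = Nat.card A
      rw [← hB.card_eq hA, H2.card_map_inj T.subtype_injective]
    · rintro rfl
      refine ⟨A.subgroupOf T, ?_, ?_⟩
      · rw [H2.mem_maxElem_iff, Subgroup.map_subgroupOf_eq_of_le hA.1]
        exact hA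
      · show Nat.card (A.subgroupOf T) = Nat.card A
        rw [← H2.card_map_inj T.subtype_injective, Subgroup.map_subgroupOf_eq_of_le hA.1]
  rw [h1, csSup_singleton]

theorem max_J {M T T₁ : Subgroup G} (hT : T ∈ maxStraddlingTwoSubgroups M) (hT₁ : T₁ ∈ straddlingTwoSubgroups M)
    (hJ : thompsonSubgroupOf 2 T ≤ T₁) :
    thompsonSubgroupOf 2 T₁ = thompsonSubgroupOf 2 T ∧ Nat.card T₁ ≤ Nat.card T := by
  obtain ⟨h1, h3⟩ := hT.2 T₁ hT₁
  obtain ⟨A, hA⟩ := H2.exists_eaIn 2 T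
  obtain ⟨A₁, hA₁⟩ := H2.exists_eaIn 2 T₁
  rw [a_eq hA, a_eq hA₁] at h1
  have h4 : Nat.card A ≤ Nat.card A₁ := hA₁.2.2 A (hA.le_thompson.trans hJ) hA.2.1
  have heq : Nat.card A₁ = Nat.card A := le_antisymm h1 h4
  obtain ⟨h5, h6⟩ := h3 (by rw [a_eq hA, a_eq hA₁, heq])
  have hle : thompsonSubgroupOf 2 T ≤ thompsonSubgroupOf 2 T₁ := by
    conv_lhs => rw [H2.thompsonSubgroupOf_eq]
    refine sSup_le fun B hB => ?_
    have h7 : H2.EAIn 2 T₁ B := hA₁.of_card_eq (hB.le_thompson.trans hJ) hB.2.1 (by rw [heq, hA.card_eq hB])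
    exact h7.le_thompson
  have h8 : thompsonSubgroupOf 2 T = thompsonSubgroupOf 2 T₁ := Subgroup.eq_of_le_of_card_ge hle h5
  exact ⟨h8.symm, h6 (by rw [h8])⟩

theorem J_ne_bot {T : Subgroup G} (hT : IsPGroup 2 T) (hT1 : T ≠ ⊥) : thompsonSubgroupOf 2 T ≠ ⊥ := by
  haveI h2 : Fact (Nat.Prime 2) := ⟨Nat.prime_two⟩
  apply H2.thompsonSubgroupOf_ne_bot
  obtain ⟨n, hn⟩ := hT.exists_card_eq
  have hn0 : n ≠ 0 := by
    rintro rfl
    exact hT1 (Subgroup.card_eq_one.mp (by simpa using hn))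
  rw [hn]
  exact dvd_pow_self 2 hn0

theorem two_local_char (hG : HG G) {L : Subgroup G} (hL : IsTwoLocal L) :
    Subgroup.centralizer (pCoreOf 2 L : Set G) ≤ pCoreOf 2 L := by
  obtain ⟨R, hR, hR1, rfl⟩ := hL
  set N := Subgroup.normalizer (R : Set G) with hN
  have hRN : R ≤ pCoreOf 2 N := H18.le_pCoreOf Subgroup.le_normalizer le_rfl hR
  intro x hx
  have hxN : x ∈ N := Subgroup.centralizer_le_normalizer _ (Subgroup.centralizer_le (show (R : Set G) ⊆ _ from hRN) hx)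
  have h1 := hG.cha.2 R hR hR1
  have h3 : (⟨x, hxN⟩ : ↥N) ∈ pCore 2 ↥N := by
    apply h1
    rw [Subgroup.mem_centralizer_iff]
    intro y hy
    apply Subtype.ext
    exact Subgroup.mem_centralizer_iff.mp hx y.1 ⟨y, hy, rfl⟩
  exact ⟨_, h3, rfl⟩

theorem eq_of_norm {T S : Subgroup G} (hS : IsPGroup 2 S) (hTS : T ≤ S) (h : S ⊓ Subgroup.normalizer (T : Set G) ≤ T) : T = S := by
  haveI h2 : Fact (Nat.Prime 2) := ⟨Nat.prime_two⟩
  by_contra hne
  have h1 := lt_inf_normalizer_of_lt hS (lt_of_le_of_ne hTS hne)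
  exact absurd h (not_le_of_gt h1)

theorem norm_conj {S : Subgroup G} (g : G) :
    Subgroup.normalizer ((S.map (MulAut.conj g).toMonoidHom : Subgroup G) : Set G) =
      (Subgroup.normalizer (S : Set G)).map (MulAut.conj g).toMonoidHom := by
  ext x
  rw [H2.mem_map_conj, H18.mem_normalizer_iff_map, H18.mem_normalizer_iff_map, ← H2.map_conj_mul]
  constructor
  · intro h
    have h1 := congrArg (fun H : Subgroup G => H.map (MulAut.conj g⁻¹).toMonoidHom) h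
    simp only [← H2.map_conj_mul] at h1
    rw [inv_mul_cancel, H2.map_conj_one] at h1
    rw [← h1]
    congr 2
    group
  · intro h
    conv_rhs => rw [← h, ← H2.map_conj_mul]
    congr 2
    group

section

variable (hG : HG G) {S : Subgroup G} (hS : H23.IsSylowOf 2 S ⊤) {M : Subgroup G}
    (hMJ : Subgroup.normalizer (thompsonSubgroupOf 2 S : Set G) ≤ M) {T : Subgroup G}
    (hT : T ∈ maxStraddlingTwoSubgroups M)

include hG hS hMJ hT

theorem exists_sylow_M : ∃ S₁ : Subgroup G, H23.IsSylowOf 2 S₁ ⊤ ∧ T ≤ S₁ ∧ S₁ ≤ M ∧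
    Subgroup.normalizer (thompsonSubgroupOf 2 S₁ : Set G) ≤ M := by
  haveI h2 : Fact (Nat.Prime 2) := ⟨Nat.prime_two⟩
  have hSM : S ≤ M := (Subgroup.le_normalizer.trans (H2.normalizer_le_normalizer_thompson S)).trans hMJ
  have hSM' : H23.IsSylowOf 2 S M := IsSylowOf.mono hS hSM le_top
  obtain ⟨x, hx, hxT⟩ := IsSylowOf.exists_conj_le hSM' hT.1.2.2.1 hT.1.1
  have hxT' : T.map (MulAut.conj x).toMonoidHom ≤ S := hxT
  have hMx : M.map (MulAut.conj x⁻¹).toMonoidHom = M :=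
    H18.mem_normalizer_iff_map.mp (Subgroup.le_normalizer (M.inv_mem hx))
  refine ⟨S.map (MulAut.conj x⁻¹).toMonoidHom, ?_, ?_, ?_, ?_⟩
  · have h1 := isSylowOf_conj hS x⁻¹
    rwa [Subgroup.map_top_of_surjective _ (MulAut.conj x⁻¹).surjective] at h1
  · have h1 := Subgroup.map_mono (f := (MulAut.conj x⁻¹).toMonoidHom) hxT'
    rwa [← H2.map_conj_mul, inv_mul_cancel, H2.map_conj_one] at h1
  · rw [← hMx]; exact Subgroup.map_mono hSM
  · rw [H2.thompsonSubgroupOf_map_conj, norm_conj, ← hMx]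
    exact Subgroup.map_mono hMJ

theorem norm_J_le : Subgroup.normalizer (thompsonSubgroupOf 2 T : Set G) ≤ M := by
  obtain ⟨S₁, hS₁, hTS, hSM, hNM⟩ := exists_sylow_M hG hS hMJ hT
  by_contra hcon
  obtain ⟨hT2, hT1, hTM, -⟩ := hT.1
  set T₁ := S₁ ⊓ Subgroup.normalizer (thompsonSubgroupOf 2 T : Set G) with hT₁
  have hTT₁ : T ≤ T₁ := le_inf hTS (Subgroup.le_normalizer.trans (H2.normalizer_le_normalizer_thompson T))
  have hstr : T₁ ∈ straddlingTwoSubgroups M := by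
    refine ⟨hS₁.isPGroup.to_le inf_le_left, ?_, inf_le_left.trans hSM, _, ?_, inf_le_right, hcon⟩
    · intro h
      apply hT1
      rw [eq_bot_iff, ← h]
      exact hTT₁
    · exact ⟨_, J_isPGroup hT2, J_ne_bot hT2 hT1, rfl⟩
  obtain ⟨h1, -⟩ := max_J hT hstr ((H2.thompsonSubgroupOf_le 2 T).trans hTT₁)
  have h3 : T₁ = S₁ := by
    apply eq_of_norm hS₁.isPGroup inf_le_left
    rintro x ⟨hx, hx'⟩
    refine ⟨hx, ?_⟩
    have h4 := H2.normalizer_le_normalizer_thompson (p := 2) T₁ hx'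
    rwa [h1] at h4
  apply hcon
  rw [← h1, h3]
  exact hNM

theorem max_all {L : Subgroup G} (hL2 : IsTwoLocal L) (hLM : ¬ L ≤ M) {T₀ : Subgroup G} (hT₀ : H23.IsSylowOf 2 T₀ L)
    (hJT₀ : thompsonSubgroupOf 2 T ≤ T₀) :
    thompsonSubgroupOf 2 T₀ = thompsonSubgroupOf 2 T ∧ T₀ ∈ straddlingTwoSubgroups M ∧ L ∈ jOvergroups T₀ := by
  have hN := norm_J_le hG hS hMJ hT
  obtain ⟨hT2, hT1, hTM, -⟩ := hT.1
  have hJ1 := J_ne_bot hT2 hT1
  set T₁ := T₀ ⊓ Subgroup.normalizer (thompsonSubgroupOf 2 T : Set G) with hT₁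
  have hJT₁ : thompsonSubgroupOf 2 T ≤ T₁ := le_inf hJT₀ Subgroup.le_normalizer
  have hstr : T₁ ∈ straddlingTwoSubgroups M := by
    refine ⟨hT₀.isPGroup.to_le inf_le_left, ?_, inf_le_right.trans hN, L, hL2, inf_le_left.trans hT₀.le, hLM⟩
    intro h
    apply hJ1
    rw [eq_bot_iff, ← h]
    exact hJT₁
  obtain ⟨h1, -⟩ := max_J hT hstr hJT₁
  have h3 : T₁ = T₀ := by
    apply eq_of_norm hT₀.isPGroup inf_le_left
    rintro x ⟨hx, hx'⟩
    refine ⟨hx, ?_⟩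
    have h4 := H2.normalizer_le_normalizer_thompson (p := 2) T₁ hx'
    rwa [h1] at h4
  rw [h3] at h1 hstr
  refine ⟨h1, hstr, isSylowTwoIn_iff.mpr hT₀, ?_, two_local_char hG hL2⟩
  intro h4
  apply hLM
  have h5 : pCoreOf 2 L ≤ T₀ := by
    haveI h2 : Fact (Nat.Prime 2) := ⟨Nat.prime_two⟩
    obtain ⟨S', hS'⟩ := hT₀
    rw [← hS']
    exact Subgroup.map_mono (H18.pCore_le_sylow S')
  have h6 : thompsonSubgroupOf 2 (pCoreOf 2 L) = thompsonSubgroupOf 2 T₀ := H2.thompsonSubgroupOf_eq_of_le h4 h5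
  have h7 := (H18.le_normalizer_pCoreOf (p := 2) L).trans (H2.normalizer_le_normalizer_thompson (p := 2) (pCoreOf 2 L))
  rw [h6, h1] at h7
  exact h7.trans hN

theorem sylow_of_le {L : Subgroup G} (hL2 : IsTwoLocal L) (hLM : ¬ L ≤ M) (hTL : T ≤ L) : H23.IsSylowOf 2 T L := by
  haveI h2 : Fact (Nat.Prime 2) := ⟨Nat.prime_two⟩
  obtain ⟨T₀, hT₀, hTT₀⟩ := H23.exists_isSylowOf_ge (p := 2) hTL hT.1.1
  obtain ⟨h1, h3, -⟩ := max_all hG hS hMJ hT hL2 hLM hT₀ ((H2.thompsonSubgroupOf_le 2 T).trans hTT₀)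
  obtain ⟨-, h4⟩ := max_J hT h3 ((H2.thompsonSubgroupOf_le 2 T).trans hTT₀)
  have h5 : T = T₀ := Subgroup.eq_of_le_of_card_ge hTT₀ h4
  rw [h5]
  exact hT₀

end

end Cfsg.Agent.H19.JC
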