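import Cfsg.Agent.H19.JC4

set_option autoImplicit false
set_option linter.style.haveILetI false
set_option linter.unusedVariables false
set_option linter.unusedSectionVars false

/-! `J(T)`-components, part 5: transfer between the ambient group and its subgroups. -/

namespace Cfsg.Agent.H19.JC

open Cfsg Cfsg.Agent.H19.PGV Cfsg.Agent.H19.FF Cfsg.Agent.H19.FF.FFS
open scoped commutatorElement

local notation "𝕆(" p ", " H ")" => Subgroup.map (Subgroup.subtype H) (Cfsg.pResidual p ↥H)

variable {G : Type*} [Group G]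

theorem oz_map_inj {G' : Type*} [Group G'] {f : G' →* G} (hf : Function.Injective f) (S : Subgroup G') :
    omegaCenterOf (S.map f) = (omegaCenterOf S).map f := by
  ext x
  constructor
  · intro hx
    rw [mem_oz] at hx
    obtain ⟨⟨s, hs, rfl⟩, h1, h2⟩ := hx
    refine ⟨s, ?_, rfl⟩
    show s ∈ omegaCenterOf S
    rw [mem_oz]
    refine ⟨hs, fun t ht => ?_, ?_⟩
    · apply hf
      rw [map_mul, map_mul]
      exact h1 _ ⟨t, ht, rfl⟩
    · apply hf
      rw [map_pow, map_one, h2]
  · rintro ⟨s, hs, rfl⟩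
    have hs' := mem_oz.mp hs
    rw [mem_oz]
    refine ⟨⟨s, hs'.1, rfl⟩, ?_, ?_⟩
    · rintro _ ⟨t, ht, rfl⟩
      rw [← map_mul, ← map_mul, hs'.2.1 t ht]
    · rw [← map_pow, hs'.2.2, map_one]

theorem wOf_subgroupOf {L K : Subgroup G} (hKL : K ≤ L) : (wOf (K.subgroupOf L)).map L.subtype = wOf K := by
  unfold wOf
  rw [Subgroup.map_commutator, ← oz_map_inj L.subtype_injective, H13.pCoreOf_subgroupOf_map hKL,
    Subgroup.map_subgroupOf_eq_of_le hKL]

theorem c3_subgroupOf [Finite G] {L K : Subgroup G} (hKL : K ≤ L) (h : C3 K) : C3 (K.subgroupOf L) := by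
  haveI h2 : Fact (Nat.Prime 2) := ⟨Nat.prime_two⟩
  constructor
  · apply Subgroup.map_injective L.subtype_injective
    rw [H18.pRes_map, Subgroup.map_subgroupOf_eq_of_le hKL]
    exact h.odd
  · have h1 := Subgroup.relIndex_map_map_of_injective (pCoreOf 2 (K.subgroupOf L)) (K.subgroupOf L) L.subtype_injective
    rw [← h1, H13.pCoreOf_subgroupOf_map hKL, Subgroup.map_subgroupOf_eq_of_le hKL]
    exact h.idx

theorem thompson_subgroupOf {L T : Subgroup G} (hTL : T ≤ L) :
    (thompsonSubgroupOf 2 (T.subgroupOf L)).map L.subtype = thompsonSubgroupOf 2 T := by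
  rw [← H2.thompsonSubgroupOf_map L.subtype_injective, Subgroup.map_subgroupOf_eq_of_le hTL]

theorem jk_subgroupOf [Finite G] {L T K : Subgroup G} (hTL : T ≤ L) (hKL : K ≤ L) (h : JK T K) :
    JK (T.subgroupOf L) (K.subgroupOf L) := by
  refine ⟨c3_subgroupOf hKL h.c3, ?_⟩
  apply Subgroup.map_injective L.subtype_injective
  rw [Subgroup.map_commutator, thompson_subgroupOf hTL, Subgroup.map_subgroupOf_eq_of_le hKL, h.com]

theorem comp_jk [Finite G] {T K : Subgroup G} (h : IsJComponent T K) : JK T K := ⟨comp_c3 h, h.2.1⟩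

theorem isSylowOf_top_of [Finite G] {T L : Subgroup G} (h : H23.IsSylowOf 2 T L) : H23.IsSylowOf 2 (T.subgroupOf L) ⊤ := by
  haveI h2 : Fact (Nat.Prime 2) := ⟨Nat.prime_two⟩
  apply H23.isSylowOf_of_not_dvd le_top
  · exact H18.isPGroup_subgroupOf h.isPGroup
  · rw [Subgroup.relIndex_top_right]
    exact h.not_dvd

theorem card_wOf_subgroupOf {L K : Subgroup G} (hKL : K ≤ L) : Nat.card (wOf (K.subgroupOf L)) = Nat.card (wOf K) := by
  rw [← wOf_subgroupOf hKL, H2.card_map_inj L.subtype_injective]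

/-- the standing hypotheses -/
structure HG (G : Type*) [Group G] : Prop where
  cha : IsCharacteristicTwoType G
  solv : ∀ N : Subgroup G, IsTwoLocal N → Group.IsSolvable ↥N
  zed : ∀ S : Sylow 2 G, Subgroup.centralizer (omegaCenterOf (S : Subgroup G) : Set G) ≤
    Subgroup.normalizer ((S : Subgroup G) : Set G)

theorem HG.zg [Finite G] (h : HG G) {L : Subgroup G}
    (hL : Subgroup.centralizer (pCoreOf 2 L : Set G) ≤ pCoreOf 2 L) (hne : pCoreOf 2 L ≠ ⊥) : ZG ↥L where
  solv := by
    have h1 : IsTwoLocal (Subgroup.normalizer (pCoreOf 2 L : Set G)) := ⟨pCoreOf 2 L, H18.isPGroup_pCoreOf L, hne, rfl⟩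
    haveI h3 := h.solv _ h1
    exact Group.isSolvable_of_isSolvable_injective
      (Subgroup.inclusion_injective (H18.le_normalizer_pCoreOf (p := 2) L))
  cha := by
    intro x hx
    have h1 : x.1 ∈ pCoreOf 2 L := by
      apply hL
      rw [Subgroup.mem_centralizer_iff]
      rintro _ ⟨y, hy, rfl⟩
      exact congrArg Subtype.val (Subgroup.mem_centralizer_iff.mp hx y hy)
    obtain ⟨y, hy, hyx⟩ := h1
    have : y = x := Subtype.ext hyx
    rw [← this]; exact hy
  zed := by
    haveI h2 : Fact (Nat.Prime 2) := ⟨Nat.prime_two⟩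
    intro T' x hx
    set T : Subgroup G := (T' : Subgroup ↥L).map L.subtype with hT
    have hTs : H23.IsSylowOf 2 T L := ⟨T', rfl⟩
    obtain ⟨S, hS⟩ := hTs.isPGroup.exists_le_sylow
    have hcT : pCoreOf 2 L ≤ T := by
      rw [hT]
      exact Subgroup.map_mono (H18.pCore_le_sylow T')
    have hZT : omegaCenterOf (S : Subgroup G) ≤ T := by
      intro z hz
      have hz' := mem_oz.mp hz
      apply hcT
      apply hL
      rw [Subgroup.mem_centralizer_iff]
      exact fun y hy => hz'.2.1 y (hS (hcT hy))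
    have hxS : x.1 ∈ Subgroup.normalizer ((S : Subgroup G) : Set G) := by
      apply h.zed S
      rw [Subgroup.mem_centralizer_iff]
      intro z hz
      obtain ⟨t, ht, htz⟩ := hZT hz
      have hz' := mem_oz.mp hz
      have h3 : t ∈ omegaCenterOf (T' : Subgroup ↥L) := by
        rw [mem_oz]
        refine ⟨ht, fun s hs => ?_, ?_⟩
        · apply Subtype.ext
          show s.1 * t.1 = t.1 * s.1
          have : t.1 = z := htz
          rw [this]
          exact hz'.2.1 _ (hS ⟨s, hs, rfl⟩)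
        · apply Subtype.ext
          show t.1 ^ 2 = 1
          have : t.1 = z := htz
          rw [this]
          exact hz'.2.2
      have h4 := congrArg Subtype.val (Subgroup.mem_centralizer_iff.mp hx t h3)
      have : t.1 = z := htz
      rw [← this]
      exact h4
    have hTS : (S : Subgroup G) ⊓ L = T :=
      IsSylowOf.eq_of_le hTs (le_inf hS hTs.le) inf_le_right (S.isPGroup'.to_le inf_le_left)
    apply mem_norm_of_le
    intro t ht
    have h5 : x.1 * t.1 * x.1⁻¹ ∈ T := by
      rw [← hTS]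
      refine ⟨(Subgroup.mem_normalizer_iff.mp hxS t.1).mp (hS ⟨t, ht, rfl⟩), L.mul_mem (L.mul_mem x.2 t.2) (L.inv_mem x.2)⟩
    obtain ⟨y, hy, hyx⟩ := h5
    have : y = x * t * x⁻¹ := Subtype.ext hyx
    rw [← this]; exact hy

theorem ne_bot_of [Finite G] {T L : Subgroup G} (hT1 : T ≠ ⊥)
    (hL : Subgroup.centralizer (pCoreOf 2 L : Set G) ≤ pCoreOf 2 L) : pCoreOf 2 L ≠ ⊥ := by
  intro h1
  rw [h1] at hL
  apply hT1
  rw [eq_bot_iff]
  intro t _
  apply hL
  rw [Subgroup.mem_centralizer_iff]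
  intro y hy
  rw [Subgroup.mem_bot.mp hy, one_mul, mul_one]

/-! ### conjugation -/

theorem comp_congr {T T' K : Subgroup G} (h : thompsonSubgroupOf 2 T = thompsonSubgroupOf 2 T') (hK : IsJComponent T K) :
    IsJComponent T' K := by
  unfold IsJComponent at hK ⊢
  rwa [h] at hK

theorem c3_conj [Finite G] {K : Subgroup G} (h : C3 K) (g : G) : C3 (K.map (MulAut.conj g).toMonoidHom) := by
  constructor
  · rw [← H18.pRes_map_conj, h.odd]
  · rw [← H18.pCoreOf_map_conj, Subgroup.relIndex_map_map_of_injective _ _ (MulAut.conj g).injective]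
    exact h.idx

theorem wOf_conj [Finite G] (K : Subgroup G) (g : G) :
    wOf (K.map (MulAut.conj g).toMonoidHom) = (wOf K).map (MulAut.conj g).toMonoidHom := by
  unfold wOf
  rw [Subgroup.map_commutator, ← H18.pCoreOf_map_conj, oz_map_inj (MulAut.conj g).injective]

theorem jk_conj [Finite G] {T K : Subgroup G} (h : JK T K) (g : G) :
    JK (T.map (MulAut.conj g).toMonoidHom) (K.map (MulAut.conj g).toMonoidHom) := by
  refine ⟨c3_conj h.c3 g, ?_⟩
  rw [H2.thompsonSubgroupOf_map_conj, ← Subgroup.map_commutator, h.com]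

theorem isSylowOf_conj [Finite G] {T L : Subgroup G} (h : H23.IsSylowOf 2 T L) (g : G) :
    H23.IsSylowOf 2 (T.map (MulAut.conj g).toMonoidHom) (L.map (MulAut.conj g).toMonoidHom) := by
  haveI h2 : Fact (Nat.Prime 2) := ⟨Nat.prime_two⟩
  exact IsSylowOf.conj_both h g

theorem comp_conj [Finite G] {T K : Subgroup G} (h : IsJComponent T K) (g : G) :
    IsJComponent (T.map (MulAut.conj g).toMonoidHom) (K.map (MulAut.conj g).toMonoidHom) := by
  have hjk := jk_conj (comp_jk h) g
  refine ⟨by rw [closure_odd]; exact hjk.c3.odd, hjk.com, hjk.c3.idx, ?_, ?_, ?_⟩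
  · intro S hS hJS
    rw [H2.thompsonSubgroupOf_map_conj] at hJS ⊢
    have h1 := (isSylowOf_conj (isSylowTwoIn_iff.mp hS) g⁻¹)
    rw [H2.thompsonSubgroupOf_map_conj, ← Subgroup.map_sup, ← H2.map_conj_mul, inv_mul_cancel, H2.map_conj_one] at h1
    have h3 := h.2.2.2.1 _ (isSylowTwoIn_iff.mpr h1) (by
      have h4 := Subgroup.map_mono (f := (MulAut.conj g⁻¹).toMonoidHom) hJS
      rwa [← H2.map_conj_mul, inv_mul_cancel, H2.map_conj_one] at h4)
    rw [← h3, H2.thompsonSubgroupOf_map_conj, ← H2.map_conj_mul, mul_inv_cancel, H2.map_conj_one]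
  · rw [wOf_conj, H2.card_map_inj (MulAut.conj g).injective]
    exact comp_card h
  · intro w hw
    rw [wOf_conj] at hw
    obtain ⟨v, hv, rfl⟩ := hw
    rw [← map_mul, h.2.2.2.2.2 v hv, map_one]

end Cfsg.Agent.H19.JC
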