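import Cfsg.Agent.H19.JC10
import Cfsg.Agent.S2944

set_option autoImplicit false
set_option linter.style.haveILetI false
set_option linter.unusedVariables false
set_option linter.unusedSectionVars false

/-! `J(T)`-components, part 11: uniqueness of the maximal 2-local overgroup. -/

namespace Cfsg.Agent.H19.JC

open Cfsg Cfsg.Agent.H19.PGV Cfsg.Agent.H19.FF Cfsg.Agent.H19.FF.FFS
open scoped commutatorElement

/-- `J(Γ)` is generated by the components and `J(T)` -/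
theorem JJ_le_of_comps' {Γ : Type*} [Group Γ] [Finite Γ] (h : ZG Γ) {T X : Subgroup Γ} (hT : H23.IsSylowOf 2 T ⊤)
    (hX : ∀ K : Subgroup Γ, IsJComponent T K → K ≤ X) (hJX : thompsonSubgroupOf 2 T ≤ X) :
    thompsonSubgroup 2 Γ ≤ X := by
  haveI h2 : Fact (Nat.Prime 2) := ⟨Nat.prime_two⟩
  set Qx := pPrimeCore 2 ↥(NN Γ) with hQx
  have hall : ∀ A' : Subgroup ↥(NN Γ), TG 2 h.WW A' → A' ≤ img (rho Γ) (NN Γ) X := by
    intro A' hA'
    obtain ⟨K, hK, hKi⟩ := exists_comp h hT hA'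
    obtain ⟨A, hA, B, hBA, hB, hEG⟩ := exists_TG_J h hT hA'
    refine (le_EG Qx A').trans ?_
    rw [← hEG]
    have hmono : ∀ {X Y : Subgroup Γ}, X ≤ Y → img (rho Γ) (NN Γ) X ≤ img (rho Γ) (NN Γ) Y := by
      rintro X Y hXY x ⟨a, ha, hax⟩
      exact ⟨a, hXY ha, hax⟩
    refine sup_le ?_ (hBA.trans (hmono (hA.le_thompson.trans hJX)))
    rw [hB.com_eq h.ffs, hEG, ← hA'.com_eq h.ffs, ← hKi]
    exact hmono (hX K hK)
  have htop : (⊤ : Subgroup ↥(NN Γ)) ≤ img (rho Γ) (NN Γ) X := by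
    rw [← h.gen]
    exact sSup_le fun A hA => hall A hA
  conv_lhs => rw [H2.thompsonSubgroup_eq]
  refine sSup_le fun A hA a ha => ?_
  obtain ⟨j, hj, hjA⟩ := exists_conj_J hT hA
  have hj' : rho Γ j⁻¹ ∈ NN Γ := ⟨j⁻¹, Subgroup.inv_mem _ hj, rfl⟩
  obtain ⟨m, hm, hmj⟩ := htop (Subgroup.mem_top (⟨rho Γ j⁻¹, hj'⟩ : ↥(NN Γ)))
  have hmj' : rho Γ m = rho Γ j⁻¹ := hmj
  obtain ⟨c, hc⟩ : ∃ c, c = m⁻¹ * j⁻¹ := ⟨_, rfl⟩
  have h4 : c ∈ CC Γ := by
    rw [← QuotientGroup.eq_one_iff]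
    show rho Γ c = 1
    rw [hc, map_mul, map_inv (rho Γ) m, hmj', inv_mul_cancel]
  have h5 : j * a * j⁻¹ ∈ thompsonSubgroupOf 2 T := hjA.le_thompson ⟨a, ha, rfl⟩
  have h6 := (Subgroup.mem_normalizer_iff.mp
    (((h.C_norm hT).trans (H2.normalizer_le_normalizer_thompson (p := 2) T)) h4) _).mp h5
  have e : a = m * (c * (j * a * j⁻¹) * c⁻¹) * m⁻¹ := by rw [hc]; group
  rw [e]
  exact X.mul_mem (X.mul_mem hm (hJX h6)) (X.inv_mem hm)

variable {G : Type*} [Group G] [Finite G]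

/-- properties of a 2-local group relative to `J(T)` -/
structure Ov (T Λ : Subgroup G) : Prop where
  comp : ∀ F : Subgroup G, IsJComponent T F → F ≤ Λ → F ≤ thompsonSubgroupOf 2 Λ ∧
    thompsonSubgroupOf 2 Λ ≤ Subgroup.normalizer (F : Set G)
  J : thompsonSubgroupOf 2 T ≤ thompsonSubgroupOf 2 Λ
  gen : ∀ X : Subgroup G, (∀ F : Subgroup G, IsJComponent T F → F ≤ Λ → F ≤ X) → thompsonSubgroupOf 2 T ≤ X →
    thompsonSubgroupOf 2 Λ ≤ X
  frat : ∀ x ∈ Λ, ∃ j ∈ thompsonSubgroupOf 2 Λ, ∃ n ∈ Λ ⊓ Subgroup.normalizer (thompsonSubgroupOf 2 T : Set G), x = j * n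
  meet : ∀ F₁ F₂ : Subgroup G, IsJComponent T F₁ → F₁ ≤ Λ → IsJComponent T F₂ → F₂ ≤ Λ → wOf F₁ ⊓ wOf F₂ ≠ ⊥ → F₁ = F₂

theorem norm_subgroupOf {K L : Subgroup G} (hKL : K ≤ L) {x : ↥L}
    (hx : x ∈ Subgroup.normalizer ((K.subgroupOf L : Subgroup ↥L) : Set ↥L)) : x.1 ∈ Subgroup.normalizer (K : Set G) := by
  apply mem_norm_of_le
  intro k hk
  exact (Subgroup.mem_normalizer_iff.mp hx ⟨k, hKL hk⟩).mp hk

theorem ov_of (hG : HG G) {T T₀ Λ : Subgroup G} (hT₀1 : T₀ ≠ ⊥) (hΛ : Λ ∈ jOvergroups T₀)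
    (hJ : thompsonSubgroupOf 2 T₀ = thompsonSubgroupOf 2 T) : Ov T Λ := by
  obtain ⟨hTL, hJL, hcL⟩ := hΛ
  have hTL' := isSylowTwoIn_iff.mp hTL
  have hz := hG.zg hcL (ne_bot_of hT₀1 hcL)
  have hs := isSylowOf_top_of hTL'
  have hcg : ∀ F, IsJComponent T F → IsJComponent T₀ F := fun F hF => comp_congr hJ.symm hF
  refine ⟨?_, ?_, ?_, ?_, ?_⟩
  · intro F hF hFΛ
    have hjk := jk_subgroupOf hTL.1 hFΛ (comp_jk (hcg F hF))
    constructor
    · intro f hf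
      exact ⟨⟨f, hFΛ hf⟩, hjk.le_J hs hf, rfl⟩
    · rintro _ ⟨j, hj, rfl⟩
      exact norm_subgroupOf hFΛ (hjk.JJ_norm hz hs hj)
  · rw [← hJ]
    intro j hj
    rw [← thompson_subgroupOf hTL.1] at hj
    obtain ⟨j', hj', rfl⟩ := hj
    exact ⟨j', J_le_JJ hs hj', rfl⟩
  · intro X hX hJX
    have h1 : thompsonSubgroup 2 ↥Λ ≤ X.subgroupOf Λ := by
      apply JJ_le_of_comps' hz hs
      · intro K' hK' k hk
        have h3 := hX _ (comp_congr hJ (comp_map hTL.1 hK')) (Subgroup.map_subtype_le _)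
        exact h3 ⟨k, hk, rfl⟩
      · intro j hj
        apply hJX
        rw [← hJ, ← thompson_subgroupOf hTL.1]
        exact ⟨j, hj, rfl⟩
    rintro _ ⟨j, hj, rfl⟩
    exact h1 hj
  · intro x hx
    obtain ⟨j, hj, n, hn, hjn⟩ := JJ_sup_norm hs (⟨x, hx⟩ : ↥Λ)
    refine ⟨j.1, ⟨j, hj, rfl⟩, n.1, ⟨n.2, ?_⟩, congrArg Subtype.val hjn⟩
    rw [← hJ]
    apply mem_norm_of_le
    intro y hy
    rw [← thompson_subgroupOf hTL.1] at hy ⊢
    obtain ⟨y', hy', rfl⟩ := hy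
    exact ⟨_, (Subgroup.mem_normalizer_iff.mp hn y').mp hy', rfl⟩
  · intro F₁ F₂ hF₁ hF₁Λ hF₂ hF₂Λ hne
    have hjk₁ := jk_subgroupOf hTL.1 hF₁Λ (comp_jk (hcg F₁ hF₁))
    have hjk₂ := jk_subgroupOf hTL.1 hF₂Λ (comp_jk (hcg F₂ hF₂))
    have h1 : F₁.subgroupOf Λ = F₂.subgroupOf Λ := by
      apply JK.eq_of_meet hz hjk₁ hs hjk₂ hs
      rw [hjk₁.VK_eq hz hs (by rw [card_wOf_subgroupOf hF₁Λ]; exact comp_card hF₁),
        hjk₂.VK_eq hz hs (by rw [card_wOf_subgroupOf hF₂Λ]; exact comp_card hF₂)]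
      intro hbot
      apply hne
      rw [← wOf_subgroupOf hF₁Λ, ← wOf_subgroupOf hF₂Λ, ← Subgroup.map_inf _ _ _ Λ.subtype_injective, hbot,
        Subgroup.map_bot]
    rw [← Subgroup.map_subgroupOf_eq_of_le hF₁Λ, h1, Subgroup.map_subgroupOf_eq_of_le hF₂Λ]

section

variable (hG : HG G) {S : Subgroup G} (hS : H23.IsSylowOf 2 S ⊤) {M : Subgroup G}
    (hMJ : Subgroup.normalizer (thompsonSubgroupOf 2 S : Set G) ≤ M) {T : Subgroup G}
    (hT : T ∈ maxStraddlingTwoSubgroups M)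

include hG hS hMJ hT

theorem ov_local {Λ : Subgroup G} (hΛ : IsTwoLocal Λ) (hΛM : ¬ Λ ≤ M) (hJΛ : thompsonSubgroupOf 2 T ≤ Λ) : Ov T Λ := by
  haveI h2 : Fact (Nat.Prime 2) := ⟨Nat.prime_two⟩
  obtain ⟨T₀, hT₀, hJT₀⟩ := H23.exists_isSylowOf_ge (p := 2) hJΛ (J_isPGroup hT.1.1)
  obtain ⟨h1, h3, h4⟩ := max_all hG hS hMJ hT hΛ hΛM hT₀ hJT₀
  exact ov_of hG h3.2.1 h4 h1

theorem zero_of {F : Subgroup G} (hF : IsJComponent T F) (hFM : ¬ Subgroup.normalizer (wOf F : Set G) ≤ M) :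
    F ∈ jComponentsZero T := by
  refine ⟨hF, fun S' hJS' hS' => ?_⟩
  have hWl : Cfsg.IsTwoLocal (Subgroup.normalizer (wOf F : Set G)) := ⟨wOf F, wOf_isPGroup F, comp_ne hF, rfl⟩
  exact (max_all hG hS hMJ hT hWl hFM (isSylowTwoIn_iff.mp hS') hJS').1

theorem norm_eq {F : Subgroup G} (hF : IsJComponent T F) (hFM : ¬ Subgroup.normalizer (wOf F : Set G) ≤ M) :
    Subgroup.normalizer (F : Set G) = Subgroup.normalizer (wOf F : Set G) :=
  (S2944.result hG.cha hG.solv hG.zed T hT.1.1 hT.1.2.1 F (zero_of hG hS hMJ hT hF hFM)).1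

theorem norm_local {F : Subgroup G} (hF : IsJComponent T F) (hFM : ¬ Subgroup.normalizer (F : Set G) ≤ M) :
    IsTwoLocal (Subgroup.normalizer (F : Set G)) ∧ Ov T (Subgroup.normalizer (F : Set G)) := by
  have h1 : ¬ Subgroup.normalizer (wOf F : Set G) ≤ M := fun h => hFM (C3.norm_wOf.trans h)
  have h3 : IsTwoLocal (Subgroup.normalizer (F : Set G)) := ⟨wOf F, wOf_isPGroup F, comp_ne hF, norm_eq hG hS hMJ hT hF h1⟩
  exact ⟨h3, ov_local hG hS hMJ hT h3 hFM (comp_norm hF)⟩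

section

variable {K : Subgroup G} (hK : IsJComponent T K) (hKM : ¬ K ≤ M)
include hK hKM

theorem NK_not_le : ¬ Subgroup.normalizer (K : Set G) ≤ M := fun h => hKM (Subgroup.le_normalizer.trans h)

theorem claimA {Λ : Subgroup G} (hΛ : IsTwoLocal Λ) (hKΛ : K ≤ Λ) (hJΛ : thompsonSubgroupOf 2 T ≤ Λ) :
    thompsonSubgroupOf 2 Λ ≤ thompsonSubgroupOf 2 (Subgroup.normalizer (K : Set G)) := by
  have hov := ov_local hG hS hMJ hT hΛ (fun h => hKM (hKΛ.trans h)) hJΛ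
  obtain ⟨_, hovK⟩ := norm_local hG hS hMJ hT hK (fun h => hKM (Subgroup.le_normalizer.trans h))
  apply hov.gen
  · intro F hF hFΛ
    exact (hovK.comp F hF (((hov.comp F hF hFΛ).1).trans (hov.comp K hK hKΛ).2)).1
  · exact hovK.J

theorem claimB {F : Subgroup G} (hF : IsJComponent T F) (hFK : F ≤ Subgroup.normalizer (K : Set G)) :
    thompsonSubgroupOf 2 (Subgroup.normalizer (F : Set G)) = thompsonSubgroupOf 2 (Subgroup.normalizer (K : Set G)) := by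
  obtain ⟨hlK, hovK⟩ := norm_local hG hS hMJ hT hK (fun h => hKM (Subgroup.le_normalizer.trans h))
  have h1 := hovK.comp F hF hFK
  have h3 := hovK.comp K hK Subgroup.le_normalizer
  have hKF : K ≤ Subgroup.normalizer (F : Set G) := h3.1.trans h1.2
  obtain ⟨hlF, hovF⟩ := norm_local hG hS hMJ hT hF (fun h => hKM (hKF.trans h))
  apply le_antisymm
  · exact claimA hG hS hMJ hT hK hKM hlF hKF (comp_norm hF)
  · apply hovK.gen
    · intro F' hF' hF'K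
      exact (hovF.comp F' hF' ((hovK.comp F' hF' hF'K).1.trans h1.2)).1
    · exact hovF.J

theorem conj_D {x : G} (hx : IsJComponent T (K.map (MulAut.conj x).toMonoidHom))
    (hxK : K.map (MulAut.conj x).toMonoidHom ≤ Subgroup.normalizer (K : Set G)) :
    x ∈ Subgroup.normalizer (thompsonSubgroupOf 2 (Subgroup.normalizer (K : Set G)) : Set G) := by
  have h1 := claimB hG hS hMJ hT hK hKM hx hxK
  rw [norm_conj, H2.thompsonSubgroupOf_map_conj] at h1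
  rw [H18.mem_normalizer_iff_map]
  exact h1

/-- the unique maximal 2-local overgroup -/
theorem exists_max (hKT : pCoreOf 2 (K ⊔ T) ≠ ⊥) : ∃ L : Subgroup G, IsTwoLocal L ∧ K ≤ L ∧ T ≤ L ∧
    ∀ Λ : Subgroup G, IsTwoLocal Λ → K ≤ Λ → thompsonSubgroupOf 2 T ≤ Λ → Λ ≤ L := by
  obtain ⟨hlK, hovK⟩ := norm_local hG hS hMJ hT hK (fun h => hKM (Subgroup.le_normalizer.trans h))
  set D := thompsonSubgroupOf 2 (Subgroup.normalizer (K : Set G)) with hD
  have hKD : K ≤ D := (hovK.comp K hK Subgroup.le_normalizer).1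
  have hDK : D ≤ Subgroup.normalizer (K : Set G) := H2.thompsonSubgroupOf_le 2 _
  have hWD : wOf K ≤ pCoreOf 2 D := by
    apply H18.le_pCoreOf (C3.wOf_le.trans hKD) (hDK.trans C3.norm_wOf) (wOf_isPGroup K)
  have hne : pCoreOf 2 D ≠ ⊥ := by
    intro h
    apply comp_ne hK
    rw [eq_bot_iff, ← h]
    exact hWD
  have hDL : Subgroup.normalizer (D : Set G) ≤ Subgroup.normalizer (pCoreOf 2 D : Set G) :=
    H18.normalizer_le_normalizer_pCoreOf D
  have hDL' : D ≤ Subgroup.normalizer (pCoreOf 2 D : Set G) := Subgroup.le_normalizer.trans hDL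
  refine ⟨Subgroup.normalizer (pCoreOf 2 D : Set G), ⟨_, H18.isPGroup_pCoreOf D, hne, rfl⟩, hKD.trans hDL', ?_, ?_⟩
  · -- T
    intro t ht
    apply hDL
    have hl₀ : IsTwoLocal (Subgroup.normalizer (pCoreOf 2 (K ⊔ T) : Set G)) := ⟨_, H18.isPGroup_pCoreOf _, hKT, rfl⟩
    have hKT₀ : K ⊔ T ≤ Subgroup.normalizer (pCoreOf 2 (K ⊔ T) : Set G) := H18.le_normalizer_pCoreOf _
    have hov₀ := ov_local hG hS hMJ hT hl₀ (fun h => hKM ((le_sup_left.trans hKT₀).trans h))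
      ((H2.thompsonSubgroupOf_le 2 T).trans (le_sup_right.trans hKT₀))
    have htT : T.map (MulAut.conj t).toMonoidHom = T := by
      rw [← H18.mem_normalizer_iff_map]
      exact Subgroup.le_normalizer ht
    have hKt := comp_conj hK t
    rw [htT] at hKt
    apply conj_D hG hS hMJ hT hK hKM hKt
    have hle : K.map (MulAut.conj t).toMonoidHom ≤ Subgroup.normalizer (pCoreOf 2 (K ⊔ T) : Set G) := by
      refine le_trans ?_ hKT₀
      rintro _ ⟨k, hk, rfl⟩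
      have htm : t ∈ K ⊔ T := Subgroup.mem_sup_right ht
      exact Subgroup.mul_mem _ (Subgroup.mul_mem _ htm (Subgroup.mem_sup_left hk)) (Subgroup.inv_mem _ htm)
    exact (hov₀.comp _ hKt hle).1.trans (hov₀.comp K hK (le_sup_left.trans hKT₀)).2
  · intro Λ hΛ hKΛ hJΛ x hx
    have hov := ov_local hG hS hMJ hT hΛ (fun h => hKM (hKΛ.trans h)) hJΛ
    obtain ⟨j, hj, n, ⟨hn, hn'⟩, rfl⟩ := hov.frat x hx
    apply Subgroup.mul_mem
    · exact hDL' (claimA hG hS hMJ hT hK hKM hΛ hKΛ hJΛ hj)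
    · apply hDL
      have hJn : thompsonSubgroupOf 2 (T.map (MulAut.conj n).toMonoidHom) = thompsonSubgroupOf 2 T := by
        rw [H2.thompsonSubgroupOf_map_conj]
        exact H18.mem_normalizer_iff_map.mp hn'
      have hKn := comp_congr hJn (comp_conj hK n)
      apply conj_D hG hS hMJ hT hK hKM hKn
      have hle : K.map (MulAut.conj n).toMonoidHom ≤ Λ := by
        rintro _ ⟨k, hk, rfl⟩
        exact Λ.mul_mem (Λ.mul_mem hn (hKΛ hk)) (Λ.inv_mem hn)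
      exact (hov.comp _ hKn hle).1.trans (hov.comp K hK hKΛ).2

end

end

end Cfsg.Agent.H19.JC
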