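import Cfsg.Agent.H19.JC11

set_option autoImplicit false
set_option linter.style.haveILetI false
set_option linter.unusedVariables false
set_option linter.unusedSectionVars false

/-! `J(T)`-components, part 12: more on the module. -/

namespace Cfsg.Agent.H19.FF.FFS

open Cfsg Cfsg.Agent.H19.PGV
open scoped commutatorElement

variable {X W : Type*} [Group X] [AddCommGroup W] [DistribMulAction X W]
variable {p : ℕ} [Fact p.Prime] {Q : Subgroup X} [Finite X] [Finite W]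

theorem exists_fix_all (h : FFS p W Q) {P : Subgroup X} (hP : IsPGroup p P) (w : W) :
    ∃ x : X, ∀ B ≤ P, TG p W B → ∀ b ∈ B, b • (x • w) = x • w := by
  classical
  let f : X → ℕ := fun x => ({B : Subgroup X | B ≤ P ∧ TG p W B ∧ ∀ b ∈ B, b • (x • w) = x • w} : Set (Subgroup X)).ncard
  obtain ⟨x, hx⟩ := Finite.exists_max f
  refine ⟨x, ?_⟩
  by_contra hcon
  push Not at hcon
  obtain ⟨B₀, hB₀P, hB₀, b₀, hb₀, hb₀x⟩ := hcon
  obtain ⟨ι, φ, hPl⟩ := hB₀.exists_plane h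
  obtain ⟨a, ha, ha1⟩ := hB₀.exists_ne
  obtain ⟨e, he, he0⟩ := hB₀.exists_u ha ha1
  obtain ⟨u₀, hu₀, c, hc, huc⟩ := hPl.decomp (x • w)
  have hu₀0 : u₀ ≠ 0 := by
    rintro rfl
    apply hb₀x
    rw [huc, zero_add]
    exact hc b₀ (le_EG Q B₀ hb₀)
  obtain ⟨r, hr, hrE, hur⟩ := hB₀.exists_rep h ha ha1 he he0 hu₀ hu₀0
  have hrx : (r⁻¹ * x) • w = e + c := by
    rw [mul_smul, huc, smul_add, hur, inv_smul_smul, hc r⁻¹ (Subgroup.inv_mem _ hrE)]
  have hB₀fix : ∀ b ∈ B₀, b • ((r⁻¹ * x) • w) = (r⁻¹ * x) • w := by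
    intro b hb
    rw [hrx, smul_add, hB₀.quad h ha ha1 hb e he, hc b (le_EG Q B₀ hb)]
  have hlt : f x < f (r⁻¹ * x) := by
    apply Set.ncard_lt_ncard _ (Set.toFinite _)
    refine ⟨?_, ?_⟩
    · rintro B ⟨hBP, hB, hBfix⟩
      refine ⟨hBP, hB, ?_⟩
      rcases hB₀.dich h hB with ⟨r', hr', hr'E, hBr⟩ | ⟨h1, h2, -⟩
      · exfalso
        have hle : B ≤ B₀ := by
          intro b hb
          rw [hBr] at hb
          obtain ⟨a', ha', hab⟩ := mem_cj.mp hb
          have hbP : b ∈ P := hBP (by rw [hBr]; exact hb)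
          have h3 : b * a'⁻¹ ∈ P := P.mul_mem hbP (P.inv_mem (hB₀P ha'))
          have h4 : b * a'⁻¹ ∈ Q := by
            have e1 : b * a'⁻¹ = r' * (a' * r'⁻¹ * a'⁻¹) := by rw [← hab]; group
            rw [e1]
            exact Q.mul_mem hr' (h.hQn.conj_mem _ (Q.inv_mem hr') a')
          have h5 : b * a'⁻¹ = 1 := by
            obtain ⟨n, hn⟩ := hP ⟨_, h3⟩
            have hn' : (b * a'⁻¹) ^ p ^ n = 1 := congrArg Subtype.val hn
            have h6 := pow_card_mem h4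
            have h7 : (Nat.card Q).Coprime (p ^ n) := Nat.Coprime.pow_right n h.hQp
            have h8 := Nat.dvd_gcd (orderOf_dvd_of_pow_eq_one h6) (orderOf_dvd_of_pow_eq_one hn')
            rw [h7] at h8
            exact orderOf_eq_one_iff.mp (Nat.dvd_one.mp h8)
          rw [mul_inv_eq_one] at h5
          rw [h5]; exact ha'
        have heq : B = B₀ := Subgroup.eq_of_le_of_card_ge hle (by rw [hB.1, hB₀.1])
        rw [heq] at hBfix
        exact hb₀x (hBfix b₀ hb₀)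
      · intro b hb
        have h3 := h.comm_of_triv h1 h2 r⁻¹ (Subgroup.inv_mem _ hrE) b (le_EG Q B hb)
        rw [← mul_smul, ← mul_assoc, ← h3, mul_assoc, mul_smul, mul_smul, hBfix b hb, ← mul_smul]
    · intro hsub
      exact hb₀x ((hsub ⟨hB₀P, hB₀, hB₀fix⟩).2.2 b₀ hb₀)
  exact absurd (hx (r⁻¹ * x)) (not_le_of_gt hlt)

end Cfsg.Agent.H19.FF.FFS

namespace Cfsg.Agent.H19.JC

open Cfsg Cfsg.Agent.H19.PGV Cfsg.Agent.H19.FF Cfsg.Agent.H19.FF.FFS
open scoped commutatorElement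

namespace ZG

variable {Γ : Type*} [Group Γ] [Finite Γ] {T : Subgroup Γ}

/-- each element of the module is conjugate to a fixed point of `J(T)` -/
theorem exists_conj_fix (h : ZG Γ) (hT : H23.IsSylowOf 2 T ⊤) {v : Γ} (hv : v ∈ VV Γ) :
    ∃ g : Γ, ∀ j ∈ thompsonSubgroupOf 2 T, j * (g * v * g⁻¹) = (g * v * g⁻¹) * j := by
  haveI h2 : Fact (Nat.Prime 2) := ⟨Nat.prime_two⟩
  have hJN : (thompsonSubgroupOf 2 T).map (rho Γ) ≤ NN Γ := Subgroup.map_mono (J_le_JJ hT)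
  set P := img (rho Γ) (NN Γ) (thompsonSubgroupOf 2 T) with hP
  have hP2 : IsPGroup 2 P := by
    have h1 : IsPGroup 2 ((thompsonSubgroupOf 2 T).map (rho Γ)) := (J_isPGroup hT.isPGroup).map _
    rintro ⟨x, hx⟩
    obtain ⟨n, hn⟩ := h1 ⟨x.1, hx⟩
    have hn' : (x : Γ ⧸ CC Γ) ^ 2 ^ n = 1 := congrArg Subtype.val hn
    exact ⟨n, Subtype.ext (Subtype.ext hn')⟩
  let w : h.WW := FF.Wn.mk hv
  obtain ⟨x, hx⟩ := h.ffs.exists_fix_all hP2 w
  obtain ⟨g, hg⟩ := QuotientGroup.mk'_surjective (CC Γ) x.1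
  have hgw : x • w = g • w := by
    have h1 : x • w = x.1 • w := rfl
    rw [h1, ← hg]
    exact h.qa.act g w
  refine ⟨g, ?_⟩
  have hfix : ∀ A, H2.EAIn 2 T A → ∀ a ∈ A, a • (g • w) = g • w := by
    intro A hA a ha
    have hAN : A.map (rho Γ) ≤ NN Γ := (Subgroup.map_mono hA.le_thompson).trans hJN
    have hOF := h.qa.OF_img (N := NN Γ) hAN (EAIn_comm hA) hA.2.1.2 (EAIn_off h.V_elem (eaIn_top hT hA))
    have h1 : img (rho Γ) (NN Γ) A ≤ (fixer (⊤ : Subgroup ↥(NN Γ)) (fun v : h.WW => v = x • w)) := by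
      refine (h.ffs.gen_TG _ _ rfl hOF).trans (sSup_le ?_)
      rintro B ⟨hBA, hB⟩ b hb
      refine ⟨trivial, ?_⟩
      rintro v rfl
      refine hx B (hBA.trans ?_) hB b hb
      rintro y ⟨a, ha, hay⟩
      exact ⟨a, hA.le_thompson ha, hay⟩
    have ha' : rho Γ a ∈ NN Γ := hAN ⟨a, ha, rfl⟩
    have h3 := (h1 (show (⟨rho Γ a, ha'⟩ : ↥(NN Γ)) ∈ _ from ⟨a, ha, rfl⟩)).2 _ rfl
    rw [hgw] at h3
    have h4 : (⟨rho Γ a, ha'⟩ : ↥(NN Γ)) • (g • w) = rho Γ a • (g • w) := rfl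
    rw [h4, h.qa.act] at h3
    exact h3
  have hle : thompsonSubgroupOf 2 T ≤ Subgroup.centralizer ({g * v * g⁻¹} : Set Γ) := by
    rw [H2.thompsonSubgroupOf_eq]
    refine sSup_le fun A hA a ha => ?_
    rw [Subgroup.mem_centralizer_singleton_iff]
    have h3 := congrArg FF.Wn.val (hfix A hA a ha)
    simp only [FF.Wn.val_smul] at h3
    have h4 : FF.Wn.val w = v := rfl
    rw [h4] at h3
    have h5 : a * (g * v * g⁻¹) = (a * (g * v * g⁻¹) * a⁻¹) * a := by group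
    rw [h3] at h5
    exact h5
  intro j hj
  exact Subgroup.mem_centralizer_singleton_iff.mp (hle hj)

/-- no over-offenders -/
theorem off (h : ZG Γ) {A : Subgroup Γ} (hAc : ∀ a ∈ A, ∀ b ∈ A, a * b = b * a) (hA2 : ∀ a ∈ A, a ^ 2 = 1) :
    Nat.card A * Nat.card ↥(VV Γ ⊓ Subgroup.centralizer (A : Set Γ)) ≤
      Nat.card (VV Γ) * Nat.card ↥(CC Γ ⊓ A) := by
  haveI h2 : Fact (Nat.Prime 2) := ⟨Nat.prime_two⟩
  have hEA : FF.EA 2 (img (rho Γ) ⊤ A) := by
    constructor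
    · rintro x ⟨a, ha, hax⟩ y ⟨b, hb, hby⟩
      apply Subtype.ext
      show x.1 * y.1 = y.1 * x.1
      have hax' : rho Γ a = x.1 := hax
      have hby' : rho Γ b = y.1 := hby
      rw [← hax', ← hby', ← map_mul, ← map_mul, hAc a ha b hb]
    · rintro x ⟨a, ha, hax⟩
      apply Subtype.ext
      show x.1 ^ 2 = 1
      have hax' : rho Γ a = x.1 := hax
      rw [← hax', ← map_pow, hA2 a ha, map_one]
  have h1 := (h.qa.ffs ⊤).off_le _ _ rfl hEA
  rw [h.qa.fixS_img le_top, FF.Wn.card_fixS] at h1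
  have h3 := QA.card_img (ρ := rho Γ) (N := ⊤) (A := A) le_top
  rw [QuotientGroup.ker_mk'] at h3
  have h4 : Nat.card h.WW = Nat.card (VV Γ) := by
    have := FF.Wn.card_toG (hV := h.V_elem.1) (⊤ : AddSubgroup (FF.Wn (VV Γ) h.V_elem.1))
    rw [FF.Wn.toG_top, AddSubgroup.card_top] at this
    exact this.symm
  rw [h4] at h1
  calc Nat.card A * Nat.card ↥(VV Γ ⊓ Subgroup.centralizer (A : Set Γ))
      = (Nat.card ↥(img (rho Γ) ⊤ A) * Nat.card ↥(VV Γ ⊓ Subgroup.centralizer (A : Set Γ))) * Nat.card ↥(CC Γ ⊓ A) := by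
        rw [← h3]; ring
    _ ≤ _ := Nat.mul_le_mul_right _ h1

/-- offenders all of whose elements have the same fixed points -/
theorem off_two (h : ZG Γ) {A Y : Subgroup Γ} (hAc : ∀ a ∈ A, ∀ b ∈ A, a * b = b * a) (hA2 : ∀ a ∈ A, a ^ 2 = 1)
    (hY : ∀ a ∈ A, a ≠ 1 → VV Γ ⊓ Subgroup.centralizer ({a} : Set Γ) = Y) (hYV : Y ≠ VV Γ) (hA1 : A ≠ ⊥)
    (hcard : Nat.card (VV Γ) ≤ Nat.card A * Nat.card Y) :
    2 * Nat.card Y = Nat.card (VV Γ) ∧ Nat.card A = 2 := by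
  haveI h2 : Fact (Nat.Prime 2) := ⟨Nat.prime_two⟩
  obtain ⟨⟨a₀, ha₀⟩, ha₀1⟩ := Subgroup.ne_bot_iff_exists_ne_one.mp hA1
  have ha₀1' : a₀ ≠ 1 := fun h => ha₀1 (Subtype.ext h)
  have hfixA : VV Γ ⊓ Subgroup.centralizer (A : Set Γ) = Y := by
    apply le_antisymm
    · rw [← hY a₀ ha₀ ha₀1']
      exact inf_le_inf_left _ (Subgroup.centralizer_le (Set.singleton_subset_iff.mpr ha₀))
    · intro y hy
      have h1 : y ∈ VV Γ := by rw [← hY a₀ ha₀ ha₀1'] at hy; exact hy.1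
      refine ⟨h1, ?_⟩
      show y ∈ Subgroup.centralizer _
      rw [Subgroup.mem_centralizer_iff]
      intro a ha
      by_cases ha1 : a = 1
      · rw [ha1]; simp
      · rw [← hY a ha ha1] at hy
        exact (Subgroup.mem_centralizer_singleton_iff.mp hy.2).symm
  have hker : CC Γ ⊓ A = ⊥ := by
    rw [eq_bot_iff]
    rintro a ⟨haC, haA⟩
    rw [Subgroup.mem_bot]
    by_contra ha1
    apply hYV
    rw [← hY a haA ha1]
    apply le_antisymm inf_le_left
    intro v hv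
    refine ⟨hv, ?_⟩
    show v ∈ Subgroup.centralizer _
    rw [Subgroup.mem_centralizer_singleton_iff]
    exact Subgroup.mem_centralizer_iff.mp haC v hv
  have h1 := h.off hAc hA2
  rw [hfixA, hker, Subgroup.card_bot, mul_one] at h1
  have heq := le_antisymm h1 hcard
  have hle : (A.map (rho Γ)) ≤ (⊤ : Subgroup (Γ ⧸ CC Γ)) := le_top
  have h3 := QA.card_img (ρ := rho Γ) (N := ⊤) (A := A) le_top
  rw [QuotientGroup.ker_mk', hker, Subgroup.card_bot, one_mul] at h3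
  have h4 : Nat.card h.WW = Nat.card (VV Γ) := by
    have := FF.Wn.card_toG (hV := h.V_elem.1) (⊤ : AddSubgroup (FF.Wn (VV Γ) h.V_elem.1))
    rw [FF.Wn.toG_top, AddSubgroup.card_top] at this
    exact this.symm
  have hOF : OF 2 h.WW (img (rho Γ) ⊤ A) := by
    refine ⟨⟨?_, ?_⟩, ?_⟩
    · rintro x ⟨a, ha, hax⟩ y ⟨b, hb, hby⟩
      apply Subtype.ext
      show x.1 * y.1 = y.1 * x.1
      have hax' : rho Γ a = x.1 := hax
      have hby' : rho Γ b = y.1 := hby
      rw [← hax', ← hby', ← map_mul, ← map_mul, hAc a ha b hb]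
    · rintro x ⟨a, ha, hax⟩
      apply Subtype.ext
      show x.1 ^ 2 = 1
      have hax' : rho Γ a = x.1 := hax
      rw [← hax', ← map_pow, hA2 a ha, map_one]
    · rw [h.qa.fixS_img le_top, FF.Wn.card_fixS, h3, hfixA, h4]
      exact heq
  have h5 := (h.qa.ffs ⊤).gen_TG _ _ rfl hOF
  obtain ⟨B, hBA, hB⟩ : ∃ B ≤ img (rho Γ) ⊤ A, TG 2 h.WW B := by
    by_contra hcon
    push Not at hcon
    have h6 : img (rho Γ) ⊤ A ≤ ⊥ := h5.trans (sSup_le fun B hB => absurd hB.2 (hcon B hB.1))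
    have h7 : Nat.card ↥(img (rho Γ) ⊤ A) = 1 := Subgroup.card_eq_one.mpr (le_bot_iff.mp h6)
    rw [h7] at h3
    exact hA1 (Subgroup.card_eq_one.mp h3.symm)
  obtain ⟨b, hb, hb1⟩ := hB.exists_ne
  obtain ⟨a, ha, hab⟩ := hBA hb
  have hab' : rho Γ a = b.1 := hab
  have ha1 : a ≠ 1 := by
    rintro rfl
    apply hb1
    apply Subtype.ext
    rw [← hab', map_one]; rfl
  have h6 : Nat.card (fixS h.WW B) = Nat.card Y := by
    have h7 : fixS h.WW B = fixS h.WW (Subgroup.zpowers a) := by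
      rw [← hB.zpowers hb hb1]
      ext w
      constructor
      · intro hw
        rintro _ ⟨n, rfl⟩
        have h8 := hw b (Subgroup.mem_zpowers b)
        have h9 : a • w = w := by
          rw [← h.qa.act, hab']; exact h8
        exact (MulAction.stabilizer Γ w).zpow_mem (MulAction.mem_stabilizer_iff.mpr h9) n
      · intro hw
        rintro _ ⟨n, rfl⟩
        have h8 := hw a (Subgroup.mem_zpowers a)
        have h9 : b • w = w := by
          have : b • w = b.1 • w := rfl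
          rw [this, ← hab', h.qa.act]; exact h8
        exact (MulAction.stabilizer ↥(⊤ : Subgroup (Γ ⧸ CC Γ)) w).zpow_mem (MulAction.mem_stabilizer_iff.mpr h9) n
    have h8 : Subgroup.centralizer ((Subgroup.zpowers a : Subgroup Γ) : Set Γ) = Subgroup.centralizer ({a} : Set Γ) := by
      apply le_antisymm
      · exact Subgroup.centralizer_le (Set.singleton_subset_iff.mpr (Subgroup.mem_zpowers a))
      · intro x hx
        rw [Subgroup.mem_centralizer_iff]
        rintro _ ⟨n, rfl⟩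
        have h9 : Commute a x := (Subgroup.mem_centralizer_singleton_iff.mp hx).symm
        exact h9.zpow_left n
    rw [h7, FF.Wn.card_fixS, ← hY a ha ha1, h8]
  have h7 := hB.2
  rw [h6, h4] at h7
  refine ⟨h7, ?_⟩
  rw [← heq] at h7
  exact (Nat.eq_of_mul_eq_mul_right Nat.card_pos h7).symm

end ZG

end Cfsg.Agent.H19.JC
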