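import Cfsg.Agent.H19.JC1
import Cfsg.Agent.H19.CharP

set_option autoImplicit false
set_option linter.style.haveILetI false
set_option linter.unusedVariables false
set_option linter.unusedSectionVars false

/-! `J(T)`-components, part 2: `Ω₁(Z(J(T)))`. -/

namespace Cfsg.Agent.H19.JC

open Cfsg
open scoped commutatorElement

local notation "𝕆(" p ", " H ")" => Subgroup.map (Subgroup.subtype H) (Cfsg.pResidual p ↥H)

variable {G : Type*} [Group G]

/-- order-four groups acted on by a commutative group of 2-elements: the kernel has index at most 2 -/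
theorem index_le_two [Finite G] {W A : Subgroup G} (hW4 : Nat.card W = 4) (hA : IsPGroup 2 A)
    (hAc : ∀ a ∈ A, ∀ b ∈ A, a * b = b * a) (hWp : IsPGroup 2 W)
    (hAW : A ≤ Subgroup.normalizer (W : Set G)) :
    Nat.card A ≤ 2 * Nat.card ↥(A ⊓ Subgroup.centralizer (W : Set G)) := by
  haveI h2 : Fact (Nat.Prime 2) := ⟨Nat.prime_two⟩
  by_cases hle : A ≤ Subgroup.centralizer (W : Set G)
  · rw [inf_eq_left.mpr hle]
    omega
  obtain ⟨a₀, ha₀, ha₀W⟩ := SetLike.not_le_iff_exists.mp hle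
  set W₁ := W ⊓ Subgroup.centralizer (A : Set G) with hW₁
  have hWne : (⊥ : Subgroup G) < W := by
    rw [bot_lt_iff_ne_bot]
    intro h
    rw [h, Subgroup.card_bot] at hW4
    omega
  obtain ⟨n, hn, hn1, hnA⟩ := exists_fixed_mod hWp hA hWne (by
    rw [Subgroup.normalizer_eq_top_iff.mpr inferInstance]; exact le_top) hAW (by
    rw [Subgroup.normalizer_eq_top_iff.mpr inferInstance]; exact le_top)
  have hnW₁ : n ∈ W₁ := by
    refine ⟨hn, ?_⟩
    show n ∈ Subgroup.centralizer _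
    rw [Subgroup.mem_centralizer_iff]
    intro a ha
    have h3 := Subgroup.mem_bot.mp (hnA a ha)
    have h4 : a * n * a⁻¹ = n := (inv_mul_eq_one.mp h3).symm
    exact mul_inv_eq_iff_eq_mul.mp h4
  have hW₁lt : W₁ ≠ W := by
    intro h
    apply ha₀W
    rw [Subgroup.mem_centralizer_iff]
    intro w hw
    rw [SetLike.mem_coe, ← h] at hw
    exact (Subgroup.mem_centralizer_iff.mp hw.2 a₀ ha₀).symm
  have hc1 : Nat.card W₁ = 2 := by
    have h3 : Nat.card W₁ ∣ 4 := by rw [← hW4]; exact Subgroup.card_dvd_of_le inf_le_left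
    have h4 : Nat.card W₁ ≠ 4 := fun h => hW₁lt (Subgroup.eq_of_le_of_card_ge inf_le_left (by rw [hW4, h]))
    have h5 : Nat.card W₁ ≠ 1 := by
      intro h
      rw [Subgroup.card_eq_one] at h
      rw [h] at hnW₁
      exact hn1 hnW₁
    have h6 := Nat.le_of_dvd (by norm_num) h3
    interval_cases h7 : Nat.card W₁ <;> omega
  have hdiff : ((W : Set G) \ (W₁ : Set G)).ncard = 2 := by
    have h3 := Set.ncard_sdiff_add_ncard_of_subset (s := (W₁ : Set G)) (t := (W : Set G)) (fun x hx => hx.1)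
    have h4 : (W : Set G).ncard = 4 := hW4
    have h5 : (W₁ : Set G).ncard = 2 := hc1
    omega
  obtain ⟨w, hw, hw1⟩ : ∃ w ∈ W, w ∉ W₁ := by
    by_contra hcon
    push Not at hcon
    exact hW₁lt (le_antisymm inf_le_left hcon)
  have hgen : ∀ x : G, x * w = w * x → (∀ v ∈ W₁, x * v = v * x) → x ∈ Subgroup.centralizer (W : Set G) := by
    intro x hx hx'
    have h3 : W ⊓ Subgroup.centralizer ({x} : Set G) = W := by
      apply Subgroup.eq_of_le_of_card_ge inf_le_left
      have h4 : W₁ ≤ W ⊓ Subgroup.centralizer ({x} : Set G) := by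
        intro v hv
        refine ⟨hv.1, ?_⟩
        show v ∈ Subgroup.centralizer _
        rw [Subgroup.mem_centralizer_singleton_iff]
        exact (hx' v hv).symm
      have h5 : w ∈ W ⊓ Subgroup.centralizer ({x} : Set G) := by
        refine ⟨hw, ?_⟩
        show w ∈ Subgroup.centralizer _
        rw [Subgroup.mem_centralizer_singleton_iff]
        exact hx.symm
      have h6 : Nat.card ↥(W ⊓ Subgroup.centralizer ({x} : Set G)) ∣ 4 := by
        rw [← hW4]; exact Subgroup.card_dvd_of_le inf_le_left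
      have h7 : Nat.card W₁ < Nat.card ↥(W ⊓ Subgroup.centralizer ({x} : Set G)) := by
        refine lt_of_le_of_ne (Subgroup.card_le_of_le h4) fun h => hw1 ?_
        have := Subgroup.eq_of_le_of_card_ge h4 h.ge
        rw [this]; exact h5
      rw [hc1] at h7
      rw [hW4]
      have h8 := Nat.le_of_dvd (by norm_num) h6
      interval_cases h9 : Nat.card ↥(W ⊓ Subgroup.centralizer ({x} : Set G)) <;> omega
    rw [Subgroup.mem_centralizer_iff]
    intro v hv
    rw [SetLike.mem_coe, ← h3] at hv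
    exact Subgroup.mem_centralizer_singleton_iff.mp hv.2
  have hcj : ∀ a ∈ A, a * w * a⁻¹ ∈ (W : Set G) \ (W₁ : Set G) := by
    intro a ha
    refine ⟨(Subgroup.mem_normalizer_iff.mp (hAW ha) w).mp hw, fun h => hw1 ?_⟩
    have h3 := Subgroup.mem_centralizer_iff.mp h.2 a ha
    have h4 : a * (a * w * a⁻¹) = a * w := by rw [h3]; group
    have h5 : a * w * a⁻¹ = w := mul_left_cancel h4
    rw [h5] at h
    exact h
  have ha₀w : a₀ * w * a₀⁻¹ ≠ w := by
    intro h
    apply ha₀W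
    apply hgen a₀ (mul_inv_eq_iff_eq_mul.mp h)
    intro v hv
    exact Subgroup.mem_centralizer_iff.mp hv.2 a₀ ha₀
  have hrel : (A ⊓ Subgroup.centralizer (W : Set G)).relIndex A ∣ 2 := by
    rw [Subgroup.relIndex_dvd_two_iff]
    refine ⟨a₀⁻¹, A.inv_mem ha₀, fun b hb => ?_⟩
    by_cases hbw : b * w * b⁻¹ = w
    · right
      refine ⟨hb, hgen b (mul_inv_eq_iff_eq_mul.mp hbw) fun v hv => ?_⟩
      exact Subgroup.mem_centralizer_iff.mp hv.2 b hb
    · left
      have h3 : b * w * b⁻¹ = a₀ * w * a₀⁻¹ := by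
        by_contra hne
        have h4 : ({w, b * w * b⁻¹, a₀ * w * a₀⁻¹} : Set G) ⊆ (W : Set G) \ (W₁ : Set G) := by
          rintro y (rfl | rfl | rfl)
          · exact ⟨hw, hw1⟩
          · exact hcj b hb
          · exact hcj a₀ ha₀
        have h5 := Set.ncard_le_ncard h4 (Set.toFinite _)
        rw [Set.ncard_eq_three.mpr ⟨_, _, _, Ne.symm hbw, Ne.symm ha₀w, hne, rfl⟩, hdiff] at h5
        omega
      refine ⟨A.mul_mem hb (A.inv_mem ha₀), hgen _ ?_ fun v hv => ?_⟩
      · have h4 : a₀⁻¹ * b * w = w * (a₀⁻¹ * b) := by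
          have h5 := congrArg (fun t => a₀⁻¹ * t * b) h3
          have h6 : a₀⁻¹ * (b * w * b⁻¹) * b = a₀⁻¹ * b * w := by group
          have h7 : a₀⁻¹ * (a₀ * w * a₀⁻¹) * b = w * (a₀⁻¹ * b) := by group
          simp only [h6, h7] at h5
          exact h5
        rw [hAc b hb _ (A.inv_mem ha₀)]
        exact h4
      · exact Subgroup.mem_centralizer_iff.mp hv.2 _ (A.mul_mem hb (A.inv_mem ha₀))
  have h3 := PGV.card_relIndex (Y := A) (X := A ⊓ Subgroup.centralizer (W : Set G)) inf_le_left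
  have h4 := Nat.le_of_dvd (by norm_num) hrel
  nlinarith [Nat.card_pos (α := ↥(A ⊓ Subgroup.centralizer (W : Set G)))]

theorem card_lt_four [Finite G] {W X : Subgroup G} (hW4 : Nat.card W = 4) (hX : X ≤ W) (hne : X ≠ W) : Nat.card X ≤ 2 := by
  have h3 : Nat.card X ∣ 4 := by rw [← hW4]; exact Subgroup.card_dvd_of_le hX
  have h4 : Nat.card X ≠ 4 := fun h => hne (Subgroup.eq_of_le_of_card_ge hX (by rw [hW4, h]))
  have h6 := Nat.le_of_dvd (by norm_num) h3
  interval_cases h7 : Nat.card X <;> omega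

theorem conj_mem_centralizer {W : Subgroup G} {k j : G} (hk : k ∈ Subgroup.normalizer (W : Set G))
    (hj : j ∈ Subgroup.centralizer (W : Set G)) : k * j * k⁻¹ ∈ Subgroup.centralizer (W : Set G) := by
  rw [Subgroup.mem_centralizer_iff]
  intro w hw
  have h1 : k⁻¹ * w * k ∈ W := by
    have := (Subgroup.mem_normalizer_iff.mp (Subgroup.inv_mem _ hk) w).mp hw
    rwa [inv_inv] at this
  have h2 := Subgroup.mem_centralizer_iff.mp hj _ h1
  calc w * (k * j * k⁻¹) = k * ((k⁻¹ * w * k) * j) * k⁻¹ := by group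
    _ = k * (j * (k⁻¹ * w * k)) * k⁻¹ := by rw [h2]
    _ = _ := by group

theorem eaIn_of_eq [Finite G] {S T : Subgroup G} (h : thompsonSubgroupOf 2 S = thompsonSubgroupOf 2 T)
    {A : Subgroup G} (hA : H2.EAIn 2 T A) : H2.EAIn 2 S A := by
  obtain ⟨B, hB⟩ := H2.exists_eaIn 2 S
  have h1 : B ≤ T := (hB.le_thompson.trans h.le).trans (H2.thompsonSubgroupOf_le 2 T)
  have h2 : A ≤ S := (hA.le_thompson.trans h.ge).trans (H2.thompsonSubgroupOf_le 2 S)
  exact hB.of_card_eq h2 hA.2.1 (hA.2.2 B h1 hB.2.1)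

theorem isSylowTwoIn_iff [Finite G] {S L : Subgroup G} : IsSylowTwoIn S L ↔ H23.IsSylowOf 2 S L := by
  haveI h2 : Fact (Nat.Prime 2) := ⟨Nat.prime_two⟩
  rw [H23.isSylowOf_iff]
  unfold IsSylowTwoIn
  rw [← even_iff_two_dvd, Nat.not_even_iff_odd]

section Comp

variable [Finite G] {T K : Subgroup G}

theorem comp_c3 (h : IsJComponent T K) : C3 K := ⟨by rw [← closure_odd]; exact h.1, h.2.2.1⟩

theorem comp_norm (h : IsJComponent T K) : thompsonSubgroupOf 2 T ≤ Subgroup.normalizer (K : Set G) :=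
  le_norm_of_com h.2.1.le

theorem comp_card (h : IsJComponent T K) : Nat.card (wOf K) = 4 := h.2.2.2.2.1

theorem comp_ne (h : IsJComponent T K) : wOf K ≠ ⊥ := by
  intro h1
  have := comp_card h
  rw [h1, Subgroup.card_bot] at this
  omega

theorem wOf_isPGroup (K : Subgroup G) : IsPGroup 2 (wOf K) :=
  (H18.isPGroup_pCoreOf (p := 2) K).to_le C3.wOf_le_R

theorem comp_not_le (h : IsJComponent T K) : ¬ thompsonSubgroupOf 2 T ≤ Subgroup.centralizer (wOf K : Set G) := by
  intro h1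
  have h2 : K ≤ Subgroup.centralizer (wOf K : Set G) := by
    have h3 : ⁅K, thompsonSubgroupOf 2 T⁆ ≤ Subgroup.centralizer (wOf K : Set G) := by
      rw [Subgroup.commutator_le]
      intro k hk j hj
      rw [commutatorElement_def]
      exact Subgroup.mul_mem _ (conj_mem_centralizer (C3.norm_wOf (Subgroup.le_normalizer hk)) (h1 hj))
        (Subgroup.inv_mem _ (h1 hj))
    rwa [h.2.1] at h3
  have h3 := (comp_c3 h).inf_centralizer (comp_ne h)
  rw [inf_eq_left.mpr h2] at h3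
  exact (comp_c3 h).ne_pcore h3.symm

theorem exists_not_le (h : IsJComponent T K) :
    ∃ A, H2.EAIn 2 T A ∧ ¬ A ≤ Subgroup.centralizer (wOf K : Set G) := by
  by_contra hcon
  push Not at hcon
  apply comp_not_le h
  rw [H2.thompsonSubgroupOf_eq]
  exact sSup_le fun A hA => hcon A hA

theorem J_isPGroup (hT : IsPGroup 2 T) : IsPGroup 2 (thompsonSubgroupOf 2 T) :=
  hT.to_le (H2.thompsonSubgroupOf_le 2 T)

theorem P_norm (h : IsJComponent T K) : K ⊔ thompsonSubgroupOf 2 T ≤ Subgroup.normalizer (K : Set G) :=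
  sup_le Subgroup.le_normalizer (comp_norm h)

theorem y_isPGroup (h : IsJComponent T K) (hT : IsPGroup 2 T) :
    IsPGroup 2 ↥((K ⊔ thompsonSubgroupOf 2 T) ⊓ Subgroup.centralizer (wOf K : Set G)) := by
  haveI h2 : Fact (Nat.Prime 2) := ⟨Nat.prime_two⟩
  rintro ⟨x, hx, hxc⟩
  have h1 := H18.pRes_sup_eq (J_isPGroup hT) (comp_norm h)
  rw [(comp_c3 h).odd] at h1
  obtain ⟨k, hk⟩ := H18.forall_pow_mem_of_pRes_le h1.le x hx
  have h3 : x ^ 2 ^ k ∈ K ⊓ Subgroup.centralizer (wOf K : Set G) := ⟨hk, Subgroup.pow_mem _ hxc _⟩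
  rw [(comp_c3 h).inf_centralizer (comp_ne h)] at h3
  obtain ⟨m, hm⟩ := H18.isPGroup_pCoreOf (p := 2) K ⟨_, h3⟩
  refine ⟨k + m, Subtype.ext ?_⟩
  show x ^ 2 ^ (k + m) = 1
  rw [pow_add, pow_mul]
  exact congrArg Subtype.val hm

/-- replacement -/
theorem star {W A S : Subgroup G} (hW4 : Nat.card W = 4) (hWe : IsElementaryAbelian 2 W) (hWS : W ≤ S)
    (hA : H2.EAIn 2 S A) (hAW : A ≤ Subgroup.normalizer (W : Set G))
    (hne : ¬ A ≤ Subgroup.centralizer (W : Set G)) :
    H2.EAIn 2 S (W ⊔ (A ⊓ Subgroup.centralizer (W : Set G))) := by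
  haveI h2 : Fact (Nat.Prime 2) := ⟨Nat.prime_two⟩
  have hcomm : ∀ x ∈ W, ∀ y ∈ A ⊓ Subgroup.centralizer (W : Set G), x * y = y * x := by
    intro x hx y hy
    exact Subgroup.mem_centralizer_iff.mp hy.2 x hx
  have hE : IsElementaryAbelian 2 (W ⊔ (A ⊓ Subgroup.centralizer (W : Set G))) :=
    H2.isElementaryAbelian_sup hWe (H18.isElementaryAbelian_mono hA.2.1 inf_le_left) hcomm
  refine hA.of_card_eq (sup_le hWS (inf_le_left.trans hA.1)) hE ?_
  have h1 := H2.card_sup_mul_card_inf_of_comm hcomm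
  have hAp := H20.IsElementaryAbelian.isPGroup hA.2.1
  have h3 := index_le_two hW4 hAp (FF.EAIn_comm hA) (H20.IsElementaryAbelian.isPGroup hWe) hAW
  have h4 : Nat.card ↥(W ⊓ (A ⊓ Subgroup.centralizer (W : Set G))) ≤ 2 := by
    apply card_lt_four hW4 inf_le_left
    intro h5
    apply hne
    intro a ha
    rw [Subgroup.mem_centralizer_iff]
    intro w hw
    rw [SetLike.mem_coe, ← h5] at hw
    exact FF.EAIn_comm hA w hw.2.1 a ha
  rw [hW4] at h1
  nlinarith [Nat.card_pos (α := ↥(A ⊓ Subgroup.centralizer (W : Set G)))]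

end Comp

end Cfsg.Agent.H19.JC
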