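import Cfsg.Agent.H19.JC12
import Cfsg.Agent.S2943
import Cfsg.Agent.S2946
import Cfsg.Agent.S2949

set_option autoImplicit false
set_option linter.style.haveILetI false
set_option linter.unusedVariables false
set_option linter.unusedSectionVars false

/-! `J(T)`-components, part 13: components with a unique maximal 2-local overgroup. -/

namespace Cfsg.Agent.H19.JC

open Cfsg Cfsg.Agent.H19.PGV Cfsg.Agent.H19.FF Cfsg.Agent.H19.FF.FFS
open scoped commutatorElement

variable {G : Type*} [Group G] [Finite G]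

/-- conjugate subgroup -/
abbrev cg {G : Type*} [Group G] (x : G) (H : Subgroup G) : Subgroup G := H.map (MulAut.conj x).toMonoidHom

theorem mem_cg {x g : G} {H : Subgroup G} : g ∈ cg x H ↔ x⁻¹ * g * x ∈ H := H2.mem_map_conj

theorem cg_mem {x g : G} {H : Subgroup G} (hg : g ∈ H) : x * g * x⁻¹ ∈ cg x H := ⟨g, hg, rfl⟩

theorem cg_eq {x : G} {H : Subgroup G} (hx : x ∈ Subgroup.normalizer (H : Set G)) : cg x H = H :=
  H18.mem_normalizer_iff_map.mp hx

theorem cg_mono {x : G} {H K : Subgroup G} (h : H ≤ K) : cg x H ≤ cg x K := Subgroup.map_mono h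

theorem cg_mul (a b : G) (H : Subgroup G) : cg (a * b) H = cg a (cg b H) := H2.map_conj_mul H a b

theorem cg_one (H : Subgroup G) : cg 1 H = H := H2.map_conj_one H

theorem cg_inv {x : G} {H : Subgroup G} : cg x⁻¹ (cg x H) = H := by
  rw [← cg_mul, inv_mul_cancel, cg_one]

theorem cg_inv' {x : G} {H : Subgroup G} : cg x (cg x⁻¹ H) = H := by
  rw [← cg_mul, mul_inv_cancel, cg_one]

theorem thompson_cg (x : G) (T : Subgroup G) : thompsonSubgroupOf 2 (cg x T) = cg x (thompsonSubgroupOf 2 T) :=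
  H2.thompsonSubgroupOf_map_conj T x

theorem card_cg (x : G) (H : Subgroup G) : Nat.card (cg x H) = Nat.card H := H2.card_map_inj (MulAut.conj x).injective H

theorem two_local_cg {Λ : Subgroup G} (h : IsTwoLocal Λ) (x : G) : IsTwoLocal (cg x Λ) := by
  obtain ⟨R, hR, hR1, rfl⟩ := h
  refine ⟨cg x R, hR.map _, ?_, (norm_conj x).symm⟩
  intro h1
  apply hR1
  rw [← cg_inv (x := x) (H := R)]
  show (cg x R).map _ = ⊥
  rw [h1, Subgroup.map_bot]

theorem cent_norm {y : G} (hy : y ^ 2 = 1) :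
    Subgroup.centralizer ({y} : Set G) = Subgroup.normalizer ((Subgroup.zpowers y : Subgroup G) : Set G) := by
  have hmem : ∀ z ∈ Subgroup.zpowers y, z = 1 ∨ z = y := by
    rintro _ ⟨n, rfl⟩
    rcases Int.even_or_odd' n with ⟨m, rfl | rfl⟩
    · left
      show y ^ (2 * m) = 1
      rw [zpow_mul]
      have : y ^ (2 : ℤ) = 1 := by exact_mod_cast hy
      rw [this, one_zpow]
    · right
      show y ^ (2 * m + 1) = y
      rw [zpow_add, zpow_mul]
      have : y ^ (2 : ℤ) = 1 := by exact_mod_cast hy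
      rw [this, one_zpow, one_mul, zpow_one]
  apply le_antisymm
  · intro c hc
    have hc' := Subgroup.mem_centralizer_singleton_iff.mp hc
    apply mem_norm_of_le
    intro z hz
    rcases hmem z hz with rfl | rfl
    · rw [mul_one, mul_inv_cancel]; exact Subgroup.one_mem _
    · have : c * z * c⁻¹ = z := by rw [hc']; group
      rw [this]; exact hz
  · intro c hc
    rw [Subgroup.mem_centralizer_singleton_iff]
    have h1 := (Subgroup.mem_normalizer_iff.mp hc y).mp (Subgroup.mem_zpowers y)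
    rcases hmem _ h1 with h3 | h3
    · have h4 : y = 1 := by
        have := congrArg (fun t => c⁻¹ * t * c) h3
        simpa [mul_assoc] using this
      rw [h4]; group
    · calc c * y = (c * y * c⁻¹) * c := by group
        _ = y * c := by rw [h3]

theorem cent_local {y : G} (hy : y ^ 2 = 1) (hy1 : y ≠ 1) : IsTwoLocal (Subgroup.centralizer ({y} : Set G)) := by
  refine ⟨Subgroup.zpowers y, ?_, ?_, cent_norm hy⟩
  · rw [IsPGroup.iff_card, Nat.card_zpowers]
    exact ⟨_, ((Nat.dvd_prime_pow Nat.prime_two (m := 1)).mp (by rw [pow_one]; exact orderOf_dvd_of_pow_eq_one hy)).choose_spec.2⟩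
  · intro h
    apply hy1
    rw [← Subgroup.mem_bot, ← h]
    exact Subgroup.mem_zpowers y

theorem card_le_two_mul {A B : Subgroup G} (hBA : B ≤ A) (h : ∀ u ∈ A, ∀ v ∈ A, u ∉ B → v ∉ B → u * v ∈ B) :
    Nat.card A ≤ 2 * Nat.card B := by
  classical
  by_cases hAB : A ≤ B
  · rw [le_antisymm hAB hBA]; omega
  · obtain ⟨u, hu, huB⟩ := Set.not_subset.mp hAB
    let f : A → B × Bool := fun v => if hv : v.1 ∈ B then (⟨v.1, hv⟩, true) else (⟨u * v.1, h u hu v.1 v.2 huB hv⟩, false)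
    have hf : Function.Injective f := by
      intro v w hvw
      by_cases hv : v.1 ∈ B <;> by_cases hw : w.1 ∈ B
      · simp only [f, hv, hw, dif_pos, Prod.mk.injEq, and_true, Subtype.mk.injEq] at hvw
        exact Subtype.ext hvw
      · simp [f, hv, hw] at hvw
      · simp [f, hv, hw] at hvw
      · simp only [f, hv, hw, dif_neg, not_false_eq_true, Prod.mk.injEq, and_true, Subtype.mk.injEq] at hvw
        exact Subtype.ext (mul_left_cancel hvw)
    have h1 := Nat.card_le_card_of_injective f hf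
    rw [Nat.card_prod] at h1
    have h3 : Nat.card Bool = 2 := by simp
    rw [h3] at h1
    omega

/-- `Ω₁(Z(J(T)))` -/
abbrev Zz {G : Type*} [Group G] (T : Subgroup G) : Subgroup G := omegaCenterOf (thompsonSubgroupOf 2 T)

theorem oz_le_Zz (T : Subgroup G) : omegaCenterOf T ≤ Zz T := by
  intro z hz
  rw [mem_oz] at hz ⊢
  obtain ⟨A, hA⟩ := H2.exists_eaIn 2 T
  have h1 : z ∈ A := hA.mem_of_centralize hz.1 hz.2.2 fun a ha => hz.2.1 a (hA.1 ha)
  exact ⟨hA.le_thompson h1, fun s hs => hz.2.1 s (H2.thompsonSubgroupOf_le 2 T hs), hz.2.2⟩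

theorem cent_J_le {T : Subgroup G} {v : G} (hvT : v ∈ T) (hv2 : v ^ 2 = 1)
    (hc : ∀ j ∈ thompsonSubgroupOf 2 T, j * v = v * j) : v ∈ Zz T := by
  rw [mem_oz]
  obtain ⟨A, hA⟩ := H2.exists_eaIn 2 T
  have h1 : v ∈ A := hA.mem_of_centralize hvT hv2 fun a ha => hc a (hA.le_thompson ha)
  exact ⟨hA.le_thompson h1, hc, hv2⟩

theorem conj_Zz {T : Subgroup G} {x w : G} (hx : x ∈ Subgroup.normalizer (thompsonSubgroupOf 2 T : Set G)) (hw : w ∈ Zz T) :
    x * w * x⁻¹ ∈ Zz T := (Subgroup.mem_normalizer_iff.mp (norm_oz _ hx) w).mp hw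

/-- a fixed point -/
theorem exists_fixed {P Q : Subgroup G} (hP : IsPGroup 2 P) (hQ : IsPGroup 2 Q) (h1 : P ≠ ⊥)
    (hn : Q ≤ Subgroup.normalizer (P : Set G)) : ∃ z ∈ P, z ≠ 1 ∧ ∀ n ∈ Q, n * z = z * n := by
  haveI h2 : Fact (Nat.Prime 2) := ⟨Nat.prime_two⟩
  have htop : ∀ X : Subgroup G, X ≤ Subgroup.normalizer ((⊥ : Subgroup G) : Set G) := by
    intro X
    rw [Subgroup.normalizer_eq_top_iff.mpr inferInstance]; exact le_top
  obtain ⟨z, hz, hz1, hzc⟩ := exists_fixed_mod hP hQ (bot_lt_iff_ne_bot.mpr h1) (htop P) hn (htop Q)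
  refine ⟨z, hz, hz1, fun n hn => ?_⟩
  have h3 := Subgroup.mem_bot.mp (hzc n hn)
  exact mul_inv_eq_iff_eq_mul.mp (inv_mul_eq_one.mp h3).symm

theorem oz_ne_bot {S : Subgroup G} (hS : IsPGroup 2 S) (hS1 : S ≠ ⊥) : omegaCenterOf S ≠ ⊥ := by
  haveI h2 : Fact (Nat.Prime 2) := ⟨Nat.prime_two⟩
  obtain ⟨z, hz, hz1, hzc⟩ := exists_fixed hS hS hS1 Subgroup.le_normalizer
  obtain ⟨n, hn⟩ := hS ⟨z, hz⟩
  have hn' : z ^ 2 ^ n = 1 := congrArg Subtype.val hn
  have hex : ∃ m, z ^ 2 ^ m = 1 := ⟨n, hn'⟩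
  classical
  have hm := Nat.find_spec hex
  have hm0 : Nat.find hex ≠ 0 := by
    intro h0
    rw [h0, pow_zero, pow_one] at hm
    exact hz1 hm
  obtain ⟨m, hm'⟩ := Nat.exists_eq_succ_of_ne_zero hm0
  rw [hm'] at hm
  have hlt : z ^ 2 ^ m ≠ 1 := Nat.find_min hex (by omega)
  intro h
  apply hlt
  rw [← Subgroup.mem_bot, ← h, mem_oz]
  refine ⟨S.pow_mem hz _, fun s hs => ?_, ?_⟩
  · have h1 : Commute s z := hzc s hs
    exact h1.pow_right _
  · rw [← pow_mul, ← pow_succ]; exact hm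

section comp

variable (hG : HG G) {T K : Subgroup G} (hT2 : IsPGroup 2 T) (hT1 : T ≠ ⊥) (hK : IsJComponent T K)
include hG hT2 hT1 hK

theorem exists_x0 : ∃ x₀ ∈ Zz T ⊓ wOf K, x₀ ≠ 1 ∧ ∀ v ∈ Zz T,
    v ∈ Subgroup.centralizer (K : Set G) ∨ v * x₀ ∈ Subgroup.centralizer (K : Set G) := by
  obtain ⟨h1', h3'⟩ := S2946.result hG.cha hG.solv hG.zed T hT2 hT1 K hK _ rfl
  have h1 : Nat.card ↥(Zz T ⊓ wOf K) = 2 := h1'
  have h3 : (Zz T ⊓ ((K ⊔ thompsonSubgroupOf 2 T) ⊓ Subgroup.centralizer ((K : Set G) ⊔ (thompsonSubgroupOf 2 T : Set G)))) ⊔ (Zz T ⊓ wOf K) = Zz T := h3'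
  have hne : Zz T ⊓ wOf K ≠ ⊥ := by
    intro h; rw [h, Subgroup.card_bot] at h1; omega
  obtain ⟨⟨x₀, hx₀⟩, hx1⟩ := Subgroup.ne_bot_iff_exists_ne_one.mp hne
  have hx1' : x₀ ≠ 1 := fun h => hx1 (Subtype.ext h)
  have huniq : ∀ x ∈ Zz T ⊓ wOf K, x = 1 ∨ x = x₀ := by
    intro x hx
    by_contra hcon
    push Not at hcon
    have h4 : 3 ≤ Nat.card ↥(Zz T ⊓ wOf K) := by
      let f : Fin 3 → ↥(Zz T ⊓ wOf K) := ![1, ⟨x₀, hx₀⟩, ⟨x, hx⟩]
      have hf : Function.Injective f := by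
        intro i j hij
        fin_cases i <;> fin_cases j <;> simp [f, Subtype.ext_iff] at hij ⊢
        · exact hx1' hij.symm
        · exact hcon.1 hij.symm
        · exact hx1' hij
        · exact hcon.2 hij.symm
        · exact hcon.1 hij
        · exact hcon.2 hij
      have := Nat.card_le_card_of_injective f hf
      simpa using this
    omega
  refine ⟨x₀, hx₀, hx1', fun v hv => ?_⟩
  rw [← h3] at hv
  have hn : Zz T ⊓ wOf K ≤ Subgroup.normalizer ((Zz T ⊓ ((K ⊔ thompsonSubgroupOf 2 T) ⊓ Subgroup.centralizer ((K : Set G) ⊔ (thompsonSubgroupOf 2 T : Set G))) : Subgroup G) : Set G) := by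
    intro c hc
    apply mem_norm_of_le
    intro u hu
    have hcu : c * u * c⁻¹ = u := by
      have h5 := (mem_oz.mp hu.1).2.1 c (mem_oz.mp hc.1).1
      rw [h5]; group
    rw [hcu]; exact hu
  rw [sup_comm, H18.mem_sup_iff_of_le_normalizer' hn] at hv
  obtain ⟨u, hu, x, hx, rfl⟩ := hv
  have huc : u ∈ Subgroup.centralizer (K : Set G) := by
    rw [Subgroup.mem_centralizer_iff]
    intro k hk
    exact Subgroup.mem_centralizer_iff.mp hu.2.2 k (Or.inl hk)
  rcases huniq x hx with rfl | rfl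
  · left; rwa [mul_one]
  · right
    have : x ^ 2 = 1 := (mem_oz.mp hx.1).2.2
    rw [mul_assoc, ← pow_two, this, mul_one]
    exact huc

theorem mul_cent {u v : G} (hu : u ∈ Zz T) (hv : v ∈ Zz T) (huK : u ∉ Subgroup.centralizer (K : Set G))
    (hvK : v ∉ Subgroup.centralizer (K : Set G)) : u * v ∈ Subgroup.centralizer (K : Set G) := by
  obtain ⟨x₀, hx₀, -, h⟩ := exists_x0 hG hT2 hT1 hK
  have h1 := (h u hu).resolve_left huK
  have h3 := (h v hv).resolve_left hvK
  have h4 := Subgroup.mul_mem _ h1 h3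
  have hx2 : x₀ * x₀ = 1 := by rw [← pow_two]; exact (mem_oz.mp hx₀.1).2.2
  have h5 : x₀ * v = v * x₀ := (mem_oz.mp hv).2.1 x₀ (mem_oz.mp hx₀.1).1
  have e : u * x₀ * (v * x₀) = u * v := by
    calc u * x₀ * (v * x₀) = u * (x₀ * v) * x₀ := by group
      _ = u * v * (x₀ * x₀) := by rw [h5]; group
      _ = u * v := by rw [hx2, mul_one]
  rwa [e] at h4

theorem card_Zz_le : Nat.card (Zz T) ≤ 2 * Nat.card ↥(Zz T ⊓ Subgroup.centralizer (K : Set G)) := by
  apply card_le_two_mul inf_le_left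
  intro u hu v hv huB hvB
  refine ⟨(Zz T).mul_mem hu hv, mul_cent hG hT2 hT1 hK hu hv ?_ ?_⟩
  · exact fun h => huB ⟨hu, h⟩
  · exact fun h => hvB ⟨hv, h⟩

end comp

theorem comp_not_pgroup {T K : Subgroup G} (hK : IsJComponent T K) {P : Subgroup G} (hP : IsPGroup 2 P) (hKP : K ≤ P) : False := by
  haveI h2 : Fact (Nat.Prime 2) := ⟨Nat.prime_two⟩
  apply (comp_c3 hK).ne_pcore
  exact le_antisymm (H18.pCoreOf_le K) (H18.le_pCoreOf le_rfl Subgroup.le_normalizer (hP.to_le hKP))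

theorem zarg (hG : HG G) {S : Subgroup G} (hS : H23.IsSylowOf 2 S ⊤) {T K : Subgroup G} (hT2 : IsPGroup 2 T)
    (hK : IsJComponent T K) (h1 : K ≤ Subgroup.centralizer (omegaCenterOf S : Set G))
    (h3 : thompsonSubgroupOf 2 T ≤ Subgroup.centralizer (omegaCenterOf S : Set G)) : False := by
  haveI h2 : Fact (Nat.Prime 2) := ⟨Nat.prime_two⟩
  obtain ⟨S', hS'⟩ := JK.exists_sylow hS
  have hz := hG.zed S'
  rw [hS'] at hz
  have hKN := h1.trans hz
  have hJN := h3.trans hz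
  have hJS : thompsonSubgroupOf 2 T ≤ S := by
    have h4 : IsPGroup 2 (S ⊔ thompsonSubgroupOf 2 T : Subgroup G) := by
      rw [sup_comm]
      exact H18.isPGroup_sup_of_le_normalizer (J_isPGroup hT2) hS.isPGroup hJN
    have h5 := IsSylowOf.eq_of_le hS (Q := S ⊔ thompsonSubgroupOf 2 T) le_sup_left le_top h4
    exact le_sup_right.trans h5.le
  apply comp_not_pgroup hK hS.isPGroup
  have h6 : ⁅K, thompsonSubgroupOf 2 T⁆ ≤ S := by
    rw [Subgroup.commutator_le]
    intro k hk j hj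
    rw [commutatorElement_def]
    exact S.mul_mem ((Subgroup.mem_normalizer_iff.mp (hKN hk) j).mp (hJS hj)) (S.inv_mem (hJS hj))
  rwa [hK.2.1] at h6

/-- a component with a unique maximal 2-local overgroup -/
structure UQ (T K L : Subgroup G) : Prop where
  comp : IsJComponent T K
  loc : IsTwoLocal L
  KL : K ≤ L
  syl : H23.IsSylowOf 2 T L
  uniq : ∀ Λ : Subgroup G, IsTwoLocal Λ → K ≤ Λ → thompsonSubgroupOf 2 T ≤ Λ → Λ ≤ L

namespace UQ

variable {T K L : Subgroup G}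

theorem T2 (hu : UQ T K L) : IsPGroup 2 T := hu.syl.isPGroup

theorem TL (hu : UQ T K L) : T ≤ L := hu.syl.le

theorem T1 (hu : UQ T K L) : T ≠ ⊥ := by
  rintro rfl
  apply comp_not_pgroup hu.comp (IsPGroup.of_bot (p := 2) (G := G))
  have h1 := hu.comp.2.1
  have h3 : thompsonSubgroupOf 2 (⊥ : Subgroup G) = ⊥ := le_bot_iff.mp (H2.thompsonSubgroupOf_le 2 _)
  rw [h3, Subgroup.commutator_bot_right] at h1
  exact h1.ge

theorem JL (hu : UQ T K L) : thompsonSubgroupOf 2 T ≤ L := (H2.thompsonSubgroupOf_le 2 T).trans hu.TL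

theorem cg (hu : UQ T K L) (x : G) : UQ (JC.cg x T) (JC.cg x K) (JC.cg x L) where
  comp := comp_conj hu.comp x
  loc := two_local_cg hu.loc x
  KL := cg_mono hu.KL
  syl := isSylowOf_conj hu.syl x
  uniq := by
    intro Λ hΛ h1 h3
    rw [thompson_cg] at h3
    have h4 := hu.uniq (JC.cg x⁻¹ Λ) (two_local_cg hΛ _) (by
      have := cg_mono (x := x⁻¹) h1
      rwa [cg_inv] at this) (by
      have := cg_mono (x := x⁻¹) h3
      rwa [cg_inv] at this)
    have := cg_mono (x := x) h4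
    rwa [cg_inv'] at this

theorem core_le (hu : UQ T K L) : pCoreOf 2 L ≤ T := by
  haveI h2 : Fact (Nat.Prime 2) := ⟨Nat.prime_two⟩
  obtain ⟨S', hS'⟩ := hu.syl
  rw [← hS']
  exact Subgroup.map_mono (H18.pCore_le_sylow S')

theorem cent_core (hG : HG G) (hu : UQ T K L) : Subgroup.centralizer (pCoreOf 2 L : Set G) ≤ pCoreOf 2 L :=
  two_local_char hG hu.loc

theorem core_ne (hG : HG G) (hu : UQ T K L) : pCoreOf 2 L ≠ ⊥ := ne_bot_of hu.T1 (hu.cent_core hG)

/-- the centralizer of `T` lies in `T` -/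
theorem cent_T (hG : HG G) (hu : UQ T K L) : Subgroup.centralizer (T : Set G) ≤ T :=
  ((Subgroup.centralizer_le (show ((pCoreOf 2 L : Subgroup G) : Set G) ⊆ T from hu.core_le)).trans (hu.cent_core hG)).trans hu.core_le

theorem mem_oz_of (hG : HG G) (hu : UQ T K L) {w : G} (hw : w ^ 2 = 1) (hc : ∀ t ∈ T, t * w = w * t) : w ∈ omegaCenterOf T := by
  rw [mem_oz]
  refine ⟨hu.cent_T hG ?_, hc, hw⟩
  rw [Subgroup.mem_centralizer_iff]
  exact fun t ht => hc t ht

theorem oz_S_le (hG : HG G) (hu : UQ T K L) {S : Subgroup G} (hTS : T ≤ S) : omegaCenterOf S ≤ omegaCenterOf T := by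
  intro z hz
  rw [mem_oz] at hz
  exact hu.mem_oz_of hG hz.2.2 fun t ht => hz.2.1 t (hTS ht)

/-- the core of `L` is not bigger than `J`-free -/
theorem not_J_le (hu : UQ T K L) : ¬ thompsonSubgroupOf 2 T ≤ pCoreOf 2 L := by
  intro h
  apply comp_not_pgroup hu.comp (H18.isPGroup_pCoreOf (p := 2) L)
  have h6 : ⁅K, thompsonSubgroupOf 2 T⁆ ≤ pCoreOf 2 L := by
    rw [Subgroup.commutator_le]
    intro k hk j hj
    rw [commutatorElement_def]
    exact Subgroup.mul_mem _ ((Subgroup.mem_normalizer_iff.mp (H18.le_normalizer_pCoreOf (p := 2) L (hu.KL hk)) j).mp (h hj))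
      (Subgroup.inv_mem _ (h hj))
  rwa [hu.comp.2.1] at h6

theorem jover (hG : HG G) (hu : UQ T K L) : L ∈ jOvergroups T :=
  ⟨isSylowTwoIn_iff.mpr hu.syl, hu.not_J_le, hu.cent_core hG⟩

theorem max (hu : UQ T K L) : IsMaximalTwoLocal L :=
  ⟨hu.loc, fun N hN hLN => le_antisymm (hu.uniq N hN (hu.KL.trans hLN) (hu.JL.trans hLN)) hLN⟩

theorem norm_le (hG : HG G) (hu : UQ T K L) : Subgroup.normalizer (L : Set G) ≤ L := by
  refine (H18.normalizer_le_normalizer_pCoreOf (p := 2) L).trans ?_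
  have h1 : L ≤ Subgroup.normalizer (pCoreOf 2 L : Set G) := H18.le_normalizer_pCoreOf L
  exact hu.uniq _ ⟨_, H18.isPGroup_pCoreOf L, hu.core_ne hG, rfl⟩ (hu.KL.trans h1) (hu.JL.trans h1)

theorem eq_of_le (hu : UQ T K L) {Λ : Subgroup G} (hu' : ∀ Λ', IsTwoLocal Λ' → L ≤ Λ' → Λ' ≤ Λ) : L ≤ Λ := hu' L hu.loc le_rfl

/-- conjugation by `x ∈ N(J(T))` moving `K` into `L` -/
theorem mem_of_conj (hG : HG G) (hu : UQ T K L) {x : G} (hx : x ∈ Subgroup.normalizer (thompsonSubgroupOf 2 T : Set G))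
    (hKx : JC.cg x K ≤ L) : x ∈ L := by
  have h1 := (hu.cg x).uniq L hu.loc hKx (by
    rw [thompson_cg, cg_eq hx]
    exact hu.JL)
  have h3 : JC.cg x L = L := by
    refine (Subgroup.eq_of_le_of_card_ge h1 ?_).symm
    rw [H2.card_map_inj (MulAut.conj x).injective]
  exact hu.norm_le hG (H18.mem_normalizer_iff_map.mpr h3)

theorem cent_le (hG : HG G) (hu : UQ T K L) {y : G} (hy : y ∈ Zz T) (hy1 : y ≠ 1)
    (hyK : y ∈ Subgroup.centralizer (K : Set G)) : Subgroup.centralizer ({y} : Set G) ≤ L := by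
  have hy' := mem_oz.mp hy
  apply hu.uniq _ (cent_local hy'.2.2 hy1)
  · intro k hk
    rw [Subgroup.mem_centralizer_singleton_iff]
    exact Subgroup.mem_centralizer_iff.mp hyK k hk
  · intro j hj
    rw [Subgroup.mem_centralizer_singleton_iff]
    exact hy'.2.1 j hj

theorem inter (hG : HG G) (hu : UQ T K L) {x : G} (hx : x ∈ Subgroup.normalizer (thompsonSubgroupOf 2 T : Set G))
    {y : G} (hy : y ∈ Zz T) (hy1 : y ≠ 1)
    (hyK : y ∈ Subgroup.centralizer (K : Set G)) (hyKx : y ∈ Subgroup.centralizer (JC.cg x K : Set G)) : x ∈ L := by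
  apply hu.mem_of_conj hG hx
  refine le_trans ?_ (hu.cent_le hG hy hy1 hyK)
  intro k hk
  rw [Subgroup.mem_centralizer_singleton_iff]
  exact Subgroup.mem_centralizer_iff.mp hyKx k hk

end UQ

/-- consequences of a "pair" -/
theorem card_four (hG : HG G) {T K K₂ : Subgroup G} (hT2 : IsPGroup 2 T) (hT1 : T ≠ ⊥) (hK : IsJComponent T K)
    (h1 : ∀ y ∈ Zz T, y ≠ 1 → y ∈ Subgroup.centralizer (K : Set G) → y ∈ Subgroup.centralizer (K₂ : Set G) → False)
    (hK₂ : IsJComponent T K₂) : Nat.card (Zz T) ≤ 4 := by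
  set A := Zz T ⊓ Subgroup.centralizer (K : Set G) with hA
  set B := Zz T ⊓ Subgroup.centralizer (K₂ : Set G) with hB
  have h3 : Nat.card (Zz T) ≤ 2 * Nat.card A := card_Zz_le hG hT2 hT1 hK
  have h4 : Nat.card (Zz T) ≤ 2 * Nat.card B := card_Zz_le hG hT2 hT1 hK₂
  have h5 : Nat.card A * Nat.card B ≤ Nat.card (Zz T) := by
    let f : A × B → Zz T := fun p => ⟨p.1.1 * p.2.1, (Zz T).mul_mem p.1.2.1 p.2.2.1⟩
    have hf : Function.Injective f := by
      rintro ⟨a, b⟩ ⟨a', b'⟩ hab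
      have hab' : a.1 * b.1 = a'.1 * b'.1 := congrArg Subtype.val hab
      have h6 : a'.1⁻¹ * a.1 = b'.1 * b.1⁻¹ := by
        rw [inv_mul_eq_iff_eq_mul, ← mul_assoc, eq_mul_inv_iff_mul_eq]; exact hab'
      have h7 : a'.1⁻¹ * a.1 = 1 := by
        by_contra hne
        have hm := A.mul_mem (A.inv_mem a'.2) a.2
        have hm' : a'.1⁻¹ * a.1 ∈ B := by rw [h6]; exact B.mul_mem b'.2 (B.inv_mem b.2)
        exact h1 _ hm.1 hne hm.2 hm'.2
      have h8 : a = a' := Subtype.ext (inv_mul_eq_one.mp h7).symm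
      rw [h7] at h6
      have h9 : b = b' := Subtype.ext (mul_inv_eq_one.mp h6.symm).symm
      rw [h8, h9]
    have := Nat.card_le_card_of_injective f hf
    rwa [Nat.card_prod] at this
  have hA1 : 0 < Nat.card A := Nat.card_pos
  have hB1 : 0 < Nat.card B := Nat.card_pos
  nlinarith

theorem cent_all (hG : HG G) {T K K₂ : Subgroup G} (hT2 : IsPGroup 2 T) (hT1 : T ≠ ⊥) (hK : IsJComponent T K)
    (hK₂ : IsJComponent T K₂)
    (h1 : ∀ y ∈ Zz T, y ≠ 1 → y ∈ Subgroup.centralizer (K : Set G) → y ∈ Subgroup.centralizer (K₂ : Set G) → False)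
    (h3 : ∀ t ∈ T, ∀ w ∈ Zz T, w ≠ 1 → w ∈ Subgroup.centralizer (K : Set G) →
      t * w * t⁻¹ ∈ Subgroup.centralizer (K₂ : Set G) → False)
    {z : G} (hz : z ∈ omegaCenterOf T) (hzK : z ∉ Subgroup.centralizer (K : Set G))
    (hzK₂ : z ∉ Subgroup.centralizer (K₂ : Set G)) : omegaCenterOf T = Zz T := by
  have hzZ := oz_le_Zz T hz
  have hz' := mem_oz.mp hz
  have hz2 : z * z = 1 := by rw [← pow_two]; exact hz'.2.2
  have hzw : ∀ w ∈ Zz T, z * w = w * z := fun w hw => (mem_oz.mp hw).2.1 z (mem_oz.mp hzZ).1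
  have hN : T ≤ Subgroup.normalizer (thompsonSubgroupOf 2 T : Set G) :=
    Subgroup.le_normalizer.trans (H2.normalizer_le_normalizer_thompson T)
  -- w in C(K) implies wz in C(K₂)
  have key : ∀ w ∈ Zz T, w ≠ 1 → w ∈ Subgroup.centralizer (K : Set G) → w * z ∈ Subgroup.centralizer (K₂ : Set G) := by
    intro w hw hw1 hwK
    apply mul_cent hG hT2 hT1 hK₂ hw hzZ _ hzK₂
    exact fun h => h1 w hw hw1 hwK h
  -- case w ∈ C(K)
  have main : ∀ t ∈ T, ∀ w ∈ Zz T, w ∈ Subgroup.centralizer (K : Set G) → t * w * t⁻¹ = w := by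
    intro t ht w hw hwK
    by_cases hw1 : w = 1
    · rw [hw1]; group
    have hw' := conj_Zz (hN ht) hw
    have hw'1 : t * w * t⁻¹ ≠ 1 := by
      intro h; apply hw1
      have := congrArg (fun s => t⁻¹ * s * t) h
      simpa [mul_assoc] using this
    have hw2 : w * w = 1 := by rw [← pow_two]; exact (mem_oz.mp hw).2.2
    by_cases hw'K : t * w * t⁻¹ ∈ Subgroup.centralizer (K : Set G)
    · have h5 := Subgroup.mul_mem _ (key _ hw' hw'1 hw'K) (key w hw hw1 hwK)
      have e : t * w * t⁻¹ * z * (w * z) = t * w * t⁻¹ * w := by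
        calc t * w * t⁻¹ * z * (w * z) = t * w * t⁻¹ * (z * w) * z := by group
          _ = t * w * t⁻¹ * w * (z * z) := by rw [hzw w hw]; group
          _ = _ := by rw [hz2, mul_one]
      rw [e] at h5
      by_contra hne
      refine h1 (t * w * t⁻¹ * w) ((Zz T).mul_mem hw' hw) ?_ (Subgroup.mul_mem _ hw'K hwK) h5
      intro h6
      apply hne
      calc t * w * t⁻¹ = t * w * t⁻¹ * w * w := by rw [mul_assoc _ w w, hw2, mul_one]
        _ = w := by rw [h6, one_mul]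
    · exfalso
      have h5 : t * w * t⁻¹ * z ∈ Subgroup.centralizer (K : Set G) := mul_cent hG hT2 hT1 hK hw' hzZ hw'K hzK
      have h6 : t * w * t⁻¹ * z ≠ 1 := by
        intro h6
        apply hzK
        have h7 : t * w * t⁻¹ = z := by
          calc t * w * t⁻¹ = t * w * t⁻¹ * z * z := by rw [mul_assoc _ z z, hz2, mul_one]
            _ = z := by rw [h6, one_mul]
        have h8 : w = z := by
          calc w = t⁻¹ * (t * w * t⁻¹) * t := by group
            _ = t⁻¹ * (z * t) := by rw [h7]; group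
            _ = z := by rw [← hz'.2.1 t ht]; group
        rw [← h8]; exact hwK
      have h7 := key _ ((Zz T).mul_mem hw' hzZ) h6 h5
      rw [mul_assoc _ z z, hz2, mul_one] at h7
      exact h3 t ht w hw hw1 hwK h7
  apply le_antisymm (oz_le_Zz T)
  intro w hw
  rw [mem_oz]
  refine ⟨H2.thompsonSubgroupOf_le 2 T (mem_oz.mp hw).1, ?_, (mem_oz.mp hw).2.2⟩
  intro t ht
  by_cases hwK : w ∈ Subgroup.centralizer (K : Set G)
  · have := main t ht w hw hwK
    exact mul_inv_eq_iff_eq_mul.mp this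
  · have h5 := main t ht (w * z) ((Zz T).mul_mem hw hzZ) (mul_cent hG hT2 hT1 hK hw hzZ hwK hzK)
    have h6 : t * z = z * t := hz'.2.1 t ht
    have e : t * (w * z) * t⁻¹ = t * w * t⁻¹ * z := by
      calc t * (w * z) * t⁻¹ = t * w * t⁻¹ * (t * z) * t⁻¹ := by group
        _ = _ := by rw [h6]; group
    rw [e] at h5
    exact mul_inv_eq_iff_eq_mul.mp (mul_right_cancel h5)

end Cfsg.Agent.H19.JC
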