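import Cfsg.Agent.H19.JC13
import Cfsg.Agent.H4.Isolated

set_option autoImplicit false
set_option linter.style.haveILetI false
set_option linter.unusedVariables false
set_option linter.unusedSectionVars false

/-! `J(T)`-components, part 14: pairs of components. -/

namespace Cfsg.Agent.H19.JC

open Cfsg Cfsg.Agent.H19.PGV Cfsg.Agent.H19.FF Cfsg.Agent.H19.FF.FFS
open scoped commutatorElement

variable {G : Type*} [Group G] [Finite G]

theorem exists_z_of (hG : HG G) {S : Subgroup G} (hS : H23.IsSylowOf 2 S ⊤) {T K : Subgroup G} (hT2 : IsPGroup 2 T)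
    (hK : IsJComponent T K) (h3 : thompsonSubgroupOf 2 T ≤ S) :
    ∃ z ∈ omegaCenterOf S, z ∉ Subgroup.centralizer (K : Set G) := by
  by_contra hcon
  push Not at hcon
  apply zarg hG hS hT2 hK
  · intro k hk
    rw [Subgroup.mem_centralizer_iff]
    intro z hz
    exact (Subgroup.mem_centralizer_iff.mp (hcon z hz) k hk).symm
  · intro j hj
    rw [Subgroup.mem_centralizer_iff]
    intro z hz
    exact ((mem_oz.mp hz).2.1 j (h3 hj)).symm

theorem exists_common {Z C₁ C₂ : Subgroup G} (h1 : ∃ z ∈ Z, z ∉ C₁) (h3 : ∃ z ∈ Z, z ∉ C₂) : ∃ z ∈ Z, z ∉ C₁ ∧ z ∉ C₂ := by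
  obtain ⟨a, ha, ha1⟩ := h1
  obtain ⟨b, hb, hb1⟩ := h3
  by_cases ha2 : a ∈ C₂
  · by_cases hb2 : b ∈ C₁
    · refine ⟨a * b, Z.mul_mem ha hb, fun h => ha1 ?_, fun h => hb1 ?_⟩
      · exact (Subgroup.mul_mem_cancel_right C₁ hb2).mp h
      · exact (Subgroup.mul_mem_cancel_left C₂ ha2).mp h
    · exact ⟨b, hb, hb2, hb1⟩
  · exact ⟨a, ha, ha1, ha2⟩

/-- pairs of components -/
structure Pair (T K K₂ : Subgroup G) : Prop where
  T2 : IsPGroup 2 T
  T1 : T ≠ ⊥
  comp : IsJComponent T K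
  comp₂ : IsJComponent T K₂
  p1 : ∀ y ∈ Zz T, y ≠ 1 → y ∈ Subgroup.centralizer (K : Set G) → y ∈ Subgroup.centralizer (K₂ : Set G) → False
  p2 : ∀ t ∈ T, ∀ w ∈ Zz T, w ≠ 1 → w ∈ Subgroup.centralizer (K : Set G) →
      t * w * t⁻¹ ∈ Subgroup.centralizer (K₂ : Set G) → False

namespace Pair

variable {T K K₂ : Subgroup G}

theorem card_le (hG : HG G) (h : Pair T K K₂) : Nat.card (Zz T) ≤ 4 := card_four hG h.T2 h.T1 h.comp h.p1 h.comp₂

theorem oz_eq (hG : HG G) (h : Pair T K K₂) {z : G} (hz : z ∈ omegaCenterOf T) (hzK : z ∉ Subgroup.centralizer (K : Set G))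
    (hzK₂ : z ∉ Subgroup.centralizer (K₂ : Set G)) : omegaCenterOf T = Zz T :=
  cent_all hG h.T2 h.T1 h.comp h.comp₂ h.p1 h.p2 hz hzK hzK₂

end Pair

theorem mem_cent_cg {x w : G} {K : Subgroup G} :
    w ∈ Subgroup.centralizer (cg x K : Set G) ↔ x⁻¹ * w * x ∈ Subgroup.centralizer (K : Set G) := by
  rw [Subgroup.mem_centralizer_iff, Subgroup.mem_centralizer_iff]
  constructor
  · intro h k hk
    have h1 := h _ (cg_mem (x := x) hk)
    calc k * (x⁻¹ * w * x) = x⁻¹ * (x * k * x⁻¹ * w) * x := by group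
      _ = x⁻¹ * w * x * k := by rw [h1]; group
  · intro h k hk
    have h1 := h _ (mem_cg.mp hk)
    calc k * w = x * (x⁻¹ * k * x * (x⁻¹ * w * x)) * x⁻¹ := by group
      _ = w * k := by rw [h1]; group

namespace UQ

variable {T K L : Subgroup G}

/-- the pair `K`, `K^x` -/
theorem pairx (hG : HG G) (hu : UQ T K L) {x : G} (hx : x ∈ Subgroup.normalizer (thompsonSubgroupOf 2 T : Set G))
    (hxL : x ∉ L) : Pair T K (JC.cg x K) where
  T2 := hu.T2
  T1 := hu.T1
  comp := hu.comp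
  comp₂ := comp_congr (by rw [thompson_cg, cg_eq hx]) (comp_conj hu.comp x)
  p1 := fun y hy hy1 h1 h3 => hxL (hu.inter hG hx hy hy1 h1 h3)
  p2 := by
    intro t ht w hw hw1 h1 h3
    have htJ : t ∈ Subgroup.normalizer (thompsonSubgroupOf 2 T : Set G) :=
      (Subgroup.le_normalizer.trans (H2.normalizer_le_normalizer_thompson T)) ht
    have h4 : t⁻¹ * x ∈ L := by
      apply hu.inter hG (Subgroup.mul_mem _ (Subgroup.inv_mem _ htJ) hx) hw hw1 h1
      rw [mem_cent_cg] at h3 ⊢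
      have e : (t⁻¹ * x)⁻¹ * w * (t⁻¹ * x) = x⁻¹ * (t * w * t⁻¹) * x := by group
      rw [e]; exact h3
    apply hxL
    have := L.mul_mem (hu.TL ht) h4
    rwa [mul_inv_cancel_left] at this

/-- the pair `K`, `K₂` with `K₂` outside `L` -/
theorem pair₂ (hG : HG G) (hu : UQ T K L) {K₂ : Subgroup G} (hK₂ : IsJComponent T K₂) (hKL : ¬ K₂ ≤ L) : Pair T K K₂ where
  T2 := hu.T2
  T1 := hu.T1
  comp := hu.comp
  comp₂ := hK₂
  p1 := by
    intro y hy hy1 h1 h3
    apply hKL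
    refine le_trans ?_ (hu.cent_le hG hy hy1 h1)
    intro k hk
    rw [Subgroup.mem_centralizer_singleton_iff]
    exact Subgroup.mem_centralizer_iff.mp h3 k hk
  p2 := by
    intro t ht w hw hw1 h1 h3
    apply hKL
    intro k hk
    have h4 := hu.cent_le hG hw hw1 h1
    have h5 := Subgroup.mem_centralizer_iff.mp h3 k hk
    have h6 : t⁻¹ * k * t ∈ L := by
      apply h4
      rw [Subgroup.mem_centralizer_singleton_iff]
      calc t⁻¹ * k * t * w = t⁻¹ * (k * (t * w * t⁻¹)) * t := by group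
        _ = w * (t⁻¹ * k * t) := by rw [h5]; group
    have h7 := L.mul_mem (L.mul_mem (hu.TL ht) h6) (L.inv_mem (hu.TL ht))
    have e : t * (t⁻¹ * k * t) * t⁻¹ = k := by group
    rwa [e] at h7

section caseA

variable (hG : HG G) {S : Subgroup G} (hS : H23.IsSylowOf 2 S ⊤) (hu : UQ T K L) (hTS : T ≤ S) {x : G}
  (hx : x ∈ Subgroup.normalizer (thompsonSubgroupOf 2 T : Set G)) (hxS : x ∈ S) (hxL : x ∉ L)
include hG hS hu hTS hx hxS hxL

theorem z_notin {z : G} (hz : z ∈ omegaCenterOf S) (hz1 : z ≠ 1) :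
    z ∉ Subgroup.centralizer (K : Set G) ∧ z ∉ Subgroup.centralizer (JC.cg x K : Set G) := by
  have hzT := hu.oz_S_le hG hTS hz
  have hzZ := oz_le_Zz T hzT
  have hxz : x * z = z * x := (mem_oz.mp hz).2.1 x hxS
  have e : x⁻¹ * z * x = z := by rw [mul_assoc, ← hxz]; group
  constructor
  · intro h
    apply hxL
    apply hu.inter hG hx hzZ hz1 h
    rw [mem_cent_cg, e]; exact h
  · intro h
    apply hxL
    apply hu.inter hG hx hzZ hz1 _ h
    rw [mem_cent_cg, e] at h; exact h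

theorem oz_S_ne : omegaCenterOf S ≠ ⊥ := by
  apply oz_ne_bot hS.isPGroup
  intro h
  apply hu.T1
  rw [eq_bot_iff, ← h]
  exact hTS

theorem ozT_eq : omegaCenterOf T = Zz T := by
  obtain ⟨⟨z, hz⟩, hz1⟩ := Subgroup.ne_bot_iff_exists_ne_one.mp (oz_S_ne hG hS hu hTS hx hxS hxL)
  have hz1' : z ≠ 1 := fun h => hz1 (Subtype.ext h)
  obtain ⟨h1, h3⟩ := z_notin hG hS hu hTS hx hxS hxL hz hz1'
  exact (hu.pairx hG hx hxL).oz_eq hG (hu.oz_S_le hG hTS hz) h1 h3

theorem z_uniq {z z' : G} (hz : z ∈ omegaCenterOf S) (hz1 : z ≠ 1) (hz' : z' ∈ omegaCenterOf S) (hz'1 : z' ≠ 1) : z' = z := by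
  have hzT := oz_le_Zz T (hu.oz_S_le hG hTS hz)
  have hzT' := oz_le_Zz T (hu.oz_S_le hG hTS hz')
  have h1 := (z_notin hG hS hu hTS hx hxS hxL hz hz1).1
  have h3 := (z_notin hG hS hu hTS hx hxS hxL hz' hz'1).1
  have h4 := mul_cent hG hu.T2 hu.T1 hu.comp hzT' hzT h3 h1
  by_contra hne
  refine (z_notin hG hS hu hTS hx hxS hxL (z := z' * z) (Subgroup.mul_mem _ hz' hz) ?_).1 h4
  intro h5
  apply hne
  have h6 : z * z = 1 := by rw [← pow_two]; exact (mem_oz.mp hz).2.2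
  calc z' = z' * z * z := by rw [mul_assoc, h6, mul_one]
    _ = z := by rw [h5, one_mul]

end caseA

end UQ

theorem four_enum {A : Subgroup G} (h : Nat.card A = 4) {z a : G} (hz : z ∈ A) (ha : a ∈ A) (hz1 : z ≠ 1) (ha1 : a ≠ 1)
    (haz : a ≠ z) (ha2 : a * a = 1) : ∀ w ∈ A, w = 1 ∨ w = z ∨ w = a ∨ w = a * z := by
  intro w hw
  by_contra hcon
  push Not at hcon
  obtain ⟨h1, h3, h4, h5⟩ := hcon
  have haz1 : a * z ≠ 1 := by
    intro h6
    apply haz
    have : a * (a * z) = a := by rw [h6, mul_one]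
    rw [← mul_assoc, ha2, one_mul] at this
    exact this.symm
  have haz2 : a * z ≠ a := fun h6 => hz1 (by simpa using h6)
  have haz3 : a * z ≠ z := fun h6 => ha1 (by simpa using h6)
  let f : Fin 5 → A := ![1, ⟨z, hz⟩, ⟨a, ha⟩, ⟨a * z, A.mul_mem ha hz⟩, ⟨w, hw⟩]
  have hf : Function.Injective f := by
    intro i j hij
    have hij' := congrArg Subtype.val hij
    fin_cases i <;> fin_cases j <;> first | rfl | (exfalso; simp [f] at hij'; tauto)
  have h6 := Nat.card_le_card_of_injective f hf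
  rw [h] at h6
  simp at h6

end Cfsg.Agent.H19.JC
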