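import Cfsg.Agent.H19.JC14

set_option autoImplicit false
set_option linter.style.haveILetI false
set_option linter.unusedVariables false
set_option linter.unusedSectionVars false

/-! `J(T)`-components, part 15: the index computation, strong embedding, maximal straddling subgroups. -/

namespace Cfsg.Agent.H19.JC

open Cfsg Cfsg.Agent.H19.PGV Cfsg.Agent.H19.FF Cfsg.Agent.H19.FF.FFS
open scoped commutatorElement

variable {G : Type*} [Group G] [Finite G]

namespace UQ

variable {T K L : Subgroup G}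

theorem exists_a (hG : HG G) (hu : UQ T K L) (hcard : Nat.card (Zz T) = 4) :
    ∃ a ∈ Zz T, a ≠ 1 ∧ a ∈ Subgroup.centralizer (K : Set G) := by
  have h1 := card_Zz_le hG hu.T2 hu.T1 hu.comp
  rw [hcard] at h1
  have h3 : Zz T ⊓ Subgroup.centralizer (K : Set G) ≠ ⊥ := by
    intro h; rw [h, Subgroup.card_bot] at h1; omega
  obtain ⟨⟨a, ha⟩, ha1⟩ := Subgroup.ne_bot_iff_exists_ne_one.mp h3
  exact ⟨a, ha.1, fun h => ha1 (Subtype.ext h), ha.2⟩

theorem cent_Zz_le (hG : HG G) (hu : UQ T K L) (hcard : Nat.card (Zz T) = 4) :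
    Subgroup.centralizer (Zz T : Set G) ≤ L := by
  obtain ⟨a, ha, ha1, haK⟩ := hu.exists_a hG hcard
  exact (Subgroup.centralizer_le (Set.singleton_subset_iff.mpr ha)).trans (hu.cent_le hG ha ha1 haK)

/-- the index computation -/
theorem index_two (hG : HG G) {S : Subgroup G} (hS : H23.IsSylowOf 2 S ⊤) (hu : UQ T K L) (hTS : T ≤ S) {x : G}
    (hx : x ∈ Subgroup.normalizer (thompsonSubgroupOf 2 T : Set G)) (hxS : x ∈ S) (hxL : x ∉ L)
    (hcard : Nat.card (Zz T) = 4) :
    (L ⊓ Subgroup.centralizer (Zz T : Set G)).relIndex (Subgroup.normalizer (Zz T : Set G)) = 2 := by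
  obtain ⟨⟨z, hz⟩, hz1⟩ := Subgroup.ne_bot_iff_exists_ne_one.mp (oz_S_ne hG hS hu hTS hx hxS hxL)
  have hz1' : z ≠ 1 := fun h => hz1 (Subtype.ext h)
  obtain ⟨hzK, hzKx⟩ := z_notin hG hS hu hTS hx hxS hxL hz hz1'
  have hzZ := oz_le_Zz T (hu.oz_S_le hG hTS hz)
  have hsq : ∀ w ∈ Zz T, w * w = 1 := fun w hw => by rw [← pow_two]; exact (mem_oz.mp hw).2.2
  have hCL := hu.cent_Zz_le hG hcard
  rw [inf_eq_right.mpr hCL]
  have hp := hu.pairx hG hx hxL
  -- every w ∈ Zz other than 1, z is centralized by K or K^x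
  have hK12 : ∀ w ∈ Zz T, w ≠ 1 → w ≠ z → w ∈ Subgroup.centralizer (K : Set G) ∨
      w ∈ Subgroup.centralizer (JC.cg x K : Set G) := by
    intro w hw hw1 hwz
    by_cases hwK : w ∈ Subgroup.centralizer (K : Set G)
    · exact Or.inl hwK
    right
    have h1 := mul_cent hG hp.T2 hp.T1 hp.comp hw hzZ hwK hzK
    by_contra hwKx
    have h3 := mul_cent hG hp.T2 hp.T1 hp.comp₂ hw hzZ hwKx hzKx
    refine hp.p1 (w * z) ((Zz T).mul_mem hw hzZ) ?_ h1 h3
    intro h5
    apply hwz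
    calc w = w * z * z := by rw [mul_assoc, hsq z hzZ, mul_one]
      _ = z := by rw [h5, one_mul]
  have hozS : ∀ z' ∈ omegaCenterOf S, z' = 1 ∨ z' = z := by
    intro z' hz'
    by_cases h1 : z' = 1
    · exact Or.inl h1
    · exact Or.inr (z_uniq hG hS hu hTS hx hxS hxL hz hz1' hz' h1)
  have hcj : ∀ g ∈ Subgroup.normalizer (Zz T : Set G), ∀ w ∈ Zz T, g * w * g⁻¹ ∈ Zz T := fun g hg w hw =>
    (Subgroup.mem_normalizer_iff.mp hg w).mp hw
  -- N(Zz) fixes z
  have hfix : ∀ g ∈ Subgroup.normalizer (Zz T : Set G), g * z * g⁻¹ = z := by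
    intro g hg
    by_contra hne
    set w := g * z * g⁻¹ with hw
    have hwZ : w ∈ Zz T := hcj g hg z hzZ
    have hw1 : w ≠ 1 := by
      intro h; apply hz1'
      have := congrArg (fun s => g⁻¹ * s * g) h
      simpa [hw, mul_assoc] using this
    have key : ∀ F : Subgroup G, IsJComponent T F → w ∈ Subgroup.centralizer (F : Set G) → False := by
      intro F hF hwF
      have hzc : ∀ y : G, y * w = w * y → g⁻¹ * y * g * z = z * (g⁻¹ * y * g) := by
        intro y hy
        rw [hw] at hy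
        calc g⁻¹ * y * g * z = g⁻¹ * (y * (g * z * g⁻¹)) * g := by group
          _ = z * (g⁻¹ * y * g) := by rw [hy]; group
      apply zarg hG hS (T := JC.cg g⁻¹ T) (K := JC.cg g⁻¹ F) (hu.T2.map _) (comp_conj hF g⁻¹)
      · rintro _ ⟨k, hk, rfl⟩
        rw [Subgroup.mem_centralizer_iff]
        intro z' hz'
        rcases hozS z' hz' with rfl | rfl
        · simp
        · have h3 := hzc k (Subgroup.mem_centralizer_iff.mp hwF k hk)
          show z' * (g⁻¹ * k * g⁻¹⁻¹) = g⁻¹ * k * g⁻¹⁻¹ * z'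
          rw [inv_inv]; exact h3.symm
      · rw [thompson_cg]
        rintro _ ⟨k, hk, rfl⟩
        rw [Subgroup.mem_centralizer_iff]
        intro z' hz'
        rcases hozS z' hz' with rfl | rfl
        · simp
        · have h3 := hzc k ((mem_oz.mp hwZ).2.1 k hk)
          show z' * (g⁻¹ * k * g⁻¹⁻¹) = g⁻¹ * k * g⁻¹⁻¹ * z'
          rw [inv_inv]; exact h3.symm
    rcases hK12 w hwZ hw1 hne with h1 | h1
    · exact key K hu.comp h1
    · exact key _ hp.comp₂ h1
  have hxN : x ∈ Subgroup.normalizer (Zz T : Set G) := norm_oz _ hx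
  -- dichotomy
  have hdich : ∀ g ∈ Subgroup.normalizer (Zz T : Set G), g ∉ Subgroup.centralizer (Zz T : Set G) →
      ∀ w ∈ Zz T, w ≠ 1 → w ≠ z → g * w * g⁻¹ = w * z := by
    intro g hg hgC
    obtain ⟨w₀, hw₀, hne⟩ : ∃ w₀ ∈ Zz T, g * w₀ * g⁻¹ ≠ w₀ := by
      by_contra hcon
      push Not at hcon
      apply hgC
      rw [Subgroup.mem_centralizer_iff]
      intro w hw
      exact (mul_inv_eq_iff_eq_mul.mp (hcon w hw)).symm
    have hw₀1 : w₀ ≠ 1 := by rintro rfl; apply hne; group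
    have hw₀z : w₀ ≠ z := by rintro rfl; exact hne (hfix g hg)
    have henum := four_enum hcard hzZ hw₀ hz1' hw₀1 hw₀z (hsq w₀ hw₀)
    have hg0 : g * w₀ * g⁻¹ = w₀ * z := by
      rcases henum _ (hcj g hg w₀ hw₀) with h1 | h1 | h1 | h1
      · exfalso; apply hw₀1
        have := congrArg (fun s => g⁻¹ * s * g) h1
        simpa [mul_assoc] using this
      · exfalso; apply hw₀z
        rw [← hfix g hg] at h1
        exact mul_left_cancel (mul_right_cancel h1)
      · exact absurd h1 hne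
      · exact h1
    intro w hw hw1 hwz
    rcases henum w hw with h1 | h1 | h1 | h1
    · exact absurd h1 hw1
    · exact absurd h1 hwz
    · rw [h1]; exact hg0
    · rw [h1]
      have e : g * (w₀ * z) * g⁻¹ = (g * w₀ * g⁻¹) * (g * z * g⁻¹) := by group
      rw [e, hg0, hfix g hg]
  rw [Subgroup.relIndex_eq_two_iff]
  have hxC : x ∉ Subgroup.centralizer (Zz T : Set G) := fun h => hxL (hCL h)
  refine ⟨x, hxN, fun g hg => ?_⟩
  by_cases hgC : g ∈ Subgroup.centralizer (Zz T : Set G)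
  · right
    refine ⟨hgC, fun h => hxC ?_⟩
    exact (Subgroup.mul_mem_cancel_left _ hgC).mp h
  · left
    refine ⟨?_, hgC⟩
    rw [Subgroup.mem_centralizer_iff]
    intro w hw
    apply Eq.symm
    apply mul_inv_eq_iff_eq_mul.mp
    have e : g * x * w * (g * x)⁻¹ = g * (x * w * x⁻¹) * g⁻¹ := by group
    rw [e]
    by_cases hw1 : w = 1
    · rw [hw1]; group
    by_cases hwz : w = z
    · rw [hwz, hfix x hxN, hfix g hg]
    · rw [hdich x hxN hxC w hw hw1 hwz]
      have e2 : g * (w * z) * g⁻¹ = (g * w * g⁻¹) * (g * z * g⁻¹) := by group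
      rw [e2, hdich g hg hgC w hw hw1 hwz, hfix g hg, mul_assoc, hsq z hzZ, mul_one]

end UQ

/-- no strong embedding -/
theorem no_strong (hG : HG G) {S K L : Subgroup G} (hS : H23.IsSylowOf 2 S ⊤) (hu : UQ S K L)
    (hNJ : Subgroup.normalizer (thompsonSubgroupOf 2 S : Set G) ≤ L) (hO : pCore 2 G = ⊥)
    (hstr : ∀ R Λ : Subgroup G, IsPGroup 2 R → R ≠ ⊥ → R ≤ L → IsTwoLocal Λ → R ≤ Λ → Λ ≤ L) : False := by
  haveI h2 : Fact (Nat.Prime 2) := ⟨Nat.prime_two⟩
  have hNS : Subgroup.normalizer (S : Set G) ≤ L := (H2.normalizer_le_normalizer_thompson (p := 2) S).trans hNJ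
  have hzne : omegaCenterOf S ≠ ⊥ := oz_ne_bot hu.T2 hu.T1
  obtain ⟨⟨z, hz⟩, hz1⟩ := Subgroup.ne_bot_iff_exists_ne_one.mp hzne
  have hz1' : z ≠ 1 := fun h => hz1 (Subtype.ext h)
  have hz' := mem_oz.mp hz
  -- centralizers of involutions
  have hcent : ∀ t ∈ L, t ≠ 1 → t ^ 2 = 1 → Subgroup.centralizer ({t} : Set G) ≤ L := by
    intro t ht ht1 ht2
    apply hstr (Subgroup.zpowers t) _ _ _ _ (cent_local ht2 ht1)
    · rw [Subgroup.zpowers_le, Subgroup.mem_centralizer_singleton_iff]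
    · rw [IsPGroup.iff_card, Nat.card_zpowers]
      exact ⟨_, ((Nat.dvd_prime_pow Nat.prime_two (m := 1)).mp (by rw [pow_one]; exact orderOf_dvd_of_pow_eq_one ht2)).choose_spec.2⟩
    · intro h; apply ht1
      rw [← Subgroup.mem_bot, ← h]; exact Subgroup.mem_zpowers t
    · rw [Subgroup.zpowers_le]; exact ht
  have hzL : z ∈ L := hu.TL hz'.1
  -- conjugates of z in L come from L
  have hconj : ∀ g : G, g * z * g⁻¹ ∈ L → g ∈ L := by
    intro g hg
    have h1 : cg g S ≤ L := by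
      have h3 : (g * z * g⁻¹) ≠ 1 := by
        intro h; apply hz1'
        have := congrArg (fun s => g⁻¹ * s * g) h
        simpa [mul_assoc] using this
      have h4 : (g * z * g⁻¹) ^ 2 = 1 := by rw [conj_pow, hz'.2.2]; group
      refine le_trans ?_ (hcent _ hg h3 h4)
      rintro _ ⟨s, hs, rfl⟩
      rw [Subgroup.mem_centralizer_singleton_iff]
      show g * s * g⁻¹ * (g * z * g⁻¹) = g * z * g⁻¹ * (g * s * g⁻¹)
      have h5 := hz'.2.1 s hs
      calc g * s * g⁻¹ * (g * z * g⁻¹) = g * (s * z) * g⁻¹ := by group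
        _ = _ := by rw [h5]; group
    have hSg : H23.IsSylowOf 2 (cg g S) L := by
      have h3 := isSylowOf_conj hS g
      rw [Subgroup.map_top_of_surjective _ (MulAut.conj g).surjective] at h3
      exact IsSylowOf.mono h3 h1 le_top
    obtain ⟨l, hl, hlS⟩ := hu.syl.exists_conj hSg
    have hlS' : cg l S = cg g S := hlS
    have h6 : l⁻¹ * g ∈ Subgroup.normalizer (S : Set G) := by
      rw [H18.mem_normalizer_iff_map]
      show cg (l⁻¹ * g) S = S
      rw [cg_mul, ← hlS', cg_inv]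
    have := L.mul_mem hl (hNS h6)
    rwa [mul_inv_cancel_left] at this
  -- L ≠ ⊤
  have hLtop : L ≠ ⊤ := by
    intro h
    apply hu.core_ne hG
    rw [h, eq_bot_iff]
    have h3 : pCoreOf 2 (⊤ : Subgroup G) ≤ pCore 2 G :=
      H18.le_pCore (by
        rw [← Subgroup.normalizer_eq_top_iff, eq_top_iff]
        exact H18.le_normalizer_pCoreOf (p := 2) (⊤ : Subgroup G)) (H18.isPGroup_pCoreOf _)
    rw [hO] at h3
    exact h3
  obtain ⟨g, hg⟩ : ∃ g : G, g ∉ L := by
    by_contra hcon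
    push Not at hcon
    exact hLtop (eq_top_iff.mpr fun g _ => hcon g)
  set s := g * z * g⁻¹ with hs
  have hsL : s ∉ L := fun h => hg (hconj g h)
  have hzz : z * z = 1 := by rw [← pow_two]; exact hz'.2.2
  have hss : s * s = 1 := by
    calc s * s = g * (z * z) * g⁻¹ := by rw [hs]; group
      _ = 1 := by rw [hzz]; group
  -- every involution of L is in O₂(L)
  have hzQ : z ∈ pCoreOf 2 L := by
    apply hu.cent_core hG
    rw [Subgroup.mem_centralizer_iff]
    intro q hq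
    exact hz'.2.1 q (hu.core_le hq)
  have hinv : ∀ t ∈ L, t * t = 1 → t ∈ pCoreOf 2 L := by
    intro t ht ht2
    by_cases ht1 : t = 1
    · rw [ht1]; exact Subgroup.one_mem _
    have hodd : Odd (orderOf (s * t)) := by
      by_contra hodd
      rw [Nat.not_odd_iff_even] at hodd
      have h0 : orderOf (s * t) ≠ 0 := (orderOf_pos _).ne'
      obtain ⟨h3, h4⟩ := H4.commute_pow_half hss ht2 h0 hodd
      have h5 := H4.even_pow_half h0 hodd
      set c := (s * t) ^ (orderOf (s * t) / 2) with hc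
      have hc2 : c ^ 2 = 1 := by rw [← h5]; exact pow_orderOf_eq_one c
      have hc1 : c ≠ 1 := by
        intro h; rw [h, orderOf_one] at h5; omega
      have hcL : c ∈ L := by
        apply hcent t ht ht1 (by rw [pow_two]; exact ht2)
        rw [Subgroup.mem_centralizer_singleton_iff]
        exact h4
      apply hsL
      apply hcent c hcL hc1 hc2
      rw [Subgroup.mem_centralizer_singleton_iff]
      exact h3.symm
    obtain ⟨k, hk⟩ := H4.conj_of_odd hss ht2 hodd
    set y := (s * t) ^ k with hy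
    have h3 : (y * g) * z * (y * g)⁻¹ = t := by
      rw [← hk, hs]; group
    have h4 : y * g ∈ L := hconj _ (by rw [h3]; exact ht)
    rw [← h3]
    exact (Subgroup.mem_normalizer_iff.mp (H18.le_normalizer_pCoreOf (p := 2) L h4) z).mp hzQ
  apply hu.not_J_le
  rw [H2.thompsonSubgroupOf_eq]
  refine sSup_le fun A hA a ha => ?_
  exact hinv a (hu.TL (hA.1 ha)) (by rw [← pow_two]; exact hA.2.1.2 a ha)

/-- Sylow subgroups are maximal -/
theorem sylow_max {S M : Subgroup G} (hS : H23.IsSylowOf 2 S ⊤) (hSM : S ∈ straddlingTwoSubgroups M) :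
    S ∈ maxStraddlingTwoSubgroups M := by
  haveI h2 : Fact (Nat.Prime 2) := ⟨Nat.prime_two⟩
  refine ⟨hSM, fun T hT => ?_⟩
  obtain ⟨g, -, hg⟩ := IsSylowOf.exists_conj_le hS (le_top : T ≤ ⊤) hT.1
  have hg' : cg g T ≤ S := hg
  obtain ⟨A, hA⟩ := H2.exists_eaIn 2 T
  obtain ⟨B, hB⟩ := H2.exists_eaIn 2 S
  have hcj : ∀ {A : Subgroup G}, H2.EAIn 2 T A → H2.EAIn 2 (cg g T) (cg g A) := fun h => H2.eaIn_map_conj h g
  have h1 : Nat.card A ≤ Nat.card B := by
    have := hB.2.2 (cg g A) ((cg_mono hA.1).trans hg') (hcj hA).2.1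
    rwa [card_cg] at this
  rw [a_eq hA, a_eq hB]
  refine ⟨h1, fun heq => ⟨?_, fun _ => ?_⟩⟩
  · rw [← card_cg g (thompsonSubgroupOf 2 T), ← thompson_cg]
    apply Subgroup.card_le_of_le
    conv_lhs => rw [H2.thompsonSubgroupOf_eq]
    refine sSup_le fun C hC => ?_
    have h3 : H2.EAIn 2 S C := hB.of_card_eq (hC.1.trans hg') hC.2.1 (by
      rw [← heq, ← card_cg g A]; exact ((hcj hA).card_eq hC).le)
    exact h3.le_thompson
  · rw [← card_cg g T]
    exact Subgroup.card_le_of_le hg'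

theorem exists_maxStraddling {M T₀ : Subgroup G} (h : T₀ ∈ straddlingTwoSubgroups M) :
    ∃ T, T ∈ maxStraddlingTwoSubgroups M := by
  obtain ⟨T₁, hT₁, h1⟩ := Set.exists_max_image (straddlingTwoSubgroups M) maxElemAbelianOrder (Set.toFinite _) ⟨T₀, h⟩
  obtain ⟨T₂, hT₂, h3⟩ := Set.exists_max_image {T | T ∈ straddlingTwoSubgroups M ∧ maxElemAbelianOrder T = maxElemAbelianOrder T₁}
    (fun T => Nat.card (thompsonSubgroupOf 2 T)) (Set.toFinite _) ⟨T₁, hT₁, rfl⟩
  obtain ⟨T₃, hT₃, h4⟩ := Set.exists_max_image {T | (T ∈ straddlingTwoSubgroups M ∧ maxElemAbelianOrder T = maxElemAbelianOrder T₁) ∧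
      Nat.card (thompsonSubgroupOf 2 T) = Nat.card (thompsonSubgroupOf 2 T₂)}
    (fun T => Nat.card T) (Set.toFinite _) ⟨T₂, hT₂, rfl⟩
  refine ⟨T₃, hT₃.1.1, fun T hT => ⟨?_, fun h5 => ⟨?_, fun h6 => ?_⟩⟩⟩
  · rw [hT₃.1.2]; exact h1 T hT
  · rw [hT₃.2]; exact h3 T ⟨hT, by rw [h5, hT₃.1.2]⟩
  · exact h4 T ⟨⟨hT, by rw [h5, hT₃.1.2]⟩, by rw [h6, hT₃.2]⟩

end Cfsg.Agent.H19.JC
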