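import Cfsg.Agent.H19.JC15

set_option autoImplicit false
set_option linter.style.haveILetI false
set_option linter.unusedVariables false
set_option linter.unusedSectionVars false

/-! `J(T)`-components, part 16: the module of `L ≥ N(J(S))`. -/

namespace Cfsg.Agent.H19.JC

open Cfsg Cfsg.Agent.H19.PGV Cfsg.Agent.H19.FF Cfsg.Agent.H19.FF.FFS
open scoped commutatorElement

variable {G : Type*} [Group G] [Finite G]

theorem comp_not_norm {T K : Subgroup G} (hT : IsPGroup 2 T) (hK : IsJComponent T K) :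
    ¬ K ≤ Subgroup.normalizer (thompsonSubgroupOf 2 T : Set G) := by
  intro h
  apply comp_not_pgroup hK (J_isPGroup hT)
  have h6 : ⁅K, thompsonSubgroupOf 2 T⁆ ≤ thompsonSubgroupOf 2 T := by
    rw [Subgroup.commutator_le]
    intro k hk j hj
    rw [commutatorElement_def]
    exact Subgroup.mul_mem _ ((Subgroup.mem_normalizer_iff.mp (h hk) j).mp hj) (Subgroup.inv_mem _ hj)
  rwa [hK.2.1] at h6

/-- all components of `L` determine `L` -/
theorem uniq_all (hG : HG G) {S K L : Subgroup G} (hS : H23.IsSylowOf 2 S ⊤) (hu : UQ S K L)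
    {F : Subgroup G} (hF : IsJComponent S F) (hFL : F ≤ L) : UQ S F L := by
  have hstr : S ∈ straddlingTwoSubgroups (Subgroup.normalizer (thompsonSubgroupOf 2 S : Set G)) := by
    refine ⟨hu.T2, hu.T1, Subgroup.le_normalizer.trans (H2.normalizer_le_normalizer_thompson S), L, hu.loc, hu.TL, ?_⟩
    exact fun h => comp_not_norm hu.T2 hu.comp (hu.KL.trans h)
  have hT := sylow_max hS hstr
  have hne : pCoreOf 2 (F ⊔ S) ≠ ⊥ := by
    intro h8
    apply hu.core_ne hG
    rw [eq_bot_iff, ← h8]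
    apply H18.le_pCoreOf (hu.core_le.trans le_sup_right) _ (H18.isPGroup_pCoreOf _)
    exact (sup_le hFL hu.TL).trans (H18.le_normalizer_pCoreOf L)
  obtain ⟨L', hL', hFL', hSL', hmax⟩ := exists_max hG hS le_rfl hT hF (comp_not_norm hu.T2 hF) hne
  have h1 : L ≤ L' := hmax L hu.loc hFL hu.JL
  have h3 : L' ≤ L := hu.uniq L' hL' (hu.KL.trans h1) (hu.JL.trans h1)
  refine ⟨hF, hu.loc, hFL, hu.syl, fun Λ hΛ h4 h5 => (hmax Λ hΛ h4 h5).trans h3⟩

/-- `(P1)` -/
theorem cent_P1 (hG : HG G) {S K L : Subgroup G} (hS : H23.IsSylowOf 2 S ⊤) (hu : UQ S K L)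
    (hNJ : Subgroup.normalizer (thompsonSubgroupOf 2 S : Set G) ≤ L) {z : G} (hz : z ∈ omegaCenterOf S) (hz1 : z ≠ 1)
    (hzu : ∀ z' ∈ omegaCenterOf S, z' = 1 ∨ z' = z) {v : G} (hv : v ∈ Zz S) (hv1 : v ≠ 1) :
    Subgroup.centralizer ({v} : Set G) ≤ L := by
  haveI h2 : Fact (Nat.Prime 2) := ⟨Nat.prime_two⟩
  have hzZ := oz_le_Zz S hz
  have hsq : ∀ w ∈ Zz S, w * w = 1 := fun w hw => by rw [← pow_two]; exact (mem_oz.mp hw).2.2
  have hJS := H2.thompsonSubgroupOf_le 2 S
  -- z is centralized by no component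
  have hzF : ∀ F : Subgroup G, IsJComponent S F → z ∉ Subgroup.centralizer (F : Set G) := by
    intro F hF h
    obtain ⟨z', hz', hz'F⟩ := exists_z_of hG hS hu.T2 hF hJS
    rcases hzu z' hz' with rfl | rfl
    · exact hz'F (Subgroup.one_mem _)
    · exact hz'F h
  by_cases hex : ∃ F, IsJComponent S F ∧ F ≤ L ∧ v ∈ Subgroup.centralizer (F : Set G)
  · obtain ⟨F, hF, hFL, hvF⟩ := hex
    exact (uniq_all hG hS hu hF hFL).cent_le hG hv hv1 hvF
  push Not at hex
  have hvz : v * z ∈ Zz S := (Zz S).mul_mem hv hzZ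
  have hall : ∀ F, IsJComponent S F → F ≤ L → v * z ∈ Subgroup.centralizer (F : Set G) := fun F hF hFL =>
    mul_cent hG hu.T2 hu.T1 hF hv hzZ (hex F hF hFL) (hzF F hF)
  have hov : Ov S L := ov_of hG hu.T1 (hu.jover hG) rfl
  have hJJ : ∀ y ∈ Zz S, (∀ F, IsJComponent S F → F ≤ L → y ∈ Subgroup.centralizer (F : Set G)) →
      y ∈ Subgroup.centralizer (thompsonSubgroupOf 2 L : Set G) := by
    intro y hy hyF
    have h1 : thompsonSubgroupOf 2 L ≤ Subgroup.centralizer ({y} : Set G) := by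
      apply hov.gen
      · intro F hF hFL k hk
        rw [Subgroup.mem_centralizer_singleton_iff]
        exact Subgroup.mem_centralizer_iff.mp (hyF F hF hFL) k hk
      · intro j hj
        rw [Subgroup.mem_centralizer_singleton_iff]
        exact (mem_oz.mp hy).2.1 j hj
    rw [Subgroup.mem_centralizer_iff]
    intro j hj
    exact Subgroup.mem_centralizer_singleton_iff.mp (h1 hj)
  set Y := Zz S ⊓ Subgroup.centralizer (thompsonSubgroupOf 2 L : Set G) with hY
  have hvY : v * z ∈ Y := ⟨hvz, hJJ _ hvz hall⟩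
  have hYbot : Y = ⊥ := by
    by_contra hne
    have hSY : S ≤ Subgroup.normalizer (Y : Set G) := by
      intro s hs
      apply mem_norm_of_le
      intro y hy
      refine ⟨conj_Zz ((Subgroup.le_normalizer.trans (H2.normalizer_le_normalizer_thompson S)) hs) hy.1, ?_⟩
      apply conj_mem_centralizer _ hy.2
      exact (Subgroup.le_normalizer.trans (H2.normalizer_le_normalizer_thompson L)) (hu.TL hs)
    have hY2 : IsPGroup 2 Y := hu.T2.to_le (inf_le_left.trans ((oz_le _).trans hJS))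
    obtain ⟨y, hy, hy1, hyS⟩ := exists_fixed hY2 hu.T2 hne hSY
    have hyo : y ∈ omegaCenterOf S := by
      rw [mem_oz]
      exact ⟨hJS ((oz_le _) hy.1), hyS, (mem_oz.mp hy.1).2.2⟩
    rcases hzu y hyo with h1 | h1
    · exact hy1 h1
    · apply hzF K hu.comp
      rw [← h1]
      have h3 := (hov.comp K hu.comp hu.KL).1
      exact Subgroup.centralizer_le (show (K : Set G) ⊆ _ from h3) hy.2
  rw [hYbot, Subgroup.mem_bot] at hvY
  have hveq : v = z := by
    calc v = v * z * z := by rw [mul_assoc, hsq z hzZ, mul_one]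
      _ = z := by rw [hvY, one_mul]
  rw [hveq]
  obtain ⟨S', hS'⟩ := JK.exists_sylow hS
  have hzed := hG.zed S'
  rw [hS'] at hzed
  refine le_trans ?_ (hzed.trans ((H2.normalizer_le_normalizer_thompson (p := 2) S).trans hNJ))
  intro c hc
  have hc' := Subgroup.mem_centralizer_singleton_iff.mp hc
  rw [Subgroup.mem_centralizer_iff]
  intro z' hz'
  rcases hzu z' hz' with rfl | rfl
  · simp
  · exact hc'.symm

/-- the module -/
def VL (L : Subgroup G) : Subgroup G := (VV ↥L).map L.subtype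

theorem VL_subgroupOf (L : Subgroup G) : (VL L).subgroupOf L = VV ↥L := by
  unfold VL Subgroup.subgroupOf
  exact Subgroup.comap_map_eq_self_of_injective L.subtype_injective _

theorem map_inf_cent {L A : Subgroup G} (hA : A ≤ L) (X : Subgroup ↥L) :
    (X ⊓ Subgroup.centralizer ((A.subgroupOf L : Subgroup ↥L) : Set ↥L)).map L.subtype =
      X.map L.subtype ⊓ Subgroup.centralizer (A : Set G) := by
  ext y
  constructor
  · rintro ⟨x, ⟨hx, hxc⟩, rfl⟩
    refine ⟨⟨x, hx, rfl⟩, ?_⟩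
    show (x : G) ∈ Subgroup.centralizer _
    rw [Subgroup.mem_centralizer_iff]
    intro a ha
    exact congrArg Subtype.val (Subgroup.mem_centralizer_iff.mp hxc ⟨a, hA ha⟩ ha)
  · rintro ⟨⟨x, hx, rfl⟩, hxc⟩
    refine ⟨x, ⟨hx, ?_⟩, rfl⟩
    show x ∈ Subgroup.centralizer _
    rw [Subgroup.mem_centralizer_iff]
    intro a ha
    exact Subtype.ext (Subgroup.mem_centralizer_iff.mp hxc a.1 ha)

/-- properties of the module -/
structure VS (S L V : Subgroup G) : Prop where
  LN : L ≤ Subgroup.normalizer (V : Set G)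
  NL : Subgroup.normalizer (V : Set G) ≤ L
  comm : ∀ a ∈ V, ∀ b ∈ V, a * b = b * a
  sq : ∀ a ∈ V, a * a = 1
  VleS : V ≤ S
  cent : ∀ v ∈ V, v ≠ 1 → Subgroup.centralizer ({v} : Set G) ≤ L
  conjJ : ∀ v ∈ V, v ≠ 1 → ∃ l : G, cg l (thompsonSubgroupOf 2 S) ≤ Subgroup.centralizer ({v} : Set G)
  off : ∀ A : Subgroup G, A ≤ L → (∀ a ∈ A, ∀ b ∈ A, a * b = b * a) → (∀ a ∈ A, a ^ 2 = 1) →
    Nat.card A * Nat.card ↥(V ⊓ Subgroup.centralizer (A : Set G)) ≤ Nat.card V * Nat.card ↥(A ⊓ Subgroup.centralizer (V : Set G))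
  two : ∀ A Y : Subgroup G, A ≤ L → (∀ a ∈ A, ∀ b ∈ A, a * b = b * a) → (∀ a ∈ A, a ^ 2 = 1) →
    (∀ a ∈ A, a ≠ 1 → V ⊓ Subgroup.centralizer ({a} : Set G) = Y) → Y ≠ V → A ≠ ⊥ →
    Nat.card V ≤ Nat.card A * Nat.card Y → 2 * Nat.card Y = Nat.card V ∧ Nat.card A = 2

theorem vs_of (hG : HG G) {S K L : Subgroup G} (hS : H23.IsSylowOf 2 S ⊤) (hu : UQ S K L)
    (hNJ : Subgroup.normalizer (thompsonSubgroupOf 2 S : Set G) ≤ L) {z : G} (hz : z ∈ omegaCenterOf S) (hz1 : z ≠ 1)
    (hzu : ∀ z' ∈ omegaCenterOf S, z' = 1 ∨ z' = z) : ∃ V : Subgroup G, VS S L V ∧ z ∈ V := by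
  haveI h2 : Fact (Nat.Prime 2) := ⟨Nat.prime_two⟩
  have hzg := hG.zg (hu.cent_core hG) (hu.core_ne hG)
  have hs := isSylowOf_top_of hu.syl
  have hVcomm : ∀ a ∈ VL L, ∀ b ∈ VL L, a * b = b * a := by
    rintro _ ⟨a, ha, rfl⟩ _ ⟨b, hb, rfl⟩
    exact congrArg (fun t : ↥(VV ↥L) => (t.1.1 : G)) (hzg.V_elem.1.is_comm.comm ⟨a, ha⟩ ⟨b, hb⟩)
  have hVsq : ∀ a ∈ VL L, a * a = 1 := by
    rintro _ ⟨a, ha, rfl⟩
    have h1 := hzg.V_elem.2 a ha
    rw [pow_two] at h1
    exact congrArg Subtype.val h1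
  have hVQ : VL L ≤ pCoreOf 2 L := Subgroup.map_mono hzg.V_le
  have hVS : VL L ≤ S := hVQ.trans hu.core_le
  have hVL : VL L ≤ L := hVS.trans hu.TL
  have hzV : z ∈ VL L := by
    obtain ⟨S', hS'⟩ := JK.exists_sylow hs
    have h1 := H2.oz_le_ozGen (p := 2) S'
    rw [hS'] at h1
    have h3 : z ∈ omegaCenterOf ((S.subgroupOf L).map L.subtype) := by
      rw [Subgroup.map_subgroupOf_eq_of_le hu.TL]; exact hz
    rw [oz_map_inj L.subtype_injective] at h3
    exact Subgroup.map_mono h1 h3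
  have hLN : L ≤ Subgroup.normalizer (VL L : Set G) := by
    intro l hl
    apply mem_norm_of_le
    rintro _ ⟨a, ha, rfl⟩
    exact ⟨⟨l, hl⟩ * a * ⟨l, hl⟩⁻¹, Subgroup.Normal.conj_mem inferInstance a ha _, rfl⟩
  have hVne : VL L ≠ ⊥ := fun h => hz1 (by rw [h] at hzV; exact hzV)
  have hV2 : IsPGroup 2 (VL L) := hu.T2.to_le hVS
  have hNL : Subgroup.normalizer (VL L : Set G) ≤ L :=
    hu.uniq _ ⟨_, hV2, hVne, rfl⟩ (hu.KL.trans hLN) (hu.JL.trans hLN)
  have hcj : ∀ v ∈ VL L, v ≠ 1 → ∃ g ∈ L, g * v * g⁻¹ ∈ Zz S := by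
    rintro _ ⟨v, hv, rfl⟩ hv1
    obtain ⟨g, hg⟩ := hzg.exists_conj_fix hs hv
    refine ⟨g.1, g.2, ?_⟩
    have hw : (g * v * g⁻¹) ∈ VV ↥L := Subgroup.Normal.conj_mem inferInstance v hv g
    apply cent_J_le (hVS ⟨_, hw, rfl⟩)
    · have h1 := hVsq _ ⟨_, hw, rfl⟩
      rw [pow_two]; exact h1
    · intro j hj
      rw [← thompson_subgroupOf hu.TL] at hj
      obtain ⟨j', hj', rfl⟩ := hj
      exact congrArg Subtype.val (hg j' hj')
  refine ⟨VL L, ⟨hLN, hNL, hVcomm, hVsq, hVS, ?_, ?_, ?_, ?_⟩, hzV⟩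
  · intro v hv hv1
    obtain ⟨g, hg, hgv⟩ := hcj v hv hv1
    have hne : g * v * g⁻¹ ≠ 1 := by
      intro h; apply hv1
      have := congrArg (fun s => g⁻¹ * s * g) h
      simpa [mul_assoc] using this
    have h1 := cent_P1 hG hS hu hNJ hz hz1 hzu hgv hne
    intro c hc
    have hc' := Subgroup.mem_centralizer_singleton_iff.mp hc
    have h3 : g * c * g⁻¹ ∈ L := by
      apply h1
      rw [Subgroup.mem_centralizer_singleton_iff]
      calc g * c * g⁻¹ * (g * v * g⁻¹) = g * (c * v) * g⁻¹ := by group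
        _ = _ := by rw [hc']; group
    have h4 := L.mul_mem (L.mul_mem (L.inv_mem hg) h3) hg
    have e : g⁻¹ * (g * c * g⁻¹) * g = c := by group
    rwa [e] at h4
  · intro v hv hv1
    obtain ⟨g, hg, hgv⟩ := hcj v hv hv1
    refine ⟨g⁻¹, ?_⟩
    rintro _ ⟨j, hj, rfl⟩
    rw [Subgroup.mem_centralizer_singleton_iff]
    show g⁻¹ * j * g⁻¹⁻¹ * v = v * (g⁻¹ * j * g⁻¹⁻¹)
    have h1 := (mem_oz.mp hgv).2.1 j hj
    calc g⁻¹ * j * g⁻¹⁻¹ * v = g⁻¹ * (j * (g * v * g⁻¹)) * g := by group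
      _ = _ := by rw [h1]; group
  · intro A hA hAc hA2
    have h1 := hzg.off (A := A.subgroupOf L) (fun a ha b hb => Subtype.ext (hAc _ ha _ hb))
      (fun a ha => Subtype.ext (hA2 _ ha))
    have e1 : Nat.card (A.subgroupOf L) = Nat.card A := by
      rw [← H2.card_map_inj L.subtype_injective, Subgroup.map_subgroupOf_eq_of_le hA]
    have e2 : Nat.card ↥(VV ↥L ⊓ Subgroup.centralizer ((A.subgroupOf L : Subgroup ↥L) : Set ↥L)) =
        Nat.card ↥(VL L ⊓ Subgroup.centralizer (A : Set G)) := by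
      rw [← H2.card_map_inj L.subtype_injective, map_inf_cent hA]; rfl
    have e3 : Nat.card (VV ↥L) = Nat.card (VL L) := (H2.card_map_inj L.subtype_injective _).symm
    have e4 : Nat.card ↥(CC ↥L ⊓ A.subgroupOf L) = Nat.card ↥(A ⊓ Subgroup.centralizer (VL L : Set G)) := by
      have h3 := map_inf_cent hVL (A.subgroupOf L)
      rw [VL_subgroupOf, Subgroup.map_subgroupOf_eq_of_le hA] at h3
      rw [← h3, H2.card_map_inj L.subtype_injective, inf_comm]
    rwa [e1, e2, e3, e4] at h1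
  · intro A Y hA hAc hA2 hY hYV hA1 hcard
    have hYL : Y ≤ L := by
      obtain ⟨⟨a, ha⟩, ha1⟩ := Subgroup.ne_bot_iff_exists_ne_one.mp hA1
      rw [← hY a ha (fun h => ha1 (Subtype.ext h))]
      exact inf_le_left.trans hVL
    have e1 : Nat.card (A.subgroupOf L) = Nat.card A := by
      rw [← H2.card_map_inj L.subtype_injective, Subgroup.map_subgroupOf_eq_of_le hA]
    have e3 : Nat.card (VV ↥L) = Nat.card (VL L) := (H2.card_map_inj L.subtype_injective _).symm
    have e5 : Nat.card (Y.subgroupOf L) = Nat.card Y := by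
      rw [← H2.card_map_inj L.subtype_injective, Subgroup.map_subgroupOf_eq_of_le hYL]
    have h1 := hzg.off_two (A := A.subgroupOf L) (Y := Y.subgroupOf L)
      (fun a ha b hb => Subtype.ext (hAc _ ha _ hb)) (fun a ha => Subtype.ext (hA2 _ ha)) (by
        intro a ha ha1
        have h3 := hY a.1 ha (fun h => ha1 (Subtype.ext h))
        ext v
        constructor
        · rintro ⟨hv, hvc⟩
          show (v : G) ∈ Y
          rw [← h3]
          refine ⟨⟨v, hv, rfl⟩, ?_⟩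
          show (v : G) ∈ Subgroup.centralizer _
          rw [Subgroup.mem_centralizer_singleton_iff]
          exact congrArg Subtype.val (Subgroup.mem_centralizer_singleton_iff.mp hvc)
        · intro hv
          have hv' : (v : G) ∈ Y := hv
          rw [← h3] at hv'
          refine ⟨?_, ?_⟩
          · rw [← VL_subgroupOf]; exact hv'.1
          · show v ∈ Subgroup.centralizer _
            rw [Subgroup.mem_centralizer_singleton_iff]
            exact Subtype.ext (Subgroup.mem_centralizer_singleton_iff.mp hv'.2)) (by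
        intro h
        apply hYV
        have := congrArg (fun X : Subgroup ↥L => X.map L.subtype) h
        rw [Subgroup.map_subgroupOf_eq_of_le hYL] at this
        exact this) (by
        intro h
        apply hA1
        have := congrArg (fun X : Subgroup ↥L => X.map L.subtype) h
        rwa [Subgroup.map_subgroupOf_eq_of_le hA, Subgroup.map_bot] at this) (by
        rw [e1, e3, e5]; exact hcard)
    rwa [e1, e3, e5] at h1

end Cfsg.Agent.H19.JC
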