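import Cfsg.Agent.H19.JC16

set_option autoImplicit false
set_option linter.style.haveILetI false
set_option linter.unusedVariables false
set_option linter.unusedSectionVars false

/-! `J(T)`-components, part 17: the "problem case", first half. -/

namespace Cfsg.Agent.H19.JC

open Cfsg Cfsg.Agent.H19.PGV Cfsg.Agent.H19.FF Cfsg.Agent.H19.FF.FFS
open scoped commutatorElement

variable {G : Type*} [Group G] [Finite G]

theorem C3.tri {K : Subgroup G} (h : C3 K) {k g : G} (hk : k ∈ K) (hkR : k ∉ pCoreOf 2 K) (hg : g ∈ K)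
    (hgR : g ∉ pCoreOf 2 K) : k⁻¹ * g ∈ pCoreOf 2 K ∨ k * g ∈ pCoreOf 2 K := by
  set R := pCoreOf 2 K with hR
  have hKR : K ≤ Subgroup.normalizer (R : Set G) := H18.le_normalizer_pCoreOf K
  have hz : Subgroup.zpowers k ≤ Subgroup.normalizer (R : Set G) := by
    rw [Subgroup.zpowers_le]; exact hKR hk
  have hg' : g ∈ Subgroup.zpowers k ⊔ R := by
    rw [sup_comm, h.gen hk hkR]; exact hg
  rw [H18.mem_sup_iff_of_le_normalizer' hz] at hg'
  obtain ⟨r, hr, c, ⟨n, hn⟩, hrc⟩ := hg'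
  have hn' : k ^ n = c := hn
  have hk3 : ∀ m : ℤ, k ^ (3 * m) ∈ R := by
    intro m
    rw [zpow_mul]
    have h3 : k ^ (3 : ℤ) ∈ R := by
      have := h.cube hk
      exact_mod_cast this
    exact R.zpow_mem h3 m
  have hcj : ∀ r ∈ R, k⁻¹ * r * k ∈ R := by
    intro r hr
    have := (Subgroup.mem_normalizer_iff.mp (hKR (K.inv_mem hk)) r).mp hr
    rwa [inv_inv] at this
  have hcj' : ∀ r ∈ R, k * r * k⁻¹ ∈ R := fun r hr => (Subgroup.mem_normalizer_iff.mp (hKR hk) r).mp hr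
  have hmod : n % 3 = 0 ∨ n % 3 = 1 ∨ n % 3 = 2 := by omega
  rcases hmod with h0 | h1 | h2
  · exfalso
    apply hgR
    have e : n = 3 * (n / 3) := by omega
    rw [← hrc, ← hn', e]
    exact R.mul_mem hr (hk3 _)
  · left
    have e : n = 3 * (n / 3) + 1 := by omega
    have e2 : k⁻¹ * g = (k⁻¹ * r * k) * (k⁻¹ * k ^ n) := by rw [← hrc, ← hn']; group
    have e3 : k⁻¹ * k ^ n = k ^ (3 * (n / 3)) := by
      conv_lhs => rw [e]
      rw [← zpow_neg_one, ← zpow_add]; congr 1; ring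
    rw [e2, e3]
    exact R.mul_mem (hcj r hr) (hk3 _)
  · right
    have e : n = 3 * (n / 3) + 2 := by omega
    have e2 : k * g = (k * r * k⁻¹) * (k * k ^ n) := by rw [← hrc, ← hn']; group
    have e3 : k * k ^ n = k ^ (3 * (n / 3 + 1)) := by
      conv_lhs => rw [e]
      rw [← zpow_one_add]; congr 1; ring
    rw [e2, e3]
    exact R.mul_mem (hcj' r hr) (hk3 _)

theorem card_le_sq {V Y : Subgroup G} {t : G} (ht : t * t = 1) (hVc : ∀ a ∈ V, ∀ b ∈ V, a * b = b * a)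
    (hV2 : ∀ a ∈ V, a * a = 1) (htV : t ∈ Subgroup.normalizer (V : Set G))
    (hY : V ⊓ Subgroup.centralizer ({t} : Set G) = Y) : Nat.card V ≤ Nat.card Y * Nat.card Y := by
  have hcj : ∀ v ∈ V, t * v * t⁻¹ ∈ V := fun v hv => (Subgroup.mem_normalizer_iff.mp htV v).mp hv
  let f : V →* G := MonoidHom.mk' (fun v => v.1 * (t * v.1⁻¹ * t⁻¹)) (by
    rintro ⟨a, ha⟩ ⟨b, hb⟩
    show a * b * (t * (a * b)⁻¹ * t⁻¹) = a * (t * a⁻¹ * t⁻¹) * (b * (t * b⁻¹ * t⁻¹))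
    have h1 := hVc b hb (t * a⁻¹ * t⁻¹) (hcj _ (V.inv_mem ha))
    have h3 := hVc a⁻¹ (V.inv_mem ha) b⁻¹ (V.inv_mem hb)
    calc a * b * (t * (a * b)⁻¹ * t⁻¹) = a * b * (t * (b⁻¹ * a⁻¹) * t⁻¹) := by group
      _ = a * (b * (t * a⁻¹ * t⁻¹)) * (t * b⁻¹ * t⁻¹) := by rw [← h3]; group
      _ = _ := by rw [h1]; group)
  have hf : ∀ v : V, f v = v.1 * (t * v.1⁻¹ * t⁻¹) := fun v => rfl
  have hker : Nat.card f.ker = Nat.card Y := by
    have e : f.ker.map V.subtype = Y := by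
      rw [← hY]
      ext y
      constructor
      · rintro ⟨⟨v, hv⟩, hvk, rfl⟩
        refine ⟨hv, ?_⟩
        show v ∈ Subgroup.centralizer _
        rw [Subgroup.mem_centralizer_singleton_iff]
        have h1 : v * (t * v⁻¹ * t⁻¹) = 1 := hvk
        have h3 : v = t * v * t⁻¹ := by
          calc v = v * (t * v⁻¹ * t⁻¹) * (t * v * t⁻¹) := by group
            _ = _ := by rw [h1, one_mul]
        calc v * t = (t * v * t⁻¹) * t := by rw [← h3]
          _ = t * v := by group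
      · rintro ⟨hv, hvt⟩
        refine ⟨⟨y, hv⟩, ?_, rfl⟩
        show y * (t * y⁻¹ * t⁻¹) = 1
        have h1 := Subgroup.mem_centralizer_singleton_iff.mp hvt
        calc y * (t * y⁻¹ * t⁻¹) = (y * t) * y⁻¹ * t⁻¹ := by group
          _ = 1 := by rw [h1]; group
    rw [← e, H2.card_map_inj V.subtype_injective]
  have hran : f.range ≤ Y := by
    rintro _ ⟨⟨v, hv⟩, rfl⟩
    rw [← hY, hf]
    have hw : v * (t * v⁻¹ * t⁻¹) ∈ V := V.mul_mem hv (hcj _ (V.inv_mem hv))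
    refine ⟨hw, ?_⟩
    show _ ∈ Subgroup.centralizer _
    rw [Subgroup.mem_centralizer_singleton_iff]
    have hv2 : v⁻¹ = v := inv_eq_of_mul_eq_one_left (hV2 v hv)
    have ht2 : t⁻¹ = t := inv_eq_of_mul_eq_one_left ht
    have h1 := hVc v hv (t * v * t⁻¹) (hcj v hv)
    show v * (t * v⁻¹ * t⁻¹) * t = t * (v * (t * v⁻¹ * t⁻¹))
    rw [hv2]
    calc v * (t * v * t⁻¹) * t = (t * v * t⁻¹) * v * t := by rw [h1]
      _ = t * (v * (t⁻¹ * v * t)) := by group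
      _ = t * (v * (t * v * t⁻¹)) := by rw [ht2]
  have h1 : Nat.card V = Nat.card f.range * Nat.card f.ker := by
    rw [← Subgroup.index_ker, mul_comm, Subgroup.card_mul_index]
  rw [h1, hker]
  exact Nat.mul_le_mul_right _ (Subgroup.card_le_of_le hran)

/-- the data of the problem case -/
structure PB (S L V T K L' : Subgroup G) (z k x : G) : Prop where
  hV : VS S L V
  S2 : IsPGroup 2 S
  SL : S ≤ L
  TS : T ≤ S
  u : UQ T K L'
  TK : T ≤ Subgroup.normalizer (K : Set G)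
  zV : z ∈ V
  z1 : z ≠ 1
  zz : z * z = 1
  zS : ∀ s ∈ S, s * z = z * s
  zT : z ∈ T
  zQ : z ∈ pCoreOf 2 L'
  zK : z ∉ Subgroup.centralizer (K : Set G)
  kK : k ∈ K
  kR : k ∉ pCoreOf 2 K
  RT : pCoreOf 2 K ≤ T
  xS : x ∈ S
  xN : x ∈ Subgroup.normalizer (T : Set G)
  xT : x ∉ T
  KL : ∀ g ∈ K, g ∉ pCoreOf 2 K → g ∉ L
  znot : ∀ g : G, g ∉ L → g * z * g⁻¹ ∉ V
  meet : ∀ w, w ∈ cg k V → w ∈ cg k⁻¹ V → (∀ t ∈ T, t * w = w * t) → w ≠ 1 → False
  Lz : ∃ l ∈ L, l * z ≠ z * l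

namespace PB

variable {S L V T K L' : Subgroup G} {z k x : G}

theorem c3 (h : PB S L V T K L' z k x) : C3 K := comp_c3 h.u.comp

theorem TL (h : PB S L V T K L' z k x) : T ≤ L := h.TS.trans h.SL

theorem T2 (h : PB S L V T K L' z k x) : IsPGroup 2 T := h.S2.to_le h.TS

theorem kiK (h : PB S L V T K L' z k x) : k⁻¹ ∈ K := K.inv_mem h.kK

theorem kiR (h : PB S L V T K L' z k x) : k⁻¹ ∉ pCoreOf 2 K := fun h1 => h.kR (by simpa using Subgroup.inv_mem _ h1)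

theorem kL (h : PB S L V T K L' z k x) : k ∉ L := h.KL k h.kK h.kR

theorem kiL (h : PB S L V T K L' z k x) : k⁻¹ ∉ L := h.KL _ h.kiK h.kiR

theorem cgL (h : PB S L V T K L' z k x) {l : G} (hl : l ∈ L) : cg l V = V := cg_eq (h.hV.LN hl)

theorem cgR (h : PB S L V T K L' z k x) {r g : G} (hr : r ∈ L) : cg (g * r) V = cg g V := by rw [cg_mul, h.cgL hr]

theorem RL (h : PB S L V T K L' z k x) : pCoreOf 2 K ≤ L := h.RT.trans h.TL

theorem KR (h : PB S L V T K L' z k x) : K ≤ Subgroup.normalizer (pCoreOf 2 K : Set G) := H18.le_normalizer_pCoreOf K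

theorem TR (h : PB S L V T K L' z k x) : T ≤ Subgroup.normalizer (pCoreOf 2 K : Set G) :=
  h.TK.trans (H18.normalizer_le_normalizer_pCoreOf K)

theorem conjR (h : PB S L V T K L' z k x) {g r : G} (hg : g ∈ K) (hr : r ∈ pCoreOf 2 K) : g * r * g⁻¹ ∈ pCoreOf 2 K :=
  (Subgroup.mem_normalizer_iff.mp (h.KR hg) r).mp hr

theorem conjR' (h : PB S L V T K L' z k x) {g r : G} (hg : g ∈ K) (hr : r ∈ pCoreOf 2 K) : g⁻¹ * r * g ∈ pCoreOf 2 K := by
  have := h.conjR (K.inv_mem hg) hr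
  rwa [inv_inv] at this

/-- the conjugates of `V` -/
theorem cgK (h : PB S L V T K L' z k x) {g : G} (hg : g ∈ K) (hgR : g ∉ pCoreOf 2 K) : cg g V = cg k V ∨ cg g V = cg k⁻¹ V := by
  rcases C3.tri h.c3 h.kK h.kR hg hgR with h1 | h1
  · left
    have e : g = k * (k⁻¹ * g) := by group
    rw [e, h.cgR (h.RL h1)]
  · right
    have e : g = k⁻¹ * (k * g) := by group
    rw [e, h.cgR (h.RL h1)]

theorem kk (h : PB S L V T K L' z k x) : cg k (cg k V) = cg k⁻¹ V := by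
  rw [← cg_mul]
  have e : k * k = k⁻¹ * k ^ 3 := by rw [pow_three']; group
  rw [e, h.cgR (h.RL (h.c3.cube h.kK))]

theorem kk' (h : PB S L V T K L' z k x) : cg k (cg k⁻¹ V) = V := cg_inv'

theorem kik (h : PB S L V T K L' z k x) : cg k⁻¹ (cg k V) = V := cg_inv

theorem kiki (h : PB S L V T K L' z k x) : cg k⁻¹ (cg k⁻¹ V) = cg k V := by
  rw [← h.kk, cg_inv]

theorem conjK (h : PB S L V T K L' z k x) {t g : G} (ht : t ∈ T) (hg : g ∈ K) : t * g * t⁻¹ ∈ K :=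
  (Subgroup.mem_normalizer_iff.mp (h.TK ht) g).mp hg

theorem conjTR (h : PB S L V T K L' z k x) {t g : G} (ht : t ∈ T) (hg : g ∈ pCoreOf 2 K) : t * g * t⁻¹ ∈ pCoreOf 2 K :=
  (Subgroup.mem_normalizer_iff.mp (h.TR ht) g).mp hg

theorem conjKR (h : PB S L V T K L' z k x) {t g : G} (ht : t ∈ T) (hg : g ∉ pCoreOf 2 K) : t * g * t⁻¹ ∉ pCoreOf 2 K := by
  intro h1
  apply hg
  exact (Subgroup.mem_normalizer_iff.mp (h.TR ht) g).mpr h1

/-- `t` fixes or swaps -/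
theorem swap (h : PB S L V T K L' z k x) {t : G} (ht : t ∈ T) :
    (k⁻¹ * (t * k * t⁻¹) ∈ pCoreOf 2 K ∧ cg t (cg k V) = cg k V ∧ cg t (cg k⁻¹ V) = cg k⁻¹ V) ∨
    (k⁻¹ * (t * k * t⁻¹) ∉ pCoreOf 2 K ∧ k * (t * k * t⁻¹) ∈ pCoreOf 2 K ∧ cg t (cg k V) = cg k⁻¹ V ∧ cg t (cg k⁻¹ V) = cg k V) := by
  have h1 := h.conjK ht h.kK
  have h3 := h.conjKR ht h.kR
  have e1 : ∀ g : G, cg t (cg g V) = cg (t * g * t⁻¹) V := by
    intro g
    have e : t * g = (t * g * t⁻¹) * t := by group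
    calc cg t (cg g V) = cg (t * g) V := (cg_mul _ _ _).symm
      _ = cg ((t * g * t⁻¹) * t) V := by rw [← e]
      _ = _ := h.cgR (h.TL ht)
  by_cases hc : k⁻¹ * (t * k * t⁻¹) ∈ pCoreOf 2 K
  · left
    refine ⟨hc, ?_, ?_⟩
    · rw [e1]
      have e : t * k * t⁻¹ = k * (k⁻¹ * (t * k * t⁻¹)) := by group
      rw [e, h.cgR (h.RL hc)]
    · rw [e1]
      have h4 := h.conjR h.kK (Subgroup.inv_mem _ hc)
      have e : t * k⁻¹ * t⁻¹ = k⁻¹ * (k * (k⁻¹ * (t * k * t⁻¹))⁻¹ * k⁻¹) := by group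
      rw [e, h.cgR (h.RL h4)]
  · right
    have hc' := (C3.tri h.c3 h.kK h.kR h1 h3).resolve_left hc
    refine ⟨hc, hc', ?_, ?_⟩
    · rw [e1]
      have e : t * k * t⁻¹ = k⁻¹ * (k * (t * k * t⁻¹)) := by group
      rw [e, h.cgR (h.RL hc')]
    · rw [e1]
      have h4 := h.conjR' h.kK (Subgroup.inv_mem _ hc')
      have e : t * k⁻¹ * t⁻¹ = k * (k⁻¹ * (k * (t * k * t⁻¹))⁻¹ * k) := by group
      rw [e, h.cgR (h.RL h4)]

/-- some `a ∈ A' ∈ 𝒜(T)` swaps -/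
theorem exists_swap (h : PB S L V T K L' z k x) : ∃ A, H2.EAIn 2 T A ∧ ∃ a ∈ A, k⁻¹ * (a * k * a⁻¹) ∉ pCoreOf 2 K := by
  by_contra hcon
  push Not at hcon
  set R := pCoreOf 2 K with hR
  let D : Subgroup G :=
    { carrier := {t | t ∈ T ∧ k⁻¹ * (t * k * t⁻¹) ∈ R}
      mul_mem' := by
        rintro a b ⟨ha, ha'⟩ ⟨hb, hb'⟩
        refine ⟨T.mul_mem ha hb, ?_⟩
        have h1 := R.mul_mem ha' (h.conjTR ha hb')
        have e : k⁻¹ * (a * k * a⁻¹) * (a * (k⁻¹ * (b * k * b⁻¹)) * a⁻¹) = k⁻¹ * (a * b * k * (a * b)⁻¹) := by group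
        rwa [e] at h1
      one_mem' := ⟨T.one_mem, by
        have e : k⁻¹ * (1 * k * 1⁻¹) = 1 := by group
        rw [e]; exact R.one_mem⟩
      inv_mem' := by
        rintro a ⟨ha, ha'⟩
        refine ⟨T.inv_mem ha, ?_⟩
        have h1 := h.conjTR (T.inv_mem ha) (R.inv_mem ha')
        have e : a⁻¹ * (k⁻¹ * (a * k * a⁻¹))⁻¹ * a⁻¹⁻¹ = k⁻¹ * (a⁻¹ * k * a⁻¹⁻¹) := by group
        rwa [e] at h1 }
  have hJD : thompsonSubgroupOf 2 T ≤ D := by
    rw [H2.thompsonSubgroupOf_eq]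
    exact sSup_le fun A hA a ha => ⟨hA.1 ha, hcon A hA a ha⟩
  let E : Subgroup G :=
    { carrier := {g | g ∈ K ∧ ∀ j ∈ thompsonSubgroupOf 2 T, g⁻¹ * (j * g * j⁻¹) ∈ R}
      mul_mem' := by
        rintro a b ⟨ha, ha'⟩ ⟨hb, hb'⟩
        refine ⟨K.mul_mem ha hb, fun j hj => ?_⟩
        have h1 := R.mul_mem (h.conjR' hb (ha' j hj)) (hb' j hj)
        have e : b⁻¹ * (a⁻¹ * (j * a * j⁻¹)) * b * (b⁻¹ * (j * b * j⁻¹)) = (a * b)⁻¹ * (j * (a * b) * j⁻¹) := by group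
        rwa [e] at h1
      one_mem' := ⟨K.one_mem, fun j _ => by
        have e : (1 : G)⁻¹ * (j * 1 * j⁻¹) = 1 := by group
        rw [e]; exact R.one_mem⟩
      inv_mem' := by
        rintro a ⟨ha, ha'⟩
        refine ⟨K.inv_mem ha, fun j hj => ?_⟩
        have h1 := h.conjR ha (R.inv_mem (ha' j hj))
        have e : a * (a⁻¹ * (j * a * j⁻¹))⁻¹ * a⁻¹ = a⁻¹⁻¹ * (j * a⁻¹ * j⁻¹) := by group
        rwa [e] at h1 }
  have hJT := H2.thompsonSubgroupOf_le 2 T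
  have hKE : K ≤ E := by
    rw [← h.c3.gen h.kK h.kR]
    apply sup_le
    · intro r hr
      exact ⟨H18.pCoreOf_le K hr, fun j hj => R.mul_mem (R.inv_mem hr) (h.conjTR (hJT hj) hr)⟩
    · rw [Subgroup.zpowers_le]
      exact ⟨h.kK, fun j hj => (hJD hj).2⟩
  apply h.c3.ne_pcore
  apply le_antisymm (H18.pCoreOf_le K)
  have h6 : ⁅K, thompsonSubgroupOf 2 T⁆ ≤ R := by
    rw [Subgroup.commutator_le]
    intro g hg j hj
    rw [commutatorElement_def]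
    have h1 := (hKE (K.inv_mem hg)).2 j hj
    have e : g⁻¹⁻¹ * (j * g⁻¹ * j⁻¹) = g * j * g⁻¹ * j⁻¹ := by group
    rwa [e] at h1
  rwa [h.u.comp.2.1] at h6

/-- `V₁ ∩ V₂ = 1` -/
theorem inf12 (h : PB S L V T K L' z k x) : cg k V ⊓ cg k⁻¹ V = ⊥ := by
  by_contra hne
  have hP : IsPGroup 2 ↥(cg k V ⊓ cg k⁻¹ V) := ((h.S2.to_le h.hV.VleS).map _).to_le inf_le_left
  obtain ⟨w, hw, hw1, hwT⟩ := exists_fixed hP h.T2 hne (by
    intro t ht
    apply mem_norm_of_le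
    rintro y ⟨hy1, hy2⟩
    rcases h.swap ht with ⟨-, h1, h3⟩ | ⟨-, -, h1, h3⟩
    · exact ⟨by rw [← h1]; exact cg_mem hy1, by rw [← h3]; exact cg_mem hy2⟩
    · exact ⟨by rw [← h3]; exact cg_mem hy2, by rw [← h1]; exact cg_mem hy1⟩)
  exact h.meet w hw.1 hw.2 hwT hw1

theorem inf1 (h : PB S L V T K L' z k x) : V ⊓ cg k V = ⊥ := by
  rw [eq_bot_iff]
  rintro v ⟨h1, h3⟩
  have h4 : k * v * k⁻¹ ∈ cg k V ⊓ cg k⁻¹ V := ⟨cg_mem h1, by rw [← h.kk]; exact cg_mem h3⟩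
  rw [h.inf12, Subgroup.mem_bot] at h4
  rw [Subgroup.mem_bot]
  have := congrArg (fun s => k⁻¹ * s * k) h4
  simpa [mul_assoc] using this

theorem inf2 (h : PB S L V T K L' z k x) : V ⊓ cg k⁻¹ V = ⊥ := by
  rw [eq_bot_iff]
  rintro v ⟨h1, h3⟩
  have h4 : k⁻¹ * v * k⁻¹⁻¹ ∈ cg k V ⊓ cg k⁻¹ V := ⟨by rw [← h.kiki]; exact cg_mem h3, cg_mem h1⟩
  rw [h.inf12, Subgroup.mem_bot] at h4
  rw [Subgroup.mem_bot]
  have := congrArg (fun s => k * s * k⁻¹) h4
  simpa [mul_assoc] using this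

theorem kL' (h : PB S L V T K L' z k x) : k ∈ L' := h.u.KL h.kK

theorem conjQ (h : PB S L V T K L' z k x) {g : G} (hg : g ∈ L') : g * z * g⁻¹ ∈ pCoreOf 2 L' :=
  (Subgroup.mem_normalizer_iff.mp (H18.le_normalizer_pCoreOf (p := 2) L' hg) z).mp h.zQ

theorem conjzL (h : PB S L V T K L' z k x) {g : G} (hg : g ∈ L') : g * z * g⁻¹ ∈ L := h.TL (h.u.core_le (h.conjQ hg))

/-- `N(V₁)` -/
theorem normV1 (h : PB S L V T K L' z k x) : Subgroup.normalizer (cg k V : Set G) = cg k L := by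
  rw [norm_conj]
  show cg k _ = cg k L
  rw [le_antisymm h.hV.NL h.hV.LN]

theorem normV (h : PB S L V T K L' z k x) : Subgroup.normalizer (V : Set G) = L := le_antisymm h.hV.NL h.hV.LN

abbrev Vs (V : Subgroup G) (k : G) : Subgroup G := V ⊓ Subgroup.normalizer (cg k V : Set G)
abbrev Vt (V : Subgroup G) (k : G) : Subgroup G := cg k V ⊓ Subgroup.normalizer (V : Set G)

theorem comm_st (h : PB S L V T K L' z k x) {a b : G} (ha : a ∈ Vs V k) (hb : b ∈ Vt V k) : a * b = b * a := by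
  have h1 : a * b * a⁻¹ * b⁻¹ ∈ V ⊓ cg k V := by
    constructor
    · have e : a * b * a⁻¹ * b⁻¹ = a * (b * a⁻¹ * b⁻¹) := by group
      rw [e]
      exact V.mul_mem ha.1 ((Subgroup.mem_normalizer_iff.mp hb.2 _).mp (V.inv_mem ha.1))
    · exact Subgroup.mul_mem _ ((Subgroup.mem_normalizer_iff.mp ha.2 _).mp hb.1) (Subgroup.inv_mem _ hb.1)
  rw [h.inf1, Subgroup.mem_bot] at h1
  calc a * b = (a * b * a⁻¹ * b⁻¹) * (b * a) := by group
    _ = b * a := by rw [h1, one_mul]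

theorem z_mem (h : PB S L V T K L' z k x) : z ∈ Vs V k := by
  refine ⟨h.zV, ?_⟩
  show z ∈ Subgroup.normalizer _
  rw [h.normV1, mem_cg]
  have h1 := h.conjzL (L'.inv_mem h.kL')
  rwa [inv_inv] at h1

theorem z'_mem (h : PB S L V T K L' z k x) : k * z * k⁻¹ ∈ Vt V k := ⟨cg_mem h.zV, h.hV.LN (h.conjzL h.kL')⟩

theorem cent_Vt (h : PB S L V T K L' z k x) {y : G} (hy : y ∈ Vt V k) (hy1 : y ≠ 1) :
    V ⊓ Subgroup.centralizer ({y} : Set G) = Vs V k := by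
  apply le_antisymm
  · rintro v ⟨hv, hvy⟩
    refine ⟨hv, ?_⟩
    show v ∈ Subgroup.normalizer _
    rw [h.normV1, mem_cg]
    have hvy' := Subgroup.mem_centralizer_singleton_iff.mp hvy
    have h1 := mem_cg.mp hy.1
    have hne : k⁻¹ * y * k ≠ 1 := by
      intro h3; apply hy1
      have := congrArg (fun s => k * s * k⁻¹) h3
      simpa [mul_assoc] using this
    apply h.hV.cent _ h1 hne
    rw [Subgroup.mem_centralizer_singleton_iff]
    calc k⁻¹ * v * k * (k⁻¹ * y * k) = k⁻¹ * (v * y) * k := by group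
      _ = _ := by rw [hvy']; group
  · intro v hv
    refine ⟨hv.1, ?_⟩
    show v ∈ Subgroup.centralizer _
    rw [Subgroup.mem_centralizer_singleton_iff]
    exact h.comm_st hv hy

theorem card_st (h : PB S L V T K L' z k x) : Nat.card (Vt V k) = Nat.card (Vs V k) := by
  obtain ⟨A, hA, t, htA, ht⟩ := h.exists_swap
  have htT := hA.1 htA
  rcases h.swap htT with ⟨h1, -, -⟩ | ⟨-, -, h3, h4⟩
  · exact absurd h1 ht
  have e1 : cg (k * t) V = cg k V := h.cgR (h.TL htT)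
  have e2 : cg (k * t) (cg k V) = V := by rw [cg_mul, h3, h.kk']
  have e3 : cg (k * t) (Vs V k) = Vt V k := by
    show (V ⊓ Subgroup.normalizer (cg k V : Set G)).map _ = _
    rw [Subgroup.map_inf _ _ _ (MulAut.conj (k * t)).injective]
    have e4 : (Subgroup.normalizer (cg k V : Set G)).map (MulAut.conj (k * t)).toMonoidHom =
        Subgroup.normalizer (V : Set G) := by
      rw [← norm_conj]
      show Subgroup.normalizer ((cg (k * t) (cg k V) : Subgroup G) : Set G) = _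
      rw [e2]
    rw [e4]
    show cg (k * t) V ⊓ _ = _
    rw [e1]
  rw [← e3, card_cg]

theorem card_sq (h : PB S L V T K L' z k x) : Nat.card V ≤ Nat.card (Vs V k) * Nat.card (Vs V k) := by
  have h1 : k * z * k⁻¹ ≠ 1 := by
    intro h3; apply h.z1
    have := congrArg (fun s => k⁻¹ * s * k) h3
    simpa [mul_assoc] using this
  apply card_le_sq (t := k * z * k⁻¹) _ h.hV.comm h.hV.sq h.z'_mem.2 (h.cent_Vt h.z'_mem h1)
  calc k * z * k⁻¹ * (k * z * k⁻¹) = k * (z * z) * k⁻¹ := by group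
    _ = 1 := by rw [h.zz]; group

theorem V1_comm (h : PB S L V T K L' z k x) : ∀ a ∈ cg k V, ∀ b ∈ cg k V, a * b = b * a := by
  rintro _ ⟨a, ha, rfl⟩ _ ⟨b, hb, rfl⟩
  have h1 := h.hV.comm a ha b hb
  show k * a * k⁻¹ * (k * b * k⁻¹) = k * b * k⁻¹ * (k * a * k⁻¹)
  calc k * a * k⁻¹ * (k * b * k⁻¹) = k * (a * b) * k⁻¹ := by group
    _ = _ := by rw [h1]; group

theorem V1_sq (h : PB S L V T K L' z k x) : ∀ a ∈ cg k V, a ^ 2 = 1 := by
  rintro _ ⟨a, ha, rfl⟩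
  have h1 := h.hV.sq a ha
  show (k * a * k⁻¹) ^ 2 = 1
  rw [conj_pow, pow_two, h1]; group

/-- case 1: `|V| = 4` -/
theorem case_one (h : PB S L V T K L' z k x) (hne : Vs V k ≠ V) : Nat.card V = 4 ∧ Nat.card (Vs V k) = 2 ∧ Nat.card (Vt V k) = 2 := by
  have hA1 : Vt V k ≠ ⊥ := by
    intro h1
    have h3 := h.z'_mem
    rw [h1, Subgroup.mem_bot] at h3
    apply h.z1
    have := congrArg (fun s => k⁻¹ * s * k) h3
    simpa [mul_assoc] using this
  obtain ⟨h1, h3⟩ := h.hV.two (Vt V k) (Vs V k) (inf_le_right.trans h.hV.NL)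
    (fun a ha b hb => h.V1_comm a ha.1 b hb.1) (fun a ha => h.V1_sq a ha.1)
    (fun a ha ha1 => h.cent_Vt ha ha1) hne hA1 (by rw [h.card_st]; exact h.card_sq)
  have h4 := h.card_st
  rw [h3] at h4
  exact ⟨by rw [← h1, ← h4], h4.symm, h3⟩

end PB

end Cfsg.Agent.H19.JC
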