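import Cfsg.Agent.H19.JC17

set_option autoImplicit false
set_option linter.style.haveILetI false
set_option linter.unusedVariables false
set_option linter.unusedSectionVars false

/-! `J(T)`-components, part 18: the "problem case", second half. -/

namespace Cfsg.Agent.H19.JC

open Cfsg Cfsg.Agent.H19.PGV Cfsg.Agent.H19.FF Cfsg.Agent.H19.FF.FFS
open scoped commutatorElement

variable {G : Type*} [Group G] [Finite G]

namespace UQ

variable {T K L : Subgroup G}

theorem sub_T (hu : UQ T K L) {R : Subgroup G} (hR : IsPGroup 2 R) (hRL : R ≤ L)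
    (hRN : R ≤ Subgroup.normalizer (T : Set G)) : R ≤ T := by
  haveI h2 : Fact (Nat.Prime 2) := ⟨Nat.prime_two⟩
  have h4 : IsPGroup 2 (T ⊔ R : Subgroup G) := by
    rw [sup_comm]; exact H18.isPGroup_sup_of_le_normalizer hR hu.T2 hRN
  have h5 := IsSylowOf.eq_of_le hu.syl (Q := T ⊔ R) le_sup_left (sup_le hu.TL hRL) h4
  exact le_sup_right.trans h5.le

theorem sub_T' (hu : UQ T K L) {R : Subgroup G} (hR : IsPGroup 2 R) (hRL : R ≤ L)
    (hRN : T ≤ Subgroup.normalizer (R : Set G)) : R ≤ T := by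
  haveI h2 : Fact (Nat.Prime 2) := ⟨Nat.prime_two⟩
  have h4 : IsPGroup 2 (T ⊔ R : Subgroup G) := H18.isPGroup_sup_of_le_normalizer hu.T2 hR hRN
  have h5 := IsSylowOf.eq_of_le hu.syl (Q := T ⊔ R) le_sup_left (sup_le hu.TL hRL) h4
  exact le_sup_right.trans h5.le

end UQ

namespace PB

variable {S L V T K L' : Subgroup G} {z k x : G}

/-- the subgroup generated by the conjugates of `z` -/
def U0 (K : Subgroup G) (z : G) : Subgroup G := Subgroup.closure {y | ∃ g ∈ K, y = g * z * g⁻¹}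

theorem U0_le {X : Subgroup G} (hX : ∀ g ∈ K, g * z * g⁻¹ ∈ X) : U0 K z ≤ X := by
  unfold U0
  rw [Subgroup.closure_le]
  rintro _ ⟨g, hg, rfl⟩
  exact hX g hg

theorem gz_mem {g : G} (hg : g ∈ K) : g * z * g⁻¹ ∈ U0 K z := Subgroup.subset_closure ⟨g, hg, rfl⟩

theorem z_U0 : z ∈ U0 K z := by
  have := gz_mem (K := K) (z := z) K.one_mem
  simpa using this

theorem K_U0 : K ≤ Subgroup.normalizer (U0 K z : Set G) := by
  intro a ha
  apply mem_norm_of_le
  intro u hu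
  have h1 : U0 K z ≤ (U0 K z).comap (MulAut.conj a).toMonoidHom := by
    apply U0_le
    intro g hg
    show a * (g * z * g⁻¹) * a⁻¹ ∈ U0 K z
    have e : a * (g * z * g⁻¹) * a⁻¹ = (a * g) * z * (a * g)⁻¹ := by group
    rw [e]
    exact gz_mem (K.mul_mem ha hg)
  exact h1 hu

theorem T_U0 (h : PB S L V T K L' z k x) : T ≤ Subgroup.normalizer (U0 K z : Set G) := by
  intro t ht
  apply mem_norm_of_le
  intro u hu
  have h1 : U0 K z ≤ (U0 K z).comap (MulAut.conj t).toMonoidHom := by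
    apply U0_le
    intro g hg
    show t * (g * z * g⁻¹) * t⁻¹ ∈ U0 K z
    have h3 := h.zS t (h.TS ht)
    have e : t * (g * z * g⁻¹) * t⁻¹ = (t * g * t⁻¹) * z * (t * g * t⁻¹)⁻¹ := by
      calc t * (g * z * g⁻¹) * t⁻¹ = (t * g * t⁻¹) * (t * z) * g⁻¹ * t⁻¹ := by group
        _ = _ := by rw [h3]; group
    rw [e]
    exact gz_mem (h.conjK ht hg)
  exact h1 hu

theorem U0_Q (h : PB S L V T K L' z k x) : U0 K z ≤ pCoreOf 2 L' := U0_le fun g hg => h.conjQ (h.u.KL hg)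

theorem U0_ne (h : PB S L V T K L' z k x) : U0 K z ≠ ⊥ := by
  intro h1
  apply h.z1
  rw [← Subgroup.mem_bot, ← h1]
  exact z_U0

theorem local_le (h : PB S L V T K L' z k x) {D : Subgroup G} (hD : IsPGroup 2 D) (hD1 : D ≠ ⊥)
    (hKD : K ≤ Subgroup.normalizer (D : Set G)) (hTD : T ≤ Subgroup.normalizer (D : Set G)) :
    Subgroup.normalizer (D : Set G) ≤ L' :=
  h.u.uniq _ ⟨D, hD, hD1, rfl⟩ hKD ((H2.thompsonSubgroupOf_le 2 T).trans hTD)

theorem U0_norm (h : PB S L V T K L' z k x) : Subgroup.normalizer (U0 K z : Set G) ≤ L' :=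
  h.local_le ((H18.isPGroup_pCoreOf (p := 2) L').to_le h.U0_Q) h.U0_ne K_U0 h.T_U0

theorem gz_mem_cg (h : PB S L V T K L' z k x) {g : G} (hg : g ∈ K) :
    g * z * g⁻¹ ∈ V ∨ g * z * g⁻¹ ∈ cg k V ∨ g * z * g⁻¹ ∈ cg k⁻¹ V := by
  by_cases hgR : g ∈ pCoreOf 2 K
  · left
    have h1 := h.zS g (h.TS (h.RT hgR))
    rw [h1, mul_inv_cancel_right]; exact h.zV
  · right
    have h1 : g * z * g⁻¹ ∈ cg g V := cg_mem h.zV
    rcases h.cgK hg hgR with h3 | h3
    · left; rwa [h3] at h1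
    · right; rwa [h3] at h1

theorem card_V1 (h : PB S L V T K L' z k x) (g : G) : Nat.card (cg g V) = Nat.card V := card_cg g V

/-- `Vs = V` is impossible -/
theorem case_two (h : PB S L V T K L' z k x) (heq : Vs V k = V) : False := by
  haveI h2 : Fact (Nat.Prime 2) := ⟨Nat.prime_two⟩
  have hVt : Vt V k = cg k V := by
    apply Subgroup.eq_of_le_of_card_ge inf_le_left
    rw [h.card_st, heq, card_cg]
  have c01 : ∀ a ∈ V, ∀ b ∈ cg k V, a * b = b * a := fun a ha b hb =>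
    h.comm_st (by rw [heq]; exact ha) (by rw [hVt]; exact hb)
  have c12 : ∀ a ∈ cg k V, ∀ b ∈ cg k⁻¹ V, a * b = b * a := by
    rintro _ ⟨a, ha, rfl⟩ b hb
    rw [← h.kk] at hb
    obtain ⟨b, hb, rfl⟩ := hb
    have h1 := c01 a ha b hb
    show k * a * k⁻¹ * (k * b * k⁻¹) = k * b * k⁻¹ * (k * a * k⁻¹)
    calc k * a * k⁻¹ * (k * b * k⁻¹) = k * (a * b) * k⁻¹ := by group
      _ = _ := by rw [h1]; group
  have c02 : ∀ a ∈ V, ∀ b ∈ cg k⁻¹ V, a * b = b * a := by
    intro a ha b hb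
    rw [← h.kk'] at ha
    obtain ⟨a, ha, rfl⟩ := ha
    rw [← h.kk] at hb
    obtain ⟨b, hb, rfl⟩ := hb
    have h1 := c12 b hb a ha
    show k * a * k⁻¹ * (k * b * k⁻¹) = k * b * k⁻¹ * (k * a * k⁻¹)
    calc k * a * k⁻¹ * (k * b * k⁻¹) = k * (a * b) * k⁻¹ := by group
      _ = _ := by rw [← h1]; group
  set V1 := cg k V with hV1
  set V2 := cg k⁻¹ V with hV2
  have cV1 := h.V1_comm
  have cV2 : ∀ a ∈ V2, ∀ b ∈ V2, a * b = b * a := by
    rintro _ ⟨a, ha, rfl⟩ _ ⟨b, hb, rfl⟩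
    have h1 := h.hV.comm a ha b hb
    show k⁻¹ * a * k⁻¹⁻¹ * (k⁻¹ * b * k⁻¹⁻¹) = k⁻¹ * b * k⁻¹⁻¹ * (k⁻¹ * a * k⁻¹⁻¹)
    calc k⁻¹ * a * k⁻¹⁻¹ * (k⁻¹ * b * k⁻¹⁻¹) = k⁻¹ * (a * b) * k⁻¹⁻¹ := by group
      _ = _ := by rw [h1]; group
  have sV2 : ∀ a ∈ V2, a ^ 2 = 1 := by
    rintro _ ⟨a, ha, rfl⟩
    have h1 := h.hV.sq a ha
    show (k⁻¹ * a * k⁻¹⁻¹) ^ 2 = 1
    rw [conj_pow, pow_two, h1]; group
  have eV1 : IsElementaryAbelian 2 V1 := H20.isElementaryAbelian_iff.mpr ⟨cV1, h.V1_sq⟩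
  have eV2 : IsElementaryAbelian 2 V2 := H20.isElementaryAbelian_iff.mpr ⟨cV2, sV2⟩
  set X' := V1 ⊔ V2 with hX'
  have eX : IsElementaryAbelian 2 X' := H2.isElementaryAbelian_sup eV1 eV2 c12
  have hXc : ∀ a ∈ X', ∀ b ∈ X', a * b = b * a := fun a ha b hb =>
    congrArg Subtype.val (eX.1.is_comm.comm ⟨a, ha⟩ ⟨b, hb⟩)
  have cardX : Nat.card X' = Nat.card V * Nat.card V := by
    have h1 := H2.card_sup_mul_card_inf_of_comm c12
    rw [h.inf12, Subgroup.card_bot, mul_one, card_cg, card_cg] at h1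
    exact h1
  have hX2 : IsPGroup 2 X' := H20.IsElementaryAbelian.isPGroup eX
  have hXU : X' ≤ Subgroup.centralizer (U0 K z : Set G) := by
    intro y hy
    have h1 : U0 K z ≤ Subgroup.centralizer ({y} : Set G) := by
      apply U0_le
      intro g hg
      rw [Subgroup.mem_centralizer_singleton_iff]
      rcases h.gz_mem_cg hg with h3 | h3 | h3
      · have h4 : X' ≤ Subgroup.centralizer ({g * z * g⁻¹} : Set G) := by
          apply sup_le
          · intro v hv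
            rw [Subgroup.mem_centralizer_singleton_iff]
            exact (c01 _ h3 v hv).symm
          · intro v hv
            rw [Subgroup.mem_centralizer_singleton_iff]
            exact (c02 _ h3 v hv).symm
        exact (Subgroup.mem_centralizer_singleton_iff.mp (h4 hy)).symm
      · exact hXc _ (Subgroup.mem_sup_left h3) y hy
      · exact hXc _ (Subgroup.mem_sup_right h3) y hy
    rw [Subgroup.mem_centralizer_iff]
    intro u hu
    exact Subgroup.mem_centralizer_singleton_iff.mp (h1 hu)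
  have hXL' : X' ≤ L' := (hXU.trans (Subgroup.centralizer_le_normalizer _)).trans h.U0_norm
  have hcgX : ∀ t ∈ T, ∀ y ∈ X', t * y * t⁻¹ ∈ X' := by
    intro t ht y hy
    have h1 : cg t X' = X' := by
      rcases h.swap ht with ⟨-, h1, h3⟩ | ⟨-, -, h1, h3⟩
      · show (V1 ⊔ V2).map _ = V1 ⊔ V2
        rw [Subgroup.map_sup]
        show cg t V1 ⊔ cg t V2 = _
        rw [h1, h3]
      · show (V1 ⊔ V2).map _ = V1 ⊔ V2
        rw [Subgroup.map_sup]
        show cg t V1 ⊔ cg t V2 = _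
        rw [h1, h3, sup_comm]
    rw [← h1]; exact cg_mem hy
  have hXT : X' ≤ T := h.u.sub_T' hX2 hXL' fun t ht => mem_norm_of_le fun y hy => hcgX t ht y hy
  obtain ⟨A, hA, a, haA, ha⟩ := h.exists_swap
  have haT := hA.1 haA
  have hsw : cg a V1 = V2 ∧ cg a V2 = V1 := by
    rcases h.swap haT with ⟨h1, -, -⟩ | ⟨-, -, h3, h4⟩
    · exact absurd h1 ha
    · exact ⟨h3, h4⟩
  have hAc := EAIn_comm hA
  set A₀ := A ⊓ Subgroup.normalizer (V1 : Set G) with hA₀
  set B := A ⊓ Subgroup.centralizer (X' : Set G) with hB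
  have i1 : Nat.card A ≤ 2 * Nat.card A₀ := by
    apply card_le_two_mul inf_le_left
    intro u hu v hv huA hvA
    refine ⟨A.mul_mem hu hv, ?_⟩
    show u * v ∈ Subgroup.normalizer _
    have key : ∀ w ∈ A, w ∉ A₀ → cg w V1 = V2 ∧ cg w V2 = V1 := by
      intro w hw hwA
      rcases h.swap (hA.1 hw) with ⟨-, h1, h3⟩ | ⟨-, -, h1, h3⟩
      · exact absurd ⟨hw, H18.mem_normalizer_iff_map.mpr h1⟩ hwA
      · exact ⟨h1, h3⟩
    rw [H18.mem_normalizer_iff_map]
    show cg (u * v) V1 = V1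
    rw [cg_mul, (key v hv hvA).1, (key u hu huA).2]
  have i2 : Nat.card X' * Nat.card B ≤ Nat.card A * Nat.card ↥(X' ⊓ A) := by
    have hXB : ∀ y ∈ X', ∀ b ∈ B, y * b = b * y := fun y hy b hb => Subgroup.mem_centralizer_iff.mp hb.2 y hy
    have hBe : IsElementaryAbelian 2 B := H18.isElementaryAbelian_mono hA.2.1 inf_le_left
    have h1 := H2.card_sup_mul_card_inf_of_comm hXB
    have h3 := hA.2.2 (X' ⊔ B) (sup_le hXT (inf_le_left.trans hA.1)) (H2.isElementaryAbelian_sup eX hBe hXB)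
    rw [← h1]
    exact Nat.mul_le_mul h3 (Subgroup.card_le_of_le (inf_le_inf_left _ inf_le_left))
  have i3 : Nat.card A₀ * Nat.card ↥(V1 ⊓ Subgroup.centralizer (A₀ : Set G)) ≤
      Nat.card V * Nat.card ↥(A₀ ⊓ Subgroup.centralizer (V1 : Set G)) := by
    have hcc : ∀ X Y : Subgroup G, Nat.card ↥(cg k⁻¹ X ⊓ Subgroup.centralizer (cg k⁻¹ Y : Set G)) =
        Nat.card ↥(X ⊓ Subgroup.centralizer (Y : Set G)) := by
      intro X Y
      have e : cg k⁻¹ (X ⊓ Subgroup.centralizer (Y : Set G)) = cg k⁻¹ X ⊓ Subgroup.centralizer (cg k⁻¹ Y : Set G) := by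
        ext y
        rw [mem_cg, Subgroup.mem_inf, Subgroup.mem_inf, mem_cent_cg, mem_cg]
      rw [← card_cg k⁻¹ (X ⊓ Subgroup.centralizer (Y : Set G)), e]
    have h1 := h.hV.off (cg k⁻¹ A₀) (by
      have h3 : A₀ ≤ cg k L := by rw [← h.normV1]; exact inf_le_right
      have h4 := cg_mono (x := k⁻¹) h3
      rwa [cg_inv] at h4) (by
      rintro _ ⟨u, hu, rfl⟩ _ ⟨v, hv, rfl⟩
      have h1 := hAc u hu.1 v hv.1
      show k⁻¹ * u * k⁻¹⁻¹ * (k⁻¹ * v * k⁻¹⁻¹) = k⁻¹ * v * k⁻¹⁻¹ * (k⁻¹ * u * k⁻¹⁻¹)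
      calc k⁻¹ * u * k⁻¹⁻¹ * (k⁻¹ * v * k⁻¹⁻¹) = k⁻¹ * (u * v) * k⁻¹⁻¹ := by group
        _ = _ := by rw [h1]; group) (by
      rintro _ ⟨u, hu, rfl⟩
      have h1 := hA.2.1.2 u hu.1
      show (k⁻¹ * u * k⁻¹⁻¹) ^ 2 = 1
      rw [conj_pow, h1]; group)
    have e0 : cg k⁻¹ V1 = V := h.kik
    have e1 := hcc V1 A₀
    have e2 := hcc A₀ V1
    rw [e0] at e1 e2
    rwa [card_cg, e1, e2] at h1
  have i4 : A₀ ⊓ Subgroup.centralizer (V1 : Set G) ≤ B := by
    rintro b ⟨hb, hb1⟩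
    refine ⟨hb.1, ?_⟩
    have h1 : X' ≤ Subgroup.centralizer ({b} : Set G) := by
      apply sup_le
      · intro v hv
        rw [Subgroup.mem_centralizer_singleton_iff]
        exact Subgroup.mem_centralizer_iff.mp hb1 v hv
      · intro v hv
        rw [← hsw.1] at hv
        obtain ⟨v, hv, rfl⟩ := hv
        rw [Subgroup.mem_centralizer_singleton_iff]
        show a * v * a⁻¹ * b = b * (a * v * a⁻¹)
        have h3 := Subgroup.mem_centralizer_iff.mp hb1 v hv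
        have h4 := hAc a haA b hb.1
        have h5 : a⁻¹ * b = b * a⁻¹ := hAc a⁻¹ (A.inv_mem haA) b hb.1
        calc a * v * a⁻¹ * b = a * v * (a⁻¹ * b) := by group
          _ = a * (v * b) * a⁻¹ := by rw [h5]; group
          _ = (a * b) * v * a⁻¹ := by rw [h3]; group
          _ = _ := by rw [h4]; group
    show b ∈ Subgroup.centralizer _
    rw [Subgroup.mem_centralizer_iff]
    intro y hy
    exact Subgroup.mem_centralizer_singleton_iff.mp (h1 hy)
  have i5 : Nat.card ↥(X' ⊓ A) ≤ Nat.card ↥(V1 ⊓ Subgroup.centralizer (A₀ : Set G)) := by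
    have hex : ∀ y : ↥(X' ⊓ A), ∃ v : ↥(V1 ⊓ Subgroup.centralizer (A₀ : Set G)), y.1 = v.1 * (a * v.1 * a⁻¹) := by
      rintro ⟨y, hyX, hyA⟩
      have hn : V2 ≤ Subgroup.normalizer (V1 : Set G) := by
        intro b hb
        apply mem_norm_of_le
        intro c hc
        have := c12 c hc b hb
        have e : b * c * b⁻¹ = c := by rw [← this]; group
        rw [e]; exact hc
      have hyX' : y ∈ V2 ⊔ V1 := by rw [sup_comm]; exact hyX
      rw [H18.mem_sup_iff_of_le_normalizer' hn] at hyX'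
      obtain ⟨v1, hv1, v2, hv2, hy⟩ := hyX'
      have huniq : ∀ u1 ∈ V1, ∀ u2 ∈ V2, ∀ w1 ∈ V1, ∀ w2 ∈ V2, u1 * u2 = w1 * w2 → u1 = w1 ∧ u2 = w2 := by
        intro u1 hu1 u2 hu2 w1 hw1 w2 hw2 heq
        have h1 : w1⁻¹ * u1 = w2 * u2⁻¹ := by
          rw [inv_mul_eq_iff_eq_mul, ← mul_assoc, eq_mul_inv_iff_mul_eq]; exact heq
        have h3 : w1⁻¹ * u1 ∈ V1 ⊓ V2 := ⟨V1.mul_mem (V1.inv_mem hw1) hu1, by
          show w1⁻¹ * u1 ∈ V2
          rw [h1]; exact V2.mul_mem hw2 (V2.inv_mem hu2)⟩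
        rw [h.inf12, Subgroup.mem_bot] at h3
        refine ⟨(inv_mul_eq_one.mp h3).symm, ?_⟩
        rw [h3] at h1
        exact (mul_inv_eq_one.mp h1.symm).symm
      have hyconj : ∀ b ∈ A, b * y * b⁻¹ = y := by
        intro b hb
        rw [hAc b hb y hyA, mul_inv_cancel_right]
      refine ⟨⟨v1, hv1, ?_⟩, ?_⟩
      · show v1 ∈ Subgroup.centralizer _
        rw [Subgroup.mem_centralizer_iff]
        intro b hb
        have hb1 : cg b V1 = V1 := cg_eq hb.2
        have hb2 : cg b V2 = V2 := by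
          rcases h.swap (hA.1 hb.1) with ⟨-, -, h3⟩ | ⟨-, -, h1, h3⟩
          · exact h3
          · exact h3.trans (hb1.symm.trans h1)
        have h1 := hyconj b hb.1
        rw [← hy] at h1
        have e : b * (v1 * v2) * b⁻¹ = (b * v1 * b⁻¹) * (b * v2 * b⁻¹) := by group
        rw [e] at h1
        have h3 := (huniq _ (by rw [← hb1]; exact cg_mem hv1) _ (by rw [← hb2]; exact cg_mem hv2) _ hv1 _ hv2 h1).1
        exact mul_inv_eq_iff_eq_mul.mp h3
      · have h1 := hyconj a haA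
        rw [← hy] at h1
        have e : a * (v1 * v2) * a⁻¹ = (a * v1 * a⁻¹) * (a * v2 * a⁻¹) := by group
        have hm1 : a * v1 * a⁻¹ ∈ V2 := by rw [← hsw.1]; exact cg_mem hv1
        have hm2 : a * v2 * a⁻¹ ∈ V1 := by rw [← hsw.2]; exact cg_mem hv2
        rw [e, ← c12 _ hm2 _ hm1] at h1
        have h3 := (huniq _ hm2 _ hm1 _ hv1 _ hv2 h1).2
        show y = v1 * (a * v1 * a⁻¹)
        rw [h3, hy]
    choose f hf using hex
    apply Nat.card_le_card_of_injective f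
    intro y y' hyy
    apply Subtype.ext
    rw [hf y, hf y', hyy]
  have hV0 : 0 < Nat.card V := Nat.card_pos
  have hB0 : 0 < Nat.card B := Nat.card_pos
  have i6 : Nat.card ↥(A₀ ⊓ Subgroup.centralizer (V1 : Set G)) ≤ Nat.card B := Subgroup.card_le_of_le i4
  have hfin : Nat.card V * Nat.card V * Nat.card B ≤ 2 * Nat.card V * Nat.card B := by
    rw [← cardX]
    calc Nat.card X' * Nat.card B ≤ Nat.card A * Nat.card ↥(X' ⊓ A) := i2
      _ ≤ (2 * Nat.card A₀) * Nat.card ↥(V1 ⊓ Subgroup.centralizer (A₀ : Set G)) := Nat.mul_le_mul i1 i5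
      _ = 2 * (Nat.card A₀ * Nat.card ↥(V1 ⊓ Subgroup.centralizer (A₀ : Set G))) := by ring
      _ ≤ 2 * (Nat.card V * Nat.card ↥(A₀ ⊓ Subgroup.centralizer (V1 : Set G))) := Nat.mul_le_mul_left _ i3
      _ ≤ 2 * (Nat.card V * Nat.card B) := Nat.mul_le_mul_left _ (Nat.mul_le_mul_left _ i6)
      _ = _ := by ring
  have hV2' : Nat.card V ≤ 2 := by
    have h1 := Nat.le_of_mul_le_mul_right hfin hB0
    exact Nat.le_of_mul_le_mul_right h1 hV0
  -- V = {1, z}
  obtain ⟨l, hl, hlz⟩ := h.Lz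
  have hlzV : l * z * l⁻¹ ∈ V := (Subgroup.mem_normalizer_iff.mp (h.hV.LN hl) z).mp h.zV
  have h3 : 3 ≤ Nat.card V := by
    let f : Fin 3 → V := ![1, ⟨z, h.zV⟩, ⟨l * z * l⁻¹, hlzV⟩]
    have hlz1 : l * z * l⁻¹ ≠ 1 := by
      intro h1
      apply h.z1
      have := congrArg (fun s => l⁻¹ * s * l) h1
      simpa [mul_assoc] using this
    have hlz2 : l * z * l⁻¹ ≠ z := fun h1 => hlz (mul_inv_eq_iff_eq_mul.mp h1)
    have hz1 := h.z1
    have hf : Function.Injective f := by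
      intro i j hij
      have hij' := congrArg Subtype.val hij
      fin_cases i <;> fin_cases j <;> first | rfl | (exfalso; simp only [f] at hij'; simp at hij'; tauto)
    have := Nat.card_le_card_of_injective f hf
    simpa using this
  omega

end PB

end Cfsg.Agent.H19.JC
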