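import Cfsg.Agent.H19.JC18

set_option autoImplicit false
set_option linter.style.haveILetI false
set_option linter.unusedVariables false
set_option linter.unusedSectionVars false

/-! `J(T)`-components, part 19: the "problem case", conclusion. -/

namespace Cfsg.Agent.H19.JC

open Cfsg Cfsg.Agent.H19.PGV Cfsg.Agent.H19.FF Cfsg.Agent.H19.FF.FFS
open scoped commutatorElement

variable {G : Type*} [Group G] [Finite G]

namespace PB

variable {S L V T K L' : Subgroup G} {z k x : G}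

/-- the elements of `T` centralizing `K / O₂(K)` -/
def Dd (T K : Subgroup G) (k : G) (hTR : T ≤ Subgroup.normalizer (pCoreOf 2 K : Set G)) : Subgroup G where
  carrier := {t | t ∈ T ∧ k⁻¹ * (t * k * t⁻¹) ∈ pCoreOf 2 K}
  mul_mem' := by
    rintro a b ⟨ha, ha'⟩ ⟨hb, hb'⟩
    refine ⟨T.mul_mem ha hb, ?_⟩
    have h1 := Subgroup.mul_mem _ ha' ((Subgroup.mem_normalizer_iff.mp (hTR ha) _).mp hb')
    have e : k⁻¹ * (a * k * a⁻¹) * (a * (k⁻¹ * (b * k * b⁻¹)) * a⁻¹) = k⁻¹ * (a * b * k * (a * b)⁻¹) := by group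
    rwa [e] at h1
  one_mem' := ⟨T.one_mem, by
    have e : k⁻¹ * (1 * k * 1⁻¹) = 1 := by group
    rw [e]; exact Subgroup.one_mem _⟩
  inv_mem' := by
    rintro a ⟨ha, ha'⟩
    refine ⟨T.inv_mem ha, ?_⟩
    have h1 := (Subgroup.mem_normalizer_iff.mp (hTR (T.inv_mem ha)) _).mp (Subgroup.inv_mem _ ha')
    have e : a⁻¹ * (k⁻¹ * (a * k * a⁻¹))⁻¹ * a⁻¹⁻¹ = k⁻¹ * (a⁻¹ * k * a⁻¹⁻¹) := by group
    rwa [e] at h1

set_option maxHeartbeats 2000000 in
theorem case_one_false (h : PB S L V T K L' z k x) (hV4 : Nat.card V = 4) (hVs : Nat.card (Vs V k) = 2)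
    (hVt : Nat.card (Vt V k) = 2) : False := by
  haveI h2 : Fact (Nat.Prime 2) := ⟨Nat.prime_two⟩
  set R := pCoreOf 2 K with hR
  set D := Dd T K k h.TR with hD
  have memD : ∀ t, t ∈ D ↔ t ∈ T ∧ k⁻¹ * (t * k * t⁻¹) ∈ R := fun t => Iff.rfl
  have hDT : D ≤ T := fun t ht => ht.1
  have hRD : R ≤ D := fun r hr => ⟨h.RT hr, by
    have e : k⁻¹ * (r * k * r⁻¹) = (k⁻¹ * r * k) * r⁻¹ := by group
    rw [e]
    exact R.mul_mem (h.conjR' h.kK hr) (R.inv_mem hr)⟩
  have hD2 : IsPGroup 2 D := h.T2.to_le hDT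
  -- k normalizes D
  have hkD : k ∈ Subgroup.normalizer (D : Set G) := by
    apply mem_norm_of_le
    intro t ht
    have h1 : k * t * k⁻¹ * t⁻¹ ∈ R := by
      have h3 := h.conjR h.kK (R.inv_mem ht.2)
      have e : k * (k⁻¹ * (t * k * t⁻¹))⁻¹ * k⁻¹ = k * t * k⁻¹ * t⁻¹ := by group
      rwa [e] at h3
    have h3 := D.mul_mem (hRD h1) ht
    have e : k * t * k⁻¹ * t⁻¹ * t = k * t * k⁻¹ := by group
    rwa [e] at h3
  have hKD : K ≤ Subgroup.normalizer (D : Set G) := by
    rw [← h.c3.gen h.kK h.kR]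
    exact sup_le (hRD.trans Subgroup.le_normalizer) (by rw [Subgroup.zpowers_le]; exact hkD)
  -- index two
  have hnD : ∀ t ∈ T, t ∉ D → k * (t * k * t⁻¹) ∈ R := by
    intro t ht htD
    rcases h.swap ht with ⟨h1, -, -⟩ | ⟨-, h1, -, -⟩
    · exact absurd ⟨ht, h1⟩ htD
    · exact h1
  have hidx : ∀ a ∈ T, ∀ b ∈ T, a ∉ D → b ∉ D → a * b ∈ D := by
    intro a ha b hb haD hbD
    refine ⟨T.mul_mem ha hb, ?_⟩
    have h1 := hnD a ha haD
    have h3 := hnD b hb hbD
    have h4 := h.conjR' h.kK (R.inv_mem h1)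
    have h5 := R.mul_mem h4 (h.conjTR ha h3)
    have e : k⁻¹ * (k * (a * k * a⁻¹))⁻¹ * k * (a * (k * (b * k * b⁻¹)) * a⁻¹) = k⁻¹ * (a * b * k * (a * b)⁻¹) := by group
    rwa [e] at h5
  have hTD : T ≤ Subgroup.normalizer (D : Set G) := by
    intro s hs
    by_cases hsD : s ∈ D
    · exact Subgroup.le_normalizer hsD
    · apply mem_norm_of_le
      intro t ht
      have h1 : s * t ∉ D := fun h3 => hsD ((Subgroup.mul_mem_cancel_right D ht).mp h3)
      have h3 : s⁻¹ ∉ D := fun h3 => hsD (by simpa using D.inv_mem h3)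
      exact hidx _ (T.mul_mem hs (hDT ht)) _ (T.inv_mem hs) h1 h3
  have hQD : pCoreOf 2 L' ≤ D := by
    intro q hq
    have hqT := h.u.core_le hq
    refine ⟨hqT, ?_⟩
    have h1 : K ⊓ pCoreOf 2 L' ≤ R := by
      apply H18.le_pCoreOf inf_le_left _ ((H18.isPGroup_pCoreOf (p := 2) L').to_le inf_le_right)
      intro g hg
      apply mem_norm_of_le
      rintro y ⟨hy, hy'⟩
      exact ⟨K.mul_mem (K.mul_mem hg hy) (K.inv_mem hg),
        (Subgroup.mem_normalizer_iff.mp (H18.le_normalizer_pCoreOf (p := 2) L' (h.u.KL hg)) y).mp hy'⟩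
    apply h1
    refine ⟨K.mul_mem (K.inv_mem h.kK) (h.conjK hqT h.kK), ?_⟩
    have h3 := (Subgroup.mem_normalizer_iff.mp (H18.le_normalizer_pCoreOf (p := 2) L' (L'.inv_mem h.kL')) q).mp hq
    have e : k⁻¹ * (q * k * q⁻¹) = (k⁻¹ * q * k⁻¹⁻¹) * q⁻¹ := by group
    show k⁻¹ * (q * k * q⁻¹) ∈ pCoreOf 2 L'
    rw [e]
    exact Subgroup.mul_mem _ h3 (Subgroup.inv_mem _ hq)
  have hzD : z ∈ D := hQD h.zQ
  have hDne : D ≠ ⊥ := by
    intro h1; apply h.z1
    rw [← Subgroup.mem_bot, ← h1]; exact hzD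
  have hND : Subgroup.normalizer (D : Set G) ≤ L' := h.local_le hD2 hDne hKD hTD
  -- V and S
  have hVS : ∀ s ∈ S, ∀ v ∈ V, s * v * s⁻¹ = v ∨ s * v * s⁻¹ = v * z := by
    intro s hs v hv
    by_cases hv1 : v = 1
    · left; rw [hv1]; group
    by_cases hvz : v = z
    · left; rw [hvz, h.zS s hs, mul_inv_cancel_right]
    have henum := four_enum hV4 h.zV hv h.z1 hv1 hvz (h.hV.sq v hv)
    have hmem : s * v * s⁻¹ ∈ V := (Subgroup.mem_normalizer_iff.mp (h.hV.LN (h.SL hs)) v).mp hv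
    rcases henum _ hmem with h1 | h1 | h1 | h1
    · exfalso; apply hv1
      have := congrArg (fun r => s⁻¹ * r * s) h1
      simpa [mul_assoc] using this
    · exfalso; apply hvz
      have h3 : v = s⁻¹ * z * s := by
        rw [← h1]; group
      rw [h3, mul_assoc, ← h.zS s hs]; group
    · exact Or.inl h1
    · exact Or.inr h1
  have hvi : ∀ v ∈ V, v⁻¹ = v := fun v hv => inv_eq_of_mul_eq_one_left (h.hV.sq v hv)
  have hcom : ∀ q ∈ S, ∀ v ∈ V, v * q * v⁻¹ * q⁻¹ = 1 ∨ v * q * v⁻¹ * q⁻¹ = z := by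
    intro q hq v hv
    have e : v * q * v⁻¹ * q⁻¹ = v * (q * v * q⁻¹) := by rw [hvi v hv]; group
    rw [e]
    rcases hVS q hq v hv with h1 | h1
    · left; rw [h1, h.hV.sq v hv]
    · right; rw [h1, ← mul_assoc, h.hV.sq v hv, one_mul]
  -- (a) V ≤ T
  have hTV : T ≤ Subgroup.normalizer (V : Set G) := h.TL.trans h.hV.LN
  have hVT : V ≤ T := by
    by_contra hcon
    have h1 : T < T ⊔ V := lt_of_le_of_ne le_sup_left (fun h3 => hcon (by rw [h3]; exact le_sup_right))
    have h3 : IsPGroup 2 ↥(T ⊔ V) := H18.isPGroup_sup_of_le_normalizer h.T2 (h.S2.to_le h.hV.VleS) hTV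
    have h4 := lt_inf_normalizer_of_lt h3 h1
    obtain ⟨n, ⟨hn, hnN⟩, hnT⟩ := Set.exists_of_ssubset h4
    have hn' : n ∈ T ⊔ V := hn
    rw [H18.mem_sup_iff_of_le_normalizer' hTV] at hn'
    obtain ⟨v, hv, t, ht, rfl⟩ := hn'
    have hvN : v ∈ Subgroup.normalizer (T : Set G) :=
      (Subgroup.mul_mem_cancel_right _ (Subgroup.le_normalizer ht)).mp hnN
    have hvT : v ∉ T := fun h5 => hnT (T.mul_mem h5 ht)
    apply hvT
    have hvD : v ∈ Subgroup.normalizer (D : Set G) := by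
      apply mem_norm_of_le
      intro q hq
      have e : v * q * v⁻¹ = (v * q * v⁻¹ * q⁻¹) * q := by group
      rw [e]
      apply D.mul_mem _ hq
      rcases hcom q (h.TS (hDT hq)) v hv with h5 | h5
      · rw [h5]; exact D.one_mem
      · rw [h5]; exact hzD
    have h5 : Subgroup.zpowers v ≤ T := by
      apply h.u.sub_T
      · exact (h.S2.to_le h.hV.VleS).to_le (by rw [Subgroup.zpowers_le]; exact hv)
      · rw [Subgroup.zpowers_le]; exact hND hvD
      · rw [Subgroup.zpowers_le]; exact hvN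
    exact h5 (Subgroup.mem_zpowers v)
  -- (b) V is not in D
  obtain ⟨v, hv, hvD⟩ : ∃ v ∈ V, v ∉ D := by
    by_contra hcon
    push Not at hcon
    have h1 : cg k V ≤ Subgroup.normalizer (V : Set G) := by
      rintro _ ⟨a, ha, rfl⟩
      apply h.hV.LN
      apply h.TL
      apply hDT
      exact (Subgroup.mem_normalizer_iff.mp hkD a).mp (hcon a ha)
    have h3 : Vt V k = cg k V := inf_eq_left.mpr h1
    rw [h3, card_cg, hV4] at hVt
    omega
  have hvT := hVT hv
  have hv1 : v ≠ 1 := fun h1 => hvD (by rw [h1]; exact D.one_mem)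
  have hvz : v ≠ z := fun h1 => hvD (by rw [h1]; exact hzD)
  have henum := four_enum hV4 h.zV hv h.z1 hv1 hvz (h.hV.sq v hv)
  have hkv := hnD v hvT hvD
  -- U₀ is central in D
  have hU0 : U0 K z ≤ omegaCenterOf D := by
    apply U0_le
    intro g hg
    rw [mem_oz]
    refine ⟨(Subgroup.mem_normalizer_iff.mp (hKD hg) z).mp hzD, ?_, ?_⟩
    · intro q hq
      have h1 : g⁻¹ * q * g ∈ D := by
        have := (Subgroup.mem_normalizer_iff.mp (hKD (K.inv_mem hg)) q).mp hq
        rwa [inv_inv] at this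
      have h3 := h.zS _ (h.TS (hDT h1))
      calc q * (g * z * g⁻¹) = g * (g⁻¹ * q * g * z) * g⁻¹ := by group
        _ = _ := by rw [h3]; group
    · rw [conj_pow, pow_two, h.zz]; group
  -- (c) the element d
  set d := k * v * k⁻¹ * v⁻¹ with hd
  have hdK : d ∈ K := by
    have h1 := h.conjK hvT h.kiK
    have e : d = k * (v * k⁻¹ * v⁻¹) := by rw [hd]; group
    rw [e]
    exact K.mul_mem h.kK h1
  have hdR : d ∉ R := by
    intro h1
    -- d = k r⁻¹ k
    have e : d = k * (k * (v * k * v⁻¹))⁻¹ * k⁻¹ * (k * k) := by rw [hd]; group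
    rw [e] at h1
    have h3 : k * k ∈ R := (Subgroup.mul_mem_cancel_left R (h.conjR h.kK (R.inv_mem hkv))).mp h1
    apply h.kR
    have h4 := R.mul_mem (h.c3.cube h.kK) (R.inv_mem h3)
    have e2 : k ^ 3 * (k * k)⁻¹ = k := by rw [pow_three']; group
    rwa [e2] at h4
  have hKN : ∀ {u g : G}, g ∈ K → u ∈ U0 K z → g * u * g⁻¹ ∈ U0 K z := fun hg hu =>
    (Subgroup.mem_normalizer_iff.mp (K_U0 hg) _).mp hu
  have hTN : ∀ {u g : G}, g ∈ T → u ∈ U0 K z → g * u * g⁻¹ ∈ U0 K z := fun hg hu =>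
    (Subgroup.mem_normalizer_iff.mp (h.T_U0 hg) _).mp hu
  have hvq : ∀ q ∈ D, v * q * v⁻¹ * q⁻¹ ∈ U0 K z := by
    intro q hq
    rcases hcom q (h.TS (hDT hq)) v hv with h1 | h1
    · rw [h1]; exact Subgroup.one_mem _
    · rw [h1]; exact z_U0
  have hdq : ∀ q ∈ D, d * q * d⁻¹ * q⁻¹ ∈ U0 K z := by
    intro q hq
    -- v1 = k v k⁻¹
    have hkq : k⁻¹ * q * k ∈ D := by
      have := (Subgroup.mem_normalizer_iff.mp (Subgroup.inv_mem _ hkD) q).mp hq
      rwa [inv_inv] at this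
    have h1 : k * (v * (k⁻¹ * q * k) * v⁻¹ * (k⁻¹ * q * k)⁻¹) * k⁻¹ ∈ U0 K z := hKN h.kK (hvq _ hkq)
    have e1 : k * (v * (k⁻¹ * q * k) * v⁻¹ * (k⁻¹ * q * k)⁻¹) * k⁻¹ = (k * v * k⁻¹) * q * (k * v * k⁻¹)⁻¹ * q⁻¹ := by
      group
    rw [e1] at h1
    have h3 : v⁻¹ * q * v * q⁻¹ ∈ U0 K z := by
      have h4 := hvq q hq
      rw [hvi v hv] at h4
      rw [hvi v hv]; exact h4
    have h4 : (k * v * k⁻¹) * (v⁻¹ * q * v * q⁻¹) * (k * v * k⁻¹)⁻¹ ∈ U0 K z := by
      have h5 := hKN h.kK (hTN hvT (hKN h.kiK h3))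
      have e : k * (v * (k⁻¹ * (v⁻¹ * q * v * q⁻¹) * k⁻¹⁻¹) * v⁻¹) * k⁻¹ =
        (k * v * k⁻¹) * (v⁻¹ * q * v * q⁻¹) * (k * v * k⁻¹)⁻¹ := by group
      rwa [e] at h5
    have h5 := Subgroup.mul_mem _ h4 h1
    have e : (k * v * k⁻¹) * (v⁻¹ * q * v * q⁻¹) * (k * v * k⁻¹)⁻¹ * ((k * v * k⁻¹) * q * (k * v * k⁻¹)⁻¹ * q⁻¹) =
      d * q * d⁻¹ * q⁻¹ := by rw [hd]; group
    rwa [e] at h5
  have hKgen : R ⊔ Subgroup.zpowers d = K := h.c3.gen hdK hdR
  -- d does not commute with z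
  have hdz : d * z ≠ z * d := by
    intro h1
    apply h.zK
    rw [Subgroup.mem_centralizer_iff]
    intro g hg
    have h3 : K ≤ Subgroup.centralizer ({z} : Set G) := by
      rw [← hKgen]
      apply sup_le
      · intro r hr
        rw [Subgroup.mem_centralizer_singleton_iff]
        exact h.zS r (h.TS (h.RT hr))
      · rw [Subgroup.zpowers_le, Subgroup.mem_centralizer_singleton_iff]
        exact h1
    exact Subgroup.mem_centralizer_singleton_iff.mp (h3 hg)
  -- (d)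
  have hz'D : k * z * k⁻¹ ∈ D := (Subgroup.mem_normalizer_iff.mp hkD z).mp hzD
  have step : ∀ y ∈ S, y ∈ Subgroup.normalizer (T : Set G) → y * (k * z * k⁻¹) * y⁻¹ ∈ D := by
    intro y hy hyT
    by_contra hwD
    set w := y * (k * z * k⁻¹) * y⁻¹ with hw
    have hwT : w ∈ T := (Subgroup.mem_normalizer_iff.mp hyT _).mp (hDT hz'D)
    have hw2 : w * w = 1 := by
      calc w * w = y * k * (z * z) * k⁻¹ * y⁻¹ := by rw [hw]; group
        _ = 1 := by rw [h.zz]; group
    have hqD : v * w ∈ D := hidx v hvT w hwT hvD hwD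
    set q := v * w with hq
    have hwq : w = v * q := by rw [hq, ← mul_assoc, h.hV.sq v hv, one_mul]
    rcases hcom q (h.TS (hDT hqD)) v hv with h1 | h1
    · -- V commutes with w
      have h3 : v * w = w * v := by
        have h4 : v * q = q * v := by
          calc v * q = (v * q * v⁻¹ * q⁻¹) * (q * v) := by group
            _ = q * v := by rw [h1, one_mul]
        rw [← hq]
        rw [hwq]
        calc q = v * v * q := by rw [h.hV.sq v hv, one_mul]
          _ = v * (v * q) := by group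
          _ = v * (q * v) := by rw [h4]
          _ = _ := by group
      have h5 : ∀ u ∈ V, u * w = w * u := by
        have hzw : z * w = w * z := (h.zS w (h.TS hwT)).symm
        intro u hu
        rcases henum u hu with h6 | h6 | h6 | h6
        · rw [h6]; group
        · rw [h6]; exact hzw
        · rw [h6]; exact h3
        · rw [h6]
          calc v * z * w = v * (z * w) := by group
            _ = (v * w) * z := by rw [hzw]; group
            _ = _ := by rw [h3]; group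
      have h6 : V ⊓ Subgroup.centralizer ({k * z * k⁻¹} : Set G) = Vs V k := by
        apply h.cent_Vt h.z'_mem
        intro h7; apply h.z1
        have := congrArg (fun s => k⁻¹ * s * k) h7
        simpa [mul_assoc] using this
      have h7 : V ⊓ Subgroup.centralizer ({k * z * k⁻¹} : Set G) = V := by
        apply inf_eq_left.mpr
        intro u hu
        rw [Subgroup.mem_centralizer_singleton_iff]
        have hyu : y * u * y⁻¹ ∈ V := (Subgroup.mem_normalizer_iff.mp (h.hV.LN (h.SL hy)) u).mp hu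
        have h8 := h5 _ hyu
        rw [hw] at h8
        calc u * (k * z * k⁻¹) = y⁻¹ * (y * u * y⁻¹ * (y * (k * z * k⁻¹) * y⁻¹)) * y := by group
          _ = _ := by rw [h8]; group
      rw [← h6, h7, hV4] at hVs
      omega
    · -- q² = z
      have h3 : v * q * v⁻¹ = z * q := by
        calc v * q * v⁻¹ = (v * q * v⁻¹ * q⁻¹) * q := by group
          _ = _ := by rw [h1]
      have h4 : z * (q * q) = 1 := by
        calc z * (q * q) = (z * q) * q := by group
          _ = (v * q * v⁻¹) * q := by rw [h3]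
          _ = (v * q) * (v * q) := by rw [hvi v hv]; group
          _ = 1 := by rw [← hwq, hw2]
      have h5 : q * q = z := by
        calc q * q = z * z * (q * q) := by rw [h.zz, one_mul]
          _ = z * (z * (q * q)) := by group
          _ = z := by rw [h4, mul_one]
      set u := d * q * d⁻¹ * q⁻¹ with hu
      have huU : u ∈ U0 K z := hdq q hqD
      have hu' := mem_oz.mp (hU0 huU)
      have h6 : d * q * d⁻¹ = u * q := by rw [hu]; group
      have h7 : (u * q) * (u * q) = z := by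
        have h8 := hu'.2.1 q hqD
        have h9 : u * u = 1 := by rw [← pow_two]; exact hu'.2.2
        calc (u * q) * (u * q) = u * (q * u) * q := by group
          _ = (u * u) * (q * q) := by rw [h8]; group
          _ = z := by rw [h9, one_mul, h5]
      have h8 : d * z * d⁻¹ = z := by
        calc d * z * d⁻¹ = (d * q * d⁻¹) * (d * q * d⁻¹) := by rw [← h5]; group
          _ = z := by rw [h6, h7]
      exact hdz (mul_inv_eq_iff_eq_mul.mp h8)
  -- (e)
  have hz''D : ∀ y ∈ S, y ∈ Subgroup.normalizer (T : Set G) → y * (k⁻¹ * z * k) * y⁻¹ ∈ D := by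
    intro y hy hyT
    have h1 := step y hy hyT
    have hyv : y * v * y⁻¹ ∈ T := (Subgroup.mem_normalizer_iff.mp hyT v).mp hvT
    have h3 := (Subgroup.mem_normalizer_iff.mp (hTD hyv) _).mp h1
    have e : y * v * y⁻¹ * (y * (k * z * k⁻¹) * y⁻¹) * (y * v * y⁻¹)⁻¹ = y * (v * (k * z * k⁻¹) * v⁻¹) * y⁻¹ := by group
    rw [e] at h3
    -- v k z k⁻¹ v⁻¹ = k⁻¹ z k
    have h4 := h.zS _ (h.TS (h.RT hkv))
    have hvzc := h.zS v (h.TS hvT)
    have e2 : v * (k * z * k⁻¹) * v⁻¹ = k⁻¹ * z * k := by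
      calc v * (k * z * k⁻¹) * v⁻¹ = (v * k * v⁻¹) * (v * z * v⁻¹) * (v * k * v⁻¹)⁻¹ := by group
        _ = (v * k * v⁻¹) * z * (v * k * v⁻¹)⁻¹ := by rw [hvzc, mul_inv_cancel_right]
        _ = k⁻¹ * ((k * (v * k * v⁻¹)) * z) * (k * (v * k * v⁻¹))⁻¹ * k := by group
        _ = _ := by rw [h4]; group
    rwa [e2] at h3
  have hU0y : ∀ y ∈ S, y ∈ Subgroup.normalizer (T : Set G) → cg y (U0 K z) ≤ D := by
    intro y hy hyT
    rintro _ ⟨u, hu, rfl⟩
    have h1 : U0 K z ≤ D.comap (MulAut.conj y).toMonoidHom := by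
      apply U0_le
      intro g hg
      show y * (g * z * g⁻¹) * y⁻¹ ∈ D
      by_cases hgR : g ∈ R
      · have h3 := h.zS g (h.TS (h.RT hgR))
        have h4 := h.zS y hy
        have e : y * (g * z * g⁻¹) * y⁻¹ = z := by
          rw [h3]
          calc y * (z * g * g⁻¹) * y⁻¹ = (y * z) * y⁻¹ := by group
            _ = z := by rw [h4, mul_inv_cancel_right]
        rw [e]; exact hzD
      · rcases C3.tri h.c3 h.kK h.kR hg hgR with h3 | h3
        · have h4 := h.zS _ (h.TS (h.RT h3))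
          have e : g * z * g⁻¹ = k * z * k⁻¹ := by
            calc g * z * g⁻¹ = k * (k⁻¹ * g * z) * (k⁻¹ * g)⁻¹ * k⁻¹ := by group
              _ = _ := by rw [h4]; group
          rw [e]; exact step y hy hyT
        · have h4 := h.zS _ (h.TS (h.RT h3))
          have e : g * z * g⁻¹ = k⁻¹ * z * k := by
            calc g * z * g⁻¹ = k⁻¹ * (k * g * z) * (k * g)⁻¹ * k := by group
              _ = _ := by rw [h4]; group
          rw [e]; exact hz''D y hy hyT
    exact h1 hu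
  set N := S ⊓ Subgroup.normalizer (T : Set G) with hN
  set H : Subgroup G := ⨆ y : N, cg y.1 (U0 K z) with hH
  have hHD : H ≤ D := iSup_le fun y => hU0y y.1 y.2.1 y.2.2
  have hUH : U0 K z ≤ H := by
    have h1 : cg (1 : G) (U0 K z) ≤ H := le_iSup (fun y : N => cg y.1 (U0 K z)) (1 : N)
    rwa [cg_one] at h1
  have hNH : N ≤ Subgroup.normalizer (H : Set G) := by
    intro y hy
    apply mem_norm_of_le
    intro w hw
    have h1 : H ≤ H.comap (MulAut.conj y).toMonoidHom := by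
      conv_lhs => rw [hH]
      apply iSup_le
      rintro y'
      rintro _ ⟨u, hu, rfl⟩
      show y * (y'.1 * u * y'.1⁻¹) * y⁻¹ ∈ H
      have h3 : cg (y * y'.1) (U0 K z) ≤ H := le_iSup (fun y : N => cg y.1 (U0 K z)) (⟨y, hy⟩ * y')
      apply h3
      have e : y * (y'.1 * u * y'.1⁻¹) * y⁻¹ = (y * y'.1) * u * (y * y'.1)⁻¹ := by group
      rw [e]
      exact cg_mem hu
    exact h1 hw
  have hTN' : T ≤ N := le_inf h.TS Subgroup.le_normalizer
  have hdH : d ∈ Subgroup.normalizer (H : Set G) := by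
    apply mem_norm_of_le
    intro w hw
    have e : d * w * d⁻¹ = (d * w * d⁻¹ * w⁻¹) * w := by group
    rw [e]
    exact H.mul_mem (hUH (hdq w (hHD hw))) hw
  have hKH : K ≤ Subgroup.normalizer (H : Set G) := by
    rw [← hKgen]
    exact sup_le (h.RT.trans (hTN'.trans hNH)) (by rw [Subgroup.zpowers_le]; exact hdH)
  have hHne : H ≠ ⊥ := by
    intro h1; apply h.z1
    rw [← Subgroup.mem_bot, ← h1]; exact hUH z_U0
  have hfin := h.local_le (hD2.to_le hHD) hHne hKH (hTN'.trans hNH)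
  have hNT : N ≤ T := h.u.sub_T (h.S2.to_le inf_le_left) (hNH.trans hfin) inf_le_right
  exact h.xT (hNT ⟨h.xS, h.xN⟩)

theorem false (h : PB S L V T K L' z k x) : False := by
  by_cases heq : Vs V k = V
  · exact h.case_two heq
  · obtain ⟨h1, h3, h4⟩ := h.case_one heq
    exact h.case_one_false h1 h3 h4

end PB

end Cfsg.Agent.H19.JC
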