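import Cfsg.Agent.H19.JC19

set_option autoImplicit false
set_option linter.style.haveILetI false
set_option linter.unusedVariables false
set_option linter.unusedSectionVars false

/-! `J(T)`-components, part 20: the trichotomy. -/

namespace Cfsg.Agent.H19.JC

open Cfsg Cfsg.Agent.H19.PGV Cfsg.Agent.H19.FF Cfsg.Agent.H19.FF.FFS
open scoped commutatorElement

variable {G : Type*} [Group G] [Finite G]

theorem J_eq_of {S T : Subgroup G} (hTS : T ≤ S) {h : G} (hh : cg h (thompsonSubgroupOf 2 S) ≤ T) :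
    thompsonSubgroupOf 2 T = thompsonSubgroupOf 2 S := by
  obtain ⟨A, hA⟩ := H2.exists_eaIn 2 S
  have hAT : cg h A ≤ T := (cg_mono hA.le_thompson).trans hh
  have hAe : IsElementaryAbelian 2 (cg h A) := (H2.eaIn_map_conj hA h).2.1
  have hAS : H2.EAIn 2 S (cg h A) := hA.of_card_eq (hAT.trans hTS) hAe (by rw [card_cg])
  have hATe : H2.EAIn 2 T (cg h A) := (hAS.iff_of_le hAT hTS _).mpr ⟨hAS, hAT⟩
  have h1 : thompsonSubgroupOf 2 T ≤ thompsonSubgroupOf 2 S := H2.thompsonSubgroupOf_le_of_eaIn hAS hAT hTS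
  have h3 : cg h (thompsonSubgroupOf 2 S) ≤ thompsonSubgroupOf 2 T := by
    rw [← thompson_cg]
    conv_lhs => rw [H2.thompsonSubgroupOf_eq]
    refine sSup_le fun C hC => ?_
    have h4 : C ≤ T := by
      refine hC.le_thompson.trans ?_
      rw [thompson_cg]; exact hh
    have h5 : H2.EAIn 2 T C := hATe.of_card_eq h4 hC.2.1 (((H2.eaIn_map_conj hA h).card_eq hC).le)
    exact h5.le_thompson
  apply Subgroup.eq_of_le_of_card_ge h1
  rw [← card_cg h (thompsonSubgroupOf 2 S)]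
  exact Subgroup.card_le_of_le h3

namespace UQ

variable {T K L : Subgroup G}

theorem K12 (hG : HG G) {S : Subgroup G} (hS : H23.IsSylowOf 2 S ⊤) (hu : UQ T K L) (hTS : T ≤ S) {x : G}
    (hx : x ∈ Subgroup.normalizer (thompsonSubgroupOf 2 T : Set G)) (hxS : x ∈ S) (hxL : x ∉ L)
    {z : G} (hz : z ∈ omegaCenterOf S) (hz1 : z ≠ 1) :
    ∀ w ∈ Zz T, w ≠ 1 → w ≠ z → w ∈ Subgroup.centralizer (K : Set G) ∨
      w ∈ Subgroup.centralizer (JC.cg x K : Set G) := by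
  obtain ⟨hzK, hzKx⟩ := z_notin hG hS hu hTS hx hxS hxL hz hz1
  have hzZ := oz_le_Zz T (hu.oz_S_le hG hTS hz)
  have hp := hu.pairx hG hx hxL
  have hsq : z * z = 1 := by rw [← pow_two]; exact (mem_oz.mp hz).2.2
  intro w hw hw1 hwz
  by_cases hwK : w ∈ Subgroup.centralizer (K : Set G)
  · exact Or.inl hwK
  right
  have h1 := mul_cent hG hp.T2 hp.T1 hp.comp hw hzZ hwK hzK
  by_contra hwKx
  have h3 := mul_cent hG hp.T2 hp.T1 hp.comp₂ hw hzZ hwKx hzKx
  refine hp.p1 (w * z) ((Zz T).mul_mem hw hzZ) ?_ h1 h3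
  intro h5
  apply hwz
  calc w = w * z * z := by rw [mul_assoc, hsq, mul_one]
    _ = z := by rw [h5, one_mul]

theorem not_mem (hu : UQ T K L) {S : Subgroup G} (hS : IsPGroup 2 S) {x : G} (hxS : x ∈ S)
    (hxN : x ∈ Subgroup.normalizer (T : Set G)) (hxT : x ∉ T) : x ∉ L := by
  intro hxL
  apply hxT
  have h5 : Subgroup.zpowers x ≤ T := by
    apply hu.sub_T
    · exact hS.to_le (by rw [Subgroup.zpowers_le]; exact hxS)
    · rw [Subgroup.zpowers_le]; exact hxL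
    · rw [Subgroup.zpowers_le]; exact hxN
  exact h5 (Subgroup.mem_zpowers x)

/-- `T` normalizes `K` when `Ω₁(Z(T)) = Ω₁(Z(J(T)))` -/
theorem T_norm (hG : HG G) (hu : UQ T K L) (hoz : omegaCenterOf T = Zz T) : T ≤ Subgroup.normalizer (K : Set G) := by
  apply S2943.result hG.cha hG.solv hG.zed T hu.T2 hu.T1 L (hu.jover hG) K hu.comp hu.KL
  obtain ⟨x₀, hx₀, hx1, -⟩ := exists_x0 hG hu.T2 hu.T1 hu.comp
  intro h
  apply hx1
  rw [← Subgroup.mem_bot, ← h]
  have h1 : x₀ ∈ omegaCenterOf T := by rw [hoz]; exact hx₀.1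
  rw [mem_oz] at h1
  refine ⟨⟨h1.1, ?_⟩, hx₀.2⟩
  show x₀ ∈ Subgroup.centralizer _
  rw [Subgroup.mem_centralizer_iff]
  exact fun t ht => h1.2.1 t ht

theorem R_le_T (hu : UQ T K L) (hTK : T ≤ Subgroup.normalizer (K : Set G)) : pCoreOf 2 K ≤ T := by
  apply hu.sub_T' (H18.isPGroup_pCoreOf (p := 2) K) ((H18.pCoreOf_le K).trans hu.KL)
  exact hTK.trans (H18.normalizer_le_normalizer_pCoreOf K)

theorem zed' (hG : HG G) {S : Subgroup G} (hS : H23.IsSylowOf 2 S ⊤) :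
    Subgroup.centralizer (omegaCenterOf S : Set G) ≤ Subgroup.normalizer (S : Set G) := by
  obtain ⟨S', hS'⟩ := JK.exists_sylow hS
  have hzed := hG.zed S'
  rwa [hS'] at hzed

theorem mem_of_cg_le {S : Subgroup G} (hS : H23.IsSylowOf 2 S ⊤) (hSL : H23.IsSylowOf 2 S L)
    (hNS : Subgroup.normalizer (S : Set G) ≤ L) {g : G} (h1 : JC.cg g S ≤ L) : g ∈ L := by
  haveI h2 : Fact (Nat.Prime 2) := ⟨Nat.prime_two⟩
  have hSg : H23.IsSylowOf 2 (JC.cg g S) L := by
    have h3 := isSylowOf_conj hS g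
    rw [Subgroup.map_top_of_surjective _ (MulAut.conj g).surjective] at h3
    exact IsSylowOf.mono h3 h1 le_top
  obtain ⟨l, hl, hlS⟩ := hSL.exists_conj hSg
  have hlS' : JC.cg l S = JC.cg g S := hlS
  have h6 : l⁻¹ * g ∈ Subgroup.normalizer (S : Set G) := by
    rw [H18.mem_normalizer_iff_map]
    show JC.cg (l⁻¹ * g) S = S
    rw [cg_mul, ← hlS', cg_inv]
  have := L.mul_mem hl (hNS h6)
  rwa [mul_inv_cancel_left] at this

end UQ

/-- the problem case is impossible -/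
theorem problem (hG : HG G) {S K L : Subgroup G} (hS : H23.IsSylowOf 2 S ⊤) (hu : UQ S K L)
    (hNJ : Subgroup.normalizer (thompsonSubgroupOf 2 S : Set G) ≤ L) {T K' L' : Subgroup G} (hu' : UQ T K' L')
    (hTS : T ≤ S) (hne : T ≠ S) (hKL : ¬ K' ≤ L) : False := by
  haveI h2 : Fact (Nat.Prime 2) := ⟨Nat.prime_two⟩
  have hNS : Subgroup.normalizer (S : Set G) ≤ L := (H2.normalizer_le_normalizer_thompson (p := 2) S).trans hNJ
  obtain ⟨x, ⟨hxS, hxN⟩, hxT⟩ := Set.exists_of_ssubset (lt_inf_normalizer_of_lt hS.isPGroup (lt_of_le_of_ne hTS hne))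
  have hxJ : x ∈ Subgroup.normalizer (thompsonSubgroupOf 2 T : Set G) := H2.normalizer_le_normalizer_thompson T hxN
  have hxL' := hu'.not_mem hS.isPGroup hxS hxN hxT
  obtain ⟨⟨z, hz⟩, hz1⟩ := Subgroup.ne_bot_iff_exists_ne_one.mp (UQ.oz_S_ne hG hS hu' hTS hxJ hxS hxL')
  have hz1' : z ≠ 1 := fun h => hz1 (Subtype.ext h)
  have hz' := mem_oz.mp hz
  have hzz : z * z = 1 := by rw [← pow_two]; exact hz'.2.2
  have hzu : ∀ z' ∈ omegaCenterOf S, z' = 1 ∨ z' = z := by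
    intro z' hz'
    by_cases h1 : z' = 1
    · exact Or.inl h1
    · exact Or.inr (UQ.z_uniq hG hS hu' hTS hxJ hxS hxL' hz hz1' hz' h1)
  obtain ⟨V, hV, hzV⟩ := vs_of hG hS hu hNJ hz hz1' hzu
  have hoz := UQ.ozT_eq hG hS hu' hTS hxJ hxS hxL'
  have hTK := hu'.T_norm hG hoz
  have hRT := hu'.R_le_T hTK
  obtain ⟨k, hk, -, hkR⟩ := (comp_c3 hu'.comp).exists_gen
  have hzT : z ∈ T := (mem_oz.mp (hu'.oz_S_le hG hTS hz)).1
  have hzQ : z ∈ pCoreOf 2 L' := by
    apply hu'.cent_core hG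
    rw [Subgroup.mem_centralizer_iff]
    intro q hq
    exact hz'.2.1 q (hTS (hu'.core_le hq))
  have hzK := (UQ.z_notin hG hS hu' hTS hxJ hxS hxL' hz hz1').1
  have hTL : T ≤ L := hTS.trans hu.TL
  -- (Q1)
  have hQ1 : ∀ w g y : G, w ∈ cg g V → w ≠ 1 → w ∈ Zz T → y ∈ S → y ∈ Subgroup.normalizer (T : Set G) →
      w ∈ Subgroup.centralizer (cg y K' : Set G) → False := by
    intro w g y hwV hw1 hwZ hyS hyN hwK
    have hyT : cg y T = T := cg_eq hyN
    have h1 : Subgroup.centralizer ({w} : Set G) ≤ cg y L' := by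
      apply (hu'.cg y).cent_le hG _ hw1 hwK
      rw [hyT]; exact hwZ
    have h3 := mem_cg.mp hwV
    have hne1 : g⁻¹ * w * g ≠ 1 := by
      intro h4; apply hw1
      have := congrArg (fun s => g * s * g⁻¹) h4
      simpa [mul_assoc] using this
    obtain ⟨l, hl⟩ := hV.conjJ _ h3 hne1
    have h4 : cg (g * l) (thompsonSubgroupOf 2 S) ≤ Subgroup.centralizer ({w} : Set G) := by
      rw [cg_mul]
      intro c hc
      have h5 := Subgroup.mem_centralizer_singleton_iff.mp (hl (mem_cg.mp hc))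
      rw [Subgroup.mem_centralizer_singleton_iff]
      calc c * w = g * (g⁻¹ * c * g * (g⁻¹ * w * g)) * g⁻¹ := by group
        _ = _ := by rw [h5]; group
    have hsy : H23.IsSylowOf 2 T (cg y L') := by
      have := (hu'.cg y).syl
      rwa [hyT] at this
    obtain ⟨h', -, hh'⟩ := IsSylowOf.exists_conj_le hsy (h4.trans h1) ((J_isPGroup hu.T2).map _)
    have hh'' : cg (h' * (g * l)) (thompsonSubgroupOf 2 S) ≤ T := by
      rw [cg_mul]; exact hh'
    have hJ := J_eq_of hTS hh''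
    have h6 : Zz T = Zz S := by
      show omegaCenterOf _ = omegaCenterOf _
      rw [hJ]
    rw [h6] at hwZ
    have h7 := cent_P1 hG hS hu hNJ hz hz1' hzu hwZ hw1
    apply hKL
    intro a ha
    have h8 : y * a * y⁻¹ ∈ L := by
      apply h7
      rw [Subgroup.mem_centralizer_singleton_iff]
      exact Subgroup.mem_centralizer_iff.mp hwK _ (cg_mem ha)
    have hyL := hu.TL hyS
    have h9 := L.mul_mem (L.mul_mem (L.inv_mem hyL) h8) hyL
    have e : y⁻¹ * (y * a * y⁻¹) * y = a := by group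
    rwa [e] at h9
  have hKLg : ∀ g ∈ K', g ∉ pCoreOf 2 K' → g ∉ L := by
    intro g hg hgR hgL
    apply hKL
    rw [← (comp_c3 hu'.comp).gen hg hgR]
    exact sup_le (hRT.trans hTL) (by rw [Subgroup.zpowers_le]; exact hgL)
  have hznot : ∀ g : G, g ∉ L → g * z * g⁻¹ ∉ V := by
    intro g hg h1
    apply hg
    apply UQ.mem_of_cg_le hS hu.syl hNS
    have hne1 : g * z * g⁻¹ ≠ 1 := by
      intro h4; apply hz1'
      have := congrArg (fun s => g⁻¹ * s * g) h4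
      simpa [mul_assoc] using this
    refine le_trans ?_ (hV.cent _ h1 hne1)
    rintro _ ⟨s, hs, rfl⟩
    rw [Subgroup.mem_centralizer_singleton_iff]
    show g * s * g⁻¹ * (g * z * g⁻¹) = g * z * g⁻¹ * (g * s * g⁻¹)
    have h5 := hz'.2.1 s hs
    calc g * s * g⁻¹ * (g * z * g⁻¹) = g * (s * z) * g⁻¹ := by group
      _ = _ := by rw [h5]; group
  have hkL : k ∉ L := hKLg k hk hkR
  have hpb : PB S L V T K' L' z k x := by
    refine
      { hV := hV, S2 := hS.isPGroup, SL := hu.TL, TS := hTS, u := hu', TK := hTK, zV := hzV, z1 := hz1', zz := hzz,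
        zS := hz'.2.1, zT := hzT, zQ := hzQ, zK := hzK, kK := hk, kR := hkR, RT := hRT, xS := hxS, xN := hxN, xT := hxT,
        KL := hKLg, znot := hznot, meet := ?_, Lz := ?_ }
    · intro w hw1 hw2 hwT hwne
      have hw2' : w ^ 2 = 1 := by
        obtain ⟨a, ha, rfl⟩ := hw1
        show (k * a * k⁻¹) ^ 2 = 1
        rw [conj_pow, pow_two, hV.sq a ha]; group
      have hwo := hu'.mem_oz_of hG hw2' hwT
      have hwZ := oz_le_Zz T hwo
      have hwz : w ≠ z := by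
        intro h1
        rw [h1] at hw1
        have h3 := mem_cg.mp hw1
        apply hznot k⁻¹ (fun h4 => hkL (by simpa using L.inv_mem h4))
        rwa [inv_inv]
      rcases UQ.K12 hG hS hu' hTS hxJ hxS hxL' hz hz1' w hwZ hwne hwz with h1 | h1
      · refine hQ1 w k 1 hw1 hwne hwZ S.one_mem (Subgroup.one_mem _) ?_
        rw [cg_one]; exact h1
      · exact hQ1 w k x hw1 hwne hwZ hxS hxN h1
    · obtain ⟨z', hz'', hz'K⟩ := exists_z_of hG hS hu.T2 hu.comp (H2.thompsonSubgroupOf_le 2 S)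
      rcases hzu z' hz'' with rfl | rfl
      · exact absurd (Subgroup.one_mem _) hz'K
      · by_contra hcon
        push Not at hcon
        apply hz'K
        rw [Subgroup.mem_centralizer_iff]
        exact fun l hl => hcon l (hu.KL hl)
  exact hpb.false

/-- trichotomy -/
theorem trichotomy (hG : HG G) (hO : pCore 2 G = ⊥) {S T K L : Subgroup G} (hS : H23.IsSylowOf 2 S ⊤) (hu : UQ T K L)
    (hTS : T ≤ S) : (∃ x ∈ S, x ∈ Subgroup.normalizer (T : Set G) ∧ x ∉ L) ∨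
    (T = S ∧ ∃ x ∈ Subgroup.normalizer (thompsonSubgroupOf 2 S : Set G), x ∉ L) ∨
    (T = S ∧ ∃ K₂ L₂ : Subgroup G, UQ T K₂ L₂ ∧ ¬ K₂ ≤ L) := by
  haveI h2 : Fact (Nat.Prime 2) := ⟨Nat.prime_two⟩
  by_cases hne : T = S
  swap
  · left
    obtain ⟨x, ⟨hxS, hxN⟩, hxT⟩ := Set.exists_of_ssubset (lt_inf_normalizer_of_lt hS.isPGroup (lt_of_le_of_ne hTS hne))
    exact ⟨x, hxS, hxN, hu.not_mem hS.isPGroup hxS hxN hxT⟩
  subst hne
  right
  by_cases hNJ : Subgroup.normalizer (thompsonSubgroupOf 2 T : Set G) ≤ L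
  swap
  · left
    obtain ⟨x, hx, hxL⟩ := Set.not_subset.mp hNJ
    exact ⟨rfl, x, hx, hxL⟩
  right
  refine ⟨rfl, ?_⟩
  -- general construction
  have build : ∀ T' : Subgroup G, T' ∈ maxStraddlingTwoSubgroups L → ∃ K₂ L₂ : Subgroup G, UQ T' K₂ L₂ ∧ ¬ K₂ ≤ L := by
    intro T' hT'
    obtain ⟨S', hS'⟩ := JK.exists_sylow hS
    obtain ⟨K₂, hK₂⟩ := S2949.result hG.cha hG.solv hG.zed hO S' L hu.loc (by rw [hS']; exact hNJ) T' hT'
    obtain ⟨L₂, hL₂, hKL₂, hTL₂, hmax⟩ := exists_max hG hS hNJ hT' hK₂.1.1 hK₂.2.1 hK₂.2.2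
    exact ⟨K₂, L₂, ⟨hK₂.1.1, hL₂, hKL₂, sylow_of_le hG hS hNJ hT' hL₂ (fun h => hK₂.2.1 (hKL₂.trans h)) hTL₂, hmax⟩, hK₂.2.1⟩
  by_cases hstr : T ∈ straddlingTwoSubgroups L
  · exact build T (sylow_max hS hstr)
  exfalso
  by_cases hex : ∃ R, R ∈ straddlingTwoSubgroups L
  · obtain ⟨R, hR⟩ := hex
    obtain ⟨T', hT'⟩ := exists_maxStraddling hR
    obtain ⟨K₂, L₂, hu₂, hK₂L⟩ := build T' hT'
    -- T' ≤ some conjugate of T in L
    obtain ⟨l, hl, hlT⟩ := IsSylowOf.exists_conj_le hu.syl hT'.1.2.2.1 hT'.1.1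
    have hlT' : cg l T' ≤ T := hlT
    have hT'T : T' ≤ cg l⁻¹ T := by
      have := cg_mono (x := l⁻¹) hlT'
      rwa [cg_inv] at this
    have hli : l⁻¹ ∈ L := L.inv_mem hl
    have hul := hu.cg l⁻¹
    have hLl : cg l⁻¹ L = L := cg_eq (Subgroup.le_normalizer hli)
    rw [hLl] at hul
    have hSl : H23.IsSylowOf 2 (cg l⁻¹ T) ⊤ := by
      have h3 := isSylowOf_conj hS l⁻¹
      rwa [Subgroup.map_top_of_surjective _ (MulAut.conj l⁻¹).surjective] at h3
    have hNJl : Subgroup.normalizer (thompsonSubgroupOf 2 (cg l⁻¹ T) : Set G) ≤ L := by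
      rw [thompson_cg]
      show Subgroup.normalizer (((thompsonSubgroupOf 2 T).map (MulAut.conj l⁻¹).toMonoidHom : Subgroup G) : Set G) ≤ L
      rw [norm_conj, ← hLl]
      exact cg_mono hNJ
    refine problem hG hSl hul hNJl hu₂ hT'T ?_ hK₂L
    intro heq
    apply hstr
    refine ⟨hu.T2, hu.T1, hu.TL, ?_⟩
    obtain ⟨-, -, -, Λ, hΛ, hT'Λ, hΛL⟩ := hT'.1
    refine ⟨cg l Λ, two_local_cg hΛ l, ?_, ?_⟩
    · have h3 : cg l (cg l⁻¹ T) ≤ cg l Λ := cg_mono (by rw [← heq]; exact hT'Λ)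
      rwa [cg_inv'] at h3
    · intro h3
      apply hΛL
      have h4 := cg_mono (x := l⁻¹) h3
      rwa [cg_inv, hLl] at h4
  · push Not at hex
    apply no_strong hG hS hu hNJ hO
    intro R Λ hR hR1 hRL hΛ hRΛ
    by_contra hcon
    exact hex R ⟨hR, hR1, hRL, Λ, hΛ, hRΛ, hcon⟩

end Cfsg.Agent.H19.JC
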