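import Cfsg.Agent.H19.JC20

set_option autoImplicit false
set_option linter.style.haveILetI false
set_option linter.unusedVariables false
set_option linter.unusedSectionVars false

/-! `J(T)`-components, part 21: the main theorem on pairs. -/

namespace Cfsg.Agent.H19.JC

open Cfsg Cfsg.Agent.H19.PGV Cfsg.Agent.H19.FF Cfsg.Agent.H19.FF.FFS
open scoped commutatorElement

variable {G : Type*} [Group G] [Finite G]

theorem card_cases {A : Subgroup G} (hA : IsPGroup 2 A) (h1 : A ≠ ⊥) (h4 : Nat.card A ≤ 4) :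
    Nat.card A = 2 ∨ Nat.card A = 4 := by
  haveI h2 : Fact (Nat.Prime 2) := ⟨Nat.prime_two⟩
  obtain ⟨n, hn⟩ := hA.exists_card_eq
  have h5 : Nat.card A ≠ 1 := fun h => h1 (Subgroup.card_eq_one.mp h)
  have h6 : n ≤ 2 := by
    by_contra h
    push Not at h
    have : 2 ^ 3 ≤ 2 ^ n := Nat.pow_le_pow_right (by norm_num) h
    omega
  interval_cases n
  · exact absurd hn h5
  · left; exact hn
  · right; exact hn

theorem main (hG : HG G) (hO : pCore 2 G = ⊥) {S T K L : Subgroup G} (hS : H23.IsSylowOf 2 S ⊤) (hu : UQ T K L)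
    (hTS : T ≤ S) : omegaCenterOf T = Zz T ∧ (∃ K₂ L₂ : Subgroup G, UQ T K₂ L₂ ∧ ¬ K₂ ≤ L) ∧
    ((omegaCenterOf S = Zz T ∧ Nat.card (Zz T) = 2) ∨ (omegaCenterOf S = Zz T ∧ Nat.card (Zz T) = 4 ∧ T = S) ∨
      (omegaCenterOf T = Zz T ∧ Nat.card (Zz T) = 4 ∧
        (L ⊓ Subgroup.centralizer (Zz T : Set G)).relIndex (Subgroup.normalizer (Zz T : Set G)) = 2)) := by
  haveI h2 : Fact (Nat.Prime 2) := ⟨Nat.prime_two⟩
  have hZ2 : IsPGroup 2 (Zz T) := (J_isPGroup hu.T2).to_le (oz_le _)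
  have hozT : omegaCenterOf T ≠ ⊥ := oz_ne_bot hu.T2 hu.T1
  have hZne : Zz T ≠ ⊥ := by
    intro h; apply hozT; rw [eq_bot_iff, ← h]; exact oz_le_Zz T
  have hST : omegaCenterOf S ≤ omegaCenterOf T := hu.oz_S_le hG hTS
  have hSne : S ≠ ⊥ := by
    intro h; apply hu.T1; rw [eq_bot_iff, ← h]; exact hTS
  have hozS : omegaCenterOf S ≠ ⊥ := oz_ne_bot hS.isPGroup hSne
  have htwo : Nat.card (Zz T) = 2 → omegaCenterOf S = Zz T := by
    intro h
    apply Subgroup.eq_of_le_of_card_ge (hST.trans (oz_le_Zz T))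
    rw [h, Nat.succ_le_iff, Finite.one_lt_card_iff_nontrivial, Subgroup.nontrivial_iff_ne_bot]
    exact hozS
  rcases trichotomy hG hO hS hu hTS with ⟨x, hxS, hxN, hxL⟩ | ⟨rfl, x, hx, hxL⟩ | ⟨rfl, K₂, L₂, hu₂, hK₂⟩
  · have hxJ : x ∈ Subgroup.normalizer (thompsonSubgroupOf 2 T : Set G) := H2.normalizer_le_normalizer_thompson T hxN
    have hoz := UQ.ozT_eq hG hS hu hTS hxJ hxS hxL
    refine ⟨hoz, ⟨cg x K, cg x L, ?_, fun h => hxL (hu.mem_of_conj hG hxJ h)⟩, ?_⟩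
    · have := hu.cg x
      rwa [cg_eq hxN] at this
    · rcases card_cases hZ2 hZne ((hu.pairx hG hxJ hxL).card_le hG) with h | h
      · exact Or.inl ⟨htwo h, h⟩
      · exact Or.inr (Or.inr ⟨hoz, h, hu.index_two hG hS hTS hxJ hxS hxL h⟩)
  · have hp := hu.pairx hG hx hxL
    obtain ⟨z, hz, hz1, hz3⟩ := exists_common (exists_z_of hG hS hu.T2 hu.comp (H2.thompsonSubgroupOf_le 2 T))
      (exists_z_of hG hS hu.T2 hp.comp₂ (H2.thompsonSubgroupOf_le 2 T))
    have hoz := hp.oz_eq hG hz hz1 hz3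
    have hxT : x ∈ Subgroup.normalizer (T : Set G) := by
      have h1 : x ∈ Subgroup.normalizer (omegaCenterOf T : Set G) := by
        rw [hoz]; exact norm_oz _ hx
      have h3 : cg x T ≤ Subgroup.normalizer (T : Set G) := by
        refine le_trans ?_ (UQ.zed' hG hS)
        rintro _ ⟨t, ht, rfl⟩
        apply conj_mem_centralizer h1
        rw [Subgroup.mem_centralizer_iff]
        intro y hy
        exact ((mem_oz.mp hy).2.1 t ht).symm
      have h4 : IsPGroup 2 ↥(cg x T ⊔ T) := H18.isPGroup_sup_of_le_normalizer (hu.T2.map _) hu.T2 h3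
      have h5 := IsSylowOf.eq_of_le hS (Q := cg x T ⊔ T) le_sup_right le_top h4
      have h6 : cg x T ≤ T := le_sup_left.trans h5.le
      rw [H18.mem_normalizer_iff_map]
      exact Subgroup.eq_of_le_of_card_ge h6 (by rw [card_cg])
    refine ⟨hoz, ⟨cg x K, cg x L, ?_, fun h => hxL (hu.mem_of_conj hG hx h)⟩, ?_⟩
    · have := hu.cg x
      rwa [cg_eq hxT] at this
    · rcases card_cases hZ2 hZne (hp.card_le hG) with h | h
      · exact Or.inl ⟨hoz, h⟩
      · exact Or.inr (Or.inl ⟨hoz, h, rfl⟩)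
  · have hp := hu.pair₂ hG hu₂.comp hK₂
    obtain ⟨z, hz, hz1, hz3⟩ := exists_common (exists_z_of hG hS hu.T2 hu.comp (H2.thompsonSubgroupOf_le 2 T))
      (exists_z_of hG hS hu.T2 hp.comp₂ (H2.thompsonSubgroupOf_le 2 T))
    have hoz := hp.oz_eq hG hz hz1 hz3
    refine ⟨hoz, ⟨K₂, L₂, hu₂, hK₂⟩, ?_⟩
    rcases card_cases hZ2 hZne (hp.card_le hG) with h | h
    · exact Or.inl ⟨hoz, h⟩
    · exact Or.inr (Or.inl ⟨hoz, h, rfl⟩)

theorem uq_of (hG : HG G) {S : Subgroup G} (hS : H23.IsSylowOf 2 S ⊤) {M : Subgroup G}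
    (hMJ : Subgroup.normalizer (thompsonSubgroupOf 2 S : Set G) ≤ M) {T : Subgroup G}
    (hT : T ∈ maxStraddlingTwoSubgroups M) {K : Subgroup G} (hK : K ∈ jComponentsOutside M T) : ∃ L, UQ T K L := by
  obtain ⟨L, hL2, hKL, hTL, hmax⟩ := exists_max hG hS hMJ hT hK.1.1 hK.2.1 hK.2.2
  have hLM : ¬ L ≤ M := fun h => hK.2.1 (hKL.trans h)
  exact ⟨L, hK.1.1, hL2, hKL, sylow_of_le hG hS hMJ hT hL2 hLM hTL, hmax⟩

namespace UQ

variable {T K L : Subgroup G}

/-- `|P : O₂(P)| = 6` -/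
theorem index_six (hu : UQ T K L) (hTK : T ≤ Subgroup.normalizer (K : Set G)) :
    (pCoreOf 2 (K ⊔ T)).relIndex (K ⊔ T) = 6 := by
  haveI h2 : Fact (Nat.Prime 2) := ⟨Nat.prime_two⟩
  have hc3 := comp_c3 hu.comp
  have hRT := hu.R_le_T hTK
  set R := pCoreOf 2 K with hR
  set P := K ⊔ T with hP
  set Q := pCoreOf 2 P with hQ
  have hPL : P ≤ L := sup_le hu.KL hu.TL
  have hTP : H23.IsSylowOf 2 T P := IsSylowOf.mono hu.syl le_sup_right hPL
  have hQT : Q ≤ T := by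
    obtain ⟨S', hS'⟩ := hTP
    rw [← hS']
    exact Subgroup.map_mono (H18.pCore_le_sylow S')
  have hPQ : P ≤ Subgroup.normalizer (Q : Set G) := H18.le_normalizer_pCoreOf P
  have hKP : K ≤ P := le_sup_left
  have hTP' : T ≤ P := le_sup_right
  have hKT : K ⊓ T = R := by
    rcases hc3.dich (H := K ⊓ T) (le_inf (H18.pCoreOf_le K) hRT) inf_le_left with h | h
    · exact h
    · exfalso
      apply comp_not_pgroup hu.comp hu.T2
      rw [← h]; exact inf_le_right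
  obtain ⟨k, hk, -, hkR⟩ := hc3.exists_gen
  have hTR : T ≤ Subgroup.normalizer (R : Set G) := hTK.trans (H18.normalizer_le_normalizer_pCoreOf K)
  have hKR : K ≤ Subgroup.normalizer (R : Set G) := H18.le_normalizer_pCoreOf K
  have conjR : ∀ {g r : G}, g ∈ K → r ∈ R → g * r * g⁻¹ ∈ R := fun hg hr => (Subgroup.mem_normalizer_iff.mp (hKR hg) _).mp hr
  have conjR' : ∀ {g r : G}, g ∈ K → r ∈ R → g⁻¹ * r * g ∈ R := fun {g r} hg hr => by
    have := conjR (K.inv_mem hg) hr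
    rwa [inv_inv] at this
  have conjTR : ∀ {g r : G}, g ∈ T → r ∈ R → g * r * g⁻¹ ∈ R := fun hg hr => (Subgroup.mem_normalizer_iff.mp (hTR hg) _).mp hr
  have conjK : ∀ {t g : G}, t ∈ T → g ∈ K → t * g * t⁻¹ ∈ K := fun ht hg => (Subgroup.mem_normalizer_iff.mp (hTK ht) _).mp hg
  set D := PB.Dd T K k hTR with hD
  have hDT : D ≤ T := fun t ht => ht.1
  have hRD : R ≤ D := fun r hr => ⟨hRT hr, by
    have e : k⁻¹ * (r * k * r⁻¹) = (k⁻¹ * r * k) * r⁻¹ := by group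
    rw [e]
    exact R.mul_mem (conjR' hk hr) (R.inv_mem hr)⟩
  have hkD : k ∈ Subgroup.normalizer (D : Set G) := by
    apply mem_norm_of_le
    intro t ht
    have h1 : k * t * k⁻¹ * t⁻¹ ∈ R := by
      have h3 := conjR hk (R.inv_mem ht.2)
      have e : k * (k⁻¹ * (t * k * t⁻¹))⁻¹ * k⁻¹ = k * t * k⁻¹ * t⁻¹ := by group
      rwa [e] at h3
    have h3 := D.mul_mem (hRD h1) ht
    have e : k * t * k⁻¹ * t⁻¹ * t = k * t * k⁻¹ := by group
    rwa [e] at h3
  have hKD : K ≤ Subgroup.normalizer (D : Set G) := by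
    rw [← hc3.gen hk hkR]
    exact sup_le (hRD.trans Subgroup.le_normalizer) (by rw [Subgroup.zpowers_le]; exact hkD)
  have hnD : ∀ t ∈ T, t ∉ D → k * (t * k * t⁻¹) ∈ R := by
    intro t ht htD
    have h1 := conjK ht hk
    have h3 : t * k * t⁻¹ ∉ R := fun h => hkR ((Subgroup.mem_normalizer_iff.mp (hTR ht) k).mpr h)
    rcases C3.tri hc3 hk hkR h1 h3 with h4 | h4
    · exact absurd ⟨ht, h4⟩ htD
    · exact h4
  have hidx : ∀ a ∈ T, ∀ b ∈ T, a ∉ D → b ∉ D → a * b ∈ D := by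
    intro a ha b hb haD hbD
    refine ⟨T.mul_mem ha hb, ?_⟩
    have h1 := hnD a ha haD
    have h3 := hnD b hb hbD
    have h4 := conjR' hk (R.inv_mem h1)
    have h5 := R.mul_mem h4 (conjTR ha h3)
    have e : k⁻¹ * (k * (a * k * a⁻¹))⁻¹ * k * (a * (k * (b * k * b⁻¹)) * a⁻¹) = k⁻¹ * (a * b * k * (a * b)⁻¹) := by group
    rwa [e] at h5
  have hTD : T ≤ Subgroup.normalizer (D : Set G) := by
    intro s hs
    by_cases hsD : s ∈ D
    · exact Subgroup.le_normalizer hsD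
    · apply mem_norm_of_le
      intro t ht
      have h1 : s * t ∉ D := fun h3 => hsD ((Subgroup.mul_mem_cancel_right D ht).mp h3)
      have h3 : s⁻¹ ∉ D := fun h3 => hsD (by simpa using D.inv_mem h3)
      exact hidx _ (T.mul_mem hs (hDT ht)) _ (T.inv_mem hs) h1 h3
  have hDQ : D ≤ Q := H18.le_pCoreOf (hDT.trans hTP') (sup_le hKD hTD) (hu.T2.to_le hDT)
  have hKQ : ∀ g ∈ K, ∀ q ∈ Q, g⁻¹ * (q * g * q⁻¹) ∈ R := by
    intro g hg q hq
    rw [← hKT]
    refine ⟨K.mul_mem (K.inv_mem hg) (conjK (hQT hq) hg), ?_⟩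
    have h3 := (Subgroup.mem_normalizer_iff.mp (hPQ (P.inv_mem (hKP hg))) q).mp hq
    have e : g⁻¹ * (q * g * q⁻¹) = (g⁻¹ * q * g⁻¹⁻¹) * q⁻¹ := by group
    show g⁻¹ * (q * g * q⁻¹) ∈ T
    rw [e]
    exact hQT (Q.mul_mem h3 (Q.inv_mem hq))
  have hQD : Q = D := le_antisymm (fun q hq => ⟨hQT hq, hKQ k hk q hq⟩) hDQ
  have hTQ : ¬ T ≤ Q := by
    intro h
    apply hc3.ne_pcore
    apply le_antisymm (H18.pCoreOf_le K)
    have h6 : ⁅K, thompsonSubgroupOf 2 T⁆ ≤ R := by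
      rw [Subgroup.commutator_le]
      intro g hg j hj
      rw [commutatorElement_def]
      have h1 := hKQ g⁻¹ (K.inv_mem hg) j (h (H2.thompsonSubgroupOf_le 2 T hj))
      have e : g⁻¹⁻¹ * (j * g⁻¹ * j⁻¹) = g * j * g⁻¹ * j⁻¹ := by group
      rwa [e] at h1
    rwa [hu.comp.2.1] at h6
  have h3 : Q.relIndex T = 2 := by
    rw [Subgroup.relIndex_eq_two_iff]
    obtain ⟨a, ha, haQ⟩ := Set.not_subset.mp hTQ
    have haQ' : a ∉ Q := haQ
    refine ⟨a, ha, fun b hb => ?_⟩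
    by_cases hbQ : b ∈ Q
    · right
      exact ⟨hbQ, fun h => haQ' ((Subgroup.mul_mem_cancel_left Q hbQ).mp h)⟩
    · left
      rw [hQD] at haQ' hbQ ⊢
      exact ⟨hidx b hb a ha hbQ haQ', hbQ⟩
  have h4 : T.relIndex P = 3 := by
    have h5 : Nat.card P * Nat.card R = Nat.card K * Nat.card T := by
      have h6 := H1.card_sup_mul_card_inf_of_le_normalizer (H := K) (K := T) hTK
      rw [hKT] at h6
      exact h6
    have h6 := PGV.card_relIndex hTP'
    have h7 := PGV.card_relIndex (H18.pCoreOf_le (p := 2) K)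
    rw [hc3.idx] at h7
    have hT0 : 0 < Nat.card T := Nat.card_pos
    have hR0 : 0 < Nat.card R := Nat.card_pos
    rw [← h6, ← h7] at h5
    have h8 : Nat.card T * Nat.card R * T.relIndex P = Nat.card T * Nat.card R * 3 := by
      calc Nat.card T * Nat.card R * T.relIndex P = Nat.card T * T.relIndex P * Nat.card R := by ring
        _ = Nat.card R * 3 * Nat.card T := h5
        _ = _ := by ring
    exact Nat.eq_of_mul_eq_mul_left (Nat.mul_pos hT0 hR0) h8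
  rw [← Subgroup.relIndex_mul_relIndex Q T P hQT hTP', h3, h4]

end UQ

end Cfsg.Agent.H19.JC
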