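import Cfsg.Agent.H19.JC2
import Cfsg.Agent.S0600

set_option autoImplicit false
set_option linter.style.haveILetI false
set_option linter.unusedVariables false
set_option linter.unusedSectionVars false

/-! `J(T)`-components, part 3: solvable groups of characteristic 2 in which `C(Ω₁(Z(T)))` normalizes `T`. -/

namespace Cfsg.Agent.H19.FF.FFS

open Cfsg Cfsg.Agent.H19.PGV
open scoped commutatorElement

variable {X W : Type*} [Group X] [AddCommGroup W] [DistribMulAction X W]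
variable {p : ℕ} [Fact p.Prime] {Q : Subgroup X} [Finite X] [Finite W]

theorem pow_mem_Q (h : FFS p W Q) (hgen : sSup {B : Subgroup X | TG p W B} = ⊤) (x : X) : x ^ p ∈ Q := by
  haveI := h.hQn
  set π := QuotientGroup.mk' Q with hπ
  let S : Set (X ⧸ Q) := {y | ∃ B : Subgroup X, TG p W B ∧ ∃ b ∈ B, π b = y}
  have hE : IsElementaryAbelian p (Subgroup.closure S) := by
    apply H20.isElementaryAbelian_closure
    · rintro _ ⟨A, hA, a, ha, rfl⟩ _ ⟨B, hB, b, hb, rfl⟩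
      rcases TG.dich h hA hB with ⟨r, hr, _, hB'⟩ | ⟨h1, h2, _⟩
      · rw [hB'] at hb
        obtain ⟨a', ha', hb'⟩ := hb
        have hb'' : b = r * a' * r⁻¹ := hb'.symm
        have hr1 : π r = 1 := (QuotientGroup.eq_one_iff r).mpr hr
        rw [hb'', map_mul, map_mul, map_inv, hr1, one_mul, inv_one, mul_one, ← map_mul, ← map_mul,
          hA.EA.1 a ha a' ha']
      · rw [← map_mul, ← map_mul, comm_of_triv h h1 h2 a (le_EG Q A ha) b (le_EG Q B hb)]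
    · rintro _ ⟨A, hA, a, ha, rfl⟩
      rw [← map_pow, hA.EA.2 a ha, map_one]
  have h1 : (⊤ : Subgroup X) ≤ (Subgroup.closure S).comap π := by
    rw [← hgen]
    refine sSup_le fun B hB b hb => ?_
    exact Subgroup.subset_closure ⟨B, hB, b, hb, rfl⟩
  have h2 : π x ∈ Subgroup.closure S := h1 (Subgroup.mem_top x)
  have h3 := hE.2 _ h2
  rw [← map_pow] at h3
  exact (QuotientGroup.eq_one_iff _).mp h3

theorem TG.com_QE (h : FFS p W Q) {A : Subgroup X} (hA : TG p W A) : comS W ⁅Q, A⁆ = comS W (EG Q A) := by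
  have hle : ⁅Q, A⁆ ≤ EG Q A := le_sup_left
  apply le_antisymm
  · rw [comS_le]
    intro x hx w
    exact mem_comS (hle hx) w
  have hne : comS W ⁅Q, A⁆ ≠ ⊥ := by
    intro h1
    have h2 : ⁅Q, A⁆ = ⊥ := by
      rw [eq_bot_iff]
      intro x hx
      rw [Subgroup.mem_bot]
      apply h.hf
      intro w
      have h3 : x • w - w ∈ comS W ⁅Q, A⁆ := mem_comS hx w
      rw [h1, AddSubgroup.mem_bot] at h3
      exact sub_eq_zero.mp h3
    have h4 := hA.card_com h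
    rw [h2, Subgroup.card_bot] at h4
    omega
  obtain ⟨⟨v, hv⟩, hv0⟩ := AddSubgroup.ne_bot_iff_exists_ne_zero.mp hne
  have hv0' : v ≠ 0 := fun h => hv0 (Subtype.ext h)
  intro w hw
  by_cases hw0 : w = 0
  · rw [hw0]; exact AddSubgroup.zero_mem _
  have hv' : v ∈ comS W (EG Q A) := by
    have h5 : comS W ⁅Q, A⁆ ≤ comS W (EG Q A) := by
      rw [comS_le]
      intro x hx w
      exact mem_comS (hle hx) w
    exact h5 hv
  obtain ⟨a, ha, ha1⟩ := hA.exists_ne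
  obtain ⟨u, hu, hu0⟩ := hA.exists_u ha ha1
  obtain ⟨r, hr, hrE, hvr⟩ := hA.exists_rep h ha ha1 hu hu0 hv' hv0'
  obtain ⟨s, hs, hsE, hws⟩ := hA.exists_rep h ha ha1 hu hu0 hw hw0
  have h6 : w = (s * r⁻¹) • v := by
    rw [hvr, mul_smul, inv_smul_smul, hws]
  rw [h6]
  have h7 : s * r⁻¹ ∈ ⁅Q, A⁆ := by
    rw [hA.com_eq h]
    exact ⟨Q.mul_mem hs (Q.inv_mem hr), Subgroup.mul_mem _ hsE (Subgroup.inv_mem _ hrE)⟩
  have h8 : (s * r⁻¹) • v - v ∈ comS W ⁅Q, A⁆ := mem_comS h7 v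
  have h9 := AddSubgroup.add_mem _ h8 hv
  rwa [sub_add_cancel] at h9

end Cfsg.Agent.H19.FF.FFS

namespace Cfsg.Agent.H19.JC

open Cfsg Cfsg.Agent.H19.PGV Cfsg.Agent.H19.FF Cfsg.Agent.H19.FF.FFS
open scoped commutatorElement

local notation "𝕆(" p ", " H ")" => Subgroup.map (Subgroup.subtype H) (Cfsg.pResidual p ↥H)

theorem mem_norm_of_le {G : Type*} [Group G] [Finite G] {H : Subgroup G} {g : G} (h : ∀ x ∈ H, g * x * g⁻¹ ∈ H) :
    g ∈ Subgroup.normalizer (H : Set G) := by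
  rw [H18.mem_normalizer_iff_map]
  apply Subgroup.eq_of_le_of_card_ge
  · rintro _ ⟨x, hx, rfl⟩
    exact h x hx
  · exact (H2.card_map_inj (MulAut.conj g).injective H).ge

/-- general version of `C3.exists_com` -/
theorem C3.exists_com' {G : Type*} [Group G] {K U : Subgroup G} (h : C3 K)
    (hUc : ∀ u ∈ U, ∀ v ∈ U, u * v = v * u) (hKU : K ≤ Subgroup.normalizer (U : Set G))
    (hRU : ∀ r ∈ pCoreOf 2 K, ∀ u ∈ U, r * u = u * r) {d : G} (hd : d ∈ K) (hdR : d ∉ pCoreOf 2 K)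
    {w : G} (hw : w ∈ ⁅U, K⁆) : ∃ u ∈ U, w = d * u * d⁻¹ * u⁻¹ := by
  have hcj : ∀ k ∈ K, ∀ u ∈ U, k * u * k⁻¹ ∈ U := fun k hk u hu =>
    (Subgroup.mem_normalizer_iff.mp (hKU hk) u).mp hu
  let X : Subgroup G :=
    { carrier := {w | ∃ u ∈ U, w = d * u * d⁻¹ * u⁻¹}
      mul_mem' := by
        rintro _ _ ⟨u, hu, rfl⟩ ⟨v, hv, rfl⟩
        refine ⟨u * v, U.mul_mem hu hv, ?_⟩
        have h1 : u⁻¹ * (d * v * d⁻¹) = (d * v * d⁻¹) * u⁻¹ := hUc _ (U.inv_mem hu) _ (hcj d hd v hv)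
        have h2 : u⁻¹ * v⁻¹ = v⁻¹ * u⁻¹ := hUc _ (U.inv_mem hu) _ (U.inv_mem hv)
        calc d * u * d⁻¹ * u⁻¹ * (d * v * d⁻¹ * v⁻¹) = d * u * d⁻¹ * (u⁻¹ * (d * v * d⁻¹)) * v⁻¹ := by group
          _ = d * u * d⁻¹ * (d * v * d⁻¹) * (u⁻¹ * v⁻¹) := by rw [h1]; group
          _ = _ := by rw [h2]; group
      one_mem' := ⟨1, U.one_mem, by group⟩
      inv_mem' := by
        rintro _ ⟨u, hu, rfl⟩
        refine ⟨u⁻¹, U.inv_mem hu, ?_⟩
        have h1 : u * (d * u⁻¹ * d⁻¹) = (d * u⁻¹ * d⁻¹) * u := hUc _ hu _ (hcj d hd _ (U.inv_mem hu))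
        calc (d * u * d⁻¹ * u⁻¹)⁻¹ = u * (d * u⁻¹ * d⁻¹) := by group
          _ = _ := by rw [h1, inv_inv] }
  let Y : Subgroup G :=
    { carrier := {k | k ∈ K ∧ ∀ u ∈ U, k * u * k⁻¹ * u⁻¹ ∈ X}
      mul_mem' := by
        rintro a b ⟨ha, ha'⟩ ⟨hb, hb'⟩
        refine ⟨K.mul_mem ha hb, fun u hu => ?_⟩
        have h1 := X.mul_mem (ha' _ (hcj b hb u hu)) (hb' u hu)
        have h2 : a * (b * u * b⁻¹) * a⁻¹ * (b * u * b⁻¹)⁻¹ * (b * u * b⁻¹ * u⁻¹) = a * b * u * (a * b)⁻¹ * u⁻¹ := by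
          group
        rwa [h2] at h1
      one_mem' := ⟨K.one_mem, fun u hu => by
        have : (1 : G) * u * 1⁻¹ * u⁻¹ = 1 := by group
        rw [this]; exact X.one_mem⟩
      inv_mem' := by
        rintro a ⟨ha, ha'⟩
        refine ⟨K.inv_mem ha, fun u hu => ?_⟩
        have h0 := hcj a⁻¹ (K.inv_mem ha) u hu
        have h1 := X.inv_mem (ha' _ h0)
        have h2 : (a * (a⁻¹ * u * a⁻¹⁻¹) * a⁻¹ * (a⁻¹ * u * a⁻¹⁻¹)⁻¹)⁻¹ = a⁻¹ * u * a⁻¹⁻¹ * u⁻¹ := by group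
        rwa [h2] at h1 }
  have hY : K ≤ Y := by
    rw [← h.gen hd hdR]
    apply sup_le
    · intro r hr
      refine ⟨H18.pCoreOf_le K hr, fun u hu => ?_⟩
      have : r * u * r⁻¹ * u⁻¹ = 1 := by
        rw [hRU r hr u hu]; group
      rw [this]; exact X.one_mem
    · rw [Subgroup.zpowers_le]
      exact ⟨hd, fun u hu => ⟨u, hu, rfl⟩⟩
  have h1 : ⁅U, K⁆ ≤ X := by
    rw [Subgroup.commutator_comm, Subgroup.commutator_le]
    intro k hk u hu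
    rw [commutatorElement_def]
    exact (hY hk).2 u hu
  exact h1 hw

/-- general version of `C3.fpf` -/
theorem C3.fpf' {G : Type*} [Group G] {K U : Subgroup G} (h : C3 K)
    (hUc : ∀ u ∈ U, ∀ v ∈ U, u * v = v * u) (hU2 : ∀ u ∈ U, u ^ 2 = 1) (hKU : K ≤ Subgroup.normalizer (U : Set G))
    (hRU : ∀ r ∈ pCoreOf 2 K, ∀ u ∈ U, r * u = u * r) {d : G} (hd : d ∈ K) (hdR : d ∉ pCoreOf 2 K)
    {w : G} (hw : w ∈ ⁅U, K⁆) (hc : d * w = w * d) : w = 1 := by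
  have hcj : ∀ k ∈ K, ∀ u ∈ U, k * u * k⁻¹ ∈ U := fun k hk u hu =>
    (Subgroup.mem_normalizer_iff.mp (hKU hk) u).mp hu
  have hwU : w ∈ U := H23.commutator_le_iff_normalizer.mpr hKU hw
  obtain ⟨u, hu, rfl⟩ := h.exists_com' hUc hKU hRU hd hdR hw
  set w := d * u * d⁻¹ * u⁻¹ with hw'
  have hw1 : d * w * d⁻¹ = w := by rw [hc]; group
  have h3 : w ^ 3 = 1 := by
    have hd3 : d * (d * (d * u * d⁻¹) * d⁻¹) * d⁻¹ = u := by
      have h4 := hRU _ (h.cube hd) u hu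
      have h6 : d ^ 3 = d * d * d := by rw [pow_succ, pow_two]
      rw [h6] at h4
      calc d * (d * (d * u * d⁻¹) * d⁻¹) * d⁻¹ = (d * d * d * u) * (d * d * d)⁻¹ := by group
        _ = u := by rw [h4]; group
    obtain ⟨x, hx⟩ : ∃ x, x = d * u * d⁻¹ := ⟨_, rfl⟩
    obtain ⟨y, hy⟩ : ∃ y, y = d * x * d⁻¹ := ⟨_, rfl⟩
    have ew : w = x * u⁻¹ := by rw [hx]
    have ew1 : w = y * x⁻¹ := by
      calc w = d * w * d⁻¹ := hw1.symm
        _ = d * (x * u⁻¹) * d⁻¹ := by rw [← ew]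
        _ = (d * x * d⁻¹) * (d * u * d⁻¹)⁻¹ := by group
        _ = _ := by rw [← hx, ← hy]
    have ew2 : w = u * y⁻¹ := by
      calc w = d * w * d⁻¹ := hw1.symm
        _ = d * (y * x⁻¹) * d⁻¹ := by rw [← ew1]
        _ = (d * y * d⁻¹) * (d * x * d⁻¹)⁻¹ := by group
        _ = _ := by
          rw [← hy]
          have : d * y * d⁻¹ = u := by rw [hy, hx]; exact hd3
          rw [this]
    have : w ^ 3 = w * (w * w) := by rw [pow_succ, pow_two, mul_assoc]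
    rw [this]
    calc w * (w * w) = (u * y⁻¹) * ((y * x⁻¹) * (x * u⁻¹)) := by rw [← ew, ← ew1, ← ew2]
      _ = 1 := by group
  have h2 : w ^ 2 = 1 := hU2 w hwU
  calc w = w ^ 3 * (w ^ 2)⁻¹ := by rw [pow_succ, h2]; group
    _ = 1 := by rw [h3, h2]; group

/-- groups to which the theory applies -/
structure ZG (Γ : Type*) [Group Γ] : Prop where
  solv : Group.IsSolvable Γ
  cha : Subgroup.centralizer (pCore 2 Γ : Set Γ) ≤ pCore 2 Γ
  zed : ∀ T : Sylow 2 Γ, Subgroup.centralizer (omegaCenterOf (T : Subgroup Γ) : Set Γ) ≤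
    Subgroup.normalizer ((T : Subgroup Γ) : Set Γ)

/-- the module -/
abbrev VV (Γ : Type*) [Group Γ] : Subgroup Γ := H2.ozGen 2 Γ
abbrev CC (Γ : Type*) [Group Γ] : Subgroup Γ := Subgroup.centralizer (VV Γ : Set Γ)
abbrev rho (Γ : Type*) [Group Γ] : Γ →* Γ ⧸ CC Γ := QuotientGroup.mk' (CC Γ)
abbrev NN (Γ : Type*) [Group Γ] : Subgroup (Γ ⧸ CC Γ) := (thompsonSubgroup 2 Γ).map (rho Γ)

instance JJ_normal (Γ : Type*) [Group Γ] : (thompsonSubgroup 2 Γ).Normal := by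
  have : (thompsonSubgroup 2 Γ).Characteristic := H2.thompsonSubgroup_characteristic
  infer_instance

instance NN_normal (Γ : Type*) [Group Γ] : (NN Γ).Normal :=
  Subgroup.Normal.map (JJ_normal Γ) _ (QuotientGroup.mk'_surjective _)

namespace ZG

variable {Γ : Type*} [Group Γ] [Finite Γ]

theorem V_elem (h : ZG Γ) : IsElementaryAbelian 2 (VV Γ) := H2.ozGen_isElementaryAbelian h.cha

/-- the module -/
abbrev WW (h : ZG Γ) : Type _ := FF.Wn (VV Γ) h.V_elem.1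

theorem V_le (h : ZG Γ) : VV Γ ≤ pCore 2 Γ :=
  iSup_le fun S x hx => (H2.ozGen_le_of_charP h.cha S x hx).1

theorem Q_le_C (h : ZG Γ) : pCore 2 Γ ≤ CC Γ := by
  intro q hq
  apply H2.centralizes_iSup (rfl : H2.ozGen 2 Γ = _)
  intro S v hv
  exact ((Subgroup.mem_centralizer_iff.mp (H2.ozGen_le_of_charP h.cha S v hv).2.1) q hq).symm

theorem hO (h : ZG Γ) : pCore 2 (Γ ⧸ CC Γ) = ⊥ := by
  haveI h2 : Fact (Nat.Prime 2) := ⟨Nat.prime_two⟩
  apply S0600.result (VV Γ) h.V_elem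
  apply le_antisymm
  · conv_lhs => unfold VV H2.ozGen
    apply iSup_mono
    intro S x hx
    refine ⟨H2.oz_le_ozGen S hx, ?_⟩
    show x ∈ Subgroup.centralizer _
    rw [Subgroup.mem_centralizer_iff]
    exact (H2.mem_oz_iff.mp hx).2.1
  · exact iSup_le fun S => inf_le_left

theorem C_norm (h : ZG Γ) {T : Subgroup Γ} (hT : H23.IsSylowOf 2 T ⊤) : CC Γ ≤ Subgroup.normalizer (T : Set Γ) := by
  haveI h2 : Fact (Nat.Prime 2) := ⟨Nat.prime_two⟩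
  have h1 := H23.isSylowOf_iff.mp hT
  have hi : ¬ 2 ∣ T.index := by rw [← Subgroup.relIndex_top_right]; exact h1.2.2
  have h3 := h.zed (h1.2.1.toSylow hi)
  have h4 : ((h1.2.1.toSylow hi : Sylow 2 Γ) : Subgroup Γ) = T := IsPGroup.toSylow_coe _ hi
  rw [h4] at h3
  refine le_trans (Subgroup.centralizer_le ?_) h3
  intro x hx
  have h5 := H2.oz_le_ozGen (p := 2) (h1.2.1.toSylow hi)
  rw [h4] at h5
  exact h5 hx

theorem inf_le_Q (h : ZG Γ) {T : Subgroup Γ} (hT : H23.IsSylowOf 2 T ⊤) : T ⊓ CC Γ ≤ pCore 2 Γ := by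
  have h1 : T ⊓ CC Γ ≤ pCoreOf 2 (CC Γ) := by
    apply H18.le_pCoreOf inf_le_right
    · intro c hc
      apply mem_norm_of_le
      rintro x ⟨hx, hx'⟩
      exact ⟨(Subgroup.mem_normalizer_iff.mp (h.C_norm hT hc) x).mp hx,
        (CC Γ).mul_mem ((CC Γ).mul_mem hc hx') ((CC Γ).inv_mem hc)⟩
    · exact hT.isPGroup.to_le inf_le_left
  refine h1.trans (H18.le_pCore ?_ (H18.isPGroup_pCoreOf _))
  rw [← Subgroup.normalizer_eq_top_iff, eq_top_iff]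
  refine le_trans ?_ (H18.normalizer_le_normalizer_pCoreOf (CC Γ))
  rw [Subgroup.normalizer_eq_top_iff.mpr inferInstance]

theorem mem_Q_of (h : ZG Γ) {c : Γ} (hc : c ∈ CC Γ) {P : Subgroup Γ} (hP : IsPGroup 2 P) (hcP : c ∈ P) :
    c ∈ pCore 2 Γ := by
  haveI h2 : Fact (Nat.Prime 2) := ⟨Nat.prime_two⟩
  obtain ⟨T, hT, hPT⟩ := H23.exists_isSylowOf_ge (p := 2) (le_top : P ≤ ⊤) hP
  exact h.inf_le_Q hT ⟨hPT hcP, hc⟩

theorem mem_Q_of_sq (h : ZG Γ) {c : Γ} (hc : c ∈ CC Γ) (hc2 : c * c ∈ pCore 2 Γ) : c ∈ pCore 2 Γ := by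
  haveI h2 : Fact (Nat.Prime 2) := ⟨Nat.prime_two⟩
  obtain ⟨n, hn⟩ := H18.isPGroup_pCore 2 Γ ⟨_, hc2⟩
  have hn' : (c * c) ^ 2 ^ n = 1 := congrArg Subtype.val hn
  refine h.mem_Q_of hc (P := Subgroup.zpowers c) ?_ (Subgroup.mem_zpowers c)
  rw [IsPGroup.iff_card, Nat.card_zpowers]
  have h3 : orderOf c ∣ 2 ^ (n + 1) := by
    apply orderOf_dvd_of_pow_eq_one
    rw [pow_succ', pow_mul, pow_two]
    exact hn'
  exact ⟨_, ((Nat.dvd_prime_pow Nat.prime_two).mp h3).choose_spec.2⟩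

/-- 2-subgroups commute with `C` modulo `Q` -/
theorem comm_mod (h : ZG Γ) {c x : Γ} (hc : c ∈ CC Γ) {P : Subgroup Γ} (hP : IsPGroup 2 P) (hx : x ∈ P) :
    c * x * c⁻¹ * x⁻¹ ∈ pCore 2 Γ := by
  haveI h2 : Fact (Nat.Prime 2) := ⟨Nat.prime_two⟩
  obtain ⟨T, hT, hPT⟩ := H23.exists_isSylowOf_ge (p := 2) (le_top : P ≤ ⊤) hP
  apply h.inf_le_Q hT
  constructor
  · exact T.mul_mem ((Subgroup.mem_normalizer_iff.mp (h.C_norm hT hc) x).mp (hPT hx)) (T.inv_mem (hPT hx))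
  · have h3 : x * c⁻¹ * x⁻¹ ∈ CC Γ := Subgroup.Normal.conj_mem inferInstance _ ((CC Γ).inv_mem hc) x
    have h4 := (CC Γ).mul_mem hc h3
    have e : c * (x * c⁻¹ * x⁻¹) = c * x * c⁻¹ * x⁻¹ := by group
    rwa [e] at h4

/-- the elements commuting with `C` modulo `Q` -/
def DD (Γ : Type*) [Group Γ] : Subgroup Γ where
  carrier := {x | ∀ c ∈ CC Γ, c * x * c⁻¹ * x⁻¹ ∈ pCore 2 Γ}
  mul_mem' := by
    intro a b ha hb c hc
    have h1 := (pCore 2 Γ).mul_mem (ha c hc) (Subgroup.Normal.conj_mem inferInstance _ (hb c hc) a)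
    have e : c * a * c⁻¹ * a⁻¹ * (a * (c * b * c⁻¹ * b⁻¹) * a⁻¹) = c * (a * b) * c⁻¹ * (a * b)⁻¹ := by group
    rwa [e] at h1
  one_mem' := by
    intro c hc
    have e : c * 1 * c⁻¹ * 1⁻¹ = 1 := by group
    rw [e]; exact Subgroup.one_mem _
  inv_mem' := by
    intro a ha c hc
    have h1 := (pCore 2 Γ).inv_mem (Subgroup.Normal.conj_mem inferInstance _ (ha c hc) a⁻¹)
    have e : (a⁻¹ * (c * a * c⁻¹ * a⁻¹) * a⁻¹⁻¹)⁻¹ = c * a⁻¹ * c⁻¹ * a⁻¹⁻¹ := by group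
    rwa [e] at h1

theorem J_le_DD (h : ZG Γ) : thompsonSubgroup 2 Γ ≤ DD Γ := by
  rw [H2.thompsonSubgroup_eq]
  refine sSup_le fun A hA a ha c hc => ?_
  exact h.comm_mod hc (H20.IsElementaryAbelian.isPGroup hA.2.1) ha

theorem qa (h : ZG Γ) : QA 2 h.WW (rho Γ) := by
  haveI h2 : Fact (Nat.Prime 2) := ⟨Nat.prime_two⟩
  exact Wn.qa (hV := h.V_elem.1) h.V_elem.2 (H23.isPSolvable_of_isSolvable h.solv) h.hO

theorem ffs (h : ZG Γ) : FFS 2 h.WW (pPrimeCore 2 ↥(NN Γ)) := by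
  haveI h2 : Fact (Nat.Prime 2) := ⟨Nat.prime_two⟩
  exact h.qa.ffs (NN Γ)

theorem gen (h : ZG Γ) : sSup {B : Subgroup ↥(NN Γ) | TG 2 h.WW B} = ⊤ := by
  haveI h2 : Fact (Nat.Prime 2) := ⟨Nat.prime_two⟩
  refine h.qa.gen_of (S := {A : Subgroup Γ | H2.EAIn 2 ⊤ A}) (by
    show (thompsonSubgroup 2 Γ).map (rho Γ) = _
    rw [H2.thompsonSubgroup_eq]) ?_
  intro A hA
  exact ⟨EAIn_comm hA, hA.2.1.2, EAIn_off h.V_elem hA⟩

end ZG

end Cfsg.Agent.H19.JC
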