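import Cfsg.Agent.H19.JC3

set_option autoImplicit false
set_option linter.style.haveILetI false
set_option linter.unusedVariables false
set_option linter.unusedSectionVars false

/-! `J(T)`-components, part 4: the components inside a solvable group of characteristic 2. -/

namespace Cfsg.Agent.H19.JC

open Cfsg Cfsg.Agent.H19.PGV Cfsg.Agent.H19.FF Cfsg.Agent.H19.FF.FFS
open scoped commutatorElement

local notation "𝕆(" p ", " H ")" => Subgroup.map (Subgroup.subtype H) (Cfsg.pResidual p ↥H)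

/-- the part of the definition of components not involving `W_K` -/
structure JK {G : Type*} [Group G] (T K : Subgroup G) : Prop where
  c3 : C3 K
  com : ⁅K, thompsonSubgroupOf 2 T⁆ = K

variable {Γ : Type*} [Group Γ] [Finite Γ] {T K : Subgroup Γ}

theorem J_le_JJ (hT : H23.IsSylowOf 2 T ⊤) : thompsonSubgroupOf 2 T ≤ thompsonSubgroup 2 Γ := by
  haveI h2 : Fact (Nat.Prime 2) := ⟨Nat.prime_two⟩
  have h1 := H23.isSylowOf_iff.mp hT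
  have hi : ¬ 2 ∣ T.index := by rw [← Subgroup.relIndex_top_right]; exact h1.2.2
  have h3 := H2.thompsonSubgroupOf_sylow_le (h1.2.1.toSylow hi)
  have h4 : ((h1.2.1.toSylow hi : Sylow 2 Γ) : Subgroup Γ) = T := IsPGroup.toSylow_coe _ hi
  rwa [h4] at h3

theorem eaIn_top (hT : H23.IsSylowOf 2 T ⊤) {A : Subgroup Γ} (hA : H2.EAIn 2 T A) : H2.EAIn 2 ⊤ A := by
  haveI h2 : Fact (Nat.Prime 2) := ⟨Nat.prime_two⟩
  have h1 := H23.isSylowOf_iff.mp hT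
  have hi : ¬ 2 ∣ T.index := by rw [← Subgroup.relIndex_top_right]; exact h1.2.2
  have h4 : ((h1.2.1.toSylow hi : Sylow 2 Γ) : Subgroup Γ) = T := IsPGroup.toSylow_coe _ hi
  rw [← h4] at hA
  exact hA.of_sylow

namespace JK

theorem le_J (hK : JK T K) (hT : H23.IsSylowOf 2 T ⊤) : K ≤ thompsonSubgroup 2 Γ := by
  have h1 : ⁅K, thompsonSubgroupOf 2 T⁆ ≤ thompsonSubgroup 2 Γ := by
    rw [Subgroup.commutator_le]
    intro k _ j hj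
    rw [commutatorElement_def]
    exact Subgroup.mul_mem _ (Subgroup.Normal.conj_mem (JJ_normal Γ) _ (J_le_JJ hT hj) k)
      (Subgroup.inv_mem _ (J_le_JJ hT hj))
  rwa [hK.com] at h1

theorem norm (hK : JK T K) : thompsonSubgroupOf 2 T ≤ Subgroup.normalizer (K : Set Γ) :=
  le_norm_of_com hK.com.le

theorem rho_mem (h : ZG Γ) (hK : JK T K) (hT : H23.IsSylowOf 2 T ⊤) {k : Γ} (hk : k ∈ K) :
    rho Γ k ∈ (pPrimeCore 2 ↥(NN Γ)).map (NN Γ).subtype := by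
  haveI h2 : Fact (Nat.Prime 2) := ⟨Nat.prime_two⟩
  have h1 : K ≤ ((pPrimeCore 2 ↥(NN Γ)).map (NN Γ).subtype).comap (rho Γ) := by
    have h3 : 𝕆(2, K) ≤ ((pPrimeCore 2 ↥(NN Γ)).map (NN Γ).subtype).comap (rho Γ) := by
      rw [H18.pRes_le_iff]
      intro x hx hxo
      have hx' : rho Γ x ∈ NN Γ := ⟨x, hK.le_J hT hx, rfl⟩
      refine ⟨⟨rho Γ x, hx'⟩, ?_, rfl⟩
      apply odd_mem_of_sq_mem
      · have h4 : orderOf (⟨rho Γ x, hx'⟩ : ↥(NN Γ)) = orderOf (rho Γ x) := Subgroup.orderOf_mk _ _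
        rw [h4, ← Nat.coprime_two_right]
        exact Nat.Coprime.coprime_dvd_left (orderOf_map_dvd (rho Γ) x) hxo
      · have h5 := FFS.pow_mem_Q h.ffs h.gen (⟨rho Γ x, hx'⟩ : ↥(NN Γ))
        rwa [pow_two] at h5
    rwa [hK.c3.odd] at h3
  exact h1 hk

theorem img_le (h : ZG Γ) (hK : JK T K) (hT : H23.IsSylowOf 2 T ⊤) : img (rho Γ) (NN Γ) K ≤ pPrimeCore 2 ↥(NN Γ) := by
  rintro x ⟨k, hk, hkx⟩
  obtain ⟨y, hy, hyk⟩ := hK.rho_mem h hT hk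
  have : y = x := Subtype.ext (hyk.trans hkx)
  rw [← this]
  exact hy

theorem R_le_C (h : ZG Γ) (hK : JK T K) (hT : H23.IsSylowOf 2 T ⊤) : pCoreOf 2 K ≤ CC Γ := by
  haveI h2 : Fact (Nat.Prime 2) := ⟨Nat.prime_two⟩
  intro r hr
  obtain ⟨y, hy, hyr⟩ := hK.rho_mem h hT (H18.pCoreOf_le K hr)
  obtain ⟨n, hn⟩ := H18.isPGroup_pCoreOf (p := 2) K ⟨r, hr⟩
  have hn' : r ^ 2 ^ n = 1 := congrArg Subtype.val hn
  have h1 : y ^ 2 ^ n = 1 := by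
    apply Subtype.ext
    show (y : Γ ⧸ CC Γ) ^ 2 ^ n = 1
    have hyr' : (y : Γ ⧸ CC Γ) = rho Γ r := hyr
    rw [hyr', ← map_pow, hn', map_one]
  have h3 : y ^ Nat.card (pPrimeCore 2 ↥(NN Γ)) = 1 := FF.pow_card_mem hy
  have h4 : (Nat.card (pPrimeCore 2 ↥(NN Γ))).Coprime (2 ^ n) :=
    Nat.Coprime.pow_right n (H1.pPrimeCore_coprime 2 ↥(NN Γ))
  have h5 := Nat.dvd_gcd (orderOf_dvd_of_pow_eq_one h3) (orderOf_dvd_of_pow_eq_one h1)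
  rw [h4] at h5
  have h6 : y = 1 := orderOf_eq_one_iff.mp (Nat.dvd_one.mp h5)
  rw [h6] at hyr
  exact (QuotientGroup.eq_one_iff r).mp hyr.symm

theorem R_le_Q (h : ZG Γ) (hK : JK T K) (hT : H23.IsSylowOf 2 T ⊤) : pCoreOf 2 K ≤ pCore 2 Γ := fun r hr =>
  h.mem_Q_of (hK.R_le_C h hT hr) (H18.isPGroup_pCoreOf (p := 2) K) hr

theorem com_mod (h : ZG Γ) (hT : H23.IsSylowOf 2 T ⊤) {c j : Γ} (hc : c ∈ CC Γ) (hj : j ∈ thompsonSubgroupOf 2 T) :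
    ⁅c, j⁆ ∈ pCore 2 Γ := by
  rw [commutatorElement_def]
  exact h.J_le_DD (J_le_JJ hT hj) c hc

theorem inf_C (h : ZG Γ) (hK : JK T K) (hT : H23.IsSylowOf 2 T ⊤) : K ⊓ CC Γ = pCoreOf 2 K := by
  rcases hK.c3.dich (H := K ⊓ CC Γ) (le_inf (H18.pCoreOf_le K) (hK.R_le_C h hT)) inf_le_left with h1 | h1
  · exact h1
  · exfalso
    have h2 : K ≤ CC Γ := by rw [← h1]; exact inf_le_right
    have h3 : K ≤ pCore 2 Γ := by
      have h4 : ⁅K, thompsonSubgroupOf 2 T⁆ ≤ pCore 2 Γ := by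
        rw [Subgroup.commutator_le]
        intro k hk j hj
        exact com_mod h hT (h2 hk) hj
      rwa [hK.com] at h4
    apply hK.c3.ne_pcore
    exact le_antisymm (H18.pCoreOf_le K)
      (H18.le_pCoreOf le_rfl Subgroup.le_normalizer ((H18.isPGroup_pCore 2 Γ).to_le h3))

theorem inf_Q (h : ZG Γ) (hK : JK T K) (hT : H23.IsSylowOf 2 T ⊤) : K ⊓ pCore 2 Γ = pCoreOf 2 K := by
  apply le_antisymm
  · rw [← hK.inf_C h hT]
    exact inf_le_inf_left _ h.Q_le_C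
  · exact le_inf (H18.pCoreOf_le K) (hK.R_le_Q h hT)

theorem map_le_NN (hK : JK T K) (hT : H23.IsSylowOf 2 T ⊤) : K.map (rho Γ) ≤ NN Γ := Subgroup.map_mono (hK.le_J hT)

theorem card_img (h : ZG Γ) (hK : JK T K) (hT : H23.IsSylowOf 2 T ⊤) : Nat.card (img (rho Γ) (NN Γ) K) = 3 := by
  have h1 := QA.card_img (hK.map_le_NN hT)
  rw [QuotientGroup.ker_mk', inf_comm, hK.inf_C h hT] at h1
  have h3 := PGV.card_relIndex (H18.pCoreOf_le (p := 2) K)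
  rw [hK.c3.idx] at h3
  rw [← h3] at h1
  exact Nat.eq_of_mul_eq_mul_left Nat.card_pos h1

/-- the transvection group attached to `K` -/
theorem exists_TG (h : ZG Γ) (hK : JK T K) (hT : H23.IsSylowOf 2 T ⊤) :
    ∃ B : Subgroup ↥(NN Γ), TG 2 h.WW B ∧ img (rho Γ) (NN Γ) K = ⁅pPrimeCore 2 ↥(NN Γ), B⁆ ∧
      B ≤ img (rho Γ) (NN Γ) (thompsonSubgroupOf 2 T) := by
  haveI h2 : Fact (Nat.Prime 2) := ⟨Nat.prime_two⟩
  have hJN : (thompsonSubgroupOf 2 T).map (rho Γ) ≤ NN Γ := Subgroup.map_mono (J_le_JJ hT)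
  obtain ⟨A, hA, B, hBA, hB, hBK⟩ : ∃ A, H2.EAIn 2 T A ∧ ∃ B, B ≤ img (rho Γ) (NN Γ) A ∧ TG 2 h.WW B ∧
      ¬ B ≤ Subgroup.centralizer (img (rho Γ) (NN Γ) K : Set ↥(NN Γ)) := by
    by_contra hcon
    push Not at hcon
    have h3 : ∀ A, H2.EAIn 2 T A → img (rho Γ) (NN Γ) A ≤ Subgroup.centralizer (img (rho Γ) (NN Γ) K : Set ↥(NN Γ)) := by
      intro A hA
      have hAN : A.map (rho Γ) ≤ NN Γ := (Subgroup.map_mono hA.le_thompson).trans hJN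
      have hOF := h.qa.OF_img (N := NN Γ) hAN (EAIn_comm hA) hA.2.1.2 (EAIn_off h.V_elem (eaIn_top hT hA))
      refine (h.ffs.gen_TG _ _ rfl hOF).trans (sSup_le ?_)
      rintro B ⟨hBA, hB⟩
      exact hcon A hA B hBA hB
    have h4 : thompsonSubgroupOf 2 T ≤ (Subgroup.centralizer ((K.map (rho Γ) : Subgroup (Γ ⧸ CC Γ)) : Set (Γ ⧸ CC Γ))).comap (rho Γ) := by
      rw [H2.thompsonSubgroupOf_eq]
      refine sSup_le fun A hA a ha => ?_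
      show rho Γ a ∈ Subgroup.centralizer _
      rw [Subgroup.mem_centralizer_iff]
      rintro _ ⟨k, hk, rfl⟩
      have ha' : rho Γ a ∈ NN Γ := hJN ⟨a, hA.le_thompson ha, rfl⟩
      have hk' : rho Γ k ∈ NN Γ := hK.map_le_NN hT ⟨k, hk, rfl⟩
      have h5 := Subgroup.mem_centralizer_iff.mp (h3 A hA (show (⟨rho Γ a, ha'⟩ : ↥(NN Γ)) ∈ _ from ⟨a, ha, rfl⟩))
        (⟨rho Γ k, hk'⟩ : ↥(NN Γ)) ⟨k, hk, rfl⟩
      exact congrArg Subtype.val h5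
    have h5 : K ≤ CC Γ := by
      have h6 : ⁅K, thompsonSubgroupOf 2 T⁆ ≤ CC Γ := by
        rw [Subgroup.commutator_le]
        intro k hk j hj
        have h7 : rho Γ ⁅k, j⁆ = 1 := by
          rw [map_commutatorElement, commutatorElement_eq_one_iff_mul_comm]
          exact Subgroup.mem_centralizer_iff.mp (h4 hj) _ ⟨k, hk, rfl⟩
        exact (QuotientGroup.eq_one_iff _).mp h7
      rwa [hK.com] at h6
    have h6 := hK.inf_C h hT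
    rw [inf_eq_left.mpr h5] at h6
    exact hK.c3.ne_pcore h6.symm
  have hBJ : B ≤ img (rho Γ) (NN Γ) (thompsonSubgroupOf 2 T) := by
    refine hBA.trans ?_
    rintro x ⟨a, ha, hax⟩
    exact ⟨a, hA.le_thompson ha, hax⟩
  refine ⟨B, hB, ?_, hBJ⟩
  have hnorm : B ≤ Subgroup.normalizer (img (rho Γ) (NN Γ) K : Set ↥(NN Γ)) := by
    intro b hb
    obtain ⟨j, hj, hjb⟩ := hBJ hb
    apply mem_norm_of_le
    rintro x ⟨k, hk, hkx⟩
    refine ⟨j * k * j⁻¹, (Subgroup.mem_normalizer_iff.mp (hK.norm hj) k).mp hk, ?_⟩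
    have hjb' : rho Γ j = b.1 := hjb
    have hkx' : rho Γ k = x.1 := hkx
    show rho Γ (j * k * j⁻¹) = b.1 * x.1 * b.1⁻¹
    rw [map_mul, map_mul, map_inv, hjb', hkx']
  have hle : ⁅img (rho Γ) (NN Γ) K, B⁆ ≤ img (rho Γ) (NN Γ) K := H23.commutator_le_iff_normalizer.mpr hnorm
  have hcard := hK.card_img h hT
  have heq : ⁅img (rho Γ) (NN Γ) K, B⁆ = img (rho Γ) (NN Γ) K := by
    have h3 := Subgroup.card_dvd_of_le hle
    rw [hcard] at h3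
    rcases (Nat.dvd_prime Nat.prime_three).mp h3 with h4 | h4
    · exfalso
      apply hBK
      rw [Subgroup.card_eq_one] at h4
      have h5 := Subgroup.commutator_eq_bot_iff_le_centralizer.mp h4
      intro b hb
      rw [Subgroup.mem_centralizer_iff]
      intro k hk
      exact (Subgroup.mem_centralizer_iff.mp (h5 hk) b hb).symm
    · exact Subgroup.eq_of_le_of_card_ge hle (by rw [h4, hcard])
  apply Subgroup.eq_of_le_of_card_ge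
  · have h5 := Subgroup.commutator_mono (hK.img_le h hT) (le_refl B)
    rwa [heq] at h5
  · rcases hB.card_com h.ffs with ⟨_, h3⟩ | ⟨h3, _⟩
    · rw [h3, hcard]
    · omega

theorem exists_sylow (hT : H23.IsSylowOf 2 T ⊤) : ∃ S : Sylow 2 Γ, (S : Subgroup Γ) = T := by
  haveI h2 : Fact (Nat.Prime 2) := ⟨Nat.prime_two⟩
  have h1 := H23.isSylowOf_iff.mp hT
  have hi : ¬ 2 ∣ T.index := by rw [← Subgroup.relIndex_top_right]; exact h1.2.2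
  exact ⟨h1.2.1.toSylow hi, IsPGroup.toSylow_coe _ hi⟩

theorem Q_le (hT : H23.IsSylowOf 2 T ⊤) : pCore 2 Γ ≤ T := by
  obtain ⟨S, rfl⟩ := exists_sylow hT
  exact H18.pCore_le_sylow S

theorem Q_norm_J (hT : H23.IsSylowOf 2 T ⊤) : pCore 2 Γ ≤ Subgroup.normalizer (thompsonSubgroupOf 2 T : Set Γ) :=
  ((Q_le hT).trans Subgroup.le_normalizer).trans (H2.normalizer_le_normalizer_thompson T)

theorem Q_norm (hK : JK T K) (hT : H23.IsSylowOf 2 T ⊤) : pCore 2 Γ ≤ Subgroup.normalizer (K : Set Γ) := by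
  haveI h2 : Fact (Nat.Prime 2) := ⟨Nat.prime_two⟩
  set J := thompsonSubgroupOf 2 T with hJ
  set P := K ⊔ J with hP
  have hJ2 : IsPGroup 2 J := J_isPGroup hT.isPGroup
  let N : Subgroup Γ :=
    { carrier := {p | p ∈ P ∧ ∀ x ∈ pCore 2 Γ, x * p * x⁻¹ ∈ P}
      mul_mem' := by
        rintro a b ⟨ha, ha'⟩ ⟨hb, hb'⟩
        refine ⟨P.mul_mem ha hb, fun x hx => ?_⟩
        have h3 := P.mul_mem (ha' x hx) (hb' x hx)
        have e : x * a * x⁻¹ * (x * b * x⁻¹) = x * (a * b) * x⁻¹ := by group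
        rwa [e] at h3
      one_mem' := ⟨P.one_mem, fun x hx => by
        have e : x * 1 * x⁻¹ = 1 := by group
        rw [e]; exact P.one_mem⟩
      inv_mem' := by
        rintro a ⟨ha, ha'⟩
        refine ⟨P.inv_mem ha, fun x hx => ?_⟩
        have h3 := P.inv_mem (ha' x hx)
        have e : (x * a * x⁻¹)⁻¹ = x * a⁻¹ * x⁻¹ := by group
        rwa [e] at h3 }
  have hmem : ∀ k ∈ K, ∀ j ∈ J, k * j * k⁻¹ ∈ N := by
    intro k hk j hj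
    have hkP : k ∈ P := Subgroup.mem_sup_left hk
    refine ⟨P.mul_mem (P.mul_mem hkP (Subgroup.mem_sup_right hj)) (P.inv_mem hkP), fun x hx => ?_⟩
    have h3 : k⁻¹ * x * k ∈ pCore 2 Γ := by
      have := Subgroup.Normal.conj_mem (inferInstance : (pCore 2 Γ).Normal) x hx k⁻¹
      rwa [inv_inv] at this
    have h4 := (Subgroup.mem_normalizer_iff.mp (Q_norm_J hT h3) j).mp hj
    have h5 := P.mul_mem (P.mul_mem hkP (Subgroup.mem_sup_right h4)) (P.inv_mem hkP)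
    have e : k * (k⁻¹ * x * k * j * (k⁻¹ * x * k)⁻¹) * k⁻¹ = x * (k * j * k⁻¹) * x⁻¹ := by group
    rwa [e] at h5
  have hJN : J ≤ N := by
    intro j hj
    have := hmem 1 K.one_mem j hj
    simpa using this
  have hKN : K ≤ N := by
    have h3 : ⁅K, J⁆ ≤ N := by
      rw [Subgroup.commutator_le]
      intro k hk j hj
      rw [commutatorElement_def]
      exact N.mul_mem (hmem k hk j hj) (N.inv_mem (hJN hj))
    rwa [hK.com] at h3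
  have hPN : P ≤ N := sup_le hKN hJN
  have h3 : pCore 2 Γ ≤ Subgroup.normalizer (P : Set Γ) := fun x hx =>
    mem_norm_of_le fun p hp => (hPN hp).2 x hx
  have h4 := h3.trans (H18.normalizer_le_normalizer_pRes (p := 2) P)
  rwa [hP, H18.pRes_sup_eq hJ2 hK.norm, hK.c3.odd] at h4

theorem t_norm (h : ZG Γ) (hK : JK T K) (hT : H23.IsSylowOf 2 T ⊤) {t : Γ} (ht : t ∈ thompsonSubgroup 2 Γ)
    (htt : t * t ∈ CC Γ) (hc : ∀ k ∈ K, rho Γ (t * k * t⁻¹) = rho Γ k) :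
    t ∈ Subgroup.normalizer ((K ⊔ pCore 2 Γ : Subgroup Γ) : Set Γ) := by
  apply mem_norm_of_le
  intro x hx
  obtain ⟨k, hk, q, hq, rfl⟩ := Subgroup.mem_sup_of_normal_right.mp hx
  have hk' : t * k * t⁻¹ ∈ K ⊔ pCore 2 Γ := by
    set c := k⁻¹ * (t * k * t⁻¹) with hcdef
    have hcC : c ∈ CC Γ := by
      rw [← QuotientGroup.eq_one_iff]
      show rho Γ c = 1
      rw [hcdef, map_mul, hc k hk, ← map_mul, inv_mul_cancel, map_one]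
    have h1 : t * t * k * (t * t)⁻¹ * k⁻¹ ∈ pCore 2 Γ := h.J_le_DD (hK.le_J hT hk) _ htt
    have h3 : k⁻¹ * (t * t * k * (t * t)⁻¹ * k⁻¹) * k⁻¹⁻¹ ∈ pCore 2 Γ :=
      Subgroup.Normal.conj_mem inferInstance _ h1 k⁻¹
    have e1 : k⁻¹ * (t * t * k * (t * t)⁻¹ * k⁻¹) * k⁻¹⁻¹ = c * (t * c * t⁻¹) := by
      rw [hcdef]; group
    rw [e1] at h3
    have h4 : c * t * c⁻¹ * t⁻¹ ∈ pCore 2 Γ := h.J_le_DD ht c hcC
    have h5 : c⁻¹ * (c * t * c⁻¹ * t⁻¹)⁻¹ * c⁻¹⁻¹ ∈ pCore 2 Γ :=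
      Subgroup.Normal.conj_mem inferInstance _ ((pCore 2 Γ).inv_mem h4) c⁻¹
    have h6 : c * c ∈ pCore 2 Γ := by
      have h7 := (pCore 2 Γ).mul_mem h3 ((pCore 2 Γ).inv_mem h5)
      have e2 : c * (t * c * t⁻¹) * (c⁻¹ * (c * t * c⁻¹ * t⁻¹)⁻¹ * c⁻¹⁻¹)⁻¹ = c * (t * c * t⁻¹) * (c⁻¹ * (c * t * c⁻¹ * t⁻¹) * c) := by
        group
      rw [e2] at h7
      have e3 : c * (t * c * t⁻¹) * (c⁻¹ * (c * t * c⁻¹ * t⁻¹) * c) = c * c := by group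
      rwa [e3] at h7
    have h7 := h.mem_Q_of_sq hcC h6
    have e : t * k * t⁻¹ = k * c := by rw [hcdef]; group
    rw [e]
    exact Subgroup.mul_mem _ (Subgroup.mem_sup_left hk) (Subgroup.mem_sup_right h7)
  have e : t * (k * q) * t⁻¹ = (t * k * t⁻¹) * (t * q * t⁻¹) := by group
  rw [e]
  exact Subgroup.mul_mem _ hk' (Subgroup.mem_sup_right (Subgroup.Normal.conj_mem inferInstance _ hq t))

theorem C_norm (h : ZG Γ) (hK : JK T K) (hT : H23.IsSylowOf 2 T ⊤) :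
    CC Γ ≤ Subgroup.normalizer ((K ⊔ pCore 2 Γ : Subgroup Γ) : Set Γ) := by
  intro c hc
  apply mem_norm_of_le
  intro x hx
  obtain ⟨k, hk, q, hq, rfl⟩ := Subgroup.mem_sup_of_normal_right.mp hx
  have h1 : c * k * c⁻¹ * k⁻¹ ∈ pCore 2 Γ := h.J_le_DD (hK.le_J hT hk) _ hc
  have e : c * (k * q) * c⁻¹ = (c * k * c⁻¹ * k⁻¹) * k * (c * q * c⁻¹) := by group
  rw [e]
  exact Subgroup.mul_mem _ (Subgroup.mul_mem _ (Subgroup.mem_sup_right h1) (Subgroup.mem_sup_left hk))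
    (Subgroup.mem_sup_right (Subgroup.Normal.conj_mem inferInstance _ hq c))

/-- `J(Γ)` normalizes `K` -/
theorem JJ_norm (h : ZG Γ) (hK : JK T K) (hT : H23.IsSylowOf 2 T ⊤) :
    thompsonSubgroup 2 Γ ≤ Subgroup.normalizer (K : Set Γ) := by
  haveI h2 : Fact (Nat.Prime 2) := ⟨Nat.prime_two⟩
  obtain ⟨B, hB, hBK, hBJ⟩ := hK.exists_TG h hT
  set M := Subgroup.normalizer ((K ⊔ pCore 2 Γ : Subgroup Γ) : Set Γ) ⊓ thompsonSubgroup 2 Γ with hM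
  have himg : ∀ {X Y : Subgroup Γ}, X ≤ Y → img (rho Γ) (NN Γ) X ≤ img (rho Γ) (NN Γ) Y := by
    rintro X Y hXY x ⟨a, ha, hax⟩
    exact ⟨a, hXY ha, hax⟩
  have hKM : K ≤ M := le_inf (le_sup_left.trans Subgroup.le_normalizer) (hK.le_J hT)
  have hJM : thompsonSubgroupOf 2 T ≤ M := by
    refine le_inf (fun j hj => ?_) (J_le_JJ hT)
    apply mem_norm_of_le
    intro x hx
    obtain ⟨k, hk, q, hq, rfl⟩ := Subgroup.mem_sup_of_normal_right.mp hx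
    have e : j * (k * q) * j⁻¹ = (j * k * j⁻¹) * (j * q * j⁻¹) := by group
    rw [e]
    exact Subgroup.mul_mem _ (Subgroup.mem_sup_left ((Subgroup.mem_normalizer_iff.mp (hK.norm hj) k).mp hk))
      (Subgroup.mem_sup_right (Subgroup.Normal.conj_mem inferInstance _ hq j))
  have hall : ∀ A : Subgroup ↥(NN Γ), TG 2 h.WW A → A ≤ img (rho Γ) (NN Γ) M := by
    intro A hA
    by_cases hEG : EG (pPrimeCore 2 ↥(NN Γ)) A = EG (pPrimeCore 2 ↥(NN Γ)) B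
    · refine (le_EG (pPrimeCore 2 ↥(NN Γ)) A).trans ?_
      rw [hEG]
      show ⁅pPrimeCore 2 ↥(NN Γ), B⁆ ⊔ B ≤ _
      rw [← hBK]
      exact sup_le (himg hKM) (hBJ.trans (himg hJM))
    · intro a ha
      obtain ⟨t, ht, hta⟩ := a.2
      refine ⟨t, ⟨?_, ht⟩, hta⟩
      have hta' : rho Γ t = a.1 := hta
      apply t_norm h hK hT ht
      · have h3 : a ^ 2 = 1 := hA.EA.2 a ha
        rw [← QuotientGroup.eq_one_iff]
        show rho Γ (t * t) = 1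
        rw [map_mul, hta', ← pow_two]
        exact congrArg Subtype.val h3
      · intro k hk
        have hk' : rho Γ k ∈ NN Γ := hK.map_le_NN hT ⟨k, hk, rfl⟩
        have h3 : (⟨rho Γ k, hk'⟩ : ↥(NN Γ)) ∈ EG (pPrimeCore 2 ↥(NN Γ)) B := by
          have h4 : (⟨rho Γ k, hk'⟩ : ↥(NN Γ)) ∈ img (rho Γ) (NN Γ) K := ⟨k, hk, rfl⟩
          rw [hBK] at h4
          exact (le_sup_left : ⁅pPrimeCore 2 ↥(NN Γ), B⁆ ≤ EG (pPrimeCore 2 ↥(NN Γ)) B) h4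
        have h5 := TG.le_CP h.ffs hB hA hEG
        have h6 := TG.comm_CP h.ffs h.gen hB _ h3 a (h5 (le_EG _ A ha))
        have h7 : rho Γ k * a.1 = a.1 * rho Γ k := congrArg Subtype.val h6
        rw [map_mul, map_mul, map_inv, hta', ← h7, mul_inv_cancel_right]
  have htop : (⊤ : Subgroup ↥(NN Γ)) ≤ img (rho Γ) (NN Γ) M := by
    rw [← h.gen]
    exact sSup_le fun A hA => hall A hA
  have h3 : thompsonSubgroup 2 Γ ≤ Subgroup.normalizer ((K ⊔ pCore 2 Γ : Subgroup Γ) : Set Γ) := by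
    intro j hj
    have hj' : rho Γ j ∈ NN Γ := ⟨j, hj, rfl⟩
    obtain ⟨m, hm, hmj⟩ := htop (Subgroup.mem_top (⟨rho Γ j, hj'⟩ : ↥(NN Γ)))
    have hmj' : rho Γ m = rho Γ j := hmj
    have h4 : m⁻¹ * j ∈ CC Γ := by
      rw [← QuotientGroup.eq_one_iff]
      show rho Γ (m⁻¹ * j) = 1
      rw [map_mul, map_inv, hmj', inv_mul_cancel]
    have e : j = m * (m⁻¹ * j) := by group
    rw [e]
    exact Subgroup.mul_mem _ hm.1 (C_norm h hK hT h4)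
  have h4 := h3.trans (H18.normalizer_le_normalizer_pRes (p := 2) (K ⊔ pCore 2 Γ))
  rwa [H18.pRes_sup_eq (H18.isPGroup_pCore 2 Γ) (hK.Q_norm hT), hK.c3.odd] at h4

theorem isSubnormal (h : ZG Γ) (hK : JK T K) (hT : H23.IsSylowOf 2 T ⊤) : K.IsSubnormal :=
  H18.isSubnormal_of_le_normalizer (hK.le_J hT) (Subgroup.Normal.isSubnormal (JJ_normal Γ)) (hK.JJ_norm h hT)

theorem toG_plane (h : ZG Γ) (hK : JK T K) (hT : H23.IsSylowOf 2 T ⊤) {B : Subgroup ↥(NN Γ)}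
    (hB : TG 2 h.WW B) (hBK : img (rho Γ) (NN Γ) K = ⁅pPrimeCore 2 ↥(NN Γ), B⁆) :
    Wn.toG (comS h.WW (EG (pPrimeCore 2 ↥(NN Γ)) B)) = ⁅VV Γ, K⁆ := by
  haveI h2 : Fact (Nat.Prime 2) := ⟨Nat.prime_two⟩
  rw [← hB.com_QE h.ffs, ← hBK, h.qa.comS_img (hK.map_le_NN hT), Wn.toG_comS]

theorem card_VK (h : ZG Γ) (hK : JK T K) (hT : H23.IsSylowOf 2 T ⊤) : Nat.card ↥⁅VV Γ, K⁆ = 4 := by
  haveI h2 : Fact (Nat.Prime 2) := ⟨Nat.prime_two⟩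
  obtain ⟨B, hB, hBK, hBJ⟩ := hK.exists_TG h hT
  rw [← hK.toG_plane h hT hB hBK, Wn.card_toG]
  obtain ⟨ι, φ, hPl⟩ := hB.exists_plane h.ffs
  rw [hPl.card_com]
  norm_num

theorem VK_le (h : ZG Γ) (hK : JK T K) (hT : H23.IsSylowOf 2 T ⊤) : ⁅VV Γ, K⁆ ≤ wOf K := by
  haveI h2 : Fact (Nat.Prime 2) := ⟨Nat.prime_two⟩
  have hV : VV Γ ≤ pCore 2 Γ := h.V_le
  have hVc : ∀ u ∈ VV Γ, ∀ v ∈ VV Γ, u * v = v * u := fun u hu v hv =>
    congrArg Subtype.val (h.V_elem.1.is_comm.comm ⟨u, hu⟩ ⟨v, hv⟩)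
  have hKV : K ≤ Subgroup.normalizer (VV Γ : Set Γ) := by
    rw [Subgroup.normalizer_eq_top_iff.mpr inferInstance]; exact le_top
  have hRV : ∀ r ∈ pCoreOf 2 K, ∀ u ∈ VV Γ, r * u = u * r := fun r hr u hu =>
    (Subgroup.mem_centralizer_iff.mp (h.Q_le_C (hK.R_le_Q h hT hr)) u hu).symm
  have hle : ⁅VV Γ, K⁆ ≤ VV Γ := H23.commutator_le_iff_normalizer.mpr hKV
  have hleK : ⁅VV Γ, K⁆ ≤ K := by
    rw [Subgroup.commutator_comm]
    exact H23.commutator_le_iff_normalizer.mpr (hV.trans (hK.Q_norm hT))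
  have hleU : ⁅VV Γ, K⁆ ≤ omegaCenterOf (pCoreOf 2 K) := by
    intro x hx
    rw [mem_oz]
    refine ⟨?_, fun s hs => hRV s hs x (hle hx), h.V_elem.2 x (hle hx)⟩
    rw [← hK.inf_Q h hT]
    exact ⟨hleK hx, hV (hle hx)⟩
  obtain ⟨d, hd, -, hdR⟩ := hK.c3.exists_gen
  have hcj : ∀ x ∈ ⁅VV Γ, K⁆, d * x * d⁻¹ ∈ ⁅VV Γ, K⁆ := fun x hx =>
    (Subgroup.mem_normalizer_iff.mp (H18.le_normalizer_commutator hKV Subgroup.le_normalizer hd) x).mp hx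
  let f : ↥⁅VV Γ, K⁆ → ↥⁅VV Γ, K⁆ := fun w => ⟨d * w.1 * d⁻¹ * w.1⁻¹, Subgroup.mul_mem _ (hcj _ w.2) (Subgroup.inv_mem _ w.2)⟩
  have hinj : Function.Injective f := by
    intro w v hwv
    have h3 : d * w.1 * d⁻¹ * w.1⁻¹ = d * v.1 * d⁻¹ * v.1⁻¹ := congrArg Subtype.val hwv
    have h5 : v.1⁻¹ * w.1 = 1 := by
      apply hK.c3.fpf' hVc h.V_elem.2 hKV hRV hd hdR (Subgroup.mul_mem _ (Subgroup.inv_mem _ v.2) w.2)
      have h4 := congrArg (fun t => (d * v.1 * d⁻¹)⁻¹ * t * w.1) h3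
      have e1 : (d * v.1 * d⁻¹)⁻¹ * (d * w.1 * d⁻¹ * w.1⁻¹) * w.1 = d * (v.1⁻¹ * w.1) * d⁻¹ := by group
      have e2 : (d * v.1 * d⁻¹)⁻¹ * (d * v.1 * d⁻¹ * v.1⁻¹) * w.1 = v.1⁻¹ * w.1 := by group
      simp only [e1, e2] at h4
      exact mul_inv_eq_iff_eq_mul.mp h4
    exact Subtype.ext (inv_mul_eq_one.mp h5).symm
  intro w hw
  obtain ⟨u, hu⟩ := Finite.injective_iff_surjective.mp hinj ⟨w, hw⟩
  have hu' : d * u.1 * d⁻¹ * u.1⁻¹ = w := congrArg Subtype.val hu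
  rw [← hu']
  show _ ∈ ⁅omegaCenterOf (pCoreOf 2 K), K⁆
  rw [Subgroup.commutator_comm, ← commutatorElement_def]
  exact Subgroup.commutator_mem_commutator hd (hleU u.2)

theorem VK_eq (h : ZG Γ) (hK : JK T K) (hT : H23.IsSylowOf 2 T ⊤) (hW : Nat.card (wOf K) = 4) : ⁅VV Γ, K⁆ = wOf K :=
  Subgroup.eq_of_le_of_card_ge (hK.VK_le h hT) (by rw [hK.card_VK h hT, hW])

theorem le_of_img {T₁ T₂ K₁ K₂ : Subgroup Γ} (h : ZG Γ) (hK₁ : JK T₁ K₁) (hT₁ : H23.IsSylowOf 2 T₁ ⊤)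
    (hK₂ : JK T₂ K₂) (hT₂ : H23.IsSylowOf 2 T₂ ⊤) (himg : img (rho Γ) (NN Γ) K₂ ≤ img (rho Γ) (NN Γ) K₁) : K₂ ≤ K₁ := by
  haveI h2 : Fact (Nat.Prime 2) := ⟨Nat.prime_two⟩
  have h1 : ⁅K₂, thompsonSubgroupOf 2 T₂⁆ ≤ K₁ ⊔ pCore 2 Γ := by
    rw [Subgroup.commutator_le]
    intro k hk j hj
    have hjJ : j ∈ thompsonSubgroup 2 Γ := J_le_JJ hT₂ hj
    have hk' : rho Γ k ∈ NN Γ := hK₂.map_le_NN hT₂ ⟨k, hk, rfl⟩
    obtain ⟨m, hm, hmk⟩ := himg (show (⟨rho Γ k, hk'⟩ : ↥(NN Γ)) ∈ _ from ⟨k, hk, rfl⟩)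
    have hmk' : rho Γ m = rho Γ k := hmk
    have hc : m⁻¹ * k ∈ CC Γ := by
      rw [← QuotientGroup.eq_one_iff]
      show rho Γ (m⁻¹ * k) = 1
      rw [map_mul, map_inv, hmk', inv_mul_cancel]
    set c := m⁻¹ * k with hcdef
    have hkc : k = m * c := by rw [hcdef]; group
    have h3 : c * j * c⁻¹ * j⁻¹ ∈ pCore 2 Γ := h.J_le_DD hjJ c hc
    have h4 : m * (c * j * c⁻¹ * j⁻¹) * m⁻¹ ∈ pCore 2 Γ := Subgroup.Normal.conj_mem inferInstance _ h3 m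
    have h5 : m * (j * m⁻¹ * j⁻¹) ∈ K₁ := K₁.mul_mem hm
      ((Subgroup.mem_normalizer_iff.mp (hK₁.JJ_norm h hT₁ hjJ) _).mp (K₁.inv_mem hm))
    have e : ⁅k, j⁆ = m * (c * j * c⁻¹ * j⁻¹) * m⁻¹ * (m * (j * m⁻¹ * j⁻¹)) := by
      rw [commutatorElement_def, hkc]; group
    rw [e]
    exact Subgroup.mul_mem _ (Subgroup.mem_sup_right h4) (Subgroup.mem_sup_left h5)
  rw [hK₂.com] at h1
  have h3 := H18.pRes_mono (p := 2) h1
  rwa [H18.pRes_sup_eq (H18.isPGroup_pCore 2 Γ) (hK₁.Q_norm hT₁), hK₁.c3.odd, hK₂.c3.odd] at h3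

theorem eq_of_meet {T₁ T₂ K₁ K₂ : Subgroup Γ} (h : ZG Γ) (hK₁ : JK T₁ K₁) (hT₁ : H23.IsSylowOf 2 T₁ ⊤)
    (hK₂ : JK T₂ K₂) (hT₂ : H23.IsSylowOf 2 T₂ ⊤) (hne : ⁅VV Γ, K₁⁆ ⊓ ⁅VV Γ, K₂⁆ ≠ ⊥) : K₁ = K₂ := by
  haveI h2 : Fact (Nat.Prime 2) := ⟨Nat.prime_two⟩
  obtain ⟨B₁, hB₁, hBK₁, -⟩ := hK₁.exists_TG h hT₁
  obtain ⟨B₂, hB₂, hBK₂, -⟩ := hK₂.exists_TG h hT₂
  have himg : img (rho Γ) (NN Γ) K₁ = img (rho Γ) (NN Γ) K₂ := by
    rcases TG.dich h.ffs hB₁ hB₂ with ⟨r, hr, _, hB'⟩ | ⟨_, _, h3⟩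
    · have h4 : EG (pPrimeCore 2 ↥(NN Γ)) B₂ = EG (pPrimeCore 2 ↥(NN Γ)) B₁ := by
        rw [hB']; exact hB₁.EG_cj h.ffs hr
      rw [hBK₁, hBK₂, hB₁.com_eq h.ffs, hB₂.com_eq h.ffs, h4]
    · exfalso
      apply hne
      rw [← hK₁.toG_plane h hT₁ hB₁ hBK₁, ← hK₂.toG_plane h hT₂ hB₂ hBK₂, ← Wn.toG_inf, h3, Wn.toG_bot]
  exact le_antisymm (le_of_img h hK₂ hT₂ hK₁ hT₁ himg.le) (le_of_img h hK₁ hT₁ hK₂ hT₂ himg.ge)

end JK

end Cfsg.Agent.H19.JC
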