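import Cfsg.Agent.H19.JC5
import Cfsg.Agent.H19.FF10

set_option autoImplicit false
set_option linter.style.haveILetI false
set_option linter.unusedVariables false
set_option linter.unusedSectionVars false

/-! `J(T)`-components, part 6: subnormal subgroups. -/

namespace Cfsg.Agent.H19.FF.FFS

open Cfsg Cfsg.Agent.H19.PGV
open scoped commutatorElement

variable {X W : Type*} [Group X] [AddCommGroup W] [DistribMulAction X W]
variable {p : ℕ} [Fact p.Prime] {Q : Subgroup X} [Finite X] [Finite W]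

/-- transvection groups preserve the small commutator spaces of subgroups of `Q` -/
theorem TG.smul_or (h : FFS p W Q) {A : Subgroup X} (hA : TG p W A) {Kt : Subgroup X} (hKQ : Kt ≤ Q)
    (hirr : ∀ U : AddSubgroup W, U ≤ comS W Kt → (∀ k ∈ Kt, ∀ u ∈ U, k • u ∈ U) → U = ⊥ ∨ U = comS W Kt)
    (hcard : Nat.card (comS W Kt) = p ^ 2) : ∀ b ∈ A, ∀ w ∈ comS W Kt, b • w ∈ comS W Kt := by
  obtain ⟨ι, φ, hPl⟩ := hA.exists_plane h
  set M := comS W Kt with hM
  set E := EG Q A with hE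
  have hMk : ∀ k ∈ Kt, ∀ u ∈ M, k • u ∈ M := by
    intro k hk u hu
    have h1 : k • u - u ∈ M := mem_comS hk u
    have := M.add_mem h1 hu
    rwa [sub_add_cancel] at this
  rcases hirr (comS W E ⊓ M) inf_le_right (fun k hk u hu =>
    ⟨hA.smul_plane h (hKQ hk) hu.1, hMk k hk u hu.2⟩) with h1 | h1
  · -- trivial intersection
    have h2 : ∀ k ∈ Kt, ∀ u ∈ comS W E, k • u = u := by
      intro k hk u hu
      have h3 : k • u - u ∈ comS W E ⊓ M := ⟨AddSubgroup.sub_mem _ (hA.smul_plane h (hKQ hk) hu) hu, mem_comS hk u⟩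
      rw [h1, AddSubgroup.mem_bot] at h3
      exact sub_eq_zero.mp h3
    have h3 : M ≤ fixS W E := by
      rw [hM, comS_le]
      intro k hk w
      obtain ⟨u, hu, c, hc, rfl⟩ := hPl.decomp w
      have h4 : k • c ∈ fixS W E := by
        apply smul_fixS _ c hc
        intro x hx
        have h5 : PGV.cj k⁻¹ E = E := hA.cj_EG_eq h (Q.inv_mem (hKQ hk))
        have h6 : k⁻¹ * x * k ∈ PGV.cj k⁻¹ E := by
          refine ⟨x, hx, ?_⟩
          show k⁻¹ * x * k⁻¹⁻¹ = k⁻¹ * x * k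
          rw [inv_inv]
        rwa [h5] at h6
      rw [smul_add, h2 k hk u hu]
      have e : u + k • c - (u + c) = k • c - c := by abel
      rw [e]
      exact AddSubgroup.sub_mem _ h4 hc
    intro b hb w hw
    rw [h3 hw b (le_EG Q A hb)]
    exact hw
  · have h2 : M ≤ comS W E := by rw [← h1]; exact inf_le_left
    have h3 : M = comS W E := AddSubgroup.eq_of_le_of_card_ge h2 (by rw [hcard, hPl.card_com])
    intro b hb w hw
    rw [h3] at hw ⊢
    exact hPl.smul_com (le_EG Q A hb) hw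

end Cfsg.Agent.H19.FF.FFS

namespace Cfsg.Agent.H19.JC

open Cfsg Cfsg.Agent.H19.PGV Cfsg.Agent.H19.FF Cfsg.Agent.H19.FF.FFS
open scoped commutatorElement

local notation "𝕆(" p ", " H ")" => Subgroup.map (Subgroup.subtype H) (Cfsg.pResidual p ↥H)

variable {Γ : Type*} [Group Γ] [Finite Γ]

theorem com_le_wOf {K X : Subgroup Γ} (hK : C3 K) (hXc : ∀ u ∈ X, ∀ v ∈ X, u * v = v * u) (hX2 : ∀ u ∈ X, u ^ 2 = 1)
    (hKX : K ≤ Subgroup.normalizer (X : Set Γ)) (hRX : ∀ r ∈ pCoreOf 2 K, ∀ u ∈ X, r * u = u * r)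
    (hleU : ⁅X, K⁆ ≤ omegaCenterOf (pCoreOf 2 K)) : ⁅X, K⁆ ≤ wOf K := by
  obtain ⟨d, hd, -, hdR⟩ := hK.exists_gen
  have hcj : ∀ x ∈ ⁅X, K⁆, d * x * d⁻¹ ∈ ⁅X, K⁆ := fun x hx =>
    (Subgroup.mem_normalizer_iff.mp (H18.le_normalizer_commutator hKX Subgroup.le_normalizer hd) x).mp hx
  let f : ↥⁅X, K⁆ → ↥⁅X, K⁆ := fun w => ⟨d * w.1 * d⁻¹ * w.1⁻¹, Subgroup.mul_mem _ (hcj _ w.2) (Subgroup.inv_mem _ w.2)⟩
  have hinj : Function.Injective f := by
    intro w v hwv
    have h3 : d * w.1 * d⁻¹ * w.1⁻¹ = d * v.1 * d⁻¹ * v.1⁻¹ := congrArg Subtype.val hwv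
    have h5 : v.1⁻¹ * w.1 = 1 := by
      apply hK.fpf' hXc hX2 hKX hRX hd hdR (Subgroup.mul_mem _ (Subgroup.inv_mem _ v.2) w.2)
      have h4 := congrArg (fun t => (d * v.1 * d⁻¹)⁻¹ * t * w.1) h3
      have e1 : (d * v.1 * d⁻¹)⁻¹ * (d * w.1 * d⁻¹ * w.1⁻¹) * w.1 = d * (v.1⁻¹ * w.1) * d⁻¹ := by group
      have e2 : (d * v.1 * d⁻¹)⁻¹ * (d * v.1 * d⁻¹ * v.1⁻¹) * w.1 = v.1⁻¹ * w.1 := by group
      simp only [e1, e2] at h4
      exact mul_inv_eq_iff_eq_mul.mp h4
    exact Subtype.ext (inv_mul_eq_one.mp h5).symm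
  intro w hw
  obtain ⟨u, hu⟩ := Finite.injective_iff_surjective.mp hinj ⟨w, hw⟩
  have hu' : d * u.1 * d⁻¹ * u.1⁻¹ = w := congrArg Subtype.val hu
  rw [← hu']
  show _ ∈ ⁅omegaCenterOf (pCoreOf 2 K), K⁆
  rw [Subgroup.commutator_comm, ← commutatorElement_def]
  exact Subgroup.commutator_mem_commutator hd (hleU u.2)

/-- the four-group of a subnormal `K` is centralized by `O₂` -/
theorem Q_le_cent {K : Subgroup Γ} (hK : C3 K) (hsn : K.IsSubnormal) (hW4 : Nat.card (wOf K) = 4) :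
    pCore 2 Γ ≤ Subgroup.centralizer (wOf K : Set Γ) := by
  haveI h2 : Fact (Nat.Prime 2) := ⟨Nat.prime_two⟩
  have hQK : pCore 2 Γ ≤ Subgroup.normalizer (K : Set Γ) := H13.pCore_le_normalizer hsn hK.odd
  have hQW := hQK.trans C3.norm_wOf
  obtain ⟨d, hd, -, hdR⟩ := hK.exists_gen
  have hWne : (⊥ : Subgroup Γ) < wOf K := by
    rw [bot_lt_iff_ne_bot]
    intro h
    rw [h, Subgroup.card_bot] at hW4
    omega
  obtain ⟨n, hn, hn1, hnQ⟩ := exists_fixed_mod (wOf_isPGroup K) (H18.isPGroup_pCore 2 Γ) hWne (by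
    rw [Subgroup.normalizer_eq_top_iff.mpr inferInstance]; exact le_top) hQW (by
    rw [Subgroup.normalizer_eq_top_iff.mpr inferInstance]; exact le_top)
  have hcent : wOf K ⊓ Subgroup.centralizer (pCore 2 Γ : Set Γ) = wOf K := by
    rcases hK.irr hW4 hd hdR (X := wOf K ⊓ Subgroup.centralizer (pCore 2 Γ : Set Γ)) inf_le_left (by
      rintro x ⟨hx, hx'⟩
      exact ⟨C3.conj_mem_w hd hx, Subgroup.Normal.conj_mem inferInstance _ hx' d⟩) with h3 | h3
    · exfalso
      have h4 : n ∈ wOf K ⊓ Subgroup.centralizer (pCore 2 Γ : Set Γ) := by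
        refine ⟨hn, ?_⟩
        show n ∈ Subgroup.centralizer _
        rw [Subgroup.mem_centralizer_iff]
        intro q hq
        have h5 := Subgroup.mem_bot.mp (hnQ q hq)
        have h6 : q * n * q⁻¹ = n := (inv_mul_eq_one.mp h5).symm
        exact mul_inv_eq_iff_eq_mul.mp h6
      rw [h3] at h4
      exact hn1 h4
    · exact h3
  intro q hq
  rw [Subgroup.mem_centralizer_iff]
  intro w hw
  rw [SetLike.mem_coe, ← hcent] at hw
  exact (Subgroup.mem_centralizer_iff.mp hw.2 q hq).symm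

theorem le_norm_wOf (hs : Group.IsSolvable Γ) {K : Subgroup Γ} (hK : C3 K) (hsn : K.IsSubnormal)
    (hW4 : Nat.card (wOf K) = 4) {A : Subgroup Γ} (hA : H2.EAIn 2 ⊤ A) :
    A ≤ Subgroup.normalizer (wOf K : Set Γ) := by
  classical
  haveI h2 : Fact (Nat.Prime 2) := ⟨Nat.prime_two⟩
  haveI h3' : Fact (Nat.Prime 3) := ⟨Nat.prime_three⟩
  set W := wOf K with hW
  set Q := pCore 2 Γ with hQ
  have hQ2 : IsPGroup 2 Q := H18.isPGroup_pCore 2 Γ
  have hR : pCoreOf 2 K = K ⊓ Q := H18.pCoreOf_eq_inf_of_isSubnormal hsn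
  have hQK : Q ≤ Subgroup.normalizer (K : Set Γ) := H13.pCore_le_normalizer hsn hK.odd
  have hQW := Q_le_cent hK hsn hW4
  obtain ⟨d, hd, -, hdR⟩ := hK.exists_gen
  have hWne : W ≠ ⊥ := by
    intro h
    rw [h, Subgroup.card_bot] at hW4
    omega
  have hWQ : W ≤ Q := C3.wOf_le_R.trans (by rw [hR]; exact inf_le_right)
  -- the module
  set X := Subgroup.normalClosure (W : Set Γ) with hX
  have hWX : W ≤ X := Subgroup.subset_normalClosure
  haveI hUn : (omegaCenterOf Q).Normal := by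
    rw [← Subgroup.normalizer_eq_top_iff, eq_top_iff]
    refine le_trans ?_ (norm_oz Q)
    rw [Subgroup.normalizer_eq_top_iff.mpr inferInstance]
  have hXU : X ≤ omegaCenterOf Q := by
    apply Subgroup.normalClosure_le_normal
    intro w hw
    show w ∈ omegaCenterOf Q
    rw [mem_oz]
    exact ⟨hWQ hw, fun q hq => (Subgroup.mem_centralizer_iff.mp (hQW hq) w hw).symm, C3.wOf_sq hw⟩
  have hXQ : X ≤ Q := hXU.trans (oz_le Q)
  have hXc : ∀ u ∈ X, ∀ v ∈ X, u * v = v * u := fun u hu v hv => (mem_oz.mp (hXU hv)).2.1 u (hXQ hu)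
  have hX2 : ∀ u ∈ X, u ^ 2 = 1 := fun u hu => (mem_oz.mp (hXU hu)).2.2
  have hXe : IsElementaryAbelian 2 X := H20.isElementaryAbelian_iff.mpr ⟨hXc, hX2⟩
  have hKX : K ≤ Subgroup.normalizer (X : Set Γ) := by
    rw [Subgroup.normalizer_eq_top_iff.mpr inferInstance]; exact le_top
  have hRX : ∀ r ∈ pCoreOf 2 K, ∀ u ∈ X, r * u = u * r := by
    intro r hr u hu
    rw [hR] at hr
    exact (mem_oz.mp (hXU hu)).2.1 r hr.2
  have hXKW : ⁅X, K⁆ ≤ W := by
    apply com_le_wOf hK hXc hX2 hKX hRX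
    have h1 : ⁅X, K⁆ ≤ X := H23.commutator_le_iff_normalizer.mpr hKX
    have h3 : ⁅X, K⁆ ≤ K := by
      rw [Subgroup.commutator_comm]
      exact H23.commutator_le_iff_normalizer.mpr (hXQ.trans hQK)
    intro x hx
    rw [mem_oz, hR]
    refine ⟨⟨h3 hx, hXQ (h1 hx)⟩, fun s hs => ?_, hX2 x (h1 hx)⟩
    exact (mem_oz.mp (hXU (h1 hx))).2.1 s hs.2
  have hXK : ⁅X, K⁆ = W := by
    rcases hK.irr hW4 hd hdR hXKW (fun x hx =>
      (Subgroup.mem_normalizer_iff.mp (H18.le_normalizer_commutator hKX Subgroup.le_normalizer hd) x).mp hx) with h3 | h3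
    · exfalso
      apply hWne
      rw [eq_bot_iff]
      intro w hw
      rw [Subgroup.mem_bot]
      apply hK.fpf hd hdR hw
      have h4 : ⁅w, d⁆ ∈ ⁅X, K⁆ := Subgroup.commutator_mem_commutator (hWX hw) hd
      rw [h3, Subgroup.mem_bot] at h4
      exact (commutatorElement_eq_one_iff_mul_comm.mp h4).symm
    · exact h3
  -- the quotient
  set C := Subgroup.centralizer (X : Set Γ) with hC
  set π := QuotientGroup.mk' C with hπ
  have hQC : Q ≤ C := by
    intro q hq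
    rw [Subgroup.mem_centralizer_iff]
    exact fun x hx => ((mem_oz.mp (hXU hx)).2.1 q hq).symm
  have hKC : K ⊓ C = pCoreOf 2 K := by
    apply le_antisymm
    · rw [← hK.inf_centralizer hWne]
      exact inf_le_inf_left _ (Subgroup.centralizer_le hWX)
    · rw [hR]; exact inf_le_inf_left _ hQC
  have hcardK : Nat.card (K.map π) = 3 := by
    rw [← Subgroup.relIndex_ker, QuotientGroup.ker_mk', ← Subgroup.inf_relIndex_right, inf_comm, hKC]
    exact hK.idx
  have hKsn : (K.map π).IsSubnormal := hsn.map (QuotientGroup.mk'_surjective C)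
  have hK3 : K.map π ≤ pCore 3 (Γ ⧸ C) :=
    le_pCore_of_subnormal hKsn (IsPGroup.of_card (n := 1) (by rw [hcardK, pow_one]))
  -- O₂ of the quotient is trivial
  set D := (pCore 2 (Γ ⧸ C)).comap π with hD
  have hDK : ∀ δ ∈ D, ∀ k ∈ K, δ * k * δ⁻¹ * k⁻¹ ∈ C := by
    intro δ hδ k hk
    have h4 : Disjoint (pCore 2 (Γ ⧸ C)) (pCore 3 (Γ ⧸ C)) := by
      apply IsPGroup.disjoint_of_ne 2 3 (by norm_num) _ _ (H18.isPGroup_pCore 2 _) (H18.isPGroup_pCore 3 _)
    have h5 := Subgroup.commute_of_normal_of_disjoint _ _ inferInstance inferInstance h4 (π δ) (π k) hδ (hK3 ⟨k, hk, rfl⟩)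
    rw [← QuotientGroup.eq_one_iff]
    show π (δ * k * δ⁻¹ * k⁻¹) = 1
    rw [map_mul, map_mul, map_mul, map_inv, map_inv, h5.eq, mul_inv_cancel_right, mul_inv_cancel]
  have hDW : D ≤ Subgroup.normalizer (W : Set Γ) := by
    intro δ hδ
    apply mem_norm_of_le
    intro w hw
    rw [← hXK] at hw ⊢
    have key : ⁅X, K⁆ ≤ (⁅X, K⁆).comap (MulAut.conj δ).toMonoidHom := by
      rw [Subgroup.commutator_le]
      intro x hx k hk
      show δ * ⁅x, k⁆ * δ⁻¹ ∈ ⁅X, K⁆
      have hx' : δ * x * δ⁻¹ ∈ X := Subgroup.Normal.conj_mem inferInstance _ hx δ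
      obtain ⟨c, hc⟩ : ∃ c, c = δ * k * δ⁻¹ * k⁻¹ := ⟨_, rfl⟩
      have hcC : c ∈ C := by rw [hc]; exact hDK δ hδ k hk
      have hkc : δ * k * δ⁻¹ = c * k := by rw [hc]; group
      have hkx : k * (δ * x * δ⁻¹)⁻¹ * k⁻¹ ∈ X :=
        (Subgroup.mem_normalizer_iff.mp (hKX hk) _).mp (X.inv_mem hx')
      have h5 := Subgroup.mem_centralizer_iff.mp hcC _ hkx
      have e : δ * ⁅x, k⁆ * δ⁻¹ = ⁅δ * x * δ⁻¹, k⁆ := by
        rw [commutatorElement_def, commutatorElement_def]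
        calc δ * (x * k * x⁻¹ * k⁻¹) * δ⁻¹ = (δ * x * δ⁻¹) * (δ * k * δ⁻¹) * (δ * x * δ⁻¹)⁻¹ * (δ * k * δ⁻¹)⁻¹ := by group
          _ = (δ * x * δ⁻¹) * (c * (k * (δ * x * δ⁻¹)⁻¹ * k⁻¹)) * c⁻¹ := by rw [hkc]; group
          _ = _ := by rw [← h5]; group
      rw [e]
      exact Subgroup.commutator_mem_commutator hx' hk
    exact key hw
  have hDC : D ≤ C := by
    obtain ⟨S⟩ : Nonempty (Sylow 2 Γ) := inferInstance
    have hCD : C ≤ D := by
      intro c hc
      show π c ∈ pCore 2 (Γ ⧸ C)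
      have : π c = 1 := (QuotientGroup.eq_one_iff c).mpr hc
      rw [this]
      exact Subgroup.one_mem _
    have hSD2 : IsPGroup 2 ((S : Subgroup Γ) ⊓ D : Subgroup Γ) := S.isPGroup'.to_le inf_le_left
    obtain ⟨n, hn, hn1, hnS⟩ := exists_fixed_mod (wOf_isPGroup K) hSD2 (bot_lt_iff_ne_bot.mpr hWne) (by
      rw [Subgroup.normalizer_eq_top_iff.mpr inferInstance]; exact le_top) (inf_le_right.trans hDW) (by
      rw [Subgroup.normalizer_eq_top_iff.mpr inferInstance]; exact le_top)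
    have hcent : W ⊓ Subgroup.centralizer (D : Set Γ) = W := by
      rcases hK.irr hW4 hd hdR (X := W ⊓ Subgroup.centralizer (D : Set Γ)) inf_le_left (by
        rintro x ⟨hx, hx'⟩
        exact ⟨C3.conj_mem_w hd hx, Subgroup.Normal.conj_mem inferInstance _ hx' d⟩) with h3 | h3
      · exfalso
        have h4 : n ∈ W ⊓ Subgroup.centralizer (D : Set Γ) := by
          refine ⟨hn, ?_⟩
          show n ∈ Subgroup.centralizer _
          rw [Subgroup.mem_centralizer_iff]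
          intro δ hδ
          obtain ⟨s, hs, c, hc, hsc⟩ := H2.exists_mul_of_mem_pCore_quotient S hδ
          have hsD : s ∈ D := by
            have e : s = δ * c⁻¹ := by rw [hsc]; group
            rw [e]
            exact D.mul_mem hδ (D.inv_mem (hCD hc))
          have h5 := Subgroup.mem_bot.mp (hnS s ⟨hs, hsD⟩)
          have h6 : s * n * s⁻¹ = n := (inv_mul_eq_one.mp h5).symm
          have h7 : s * n = n * s := mul_inv_eq_iff_eq_mul.mp h6
          have h8 : n * c = c * n := Subgroup.mem_centralizer_iff.mp hc n (hWX hn)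
          rw [hsc, mul_assoc, ← h8, ← mul_assoc, h7, mul_assoc]
        rw [h3] at h4
        exact hn1 h4
      · exact h3
    have h4 : X ≤ Subgroup.centralizer (D : Set Γ) := by
      apply Subgroup.normalClosure_le_normal
      intro w hw
      rw [← hcent] at hw
      exact hw.2
    intro δ hδ
    rw [Subgroup.mem_centralizer_iff]
    exact fun x hx => (Subgroup.mem_centralizer_iff.mp (h4 hx) δ hδ).symm
  have hO : pCore 2 (Γ ⧸ C) = ⊥ := by
    rw [eq_bot_iff]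
    intro y hy
    obtain ⟨x, rfl⟩ := QuotientGroup.mk'_surjective C y
    rw [Subgroup.mem_bot]
    exact (QuotientGroup.eq_one_iff x).mpr (hDC hy)
  have hqa := Wn.qa (hV := hXe.1) hXe.2 (H23.isPSolvable_of_isSolvable hs) hO
  have hffs := hqa.ffs ⊤
  have hOF := hqa.OF_img (N := ⊤) (A := A) le_top (EAIn_comm hA) hA.2.1.2 (EAIn_off hXe hA)
  set Kt := img π ⊤ K with hKt
  have hKtQ : Kt ≤ pPrimeCore 2 ↥(⊤ : Subgroup (Γ ⧸ C)) := by
    have h4 : Kt.IsSubnormal := by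
      rw [hKt]; unfold img
      exact hKsn.subgroupOf
    have hKtp : IsPGroup 3 Kt := by
      refine IsPGroup.of_card (n := 1) ?_
      rw [pow_one, ← hcardK, ← map_card Kt]
      rw [hKt]; unfold img
      rw [Subgroup.subgroupOf_map_subtype, inf_eq_left.mpr le_top]
    have h5 := le_pCore_of_subnormal h4 hKtp
    refine h5.trans (le_sSup ⟨inferInstance, ?_⟩)
    obtain ⟨m, hm⟩ := IsPGroup.iff_card.mp (H18.isPGroup_pCore 3 ↥(⊤ : Subgroup (Γ ⧸ C)))
    rw [hm]
    exact Nat.Coprime.pow_left m (by norm_num)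
  have hcomK : comS (Wn X hXe.1) Kt = comS (Wn X hXe.1) K := hqa.comS_img le_top
  have htoG : Wn.toG (comS (Wn X hXe.1) Kt) = W := by
    rw [hcomK, Wn.toG_comS, hXK]
  -- preservation
  let St : Subgroup ↥(⊤ : Subgroup (Γ ⧸ C)) :=
    { carrier := {x | ∀ w : Wn X hXe.1, w ∈ comS (Wn X hXe.1) Kt ↔ x • w ∈ comS (Wn X hXe.1) Kt}
      mul_mem' := by
        intro a b ha hb w
        rw [mul_smul, ← ha, ← hb]
      one_mem' := by
        intro w
        rw [one_smul]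
      inv_mem' := by
        intro a ha w
        rw [ha (a⁻¹ • w), smul_inv_smul] }
  have hSt : ∀ B : Subgroup ↥(⊤ : Subgroup (Γ ⧸ C)), TG 2 (Wn X hXe.1) B → B ≤ St := by
    intro B hB
    have h4 := TG.smul_or hffs hB hKtQ (by
      intro U hU hinv
      have h5 : Wn.toG U ≤ W := (Wn.toG_le.mpr hU).trans htoG.le
      rcases hK.irr hW4 hd hdR h5 (by
        intro x hx
        obtain ⟨u, hu, rfl⟩ := Wn.mem_toG.mp hx
        have h6 : d * u.val * d⁻¹ = (d • u).val := rfl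
        rw [h6, Wn.val_mem_toG, ← hqa.act]
        exact hinv ⟨π d, Subgroup.mem_top _⟩ ⟨d, hd, rfl⟩ u hu) with h6 | h6
      · left
        apply Wn.toG_inj
        exact h6.trans Wn.toG_bot.symm
      · right
        apply Wn.toG_inj
        exact h6.trans htoG.symm) (by
      rw [← Wn.card_toG]
      exact ((congrArg (fun H : Subgroup Γ => Nat.card H) htoG).trans hW4).trans (by norm_num))
    intro b hb w
    constructor
    · exact h4 b hb w
    · intro hw
      have := h4 b⁻¹ (B.inv_mem hb) _ hw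
      rwa [inv_smul_smul] at this
  have hAS : img π ⊤ A ≤ St := by
    refine (hffs.gen_TG _ _ rfl hOF).trans (sSup_le ?_)
    rintro B ⟨_, hB⟩
    exact hSt B hB
  intro a ha
  apply mem_norm_of_le
  intro w hw
  have h5 : (⟨π a, Subgroup.mem_top _⟩ : ↥(⊤ : Subgroup (Γ ⧸ C))) ∈ img π ⊤ A := ⟨a, ha, rfl⟩
  obtain ⟨u, hu, rfl⟩ := Wn.mem_toG.mp (htoG.ge hw)
  have h6 := (hAS h5 u).mp hu
  exact htoG.le (Wn.val_mem_toG.mpr h6 : (a • u).val ∈ _)

theorem eaIn_of_sylow {G : Type*} [Group G] [Finite G] {T L A : Subgroup G} (hT : H23.IsSylowOf 2 T L)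
    (hA : H2.EAIn 2 T A) : H2.EAIn 2 L A := by
  have h1 : H2.EAIn 2 (T.subgroupOf L) (A.subgroupOf L) := by
    rw [← H2.eaIn_map_iff L.subtype_injective, Subgroup.map_subgroupOf_eq_of_le hT.le,
      Subgroup.map_subgroupOf_eq_of_le (hA.1.trans hT.le)]
    exact hA
  have h3 := (H2.eaIn_map_iff L.subtype_injective).2 (eaIn_top (isSylowOf_top_of hT) h1)
  rwa [← MonoidHom.range_eq_map, Subgroup.range_subtype, Subgroup.map_subgroupOf_eq_of_le (hA.1.trans hT.le)] at h3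

theorem eaIn_subgroupOf {G : Type*} [Group G] {P A : Subgroup G} (hA : H2.EAIn 2 P A) :
    H2.EAIn 2 ⊤ (A.subgroupOf P) := by
  rw [← H2.eaIn_map_iff P.subtype_injective, Subgroup.map_subgroupOf_eq_of_le hA.1, ← MonoidHom.range_eq_map,
    Subgroup.range_subtype]
  exact hA

theorem eaIn_mono {G : Type*} [Group G] {P L A : Subgroup G} (hA : H2.EAIn 2 L A) (hAP : A ≤ P) (hPL : P ≤ L) :
    H2.EAIn 2 P A := ⟨hAP, hA.2.1, fun B hBP hB => hA.2.2 B (hBP.trans hPL) hB⟩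

end Cfsg.Agent.H19.JC
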