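import Cfsg.Agent.H19.JC6

set_option autoImplicit false
set_option linter.style.haveILetI false
set_option linter.unusedVariables false
set_option linter.unusedSectionVars false

/-! `J(T)`-components, part 7: the order of `W_K`. -/

namespace Cfsg.Agent.H19.JC

open Cfsg Cfsg.Agent.H19.PGV Cfsg.Agent.H19.FF Cfsg.Agent.H19.FF.FFS
open scoped commutatorElement

variable {Γ : Type*} [Group Γ] [Finite Γ]

section count

variable {W : Subgroup Γ} {v b : Γ}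

theorem sq1 (hWc : ∀ x ∈ W, ∀ y ∈ W, x * y = y * x) (hv3 : v ^ 3 = 1) (hbv : b * v * b⁻¹ = v⁻¹)
    (hfpf : ∀ w ∈ W, v * w = w * v → w = 1) {U : Subgroup Γ} (hUW : U ≤ W) (hvU : ∀ u ∈ U, v * u * v⁻¹ ∈ U) :
    Nat.card ↥(U ⊓ Subgroup.centralizer ({b} : Set Γ)) * Nat.card ↥(U ⊓ Subgroup.centralizer ({b} : Set Γ)) ≤
      Nat.card U := by
  set X := U ⊓ Subgroup.centralizer ({b} : Set Γ) with hX
  rw [← Nat.card_prod]
  have hcb : ∀ x ∈ X, b * x * b⁻¹ = x := by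
    intro x hx
    rw [mul_inv_eq_iff_eq_mul]
    exact (Subgroup.mem_centralizer_singleton_iff.mp hx.2).symm
  let f : ↥X × ↥X → ↥U := fun p => ⟨p.1.1 * (v * p.2.1 * v⁻¹), U.mul_mem p.1.2.1 (hvU _ p.2.2.1)⟩
  apply Nat.card_le_card_of_injective f
  rintro ⟨x, y⟩ ⟨x', y'⟩ hxy
  have h1 : x.1 * (v * y.1 * v⁻¹) = x'.1 * (v * y'.1 * v⁻¹) := congrArg Subtype.val hxy
  obtain ⟨x₀, hx₀⟩ : ∃ x₀, x₀ = x'.1⁻¹ * x.1 := ⟨_, rfl⟩
  obtain ⟨y₀, hy₀⟩ : ∃ y₀, y₀ = y'.1 * y.1⁻¹ := ⟨_, rfl⟩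
  have hx₀X : x₀ ∈ X := by rw [hx₀]; exact X.mul_mem (X.inv_mem x'.2) x.2
  have hy₀X : y₀ ∈ X := by rw [hy₀]; exact X.mul_mem y'.2 (X.inv_mem y.2)
  have h3 : x₀ = v * y₀ * v⁻¹ := by
    have h4 := congrArg (fun t => x'.1⁻¹ * t * (v * y.1 * v⁻¹)⁻¹) h1
    have e1 : x'.1⁻¹ * (x.1 * (v * y.1 * v⁻¹)) * (v * y.1 * v⁻¹)⁻¹ = x'.1⁻¹ * x.1 := by group
    have e2 : x'.1⁻¹ * (x'.1 * (v * y'.1 * v⁻¹)) * (v * y.1 * v⁻¹)⁻¹ = v * (y'.1 * y.1⁻¹) * v⁻¹ := by group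
    simp only [e1, e2] at h4
    rw [hx₀, hy₀]
    exact h4
  have h4 : v * y₀ * v⁻¹ = v⁻¹ * y₀ * v := by
    calc v * y₀ * v⁻¹ = b * (v * y₀ * v⁻¹) * b⁻¹ := by rw [← h3, hcb _ hx₀X]
      _ = (b * v * b⁻¹) * (b * y₀ * b⁻¹) * (b * v * b⁻¹)⁻¹ := by group
      _ = _ := by rw [hbv, hcb _ hy₀X, inv_inv]
  have hv : v * v * v = 1 := by rw [← hv3, pow_succ, pow_two]
  have h5 : y₀ = 1 := by
    apply hfpf _ (hUW hy₀X.1)
    have h6 : v⁻¹ = v * v := by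
      rw [inv_eq_iff_mul_eq_one, ← mul_assoc]; exact hv
    have h7 := congrArg (fun t => v⁻¹ * t * v⁻¹) h4
    have e1 : v⁻¹ * (v * y₀ * v⁻¹) * v⁻¹ = y₀ * (v⁻¹ * v⁻¹) := by group
    have e2 : v⁻¹ * (v⁻¹ * y₀ * v) * v⁻¹ = (v⁻¹ * v⁻¹) * y₀ := by group
    simp only [e1, e2] at h7
    have h8 : v⁻¹ * v⁻¹ = v := by
      have : v⁻¹ * v⁻¹ = v * (v * v * v)⁻¹ := by group
      rw [this, hv, inv_one, mul_one]
    rw [h8] at h7
    exact h7.symm
  have h6 : x₀ = 1 := by rw [h3, h5]; group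
  have h7 : x = x' := by
    apply Subtype.ext
    have := inv_mul_eq_one.mp (hx₀ ▸ h6 : x'.1⁻¹ * x.1 = 1)
    exact this.symm
  have h8 : y = y' := by
    apply Subtype.ext
    have := mul_inv_eq_one.mp (hy₀ ▸ h5 : y'.1 * y.1⁻¹ = 1)
    exact this.symm
  rw [h7, h8]

theorem sq2 (hWc : ∀ x ∈ W, ∀ y ∈ W, x * y = y * x) (hW2 : ∀ x ∈ W, x ^ 2 = 1) (hb2 : b * b = 1)
    (hbW : ∀ w ∈ W, b * w * b⁻¹ ∈ W) :
    Nat.card W ≤ Nat.card ↥(W ⊓ Subgroup.centralizer ({b} : Set Γ)) * Nat.card ↥(W ⊓ Subgroup.centralizer ({b} : Set Γ)) := by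
  set X := W ⊓ Subgroup.centralizer ({b} : Set Γ) with hX
  let f : ↥W →* ↥W := MonoidHom.mk' (fun w => ⟨b * w.1 * b⁻¹ * w.1⁻¹, W.mul_mem (hbW _ w.2) (W.inv_mem w.2)⟩) (by
    intro x y
    apply Subtype.ext
    show b * (x.1 * y.1) * b⁻¹ * (x.1 * y.1)⁻¹ = b * x.1 * b⁻¹ * x.1⁻¹ * (b * y.1 * b⁻¹ * y.1⁻¹)
    have h1 : x.1⁻¹ * (b * y.1 * b⁻¹) = (b * y.1 * b⁻¹) * x.1⁻¹ := hWc _ (W.inv_mem x.2) _ (hbW _ y.2)
    have h3 : x.1⁻¹ * y.1⁻¹ = y.1⁻¹ * x.1⁻¹ := hWc _ (W.inv_mem x.2) _ (W.inv_mem y.2)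
    symm
    calc b * x.1 * b⁻¹ * x.1⁻¹ * (b * y.1 * b⁻¹ * y.1⁻¹) = b * x.1 * b⁻¹ * (x.1⁻¹ * (b * y.1 * b⁻¹)) * y.1⁻¹ := by group
      _ = b * x.1 * b⁻¹ * (b * y.1 * b⁻¹) * (x.1⁻¹ * y.1⁻¹) := by rw [h1]; group
      _ = _ := by rw [h3]; group)
  have hf : ∀ w : ↥W, (f w).1 = b * w.1 * b⁻¹ * w.1⁻¹ := fun w => rfl
  have h1 : Nat.card f.ker * f.ker.index = Nat.card W := Subgroup.card_mul_index _
  rw [Subgroup.index_ker] at h1
  have h3 : Nat.card f.ker ≤ Nat.card X := by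
    have : f.ker.map W.subtype ≤ X := by
      rintro _ ⟨w, hw, rfl⟩
      refine ⟨w.2, ?_⟩
      show w.1 ∈ Subgroup.centralizer _
      rw [Subgroup.mem_centralizer_singleton_iff]
      have h4 : b * w.1 * b⁻¹ * w.1⁻¹ = 1 := by rw [← hf]; exact congrArg Subtype.val hw
      have h5 : b * w.1 * b⁻¹ = w.1 := mul_inv_eq_one.mp h4
      exact (mul_inv_eq_iff_eq_mul.mp h5).symm
    have h4 := Subgroup.card_le_of_le this
    rwa [H2.card_map_inj W.subtype_injective] at h4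
  have h4 : Nat.card f.range ≤ Nat.card X := by
    have : f.range.map W.subtype ≤ X := by
      rintro _ ⟨_, ⟨w, rfl⟩, rfl⟩
      refine ⟨(f w).2, ?_⟩
      show (f w).1 ∈ Subgroup.centralizer _
      rw [Subgroup.mem_centralizer_singleton_iff, hf]
      have hbi : b⁻¹ = b := by rw [inv_eq_iff_mul_eq_one, hb2]
      have h5 : b * (b * w.1 * b⁻¹ * w.1⁻¹) * b⁻¹ = (b * w.1 * b⁻¹ * w.1⁻¹)⁻¹ := by
        calc b * (b * w.1 * b⁻¹ * w.1⁻¹) * b⁻¹ = (b * b) * w.1 * b⁻¹ * w.1⁻¹ * b⁻¹ := by group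
          _ = w.1 * b⁻¹ * w.1⁻¹ * b⁻¹ := by rw [hb2]; group
          _ = w.1 * b * w.1⁻¹ * b⁻¹ := by rw [hbi]
          _ = _ := by group
      have h6 : (b * w.1 * b⁻¹ * w.1⁻¹)⁻¹ = b * w.1 * b⁻¹ * w.1⁻¹ := by
        have h7 := hW2 _ (f w).2
        rw [hf, pow_two] at h7
        exact (eq_inv_of_mul_eq_one_left h7).symm
      rw [h6] at h5
      exact (mul_inv_eq_iff_eq_mul.mp h5).symm
    have h4 := Subgroup.card_le_of_le this
    rwa [H2.card_map_inj W.subtype_injective] at h4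
  rw [← h1]
  exact Nat.mul_le_mul h3 h4

/-- the counting argument -/
theorem jc_count {A A₀ : Subgroup Γ} (hWe : IsElementaryAbelian 2 W) (hAe : IsElementaryAbelian 2 A)
    (hAW : A ≤ Subgroup.normalizer (W : Set Γ)) (hvW : v ∈ Subgroup.normalizer (W : Set Γ))
    (hoff : ∀ B : Subgroup Γ, B ≤ A → Nat.card B * Nat.card ↥(W ⊓ Subgroup.centralizer (B : Set Γ)) ≤
      Nat.card A * Nat.card ↥(W ⊓ Subgroup.centralizer (A : Set Γ)))
    (hb : b ∈ A) (hv3 : v ^ 3 = 1) (hbv : b * v * b⁻¹ = v⁻¹) (hfpf : ∀ w ∈ W, v * w = w * v → w = 1)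
    (hA₀ : A₀ ≤ A) (hA₀b : ∀ a ∈ A, a * b ∈ A₀ ∨ a ∈ A₀)
    (hA₀v : ∀ a ∈ A₀, ∀ w ∈ W, a * (v * w * v⁻¹) * a⁻¹ = v * (a * w * a⁻¹) * v⁻¹) : Nat.card W ≤ 4 := by
  haveI h2 : Fact (Nat.Prime 2) := ⟨Nat.prime_two⟩
  obtain ⟨hWc, hW2⟩ := H20.isElementaryAbelian_iff.mp hWe
  obtain ⟨hAc, hA2⟩ := H20.isElementaryAbelian_iff.mp hAe
  have hb2 : b * b = 1 := by rw [← pow_two]; exact hA2 b hb
  have hAp := H20.IsElementaryAbelian.isPGroup hAe
  have hWp := H20.IsElementaryAbelian.isPGroup hWe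
  have hbW : ∀ w ∈ W, b * w * b⁻¹ ∈ W := fun w hw => (Subgroup.mem_normalizer_iff.mp (hAW hb) w).mp hw
  have hvW' : ∀ w ∈ W, v * w * v⁻¹ ∈ W := fun w hw => (Subgroup.mem_normalizer_iff.mp hvW w).mp hw
  -- fixed points of subgroups of `A₀`
  have hfixv : ∀ B : Subgroup Γ, B ≤ A₀ → ∀ u ∈ W ⊓ Subgroup.centralizer (B : Set Γ),
      v * u * v⁻¹ ∈ W ⊓ Subgroup.centralizer (B : Set Γ) := by
    rintro B hB u ⟨hu, huB⟩
    refine ⟨hvW' u hu, ?_⟩
    show v * u * v⁻¹ ∈ Subgroup.centralizer _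
    rw [Subgroup.mem_centralizer_iff]
    intro a ha
    have h1 := hA₀v a (hB ha) u hu
    have h3 : a * u * a⁻¹ = u := by
      rw [Subgroup.mem_centralizer_iff.mp huB a ha, mul_inv_cancel_right]
    rw [h3] at h1
    exact mul_inv_eq_iff_eq_mul.mp h1
  have hcA : ∀ B : Subgroup Γ, B ≤ A → W ⊓ Subgroup.centralizer (A : Set Γ) ≤ W ⊓ Subgroup.centralizer (B : Set Γ) :=
    fun B hB => inf_le_inf_left _ (Subgroup.centralizer_le hB)
  have hAle : Nat.card A ≤ 2 * Nat.card A₀ := by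
    have h1 : A₀.relIndex A ∣ 2 := by
      rw [Subgroup.relIndex_dvd_two_iff]
      exact ⟨b, hb, fun a ha => hA₀b a ha⟩
    have h3 := PGV.card_relIndex (Y := A) (X := A₀) hA₀
    have h4 := Nat.le_of_dvd (by norm_num) h1
    nlinarith [Nat.card_pos (α := A₀)]
  have hCA : (W ⊓ Subgroup.centralizer (A₀ : Set Γ)) ⊓ Subgroup.centralizer ({b} : Set Γ) = W ⊓ Subgroup.centralizer (A : Set Γ) := by
    apply le_antisymm
    · rintro w ⟨⟨hw, hw0⟩, hwb⟩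
      refine ⟨hw, ?_⟩
      show w ∈ Subgroup.centralizer _
      rw [Subgroup.mem_centralizer_iff]
      intro a ha
      have hwb' := Subgroup.mem_centralizer_singleton_iff.mp hwb
      rcases hA₀b a ha with h1 | h1
      · have h3 := Subgroup.mem_centralizer_iff.mp hw0 _ h1
        have h4 : a * w * b = w * a * b := by
          calc a * w * b = a * b * w := by rw [mul_assoc, hwb', ← mul_assoc]
            _ = w * (a * b) := h3
            _ = _ := by group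
        exact mul_right_cancel h4
      · exact Subgroup.mem_centralizer_iff.mp hw0 a h1
    · rintro w ⟨hw, hwA⟩
      refine ⟨⟨hw, Subgroup.centralizer_le hA₀ hwA⟩, ?_⟩
      show w ∈ Subgroup.centralizer _
      rw [Subgroup.mem_centralizer_singleton_iff]
      exact (Subgroup.mem_centralizer_iff.mp hwA b hb).symm
  obtain ⟨c, hc⟩ : ∃ c, c = Nat.card ↥(W ⊓ Subgroup.centralizer (A : Set Γ)) := ⟨_, rfl⟩
  have hc2 : c ≤ 2 := by
    have h1 := sq1 (U := W ⊓ Subgroup.centralizer (A₀ : Set Γ)) hWc hv3 hbv hfpf inf_le_left (hfixv A₀ le_rfl)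
    rw [hCA, ← hc] at h1
    have h3 := hoff A₀ hA₀
    rw [← hc] at h3
    have hp : 0 < Nat.card A₀ := Nat.card_pos
    have h4 : Nat.card ↥(W ⊓ Subgroup.centralizer (A₀ : Set Γ)) ≤ 2 * c := by
      have h5 : Nat.card A₀ * Nat.card ↥(W ⊓ Subgroup.centralizer (A₀ : Set Γ)) ≤ Nat.card A₀ * (2 * c) :=
        h3.trans (by nlinarith)
      exact Nat.le_of_mul_le_mul_left h5 hp
    by_contra hcon
    push Not at hcon
    nlinarith
  by_cases hWbot : W = ⊥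
  · rw [hWbot, Subgroup.card_bot]; norm_num
  -- fixed points of b
  have hle : W ⊓ Subgroup.centralizer (A : Set Γ) ≤ W ⊓ Subgroup.centralizer ({b} : Set Γ) := by
    rw [← hCA]
    exact inf_le_inf_right _ inf_le_left
  by_cases heq : W ⊓ Subgroup.centralizer (A : Set Γ) = W ⊓ Subgroup.centralizer ({b} : Set Γ)
  · have h1 := sq2 hWc hW2 hb2 hbW
    rw [← heq, ← hc] at h1
    nlinarith
  exfalso
  have hlt : W ⊓ Subgroup.centralizer (A : Set Γ) < W ⊓ Subgroup.centralizer ({b} : Set Γ) := lt_of_le_of_ne hle heq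
  have hWcen : W ≤ Subgroup.centralizer (W : Set Γ) := fun x hx => Subgroup.mem_centralizer_iff.mpr fun y hy => hWc y hy x hx
  have hnormA : ∀ B : Subgroup Γ, (∀ a ∈ A, ∀ x ∈ B, a * x = x * a) → A ≤ Subgroup.normalizer ((W ⊓ Subgroup.centralizer (B : Set Γ) : Subgroup Γ) : Set Γ) := by
    intro B hB a ha
    apply mem_norm_of_le
    rintro w ⟨hw, hwB⟩
    refine ⟨(Subgroup.mem_normalizer_iff.mp (hAW ha) w).mp hw, ?_⟩
    show a * w * a⁻¹ ∈ Subgroup.centralizer _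
    rw [Subgroup.mem_centralizer_iff]
    intro x hx
    have h1 := hB a ha x hx
    have h3 := Subgroup.mem_centralizer_iff.mp hwB x hx
    have h4 : x * a⁻¹ = a⁻¹ * x := by
      rw [eq_inv_mul_iff_mul_eq, ← mul_assoc, h1, mul_inv_cancel_right]
    calc x * (a * w * a⁻¹) = a * (x * w) * a⁻¹ := by rw [← mul_assoc, ← mul_assoc, ← h1]; group
      _ = a * w * (x * a⁻¹) := by rw [h3]; group
      _ = _ := by rw [h4]; group
  have hcz : W ⊓ Subgroup.centralizer (({b} : Set Γ)) = W ⊓ Subgroup.centralizer (Subgroup.zpowers b : Set Γ) := by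
    rw [Subgroup.zpowers_eq_closure, Subgroup.centralizer_closure]
  obtain ⟨y, hy, hyA, hyc⟩ := exists_fixed_mod (hWp.to_le inf_le_left) hAp hlt
    ((inf_le_left.trans hWcen).trans ((Subgroup.centralizer_le (inf_le_left : W ⊓ Subgroup.centralizer (A : Set Γ) ≤ W)).trans
      (Subgroup.centralizer_le_normalizer _)))
    (by
      rw [hcz]
      apply hnormA
      intro a ha x hx
      exact hAc a ha x ((Subgroup.zpowers_le.mpr hb) hx)) (hnormA A hAc)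
  -- B₁
  set B₁ := A₀ ⊓ Subgroup.centralizer ({y} : Set Γ) with hB₁
  have hy' : ∀ a ∈ A, a * y * a⁻¹ * y⁻¹ ∈ W ⊓ Subgroup.centralizer (A : Set Γ) := by
    intro a ha
    have h1 := hyc a ha
    have h3 : y⁻¹ * (a * y * a⁻¹) = (a * y * a⁻¹) * y⁻¹ :=
      hWc _ (W.inv_mem hy.1) _ ((Subgroup.mem_normalizer_iff.mp (hAW ha) y).mp hy.1)
    rwa [h3] at h1
  have hi : Nat.card A₀ ≤ 2 * Nat.card B₁ := by
    by_cases hall : ∀ a ∈ A₀, a ∈ B₁
    · have h1 : Nat.card A₀ ≤ Nat.card B₁ := Subgroup.card_le_of_le hall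
      omega
    push Not at hall
    obtain ⟨a₁, ha₁, ha₁B⟩ := hall
    have h1 : B₁.relIndex A₀ ∣ 2 := by
      rw [Subgroup.relIndex_dvd_two_iff]
      refine ⟨a₁, ha₁, fun a ha => ?_⟩
      by_cases haB : a ∈ B₁
      · exact Or.inr haB
      left
      refine ⟨A₀.mul_mem ha ha₁, ?_⟩
      show a * a₁ ∈ Subgroup.centralizer _
      rw [Subgroup.mem_centralizer_singleton_iff]
      have hne : ∀ x ∈ A₀, x ∉ B₁ → x * y * x⁻¹ * y⁻¹ ≠ 1 := by
        intro x hx hxB h3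
        apply hxB
        refine ⟨hx, ?_⟩
        show x ∈ Subgroup.centralizer _
        rw [Subgroup.mem_centralizer_singleton_iff]
        exact mul_inv_eq_iff_eq_mul.mp (mul_inv_eq_one.mp h3)
      have h3 : a * y * a⁻¹ * y⁻¹ = a₁ * y * a₁⁻¹ * y⁻¹ := by
        by_contra hcon
        have h4 : ({1, a * y * a⁻¹ * y⁻¹, a₁ * y * a₁⁻¹ * y⁻¹} : Set Γ) ⊆ ((W ⊓ Subgroup.centralizer (A : Set Γ) : Subgroup Γ) : Set Γ) := by
          rintro z (rfl | rfl | rfl)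
          · exact Subgroup.one_mem _
          · exact hy' a (hA₀ ha)
          · exact hy' a₁ (hA₀ ha₁)
        have h5 := Set.ncard_le_ncard h4 (Set.toFinite _)
        rw [Set.ncard_eq_three.mpr ⟨_, _, _, (hne a ha haB).symm, (hne a₁ ha₁ ha₁B).symm, hcon, rfl⟩] at h5
        have h6 : ((W ⊓ Subgroup.centralizer (A : Set Γ) : Subgroup Γ) : Set Γ).ncard = c := hc.symm
        omega
      obtain ⟨z, hz⟩ : ∃ z, z = a * y * a⁻¹ * y⁻¹ := ⟨_, rfl⟩
      have hz1 : a * y * a⁻¹ = z * y := by rw [hz]; group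
      have hz2 : a₁ * y * a₁⁻¹ = z * y := by rw [hz, h3]; group
      have hzA : z ∈ W ⊓ Subgroup.centralizer (A : Set Γ) := by rw [hz]; exact hy' a (hA₀ ha)
      have hzz : z * z = 1 := by rw [← pow_two]; exact hW2 z hzA.1
      have h4 : a * a₁ * y * (a * a₁)⁻¹ = y := by
        calc a * a₁ * y * (a * a₁)⁻¹ = a * (a₁ * y * a₁⁻¹) * a⁻¹ := by group
          _ = (a * z) * y * a⁻¹ := by rw [hz2]; group
          _ = z * (a * y * a⁻¹) := by rw [Subgroup.mem_centralizer_iff.mp hzA.2 a (hA₀ ha)]; group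
          _ = (z * z) * y := by rw [hz1]; group
          _ = y := by rw [hzz, one_mul]
      exact mul_inv_eq_iff_eq_mul.mp h4
    have h3 := PGV.card_relIndex (Y := A₀) (X := B₁) inf_le_left
    have h4 := Nat.le_of_dvd (by norm_num) h1
    nlinarith [Nat.card_pos (α := B₁)]
  have hB₁A : B₁ ≤ A := inf_le_left.trans hA₀
  have h1 := sq1 (U := W ⊓ Subgroup.centralizer (B₁ : Set Γ)) hWc hv3 hbv hfpf inf_le_left (hfixv B₁ inf_le_left)
  have h3 := hoff B₁ hB₁A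
  rw [← hc] at h3
  have hp : 0 < Nat.card B₁ := Nat.card_pos
  have h4 : Nat.card ↥(W ⊓ Subgroup.centralizer (B₁ : Set Γ)) ≤ 8 := by
    have h5 : Nat.card B₁ * Nat.card ↥(W ⊓ Subgroup.centralizer (B₁ : Set Γ)) ≤ Nat.card B₁ * 8 :=
      h3.trans (by nlinarith)
    exact Nat.le_of_mul_le_mul_left h5 hp
  -- the fixed points of b in C_W(B₁) have order at least 4
  set Y := (W ⊓ Subgroup.centralizer (B₁ : Set Γ)) ⊓ Subgroup.centralizer ({b} : Set Γ) with hY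
  have hYlt : W ⊓ Subgroup.centralizer (A : Set Γ) < Y := by
    refine lt_of_le_of_ne ?_ ?_
    · exact le_inf (hcA B₁ hB₁A) (hle.trans inf_le_right)
    · intro h5
      apply hyA
      rw [h5]
      refine ⟨⟨hy.1, ?_⟩, hy.2⟩
      show y ∈ Subgroup.centralizer _
      rw [Subgroup.mem_centralizer_iff]
      rintro x ⟨_, hx⟩
      exact Subgroup.mem_centralizer_singleton_iff.mp hx
  obtain ⟨m, hm⟩ := IsPGroup.iff_card.mp (hWp.to_le (inf_le_left.trans inf_le_left : Y ≤ W))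
  have hcne : 2 ≤ c := by
    have hWlt : (⊥ : Subgroup Γ) < W := bot_lt_iff_ne_bot.mpr hWbot
    obtain ⟨n, hn, hn1, hnA⟩ := exists_fixed_mod hWp hAp hWlt (by
      rw [Subgroup.normalizer_eq_top_iff.mpr inferInstance]; exact le_top) hAW (by
      rw [Subgroup.normalizer_eq_top_iff.mpr inferInstance]; exact le_top)
    rw [hc, Nat.succ_le_iff, Finite.one_lt_card_iff_nontrivial, Subgroup.nontrivial_iff_ne_bot]
    intro h5
    have h6 : n ∈ W ⊓ Subgroup.centralizer (A : Set Γ) := by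
      refine ⟨hn, ?_⟩
      show n ∈ Subgroup.centralizer _
      rw [Subgroup.mem_centralizer_iff]
      intro a ha
      have h7 := Subgroup.mem_bot.mp (hnA a ha)
      have h8 : a * n * a⁻¹ = n := (inv_mul_eq_one.mp h7).symm
      exact mul_inv_eq_iff_eq_mul.mp h8
    rw [h5] at h6
    exact hn1 h6
  have h5 : 2 < Nat.card Y := by
    have h6 : c < Nat.card Y := by
      rw [hc]
      refine lt_of_le_of_ne (Subgroup.card_le_of_le hYlt.le) fun h => hYlt.ne ?_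
      exact Subgroup.eq_of_le_of_card_ge hYlt.le h.ge
    omega
  have h6 : 4 ≤ Nat.card Y := by
    rw [hm] at h5 ⊢
    rcases m with _ | _ | m
    · norm_num at h5
    · norm_num at h5
    · rw [pow_add]
      have := Nat.one_le_two_pow (n := m)
      omega
  nlinarith

end count

end Cfsg.Agent.H19.JC
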