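import Cfsg.Agent.H19.JC7

set_option autoImplicit false
set_option linter.style.haveILetI false
set_option linter.unusedVariables false
set_option linter.unusedSectionVars false

/-! `J(T)`-components, part 8: existence. -/

namespace Cfsg.Agent.H19.JC

open Cfsg Cfsg.Agent.H19.PGV Cfsg.Agent.H19.FF Cfsg.Agent.H19.FF.FFS
open scoped commutatorElement

local notation "𝕆(" p ", " H ")" => Subgroup.map (Subgroup.subtype H) (Cfsg.pResidual p ↥H)

variable {Γ : Type*} [Group Γ] [Finite Γ] {T : Subgroup Γ}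

theorem exists_conj_J (hT : H23.IsSylowOf 2 T ⊤) {A : Subgroup Γ} (hA : H2.EAIn 2 ⊤ A) :
    ∃ j ∈ thompsonSubgroup 2 Γ, H2.EAIn 2 T (A.map (MulAut.conj j).toMonoidHom) := by
  haveI h2 : Fact (Nat.Prime 2) := ⟨Nat.prime_two⟩
  have h1 : H23.IsSylowOf 2 (T ⊓ thompsonSubgroup 2 Γ) (thompsonSubgroup 2 Γ) :=
    isSylowOf_inf_normal_rel le_top (by rw [Subgroup.normalizer_eq_top_iff.mpr inferInstance]) hT
  have hAJ : A ≤ thompsonSubgroup 2 Γ := by
    rw [H2.thompsonSubgroup_eq]; exact le_sSup hA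
  obtain ⟨j, hj, hjA⟩ := IsSylowOf.exists_conj_le h1 hAJ (H20.IsElementaryAbelian.isPGroup hA.2.1)
  have hjA' : A.map (MulAut.conj j).toMonoidHom ≤ T ⊓ thompsonSubgroup 2 Γ := hjA
  refine ⟨j, hj, ?_⟩
  have h3 := H2.eaIn_map_conj hA j
  rw [Subgroup.map_top_of_surjective _ (MulAut.conj j).surjective] at h3
  exact eaIn_mono h3 (hjA'.trans inf_le_left) le_top

theorem exists_TG_J (h : ZG Γ) (hT : H23.IsSylowOf 2 T ⊤) {A' : Subgroup ↥(NN Γ)} (hA' : TG 2 h.WW A') :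
    ∃ A, H2.EAIn 2 T A ∧ ∃ B, B ≤ img (rho Γ) (NN Γ) A ∧ TG 2 h.WW B ∧
      EG (pPrimeCore 2 ↥(NN Γ)) B = EG (pPrimeCore 2 ↥(NN Γ)) A' := by
  haveI h2 : Fact (Nat.Prime 2) := ⟨Nat.prime_two⟩
  by_contra hcon
  push Not at hcon
  set Qx := pPrimeCore 2 ↥(NN Γ) with hQx
  have hJN : (thompsonSubgroupOf 2 T).map (rho Γ) ≤ NN Γ := Subgroup.map_mono (J_le_JJ hT)
  have h3 : ∀ A, H2.EAIn 2 T A → img (rho Γ) (NN Γ) A ≤ CP Qx A' h.WW := by
    intro A hA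
    have hAN : A.map (rho Γ) ≤ NN Γ := (Subgroup.map_mono hA.le_thompson).trans hJN
    have hOF := h.qa.OF_img (N := NN Γ) hAN (EAIn_comm hA) hA.2.1.2 (EAIn_off h.V_elem (eaIn_top hT hA))
    refine (h.ffs.gen_TG _ _ rfl hOF).trans (sSup_le ?_)
    rintro B ⟨hBA, hB⟩
    exact (le_EG Qx B).trans (TG.le_CP h.ffs hA' hB (hcon A hA B hBA hB))
  have hCPn : ∀ g : ↥(NN Γ), ∀ x ∈ CP Qx A' h.WW, g * x * g⁻¹ ∈ CP Qx A' h.WW := by
    intro g x hx
    rw [mem_CP] at hx ⊢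
    intro w hw
    have h4 : g⁻¹ • w ∈ comS h.WW (EG Qx A') := smul_comS (TG.norm h.ffs h.gen hA' g⁻¹) hw
    rw [mul_smul, mul_smul, hx _ h4, smul_inv_smul]
  have h4 : thompsonSubgroup 2 Γ ≤ ((CP Qx A' h.WW).map (NN Γ).subtype).comap (rho Γ) := by
    conv_lhs => rw [H2.thompsonSubgroup_eq]
    refine sSup_le fun A hA a ha => ?_
    obtain ⟨j, hj, hjA⟩ := exists_conj_J hT hA
    have hjN : rho Γ j ∈ NN Γ := ⟨j, hj, rfl⟩
    have haJ : a ∈ thompsonSubgroup 2 Γ := by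
      rw [H2.thompsonSubgroup_eq]; exact (le_sSup (a := A) hA) ha
    have haN : rho Γ a ∈ NN Γ := ⟨a, haJ, rfl⟩
    have h5 : (⟨rho Γ j, hjN⟩ : ↥(NN Γ)) * ⟨rho Γ a, haN⟩ * (⟨rho Γ j, hjN⟩ : ↥(NN Γ))⁻¹ ∈ CP Qx A' h.WW := by
      apply h3 _ hjA
      refine ⟨j * a * j⁻¹, ⟨a, ha, rfl⟩, ?_⟩
      show rho Γ (j * a * j⁻¹) = rho Γ j * rho Γ a * (rho Γ j)⁻¹
      rw [map_mul, map_mul, map_inv]
    have h6 := hCPn (⟨rho Γ j, hjN⟩ : ↥(NN Γ))⁻¹ _ h5
    have e : (⟨rho Γ j, hjN⟩ : ↥(NN Γ))⁻¹ * ((⟨rho Γ j, hjN⟩ : ↥(NN Γ)) * ⟨rho Γ a, haN⟩ * (⟨rho Γ j, hjN⟩ : ↥(NN Γ))⁻¹) *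
        (⟨rho Γ j, hjN⟩ : ↥(NN Γ))⁻¹⁻¹ = ⟨rho Γ a, haN⟩ := by group
    rw [e] at h6
    exact ⟨_, h6, rfl⟩
  obtain ⟨a, ha, ha1⟩ := hA'.exists_ne
  obtain ⟨j, hj, hja⟩ := a.2
  obtain ⟨y, hy, hyj⟩ := h4 hj
  have hya : y = a := Subtype.ext (hyj.trans hja)
  have h5 : a ∈ EG Qx A' ⊓ CP Qx A' h.WW := ⟨le_EG Qx A' ha, hya ▸ hy⟩
  rw [TG.inf_CP h.ffs hA', Subgroup.mem_bot] at h5
  exact ha1 h5

theorem four_pow (a : ℕ) : ∃ m, 4 ^ a = 3 * m + 1 := by
  induction a with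
  | zero => exact ⟨0, rfl⟩
  | succ a ih =>
    obtain ⟨m, hm⟩ := ih
    exact ⟨4 * m + 1, by rw [pow_succ, hm]; ring⟩

/-- existence of components -/
theorem exists_comp (h : ZG Γ) (hT : H23.IsSylowOf 2 T ⊤) {A' : Subgroup ↥(NN Γ)} (hA' : TG 2 h.WW A') :
    ∃ K : Subgroup Γ, IsJComponent T K ∧ img (rho Γ) (NN Γ) K = ⁅pPrimeCore 2 ↥(NN Γ), A'⁆ := by
  classical
  haveI h2 : Fact (Nat.Prime 2) := ⟨Nat.prime_two⟩
  haveI h3' : Fact (Nat.Prime 3) := ⟨Nat.prime_three⟩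
  obtain ⟨A, hA, B, hBA, hB, hEG⟩ := exists_TG_J h hT hA'
  set Qx := pPrimeCore 2 ↥(NN Γ) with hQx
  set J := thompsonSubgroupOf 2 T with hJ
  set Q := pCore 2 Γ with hQ
  have hJJ : J ≤ thompsonSubgroup 2 Γ := J_le_JJ hT
  have hAJ : A ≤ J := hA.le_thompson
  have hAtop := eaIn_top hT hA
  have hcomeq : ⁅Qx, B⁆ = ⁅Qx, A'⁆ := by rw [hB.com_eq h.ffs, hA'.com_eq h.ffs, hEG]
  rw [← hcomeq]
  have hcard3 : Nat.card ↥⁅Qx, B⁆ = 3 := by
    rcases hB.card_com h.ffs with ⟨_, h3⟩ | ⟨h3, _⟩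
    · exact h3
    · omega
  -- the elements b, x
  obtain ⟨x, hx, hxB⟩ := hB.exists_move h.ffs
  obtain ⟨bb, hbb, hbb1⟩ := hB.exists_ne
  obtain ⟨b, hb, hbρ⟩ := hBA hbb
  have hbρ' : rho Γ b = bb.1 := hbρ
  have hb2 : b * b = 1 := by rw [← pow_two]; exact hA.2.1.2 b hb
  have hbJ : b ∈ J := hAJ hb
  obtain ⟨x₁, hx₁, hx₁ρ⟩ := x.2
  have hx₁ρ' : rho Γ x₁ = x.1 := hx₁ρ
  have hbinv : b⁻¹ = b := by rw [inv_eq_iff_mul_eq_one, hb2]
  obtain ⟨u, hu⟩ : ∃ u, u = x₁ * b * x₁⁻¹ * b⁻¹ := ⟨_, rfl⟩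
  have huJ : u ∈ thompsonSubgroup 2 Γ := by
    rw [hu]
    exact Subgroup.mul_mem _ (Subgroup.Normal.conj_mem (JJ_normal Γ) _ (hJJ hbJ) x₁) (Subgroup.inv_mem _ (hJJ hbJ))
  have huN : rho Γ u ∈ NN Γ := ⟨u, huJ, rfl⟩
  have hub : b * u * b⁻¹ = u⁻¹ := by
    rw [hu]
    calc b * (x₁ * b * x₁⁻¹ * b⁻¹) * b⁻¹ = b * x₁ * b * x₁⁻¹ * (b * b)⁻¹ := by group
      _ = b * x₁ * b⁻¹ * x₁⁻¹ := by rw [hb2, hbinv]; group
      _ = _ := by group
  have hurho : (⟨rho Γ u, huN⟩ : ↥(NN Γ)) = ⁅x, bb⁆ := by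
    apply Subtype.ext
    show rho Γ u = x.1 * bb.1 * x.1⁻¹ * bb.1⁻¹
    rw [hu, map_mul, map_mul, map_mul, map_inv, map_inv, hx₁ρ', hbρ']
  have hucom : (⟨rho Γ u, huN⟩ : ↥(NN Γ)) ∈ ⁅Qx, B⁆ := by
    rw [hurho]; exact Subgroup.commutator_mem_commutator hx hbb
  have hu1 : rho Γ u ≠ 1 := by
    intro h3
    apply hxB
    have h4 : ⁅x, bb⁆ = 1 := by rw [← hurho]; exact Subtype.ext h3
    have h5 : x * bb = bb * x := commutatorElement_eq_one_iff_mul_comm.mp h4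
    rw [← hB.zpowers hbb hbb1]
    unfold PGV.cj
    rw [MonoidHom.map_zpowers]
    congr 1
    show x * bb * x⁻¹ = bb
    rw [h5, mul_inv_cancel_right]
  have hu3 : rho Γ u ^ 3 = 1 := by
    have h3 : (⟨rho Γ u, huN⟩ : ↥(NN Γ)) ^ Nat.card ↥⁅Qx, B⁆ = 1 := FF.pow_card_mem hucom
    rw [hcard3] at h3
    exact congrArg Subtype.val h3
  have hu3C : u ^ 3 ∈ CC Γ := by
    rw [← QuotientGroup.eq_one_iff]
    show rho Γ (u ^ 3) = 1
    rw [map_pow, hu3]
  have hu3Q : u ^ 3 ∈ Q := by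
    apply h.mem_Q_of_sq hu3C
    have h3 := h.J_le_DD (hJJ hbJ) _ hu3C
    have h4 : b * (u ^ 3)⁻¹ * b⁻¹ = u ^ 3 := by
      have : b * (u ^ 3)⁻¹ * b⁻¹ = ((b * u * b⁻¹) ^ 3)⁻¹ := by rw [conj_pow]; group
      rw [this, hub, inv_pow, inv_inv]
    have e : u ^ 3 * b * (u ^ 3)⁻¹ * b⁻¹ = u ^ 3 * (b * (u ^ 3)⁻¹ * b⁻¹) := by group
    rwa [e, h4] at h3
  obtain ⟨a, ha⟩ := H18.isPGroup_pCore 2 Γ ⟨_, hu3Q⟩
  have ha' : (u ^ 3) ^ 2 ^ a = 1 := congrArg Subtype.val ha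
  obtain ⟨m, hm⟩ := four_pow a
  obtain ⟨v, hv⟩ : ∃ v, v = u ^ 4 ^ a := ⟨_, rfl⟩
  have hv3 : v ^ 3 = 1 := by
    rw [hv, ← pow_mul, mul_comm, pow_mul]
    have : (4 : ℕ) ^ a = 2 ^ a * 2 ^ a := by rw [← mul_pow]; norm_num
    rw [this, pow_mul, ha', one_pow]
  have hvJ : v ∈ thompsonSubgroup 2 Γ := by rw [hv]; exact Subgroup.pow_mem _ huJ _
  have hvρ : rho Γ v = rho Γ u := by
    rw [hv, map_pow, hm, pow_add, pow_mul, hu3, one_pow, one_mul, pow_one]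
  have hvb : b * v * b⁻¹ = v⁻¹ := by
    rw [hv, ← conj_pow, hub, inv_pow]
  have hv1 : rho Γ v ≠ 1 := by rw [hvρ]; exact hu1
  have hvQ : v ∉ Q := fun h3 => hv1 ((QuotientGroup.eq_one_iff v).mpr (h.Q_le_C h3))
  have hvN : rho Γ v ∈ NN Γ := ⟨v, hvJ, rfl⟩
  have hvcom : (⟨rho Γ v, hvN⟩ : ↥(NN Γ)) ∈ ⁅Qx, B⁆ := by
    have : (⟨rho Γ v, hvN⟩ : ↥(NN Γ)) = ⟨rho Γ u, huN⟩ := Subtype.ext hvρ
    rw [this]; exact hucom
  have hvord : orderOf v = 3 := orderOf_eq_prime hv3 (fun h3 => hvQ (h3 ▸ Q.one_mem))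
  -- the group
  set Kh := Subgroup.zpowers v ⊔ Q with hKh
  set K := 𝕆(2, Kh) with hK
  have hKKh : K ≤ Kh := H18.pRes_le Kh
  have hvK : v ∈ K := H18.mem_pRes (Subgroup.mem_sup_left (Subgroup.mem_zpowers v)) (by rw [hvord]; norm_num)
  have hKodd : 𝕆(2, K) = K := H18.pRes_pRes Kh
  have hQn : ∀ X : Subgroup Γ, X ≤ Subgroup.normalizer (Q : Set Γ) := by
    intro X
    rw [Subgroup.normalizer_eq_top_iff.mpr inferInstance]; exact le_top
  have hKdec : K = (K ⊓ Q) ⊔ Subgroup.zpowers v := by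
    apply le_antisymm
    · intro y hy
      obtain ⟨z, hz, q, hq, hzq⟩ := Subgroup.mem_sup_of_normal_right.mp (hKKh hy)
      rw [← hzq]
      have hzK : z ∈ K := (Subgroup.zpowers_le.mpr hvK) hz
      have hqK : q ∈ K := by
        have e : q = z⁻¹ * y := by rw [← hzq]; group
        rw [e]; exact K.mul_mem (K.inv_mem hzK) hy
      exact Subgroup.mul_mem _ (Subgroup.mem_sup_right hz) (Subgroup.mem_sup_left ⟨hqK, hq⟩)
    · exact sup_le inf_le_left (Subgroup.zpowers_le.mpr hvK)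
  have hQ2 : IsPGroup 2 Q := H18.isPGroup_pCore 2 Γ
  have hKQ2 : IsPGroup 2 (K ⊓ Q : Subgroup Γ) := hQ2.to_le inf_le_right
  have hv3g : IsPGroup 3 (Subgroup.zpowers v) := IsPGroup.of_card (n := 1) (by rw [Nat.card_zpowers, hvord, pow_one])
  have hKn : K ≤ Subgroup.normalizer ((K ⊓ Q : Subgroup Γ) : Set Γ) := by
    intro k hk
    apply mem_norm_of_le
    rintro y ⟨hy, hy'⟩
    exact ⟨K.mul_mem (K.mul_mem hk hy) (K.inv_mem hk), Subgroup.Normal.conj_mem inferInstance _ hy' k⟩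
  have hcardK : Nat.card K = Nat.card ↥(K ⊓ Q) * 3 := by
    have h3 := H1.card_sup_mul_card_inf_of_le_normalizer (H := K ⊓ Q) (K := Subgroup.zpowers v)
      ((Subgroup.zpowers_le.mpr hvK).trans hKn)
    have h4 : (K ⊓ Q) ⊓ Subgroup.zpowers v = ⊥ := by
      rw [← disjoint_iff]
      exact IsPGroup.disjoint_of_ne 2 3 (by norm_num) _ _ hKQ2 hv3g
    rw [← hKdec, h4, Subgroup.card_bot, mul_one, Nat.card_zpowers, hvord] at h3
    exact h3
  have hidx : (K ⊓ Q).relIndex K = 3 := by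
    have h3 := PGV.card_relIndex (X := K ⊓ Q) (Y := K) inf_le_left
    rw [hcardK] at h3
    exact Nat.eq_of_mul_eq_mul_left Nat.card_pos h3
  have hR : pCoreOf 2 K = K ⊓ Q := by
    have h3 : K ⊓ Q ≤ pCoreOf 2 K := H18.le_pCoreOf inf_le_left hKn hKQ2
    have h4 := Subgroup.relIndex_mul_relIndex _ _ _ h3 (H18.pCoreOf_le (p := 2) K)
    rw [hidx] at h4
    rcases (Nat.dvd_prime Nat.prime_three).mp (Dvd.intro _ h4) with h5 | h5
    · exact le_antisymm (Subgroup.relIndex_eq_one.mp h5) h3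
    · exfalso
      rw [h5] at h4
      have h6 : (pCoreOf 2 K).relIndex K = 1 := by omega
      have h7 := Subgroup.relIndex_eq_one.mp h6 hvK
      obtain ⟨n, hn⟩ := H18.isPGroup_pCoreOf (p := 2) K ⟨v, h7⟩
      have hn' : v ^ 2 ^ n = 1 := congrArg Subtype.val hn
      have h8 := orderOf_dvd_of_pow_eq_one hn'
      rw [hvord] at h8
      have h9 := (Nat.prime_dvd_prime_iff_eq Nat.prime_three Nat.prime_two).mp (Nat.prime_three.dvd_of_dvd_pow h8)
      omega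
  have hc3 : C3 K := ⟨hKodd, by rw [hR]; exact hidx⟩
  have hvR : v ∉ pCoreOf 2 K := by rw [hR]; exact fun h3 => hvQ h3.2
  -- J(T) normalizes
  have hJ2 : IsPGroup 2 J := J_isPGroup hT.isPGroup
  have hEJ : ∀ y ∈ EG Qx B, y ∈ img (rho Γ) (NN Γ) J → y ∈ B := by
    intro y hy hyJ
    have hn : B ≤ Subgroup.normalizer ((⁅Qx, B⁆ : Subgroup ↥(NN Γ)) : Set ↥(NN Γ)) := H1.right_le_normalizer_commutator _ _
    have hy' : y ∈ B ⊔ ⁅Qx, B⁆ := by rw [sup_comm]; exact hy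
    obtain ⟨b', hb', k, hk, hbk⟩ := (H18.mem_sup_iff_of_le_normalizer hn).mp hy'
    have hbJ' : b' ∈ img (rho Γ) (NN Γ) J := by
      obtain ⟨t, ht, htb⟩ := hBA hb'
      exact ⟨t, hAJ ht, htb⟩
    have hkJ : k ∈ img (rho Γ) (NN Γ) J := by
      have e : k = b'⁻¹ * y := by rw [← hbk]; group
      rw [e]; exact Subgroup.mul_mem _ (Subgroup.inv_mem _ hbJ') hyJ
    have hkQ : k ∈ Qx := com_le h.ffs B hk
    obtain ⟨j, hj, hjk⟩ := hkJ
    obtain ⟨n, hn⟩ := hJ2 ⟨j, hj⟩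
    have hn' : j ^ 2 ^ n = 1 := congrArg Subtype.val hn
    have hk1 : k ^ 2 ^ n = 1 := by
      apply Subtype.ext
      show k.1 ^ 2 ^ n = 1
      have hjk' : rho Γ j = k.1 := hjk
      rw [← hjk', ← map_pow, hn', map_one]
    have hk2 : k ^ Nat.card Qx = 1 := FF.pow_card_mem hkQ
    have h4 : (Nat.card Qx).Coprime (2 ^ n) := Nat.Coprime.pow_right n (H1.pPrimeCore_coprime 2 ↥(NN Γ))
    have h5 := Nat.dvd_gcd (orderOf_dvd_of_pow_eq_one hk2) (orderOf_dvd_of_pow_eq_one hk1)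
    rw [h4] at h5
    have h6 : k = 1 := orderOf_eq_one_iff.mp (Nat.dvd_one.mp h5)
    rw [← hbk, h6, mul_one]
    exact hb'
  have hB2 : ∀ y ∈ B, y ≠ 1 → y = bb := by
    intro y hy hy1
    by_contra hne
    have h4 : ({1, y, bb} : Set ↥(NN Γ)) ⊆ (B : Set ↥(NN Γ)) := by
      rintro z (rfl | rfl | rfl)
      · exact B.one_mem
      · exact hy
      · exact hbb
    have h5 := Set.ncard_le_ncard h4 (Set.toFinite _)
    rw [Set.ncard_eq_three.mpr ⟨_, _, _, (Ne.symm hy1), (Ne.symm hbb1), hne, rfl⟩] at h5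
    have h6 : (B : Set ↥(NN Γ)).ncard = 2 := hB.1
    omega
  have hJKh : J ≤ Subgroup.normalizer (Kh : Set Γ) := by
    intro g hg
    have hgJ := hJJ hg
    have hgN : rho Γ g ∈ NN Γ := ⟨g, hgJ, rfl⟩
    set γ : ↥(NN Γ) := ⟨rho Γ g, hgN⟩ with hγ
    have hEn := TG.norm h.ffs h.gen hB γ
    -- conjugate of b
    have hgb : γ * bb * γ⁻¹ = bb := by
      apply hB2
      · apply hEJ
        · have h3 : γ * bb * γ⁻¹ ∈ PGV.cj γ (EG Qx B) := ⟨bb, le_EG Qx B hbb, rfl⟩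
          rwa [hEn] at h3
        · refine ⟨g * b * g⁻¹, J.mul_mem (J.mul_mem hg hbJ) (J.inv_mem hg), ?_⟩
          show rho Γ (g * b * g⁻¹) = rho Γ g * bb.1 * (rho Γ g)⁻¹
          rw [map_mul, map_mul, map_inv, hbρ']
      · intro h3
        apply hbb1
        have h4 := congrArg (fun t => γ⁻¹ * t * γ) h3
        simpa [mul_assoc] using h4
    have hgb' : rho Γ (g * b * g⁻¹) = rho Γ b := by
      rw [map_mul, map_mul, map_inv, hbρ']
      exact congrArg Subtype.val hgb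
    obtain ⟨q, hq⟩ : ∃ q, q = b⁻¹ * (g * b * g⁻¹) := ⟨_, rfl⟩
    have hqC : q ∈ CC Γ := by
      rw [← QuotientGroup.eq_one_iff]
      show rho Γ q = 1
      rw [hq, map_mul, hgb', map_inv, inv_mul_cancel]
    have hqQ : q ∈ Q := by
      apply h.mem_Q_of hqC hJ2
      rw [hq]
      exact J.mul_mem (J.inv_mem hbJ) (J.mul_mem (J.mul_mem hg hbJ) (J.inv_mem hg))
    -- conjugate of v
    have hcomn : γ * ⟨rho Γ v, hvN⟩ * γ⁻¹ ∈ ⁅Qx, B⁆ := by
      have h3 : (⟨rho Γ v, hvN⟩ : ↥(NN Γ)) ∈ Qx ⊓ EG Qx B := by rw [← hB.com_eq h.ffs]; exact hvcom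
      rw [hB.com_eq h.ffs]
      refine ⟨Subgroup.Normal.conj_mem inferInstance _ h3.1 γ, ?_⟩
      have h4 : γ * ⟨rho Γ v, hvN⟩ * γ⁻¹ ∈ PGV.cj γ (EG Qx B) := ⟨_, h3.2, rfl⟩
      rwa [hEn] at h4
    have hzp : Subgroup.zpowers (⟨rho Γ v, hvN⟩ : ↥(NN Γ)) = ⁅Qx, B⁆ := by
      apply Subgroup.eq_of_le_of_card_ge (Subgroup.zpowers_le.mpr hvcom)
      rw [hcard3, Nat.card_zpowers]
      have h3 : orderOf (⟨rho Γ v, hvN⟩ : ↥(NN Γ)) = 3 := by
        apply orderOf_eq_prime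
        · apply Subtype.ext
          show rho Γ v ^ 3 = 1
          rw [hvρ, hu3]
        · intro h3
          exact hv1 (congrArg Subtype.val h3)
      rw [h3]
    rw [← hzp] at hcomn
    obtain ⟨i, hi⟩ := Subgroup.mem_zpowers_iff.mp hcomn
    have hi' : rho Γ (g * v * g⁻¹) = rho Γ (v ^ i) := by
      have h3 : (rho Γ v) ^ i = rho Γ g * rho Γ v * (rho Γ g)⁻¹ := congrArg Subtype.val hi
      rw [map_zpow, h3, map_mul, map_mul, map_inv]
    obtain ⟨c, hc⟩ : ∃ c, c = (v ^ i)⁻¹ * (g * v * g⁻¹) := ⟨_, rfl⟩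
    have hcC : c ∈ CC Γ := by
      rw [← QuotientGroup.eq_one_iff]
      show rho Γ c = 1
      rw [hc, map_mul, hi', map_inv, inv_mul_cancel]
    have hgv : g * v * g⁻¹ = v ^ i * c := by rw [hc]; group
    -- in the quotient by Q
    have hcQ : c ∈ Q := by
      apply h.mem_Q_of_sq hcC
      set π := QuotientGroup.mk' Q with hπ
      have hone : ∀ z : Γ, π z = 1 ↔ z ∈ Q := fun z => QuotientGroup.eq_one_iff z
      have hcb : π c * π b = π b * π c := by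
        have h3 := (hone _).mpr (h.J_le_DD (hJJ hbJ) c hcC)
        rw [map_mul, map_mul, map_mul, map_inv, map_inv] at h3
        have h4 := mul_inv_eq_one.mp h3
        exact mul_inv_eq_iff_eq_mul.mp h4
      have hcv : π c * π v = π v * π c := by
        have h3 := (hone _).mpr (h.J_le_DD hvJ c hcC)
        rw [map_mul, map_mul, map_mul, map_inv, map_inv] at h3
        have h4 := mul_inv_eq_one.mp h3
        exact mul_inv_eq_iff_eq_mul.mp h4
      have hcvi : π c * π v ^ i = π v ^ i * π c := by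
        have : Commute (π c) (π v) := hcv
        exact (this.zpow_right i).eq
      have hbv : π b * π v * (π b)⁻¹ = (π v)⁻¹ := by
        rw [← map_mul, ← map_inv, ← map_mul, hvb, map_inv]
      have hgbq : π (g * b * g⁻¹) = π b := by
        have e : g * b * g⁻¹ = b * q := by rw [hq]; group
        rw [e, map_mul, (hone q).mpr hqQ, mul_one]
      have hinv : π b * π (g * v * g⁻¹) * (π b)⁻¹ = (π (g * v * g⁻¹))⁻¹ := by
        rw [← hgbq, ← map_mul, ← map_inv, ← map_mul, ← map_inv]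
        congr 1
        calc g * b * g⁻¹ * (g * v * g⁻¹) * (g * b * g⁻¹)⁻¹ = g * (b * v * b⁻¹) * g⁻¹ := by group
          _ = _ := by rw [hvb]; group
      rw [hgv, map_mul, map_zpow] at hinv
      have hl : π b * (π v ^ i * π c) * (π b)⁻¹ = (π v ^ i)⁻¹ * π c := by
        have h5 : π b * π v ^ i * (π b)⁻¹ = (π v ^ i)⁻¹ := by
          rw [← conj_zpow, hbv, inv_zpow]
        calc π b * (π v ^ i * π c) * (π b)⁻¹ = (π b * π v ^ i * (π b)⁻¹) * (π b * π c) * (π b)⁻¹ := by group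
          _ = (π v ^ i)⁻¹ * (π c * π b) * (π b)⁻¹ := by rw [h5, hcb]
          _ = _ := by group
      have hr : (π v ^ i * π c)⁻¹ = (π v ^ i)⁻¹ * (π c)⁻¹ := by rw [← hcvi, mul_inv_rev]
      rw [hl, hr] at hinv
      have h5 : π c = (π c)⁻¹ := mul_left_cancel hinv
      rw [← hone, map_mul]
      rw [eq_inv_iff_mul_eq_one] at h5
      exact h5
    have hgvK : g * v * g⁻¹ ∈ Kh := by
      rw [hgv]
      exact Subgroup.mul_mem _ (Subgroup.mem_sup_left (Subgroup.zpow_mem_zpowers v i)) (Subgroup.mem_sup_right hcQ)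
    have hle : Kh ≤ Kh.comap (MulAut.conj g).toMonoidHom := by
      apply sup_le
      · rw [Subgroup.zpowers_le]
        exact hgvK
      · intro q hq
        exact Subgroup.mem_sup_right (Subgroup.Normal.conj_mem inferInstance _ hq g)
    exact mem_norm_of_le fun y hy => hle hy
  have hJK : J ≤ Subgroup.normalizer (K : Set Γ) := hJKh.trans (H18.normalizer_le_normalizer_pRes Kh)
  have hcomle : ⁅K, J⁆ ≤ K := H23.commutator_le_iff_normalizer.mpr hJK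
  have hvcomK : v ∈ ⁅K, J⁆ := by
    have h3 : ⁅v, b⁆ ∈ ⁅K, J⁆ := Subgroup.commutator_mem_commutator hvK hbJ
    have h4 : ⁅v, b⁆ = v * v := by
      rw [commutatorElement_def]
      have h5 : b * v⁻¹ * b⁻¹ = v := by
        have : b * v⁻¹ * b⁻¹ = (b * v * b⁻¹)⁻¹ := by group
        rw [this, hvb, inv_inv]
      calc v * b * v⁻¹ * b⁻¹ = v * (b * v⁻¹ * b⁻¹) := by group
        _ = v * v := by rw [h5]
    rw [h4] at h3
    have h5 := Subgroup.mul_mem _ h3 h3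
    have e : v * v * (v * v) = v := by
      have : v * v * (v * v) = v ^ 3 * v := by rw [pow_succ, pow_two]; group
      rw [this, hv3, one_mul]
    rwa [e] at h5
  have hcom : ⁅K, J⁆ = K := by
    apply le_antisymm hcomle
    have hKc : K ≤ Subgroup.normalizer ((⁅K, J⁆ : Subgroup Γ) : Set Γ) := H1.left_le_normalizer_commutator K J
    have h3 : 𝕆(2, K) ≤ ⁅K, J⁆ := by
      apply H18.pRes_le_of_forall_pow hcomle hKc
      intro y hy
      have hy' : y ∈ (K ⊓ Q) ⊔ Subgroup.zpowers v := by rw [← hKdec]; exact hy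
      have hn : K ⊓ Q ≤ Subgroup.normalizer ((⁅K, J⁆ : Subgroup Γ) : Set Γ) := inf_le_left.trans hKc
      have hz : (K ⊓ Q) ⊔ Subgroup.zpowers v ≤ (K ⊓ Q) ⊔ ⁅K, J⁆ := sup_le_sup_left (Subgroup.zpowers_le.mpr hvcomK) _
      obtain ⟨q, hq, z, hz', rfl⟩ := (H18.mem_sup_iff_of_le_normalizer hn).mp (hz hy')
      obtain ⟨n, hn'⟩ := hKQ2 ⟨q, hq⟩
      have hn'' : q ^ 2 ^ n = 1 := congrArg Subtype.val hn'
      refine ⟨n, ?_⟩
      have h4 := H18.pow_mul_mem_of_mem_normalizer (hn hq) hz' (2 ^ n)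
      rwa [hn'', inv_one, one_mul] at h4
    rwa [hKodd] at h3
  have hjk : JK T K := ⟨hc3, hcom⟩
  -- the image
  have himg : img (rho Γ) (NN Γ) K = ⁅Qx, B⁆ := by
    apply Subgroup.eq_of_le_of_card_ge
    · rintro y ⟨k, hk, hky⟩
      obtain ⟨z, hz, q, hq, hzq⟩ := Subgroup.mem_sup_of_normal_right.mp (hKKh hk)
      obtain ⟨i, rfl⟩ := Subgroup.mem_zpowers_iff.mp hz
      have h3 : y = (⟨rho Γ v, hvN⟩ : ↥(NN Γ)) ^ i := by
        apply Subtype.ext
        show y.1 = rho Γ v ^ i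
        have hky' : rho Γ k = y.1 := hky
        rw [← hky', ← hzq, map_mul, map_zpow]
        have : rho Γ q = 1 := (QuotientGroup.eq_one_iff q).mpr (h.Q_le_C hq)
        rw [this, mul_one]
      rw [h3]
      exact Subgroup.zpow_mem _ hvcom i
    · rw [hcard3, hjk.card_img h hT]
  refine ⟨K, ⟨?_, hcom, hc3.idx, ?_, ?_, ?_⟩, himg⟩
  · rw [closure_odd]; exact hKodd
  · -- Sylow subgroups
    intro S' hS' hJS'
    have hS'' := isSylowTwoIn_iff.mp hS'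
    have hS'T : S' ≤ T := by
      intro y hy
      obtain ⟨j, hj, k, hk, hjk'⟩ := (H18.mem_sup_iff_of_le_normalizer hJK).mp (by
        rw [sup_comm]; exact hS''.le hy)
      have hkS : k ∈ S' := by
        have e : k = j⁻¹ * y := by rw [← hjk']; group
        rw [e]; exact S'.mul_mem (S'.inv_mem (hJS' hj)) hy
      have hkQ : k ∈ Q := by
        have h3 := hc3.cube hk
        rw [hR] at h3
        obtain ⟨n, hn⟩ := hS''.isPGroup ⟨k, hkS⟩
        have hn' : k ^ 2 ^ n = 1 := congrArg Subtype.val hn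
        have h4 : (orderOf k).Coprime 3 := by
          have h5 := orderOf_dvd_of_pow_eq_one hn'
          exact Nat.Coprime.coprime_dvd_left h5 (Nat.Coprime.pow_left n (by norm_num))
        obtain ⟨m', hm'⟩ := exists_pow_eq_self_of_coprime h4.symm
        rw [← hm']
        exact Q.pow_mem h3.2 m'
      rw [← hjk']
      exact T.mul_mem (H2.thompsonSubgroupOf_le 2 T hj) (JK.Q_le hT hkQ)
    exact H2.thompsonSubgroupOf_eq_of_le hJS' hS'T
  · -- the order of W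
    apply le_antisymm
    · have hWe : IsElementaryAbelian 2 (wOf K) := C3.wOf_elem
      have hAK : A ≤ Subgroup.normalizer (K : Set Γ) := hAJ.trans hJK
      have hRn : A ≤ Subgroup.normalizer (pCoreOf 2 K : Set Γ) := hAK.trans (H18.normalizer_le_normalizer_pCoreOf K)
      let A₀ : Subgroup Γ :=
        { carrier := {a | a ∈ A ∧ a * v * a⁻¹ * v⁻¹ ∈ pCoreOf 2 K}
          mul_mem' := by
            rintro a c ⟨ha, ha'⟩ ⟨hc, hc'⟩
            refine ⟨A.mul_mem ha hc, ?_⟩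
            have h3 := Subgroup.mul_mem _ ((Subgroup.mem_normalizer_iff.mp (hRn ha) _).mp hc') ha'
            have e : a * (c * v * c⁻¹ * v⁻¹) * a⁻¹ * (a * v * a⁻¹ * v⁻¹) = a * c * v * (a * c)⁻¹ * v⁻¹ := by group
            rwa [e] at h3
          one_mem' := ⟨A.one_mem, by
            have e : 1 * v * 1⁻¹ * v⁻¹ = 1 := by group
            rw [e]; exact Subgroup.one_mem _⟩
          inv_mem' := by
            rintro a ⟨ha, ha'⟩
            refine ⟨A.inv_mem ha, ?_⟩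
            have h3 := (Subgroup.mem_normalizer_iff.mp (hRn (A.inv_mem ha)) _).mp (Subgroup.inv_mem _ ha')
            have e : a⁻¹ * (a * v * a⁻¹ * v⁻¹)⁻¹ * a⁻¹⁻¹ = a⁻¹ * v * a⁻¹⁻¹ * v⁻¹ := by group
            rwa [e] at h3 }
      have hA₀A : A₀ ≤ A := fun a ha => ha.1
      refine jc_count (A := A) (A₀ := A₀) (v := v) (b := b) hWe hA.2.1 (hAK.trans C3.norm_wOf)
        (C3.norm_wOf (Subgroup.le_normalizer hvK)) ((hAtop.isBestOffender le_top hWe).1) hb hv3 hvb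
        (fun w hw hc => hc3.fpf hvK hvR hw hc) hA₀A ?_ ?_
      · intro a ha
        have hav : a * v * a⁻¹ ∈ K := (Subgroup.mem_normalizer_iff.mp (hAK ha) v).mp hvK
        have hav' : a * v * a⁻¹ ∈ (pCoreOf 2 K) ⊔ Subgroup.zpowers v := by rw [hR, ← hKdec]; exact hav
        have hzn : Subgroup.zpowers v ≤ Subgroup.normalizer (pCoreOf 2 K : Set Γ) :=
          (Subgroup.zpowers_le.mpr hvK).trans (H18.le_normalizer_pCoreOf K)
        obtain ⟨z, hz, r, hr, hzr⟩ := (H18.mem_sup_iff_of_le_normalizer hzn).mp (by rw [sup_comm]; exact hav')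
        obtain ⟨i, hi⟩ : ∃ i : ℕ, v ^ i = z := by
          have := (mem_powers_iff_mem_zpowers).mpr hz
          exact this
        have hi3 : z = v ^ (i % 3) := by
          rw [← hi, ← Nat.mod_add_div i 3, pow_add, pow_mul, hv3, one_pow, mul_one]
          simp
        have hlt : i % 3 < 3 := Nat.mod_lt _ (by norm_num)
        have hcases : i % 3 = 0 ∨ i % 3 = 1 ∨ i % 3 = 2 := by omega
        rcases hcases with h0 | h0 | h0
        · exfalso
          rw [h0, pow_zero] at hi3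
          apply hvR
          rw [hi3, one_mul] at hzr
          have h4 := (Subgroup.mem_normalizer_iff.mp (hRn (A.inv_mem ha)) r).mp hr
          have e : a⁻¹ * r * a⁻¹⁻¹ = v := by rw [hzr]; group
          rwa [e] at h4
        · right
          refine ⟨ha, ?_⟩
          rw [h0, pow_one] at hi3
          have e : a * v * a⁻¹ * v⁻¹ = v * r * v⁻¹ := by rw [← hzr, hi3]
          rw [e]
          exact (Subgroup.mem_normalizer_iff.mp (H18.le_normalizer_pCoreOf (p := 2) K hvK) r).mp hr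
        · left
          refine ⟨A.mul_mem ha hb, ?_⟩
          rw [h0] at hi3
          have e : a * b * v * (a * b)⁻¹ * v⁻¹ = r⁻¹ := by
            calc a * b * v * (a * b)⁻¹ * v⁻¹ = a * (b * v * b⁻¹) * a⁻¹ * v⁻¹ := by group
              _ = (a * v * a⁻¹)⁻¹ * v⁻¹ := by rw [hvb]; group
              _ = (v ^ 2 * r)⁻¹ * v⁻¹ := by rw [← hzr, hi3]
              _ = r⁻¹ * (v ^ 3)⁻¹ := by group
              _ = r⁻¹ := by rw [hv3, inv_one, mul_one]
          rw [e]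
          exact Subgroup.inv_mem _ hr
      · rintro a ⟨ha, ha'⟩ w hw
        obtain ⟨r, hr⟩ : ∃ r, r = a * v * a⁻¹ * v⁻¹ := ⟨_, rfl⟩
        rw [← hr] at ha'
        have haw : a * w * a⁻¹ ∈ wOf K := (Subgroup.mem_normalizer_iff.mp (C3.norm_wOf (hAK ha)) w).mp hw
        have hvw : v * (a * w * a⁻¹) * v⁻¹ ∈ wOf K := C3.conj_mem_w hvK haw
        have h3 := C3.wOf_comm hvw ha'
        have e : a * v = r * v * a := by rw [hr]; group
        calc a * (v * w * v⁻¹) * a⁻¹ = (a * v) * w * (a * v)⁻¹ := by group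
          _ = r * (v * (a * w * a⁻¹) * v⁻¹) * r⁻¹ := by rw [e]; group
          _ = _ := by rw [h3]; group
    · have h3 := Subgroup.card_le_of_le (hjk.VK_le h hT)
      rwa [hjk.card_VK h hT] at h3
  · intro w hw
    rw [← pow_two]
    exact C3.wOf_sq hw

end Cfsg.Agent.H19.JC
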