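import Cfsg.Agent.H19.JC8

set_option autoImplicit false
set_option linter.style.haveILetI false
set_option linter.unusedVariables false
set_option linter.unusedSectionVars false

/-! `J(T)`-components, part 9: existence in the ambient group. -/

namespace Cfsg.Agent.H19.JC

open Cfsg Cfsg.Agent.H19.PGV Cfsg.Agent.H19.FF Cfsg.Agent.H19.FF.FFS
open scoped commutatorElement

local notation "𝕆(" p ", " H ")" => Subgroup.map (Subgroup.subtype H) (Cfsg.pResidual p ↥H)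

variable {G : Type*} [Group G] [Finite G]

theorem comp_map {T L : Subgroup G} (hTL : T ≤ L) {K' : Subgroup ↥L} (h : IsJComponent (T.subgroupOf L) K') :
    IsJComponent T (K'.map L.subtype) := by
  haveI h2 : Fact (Nat.Prime 2) := ⟨Nat.prime_two⟩
  set K := K'.map L.subtype with hK
  have hKL : K ≤ L := Subgroup.map_subtype_le _
  have hKs : K.subgroupOf L = K' := by
    rw [hK]; exact Subgroup.comap_map_eq_self_of_injective L.subtype_injective K'
  have hJ := thompson_subgroupOf hTL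
  have hpc : (pCoreOf 2 K').map L.subtype = pCoreOf 2 K := by
    rw [← H13.pCoreOf_subgroupOf_map hKL, hKs]
  have hw : (wOf K').map L.subtype = wOf K := by
    rw [← wOf_subgroupOf hKL, hKs]
  have hc3 := comp_c3 h
  refine ⟨?_, ?_, ?_, ?_, ?_, ?_⟩
  · rw [closure_odd, hK, ← H18.pRes_map, hc3.odd]
  · rw [← hJ, hK, ← Subgroup.map_commutator, h.2.1]
  · rw [← hpc, hK, Subgroup.relIndex_map_map_of_injective _ _ L.subtype_injective]
    exact hc3.idx
  · intro S hS hJS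
    have hS' := isSylowTwoIn_iff.mp hS
    have hJL : thompsonSubgroupOf 2 T ≤ L := (H2.thompsonSubgroupOf_le 2 T).trans hTL
    have hSL : S ≤ L := hS'.le.trans (sup_le hKL hJL)
    have hP : (K' ⊔ thompsonSubgroupOf 2 (T.subgroupOf L)).map L.subtype = K ⊔ thompsonSubgroupOf 2 T := by
      rw [Subgroup.map_sup, hJ]
    have hSs : (S.subgroupOf L).map L.subtype = S := Subgroup.map_subgroupOf_eq_of_le hSL
    have h1 : H23.IsSylowOf 2 (S.subgroupOf L) (K' ⊔ thompsonSubgroupOf 2 (T.subgroupOf L)) := by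
      apply H23.isSylowOf_of_not_dvd
      · rw [← Subgroup.map_le_map_iff_of_injective L.subtype_injective, hSs, hP]
        exact hS'.le
      · exact H18.isPGroup_subgroupOf hS'.isPGroup
      · rw [← Subgroup.relIndex_map_map_of_injective _ _ L.subtype_injective, hSs, hP]
        exact hS'.not_dvd
    have h3 := h.2.2.2.1 _ (isSylowTwoIn_iff.mpr h1) (by
      rw [← Subgroup.map_le_map_iff_of_injective L.subtype_injective, hSs, hJ]
      exact hJS)
    rw [← hJ, ← h3, thompson_subgroupOf hSL]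
  · rw [← hw, H2.card_map_inj L.subtype_injective]
    exact comp_card h
  · intro w hww
    rw [← hw] at hww
    obtain ⟨w', hw', rfl⟩ := hww
    rw [← map_mul, h.2.2.2.2.2 w' hw', map_one]

theorem pcore_top {L : Subgroup G} : (pCore 2 ↥L).map L.subtype = pCoreOf 2 L := rfl

/-- if all components are in `X`, so is `J` -/
theorem JJ_le_of_comps {Γ : Type*} [Group Γ] [Finite Γ] (h : ZG Γ) {T X : Subgroup Γ} (hT : H23.IsSylowOf 2 T ⊤)
    (hX : ∀ K : Subgroup Γ, IsJComponent T K → K ≤ X) (hNX : Subgroup.normalizer (thompsonSubgroupOf 2 T : Set Γ) ≤ X) :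
    thompsonSubgroup 2 Γ ≤ X := by
  haveI h2 : Fact (Nat.Prime 2) := ⟨Nat.prime_two⟩
  set Qx := pPrimeCore 2 ↥(NN Γ) with hQx
  have hJX : thompsonSubgroupOf 2 T ≤ X := Subgroup.le_normalizer.trans hNX
  have hCX : CC Γ ≤ X := ((h.C_norm hT).trans (H2.normalizer_le_normalizer_thompson T)).trans hNX
  have hall : ∀ A' : Subgroup ↥(NN Γ), TG 2 h.WW A' → A' ≤ img (rho Γ) (NN Γ) X := by
    intro A' hA'
    obtain ⟨K, hK, hKi⟩ := exists_comp h hT hA'
    obtain ⟨A, hA, B, hBA, hB, hEG⟩ := exists_TG_J h hT hA'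
    refine (le_EG Qx A').trans ?_
    rw [← hEG]
    have hmono : ∀ {X Y : Subgroup Γ}, X ≤ Y → img (rho Γ) (NN Γ) X ≤ img (rho Γ) (NN Γ) Y := by
      rintro X Y hXY x ⟨a, ha, hax⟩
      exact ⟨a, hXY ha, hax⟩
    refine sup_le ?_ (hBA.trans (hmono (hA.le_thompson.trans hJX)))
    rw [hB.com_eq h.ffs, hEG, ← hA'.com_eq h.ffs, ← hKi]
    exact hmono (hX K hK)
  have htop : (⊤ : Subgroup ↥(NN Γ)) ≤ img (rho Γ) (NN Γ) X := by
    rw [← h.gen]
    exact sSup_le fun A hA => hall A hA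
  intro j hj
  have hj' : rho Γ j ∈ NN Γ := ⟨j, hj, rfl⟩
  obtain ⟨m, hm, hmj⟩ := htop (Subgroup.mem_top (⟨rho Γ j, hj'⟩ : ↥(NN Γ)))
  have hmj' : rho Γ m = rho Γ j := hmj
  have h4 : m⁻¹ * j ∈ CC Γ := by
    rw [← QuotientGroup.eq_one_iff]
    show rho Γ (m⁻¹ * j) = 1
    rw [map_mul, map_inv, hmj', inv_mul_cancel]
  have e : j = m * (m⁻¹ * j) := by group
  rw [e]
  exact X.mul_mem hm (hCX h4)

/-- Frattini -/
theorem JJ_sup_norm {Γ : Type*} [Group Γ] [Finite Γ] {T : Subgroup Γ} (hT : H23.IsSylowOf 2 T ⊤) (x : Γ) :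
    ∃ j ∈ thompsonSubgroup 2 Γ, ∃ n ∈ Subgroup.normalizer (thompsonSubgroupOf 2 T : Set Γ), x = j * n := by
  haveI h2 : Fact (Nat.Prime 2) := ⟨Nat.prime_two⟩
  set JJ := thompsonSubgroup 2 Γ with hJJ
  set S := T ⊓ JJ with hS
  have h1 : H23.IsSylowOf 2 S JJ :=
    isSylowOf_inf_normal_rel le_top (by rw [Subgroup.normalizer_eq_top_iff.mpr inferInstance]) hT
  have hxJ : x ∈ Subgroup.normalizer (JJ : Set Γ) := by
    rw [Subgroup.normalizer_eq_top_iff.mpr inferInstance]; exact Subgroup.mem_top x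
  have h3 := h1.conj hxJ
  obtain ⟨j, hj, hjS⟩ := h1.exists_conj h3
  refine ⟨j, hj, j⁻¹ * x, ?_, by group⟩
  have hJS : thompsonSubgroupOf 2 S = thompsonSubgroupOf 2 T :=
    H2.thompsonSubgroupOf_eq_of_le (le_inf (H2.thompsonSubgroupOf_le 2 T) (J_le_JJ hT)) inf_le_left
  rw [← hJS]
  apply H2.normalizer_le_normalizer_thompson S
  rw [H1.mem_normalizer_iff_conj_smul, ← H1.conj_smul_smul, ← hjS, H1.conj_smul_smul, inv_mul_cancel,
    H1.conj_one_smul]

theorem exists_TG_of_not_le {Γ : Type*} [Group Γ] [Finite Γ] (h : ZG Γ) {T : Subgroup Γ} (hT : H23.IsSylowOf 2 T ⊤)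
    (hJ : ¬ thompsonSubgroupOf 2 T ≤ pCore 2 Γ) : ∃ A' : Subgroup ↥(NN Γ), TG 2 h.WW A' := by
  by_contra hcon
  push Not at hcon
  apply hJ
  have h1 : {B : Subgroup ↥(NN Γ) | TG 2 h.WW B} = ∅ := by
    rw [Set.eq_empty_iff_forall_notMem]
    exact hcon
  have hgen := h.gen
  rw [h1, sSup_empty] at hgen
  intro j hj
  have hjJ := J_le_JJ hT hj
  have h2 : (⟨rho Γ j, ⟨j, hjJ, rfl⟩⟩ : ↥(NN Γ)) ∈ (⊥ : Subgroup ↥(NN Γ)) := by rw [hgen]; trivial
  have h3 : rho Γ j = 1 := congrArg Subtype.val (Subgroup.mem_bot.mp h2)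
  exact h.inf_le_Q hT ⟨H2.thompsonSubgroupOf_le 2 T hj, (QuotientGroup.eq_one_iff j).mp h3⟩

section ambient

variable {T L : Subgroup G}

theorem exists_comp_in (hG : HG G) (hT1 : T ≠ ⊥) (hLT : L ∈ jOvergroups T) : ∃ K : Subgroup G, IsJComponent T K ∧ K ≤ L := by
  obtain ⟨hTL, hJL, hcL⟩ := hLT
  have hTL' := isSylowTwoIn_iff.mp hTL
  have hz := hG.zg hcL (ne_bot_of hT1 hcL)
  have hs := isSylowOf_top_of hTL'
  obtain ⟨A', hA'⟩ := exists_TG_of_not_le hz hs (by
    intro h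
    apply hJL
    have h1 := Subgroup.map_mono (f := L.subtype) h
    rwa [thompson_subgroupOf hTL.1] at h1)
  obtain ⟨K', hK', -⟩ := exists_comp hz hs hA'
  exact ⟨_, comp_map hTL.1 hK', Subgroup.map_subtype_le _⟩

/-- if all components of `L` lie in `M ≥ N_G(J(T))`, then `L ≤ M` -/
theorem le_of_comps (hG : HG G) (hT1 : T ≠ ⊥) (hLT : L ∈ jOvergroups T) {M : Subgroup G}
    (hM : ∀ K : Subgroup G, IsJComponent T K → K ≤ L → K ≤ M)
    (hNM : Subgroup.normalizer (thompsonSubgroupOf 2 T : Set G) ≤ M) : L ≤ M := by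
  obtain ⟨hTL, hJL, hcL⟩ := hLT
  have hTL' := isSylowTwoIn_iff.mp hTL
  have hz := hG.zg hcL (ne_bot_of hT1 hcL)
  have hs := isSylowOf_top_of hTL'
  have hNX : Subgroup.normalizer (thompsonSubgroupOf 2 (T.subgroupOf L) : Set ↥L) ≤ M.subgroupOf L := by
    intro x hx
    apply hNM
    apply mem_norm_of_le
    intro y hy
    rw [← thompson_subgroupOf hTL.1] at hy ⊢
    obtain ⟨y', hy', rfl⟩ := hy
    exact ⟨_, (Subgroup.mem_normalizer_iff.mp hx y').mp hy', rfl⟩
  have h1 := JJ_le_of_comps hz (X := M.subgroupOf L) hs (by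
    intro K' hK'
    have h3 := hM _ (comp_map hTL.1 hK') (Subgroup.map_subtype_le _)
    intro k hk
    exact h3 ⟨k, hk, rfl⟩) hNX
  intro x hx
  obtain ⟨j, hj, n, hn, hjn⟩ := JJ_sup_norm hs (⟨x, hx⟩ : ↥L)
  have h3 : (⟨x, hx⟩ : ↥L) ∈ M.subgroupOf L := by
    rw [hjn]
    exact Subgroup.mul_mem _ (h1 hj) (hNX hn)
  exact h3

end ambient

end Cfsg.Agent.H19.JC
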