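import Mathlib
import Cfsg.Agent.H2.Dick1

/-!
# Klein's counting argument: finite groups in which every nontrivial element has two fixed points
-/

set_option autoImplicit false
set_option linter.unusedSectionVars false
set_option linter.style.haveILetI false

namespace Cfsg.Agent.H19

/-- every nontrivial element has exactly two fixed points -/
def KleinHyp (Γ X : Type*) [Group Γ] [MulAction Γ X] : Prop :=
  ∀ γ : Γ, γ ≠ 1 → ∃ a b : X, a ≠ b ∧ ∀ x : X, γ • x = x ↔ (x = a ∨ x = b)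

variable {Γ X : Type*} [Group Γ] [Finite Γ] [MulAction Γ X]

theorem klein_orbits (h : KleinHyp Γ X) : ∃ 𝒪 : Finset (Finset X),
    (∀ O ∈ 𝒪, ∃ e : ℕ, 2 ≤ e ∧ O.card * e = Nat.card Γ ∧ ∀ x ∈ O, Nat.card (MulAction.stabilizer Γ x) = e) ∧
    (∀ x : X, 2 ≤ Nat.card (MulAction.stabilizer Γ x) → ∃ O ∈ 𝒪, x ∈ O) ∧
    ∑ O ∈ 𝒪, O.card + 2 * (Nat.card Γ - 1) = 𝒪.card * Nat.card Γ ∧
    (∀ O ∈ 𝒪, O.Nonempty) := by
  classical
  have := Fintype.ofFinite Γ
  have hF : ∀ γ : Γ, ∃ F : Finset X, γ ≠ 1 → F.card = 2 ∧ ∀ x : X, γ • x = x ↔ x ∈ F := by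
    intro γ
    by_cases hγ : γ = 1
    · exact ⟨∅, fun h => absurd hγ h⟩
    · obtain ⟨a, b, hab, hfix⟩ := h γ hγ
      exact ⟨{a, b}, fun _ => ⟨Finset.card_pair hab, fun x => by rw [hfix]; simp⟩⟩
  choose F hF using hF
  set E : Finset Γ := Finset.univ.erase 1 with hE
  set X₀ : Finset X := E.biUnion F with hX₀
  have hE1 : ∀ γ ∈ E, γ ≠ 1 := fun γ hγ => (Finset.mem_erase.1 hγ).1
  have hmem : ∀ x : X, x ∈ X₀ ↔ ∃ γ : Γ, γ ≠ 1 ∧ γ • x = x := by
    intro x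
    rw [hX₀, Finset.mem_biUnion]
    constructor
    · rintro ⟨γ, hγ, hx⟩
      exact ⟨γ, hE1 γ hγ, ((hF γ (hE1 γ hγ)).2 x).2 hx⟩
    · rintro ⟨γ, hγ, hx⟩
      exact ⟨γ, Finset.mem_erase.2 ⟨hγ, Finset.mem_univ _⟩, ((hF γ hγ).2 x).1 hx⟩
  have hinv : ∀ (g : Γ) (x : X), x ∈ X₀ → g • x ∈ X₀ := by
    intro g x hx
    obtain ⟨γ, hγ, hx⟩ := (hmem x).1 hx
    refine (hmem _).2 ⟨g * γ * g⁻¹, ?_, ?_⟩
    · intro h; apply hγ
      have : γ = g⁻¹ * (g * γ * g⁻¹) * g := by group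
      rw [this, h]; group
    · rw [mul_smul, inv_smul_smul, mul_smul, hx]
  have hstab : ∀ x : X, x ∈ X₀ ↔ 2 ≤ Nat.card (MulAction.stabilizer Γ x) := by
    intro x
    rw [hmem]
    constructor
    · rintro ⟨γ, hγ, hx⟩
      have : Nontrivial (MulAction.stabilizer Γ x) :=
        ⟨⟨⟨γ, hx⟩, 1, fun h => hγ (congrArg Subtype.val h)⟩⟩
      exact Finite.one_lt_card
    · intro h
      have : Nontrivial (MulAction.stabilizer Γ x) := Finite.one_lt_card_iff_nontrivial.1 h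
      obtain ⟨γ, hγ⟩ := exists_ne (1 : MulAction.stabilizer Γ x)
      exact ⟨γ, fun h => hγ (Subtype.ext h), γ.2⟩
  set O : X → Finset X := fun x => X₀.filter (· ∈ MulAction.orbit Γ x) with hO
  have hOset : ∀ x ∈ X₀, ((O x : Finset X) : Set X) = MulAction.orbit Γ x := by
    intro x hx
    ext y
    rw [Finset.mem_coe, hO, Finset.mem_filter]
    constructor
    · exact fun h => h.2
    · rintro ⟨g, rfl⟩
      exact ⟨hinv g x hx, g, rfl⟩
  have hself : ∀ x ∈ X₀, x ∈ O x := fun x hx =>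
    Finset.mem_filter.2 ⟨hx, MulAction.mem_orbit_self x⟩
  have hOeq : ∀ x ∈ X₀, ∀ y ∈ O x, O y = O x := by
    intro x hx y hy
    have h1 := (Finset.mem_filter.1 hy).2
    rw [hO]
    ext z
    rw [Finset.mem_filter, Finset.mem_filter, MulAction.orbit_eq_iff.2 h1]
  set 𝒪 : Finset (Finset X) := X₀.image O with h𝒪
  refine ⟨𝒪, ?_, ?_, ?_, ?_⟩
  · intro o ho
    obtain ⟨x, hx, rfl⟩ := Finset.mem_image.1 ho
    refine ⟨Nat.card (MulAction.stabilizer Γ x), (hstab x).1 hx, ?_, ?_⟩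
    · rw [← H2.DickHyp.card_orbit_mul (Γ := Γ) x, ← hOset x hx]
      simp
    · intro y hy
      obtain ⟨g, rfl⟩ := (Finset.mem_filter.1 hy).2
      change Nat.card (MulAction.stabilizer Γ (g • x)) = _
      rw [MulAction.stabilizer_smul_eq_stabilizer_map_conj]
      exact Subgroup.card_map_of_injective (MulAut.conj g).injective
  · intro x hx
    exact ⟨O x, Finset.mem_image_of_mem _ ((hstab x).2 hx), hself x ((hstab x).2 hx)⟩
  · have h1 : ∀ o ∈ 𝒪, ∑ y ∈ o, (E.filter (fun γ => γ • y = y)).card + o.card = Nat.card Γ := by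
      intro o ho
      obtain ⟨x, hx, rfl⟩ := Finset.mem_image.1 ho
      exact H2.DickHyp.orbit_sum x (O x) (hOset x hx)
    have h2 : ∑ o ∈ 𝒪, ∑ y ∈ o, (E.filter (fun γ => γ • y = y)).card =
        ∑ y ∈ X₀, (E.filter (fun γ => γ • y = y)).card := by
      have hd : (𝒪 : Set (Finset X)).PairwiseDisjoint id := by
        intro o ho o' ho' hne
        obtain ⟨x, hx, rfl⟩ := Finset.mem_image.1 ho
        obtain ⟨x', hx', rfl⟩ := Finset.mem_image.1 ho'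
        rw [Function.onFun, id, id, Finset.disjoint_left]
        intro y hy hy'
        apply hne
        rw [← hOeq x hx y hy, hOeq x' hx' y hy']
      have h3 : X₀ = 𝒪.biUnion id := by
        ext y
        refine Iff.trans ?_ Finset.mem_biUnion.symm
        constructor
        · intro hy
          exact ⟨O y, Finset.mem_image_of_mem _ hy, hself y hy⟩
        · intro hex
          obtain ⟨o, ho, hy⟩ := hex
          obtain ⟨x, hx, rfl⟩ := Finset.mem_image.1 ho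
          exact (Finset.mem_filter.1 hy).1
      conv_rhs => rw [h3]
      rw [Finset.sum_biUnion hd]
      rfl
    have h3 := H2.DickHyp.double_count E X₀
    have h4 : ∑ γ ∈ E, (X₀.filter (fun y => γ • y = y)).card = E.card * 2 := by
      rw [← smul_eq_mul, ← Finset.sum_const]
      refine Finset.sum_congr rfl fun γ hγ => ?_
      have h9 : X₀.filter (fun y => γ • y = y) = F γ := by
        ext y
        rw [Finset.mem_filter, (hF γ (hE1 γ hγ)).2]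
        constructor
        · exact fun h => h.2
        · intro h
          refine ⟨(hmem y).2 ⟨γ, hE1 γ hγ, ((hF γ (hE1 γ hγ)).2 y).2 h⟩, h⟩
      rw [h9, (hF γ (hE1 γ hγ)).1]
    have h5 : E.card = Nat.card Γ - 1 := by
      rw [hE, Finset.card_erase_of_mem (Finset.mem_univ _), Finset.card_univ, Nat.card_eq_fintype_card]
    have h6 := Finset.sum_congr rfl h1
    rw [Finset.sum_add_distrib, Finset.sum_const, smul_eq_mul, h2, h3, h4, h5] at h6
    rw [← h6]; ring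
  · intro o ho
    obtain ⟨x, hx, rfl⟩ := Finset.mem_image.1 ho
    exact ⟨x, hself x hx⟩

/-- arithmetic of Klein's equation -/
theorem klein_cases {N : ℕ} (hN : 2 ≤ N) {Y : Type*} (𝒪 : Finset (Finset Y)) (e : Finset Y → ℕ)
    (he : ∀ O ∈ 𝒪, 2 ≤ e O ∧ O.card * e O = N) (hne : ∀ O ∈ 𝒪, O.Nonempty)
    (hsum : ∑ O ∈ 𝒪, O.card + 2 * (N - 1) = 𝒪.card * N) :
    ∑ O ∈ 𝒪, O.card = 2 ∨ (𝒪.card = 3 ∧ ∑ O ∈ 𝒪, O.card = N + 2) := by
  classical
  have h2 : ∀ O ∈ 𝒪, 2 * O.card ≤ N := by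
    intro O hO
    obtain ⟨h1, h2⟩ := he O hO
    rw [← h2, mul_comm]
    exact Nat.mul_le_mul_left _ h1
  have h3 : 2 * ∑ O ∈ 𝒪, O.card ≤ 𝒪.card * N := by
    rw [Finset.mul_sum, ← smul_eq_mul (a := 𝒪.card), ← Finset.sum_const]
    exact Finset.sum_le_sum h2
  have hr : 𝒪.card ≤ 3 := by
    by_contra hc
    push Not at hc
    have h4 : 4 * N ≤ 𝒪.card * N := Nat.mul_le_mul_right _ hc
    omega
  have hcases : 𝒪.card = 0 ∨ 𝒪.card = 1 ∨ 𝒪.card = 2 ∨ 𝒪.card = 3 := by omega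
  rcases hcases with h | h | h | h
  · rw [h, zero_mul] at hsum; omega
  · obtain ⟨O, rfl⟩ := Finset.card_eq_one.1 h
    rw [Finset.sum_singleton, Finset.card_singleton] at hsum
    have := (hne O (Finset.mem_singleton_self _)).card_pos
    omega
  · left
    rw [h] at hsum
    omega
  · right
    rw [h] at hsum
    exact ⟨h, by omega⟩

/-- the points with large stabilizers lie in few orbits -/
theorem klein_large (h : KleinHyp Γ X) (k : ℕ) (hk : 2 ≤ k) (B : Finset X) (hB : B.Nonempty)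
    (hk' : ∀ x ∈ B, k ≤ Nat.card (MulAction.stabilizer Γ x)) :
    B.card ≤ 2 ∨ ∃ N n₁ n₂ n₃ e₁ e₂ e₃ : ℕ, 0 < N ∧ 2 ≤ e₁ ∧ 2 ≤ e₂ ∧ 2 ≤ e₃ ∧ n₁ * e₁ = N ∧ n₂ * e₂ = N ∧
      n₃ * e₃ = N ∧ n₁ + n₂ + n₃ = N + 2 ∧
      B.card ≤ (if k ≤ e₁ then n₁ else 0) + (if k ≤ e₂ then n₂ else 0) + (if k ≤ e₃ then n₃ else 0) := by
  classical
  obtain ⟨𝒪, h1, h2, h3, h4⟩ := klein_orbits h
  obtain ⟨x₀, hx₀⟩ := hB
  have hN : 2 ≤ Nat.card Γ := by
    have := Subgroup.card_le_card_group (MulAction.stabilizer Γ x₀)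
    have := hk' x₀ hx₀
    omega
  have hch : ∀ O : Finset X, ∃ e : ℕ, O ∈ 𝒪 → 2 ≤ e ∧ O.card * e = Nat.card Γ ∧
      ∀ y ∈ O, Nat.card (MulAction.stabilizer Γ y) = e := by
    intro O
    by_cases hO : O ∈ 𝒪
    · obtain ⟨e, he⟩ := h1 O hO
      exact ⟨e, fun _ => he⟩
    · exact ⟨0, fun h => absurd h hO⟩
  choose e he using hch
  have hbig : ∀ x ∈ B, ∃ O ∈ 𝒪, x ∈ O ∧ k ≤ e O := by
    intro x hx
    obtain ⟨O, hO, hxi⟩ := h2 x (hk.trans (hk' x hx))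
    refine ⟨O, hO, hxi, ?_⟩
    rw [← (he O hO).2.2 _ hxi]
    exact hk' x hx
  have hcard : B.card ≤ (𝒪.filter (fun O => k ≤ e O)).sum Finset.card := by
    refine le_trans (Finset.card_le_card ?_) Finset.card_biUnion_le
    intro y hy
    obtain ⟨O, hO, hxO, h6O⟩ := hbig y hy
    exact Finset.mem_biUnion.2 ⟨O, Finset.mem_filter.2 ⟨hO, h6O⟩, hxO⟩
  rcases klein_cases hN 𝒪 e (fun O hO => ⟨(he O hO).1, (he O hO).2.1⟩) h4 h3 with hs | ⟨hc, hs⟩
  · left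
    have h7 : (𝒪.filter (fun O => k ≤ e O)).sum Finset.card ≤ 𝒪.sum Finset.card :=
      Finset.sum_le_sum_of_subset (Finset.filter_subset _ _)
    exact hcard.trans (h7.trans hs.le)
  · right
    obtain ⟨O₁, O₂, O₃, h12, h13, h23, rfl⟩ := Finset.card_eq_three.1 hc
    rw [Finset.sum_filter, Finset.sum_insert (by simp [h12, h13]), Finset.sum_pair h23] at hcard
    rw [Finset.sum_insert (by simp [h12, h13]), Finset.sum_pair h23] at hs
    have e1 := he O₁ (by simp)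
    have e2 := he O₂ (by simp)
    have e3 := he O₃ (by simp)
    exact ⟨Nat.card Γ, O₁.card, O₂.card, O₃.card, e O₁, e O₂, e O₃, by omega, e1.1, e2.1, e3.1, e1.2.1, e2.2.1,
      e3.2.1, by omega, by omega⟩

theorem klein_lin {N n e : ℕ} (h1 : 2 ≤ e) (h2 : n * e = N) : 2 * n ≤ N ∧ (3 ≤ e → 3 * n ≤ N) ∧
    (4 ≤ e → 4 * n ≤ N) ∧ (6 ≤ e → 6 * n ≤ N) ∧ (e = 2 → 2 * n = N) ∧ (e = 3 → 3 * n = N) ∧
    (e = 4 → 4 * n = N) ∧ (e = 5 → 5 * n = N) := by
  subst h2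
  refine ⟨?_, ?_, ?_, ?_, ?_, ?_, ?_, ?_⟩
  · rw [mul_comm]; exact Nat.mul_le_mul_left _ h1
  · intro h; rw [mul_comm]; exact Nat.mul_le_mul_left _ h
  · intro h; rw [mul_comm]; exact Nat.mul_le_mul_left _ h
  · intro h; rw [mul_comm]; exact Nat.mul_le_mul_left _ h
  · rintro rfl; ring
  · rintro rfl; ring
  · rintro rfl; ring
  · rintro rfl; ring

/-- at most two points have a stabilizer of order at least 6 -/
theorem klein_six (h : KleinHyp Γ X) (B : Finset X)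
    (h6 : ∀ x ∈ B, 6 ≤ Nat.card (MulAction.stabilizer Γ x)) : B.card ≤ 2 := by
  rcases B.eq_empty_or_nonempty with rfl | hB
  · simp
  rcases klein_large h 6 (by norm_num) B hB h6 with h1 | ⟨N, n₁, n₂, n₃, e₁, e₂, e₃, hN, a1, a2, a3, b1, b2, b3, hs, hc⟩
  · exact h1
  obtain ⟨p1, q1, r1, s1, t1, -, -, -⟩ := klein_lin a1 b1
  obtain ⟨p2, q2, r2, s2, t2, -, -, -⟩ := klein_lin a2 b2
  obtain ⟨p3, q3, r3, s3, t3, -, -, -⟩ := klein_lin a3 b3
  split_ifs at hc <;> omega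

theorem four_aux {N n₁ n₂ n₃ e₁ e₂ e₃ : ℕ} (a1 : 2 ≤ e₁) (a2 : 2 ≤ e₂) (a3 : 2 ≤ e₃)
    (b1 : n₁ * e₁ = N) (b2 : n₂ * e₂ = N) (b3 : n₃ * e₃ = N) (hs : n₁ + n₂ + n₃ = N + 2)
    (h4 : 4 ≤ e₁) : n₁ ≤ 12 ∧ ¬ 4 ≤ e₂ ∧ ¬ 4 ≤ e₃ := by
  obtain ⟨p1, q1, r1, s1, t1, u1, v1, w1⟩ := klein_lin a1 b1
  obtain ⟨p2, q2, r2, s2, t2, u2, v2, w2⟩ := klein_lin a2 b2
  obtain ⟨p3, q3, r3, s3, t3, u3, v3, w3⟩ := klein_lin a3 b3
  have r1' := r1 h4
  have c2 : ¬ 4 ≤ e₂ := fun h => by have := r2 h; omega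
  have c3 : ¬ 4 ≤ e₃ := fun h => by have := r3 h; omega
  refine ⟨?_, c2, c3⟩
  have d2 : e₂ = 2 ∨ e₂ = 3 := by omega
  have d3 : e₃ = 2 ∨ e₃ = 3 := by omega
  have d1 : e₁ = 4 ∨ e₁ = 5 ∨ 6 ≤ e₁ := by omega
  rcases d2 with d2 | d2
  · have x2 := t2 d2
    rcases d3 with d3 | d3
    · have x3 := t3 d3
      omega
    · have x3 := u3 d3
      rcases d1 with d1 | d1 | d1
      · have := v1 d1; omega
      · have := w1 d1; omega
      · have := s1 d1; omega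
  · have x2 := u2 d2
    rcases d3 with d3 | d3
    · have x3 := t3 d3
      rcases d1 with d1 | d1 | d1
      · have := v1 d1; omega
      · have := w1 d1; omega
      · have := s1 d1; omega
    · have x3 := u3 d3
      omega

/-- at most twelve points have a stabilizer of order at least 4 -/
theorem klein_four (h : KleinHyp Γ X) (B : Finset X)
    (h6 : ∀ x ∈ B, 4 ≤ Nat.card (MulAction.stabilizer Γ x)) : B.card ≤ 12 := by
  rcases B.eq_empty_or_nonempty with rfl | hB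
  · simp
  rcases klein_large h 4 (by norm_num) B hB h6 with h1 | ⟨N, n₁, n₂, n₃, e₁, e₂, e₃, hN, a1, a2, a3, b1, b2, b3, hs, hc⟩
  · omega
  by_cases h1 : 4 ≤ e₁
  · obtain ⟨x, y, z⟩ := four_aux a1 a2 a3 b1 b2 b3 hs h1
    rw [if_pos h1, if_neg y, if_neg z] at hc
    omega
  by_cases h2 : 4 ≤ e₂
  · obtain ⟨x, y, z⟩ := four_aux a2 a1 a3 b2 b1 b3 (by omega) h2
    rw [if_pos h2, if_neg y, if_neg z] at hc
    omega
  by_cases h3 : 4 ≤ e₃
  · obtain ⟨x, y, z⟩ := four_aux a3 a1 a2 b3 b1 b2 (by omega) h3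
    rw [if_pos h3, if_neg y, if_neg z] at hc
    omega
  rw [if_neg h1, if_neg h2, if_neg h3] at hc
  omega

end Cfsg.Agent.H19
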