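import Mathlib
import Cfsg.Agent.H19.Klein1

/-!
# Klein's counting argument for `p'`-groups of matrices
-/

set_option autoImplicit false
set_option linter.unusedSectionVars false
set_option linter.style.haveILetI false

namespace Cfsg.Agent.H19

open Module
open scoped LinearAlgebra.Projectivization

section lin

variable {K V : Type*} [Field K] [AddCommGroup V] [Module K V]

/-- a linear map such that every vector is an eigenvector is a scalar -/
theorem scalar_of_all (f : V →ₗ[K] V) (hf : ∀ v, ∃ c : K, f v = c • v) {v w : V} {a b : K}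
    (hvw : LinearIndependent K ![v, w]) (hv : f v = a • v) (hw : f w = b • w) : a = b := by
  obtain ⟨c, hc⟩ := hf (v + w)
  rw [map_add, hv, hw, smul_add] at hc
  have h1 : (a - c) • v + (b - c) • w = 0 := by
    rw [sub_smul, sub_smul]
    have : a • v - c • v + (b • w - c • w) = (a • v + b • w) - (c • v + c • w) := by abel
    rw [this, hc, sub_self]
  obtain ⟨h2, h3⟩ := LinearIndependent.pair_iff.1 hvw _ _ h1
  rw [sub_eq_zero.1 h2, sub_eq_zero.1 h3]

variable [FiniteDimensional K V] [IsAlgClosed K]

theorem two_fix (h2 : finrank K V = 2) (g : LinearMap.GeneralLinearGroup K V) {n : ℕ} (hn : (n : K) ≠ 0)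
    (hg : g ^ n = 1) (hne : MulAction.toPermHom (LinearMap.GeneralLinearGroup K V) (ℙ K V) g ≠ 1) :
    ∃ a b : ℙ K V, a ≠ b ∧ ∀ x : ℙ K V, g • x = x ↔ (x = a ∨ x = b) := by
  have hVn : Nontrivial V := Module.nontrivial_of_finrank_pos (R := K) (by omega)
  set f : V →ₗ[K] V := (g : V →ₗ[K] V) with hf
  have hfn : f ^ n = 1 := by
    rw [hf, ← Units.val_pow_eq_pow_val, hg, Units.val_one]
  have hsm : ∀ {v : V} (hv : v ≠ 0), g • (Projectivization.mk K v hv) =
      Projectivization.mk K (f v) (by
        have := (smul_ne_zero_iff_ne g).mpr hv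
        exact this) := fun hv => rfl
  obtain ⟨α, hα⟩ := Module.End.exists_eigenvalue f
  obtain ⟨v, hv⟩ := hα.exists_hasEigenvector
  have hv0 := hv.2
  have hfv : f v = α • v := hv.apply_eq_smul
  -- complete to a basis
  obtain ⟨w, hvw⟩ : ∃ w : V, LinearIndependent K ![v, w] := by
    have h3 : ∃ w : V, w ∉ Submodule.span K {v} := by
      by_contra hc
      push Not at hc
      have h4 : Submodule.span K {v} = ⊤ := by
        rw [eq_top_iff]; exact fun x _ => hc x
      have h5 := finrank_span_singleton (K := K) hv0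
      rw [h4, finrank_top, h2] at h5
      omega
    obtain ⟨w, hw⟩ := h3
    refine ⟨w, ?_⟩
    rw [LinearIndependent.pair_iff' hv0]
    intro a ha
    exact hw (Submodule.mem_span_singleton.2 ⟨a, ha⟩)
  have hspan : ∀ x : V, ∃ s t : K, x = s • v + t • w := by
    have h3 := hvw.span_eq_top_of_card_eq_finrank' (by rw [h2]; rfl)
    intro x
    have h4 : x ∈ Submodule.span K (Set.range ![v, w]) := by rw [h3]; trivial
    have h5 : Set.range ![v, w] = {v, w} := by simp [Set.pair_comm]
    rw [h5, Submodule.mem_span_pair] at h4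
    obtain ⟨s, t, h4⟩ := h4
    exact ⟨s, t, h4.symm⟩
  have hα0 : α ^ n = 1 := by
    have h3 : ∀ k : ℕ, (f ^ k) v = α ^ k • v := by
      intro k
      induction k with
      | zero => simp
      | succ k ih => rw [pow_succ', Module.End.mul_apply, ih, map_smul, hfv, smul_smul, ← pow_succ]
    have h4 := h3 n
    rw [hfn, Module.End.one_apply] at h4
    have h5 : (1 - α ^ n) • v = 0 := by rw [sub_smul, one_smul, ← h4, sub_self]
    rcases smul_eq_zero.1 h5 with h6 | h6
    · exact (sub_eq_zero.1 h6).symm
    · exact absurd h6 hv0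
  obtain ⟨c, β, hfw⟩ := hspan (f w)
  have hαβ : α ≠ β := by
    rintro rfl
    have h3 : ∀ k : ℕ, α • (f ^ k) w = α ^ (k + 1) • w + ((k : K) * α ^ k * c) • v := by
      intro k
      induction k with
      | zero => simp
      | succ k ih =>
        have h4 := congrArg f ih
        rw [map_smul, ← Module.End.mul_apply, ← pow_succ', map_add, map_smul, map_smul, hfv, hfw] at h4
        rw [h4]
        push_cast
        module
    have h4 := h3 n
    rw [hfn, Module.End.one_apply, pow_succ, hα0, one_mul, mul_one] at h4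
    have h5 : ((n : K) * c) • v = 0 := by
      have := congrArg (fun z => z - α • w) h4
      simpa using this.symm
    have hc : c = 0 := by
      rcases smul_eq_zero.1 h5 with h6 | h6
      · exact (mul_eq_zero.1 h6).resolve_left hn
      · exact absurd h6 hv0
    subst hc
    apply hne
    ext x
    induction x using Projectivization.ind with
    | h u hu =>
      show g • Projectivization.mk K u hu = Projectivization.mk K u hu
      rw [hsm, Projectivization.mk_eq_mk_iff']
      refine ⟨α, ?_⟩
      obtain ⟨s, t, rfl⟩ := hspan u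
      rw [map_add, map_smul, map_smul, hfv, hfw]
      module
  have hβα : β - α ≠ 0 := sub_ne_zero.2 (Ne.symm hαβ)
  set w' := w + (c / (β - α)) • v with hw'
  have hfw' : f w' = β • w' := by
    rw [hw', map_add, map_smul, hfv, hfw, smul_add, smul_smul, smul_smul]
    have : c + c / (β - α) * α = β * (c / (β - α)) := by field_simp; ring
    calc c • v + β • w + (c / (β - α) * α) • v = β • w + (c + c / (β - α) * α) • v := by module
      _ = _ := by rw [this]
  have hspan' : ∀ x : V, ∃ s t : K, x = s • v + t • w' := by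
    intro x
    obtain ⟨s, t, hx⟩ := hspan x
    refine ⟨s - t * (c / (β - α)), t, ?_⟩
    rw [hx, hw']; module
  have hind' : ∀ s t : K, s • v + t • w' = 0 → s = 0 ∧ t = 0 := by
    intro s t h
    have h3 : (s + t * (c / (β - α))) • v + t • w = 0 := by
      rw [← h, hw']; module
    obtain ⟨h4, h5⟩ := LinearIndependent.pair_iff.1 hvw _ _ h3
    rw [h5, zero_mul, add_zero] at h4
    exact ⟨h4, h5⟩
  have hw0 : w' ≠ 0 := by
    intro h
    have := (hind' 0 1 (by rw [h]; simp)).2
    exact one_ne_zero this
  refine ⟨Projectivization.mk K v hv0, Projectivization.mk K w' hw0, ?_, ?_⟩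
  · intro h
    rw [Projectivization.mk_eq_mk_iff'] at h
    obtain ⟨a, ha⟩ := h
    have := (hind' 1 (-a) (by rw [← ha]; module)).1
    exact one_ne_zero this
  · intro x
    induction x using Projectivization.ind with
    | h u hu =>
      rw [hsm, Projectivization.mk_eq_mk_iff', Projectivization.mk_eq_mk_iff', Projectivization.mk_eq_mk_iff']
      obtain ⟨s, t, rfl⟩ := hspan' u
      constructor
      · rintro ⟨γ, hγ⟩
        rw [map_add, map_smul, map_smul, hfv, hfw'] at hγ
        obtain ⟨h3, h4⟩ := hind' (s * (γ - α)) (t * (γ - β)) (by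
          have : (s * (γ - α)) • v + (t * (γ - β)) • w' =
            γ • (s • v + t • w') - (s • α • v + t • β • w') := by module
          rw [this, hγ, sub_self])
        rcases mul_eq_zero.1 h3 with h5 | h5
        · right
          exact ⟨t, by rw [h5]; simp⟩
        · rcases mul_eq_zero.1 h4 with h6 | h6
          · left
            exact ⟨s, by rw [h6]; simp⟩
          · exact absurd ((sub_eq_zero.1 h5).symm.trans (sub_eq_zero.1 h6)) hαβ
      · rintro (⟨a, ha⟩ | ⟨a, ha⟩)
        · rw [← ha, map_smul, hfv]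
          exact ⟨α, by module⟩
        · rw [← ha, map_smul, hfw']
          exact ⟨β, by module⟩

end lin

section rep

variable {K V : Type*} [Field K] [AddCommGroup V] [Module K V] [FiniteDimensional K V] [IsAlgClosed K]
variable {H : Type*} [Group H] [Finite H] (θ : H →* LinearMap.GeneralLinearGroup K V)

/-- the permutation group on the projective line -/
def projRange : Subgroup (Equiv.Perm (ℙ K V)) :=
  ((MulAction.toPermHom (LinearMap.GeneralLinearGroup K V) (ℙ K V)).comp θ).range

instance : Finite (projRange θ) :=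
  Finite.of_surjective _ (MonoidHom.rangeRestrict_surjective
    ((MulAction.toPermHom (LinearMap.GeneralLinearGroup K V) (ℙ K V)).comp θ))

theorem kleinHyp (h2 : finrank K V = 2) (hn : ∀ h : H, ∃ n : ℕ, (n : K) ≠ 0 ∧ θ h ^ n = 1) :
    KleinHyp (projRange θ) (ℙ K V) := by
  rintro ⟨_, ⟨h, rfl⟩⟩ hγ
  obtain ⟨n, hn1, hn2⟩ := hn h
  exact two_fix h2 (θ h) hn1 hn2 (fun h3 => hγ (Subtype.ext h3))

/-- a point with large stabilizer -/
theorem le_card_stabilizer {v w : V} (hv : v ≠ 0) (hvw : LinearIndependent K ![v, w]) (h : H) {α β : K} {m : ℕ}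
    (hα : (θ h : V →ₗ[K] V) v = α • v) (hβ : ∀ u : V, ∃ c : K, (θ h : V →ₗ[K] V) u = β • u + c • v)
    (hm : ∀ j : ℕ, α ^ j = β ^ j → m ∣ j) :
    m ≤ Nat.card (MulAction.stabilizer (projRange θ) (Projectivization.mk K v hv)) := by
  set γ : projRange θ := ⟨MulAction.toPermHom (LinearMap.GeneralLinearGroup K V) (ℙ K V) (θ h), h, rfl⟩ with hγ
  have hmem : γ ∈ MulAction.stabilizer (projRange θ) (Projectivization.mk K v hv) := by
    rw [MulAction.mem_stabilizer_iff]
    show θ h • Projectivization.mk K v hv = Projectivization.mk K v hv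
    have : θ h • Projectivization.mk K v hv = Projectivization.mk K ((θ h : V →ₗ[K] V) v)
      (by have := (smul_ne_zero_iff_ne (θ h)).mpr hv; exact this) := rfl
    rw [this, Projectivization.mk_eq_mk_iff']
    exact ⟨α, hα.symm⟩
  have h1 : orderOf γ ≤ Nat.card (MulAction.stabilizer (projRange θ) (Projectivization.mk K v hv)) := by
    have : orderOf (⟨γ, hmem⟩ : MulAction.stabilizer (projRange θ) (Projectivization.mk K v hv)) = orderOf γ :=
      (Subgroup.orderOf_mk γ hmem)
    rw [← this]
    exact Nat.le_of_dvd Nat.card_pos (orderOf_dvd_natCard _)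
  refine le_trans (Nat.le_of_dvd (orderOf_pos γ) (hm _ ?_)) h1
  set j := orderOf γ with hj
  have h3 : γ ^ j = 1 := pow_orderOf_eq_one γ
  have h4 : ∀ u : V, ∃ c : K, ((θ h : V →ₗ[K] V) ^ j) u = c • u := by
    intro u
    by_cases hu : u = 0
    · exact ⟨0, by rw [hu]; simp⟩
    · have h5 : (θ h) ^ j • Projectivization.mk K u hu = Projectivization.mk K u hu := by
        have h6 : (MulAction.toPermHom (LinearMap.GeneralLinearGroup K V) (ℙ K V)) ((θ h) ^ j) = 1 := by
          rw [map_pow]
          exact congrArg Subtype.val h3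
        exact congrArg (fun e : Equiv.Perm (ℙ K V) => e (Projectivization.mk K u hu)) h6
      have h7 : (θ h) ^ j • Projectivization.mk K u hu =
        Projectivization.mk K (((θ h : V →ₗ[K] V) ^ j) u)
        (by have := (smul_ne_zero_iff_ne ((θ h) ^ j)).mpr hu; exact this) := rfl
      rw [h7, Projectivization.mk_eq_mk_iff'] at h5
      obtain ⟨c, hc⟩ := h5
      exact ⟨c, hc.symm⟩
  have h5 : ∀ k : ℕ, ((θ h : V →ₗ[K] V) ^ k) v = α ^ k • v ∧
      ∃ c : K, ((θ h : V →ₗ[K] V) ^ k) w = β ^ k • w + c • v := by
    intro k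
    induction k with
    | zero => exact ⟨by simp, 0, by simp⟩
    | succ k ih =>
      obtain ⟨i1, c, i2⟩ := ih
      refine ⟨by rw [pow_succ', Module.End.mul_apply, i1, map_smul, hα, smul_smul, ← pow_succ], ?_⟩
      obtain ⟨d, hd⟩ := hβ w
      refine ⟨β ^ k * d + c * α, ?_⟩
      rw [pow_succ', Module.End.mul_apply, i2, map_add, map_smul, map_smul, hα, hd]
      module
  obtain ⟨h6, c, h7⟩ := h5 j
  obtain ⟨d, hd⟩ := h4 w
  have h8 : c • v + (β ^ j - d) • w = 0 := by
    rw [hd] at h7
    have : c • v + (β ^ j - d) • w = (β ^ j • w + c • v) - d • w := by module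
    rw [this, ← h7, sub_self]
  have h9 := (LinearIndependent.pair_iff.1 hvw _ _ h8).2
  rw [sub_eq_zero] at h9
  rw [h9]
  exact scalar_of_all _ h4 hvw h6 hd

end rep

end Cfsg.Agent.H19
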