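import Mathlib
import Cfsg.Agent.H19.Klein2

/-!
# Klein's counting argument: base change
-/

set_option autoImplicit false
set_option linter.unusedSectionVars false
set_option linter.style.haveILetI false

namespace Cfsg.Agent.H19

open Module
open scoped LinearAlgebra.Projectivization

section

variable {F K V : Type*} [Field F] [Field K] [Algebra F K] [AddCommGroup V] [Module F V]
variable (b : Basis (Fin 2) F V)
variable {H : Type*} [Group H] [Finite H] (ρ : H →* Module.End F V)

/-- base change of a representation -/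
noncomputable def bc : H →* Module.End K (Fin 2 → K) where
  toFun h := Matrix.toLin' ((LinearMap.toMatrixAlgEquiv b (ρ h)).map (algebraMap F K))
  map_one' := by
    rw [map_one, map_one, Matrix.map_one _ (map_zero _) (map_one _), Matrix.toLin'_one]; rfl
  map_mul' g h := by
    rw [map_mul, map_mul, Matrix.map_mul, Matrix.toLin'_mul]; rfl

/-- base change of vectors -/
noncomputable def jv (v : V) : Fin 2 → K := fun i => algebraMap F K (b.repr v i)

theorem bc_jv (h : H) (v : V) : bc (K := K) b ρ h (jv b v) = jv b (ρ h v) := by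
  show Matrix.toLin' ((LinearMap.toMatrixAlgEquiv b (ρ h)).map (algebraMap F K)) (jv b v) = _
  rw [Matrix.toLin'_apply]
  ext i
  have h1 := RingHom.map_mulVec (algebraMap F K) (LinearMap.toMatrixAlgEquiv b (ρ h)) (b.repr v) i
  have h2 : (LinearMap.toMatrixAlgEquiv b (ρ h)).mulVec (b.repr v) = b.repr (ρ h v) :=
    LinearMap.toMatrix_mulVec_repr b b (ρ h) v
  rw [h2] at h1
  exact h1.symm

theorem jv_add (v w : V) : jv (K := K) b (v + w) = jv b v + jv b w := by
  ext i; simp [jv]

theorem jv_smul (c : F) (v : V) : jv (K := K) b (c • v) = algebraMap F K c • jv b v := by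
  ext i; simp [jv]

theorem jv_basis (i : Fin 2) : jv (K := K) b (b i) = Pi.single i 1 := by
  ext k
  rw [jv, Basis.repr_self, Finsupp.single_apply, Pi.single_apply]
  by_cases h : i = k
  · rw [if_pos h, if_pos h.symm, map_one]
  · rw [if_neg h, if_neg (Ne.symm h), map_zero]

theorem jv_indep {v w : V} (h : LinearIndependent F ![v, w]) :
    LinearIndependent K ![jv (K := K) b v, jv b w] := by
  rw [LinearIndependent.pair_iff] at h ⊢
  set v0 := b.repr v 0 with hv0
  set v1 := b.repr v 1 with hv1
  set w0 := b.repr w 0 with hw0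
  set w1 := b.repr w 1 with hw1
  have hcr : v0 * w1 - v1 * w0 ≠ 0 := by
    intro hc
    have e1 : w1 • v + (-v1) • w = 0 := by
      apply b.repr.injective
      ext i
      fin_cases i
      · simp only [map_add, map_smul, map_zero, Finsupp.add_apply, Finsupp.smul_apply, smul_eq_mul,
          Finsupp.zero_apply, Fin.zero_eta]
        linear_combination hc
      · simp only [map_add, map_smul, map_zero, Finsupp.add_apply, Finsupp.smul_apply, smul_eq_mul,
          Finsupp.zero_apply, Fin.mk_one]
        rw [← hv1, ← hw1]; ring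
    have e2 : w0 • v + (-v0) • w = 0 := by
      apply b.repr.injective
      ext i
      fin_cases i
      · simp only [map_add, map_smul, map_zero, Finsupp.add_apply, Finsupp.smul_apply, smul_eq_mul,
          Finsupp.zero_apply, Fin.zero_eta]
        rw [← hv0, ← hw0]; ring
      · simp only [map_add, map_smul, map_zero, Finsupp.add_apply, Finsupp.smul_apply, smul_eq_mul,
          Finsupp.zero_apply, Fin.mk_one]
        linear_combination -hc
    have h1 := neg_eq_zero.1 (h _ _ e1).2
    have h2 := neg_eq_zero.1 (h _ _ e2).2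
    have h3 : v = 0 := by
      apply b.repr.injective
      ext i
      fin_cases i
      · simpa using h2
      · simpa using h1
    have := (h 1 0 (by rw [h3]; simp)).1
    exact one_ne_zero this
  have hcr' : algebraMap F K v0 * algebraMap F K w1 - algebraMap F K v1 * algebraMap F K w0 ≠ 0 := by
    rw [← map_mul, ← map_mul, ← map_sub]
    exact (map_ne_zero _).2 hcr
  intro s t hst
  have h0 := congrFun hst 0
  have h1 := congrFun hst 1
  simp only [Pi.add_apply, Pi.smul_apply, smul_eq_mul, jv, Pi.zero_apply] at h0 h1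
  rw [← hv0, ← hw0] at h0
  rw [← hv1, ← hw1] at h1
  constructor
  · have : s * (algebraMap F K v0 * algebraMap F K w1 - algebraMap F K v1 * algebraMap F K w0) = 0 := by
      linear_combination (algebraMap F K w1) * h0 - (algebraMap F K w0) * h1
    exact (mul_eq_zero.1 this).resolve_right hcr'
  · have : t * (algebraMap F K v0 * algebraMap F K w1 - algebraMap F K v1 * algebraMap F K w0) = 0 := by
      linear_combination (algebraMap F K v0) * h1 - (algebraMap F K v1) * h0
    exact (mul_eq_zero.1 this).resolve_right hcr'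

include b in
theorem exists_indep {v : V} (hv : v ≠ 0) : ∃ w, LinearIndependent F ![v, w] := by
  have h2 : finrank F V = 2 := by rw [finrank_eq_card_basis b]; simp
  have h3 : ∃ w : V, w ∉ Submodule.span F {v} := by
    by_contra hc
    push Not at hc
    have h4 : Submodule.span F {v} = ⊤ := by
      rw [eq_top_iff]; exact fun x _ => hc x
    have h5 := finrank_span_singleton (K := F) hv
    rw [h4, finrank_top, h2] at h5
    omega
  obtain ⟨w, hw⟩ := h3
  refine ⟨w, ?_⟩
  rw [LinearIndependent.pair_iff' hv]
  intro a ha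
  exact hw (Submodule.mem_span_singleton.2 ⟨a, ha⟩)

end

theorem klein_vectors {F V : Type*} [Field F] [AddCommGroup V] [Module F V]
    (b : Basis (Fin 2) F V) {H : Type*} [Group H] [Finite H] (ρ : H →* Module.End F V)
    (hn : ∀ h : H, ∃ n : ℕ, (n : F) ≠ 0 ∧ ρ h ^ n = 1) {α β : F} {m : ℕ}
    (hm : ∀ j : ℕ, α ^ j = β ^ j → m ∣ j) (T : Finset V) (hT0 : ∀ v ∈ T, v ≠ 0)
    (hTi : ∀ v ∈ T, ∀ w ∈ T, v ≠ w → LinearIndependent F ![v, w])
    (hgood : ∀ v ∈ T, ∃ h : H, ρ h v = α • v ∧ ∀ u : V, ∃ c : F, ρ h u = β • u + c • v) :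
    (6 ≤ m → T.card ≤ 2) ∧ (4 ≤ m → T.card ≤ 12) := by
  classical
  let K := AlgebraicClosure F
  let θ : H →* LinearMap.GeneralLinearGroup K (Fin 2 → K) := (bc (K := K) b ρ).toHomUnits
  have hθ : ∀ h, (θ h : (Fin 2 → K) →ₗ[K] (Fin 2 → K)) = bc (K := K) b ρ h := fun h => rfl
  have hfr : finrank K (Fin 2 → K) = 2 := by simp
  have hK := kleinHyp θ hfr (fun h => by
    obtain ⟨n, h1, h2⟩ := hn h
    refine ⟨n, ?_, ?_⟩
    · have := (map_ne_zero (algebraMap F K)).2 h1
      rwa [map_natCast] at this
    · apply Units.ext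
      rw [Units.val_pow_eq_pow_val, hθ]
      show (bc (K := K) b ρ h) ^ n = 1
      rw [← map_pow]
      show Matrix.toLin' ((LinearMap.toMatrixAlgEquiv b (ρ (h ^ n))).map (algebraMap F K)) = 1
      rw [map_pow, h2, map_one, Matrix.map_one _ (map_zero _) (map_one _), Matrix.toLin'_one]; rfl)
  have hj0 : ∀ v ∈ T, jv (K := K) b v ≠ 0 := by
    intro v hv
    obtain ⟨w, hw⟩ := exists_indep b (hT0 v hv)
    exact (jv_indep (K := K) b hw).ne_zero 0
  set B : Finset (ℙ K (Fin 2 → K)) := T.attach.image
    (fun v => Projectivization.mk K (jv (K := K) b v.1) (hj0 v.1 v.2)) with hB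
  have hBc : B.card = T.card := by
    rw [hB, Finset.card_image_of_injective, Finset.card_attach]
    intro v w hvw
    by_contra hne
    have h1 := jv_indep (K := K) b (hTi v.1 v.2 w.1 w.2 (fun h => hne (Subtype.ext h)))
    rw [Projectivization.mk_eq_mk_iff'] at hvw
    obtain ⟨a, ha⟩ := hvw
    rw [LinearIndependent.pair_iff] at h1
    have := (h1 1 (-a) (by rw [← ha]; module)).1
    exact one_ne_zero this
  have hBs : ∀ x ∈ B, m ≤ Nat.card (MulAction.stabilizer (projRange θ) x) := by
    intro x hx
    rw [hB, Finset.mem_image] at hx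
    obtain ⟨v, -, rfl⟩ := hx
    obtain ⟨w, hw⟩ := exists_indep b (hT0 v.1 v.2)
    obtain ⟨h, h1, h2⟩ := hgood v.1 v.2
    refine le_card_stabilizer θ (hj0 v.1 v.2) (jv_indep (K := K) b hw) h (α := algebraMap F K α)
      (β := algebraMap F K β) ?_ ?_ ?_
    · rw [hθ, bc_jv, h1, jv_smul]
    · intro u
      obtain ⟨c0, hc0⟩ := h2 (b 0)
      obtain ⟨c1, hc1⟩ := h2 (b 1)
      refine ⟨u 0 * algebraMap F K c0 + u 1 * algebraMap F K c1, ?_⟩
      have hu : u = u 0 • jv (K := K) b (b 0) + u 1 • jv (K := K) b (b 1) := by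
        rw [jv_basis, jv_basis]
        ext i
        fin_cases i <;> simp
      have hh0 : bc (K := K) b ρ h (jv (K := K) b (b 0)) = algebraMap F K β • jv b (b 0) +
          algebraMap F K c0 • jv b v.1 := by
        rw [bc_jv, hc0, jv_add, jv_smul, jv_smul]
      have hh1 : bc (K := K) b ρ h (jv (K := K) b (b 1)) = algebraMap F K β • jv b (b 1) +
          algebraMap F K c1 • jv b v.1 := by
        rw [bc_jv, hc1, jv_add, jv_smul, jv_smul]
      rw [hθ]
      generalize u 0 = u0 at *
      generalize u 1 = u1 at *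
      rw [hu, map_add, map_smul, map_smul, hh0, hh1]
      module
    · intro j hj
      rw [← map_pow, ← map_pow] at hj
      exact hm j ((algebraMap F K).injective hj)
  constructor
  · intro h6
    rw [← hBc]
    exact klein_six hK B fun x hx => h6.trans (hBs x hx)
  · intro h4
    rw [← hBc]
    exact klein_four hK B fun x hx => h4.trans (hBs x hx)

end Cfsg.Agent.H19
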