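import Cfsg.Agent.H19.DStar2
import Cfsg.Agent.H1.Hall
import Cfsg.Agent.H18.PCore
import Cfsg.Agent.L.SylIn

/-!
# Weak replacement for metabelian `p`-groups
-/

set_option autoImplicit false
set_option linter.all false

namespace Cfsg.Agent.H19

open Cfsg Subgroup
open scoped commutatorElement

variable {S : Type*} [Group S] [Finite S] {p : ℕ} [hp : Fact p.Prime]

theorem mem_maxAb_of_card {A B : Subgroup S} (hA : A ∈ maxAbelianSubgroups S) (hB : IsMulCommutative B)
    (h : Nat.card A ≤ Nat.card B) : B ∈ maxAbelianSubgroups S :=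
  ⟨hB, fun C hC => (hA.2 C hC).trans h⟩

theorem metab_replacement (hS : IsPGroup p S) (hmeta : IsMulCommutative ↥(commutator S))
    (A₀ : Subgroup S) (hA₀ : A₀ ∈ maxAbelianSubgroups S) :
    ∃ B ∈ maxAbelianSubgroups S, B.Normal ∧ B ≤ normalClosure (A₀ : Set S) := by
  obtain ⟨N, hN⟩ : ∃ N, N = normalClosure (A₀ : Set S) := ⟨_, rfl⟩
  haveI hNn : N.Normal := by rw [hN]; infer_instance
  have hA₀N : A₀ ≤ N := by rw [hN]; exact subset_normalClosure
  rw [← hN]
  have hDab : ∀ x ∈ commutator S, ∀ y ∈ commutator S, x * y = y * x := by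
    intro x hx y hy
    exact congrArg Subtype.val (hmeta.is_comm.comm ⟨x, hx⟩ ⟨y, hy⟩)
  obtain ⟨A, ⟨hA, hAN⟩, hmax⟩ := Set.exists_max_image {A : Subgroup S | A ∈ maxAbelianSubgroups S ∧ A ≤ N}
    (fun A => Nat.card ↥(A ⊓ commutator S)) (Set.toFinite _) ⟨A₀, hA₀, hA₀N⟩
  have hAc : ∀ x ∈ A, ∀ y ∈ A, x * y = y * x := by
    intro x hx y hy
    exact congrArg Subtype.val (hA.1.is_comm.comm ⟨x, hx⟩ ⟨y, hy⟩)
  -- `D ∩ N` normalizes `A`
  have hDN : commutator S ⊓ N ≤ normalizer (A : Set S) := by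
    by_contra hnot
    have hcard : Nat.card (A.subgroupOf N) = Nat.card A := Nat.card_congr (Subgroup.subgroupOfEquivOfLe hAN).toEquiv
    have hA' : A.subgroupOf N ∈ maxAbelianSubgroups N := by
      refine ⟨⟨⟨fun x y => ?_⟩⟩, fun B hB => ?_⟩
      · apply Subtype.ext
        apply Subtype.ext
        exact hAc _ x.2 _ y.2
      · rw [hcard, ← Subgroup.card_map_of_injective N.subtype_injective (K := B)]
        apply hA.2
        refine ⟨⟨?_⟩⟩
        rintro ⟨_, x, hx, rfl⟩ ⟨_, y, hy, rfl⟩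
        apply Subtype.ext
        exact congrArg (fun t : B => ((t : N) : S)) (hB.is_comm.comm ⟨x, hx⟩ ⟨y, hy⟩)
    obtain ⟨B, hB, hlt, -⟩ := thompson_replacement (hS.to_subgroup N) (B := (commutator S).subgroupOf N) hA'
      (fun x hx y hy => Subtype.ext (hDab x hx y hy)) (by
        intro h
        apply hnot
        rintro x ⟨hxD, hxN⟩
        have h1 := h (show (⟨x, hxN⟩ : N) ∈ (commutator S).subgroupOf N from hxD)
        rw [mem_normalizer_iff] at h1 ⊢
        intro y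
        by_cases hyN : y ∈ N
        · exact h1 ⟨y, hyN⟩
        · constructor
          · intro hy; exact absurd (hAN hy) hyN
          · intro hy
            exfalso
            apply hyN
            have := hNn.conj_mem _ (hAN hy) x⁻¹
            simpa [mul_assoc] using this)
    have hBcard : Nat.card (B.map N.subtype) = Nat.card A := by
      rw [Subgroup.card_map_of_injective N.subtype_injective, ← hcard]
      exact le_antisymm (hA'.2 B hB.1) (hB.2 _ hA'.1)
    have hBm : B.map N.subtype ∈ maxAbelianSubgroups S := by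
      apply mem_maxAb_of_card hA _ hBcard.ge
      refine ⟨⟨?_⟩⟩
      rintro ⟨_, x, hx, rfl⟩ ⟨_, y, hy, rfl⟩
      apply Subtype.ext
      exact congrArg (fun t : B => ((t : N) : S)) (hB.1.is_comm.comm ⟨x, hx⟩ ⟨y, hy⟩)
    have h1 := hmax _ ⟨hBm, map_subtype_le _⟩
    have h2 : A.subgroupOf N ⊓ (commutator S).subgroupOf N = (A ⊓ commutator S).subgroupOf N := rfl
    have h3 : (B ⊓ (commutator S).subgroupOf N).map N.subtype = B.map N.subtype ⊓ commutator S := by
      ext x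
      constructor
      · rintro ⟨y, ⟨hy1, hy2⟩, rfl⟩
        exact ⟨⟨y, hy1, rfl⟩, hy2⟩
      · rintro ⟨⟨y, hy, rfl⟩, hy2⟩
        exact ⟨y, ⟨hy, hy2⟩, rfl⟩
    have h4 : Nat.card ↥(A ⊓ commutator S) < Nat.card ↥(B.map N.subtype ⊓ commutator S) := by
      rw [← h3, Subgroup.card_map_of_injective N.subtype_injective]
      have h5 : Nat.card ↥(A ⊓ commutator S) = Nat.card ↥((A ⊓ commutator S).subgroupOf N) :=
        (Nat.card_congr (Subgroup.subgroupOfEquivOfLe (inf_le_left.trans hAN)).toEquiv).symm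
      rw [h5, ← h2]
      exact L.card_lt_of_lt hlt
    exact absurd h1 (not_le.2 h4)
  refine ⟨A, hA, ?_, hAN⟩
  obtain ⟨D, hD⟩ : ∃ D, D = commutator S ⊓ N := ⟨_, rfl⟩
  haveI hDn : D.Normal := by rw [hD]; infer_instance
  rw [← hD] at hDN
  have hDab' : ∀ x ∈ D, ∀ y ∈ D, x * y = y * x := by
    intro x hx y hy
    rw [hD] at hx hy
    exact hDab x hx.1 y hy.1
  obtain ⟨R, hR⟩ : ∃ R, R = A ⊓ D := ⟨_, rfl⟩
  have hRcard : Nat.card R = Nat.card ↥(A ⊓ commutator S) := by
    rw [hR, hD, ← inf_assoc, inf_right_comm, inf_eq_left.2 hAN]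
  have hRA : ∀ r ∈ R, ∀ a ∈ A, r * a = a * r := fun r hr a ha => hAc r (hR ▸ hr).1 a ha
  have hRD : ∀ r ∈ R, ∀ a ∈ D, r * a = a * r := fun r hr a ha => hDab' r (hR ▸ hr).2 a ha
  -- `[A, D] ≤ R`
  have hκ : ∀ d ∈ D, ∀ b ∈ A, d⁻¹ * b⁻¹ * d * b ∈ R := by
    intro d hd b hb
    rw [hR]
    refine ⟨?_, ?_⟩
    · have h1 := (mem_normalizer_iff.1 (hDN (D.inv_mem hd)) b⁻¹).1 (A.inv_mem hb)
      rw [inv_inv] at h1
      exact A.mul_mem h1 hb
    · have h1 := hDn.conj_mem d hd b⁻¹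
      rw [inv_inv] at h1
      have : d⁻¹ * b⁻¹ * d * b = d⁻¹ * (b⁻¹ * d * b) := by group
      rw [this]
      exact D.mul_mem (D.inv_mem hd) h1
  -- normality
  constructor
  intro a₀ ha₀ g
  -- the map `d`
  obtain ⟨d, hd⟩ : ∃ d : S → S, ∀ a, d a = a⁻¹ * g * a * g⁻¹ := ⟨fun a => a⁻¹ * g * a * g⁻¹, fun _ => rfl⟩
  have hdD : ∀ a ∈ A, d a ∈ D := by
    intro a ha
    rw [hd, hD]
    refine ⟨?_, ?_⟩
    · have : a⁻¹ * g * a * g⁻¹ = ⁅a⁻¹, g⁆ := by rw [commutatorElement_def, inv_inv]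
      rw [this]
      exact commutator_mem_commutator (mem_top _) (mem_top _)
    · have h1 := hNn.conj_mem a (hAN ha) g
      have : a⁻¹ * g * a * g⁻¹ = a⁻¹ * (g * a * g⁻¹) := by group
      rw [this]
      exact N.mul_mem (N.inv_mem (hAN ha)) h1
  have hga : ∀ a, g * a * g⁻¹ = a * d a := by intro a; rw [hd]; group
  -- multiplicativity modulo `R`
  have hdmul : ∀ a ∈ A, ∀ b ∈ A, ∃ r ∈ R, d (a * b) = d a * r * d b := by
    intro a ha b hb
    refine ⟨(d a)⁻¹ * b⁻¹ * d a * b, hκ _ (hdD a ha) b hb, ?_⟩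
    rw [hd, hd, hd]; group
  -- symmetry
  have hsym : ∀ a ∈ A, ∀ b ∈ A, (d a)⁻¹ * b⁻¹ * d a * b = (d b)⁻¹ * a⁻¹ * d b * a := by
    intro a ha b hb
    have h1 : (a * d a) * (b * d b) = (b * d b) * (a * d a) := by
      rw [← hga, ← hga]
      calc g * a * g⁻¹ * (g * b * g⁻¹) = g * (a * b) * g⁻¹ := by group
        _ = g * (b * a) * g⁻¹ := by rw [hAc a ha b hb]
        _ = _ := by group
    obtain ⟨κ₁, hκ₁⟩ : ∃ κ₁, κ₁ = (d a)⁻¹ * b⁻¹ * d a * b := ⟨_, rfl⟩
    obtain ⟨κ₂, hκ₂⟩ : ∃ κ₂, κ₂ = (d b)⁻¹ * a⁻¹ * d b * a := ⟨_, rfl⟩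
    have hk1 : κ₁ ∈ R := hκ₁ ▸ hκ _ (hdD a ha) b hb
    have hk2 : κ₂ ∈ R := hκ₂ ▸ hκ _ (hdD b hb) a ha
    have e1 : d a * b = b * d a * κ₁ := by rw [hκ₁]; group
    have e2 : d b * a = a * d b * κ₂ := by rw [hκ₂]; group
    rw [← hκ₁, ← hκ₂]
    have h2 : a * b * (d a * d b) * κ₁ = a * b * (d a * d b) * κ₂ := by
      calc a * b * (d a * d b) * κ₁ = a * b * d a * (d b * κ₁) := by group
        _ = a * b * d a * (κ₁ * d b) := by rw [hRD κ₁ hk1 _ (hdD b hb)]
        _ = a * (b * d a * κ₁) * d b := by group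
        _ = a * d a * (b * d b) := by rw [← e1]; group
        _ = (b * d b) * (a * d a) := h1
        _ = b * (d b * a) * d a := by group
        _ = b * (a * d b * κ₂) * d a := by rw [e2]
        _ = b * a * d b * (κ₂ * d a) := by group
        _ = b * a * d b * (d a * κ₂) := by rw [hRD κ₂ hk2 _ (hdD a ha)]
        _ = b * a * (d b * d a) * κ₂ := by group
        _ = a * b * (d a * d b) * κ₂ := by rw [hAc b hb a ha, hDab' _ (hdD b hb) _ (hdD a ha)]
    exact mul_left_cancel h2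
  -- `A_g`
  obtain ⟨Ag, hAg⟩ : ∃ Ag : Subgroup S, ∀ a, a ∈ Ag ↔ a ∈ A ∧ d a ∈ R := by
    refine ⟨{ carrier := {a | a ∈ A ∧ d a ∈ R}
              mul_mem' := ?_, one_mem' := ?_, inv_mem' := ?_ }, fun a => Iff.rfl⟩
    · intro a b ha hb
      obtain ⟨r, hr, he⟩ := hdmul a ha.1 b hb.1
      exact ⟨A.mul_mem ha.1 hb.1, he ▸ R.mul_mem (R.mul_mem ha.2 hr) hb.2⟩
    · refine ⟨A.one_mem, ?_⟩
      have : d 1 = 1 := by rw [hd]; group
      rw [this]; exact R.one_mem
    · intro a ha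
      refine ⟨A.inv_mem ha.1, ?_⟩
      obtain ⟨r, hr, he⟩ := hdmul a ha.1 a⁻¹ (A.inv_mem ha.1)
      have h1 : d (a * a⁻¹) = 1 := by rw [hd]; group
      rw [h1] at he
      have : d a⁻¹ = (d a * r)⁻¹ := eq_inv_of_mul_eq_one_right he.symm
      rw [this]
      exact R.inv_mem (R.mul_mem ha.2 hr)
  have hAgA : Ag ≤ A := fun a ha => ((hAg a).1 ha).1
  have hRD' : R ≤ D := hR ▸ inf_le_right
  -- `E`
  obtain ⟨E, hE⟩ : ∃ E : Subgroup S, E = R ⊔ closure (d '' (A : Set S)) := ⟨_, rfl⟩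
  have hRE : R ≤ E := hE ▸ le_sup_left
  have hdE : ∀ a ∈ A, d a ∈ E := fun a ha => hE ▸ (le_sup_right : _ ≤ R ⊔ _) (subset_closure ⟨a, ha, rfl⟩)
  have hED : E ≤ D := by
    rw [hE]
    refine sup_le hRD' ((closure_le _).2 ?_)
    rintro _ ⟨a, ha, rfl⟩
    exact hdD a ha
  have hEAg : ∀ e ∈ E, ∀ a ∈ Ag, e * a = a * e := by
    have h1 : E ≤ centralizer (Ag : Set S) := by
      rw [hE]
      refine sup_le (fun r hr => ?_) ((closure_le _).2 ?_)
      · rw [mem_centralizer_iff]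
        intro a ha
        exact (hRA r hr a (hAgA ha)).symm
      · rintro _ ⟨b, hb, rfl⟩
        rw [SetLike.mem_coe, mem_centralizer_iff]
        intro a ha
        obtain ⟨haA, har⟩ := (hAg a).1 ha
        have h2 := hsym a haA b hb
        have h3 : (d a)⁻¹ * b⁻¹ * d a * b = 1 := by
          rw [mul_assoc ((d a)⁻¹ * b⁻¹), hRA _ har b hb]; group
        rw [h3] at h2
        calc a * d b = d b * a * ((d b)⁻¹ * a⁻¹ * d b * a)⁻¹ := by
              have : d b * a * ((d b)⁻¹ * a⁻¹ * d b * a)⁻¹ = a * d b * ((d b)⁻¹ * a⁻¹ * d b * a) *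
                ((d b)⁻¹ * a⁻¹ * d b * a)⁻¹ := by group
              rw [this]; group
          _ = d b * a := by rw [← h2]; group
    intro e he a ha
    exact (mem_centralizer_iff.1 (h1 he) a ha).symm
  -- counting
  have hidx : (Ag.subgroupOf A).index ≤ (R.subgroupOf E).index := by
    rw [index_eq_card, index_eq_card]
    have hwd : ∀ a b : A, QuotientGroup.leftRel (Ag.subgroupOf A) a b →
        (QuotientGroup.mk (⟨d a, hdE a a.2⟩ : E) : E ⧸ R.subgroupOf E) = QuotientGroup.mk ⟨d b, hdE b b.2⟩ := by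
      intro a b hab
      rw [QuotientGroup.leftRel_apply, mem_subgroupOf] at hab
      rw [QuotientGroup.eq, mem_subgroupOf]
      obtain ⟨-, h2⟩ := (hAg _).1 hab
      obtain ⟨r, hr, he⟩ := hdmul a a.2 _ (A.mul_mem (A.inv_mem a.2) b.2)
      have h3 : (a : S) * ((a : S)⁻¹ * b) = b := by group
      rw [h3] at he
      show (d a)⁻¹ * d b ∈ R
      rw [he]
      have : (d (a : S))⁻¹ * (d a * r * d ((a : S)⁻¹ * b)) = r * d ((a : S)⁻¹ * b) := by group
      rw [this]
      exact R.mul_mem hr h2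
    refine Nat.card_le_card_of_injective
      (Quotient.lift (fun a : A => (QuotientGroup.mk (⟨d a, hdE a a.2⟩ : E) : E ⧸ R.subgroupOf E)) hwd) ?_
    intro x y
    induction x using QuotientGroup.induction_on with
    | H a =>
    induction y using QuotientGroup.induction_on with
    | H b =>
    intro h
    have h' : (QuotientGroup.mk (⟨d a, hdE a a.2⟩ : E) : E ⧸ R.subgroupOf E) = QuotientGroup.mk ⟨d b, hdE b b.2⟩ := h
    rw [QuotientGroup.eq, mem_subgroupOf] at h'
    have h1 : (d (a : S))⁻¹ * d b ∈ R := h'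
    rw [QuotientGroup.eq, mem_subgroupOf]
    refine (hAg _).2 ⟨A.mul_mem (A.inv_mem a.2) b.2, ?_⟩
    obtain ⟨r, hr, he⟩ := hdmul a a.2 _ (A.mul_mem (A.inv_mem a.2) b.2)
    have h3 : (a : S) * ((a : S)⁻¹ * b) = b := by group
    rw [h3] at he
    show d ((a : S)⁻¹ * b) ∈ R
    have : d ((a : S)⁻¹ * b) = r⁻¹ * ((d a)⁻¹ * d b) := by rw [he]; group
    rw [this]
    exact R.mul_mem (R.inv_mem hr) h1
  have hEAc : IsMulCommutative ↥(E ⊔ Ag) := by
    have h1 : ∀ x ∈ E ⊔ Ag, ∀ y ∈ E ⊔ Ag, x * y = y * x := by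
      have h2 : E ⊔ Ag ≤ centralizer ((E ⊔ Ag : Subgroup S) : Set S) := by
        rw [sup_le_iff, le_centralizer_iff, sup_le_iff]
        refine ⟨⟨?_, ?_⟩, ?_⟩
        · intro x hx
          rw [mem_centralizer_iff]
          intro y hy
          exact hDab' y (hED hy) x (hED hx)
        · intro x hx
          rw [mem_centralizer_iff]
          intro y hy
          exact hEAg y hy x hx
        · rw [le_centralizer_iff, sup_le_iff]
          refine ⟨?_, ?_⟩
          · intro x hx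
            rw [mem_centralizer_iff]
            intro y hy
            exact (hEAg x hx y hy).symm
          · intro x hx
            rw [mem_centralizer_iff]
            intro y hy
            exact hAc y (hAgA hy) x (hAgA hx)
      intro x hx y hy
      exact (mem_centralizer_iff.1 (h2 hx) y hy).symm
    refine ⟨⟨fun x y => Subtype.ext (h1 x x.2 y y.2)⟩⟩
  have hEn : E ≤ normalizer (Ag : Set S) := by
    intro e he
    rw [mem_normalizer_iff]
    intro a
    constructor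
    · intro ha
      rw [hEAg e he a ha]; simpa using ha
    · intro ha
      have h1 := hEAg e he _ ha
      have h2 : a = e * a * e⁻¹ := by
        calc a = e⁻¹ * (e * a * e⁻¹ * e) := by group
          _ = e⁻¹ * (e * (e * a * e⁻¹)) := by rw [h1]
          _ = e * a * e⁻¹ := by group
      rw [h2]; exact ha
  have hcount := H1.card_sup_mul_card_inf_of_le_normalizer hEn
  have hinf : Nat.card ↥(E ⊓ Ag) ≤ Nat.card R := by
    apply L.card_le_of_le
    rw [hR]
    exact le_inf (inf_le_right.trans hAgA) (inf_le_left.trans hED)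
  have hAcard : Nat.card Ag * (Ag.subgroupOf A).index = Nat.card A := by
    rw [← Nat.card_congr (Subgroup.subgroupOfEquivOfLe hAgA).toEquiv]
    exact card_mul_index _
  have hEcard : Nat.card R * (R.subgroupOf E).index = Nat.card E := by
    rw [← Nat.card_congr (Subgroup.subgroupOfEquivOfLe hRE).toEquiv]
    exact card_mul_index _
  have hRpos : 0 < Nat.card R := Nat.card_pos
  have hfin : Nat.card A ≤ Nat.card ↥(E ⊔ Ag) := by
    have h1 : Nat.card A * Nat.card R ≤ Nat.card ↥(E ⊔ Ag) * Nat.card R := by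
      calc Nat.card A * Nat.card R = Nat.card Ag * (Ag.subgroupOf A).index * Nat.card R := by rw [hAcard]
        _ ≤ Nat.card Ag * (R.subgroupOf E).index * Nat.card R :=
            Nat.mul_le_mul_right _ (Nat.mul_le_mul_left _ hidx)
        _ = Nat.card E * Nat.card Ag := by rw [← hEcard]; ring
        _ = Nat.card ↥(E ⊔ Ag) * Nat.card ↥(E ⊓ Ag) := by
            rw [sup_comm, inf_comm, hcount, mul_comm]
        _ ≤ _ := Nat.mul_le_mul_left _ hinf
    exact Nat.le_of_mul_le_mul_right h1 hRpos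
  have hmem := mem_maxAb_of_card hA hEAc hfin
  have hle : E ⊔ Ag ≤ N := sup_le (hED.trans (hD ▸ inf_le_right)) (hAgA.trans hAN)
  have hm := hmax _ ⟨hmem, hle⟩
  have hEle : E ≤ (E ⊔ Ag) ⊓ commutator S := le_inf le_sup_left (hED.trans (hD ▸ inf_le_left))
  have hRE' : R = E := by
    apply eq_of_le_of_card_ge hRE
    rw [hRcard]
    exact (L.card_le_of_le hEle).trans hm
  rw [hga]
  have := hdE a₀ ha₀
  rw [← hRE', hR] at this
  exact A.mul_mem ha₀ this.1

end Cfsg.Agent.H19
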