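import Mathlib
import Cfsg.Agent.H10.AxB
import Cfsg.Agent.H10.Comp
import Cfsg.Agent.H10.PLoc4
import Cfsg.Agent.H10.Sig
import Cfsg.Agent.H1.Cores
import Cfsg.Agent.H1.Coprime
import Cfsg.Agent.H19.CLarge

/-!
# Cores of involution centralizers inverted by an involution
-/

set_option autoImplicit false
set_option linter.style.haveILetI false

namespace Cfsg.Agent.H19

open Subgroup Cfsg
open scoped Pointwise

variable {X : Type*} [Group X]

theorem inv_of_fpf' {K : Subgroup X} [Finite K] {t : X} (ht : t * t = 1)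
    (hn : ∀ k ∈ K, t * k * t⁻¹ ∈ K) (hf : ∀ k ∈ K, t * k = k * t → k = 1) :
    ∀ k ∈ K, t * k * t⁻¹ = k⁻¹ := by
  let φ : K →* K :=
    { toFun := fun k => ⟨t * k * t⁻¹, hn k k.2⟩
      map_one' := by simp
      map_mul' := fun a b => by simp [mul_assoc] }
  have h1 : MonoidHom.FixedPointFree φ := by
    intro k hk
    apply Subtype.ext
    apply hf k k.2
    have := congrArg Subtype.val hk
    exact mul_inv_eq_iff_eq_mul.1 this
  have hti : t⁻¹ = t := inv_eq_of_mul_eq_one_left ht
  have h2 : Function.Involutive φ := by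
    intro k
    apply Subtype.ext
    show t * (t * k * t⁻¹) * t⁻¹ = k
    rw [hti]
    calc t * (t * k * t) * t = (t * t) * k * (t * t) := by group
      _ = k := by rw [ht]; simp
  intro k hk
  have h3 := MonoidHom.FixedPointFree.coe_eq_inv_of_involutive h1 h2
  have h4 := congrArg Subtype.val (congrFun h3 ⟨k, hk⟩)
  exact h4

theorem comm_of_inverted {K : Subgroup X} {t : X} (h : ∀ k ∈ K, t * k * t⁻¹ = k⁻¹) :
    ∀ x ∈ K, ∀ y ∈ K, x * y = y * x := by
  intro x hx y hy
  have h1 := h _ (mul_mem hx hy)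
  have h2 : t * (x * y) * t⁻¹ = (t * x * t⁻¹) * (t * y * t⁻¹) := by group
  rw [h2, h x hx, h y hy] at h1
  have h3 := congrArg (·⁻¹) h1
  simp only [mul_inv_rev, inv_inv] at h3
  exact h3.symm

/-- the `2`-core of `C(y)` inside the group -/
def c2 (y : X) : Subgroup X := (pCore 2 ↥(centralizer ({y} : Set X))).map (centralizer ({y} : Set X)).subtype

theorem c2_isPGroup [Finite X] (y : X) : IsPGroup 2 (c2 y) := (H10.pCore_isPGroup 2 _).map _

theorem le_normalizer_of_conj {A M : Subgroup X} (h : ∀ a ∈ A, ∀ m ∈ M, a * m * a⁻¹ ∈ M) :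
    A ≤ normalizer (M : Set X) := by
  intro a ha
  rw [mem_normalizer_iff]
  intro m
  refine ⟨h a ha m, fun hm => ?_⟩
  have h1 := h a⁻¹ (inv_mem ha) _ hm
  have : a⁻¹ * (a * m * a⁻¹) * a⁻¹⁻¹ = m := by group
  rwa [this] at h1

theorem c2_le (y : X) : c2 y ≤ centralizer {y} := Subgroup.map_subtype_le _

theorem centralizer_le_normalizer_c2 [Finite X] (y : X) : centralizer {y} ≤ normalizer (c2 y : Set X) := by
  have h := H1.pCore_normal 2 ↥(centralizer ({y} : Set X))
  apply le_normalizer_of_conj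
  rintro g hg _ ⟨z, hz, rfl⟩
  exact ⟨⟨g, hg⟩ * z * ⟨g, hg⟩⁻¹, h.conj_mem z hz ⟨g, hg⟩, rfl⟩

theorem inf_eq_bot_of_odd_two [Finite X] {D Q : Subgroup X} (hD : (Nat.card D).Coprime 2) (hQ : IsPGroup 2 Q) :
    D ⊓ Q = ⊥ := by
  apply H1.inf_eq_bot_of_card_coprime
  obtain ⟨n, hn⟩ := IsPGroup.iff_card.mp hQ
  rw [hn]
  exact hD.pow_right n

/-- `O(C(y)) ∩ C(w)` centralizes `O₂(C(w))` for commuting involutions `y`, `w` -/
theorem cppc_inf_commutes_c2 [Finite X] {y w : X} (hy2 : y * y = 1) (hyw : y * w = w * y) :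
    ⁅c2 w, centralizerPPrimeCore 2 y ⊓ centralizer {w}⁆ = ⊥ := by
  haveI : Fact (Nat.Prime 2) := ⟨Nat.prime_two⟩
  set D := centralizerPPrimeCore 2 y ⊓ centralizer {w} with hD
  have hDodd : (Nat.card D).Coprime 2 :=
    Nat.Coprime.coprime_dvd_left (Subgroup.card_dvd_of_le inf_le_left) (H10.cppc_coprime 2 y)
  have hyp : IsPGroup 2 (zpowers y) := by
    apply H10.isPGroup_zpowers
    rcases eq_or_ne y 1 with h | h
    · rw [h]; exact ⟨0, by simp⟩
    · exact ⟨1, by rw [pow_one, sq]; exact hy2⟩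
  have hyC : y ∈ centralizer ({w} : Set X) := by rw [mem_centralizer_singleton_iff]; exact hyw.symm ▸ rfl
  apply H10.axb_coprime (A := D) (B := zpowers y) (p := 2) _ hyp hDodd (c2_isPGroup w)
    (inf_le_right.trans (centralizer_le_normalizer_c2 w))
  · rw [zpowers_le]
    exact centralizer_le_normalizer_c2 w hyC
  · -- `[Q ∩ C(y), D] ≤ Q ∩ D = 1`
    rw [eq_bot_iff, ← inf_eq_bot_of_odd_two hDodd (c2_isPGroup w)]
    have h1 : c2 w ⊓ centralizer ((zpowers y : Subgroup X) : Set X) ≤ normalizer (D : Set X) := by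
      intro g hg
      have hgy : g ∈ centralizer ({y} : Set X) := by
        have := hg.2
        rw [SetLike.mem_coe, H10.centralizer_zpowers_eq] at this
        exact this
      have hgw : g ∈ centralizer ({w} : Set X) := c2_le w hg.1
      have h2 := H10.centralizer_le_normalizer_cppc 2 y hgy
      rw [mem_normalizer_iff] at h2 ⊢
      intro d
      have h3 : d ∈ centralizer ({w} : Set X) ↔ g * d * g⁻¹ ∈ centralizer ({w} : Set X) := by
        constructor
        · intro h; exact mul_mem (mul_mem hgw h) (inv_mem hgw)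
        · intro h
          have := mul_mem (mul_mem (inv_mem hgw) h) hgw
          have e : g⁻¹ * (g * d * g⁻¹) * g = d := by group
          rwa [e] at this
      rw [hD, mem_inf, mem_inf, h2 d, h3]
    refine le_inf ?_ ?_
    · rw [Subgroup.commutator_comm]
      exact H1.commutator_le_left_of_le_normalizer h1
    · calc ⁅c2 w ⊓ centralizer ((zpowers y : Subgroup X) : Set X), D⁆ ≤ ⁅c2 w, D⁆ :=
            Subgroup.commutator_mono inf_le_left le_rfl
        _ ≤ c2 w := H1.commutator_le_left_of_le_normalizer (inf_le_right.trans (centralizer_le_normalizer_c2 w))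
  · -- `[D, ⟨y⟩] = 1`
    rw [Subgroup.commutator_eq_bot_iff_le_centralizer, H10.centralizer_zpowers_eq]
    exact inf_le_left.trans (H10.cppc_le_centralizer 2 y)

theorem pow_card_of_mem [Finite X] {H : Subgroup X} {x : X} (hx : x ∈ H) : x ^ Nat.card H = 1 := by
  have := congrArg Subtype.val (pow_card_eq_one' (x := (⟨x, hx⟩ : H)))
  exact this

theorem mem_pPrimeCore_of_fitting [Finite X] {d : X} (hd : d ∈ fittingSubgroup X) {D : Subgroup X}
    (hdD : d ∈ D) (hD : (Nat.card D).Coprime 2) : d ∈ pPrimeCore 2 X := by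
  haveI : Fact (Nat.Prime 2) := ⟨Nat.prime_two⟩
  have hn1 := H1.pCore_normal 2 X
  have hn2 := H1.pPrimeCore_normal 2 X
  rw [H1.fitting_eq_iSup_pCore] at hd
  have h1 := H1.iSup_pCore_eq_sup (G := X) 2 hd
  rw [Subgroup.mem_sup_of_normal_left] at h1
  obtain ⟨a, ha, b, hb, rfl⟩ := h1
  have hab : Commute a b := by
    have h2 : ⁅pCore 2 X, pPrimeCore 2 X⁆ = ⊥ := by
      rw [eq_bot_iff, ← H1.pCore_inf_pPrimeCore (G := X) 2]
      exact Subgroup.commutator_le_inf _ _
    have h3 := Subgroup.commutator_eq_bot_iff_le_centralizer.mp h2 ha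
    exact (mem_centralizer_iff.mp h3 b hb).symm
  have hodd1 : Odd (Nat.card D) := Nat.coprime_two_right.mp hD
  have hodd2 : Odd (Nat.card (pPrimeCore 2 X)) := Nat.coprime_two_right.mp (H1.pPrimeCore_coprime 2 X)
  have h4 : (a * b) ^ (Nat.card D * Nat.card (pPrimeCore 2 X)) = 1 := by
    rw [pow_mul, pow_card_of_mem hdD, one_pow]
  have h5 : b ^ (Nat.card D * Nat.card (pPrimeCore 2 X)) = 1 := by
    rw [mul_comm, pow_mul, pow_card_of_mem hb, one_pow]
  rw [hab.mul_pow, h5, mul_one] at h4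
  have h6 : orderOf a ∣ Nat.card D * Nat.card (pPrimeCore 2 X) := orderOf_dvd_of_pow_eq_one h4
  have h7 : Odd (orderOf a) := Odd.of_dvd_nat (hodd1.mul hodd2) h6
  obtain ⟨k, hk⟩ := IsPGroup.iff_orderOf.mp (H1.pCore_isPGroup 2 X) ⟨a, ha⟩
  rw [Subgroup.orderOf_mk] at hk
  rw [hk] at h7
  have hk0 : k = 0 := by
    by_contra hk0
    exact (Nat.not_even_iff_odd.mpr h7) ((Nat.even_pow.mpr ⟨even_two, hk0⟩))
  rw [hk0, pow_zero, orderOf_eq_one_iff] at hk
  rw [hk, one_mul]
  exact hb

/-- the key situation: `z` is an involution of `Y` with `F*(C(z)) = O₂(C(z))` -/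
theorem cppc_inf_centralizer_eq_bot [Finite X] {y z : X} (hy2 : y * y = 1) (hyz : y * z = z * y)
    (hz : generalizedFittingSubgroup ↥(centralizer ({z} : Set X)) = pCore 2 ↥(centralizer ({z} : Set X))) :
    centralizerPPrimeCore 2 y ⊓ centralizer {z} = ⊥ := by
  haveI : Fact (Nat.Prime 2) := ⟨Nat.prime_two⟩
  set D := centralizerPPrimeCore 2 y ⊓ centralizer {z} with hD
  have hDodd : (Nat.card D).Coprime 2 :=
    Nat.Coprime.coprime_dvd_left (Subgroup.card_dvd_of_le inf_le_left) (H10.cppc_coprime 2 y)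
  have h1 := cppc_inf_commutes_c2 hy2 hyz
  have h2 : D ≤ c2 z := by
    intro d hd
    have h3 : (⟨d, hd.2⟩ : ↥(centralizer ({z} : Set X))) ∈
        centralizer (generalizedFittingSubgroup ↥(centralizer ({z} : Set X)) : Set ↥(centralizer ({z} : Set X))) := by
      rw [hz, mem_centralizer_iff]
      intro q hq
      apply Subtype.ext
      have h4 : (q : X) ∈ c2 z := ⟨q, hq, rfl⟩
      have h5 := Subgroup.commutator_eq_bot_iff_le_centralizer.mp h1 h4
      exact (mem_centralizer_iff.mp h5 d hd).symm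
    have h6 := H10.centralizer_genFitting_le h3
    rw [hz] at h6
    exact ⟨_, h6, rfl⟩
  rw [eq_bot_iff, ← inf_eq_bot_of_odd_two hDodd (c2_isPGroup z)]
  exact le_inf le_rfl h2

/-- `O(C(y))` is inverted by `z` -/
theorem cppc_inverted [Finite X] {y z : X} (hy2 : y * y = 1) (hz2 : z * z = 1) (hyz : y * z = z * y)
    (hz : generalizedFittingSubgroup ↥(centralizer ({z} : Set X)) = pCore 2 ↥(centralizer ({z} : Set X))) :
    ∀ k ∈ centralizerPPrimeCore 2 y, z * k * z⁻¹ = k⁻¹ := by
  apply inv_of_fpf' hz2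
  · intro k hk
    have h1 : z ∈ centralizer ({y} : Set X) := by rw [mem_centralizer_singleton_iff]; exact hyz.symm
    exact (mem_normalizer_iff.mp (H10.centralizer_le_normalizer_cppc 2 y h1) k).mp hk
  · intro k hk hkz
    have : k ∈ centralizerPPrimeCore 2 y ⊓ centralizer {z} :=
      mem_inf.mpr ⟨hk, by rw [mem_centralizer_singleton_iff]; exact hkz.symm⟩
    rw [cppc_inf_centralizer_eq_bot hy2 hyz hz, mem_bot] at this
    exact this

/-- balance -/
theorem cppc_balance [Finite X] {y w z : X} (hy2 : y * y = 1) (hw2 : w * w = 1) (hz2 : z * z = 1)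
    (hyw : y * w = w * y) (hyz : y * z = z * y) (hwz : w * z = z * w)
    (hE : layer ↥(centralizer ({w} : Set X)) = ⊥)
    (hz : generalizedFittingSubgroup ↥(centralizer ({z} : Set X)) = pCore 2 ↥(centralizer ({z} : Set X))) :
    centralizerPPrimeCore 2 y ⊓ centralizer {w} ≤ centralizerPPrimeCore 2 w := by
  haveI : Fact (Nat.Prime 2) := ⟨Nat.prime_two⟩
  set D := centralizerPPrimeCore 2 y ⊓ centralizer {w} with hD
  have hDodd : (Nat.card D).Coprime 2 :=
    Nat.Coprime.coprime_dvd_left (Subgroup.card_dvd_of_le inf_le_left) (H10.cppc_coprime 2 y)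
  have hinvy := cppc_inverted hy2 hz2 hyz hz
  have hinvw := cppc_inverted hw2 hz2 hwz hz
  have hfixw : centralizerPPrimeCore 2 w ⊓ centralizer {z} = ⊥ := cppc_inf_centralizer_eq_bot hw2 hwz hz
  have hDN : D ≤ normalizer (centralizerPPrimeCore 2 w : Set X) :=
    inf_le_right.trans (H10.centralizer_le_normalizer_cppc 2 w)
  have hinvT : ∀ t ∈ centralizerPPrimeCore 2 w, z * t * z⁻¹ ∈ centralizerPPrimeCore 2 w := by
    intro t ht; rw [hinvw t ht]; exact inv_mem ht
  -- `K = D T` is inverted by `z`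
  have hKmem : ∀ {k : X}, k ∈ D ⊔ centralizerPPrimeCore 2 w ↔ ∃ d ∈ D, ∃ t ∈ centralizerPPrimeCore 2 w, d * t = k := by
    intro k
    rw [sup_comm]
    exact H1.mem_sup_iff_of_le_normalizer' hDN
  have hsqrt : ∀ d ∈ D, d * d ∈ centralizerPPrimeCore 2 w → d ∈ centralizerPPrimeCore 2 w := by
    intro d hd h
    have hodd : Odd (orderOf d) := by
      have h1 : orderOf d ∣ Nat.card D := by
        have := orderOf_dvd_natCard (⟨d, hd⟩ : D)
        rwa [Subgroup.orderOf_mk] at this
      exact Odd.of_dvd_nat (Nat.coprime_two_right.mp hDodd) h1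
    obtain ⟨m, hm⟩ := hodd
    have h2 : d = (d * d) ^ (m + 1) := by
      rw [← sq, ← pow_mul]
      have : 2 * (m + 1) = orderOf d + 1 := by omega
      rw [this, pow_succ, pow_orderOf_eq_one, one_mul]
    rw [h2]
    exact pow_mem h _
  have hKinv : ∀ k ∈ D ⊔ centralizerPPrimeCore 2 w, z * k * z⁻¹ = k⁻¹ := by
    apply inv_of_fpf' hz2
    · intro k hk
      obtain ⟨d, hd, t, ht, rfl⟩ := hKmem.mp hk
      have e : z * (d * t) * z⁻¹ = (z * d * z⁻¹) * (z * t * z⁻¹) := by group
      rw [e, hinvy d hd.1, hinvw t ht]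
      exact mul_mem (inv_mem ((le_sup_left : D ≤ _) hd)) (inv_mem ((le_sup_right : centralizerPPrimeCore 2 w ≤ _) ht))
    · intro k hk hkz
      obtain ⟨d, hd, t, ht, rfl⟩ := hKmem.mp hk
      have e : z * (d * t) * z⁻¹ = (z * d * z⁻¹) * (z * t * z⁻¹) := by group
      rw [hinvy d hd.1, hinvw t ht] at e
      have e2 : z * (d * t) * z⁻¹ = d * t := by rw [hkz]; group
      rw [e2] at e
      -- `d t = d⁻¹ t⁻¹`
      have h1 : d * d = t⁻¹ * t⁻¹ := by
        have : d * (d * t) = d * (d⁻¹ * t⁻¹) := by rw [e]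
        have h2 : d * d * t = t⁻¹ := by
          calc d * d * t = d * (d * t) := by group
            _ = d * (d⁻¹ * t⁻¹) := this
            _ = _ := by group
        calc d * d = (d * d * t) * t⁻¹ := by group
          _ = _ := by rw [h2]
      have h2 := hsqrt d hd (by rw [h1]; exact mul_mem (inv_mem ht) (inv_mem ht))
      have h3 : d * t ∈ centralizerPPrimeCore 2 w ⊓ centralizer {z} :=
        mem_inf.mpr ⟨mul_mem h2 ht, by rw [mem_centralizer_singleton_iff]; exact hkz.symm⟩
      rw [hfixw, mem_bot] at h3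
      exact h3
  have hKcomm := comm_of_inverted hKinv
  have hc2 := cppc_inf_commutes_c2 hy2 hyw
  intro d hd
  -- `d` centralizes the Fitting subgroup of `C(w)`
  set C := centralizer ({w} : Set X) with hC
  have hFit : (⟨d, hd.2⟩ : C) ∈ centralizer (generalizedFittingSubgroup C : Set C) := by
    have h1 : generalizedFittingSubgroup C ≤ centralizer ({(⟨d, hd.2⟩ : C)} : Set C) := by
      unfold generalizedFittingSubgroup
      rw [hE, bot_sup_eq, H1.fitting_eq_iSup_pCore]
      refine (H1.iSup_pCore_eq_sup (G := C) 2).trans (sup_le ?_ ?_)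
      · intro q hq
        rw [mem_centralizer_singleton_iff]
        apply Subtype.ext
        have h4 : (q : X) ∈ c2 w := ⟨q, hq, rfl⟩
        have h5 := Subgroup.commutator_eq_bot_iff_le_centralizer.mp hc2 h4
        exact (mem_centralizer_iff.mp h5 d hd).symm
      · intro q hq
        rw [mem_centralizer_singleton_iff]
        apply Subtype.ext
        have h4 : (q : X) ∈ centralizerPPrimeCore 2 w := ⟨q, hq, rfl⟩
        exact hKcomm q ((le_sup_right : centralizerPPrimeCore 2 w ≤ D ⊔ _) h4) d ((le_sup_left : D ≤ _) hd)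
    rw [mem_centralizer_iff]
    intro q hq
    exact mem_centralizer_singleton_iff.mp (h1 hq)
  have h1 := H10.centralizer_genFitting_le_fitting hFit
  have h2 := mem_pPrimeCore_of_fitting h1 (D := D.subgroupOf C) (by rw [mem_subgroupOf]; exact hd) (by
    rw [H1.card_subgroupOf (inf_le_right : D ≤ C)]; exact hDodd)
  exact ⟨_, h2, rfl⟩

theorem cppc_conj [Finite X] (p : ℕ) (g y : X) :
    (centralizerPPrimeCore p y).map (MulAut.conj g).toMonoidHom = centralizerPPrimeCore p (g * y * g⁻¹) := by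
  have h0 : ∀ {u : X}, u ∈ centralizer ({y} : Set X) → g * u * g⁻¹ ∈ centralizer ({g * y * g⁻¹} : Set X) := by
    intro u hu
    rw [mem_centralizer_singleton_iff] at hu ⊢
    calc g * u * g⁻¹ * (g * y * g⁻¹) = g * (u * y) * g⁻¹ := by group
      _ = g * (y * u) * g⁻¹ := by rw [hu]
      _ = _ := by group
  have h0' : ∀ {u : X}, u ∈ centralizer ({g * y * g⁻¹} : Set X) → g⁻¹ * u * g ∈ centralizer ({y} : Set X) := by
    intro u hu
    rw [mem_centralizer_singleton_iff] at hu ⊢
    calc g⁻¹ * u * g * y = g⁻¹ * (u * (g * y * g⁻¹)) * g := by group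
      _ = g⁻¹ * ((g * y * g⁻¹) * u) * g := by rw [hu]
      _ = _ := by group
  let e : centralizer ({y} : Set X) ≃* centralizer ({g * y * g⁻¹} : Set X) :=
    { toFun := fun u => ⟨g * u * g⁻¹, h0 u.2⟩
      invFun := fun u => ⟨g⁻¹ * u * g, h0' u.2⟩
      left_inv := fun u => by apply Subtype.ext; simp; group
      right_inv := fun u => by apply Subtype.ext; simp; group
      map_mul' := fun u v => by apply Subtype.ext; simp }
  have h1 : (pPrimeCore p ↥(centralizer ({y} : Set X))).map e.toMonoidHom = pPrimeCore p ↥(centralizer ({g * y * g⁻¹} : Set X)) := by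
    have key : ∀ {A B : Type _} [Group A] [Group B] [Finite A] [Finite B] (f : A ≃* B),
        (pPrimeCore p A).map f.toMonoidHom ≤ pPrimeCore p B := by
      intro A B _ _ _ _ f
      apply H10.le_pPrimeCore (H10.normal_map_equiv (H1.pPrimeCore_normal p A) f)
      rw [H10.card_map_equiv]
      exact H10.pPrimeCore_coprime p A
    apply le_antisymm (key e)
    intro x hx
    have h2 := key e.symm ⟨x, hx, rfl⟩
    exact ⟨_, h2, e.apply_symm_apply x⟩
  unfold centralizerPPrimeCore
  rw [← h1]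
  ext x
  constructor
  · rintro ⟨_, ⟨u, hu, rfl⟩, rfl⟩
    exact ⟨e u, ⟨u, hu, rfl⟩, rfl⟩
  · rintro ⟨_, ⟨u, hu, rfl⟩, rfl⟩
    exact ⟨u, ⟨u, hu, rfl⟩, rfl⟩

end Cfsg.Agent.H19
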