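import Mathlib
import Cfsg.Agent.FT
import Cfsg.Agent.H4.AutCent3
import Cfsg.Prelude.Def_KGroupFacts

set_option autoImplicit false
set_option linter.all false

/-! Solvability of `Out(G)` from the action on a Sylow 2-subgroup. -/

namespace Cfsg.Agent.H19

open Subgroup Cfsg
open scoped Pointwise commutatorElement

universe u
variable {G : Type u} [Group G] [Finite G]

/-- the automorphisms of `G` mapping `S` onto `S` -/
def autStab (S : Subgroup G) : Subgroup (MulAut G) where
  carrier := {φ | ∀ s, φ s ∈ S ↔ s ∈ S}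
  one_mem' := fun s => Iff.rfl
  mul_mem' := by
    intro a b ha hb s
    change a (b s) ∈ S ↔ s ∈ S
    rw [ha, hb]
  inv_mem' := by
    intro a ha s
    have := ha (a⁻¹ s)
    rw [MulAut.apply_inv_self] at this
    exact this.symm

/-- restriction to `S` -/
def autRestr (S : Subgroup G) : autStab S →* MulAut S where
  toFun φ :=
    { toFun := fun s => ⟨(φ : MulAut G) s, (φ.2 s).2 s.2⟩
      invFun := fun s => ⟨(φ : MulAut G)⁻¹ s, ((φ⁻¹).2 s).2 s.2⟩
      left_inv := fun s => by ext; simp
      right_inv := fun s => by ext; simp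
      map_mul' := fun a b => by ext; simp }
  map_one' := by ext; simp
  map_mul' a b := by ext; simp

theorem autRestr_apply (S : Subgroup G) (φ : autStab S) (s : S) :
    ((autRestr S φ s : S) : G) = (φ : MulAut G) s := rfl

theorem exists_inn_mul_stab (S : Sylow 2 G) (φ : MulAut G) :
    ∃ g : G, MulAut.conj g * φ ∈ autStab (S : Subgroup G) := by
  haveI : Fact (Nat.Prime 2) := ⟨Nat.prime_two⟩
  obtain ⟨g, hg⟩ := MulAction.exists_smul_eq G (φ • S) S
  refine ⟨g, fun s => ?_⟩
  have h1 : (S : Subgroup G) = ((g • (φ • S) : Sylow 2 G) : Subgroup G) := by rw [hg]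
  have key : ∀ s, s ∈ (S : Subgroup G) → (MulAut.conj g * φ) s ∈ (S : Subgroup G) := by
    intro s hs
    rw [h1]
    refine ⟨φ s, ⟨s, hs, rfl⟩, rfl⟩
  refine ⟨fun hs => ?_, key s⟩
  rw [h1] at hs
  obtain ⟨x, ⟨y, hy, rfl⟩, hx⟩ := hs
  have : (MulAut.conj g * φ) y = (MulAut.conj g * φ) s := hx
  rw [(MulAut.conj g * φ).injective this] at hy
  exact hy

theorem hO_of_simple [IsSimpleGroup G] (hG : ¬ IsMulCommutative G) (S : Sylow 2 G)
    (hS1 : (S : Subgroup G) ≠ ⊥) (N : Subgroup G) (hN : N.Normal) (hodd : Odd (Nat.card N)) : N = ⊥ := by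
  haveI : Fact (Nat.Prime 2) := ⟨Nat.prime_two⟩
  rcases hN.eq_bot_or_eq_top with h | h
  · exact h
  · exfalso
    rw [h, Subgroup.card_top] at hodd
    apply hS1
    have h1 := S.2.card_eq_or_dvd
    rcases h1 with h1 | h1
    · exact Subgroup.card_eq_one.1 h1
    · exfalso
      have h2 : 2 ∣ Nat.card G := h1.trans (Subgroup.card_subgroup_dvd_card _)
      rw [← Nat.not_even_iff_odd] at hodd
      exact hodd (even_iff_two_dvd.2 h2)

/-- if `O(G) = 1` and the automorphisms of `G` stabilizing a Sylow 2-subgroup `S` induce a solvable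
group on `S`, then `Out(G)` is solvable -/
theorem out_solvable_of_range (S : Sylow 2 G)
    (hO : ∀ N : Subgroup G, N.Normal → Odd (Nat.card N) → N = ⊥)
    (hR : Group.IsSolvable (autRestr (S : Subgroup G)).range) : Group.IsSolvable (Out G) := by
  haveI : Fact (Nat.Prime 2) := ⟨Nat.prime_two⟩
  have hker : Group.IsSolvable (autRestr (S : Subgroup G)).ker := by
    have h1 : Group.IsSolvable (((autRestr (S : Subgroup G)).ker).map (autStab (S : Subgroup G)).subtype) := by
      apply H4.AutC.solvable (S := S) (fun N hN => FT.odd_order hN) hO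
      rintro _ ⟨φ, hφ, rfl⟩ s hs
      have h2 : autRestr (S : Subgroup G) φ = 1 := hφ
      have h3 := autRestr_apply (S : Subgroup G) φ ⟨s, hs⟩
      rw [h2] at h3
      exact h3.symm
    haveI := h1
    exact solvable_of_solvable_injective
      (f := (((autRestr (S : Subgroup G)).ker).equivMapOfInjective _ (autStab (S : Subgroup G)).subtype_injective).toMonoidHom)
      (MulEquiv.injective _)
  have hstab : Group.IsSolvable (autStab (S : Subgroup G)) := by
    haveI := hker
    haveI := hR
    apply solvable_of_ker_le_range ((autRestr (S : Subgroup G)).ker.subtype) (autRestr (S : Subgroup G)).rangeRestrict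
    rw [MonoidHom.ker_rangeRestrict, Subgroup.range_subtype]
  haveI := hstab
  apply solvable_of_surjective (f := (QuotientGroup.mk' (Inn G)).comp (autStab (S : Subgroup G)).subtype)
  intro x
  obtain ⟨φ, rfl⟩ := QuotientGroup.mk'_surjective _ x
  obtain ⟨g, hg⟩ := exists_inn_mul_stab S φ
  refine ⟨⟨_, hg⟩, ?_⟩
  change QuotientGroup.mk' (Inn G) (MulAut.conj g * φ) = QuotientGroup.mk' (Inn G) φ
  rw [map_mul]
  have : QuotientGroup.mk' (Inn G) (MulAut.conj g) = 1 := by
    rw [← MonoidHom.mem_ker, QuotientGroup.ker_mk']; exact ⟨g, rfl⟩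
  rw [this, one_mul]

end Cfsg.Agent.H19
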