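import Mathlib
import Cfsg.Agent.S4441
import Cfsg.Agent.H27.Ch12C
import Cfsg.Agent.H27.Burnside
import Cfsg.Agent.H27.PMod
import Cfsg.Agent.H27.CentralChar
import Cfsg.Agent.H3.BurnsidePQ
import Cfsg.Agent.H3.BrauerC
import Cfsg.Agent.H27.Util

/-!
# Groups all of whose nonlinear irreducible characters have prime degree are solvable
-/

set_option autoImplicit false
set_option linter.unusedSectionVars false
set_option linter.unusedVariables false
set_option linter.style.haveILetI false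

namespace Cfsg.Agent.H19.PD

open Cfsg Cfsg.Agent.H3 Cfsg.Agent.H27 Subgroup
open scoped commutatorElement

universe u

theorem irr_comm_of_norm' {G : Type u} [Group G] [Finite G] {ξ : G → ℂ} (hξ : IsCharacter G ξ) {x : G}
    (hx : ‖ξ x‖ = charDegree ξ) (g : G) : ξ (x * g * x⁻¹ * g⁻¹) = ξ 1 := by
  obtain ⟨n, ρ, rfl⟩ := hξ
  have h2 : (charDegree (ρ.character) : ℂ) = ρ.character 1 := charDegree_cast ⟨n, ρ, rfl⟩
  rw [Representation.char_one] at h2
  have h3 : charDegree ρ.character = Module.finrank ℂ (Fin n → ℂ) := by exact_mod_cast h2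
  rw [h3] at hx
  have h4 := rep_scalar_of_norm_eq ρ x hx
  set z := ρ.character x / (Module.finrank ℂ (Fin n → ℂ) : ℂ)
  have h5 : ρ (x * g) = ρ (g * x) := by
    rw [map_mul, map_mul, h4]
    ext v
    simp
  have h6 : ρ (x * g * x⁻¹ * g⁻¹) = 1 := by
    have : x * g * x⁻¹ * g⁻¹ = (x * g) * (g * x)⁻¹ := by group
    rw [this, map_mul, h5, ← map_mul, mul_inv_cancel, map_one]
  change LinearMap.trace ℂ _ (ρ (x * g * x⁻¹ * g⁻¹)) = LinearMap.trace ℂ _ (ρ 1)
  rw [h6, map_one ρ]

section simple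
variable {G : Type u} [Group G] [Finite G] [IsSimpleGroup G]

theorem faithful {χ : IrrCharacter G} (h : charDegree (χ : G → ℂ) ≠ 1) {g : G}
    (hg : (χ : G → ℂ) g = (χ : G → ℂ) 1) : g = 1 := by
  have h1 : χ ≠ oneIrr G := by rintro rfl; exact h charDegree_oneIrr
  have h2 := charKer_simple h1
  have h3 : g ∈ charKer (irr_isChar χ.2) := hg
  rw [h2] at h3
  exact h3

theorem center_bot (hna : ∃ a b : G, a * b ≠ b * a) : center G = ⊥ := by
  rcases (inferInstance : (center G).Normal).eq_bot_or_eq_top with h | h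
  · exact h
  · exfalso
    obtain ⟨a, b, hab⟩ := hna
    have hb : b ∈ center G := by rw [h]; exact mem_top b
    exact hab (mem_center_iff.1 hb a)

theorem vanish (hna : ∃ a b : G, a * b ≠ b * a) {q : ℕ} [hq : Fact q.Prime] (S : Sylow q G)
    {χ : IrrCharacter G} (hχ : charDegree (χ : G → ℂ) = q) {z : G} (hzc : ∀ s ∈ (S : Subgroup G), s * z = z * s)
    (hz1 : z ≠ 1) : (χ : G → ℂ) z = 0 := by
  haveI := Fintype.ofFinite G
  have hcop : Nat.Coprime (charDegree (χ : G → ℂ)) (centralizer ({z} : Set G)).index := by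
    rw [hχ, Nat.Prime.coprime_iff_not_dvd hq.out]
    intro hd
    have hle : (S : Subgroup G) ≤ centralizer ({z} : Set G) := by
      intro s hs
      rw [mem_centralizer_singleton_iff]
      exact hzc s hs
    exact S.not_dvd_index (hd.trans (Subgroup.index_dvd_of_le hle))
  rcases irr_coprime_class χ.2 z hcop with h | h
  · exact h
  · exfalso
    apply hz1
    have h1 : z ∈ center G := by
      rw [mem_center_iff]
      intro g
      have h2 := irr_comm_of_norm' (irr_isChar χ.2) h g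
      have h3 := faithful (by rw [hχ]; exact hq.out.one_lt.ne') h2
      rw [mul_inv_eq_one, mul_inv_eq_iff_eq_mul] at h3
      exact h3.symm
    rw [center_bot hna] at h1
    exact h1

theorem sylow_comm (hna : ∃ a b : G, a * b ≠ b * a) {q : ℕ} [hq : Fact q.Prime] (S : Sylow q G)
    {χ : IrrCharacter G} (hχ : charDegree (χ : G → ℂ) = q) :
    ∀ a ∈ (S : Subgroup G), ∀ b ∈ (S : Subgroup G), a * b = b * a := by
  classical
  by_contra hcon
  push Not at hcon
  obtain ⟨a, ha, b, hb, hab⟩ := hcon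
  haveI := Fintype.ofFinite ↥(S : Subgroup G)
  have hχS : IsCharacter ↥(S : Subgroup G) (fun s : ↥(S : Subgroup G) => (χ : G → ℂ) s) :=
    isChar_restrict (S : Subgroup G) (irr_isChar χ.2)
  have hne1 : charDegree (χ : G → ℂ) ≠ 1 := by rw [hχ]; exact hq.out.one_lt.ne'
  set c : ↥(S : Subgroup G) := ⁅(⟨a, ha⟩ : ↥(S : Subgroup G)), ⟨b, hb⟩⁆ with hcdef
  have hc : c ∈ _root_.commutator ↥(S : Subgroup G) := by
    rw [_root_.commutator_def]; exact commutator_mem_commutator (mem_top _) (mem_top _)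
  have hc1 : c ≠ 1 := by
    intro h1
    apply hab
    exact congrArg Subtype.val (commutatorElement_eq_one_iff_mul_comm.1 h1)
  have h1 : ¬ ∀ ψ : IrrCharacter ↥(S : Subgroup G),
      classInner (fun s : ↥(S : Subgroup G) => (χ : G → ℂ) s) ψ ≠ 0 → (ψ : ↥(S : Subgroup G) → ℂ) 1 = 1 := by
    intro hall
    have h2 := char_commutator_of_all_linear hχS hall hc
    exact hc1 (Subtype.ext (faithful hne1 (g := (c : G)) h2))
  push Not at h1
  obtain ⟨ψ, hψ, hψ1⟩ := h1
  have hd : charDegree (ψ : ↥(S : Subgroup G) → ℂ) ∣ Nat.card ↥(S : Subgroup G) := charDegree_dvd_card ψ.2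
  have hψd := charDegree_cast (irr_isChar ψ.2)
  have hχd : ((q : ℕ) : ℂ) = (χ : G → ℂ) 1 := by
    have h := charDegree_cast (irr_isChar χ.2)
    rwa [hχ] at h
  obtain ⟨n, hn⟩ := IsPGroup.iff_card.1 S.isPGroup'
  rw [hn] at hd
  obtain ⟨k, hk, hk'⟩ := (Nat.dvd_prime_pow hq.out).1 hd
  have hk0 : k ≠ 0 := by
    rintro rfl
    apply hψ1
    rw [← hψd, hk', pow_zero, Nat.cast_one]
  have hge : q ≤ charDegree (ψ : ↥(S : Subgroup G) → ℂ) := by
    rw [hk']
    exact Nat.le_self_pow hk0 q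
  have hle : charDegree (ψ : ↥(S : Subgroup G) → ℂ) ≤ q :=
    char_degree_le_of_inner_ne_zero hχS ψ.2 hψ (m := q) hχd.symm hψd.symm
  have heq : charDegree (ψ : ↥(S : Subgroup G) → ℂ) = q := le_antisymm hle hge
  have hsub := isChar_sub_irr hχS ψ.2 hψ
  have h0 : ((fun s : ↥(S : Subgroup G) => (χ : G → ℂ) s) - (ψ : ↥(S : Subgroup G) → ℂ)) 1 = ((0 : ℕ) : ℂ) := by
    show (χ : G → ℂ) ((1 : ↥(S : Subgroup G)) : G) - (ψ : ↥(S : Subgroup G) → ℂ) 1 = _
    rw [← hψd, heq, OneMemClass.coe_one, ← hχd, sub_self, Nat.cast_zero]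
  have hzero : ((fun s : ↥(S : Subgroup G) => (χ : G → ℂ) s) - (ψ : ↥(S : Subgroup G) → ℂ)) = 0 := by
    by_contra hne
    obtain ⟨φ, hφ⟩ := exists_constituent hsub hne
    have h5 := char_degree_le_of_inner_ne_zero hsub φ.2 hφ h0 (charDegree_cast (irr_isChar φ.2)).symm
    have h6 := charDegree_one_le φ.2
    omega
  haveI : Nontrivial ↥(S : Subgroup G) := ⟨⟨c, 1, hc1⟩⟩
  haveI := S.isPGroup'.center_nontrivial
  obtain ⟨⟨z, hz⟩, hz1⟩ := exists_ne (1 : center ↥(S : Subgroup G))
  have hz1' : (z : G) ≠ 1 := fun h => hz1 (Subtype.ext (Subtype.ext h))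
  have hv := vanish hna S hχ (z := (z : G)) (fun s hs => congrArg Subtype.val (mem_center_iff.1 hz ⟨s, hs⟩)) hz1'
  have h7 : (ψ : ↥(S : Subgroup G) → ℂ) z = 0 := by
    have := congrFun hzero z
    have h8 : (χ : G → ℂ) (z : G) - (ψ : ↥(S : Subgroup G) → ℂ) z = 0 := this
    rw [hv, zero_sub, neg_eq_zero] at h8
    exact h8
  have h9 := irr_central_mul ψ.2 hz z⁻¹
  rw [mul_inv_cancel, h7, zero_mul] at h9
  exact mul_ne_zero (irr_one_ne_zero ψ.2) (irr_one_ne_zero ψ.2) h9

theorem card_sylow (hna : ∃ a b : G, a * b ≠ b * a) {q : ℕ} [hq : Fact q.Prime] (S : Sylow q G)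
    {χ : IrrCharacter G} (hχ : charDegree (χ : G → ℂ) = q) : Nat.card (S : Subgroup G) = q := by
  have hc := sylow_comm hna S hχ
  obtain ⟨k, hk⟩ := card_dvd_degree_of_vanish (S : Subgroup G) (irr_isChar χ.2)
    (fun g hg hg1 => vanish hna S hχ (fun s hs => hc s hs g hg) hg1)
  rw [← charDegree_cast (irr_isChar χ.2), hχ] at hk
  have hk' : q = Nat.card (S : Subgroup G) * k := by exact_mod_cast hk
  rcases (Nat.dvd_prime hq.out).1 (Dvd.intro k hk'.symm) with h | h
  · exfalso
    haveI := Fintype.ofFinite G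
    have h1 : q ∣ Nat.card G := hχ ▸ charDegree_dvd_card χ.2
    have h2 := S.card_eq_multiplicity
    have h3 : q ∣ Nat.card (S : Subgroup G) := by
      have h4 := Subgroup.card_mul_index (S : Subgroup G)
      rw [← h4] at h1
      exact (hq.out.dvd_mul.1 h1).resolve_right S.not_dvd_index
    rw [h] at h3
    exact hq.out.one_lt.ne' (Nat.dvd_one.1 h3)
  · exact h

theorem no_norm (hna : ∃ a b : G, a * b ≠ b * a) {q : ℕ} [hq : Fact q.Prime] (S : Sylow q G)
    (hS : Nat.card (S : Subgroup G) = q) :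
    ¬ normalizer ((S : Subgroup G) : Set G) ≤ centralizer ((S : Subgroup G) : Set G) := by
  intro hP
  have hcomp := MonoidHom.ker_transferSylow_isComplement' S hP
  rcases (inferInstance : (MonoidHom.transferSylow S hP).ker.Normal).eq_bot_or_eq_top with h | h
  · rw [h] at hcomp
    have h1 : (S : Subgroup G) = ⊤ := Subgroup.isComplement'_bot_left.1 hcomp
    obtain ⟨a, b, hab⟩ := hna
    apply hab
    haveI : IsCyclic ↥(S : Subgroup G) := isCyclic_of_prime_card hS
    have hcm := IsCyclic.isMulCommutative (α := ↥(S : Subgroup G))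
    have ha : a ∈ (S : Subgroup G) := by rw [h1]; exact mem_top a
    have hb : b ∈ (S : Subgroup G) := by rw [h1]; exact mem_top b
    exact congrArg Subtype.val (hcm.is_comm.comm ⟨a, ha⟩ ⟨b, hb⟩)
  · rw [h] at hcomp
    have h1 : (S : Subgroup G) = ⊥ := Subgroup.isComplement'_top_left.1 hcomp
    rw [h1, Subgroup.card_bot] at hS
    exact hq.out.one_lt.ne hS

/-- no irreducible character of degree two -/
theorem no_two (hna : ∃ a b : G, a * b ≠ b * a) {χ : IrrCharacter G} (hχ : charDegree (χ : G → ℂ) = 2) : False := by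
  haveI : Fact (Nat.Prime 2) := ⟨Nat.prime_two⟩
  let S : Sylow 2 G := default
  have h1 := card_sylow hna S hχ
  apply no_norm hna S h1
  intro g hg
  rw [mem_centralizer_iff]
  intro s hs
  have hgs : g * s * g⁻¹ ∈ (S : Subgroup G) := (mem_normalizer_iff.1 hg s).1 hs
  by_cases hs1 : s = 1
  · rw [hs1, one_mul, mul_one]
  · have h2 : g * s * g⁻¹ = s := by
      obtain ⟨x, hx⟩ := Nat.card_eq_two_iff' (1 : ↥(S : Subgroup G)) |>.1 h1
      have h3 := hx.2 ⟨s, hs⟩ (fun h => hs1 (congrArg Subtype.val h))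
      have h4 := hx.2 ⟨g * s * g⁻¹, hgs⟩ (fun h => hs1 (by
        have h5 : g * s * g⁻¹ = 1 := congrArg Subtype.val h
        rw [mul_inv_eq_one] at h5
        exact mul_left_cancel (a := g) (by rw [h5, mul_one])))
      exact congrArg Subtype.val (h4.trans h3.symm)
    rw [mul_inv_eq_iff_eq_mul] at h2
    exact h2.symm

theorem simple_false (hna : ∃ a b : G, a * b ≠ b * a)
    (h : ∀ χ : IrrCharacter G, charDegree (χ : G → ℂ) ≠ 1 → (charDegree (χ : G → ℂ)).Prime) : False := by
  classical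
  haveI := Fintype.ofFinite G
  haveI : Nonempty (IrrCharacter G) := ⟨oneIrr G⟩
  obtain ⟨χ₀, hmax⟩ := Finite.exists_max (fun χ : IrrCharacter G => charDegree (χ : G → ℂ))
  -- linear characters are trivial
  have hlin : ∀ χ : IrrCharacter G, charDegree (χ : G → ℂ) = 1 → χ = oneIrr G := by
    intro χ h1
    by_contra hne
    have h2 := charKer_simple hne
    obtain ⟨a, b, hab⟩ := hna
    apply hab
    have h3 : (χ : G → ℂ) 1 = 1 := by rw [← charDegree_cast (irr_isChar χ.2), h1, Nat.cast_one]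
    have h4 : (χ : G → ℂ) ⁅a, b⁆ = 1 := linear_commutator (irr_isChar χ.2) h3 (by
      rw [_root_.commutator_def]; exact commutator_mem_commutator (mem_top a) (mem_top b))
    have h5 : ⁅a, b⁆ ∈ charKer (irr_isChar χ.2) := h4.trans h3.symm
    rw [h2, mem_bot] at h5
    exact commutatorElement_eq_one_iff_mul_comm.1 h5
  have hex : ∃ χ : IrrCharacter G, charDegree (χ : G → ℂ) ≠ 1 := by
    by_contra hcon
    push Not at hcon
    obtain ⟨a, b, hab⟩ := hna
    exact hab (comm_iff_all_linear.2 (fun χ => by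
      rw [← charDegree_cast (irr_isChar χ.2), hcon χ, Nat.cast_one]) a b)
  obtain ⟨χ₁, hχ₁⟩ := hex
  have hne1 : charDegree (χ₀ : G → ℂ) ≠ 1 := by
    have h1 := hmax χ₁
    have h2 := charDegree_one_le χ₁.2
    omega
  set q := charDegree (χ₀ : G → ℂ) with hqdef
  have hqp : q.Prime := h χ₀ hne1
  haveI hq : Fact q.Prime := ⟨hqp⟩
  have hq2 : q ≠ 2 := fun h2 => no_two hna (χ := χ₀) (by rw [← hqdef, h2])
  let S : Sylow q G := default
  have hS : Nat.card (S : Subgroup G) = q := card_sylow hna S hqdef.symm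
  obtain ⟨M, hM⟩ := exists_isPModular hqp
  obtain ⟨X, Y, -, -, hX, -, εX, ε, hX2, -⟩ := S4441.result q M hM hq2 S hS _ rfl
  set e := (centralizer ((S : Subgroup G) : Set G)).relIndex (normalizer ((S : Subgroup G) : Set G)) with he
  have he1 : e ≠ 1 := by
    intro h1
    rw [he, Subgroup.relIndex_eq_one] at h1
    exact no_norm hna S hS h1
  have he0 : e ≠ 0 := by
    rw [he]
    exact Subgroup.index_ne_zero_of_finite
  have hX2' : 1 < Nat.card X := by rw [hX]; omega
  haveI : Finite X := inferInstance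
  obtain ⟨χ, hχX, hχ1⟩ : ∃ χ ∈ X, χ ≠ oneIrr G := by
    by_contra hcon
    push Not at hcon
    have h1 : X ⊆ {oneIrr G} := fun χ hχ => hcon χ hχ
    have h2 := Set.ncard_le_ncard h1 (Set.toFinite _)
    rw [Set.ncard_singleton, ← Nat.card_coe_set_eq] at h2
    omega
  obtain ⟨h3, h4, -⟩ := hX2 χ hχX
  have hr1 : charDegree (χ : G → ℂ) ≠ 1 := fun h5 => hχ1 (hlin χ h5)
  have hrp := h χ hr1
  have hrq := hmax χ
  set r := charDegree (χ : G → ℂ) with hr
  have hrq' : r ≤ q := hrq
  have h2r := hrp.two_le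
  rcases h3 with h3 | h3
  · rw [h3] at h4
    have h5 : (q : ℤ) ∣ (1 : ℤ) - r := Int.modEq_iff_dvd.1 h4
    have h6 : (q : ℤ) ∣ (r : ℤ) - 1 := by
      have := dvd_neg.2 h5
      rwa [neg_sub] at this
    have h7 := Int.le_of_dvd (by omega) h6
    omega
  · rw [h3] at h4
    have h5 : (q : ℤ) ∣ (-1 : ℤ) - r := Int.modEq_iff_dvd.1 h4
    have h6 : (q : ℤ) ∣ (r : ℤ) + 1 := by
      have := dvd_neg.2 h5
      rwa [neg_sub, sub_neg_eq_add] at this
    have h7 := Int.le_of_dvd (by omega) h6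
    have h8 : r = q - 1 ∨ r = q := by omega
    rcases h8 with h8 | h8
    · have hodd := hqp.eq_two_or_odd'.resolve_left hq2
      obtain ⟨m, hm⟩ := hodd
      have h9 : r = 2 * m := by omega
      have h10 : 2 ∣ r := ⟨m, h9⟩
      have h11 : r = 2 := ((Nat.prime_dvd_prime_iff_eq Nat.prime_two hrp).1 h10).symm
      exact no_two hna (χ := χ) (by rw [← hr, h11])
    · rw [h8] at h6
      have h9 : (q : ℤ) ∣ 1 := (dvd_add_right (dvd_refl _)).1 h6
      have h10 : q ∣ 1 := by exact_mod_cast h9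
      exact hqp.one_lt.ne' (Nat.dvd_one.1 h10)

end simple

theorem solvable_aux (n : ℕ) : ∀ (G : Type u) [Group G] [Finite G], Nat.card G = n →
    (∀ χ : IrrCharacter G, charDegree (χ : G → ℂ) ≠ 1 → (charDegree (χ : G → ℂ)).Prime) →
    Group.IsSolvable G := by
  induction n using Nat.strong_induction_on with
  | _ n ih =>
  intro G _ _ hn h
  by_cases hc : ∀ a b : G, a * b = b * a
  · exact Group.isSolvable_of_comm hc
  push Not at hc
  by_cases hs : IsSimpleGroup G
  · exact absurd (simple_false hc h) (by simp)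
  haveI : Nontrivial G := by
    obtain ⟨a, b, hab⟩ := hc
    exact ⟨⟨a * b, b * a, hab⟩⟩
  obtain ⟨N, hN, hNb, hNt⟩ : ∃ N : Subgroup G, N.Normal ∧ N ≠ ⊥ ∧ N ≠ ⊤ := by
    by_contra hcon
    push Not at hcon
    exact hs ⟨fun N hN => by
      by_cases hb : N = ⊥
      · exact Or.inl hb
      · exact Or.inr (hcon N hN hb)⟩
  haveI := hN
  have hcardN : Nat.card N < n := by
    rw [← hn]
    exact lt_of_le_of_ne (Subgroup.card_le_card_group N) (fun h1 => hNt (Subgroup.eq_top_of_card_eq N h1))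
  have hcardQ : Nat.card (G ⧸ N) < n := by
    have h1 := Subgroup.card_eq_card_quotient_mul_card_subgroup N
    have h2 : 1 < Nat.card N := (Subgroup.one_lt_card_iff_ne_bot N).2 hNb
    have h3 : 0 < Nat.card (G ⧸ N) := Nat.card_pos
    rw [← hn, h1]
    nlinarith
  have hNs : Group.IsSolvable N := by
    refine ih (Nat.card N) hcardN N rfl ?_
    intro θ hθ
    obtain ⟨χ, hχ, -, hd, -⟩ := exists_over hN θ.2
    have h1 : charDegree χ ≠ 1 := by
      intro h2
      rw [h2] at hd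
      exact hθ (Nat.dvd_one.1 hd)
    have h2 : (charDegree χ).Prime := h ⟨χ, hχ⟩ h1
    rcases (Nat.dvd_prime h2).1 hd with h3 | h3
    · exact absurd h3 hθ
    · rw [h3]; exact h2
  have hQs : Group.IsSolvable (G ⧸ N) := by
    refine ih (Nat.card (G ⧸ N)) hcardQ (G ⧸ N) rfl ?_
    intro ψ hψ
    have h1 : IsIrrCharacter G (fun g => (ψ : G ⧸ N → ℂ) (QuotientGroup.mk' N g)) :=
      isIrr_comp_surjective ψ.2 (QuotientGroup.mk' N) (QuotientGroup.mk'_surjective N)
    have h2 : charDegree (fun g => (ψ : G ⧸ N → ℂ) (QuotientGroup.mk' N g)) = charDegree (ψ : G ⧸ N → ℂ) := by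
      have h3 : ((charDegree (fun g => (ψ : G ⧸ N → ℂ) (QuotientGroup.mk' N g)) : ℕ) : ℂ) =
          charDegree (ψ : G ⧸ N → ℂ) := by
        rw [charDegree_cast (irr_isChar h1), charDegree_cast (irr_isChar ψ.2)]
        simp
      exact_mod_cast h3
    have h3 := h ⟨_, h1⟩ (by
      show charDegree (fun g => (ψ : G ⧸ N → ℂ) (QuotientGroup.mk' N g)) ≠ 1
      rw [h2]; exact hψ)
    have h4 : (charDegree (fun g => (ψ : G ⧸ N → ℂ) (QuotientGroup.mk' N g))).Prime := h3
    rwa [h2] at h4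
  exact Group.isSolvable_of_ker_le_range N.subtype (QuotientGroup.mk' N) (by simp)

end Cfsg.Agent.H19.PD
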