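import Cfsg.Agent.H18.StrongEmb2
import Cfsg.Agent.H23.RankOne
import Cfsg.Agent.H23.PSolvable
import Cfsg.Agent.H19.SylowGraph
import Cfsg.Agent.H19.RankOne
import Cfsg.Agent.H1.Cores
import Cfsg.Agent.L.WeakCl
import Cfsg.Agent.H1.Chief

/-!
# Disconnected Sylow graphs in `p`-solvable groups
-/

set_option autoImplicit false
set_option linter.all false

namespace Cfsg.Agent.H19

open Cfsg Subgroup

variable {G : Type*} [Group G] {p : ℕ} [hp : Fact p.Prime]

theorem se_iff_not_connected [Finite G] : ¬ IsSylowChainConnected p G ↔ ∃ Y : Subgroup G, IsStronglyPEmbedded p Y := by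
  constructor
  · intro h
    obtain ⟨H, h1, h2, h3⟩ := strongly_of_not_connected h
    exact ⟨H, (H18.se_iff_classical h1 h2).2 h3⟩
  · rintro ⟨Y, hY⟩
    exact not_connected_of_strongly hY.2.1 (H18.se_card hY)
      ((H18.se_iff_classical hY.2.1 (H18.se_card hY)).1 hY)

theorem se_pCore_eq_bot [Finite G] {Y : Subgroup G} (hY : IsStronglyPEmbedded p Y) : pCore p G = ⊥ := by
  by_contra hne
  obtain ⟨P, hPY, -, hP⟩ := H18.se_dvd_card hY
  have h1 : pCore p G ≤ (P : Subgroup G) := L.pCore_le_sylIn (L.sylIn_top P)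
  have h2 := hP _ h1 hne
  haveI : (pCore p G).Normal := H1.pCore_normal p G
  rw [Subgroup.normalizer_eq_top] at h2
  exact hY.2.1 (top_le_iff.1 h2)

theorem se_rank_of_pSolvable [Finite G] (hsol : IsPSolvable p G) {Y : Subgroup G} (hY : IsStronglyPEmbedded p Y) :
    ¬ PRankAtLeast p 2 Y := by
  intro hr
  have hV := H18.se_pPrimeCore_le hY hr
  haveI : (pPrimeCore p G).Normal := H1.pPrimeCore_normal p G
  have h1 := H18.se_quotient (N := pPrimeCore p G) (H1.pPrimeCore_coprime p G) hY
    (by rw [sup_eq_left.2 hV]; exact hY.2.1)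
  have h2 := se_pCore_eq_bot h1
  have h3 := H23.centralizer_pCore_le (H23.isPSolvable_quotient (pPrimeCore p G) hsol) (H1.pPrimeCore_quotient_eq_bot p)
  rw [h2] at h3
  have h4 : (⊤ : Subgroup (G ⧸ pPrimeCore p G)) = ⊥ := by
    rw [← le_bot_iff]
    refine le_trans ?_ h3
    intro x _
    rw [mem_centralizer_iff]
    intro y hy
    have : y = 1 := hy
    rw [this, one_mul, mul_one]
  exact h1.2.1 (top_le_iff.1 (h4.le.trans bot_le))

theorem pSolvable_not_connected_iff [Finite G] (hdiv : p ∣ Nat.card G) (hsol : IsPSolvable p G) (P : Sylow p G) :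
    ¬ IsSylowChainConnected p G ↔
      pCore p G = ⊥ ∧ (IsCyclic ↥P ∨ (p = 2 ∧ ∃ n : ℕ, Nonempty (↥P ≃* QuaternionGroup (2 ^ n)))) := by
  rw [se_iff_not_connected]
  constructor
  · rintro ⟨Y, hY⟩
    refine ⟨se_pCore_eq_bot hY, ?_⟩
    obtain ⟨P₀, hPY, -, -⟩ := H18.se_dvd_card hY
    have hrk := se_rank_of_pSolvable hsol hY
    have hrk2 : PRankLE p 1 P₀ := by
      intro A hA hAp
      by_contra hcon
      push Not at hcon
      apply hrk
      have hA' : IsPGroup p A := by
        intro a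
        refine ⟨1, ?_⟩
        rw [pow_one]
        exact Subtype.ext (hAp a a.2)
      obtain ⟨n, hn⟩ := IsPGroup.iff_card.1 hA'
      have hn2 : 2 ≤ n := by
        by_contra h
        push Not at h
        rw [hn] at hcon
        exact absurd hcon (not_lt.2 (Nat.pow_le_pow_right hp.out.pos (by omega)))
      refine ⟨(A.map (P₀ : Subgroup G).subtype).subgroupOf Y, ⟨⟨?_⟩⟩, ?_, ?_⟩
      · rintro ⟨x, hx⟩ ⟨y, hy⟩
        obtain ⟨a, ha, hax⟩ := hx
        obtain ⟨b, hb, hby⟩ := hy
        apply Subtype.ext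
        apply Subtype.ext
        show (x : G) * y = y * x
        have h1 : (a : G) = x := hax
        have h2 : (b : G) = y := hby
        rw [← h1, ← h2]
        exact congrArg (fun t : A => ((t : P₀) : G)) (hA.is_comm.comm ⟨a, ha⟩ ⟨b, hb⟩)
      · rintro x ⟨a, ha, hax⟩
        apply Subtype.ext
        have h1 : (a : G) = x := hax
        show (x : G) ^ p = 1
        rw [← h1]
        exact congrArg Subtype.val (hAp a ha)
      · rw [Nat.card_congr (Subgroup.subgroupOfEquivOfLe ((map_subtype_le _).trans hPY)).toEquiv,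
          Subgroup.card_map_of_injective (P₀ : Subgroup G).subtype_injective, hn]
        exact Nat.pow_le_pow_right hp.out.pos hn2
    have hu := unique_order_p_of_rank_one P₀.2 hrk2
    have hcq := H23.cyclic_or_quaternion (p := p) P₀.2 (fun x y hx hy => hu x y (orderOf_dvd_iff_pow_eq_one.1 hx.dvd)
      (orderOf_dvd_iff_pow_eq_one.1 hy.dvd) (by
        rintro rfl
        rw [orderOf_one] at hx
        exact hp.out.one_lt.ne hx))
    have e : P₀ ≃* P := P₀.equiv P
    rcases hcq with h | ⟨h2, n, -, ⟨f⟩⟩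
    · left
      haveI : IsCyclic P₀ := h
      exact isCyclic_of_surjective e.toMonoidHom e.surjective
    · right
      exact ⟨h2, n, ⟨e.symm.trans f⟩⟩
  · rintro ⟨hO, hP⟩
    have hP1 : (P : Subgroup G) ≠ ⊥ := P.ne_bot_of_dvd_card hdiv
    refine ⟨_, H18.se_of_unique hO P hP1 (H18.unique_of_cyclic_or_quaternion P.2 ?_)⟩
    rcases hP with h | ⟨-, n, h⟩
    · exact Or.inl h
    · exact Or.inr ⟨_, h⟩

end Cfsg.Agent.H19
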