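import Cfsg.Agent.H19.CharP
import Cfsg.Agent.H18.SylIn2
import Cfsg.Agent.H18.CharP
import Cfsg.Agent.H18.PCore
import Cfsg.Agent.H10.PLoc
import Cfsg.Prelude.Def_LocalStructure

/-!
# Parabolic characteristic `p` of subnormal subgroups
-/

set_option autoImplicit false
set_option linter.all false

namespace Cfsg.Agent.H19

open Cfsg Subgroup

variable {G : Type*} [Group G] {p : ℕ} [hp : Fact p.Prime]

/-- characteristic `p` of a subgroup -/
abbrev CPs (p : ℕ) (K : Subgroup G) : Prop := centralizer (pCore p K : Set K) ≤ pCore p K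

theorem CPs.of_sub {K L : Subgroup G} (h : K ≤ L) (hK : CPs p (K.subgroupOf L)) : CPs p K :=
  charP_of_equiv (Subgroup.subgroupOfEquivOfLe h) hK

theorem CPs.of_map {L : Subgroup G} {K : Subgroup L} (hK : CPs p (K.map L.subtype)) : CPs p K :=
  charP_of_equiv (K.equivMapOfInjective L.subtype L.subtype_injective).symm hK

theorem CPs.of_subnormal [Finite G] {K L : Subgroup G} (h : K ≤ L) (hL : CPs p L) (hK : (K.subgroupOf L).IsSubnormal) :
    CPs p K := CPs.of_sub h (charP_subnormal hL _ hK)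

theorem CPs.centralizer_inf [Finite G] {L R : Subgroup G} (hL : CPs p L) (hR : IsPGroup p R) (hRL : R ≤ L) :
    CPs p (L ⊓ centralizer (R : Set G)) := by
  have h1 := charP_centralizer hL (R.subgroupOf L) hR.comap_subtype
  have h2 : (L ⊓ centralizer (R : Set G)).subgroupOf L = centralizer ((R.subgroupOf L : Subgroup L) : Set L) := by
    ext x
    rw [mem_subgroupOf, mem_inf, mem_centralizer_iff, mem_centralizer_iff]
    constructor
    · rintro ⟨-, h⟩ y hy
      exact Subtype.ext (h y hy)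
    · intro h
      refine ⟨x.2, fun y hy => ?_⟩
      exact congrArg Subtype.val (h ⟨y, hRL hy⟩ hy)
  apply CPs.of_sub (L := L) inf_le_left
  rw [h2]
  exact h1

theorem par_subnormal [Finite G] (hG : IsOfParabolicCharacteristic p G) (S : Sylow p G) (G₁ : Subgroup G)
    (hsn : G₁.IsSubnormal)
    (hne : ((S : Subgroup G) ⊓ G₁) ⊓ centralizer (((S : Subgroup G) ⊓ G₁ : Subgroup G) : Set G) ≠ ⊥)
    (hle : ((S : Subgroup G) ⊓ G₁) ⊓ centralizer (((S : Subgroup G) ⊓ G₁ : Subgroup G) : Set G) ≤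
      (S : Subgroup G) ⊓ centralizer ((S : Subgroup G) : Set G)) : IsOfParabolicCharacteristic p G₁ := by
  intro R hR hRb hpar
  obtain ⟨T, hT⟩ := hpar
  have hS1 : L.SylIn p ((S : Subgroup G) ⊓ G₁) G₁ := H18.sylIn_inf_of_isSubnormal (L.sylIn_top S) hsn
  have hT1 : L.SylIn p ((T : Subgroup G₁).map G₁.subtype) G₁ := L.sylIn_of_sylow T
  obtain ⟨g, hg, hgT⟩ := hS1.exists_conj_eq hT1
  -- replace `S` by its conjugate
  obtain ⟨S', hS'⟩ : ∃ S' : Sylow p G, (S' : Subgroup G) = L.cj g S := ⟨g • S, rfl⟩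
  have hST : (S' : Subgroup G) ⊓ G₁ = (T : Subgroup G₁).map G₁.subtype := by
    rw [← hgT, L.cj_inf, hS', L.cj_eq_self_of_mem hg]
  obtain ⟨T', hT'⟩ : ∃ T', T' = (T : Subgroup G₁).map G₁.subtype := ⟨_, rfl⟩
  rw [← hT'] at hST hT1 hgT
  have hle' : T' ⊓ centralizer (T' : Set G) ≤ centralizer ((S' : Subgroup G) : Set G) := by
    rw [← hgT, L.cent_cj, ← L.cj_inf, hS', L.cent_cj]
    exact L.cj_mono (hle.trans inf_le_right)
  obtain ⟨RG, hRG⟩ : ∃ RG, RG = R.map G₁.subtype := ⟨_, rfl⟩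
  have hRGp : IsPGroup p RG := hRG ▸ hR.map _
  have hRGb : RG ≠ ⊥ := by
    rw [hRG, Ne, map_eq_bot_iff_of_injective _ G₁.subtype_injective]; exact hRb
  have hRG1 : RG ≤ G₁ := hRG ▸ map_subtype_le _
  -- `T'` normalizes `RG`
  have hTR : T' ≤ normalizer (RG : Set G) := by
    rw [hT', hRG]
    rintro _ ⟨t, ht, rfl⟩
    have h1 := hT ht
    rw [mem_normalizer_iff] at h1 ⊢
    intro x
    constructor
    · rintro ⟨y, hy, rfl⟩
      exact ⟨t * y * t⁻¹, (h1 y).1 hy, rfl⟩
    · rintro ⟨y, hy, hyx⟩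
      have hxG : x = (t : G)⁻¹ * y * t := by
        simp only [coe_subtype] at hyx
        rw [hyx]; group
      rw [hxG]
      refine ⟨t⁻¹ * y * t, (h1 _).2 ?_, rfl⟩
      have : t * (t⁻¹ * y * t) * t⁻¹ = y := by group
      rw [this]; exact hy
  have hRT : RG ≤ T' := by
    have h1 : IsPGroup p ↥(RG ⊔ T') := by
      rw [sup_comm]; exact hT1.isPGroup.to_sup_of_normal_right' hRGp hTR
    have h2 := hT1.eq_of_le h1 (sup_le hRG1 hT1.le) le_sup_right
    rw [h2]; exact le_sup_left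
  -- central part
  obtain ⟨Z, hZ⟩ : ∃ Z, Z = RG ⊓ centralizer (T' : Set G) := ⟨_, rfl⟩
  have hZb : Z ≠ ⊥ := hZ ▸ H18.inf_centralizer_ne_bot hRGp hT1.isPGroup hTR hRGb
  have hZR : Z ≤ RG := hZ ▸ inf_le_left
  have hZp : IsPGroup p Z := hRGp.to_le hZR
  have hZS : Z ≤ centralizer ((S' : Subgroup G) : Set G) := by
    refine le_trans ?_ hle'
    rw [hZ]
    exact inf_le_inf_right _ hRT
  have hSZ : (S' : Subgroup G) ≤ centralizer (Z : Set G) := Subgroup.le_centralizer_iff.1 hZS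
  have hCZ : centralizer (Z : Set G) ≤ normalizer (Z : Set G) := Subgroup.centralizer_le_normalizer _
  have hN : CPs p (normalizer (Z : Set G)) := hG Z hZp hZb ⟨S', hSZ.trans hCZ⟩
  have hL : CPs p (centralizer (Z : Set G)) :=
    hN.of_subnormal hCZ (Subgroup.Normal.isSubnormal ((H18.normal_subgroupOf_iff hCZ).2 (H18.le_normalizer_centralizer le_rfl)))
  have hL1 : CPs p (G₁ ⊓ centralizer (Z : Set G)) := by
    refine hL.of_subnormal inf_le_right ?_
    rw [inf_subgroupOf_right]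
    exact hsn.subgroupOf
  have hC : CPs p ((G₁ ⊓ centralizer (Z : Set G)) ⊓ centralizer (RG : Set G)) := by
    refine hL1.centralizer_inf hRGp (le_inf hRG1 ?_)
    refine hRT.trans (Subgroup.le_centralizer_iff.1 ?_)
    rw [hZ]; exact inf_le_right
  have hCeq : (G₁ ⊓ centralizer (Z : Set G)) ⊓ centralizer (RG : Set G) = (centralizer (R : Set G₁)).map G₁.subtype := by
    ext x
    constructor
    · rintro ⟨⟨h1, -⟩, h3⟩
      refine ⟨⟨x, h1⟩, ?_, rfl⟩
      rw [SetLike.mem_coe, mem_centralizer_iff]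
      intro y hy
      exact Subtype.ext (mem_centralizer_iff.1 h3 y (hRG ▸ ⟨y, hy, rfl⟩))
    · rintro ⟨y, hy, rfl⟩
      have h1 : (y : G) ∈ centralizer (RG : Set G) := by
        rw [mem_centralizer_iff]
        intro r hr
        rw [hRG] at hr
        obtain ⟨r', hr', rfl⟩ := hr
        exact congrArg Subtype.val (mem_centralizer_iff.1 hy r' hr')
      exact ⟨⟨y.2, centralizer_le hZR h1⟩, h1⟩
  rw [hCeq] at hC
  have hC' : CPs p (centralizer (R : Set G₁)) := hC.of_map
  have hCN : centralizer (R : Set G₁) ≤ normalizer (R : Set G₁) := Subgroup.centralizer_le_normalizer _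
  have hop : opOf p (centralizer (R : Set G₁)) ≤ opOf p (normalizer (R : Set G₁)) := by
    refine le_opOf ((opOf_le _ _).trans hCN) ?_ (opOf_isPGroup _ _)
    exact (H18.le_normalizer_centralizer le_rfl).trans (H18.normalizer_le_normalizer_pCoreOf _)
  apply charP_subgroup_of_forall
  intro x hx hxp hxc
  have hxR : x ∈ centralizer (R : Set G₁) := by
    rw [mem_centralizer_iff]
    intro r hr
    have h1 : r ∈ opOf p (normalizer (R : Set G₁)) := le_opOf le_normalizer le_rfl hR hr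
    exact (hxc r h1).symm.eq
  have h2 := eq_one_of_charP hC' (x := ⟨x, hxR⟩) (by rwa [Subgroup.orderOf_mk]) (fun r hr => ?_)
  · exact congrArg Subtype.val h2
  · apply Subtype.ext
    exact hxc r (hop ⟨r, hr, rfl⟩)

end Cfsg.Agent.H19
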