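import Mathlib
import Cfsg.Prelude.Def_Transfer
import Cfsg.Agent.H18.PCore
import Cfsg.Agent.H1.Basic

/-!
# Planes in the extraspecial group of order `p³` and exponent `p`: internal facts
-/

set_option autoImplicit false
set_option linter.unusedSectionVars false
set_option linter.style.haveILetI false
open Cfsg
open scoped commutatorElement

namespace Cfsg.Agent.H19.Pl

/-- powers with exponent in `ZMod p` -/
def pw {G : Type*} [Group G] {p : ℕ} (x : G) (a : ZMod p) : G := x ^ a.val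

section pw
variable {G : Type*} [Group G] {p : ℕ} [hp : Fact p.Prime]

theorem pw_natCast {x : G} (hx : x ^ p = 1) (n : ℕ) : pw x (n : ZMod p) = x ^ n := by
  rw [pw, ZMod.val_natCast]
  conv_rhs => rw [← Nat.mod_add_div n p, pow_add, pow_mul, hx, one_pow, mul_one]

theorem pw_add {x : G} (hx : x ^ p = 1) (a b : ZMod p) : pw x (a + b) = pw x a * pw x b := by
  obtain ⟨n, rfl⟩ := ZMod.natCast_zmod_surjective a
  obtain ⟨m, rfl⟩ := ZMod.natCast_zmod_surjective b
  rw [← Nat.cast_add, pw_natCast hx, pw_natCast hx, pw_natCast hx, pow_add]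

theorem pw_pow {x : G} (a : ZMod p) : (pw x a) ^ p = (x ^ p) ^ a.val := by
  rw [pw, ← pow_mul, ← pow_mul, mul_comm]

theorem pw_pow_eq {x : G} (hx : x ^ p = 1) (a : ZMod p) : (pw x a) ^ p = 1 := by
  rw [pw_pow, hx, one_pow]

theorem pw_mul {x : G} (hx : x ^ p = 1) (a b : ZMod p) : pw (pw x a) b = pw x (a * b) := by
  obtain ⟨n, rfl⟩ := ZMod.natCast_zmod_surjective a
  obtain ⟨m, rfl⟩ := ZMod.natCast_zmod_surjective b
  rw [← Nat.cast_mul, pw_natCast hx, pw_natCast hx, pw_natCast (by rw [← pow_mul, mul_comm, pow_mul, hx, one_pow]),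
    pow_mul]

theorem pw_zero (x : G) : pw x (0 : ZMod p) = 1 := by rw [pw, ZMod.val_zero, pow_zero]

theorem pw_one (x : G) : pw x (1 : ZMod p) = x := by
  have := hp.out.one_lt
  rw [pw, ZMod.val_one'' (by omega), pow_one]

theorem pw_comm {x y : G} (h : Commute x y) (a b : ZMod p) : Commute (pw x a) (pw y b) := h.pow_pow _ _

theorem pw_mul_base {x y : G} (h : Commute x y) (a : ZMod p) : pw (x * y) a = pw x a * pw y a := h.mul_pow _

theorem pw_conj (g x : G) (a : ZMod p) : g * pw x a * g⁻¹ = pw (g * x * g⁻¹) a := (conj_pow (i := a.val)).symm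

theorem pw_mem {x : G} {H : Subgroup G} (hx : x ∈ H) (a : ZMod p) : pw x a ∈ H := H.pow_mem hx _

theorem pw_eq_one {x : G} (hx : x ^ p = 1) (hx1 : x ≠ 1) {a : ZMod p} (h : pw x a = 1) : a = 0 := by
  by_contra ha
  apply hx1
  have := pw_mul hx a a⁻¹
  rw [h, mul_inv_cancel₀ ha, pw_one] at this
  rw [← this, pw, one_pow]

end pw

section act
variable {G : Type*} [Group G] {p : ℕ} [hp : Fact p.Prime]

/-- `g` acts on `⟨z, x⟩` by the matrix `M` -/
def Act (z x g : G) (M : Matrix (Fin 2) (Fin 2) (ZMod p)) : Prop :=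
  g * z * g⁻¹ = pw z (M 0 0) * pw x (M 1 0) ∧ g * x * g⁻¹ = pw z (M 0 1) * pw x (M 1 1)

theorem Act.mul {z x g g' : G} (hz : z ^ p = 1) (hx : x ^ p = 1) (hzx : Commute z x)
    {M M' : Matrix (Fin 2) (Fin 2) (ZMod p)} (h : Act z x g M) (h' : Act z x g' M') :
    Act z x (g * g') (M * M') := by
  have key : ∀ (y : G) (a b : ZMod p), g' * y * g'⁻¹ = pw z a * pw x b →
      (g * g') * y * (g * g')⁻¹ = pw z (M 0 0 * a + M 0 1 * b) * pw x (M 1 0 * a + M 1 1 * b) := by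
    intro y a b hy
    have e1 : (g * g') * y * (g * g')⁻¹ = g * (g' * y * g'⁻¹) * g⁻¹ := by group
    have e2 : g * (pw z a * pw x b) * g⁻¹ = (g * pw z a * g⁻¹) * (g * pw x b * g⁻¹) := by group
    rw [e1, hy, e2, pw_conj, pw_conj, h.1, h.2, pw_mul_base (pw_comm hzx _ _), pw_mul_base (pw_comm hzx _ _),
      pw_mul hz, pw_mul hx, pw_mul hz, pw_mul hx, pw_add hz, pw_add hx]
    have c := (pw_comm hzx (M 0 1 * b) (M 1 0 * a)).eq
    calc pw z (M 0 0 * a) * pw x (M 1 0 * a) * (pw z (M 0 1 * b) * pw x (M 1 1 * b))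
        = pw z (M 0 0 * a) * (pw x (M 1 0 * a) * pw z (M 0 1 * b)) * pw x (M 1 1 * b) := by group
      _ = pw z (M 0 0 * a) * (pw z (M 0 1 * b) * pw x (M 1 0 * a)) * pw x (M 1 1 * b) := by rw [c]
      _ = _ := by group
  constructor
  · rw [key z _ _ h'.1, Matrix.mul_apply, Matrix.mul_apply, Fin.sum_univ_two, Fin.sum_univ_two]
  · rw [key x _ _ h'.2, Matrix.mul_apply, Matrix.mul_apply, Fin.sum_univ_two, Fin.sum_univ_two]

theorem exists_act_diag {z x : G} (hz : z ^ p = 1) (hx : x ^ p = 1) (hzx : Commute z x)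
    (hU : ∀ t : ZMod p, ∃ g, Act z x g !![1, t; 0, 1]) (hL : ∀ t : ZMod p, ∃ g, Act z x g !![1, 0; t, 1])
    {l : ZMod p} (hl : l ≠ 0) : ∃ g, g * z * g⁻¹ = pw z l ∧ g * x * g⁻¹ = pw x l⁻¹ := by
  obtain ⟨g1, h1⟩ := hU l
  obtain ⟨g2, h2⟩ := hL (-l⁻¹)
  obtain ⟨g3, h3⟩ := hU (-1)
  obtain ⟨g4, h4⟩ := hL 1
  have h := ((((h1.mul hz hx hzx h2).mul hz hx hzx h1).mul hz hx hzx h3).mul hz hx hzx h4).mul hz hx hzx h3
  have e : (!![1, l; 0, 1] * !![1, 0; -l⁻¹, 1] * !![1, l; 0, 1] * !![1, -1; 0, 1] * !![1, 0; 1, 1] *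
      !![1, -1; 0, 1] : Matrix (Fin 2) (Fin 2) (ZMod p)) = !![l, 0; 0, l⁻¹] := by
    ext i j
    fin_cases i <;> fin_cases j <;> simp [Matrix.mul_apply, Fin.sum_univ_two] <;> field_simp <;> ring
  rw [e] at h
  refine ⟨g1 * g2 * g1 * g3 * g4 * g3, ?_, ?_⟩
  · have h5 := h.1
    simp only [Matrix.of_apply, Matrix.cons_val', Matrix.cons_val_zero, Matrix.cons_val_one, Matrix.cons_val_fin_one,
      pw_zero, mul_one] at h5
    exact h5
  · have h5 := h.2
    simp only [Matrix.of_apply, Matrix.cons_val', Matrix.cons_val_zero, Matrix.cons_val_one, Matrix.cons_val_fin_one,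
      pw_zero, one_mul] at h5
    exact h5

end act

end Cfsg.Agent.H19.Pl
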