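import Mathlib
import Cfsg.Agent.H19.Pl1
import Cfsg.Agent.H19.Sylow2

/-!
# Planes in the extraspecial group of order `p³` and exponent `p`: elementwise structure
-/

set_option autoImplicit false
set_option linter.unusedSectionVars false
set_option linter.style.haveILetI false
open Cfsg Cfsg.Agent.H23
open scoped commutatorElement Pointwise

namespace Cfsg.Agent.H19.Pl

variable {G : Type*} [Group G] {p : ℕ} [hp : Fact p.Prime]

/-- `S` is an extraspecial subgroup of order `p³` and exponent `p`, with central element `z` -/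
structure XP (p : ℕ) {G : Type*} [Group G] (S : Subgroup G) (z : G) : Prop where
  ext : IsExtraspecial p ↥S
  card : Nat.card S = p ^ 3
  exp : ∀ a ∈ S, a ^ p = 1
  z_mem : z ∈ S
  z_ne : z ≠ 1
  z_cen : ∀ a ∈ S, Commute z a
  cen : ∀ a ∈ S, (∀ b ∈ S, Commute a b) → ∃ t : ZMod p, a = pw z t
  comm : ∀ a ∈ S, ∀ b ∈ S, ∃ t : ZMod p, a * b = pw z t * (b * a)

theorem exists_xp [Finite G] {S : Subgroup G} (hE : IsExtraspecial p ↥S) (hcard : Nat.card S = p ^ 3)
    (hexp : Monoid.exponent ↥S = p) : ∃ z, XP p S z := by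
  have hc : Nat.card (Subgroup.center ↥S) = p := hE.2
  have hne : Subgroup.center ↥S ≠ ⊥ := by
    intro h
    rw [h, Subgroup.card_bot] at hc
    exact hp.out.one_lt.ne hc
  obtain ⟨z, hz, hz1⟩ := (Subgroup.ne_bot_iff_exists_ne_one.1 hne) |> fun ⟨a, ha⟩ =>
    (⟨a.1, a.2, fun h => ha (Subtype.ext h)⟩ : ∃ z : ↥S, z ∈ Subgroup.center ↥S ∧ z ≠ 1)
  have hexp' : ∀ a ∈ S, a ^ p = 1 := by
    intro a ha
    have := Monoid.pow_exponent_eq_one (⟨a, ha⟩ : ↥S)
    rw [hexp] at this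
    exact congrArg Subtype.val this
  have hgen : ∀ a : ↥S, a ∈ Subgroup.center ↥S → ∃ t : ZMod p, (a : G) = pw (z : G) t := by
    intro a ha
    have h1 : Subgroup.zpowers (⟨z, hz⟩ : Subgroup.center ↥S) = ⊤ :=
      zpowers_eq_top_of_prime_card hc (fun h => hz1 (congrArg Subtype.val h))
    have h2 : (⟨a, ha⟩ : Subgroup.center ↥S) ∈ Subgroup.zpowers (⟨z, hz⟩ : Subgroup.center ↥S) := by
      rw [h1]; trivial
    obtain ⟨n, hn⟩ := (mem_powers_iff_mem_zpowers.2 h2)
    refine ⟨(n : ZMod p), ?_⟩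
    rw [pw_natCast (hexp' _ z.2)]
    have := congrArg (fun x : Subgroup.center ↥S => ((x : ↥S) : G)) hn
    simpa using this.symm
  refine ⟨z, hE, hcard, hexp', z.2, fun h => hz1 (Subtype.ext h), ?_, ?_, ?_⟩
  · intro a ha
    have := Subgroup.mem_center_iff.1 hz ⟨a, ha⟩
    exact (congrArg Subtype.val this).symm
  · intro a ha hab
    refine hgen ⟨a, ha⟩ (Subgroup.mem_center_iff.2 fun b => Subtype.ext (hab b b.2).eq.symm)
  · intro a ha b hb
    have h1 : ⁅(⟨a, ha⟩ : ↥S), (⟨b, hb⟩ : ↥S)⁆ ∈ Subgroup.center ↥S := by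
      rw [← hE.1.2.2]
      exact Subgroup.commutator_mem_commutator (Subgroup.mem_top _) (Subgroup.mem_top _)
    obtain ⟨t, ht⟩ := hgen _ h1
    refine ⟨t, ?_⟩
    rw [← ht]
    show a * b = (a * b * a⁻¹ * b⁻¹) * (b * a)
    group

section comm
/-- bilinearity -/
theorem comm_right {x y c : G} (hcx : Commute c x) (hcy : Commute c y) (h : x * y = c * (y * x)) (n : ℕ) :
    x * y ^ n = c ^ n * (y ^ n * x) := by
  induction n with
  | zero => simp
  | succ n ih =>
    have h1 := (hcy.pow_pow (n+1) n).eq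
    calc x * y ^ (n + 1) = (x * y ^ n) * y := by rw [pow_succ]; group
      _ = c ^ n * (y ^ n * (x * y)) := by rw [ih]; group
      _ = c ^ n * ((y ^ n * c) * (y * x)) := by rw [h]; group
      _ = c ^ n * ((c * y ^ n) * (y * x)) := by rw [(hcy.pow_right n).eq]
      _ = c ^ (n + 1) * (y ^ (n + 1) * x) := by rw [pow_succ, pow_succ]; group

theorem comm_left {x y c : G} (hcx : Commute c x) (hcy : Commute c y) (h : x * y = c * (y * x)) (n : ℕ) :
    x ^ n * y = c ^ n * (y * x ^ n) := by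
  induction n with
  | zero => simp
  | succ n ih =>
    calc x ^ (n + 1) * y = x ^ n * (x * y) := by rw [pow_succ]; group
      _ = (x ^ n * c) * (y * x) := by rw [h]; group
      _ = (c * x ^ n) * (y * x) := by rw [(hcx.pow_right n).eq]
      _ = c * (x ^ n * y) * x := by group
      _ = c * (c ^ n * (y * x ^ n)) * x := by rw [ih]
      _ = c ^ (n + 1) * (y * x ^ (n + 1)) := by rw [pow_succ' c, pow_succ x]; group

theorem pw_comm_right {x y z : G} (hz : z ^ p = 1) (hzx : Commute z x) (hzy : Commute z y) {t : ZMod p}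
    (h : x * y = pw z t * (y * x)) (a : ZMod p) : x * pw y a = pw z (t * a) * (pw y a * x) := by
  have h1 := comm_right (c := pw z t) (hzx.pow_left _) (hzy.pow_left _) h a.val
  rw [← pw_mul hz]
  exact h1

theorem pw_comm_left {x y z : G} (hz : z ^ p = 1) (hzx : Commute z x) (hzy : Commute z y) {t : ZMod p}
    (h : x * y = pw z t * (y * x)) (a : ZMod p) : pw x a * y = pw z (t * a) * (y * pw x a) := by
  have h1 := comm_left (c := pw z t) (hzx.pow_left _) (hzy.pow_left _) h a.val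
  rw [← pw_mul hz]
  exact h1

end comm

theorem pw_neg {x : G} (hx : x ^ p = 1) (a : ZMod p) : pw x (-a) = (pw x a)⁻¹ := by
  rw [eq_inv_iff_mul_eq_one, ← pw_add hx, neg_add_cancel, pw_zero]

theorem pw_inj {x : G} (hx : x ^ p = 1) (hx1 : x ≠ 1) {a b : ZMod p} (h : pw x a = pw x b) : a = b := by
  have : pw x (a - b) = 1 := by rw [sub_eq_add_neg, pw_add hx, pw_neg hx, h, mul_inv_cancel]
  exact sub_eq_zero.1 (pw_eq_one hx hx1 this)

theorem pw_pw_inv {x : G} (hx : x ^ p = 1) {a : ZMod p} (ha : a ≠ 0) : pw (pw x a) a⁻¹ = x := by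
  rw [pw_mul hx, mul_inv_cancel₀ ha, pw_one]

variable {S : Subgroup G} {z : G}

/-- `x` is a noncentral element of `S` -/
def NC (p : ℕ) {G : Type*} [Group G] (S : Subgroup G) (z x : G) : Prop := x ∈ S ∧ ∀ t : ZMod p, x ≠ pw z t

/-- the centralizer of `x` in `S` -/
def CS {G : Type*} [Group G] (S : Subgroup G) (x : G) : Subgroup G := S ⊓ Subgroup.centralizer {x}

theorem mem_CS {x a : G} : a ∈ CS S x ↔ a ∈ S ∧ Commute a x := by
  rw [CS, Subgroup.mem_inf, Subgroup.mem_centralizer_singleton_iff]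
  rfl

section
variable [Finite G] (X : XP p S z)
include X

theorem XP.zp : z ^ p = 1 := X.exp z X.z_mem

theorem XP.not_comm {x : G} (hx : NC p S z x) : ∃ y ∈ S, ¬ Commute x y := by
  by_contra h
  push Not at h
  obtain ⟨t, ht⟩ := X.cen x hx.1 h
  exact hx.2 t ht

theorem XP.pw_eq {x : G} (hx : NC p S z x) {i t : ZMod p} (h : pw x i = pw z t) : i = 0 ∧ t = 0 := by
  have hi : i = 0 := by
    by_contra hi
    apply hx.2 (t * i⁻¹)
    rw [← pw_mul X.zp, ← h, pw_pw_inv (X.exp x hx.1) hi]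
  refine ⟨hi, ?_⟩
  rw [hi, pw_zero] at h
  exact pw_eq_one X.zp X.z_ne h.symm

theorem XP.pair_inj {x : G} (hx : NC p S z x) {i t i' t' : ZMod p} (h : pw z t * pw x i = pw z t' * pw x i') :
    t = t' ∧ i = i' := by
  have hxp := X.exp x hx.1
  have h1 : pw x (i - i') = pw z (t' - t) := by
    rw [sub_eq_add_neg, sub_eq_add_neg, pw_add hxp, pw_neg hxp, add_comm t', pw_add X.zp, pw_neg X.zp]
    rw [← eq_inv_mul_iff_mul_eq, ← mul_assoc] at h
    rw [h]; group
  obtain ⟨h2, h3⟩ := X.pw_eq hx h1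
  exact ⟨(sub_eq_zero.1 h3).symm, sub_eq_zero.1 h2⟩

theorem XP.pair_mem {x : G} (hx : NC p S z x) (t i : ZMod p) : pw z t * pw x i ∈ CS S x := by
  rw [mem_CS]
  refine ⟨S.mul_mem (pw_mem X.z_mem _) (pw_mem hx.1 _), ?_⟩
  have h1 : Commute z x := X.z_cen x hx.1
  exact Commute.mul_left (h1.pow_left _) ((Commute.refl x).pow_left _)

theorem XP.card_CS {x : G} (hx : NC p S z x) : Nat.card (CS S x) = p ^ 2 := by
  have h1 : CS S x ≤ S := inf_le_left
  have h2 : Nat.card (CS S x) ∣ p ^ 3 := X.card ▸ Subgroup.card_dvd_of_le h1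
  obtain ⟨k, hk, hk'⟩ := (Nat.dvd_prime_pow hp.out).1 h2
  have h3 : k ≠ 3 := by
    rintro rfl
    obtain ⟨y, hy, hxy⟩ := X.not_comm hx
    have : CS S x = S := Subgroup.eq_of_le_of_card_ge h1 (by rw [hk', X.card])
    exact hxy (mem_CS.1 (this.symm ▸ hy)).2.symm
  have h4 : p ^ 2 ≤ Nat.card (CS S x) := by
    let f : ZMod p × ZMod p → CS S x := fun q => ⟨pw z q.1 * pw x q.2, X.pair_mem hx _ _⟩
    have hf : Function.Injective f := by
      rintro ⟨a, b⟩ ⟨c, d⟩ h
      have := X.pair_inj hx (congrArg Subtype.val h)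
      exact Prod.ext this.1 this.2
    have := Nat.card_le_card_of_injective f hf
    rwa [Nat.card_prod, Nat.card_zmod, ← sq] at this
  have h5 : 2 ≤ k := by
    rw [hk'] at h4
    exact (Nat.pow_le_pow_iff_right hp.out.one_lt).1 h4
  have : k = 2 := by omega
  rw [hk', this]

theorem XP.exists_pair {x : G} (hx : NC p S z x) {a : G} (ha : a ∈ CS S x) :
    ∃ t i : ZMod p, a = pw z t * pw x i := by
  let f : ZMod p × ZMod p → CS S x := fun q => ⟨pw z q.1 * pw x q.2, X.pair_mem hx _ _⟩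
  have hf : Function.Injective f := by
    rintro ⟨a, b⟩ ⟨c, d⟩ h
    have := X.pair_inj hx (congrArg Subtype.val h)
    exact Prod.ext this.1 this.2
  have hb : Function.Bijective f := by
    rw [Nat.bijective_iff_injective_and_card]
    refine ⟨hf, ?_⟩
    rw [Nat.card_prod, Nat.card_zmod, ← sq, X.card_CS hx]
  obtain ⟨q, hq⟩ := hb.2 ⟨a, ha⟩
  exact ⟨q.1, q.2, (congrArg Subtype.val hq).symm⟩

theorem XP.eq_CS {A : Subgroup G} (hA : A ≤ S) (hc : Nat.card A = p ^ 2) {x : G} (hxA : x ∈ A)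
    (hx : NC p S z x) : A = CS S x := by
  have h1 : A ≤ CS S x := by
    intro a ha
    have := IsPGroup.isMulCommutative_of_card_eq_prime_sq hc
    refine mem_CS.2 ⟨hA ha, ?_⟩
    exact congrArg Subtype.val (this.is_comm.comm ⟨a, ha⟩ ⟨x, hxA⟩)
  exact Subgroup.eq_of_le_of_card_ge h1 (by rw [hc, X.card_CS hx])

theorem XP.exists_nc {A : Subgroup G} (hA : A ≤ S) (hc : Nat.card A = p ^ 2) : ∃ x ∈ A, NC p S z x := by
  by_contra h
  push Not at h
  have h1 : ∀ a : A, ∃ t : ZMod p, (a : G) = pw z t := by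
    intro a
    by_contra hh
    push Not at hh
    exact h a a.2 ⟨hA a.2, hh⟩
  choose f hf using h1
  have hi : Function.Injective f := by
    intro a b hab
    apply Subtype.ext
    rw [hf a, hf b, hab]
  have := Nat.card_le_card_of_injective f hi
  rw [hc, Nat.card_zmod] at this
  have h2 := hp.out.one_lt
  nlinarith

theorem XP.nc_of_not_comm {x y : G} (hx : x ∈ S) (hy : y ∈ S) (h : ¬ Commute x y) : NC p S z x := by
  refine ⟨hx, fun t ht => h ?_⟩
  rw [ht]
  exact (X.z_cen y hy).pow_left _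

/-- transitivity of `S` on `⟨z⟩ x` -/
theorem XP.shift {x : G} (hx : NC p S z x) (t : ZMod p) : ∃ s ∈ S, s * x * s⁻¹ = pw z t * x := by
  obtain ⟨y, hy, hxy⟩ := X.not_comm hx
  obtain ⟨r, hr⟩ := X.comm y hy x hx.1
  have hr0 : r ≠ 0 := by
    rintro rfl
    rw [pw_zero, one_mul] at hr
    exact hxy hr.symm
  have h1 := pw_comm_left X.zp (X.z_cen y hy) (X.z_cen x hx.1) hr (r⁻¹ * t)
  refine ⟨pw y (r⁻¹ * t), pw_mem hy _, ?_⟩
  rw [h1, ← mul_assoc r, mul_inv_cancel₀ hr0, one_mul]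
  group

theorem XP.comm_pw_iff {x y : G} (hx : x ∈ S) {a : ZMod p} (ha : a ≠ 0)
    (h : Commute (pw x a) y) : Commute x y := by
  have := h.pow_left (a⁻¹).val
  have h2 : (pw x a) ^ (a⁻¹).val = x := pw_pw_inv (X.exp x hx) ha
  rwa [h2] at this

end

end Cfsg.Agent.H19.Pl
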