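import Mathlib
import Cfsg.Agent.H19.Pl2
import Cfsg.Agent.H19.Klein3

/-!
# Planes in the extraspecial group of order `p³` and exponent `p`: Klein's counting argument on `P/Z(P)`
-/

set_option autoImplicit false
set_option linter.unusedSectionVars false
set_option linter.style.haveILetI false
open Cfsg Cfsg.Agent.H23
open scoped commutatorElement Pointwise

namespace Cfsg.Agent.H19.Pl

/-- the abelianization, additively -/
abbrev VV {G : Type*} [Group G] (S : Subgroup G) := Additive (Abelianization ↥S)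

/-- the quotient map -/
def qq {G : Type*} [Group G] {S : Subgroup G} (a : ↥S) : VV S := Additive.ofMul (Abelianization.of a)

section
variable {G : Type*} [Group G] {S : Subgroup G}

theorem qq_surj (v : VV S) : ∃ a : ↥S, qq a = v := by
  obtain ⟨a, ha⟩ := Quotient.exists_rep (Additive.toMul v)
  exact ⟨a, congrArg Additive.ofMul ha⟩

theorem qq_mul (a b : ↥S) : qq (a * b) = qq a + qq b := by
  rw [qq, map_mul]; rfl

theorem qq_pow (a : ↥S) (n : ℕ) : qq (a ^ n) = n • qq a := by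
  rw [qq, map_pow]; rfl

theorem qq_eq_zero {a : ↥S} : qq a = 0 ↔ a ∈ commutator ↥S := by
  rw [← Abelianization.ker_of, MonoidHom.mem_ker]
  exact Iff.rfl

/-- the action of `N(S)` -/
def act (h : ↥(Subgroup.normalizer (S : Set G))) : VV S →+ VV S :=
  MonoidHom.toAdditive (Abelianization.map (S.normalizerMonoidHom h).toMonoidHom)

theorem act_qq (h : ↥(Subgroup.normalizer (S : Set G))) (a : ↥S) :
    act h (qq a) = qq (S.normalizerMonoidHom h a) := rfl

theorem act_one : act (1 : ↥(Subgroup.normalizer (S : Set G))) = AddMonoidHom.id _ := by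
  refine AddMonoidHom.ext fun v => ?_
  obtain ⟨a, rfl⟩ := qq_surj v
  rw [act_qq, map_one]; rfl

theorem act_mul (h k : ↥(Subgroup.normalizer (S : Set G))) : act (h * k) = (act h).comp (act k) := by
  refine AddMonoidHom.ext fun v => ?_
  obtain ⟨a, rfl⟩ := qq_surj v
  rw [act_qq, map_mul]; rfl

theorem coe_nmh (h : ↥(Subgroup.normalizer (S : Set G))) (a : ↥S) :
    ((S.normalizerMonoidHom h a : ↥S) : G) = (h : G) * a * (h : G)⁻¹ := rfl

variable {p : ℕ} [hp : Fact p.Prime] [Finite G] {z : G}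

theorem XP.VV_p (X : XP p S z) (v : VV S) : p • v = 0 := by
  obtain ⟨a, rfl⟩ := qq_surj v
  rw [← qq_pow]
  have : a ^ p = 1 := Subtype.ext (X.exp a a.2)
  rw [this]
  exact (qq_eq_zero).2 (one_mem _)

/-- the vector space structure -/
@[reducible] def XP.mod (X : XP p S z) : Module (ZMod p) (VV S) := AddCommGroup.zmodModule X.VV_p

variable [Module (ZMod p) (VV S)]

/-- the representation -/
def rep (p : ℕ) (S : Subgroup G) [Module (ZMod p) (VV S)] :
    ↥(Subgroup.normalizer (S : Set G)) →* Module.End (ZMod p) (VV S) :=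
  { toFun := fun h => (act h).toZModLinearMap p
    map_one' := by rw [act_one]; rfl
    map_mul' := fun h k => by rw [act_mul]; rfl }

theorem XP.smul_qq (X : XP p S z) (c : ZMod p) (a : ↥S) : c • qq a = qq (pw a c) := by
  obtain ⟨n, rfl⟩ := ZMod.natCast_zmod_surjective c
  have : a ^ p = 1 := Subtype.ext (X.exp a a.2)
  rw [pw_natCast this, qq_pow, Nat.cast_smul_eq_nsmul]

theorem XP.finrank (X : XP p S z) : Module.finrank (ZMod p) (VV S) = 2 := by
  have h1 : Nat.card (VV S) = p ^ 2 := by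
    have h2 := Subgroup.card_eq_card_quotient_mul_card_subgroup (commutator ↥S)
    have h3 : Nat.card (commutator ↥S) = p := by
      rw [X.ext.1.2.2]; exact X.ext.2
    rw [h3, X.card] at h2
    have h4 : Nat.card (VV S) = Nat.card (↥S ⧸ commutator ↥S) := rfl
    rw [h4]
    have h5 := hp.out.pos
    have h6 : p ^ 2 * p = Nat.card (↥S ⧸ commutator ↥S) * p := by rw [← h2]; ring
    exact (Nat.eq_of_mul_eq_mul_right h5 h6).symm
  have h2 := Module.natCard_eq_pow_finrank (K := ZMod p) (V := VV S)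
  rw [h1, Nat.card_zmod] at h2
  exact (Nat.pow_right_injective hp.out.two_le h2).symm

theorem coe_pw (a : ↥S) (c : ZMod p) : ((pw a c : ↥S) : G) = pw (a : G) c := rfl

theorem XP.qq_cen (X : XP p S z) {a : ↥S} {t : ZMod p} (h : (a : G) = pw z t) : qq a = 0 := by
  rw [qq_eq_zero, X.ext.1.2.2, Subgroup.mem_center_iff]
  intro b
  apply Subtype.ext
  show (b : G) * a = a * b
  rw [h]
  exact ((X.z_cen b b.2).pow_left _).eq.symm

theorem XP.qq_zero (X : XP p S z) {a : ↥S} (h : qq a = 0) (b : ↥S) : Commute (a : G) b := by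
  rw [qq_eq_zero, X.ext.1.2.2, Subgroup.mem_center_iff] at h
  exact (congrArg Subtype.val (h b)).symm

theorem XP.indep (X : XP p S z) {x y : ↥S} (h : ¬ Commute (x : G) y) :
    LinearIndependent (ZMod p) ![qq x, qq y] := by
  rw [LinearIndependent.pair_iff]
  intro s t hst
  rw [X.smul_qq, X.smul_qq, ← qq_mul] at hst
  have key : ∀ b : ↥S, Commute (pw (x : G) s * pw (y : G) t) b := fun b => X.qq_zero hst b
  constructor
  · by_contra hs
    have h1 := key y
    have h2 : Commute (pw (x : G) s) y := by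
      have h3 : Commute ((pw (y : G) t)⁻¹) (y : G) := ((Commute.refl (y : G)).pow_left _).inv_left
      have := h1.mul_left h3
      rwa [mul_assoc, mul_inv_cancel, mul_one] at this
    exact h (X.comm_pw_iff x.2 hs h2)
  · by_contra ht
    have h1 := key x
    have h2 : Commute (pw (y : G) t) x := by
      have h3 : Commute ((pw (x : G) s)⁻¹) (x : G) := ((Commute.refl (x : G)).pow_left _).inv_left
      have := h3.mul_left h1
      rwa [← mul_assoc, inv_mul_cancel, one_mul] at this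
    exact h (X.comm_pw_iff y.2 ht h2).symm

/-- the action of a diagonal element -/
theorem XP.diag (X : XP p S z) {x : ↥S} (hx : NC p S z x) {l : ZMod p} (hl : l ≠ 0)
    {h : ↥(Subgroup.normalizer (S : Set G))} (h1 : (h : G) * z * (h : G)⁻¹ = pw z l)
    (h2 : (h : G) * x * (h : G)⁻¹ = pw (x : G) l⁻¹) :
    rep p S h (qq x) = l⁻¹ • qq x ∧ ∀ u : VV S, ∃ c : ZMod p, rep p S h u = (l ^ 2) • u + c • qq x := by
  have hr : ∀ a : ↥S, rep p S h (qq a) = qq (S.normalizerMonoidHom h a) := fun a => rfl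
  constructor
  · rw [hr, X.smul_qq]
    congr 1
    exact Subtype.ext h2
  · intro u
    obtain ⟨y, rfl⟩ := qq_surj u
    obtain ⟨t, ht⟩ := X.comm x x.2 y y.2
    have hxp := X.exp x x.2
    have hyp := X.exp y y.2
    have hzx := X.z_cen x x.2
    have hzy := X.z_cen y y.2
    set y' : ↥S := S.normalizerMonoidHom h y with hy'
    have hy'c : (y' : G) = (h : G) * y * (h : G)⁻¹ := rfl
    have hzy' := X.z_cen y' y'.2
    -- relation for the images
    have e1 : pw (x : G) l⁻¹ * y' = pw z (l * t) * (y' * pw (x : G) l⁻¹) := by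
      rw [← h2, hy'c, ← pw_mul X.zp, ← h1, ← pw_conj]
      calc (h : G) * x * (h : G)⁻¹ * ((h : G) * y * (h : G)⁻¹) = (h : G) * (x * y) * (h : G)⁻¹ := by group
        _ = (h : G) * (pw z t * (y * x)) * (h : G)⁻¹ := by rw [ht]
        _ = _ := by group
    have hzx' : Commute z (pw (x : G) l⁻¹) := hzx.pow_right _
    have e2 := pw_comm_left X.zp hzx' hzy' e1 l
    have e3 : pw (pw (x : G) l⁻¹) l = x := by
      rw [pw_mul hxp, inv_mul_cancel₀ hl, pw_one]
    rw [e3] at e2
    have e4 := pw_comm_right X.zp hzx hzy ht (l ^ 2)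
    have e5 : l * t * l = t * l ^ 2 := by ring
    rw [e5] at e2
    set c : G := pw z (t * l ^ 2) with hc
    have hcx : Commute c x := hzx.pow_left _
    have hcy : Commute c y := hzy.pow_left _
    have hcy' : Commute c y' := hzy'.pow_left _
    set Y : G := pw (y : G) (l ^ 2) with hY
    have hcY : Commute c Y := hcy.pow_right _
    -- `y' Y⁻¹` commutes with `x`
    have e6 : Commute ((y' : G) * Y⁻¹) x := by
      have e7 : (x : G) * Y⁻¹ = c⁻¹ * (Y⁻¹ * x) := by
        have : Y⁻¹ * (x * Y) * Y⁻¹ = Y⁻¹ * (c * (Y * x)) * Y⁻¹ := by rw [e4]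
        have e8 : Y⁻¹ * (c * (Y * x)) * Y⁻¹ = c * (x * Y⁻¹) := by
          rw [← mul_assoc Y⁻¹, (hcY.inv_right.eq).symm]; group
        rw [e8] at this
        rw [eq_inv_mul_iff_mul_eq, ← this]; group
      show (y' : G) * Y⁻¹ * x = x * (y' * Y⁻¹)
      calc (y' : G) * Y⁻¹ * x = y' * (Y⁻¹ * x) := by group
        _ = y' * (c * (x * Y⁻¹)) := by rw [e7]; group
        _ = (y' * c) * (x * Y⁻¹) := by group
        _ = (c * y') * (x * Y⁻¹) := by rw [hcy'.eq]
        _ = (c * (y' * x)) * Y⁻¹ := by group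
        _ = (x * y') * Y⁻¹ := by rw [e2]
        _ = _ := by group
    have e9 : (y' : G) * Y⁻¹ ∈ CS S (x : G) := mem_CS.2 ⟨S.mul_mem y'.2 (S.inv_mem (pw_mem y.2 _)), e6⟩
    obtain ⟨r, i, hri⟩ := X.exists_pair hx e9
    refine ⟨i, ?_⟩
    have hzS := X.z_mem
    have e10 : y' = (pw (⟨z, hzS⟩ : ↥S) r * pw x i) * pw y (l ^ 2) := by
      apply Subtype.ext
      show (y' : G) = (pw z r * pw (x : G) i) * pw (y : G) (l ^ 2)
      rw [← hri, ← hY, inv_mul_cancel_right]
    rw [hr, ← hy', e10, qq_mul, qq_mul, X.smul_qq, X.smul_qq, X.qq_cen (a := pw (⟨z, hzS⟩ : ↥S) r) (t := r) rfl,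
      zero_add, add_comm]

end

section
variable {G : Type*} [Group G] [Finite G] {p : ℕ} [hp : Fact p.Prime] {P : Sylow p G} {z : G}

theorem rep_pow [Module (ZMod p) (VV (P : Subgroup G))] (h : ↥(Subgroup.normalizer ((P : Subgroup G) : Set G))) :
    ∃ n : ℕ, (n : ZMod p) ≠ 0 ∧ rep p (P : Subgroup G) h ^ n = 1 := by
  have hle : (P : Subgroup G) ≤ Subgroup.normalizer ((P : Subgroup G) : Set G) := Subgroup.le_normalizer
  refine ⟨((P : Subgroup G).subgroupOf (Subgroup.normalizer ((P : Subgroup G) : Set G))).index, ?_, ?_⟩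
  · rw [Ne, ZMod.natCast_eq_zero_iff]
    intro hd
    have h1 : (P : Subgroup G).relIndex (Subgroup.normalizer ((P : Subgroup G) : Set G)) ∣ (P : Subgroup G).index := by
      rw [← Subgroup.relIndex_mul_index hle]; exact dvd_mul_right _ _
    exact P.not_dvd_index (dvd_trans hd h1)
  · rw [← map_pow]
    have hN : ((P : Subgroup G).subgroupOf (Subgroup.normalizer ((P : Subgroup G) : Set G))).Normal := inferInstance
    have h1 := Subgroup.pow_index_mem ((P : Subgroup G).subgroupOf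
      (Subgroup.normalizer ((P : Subgroup G) : Set G))) h
    set k := h ^ ((P : Subgroup G).subgroupOf (Subgroup.normalizer ((P : Subgroup G) : Set G))).index with hk
    have h2 : (k : G) ∈ (P : Subgroup G) := h1
    apply LinearMap.ext
    intro v
    obtain ⟨a, rfl⟩ := qq_surj v
    have h3 : rep p (P : Subgroup G) k (qq a) = qq ((P : Subgroup G).normalizerMonoidHom k a) := rfl
    have h4 : (P : Subgroup G).normalizerMonoidHom k a = (⟨k, h2⟩ : ↥(P : Subgroup G)) * a * (⟨k, h2⟩ : ↥(P : Subgroup G))⁻¹ :=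
      Subtype.ext rfl
    have h5 : qq ((⟨k, h2⟩ : ↥(P : Subgroup G)) * a * (⟨k, h2⟩ : ↥(P : Subgroup G))⁻¹) = qq a := by
      have h6 : (⟨k, h2⟩ : ↥(P : Subgroup G)) * (⟨k, h2⟩ : ↥(P : Subgroup G))⁻¹ = 1 := mul_inv_cancel _
      have h7 := congrArg qq h6
      rw [qq_mul] at h7
      have h8 : qq (1 : ↥(P : Subgroup G)) = 0 := qq_eq_zero.2 (one_mem _)
      rw [qq_mul, qq_mul, add_right_comm, h7, h8, zero_add]
    rw [h3, h4, h5]; rfl

/-- Klein's counting argument -/
theorem XP.count' [Module (ZMod p) (VV (P : Subgroup G))] (X : XP p (P : Subgroup G) z) {l : ZMod p} (hl : l ≠ 0) {m : ℕ}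
    (hm : ∀ j : ℕ, (l⁻¹) ^ j = (l ^ 2) ^ j → m ∣ j) (T : Finset G)
    (hT : ∀ x ∈ T, NC p (P : Subgroup G) z x) (hc : ∀ x ∈ T, ∀ y ∈ T, x ≠ y → ¬ Commute x y)
    (hgood : ∀ x ∈ T, ∃ h ∈ Subgroup.normalizer ((P : Subgroup G) : Set G), h * z * h⁻¹ = pw z l ∧
      h * x * h⁻¹ = pw x l⁻¹) : (6 ≤ m → T.card ≤ 2) ∧ (4 ≤ m → T.card ≤ 12) := by
  classical
  have hfr : Module.finrank (ZMod p) (VV (P : Subgroup G)) = 2 := X.finrank
  haveI iF : Module.Finite (ZMod p) (VV (P : Subgroup G)) := inferInstance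
  let b : Module.Basis (Fin 2) (ZMod p) (VV (P : Subgroup G)) :=
    Module.finBasisOfFinrankEq (ZMod p) (VV (P : Subgroup G)) hfr
  let f : {x // x ∈ T} → VV (P : Subgroup G) := fun x => qq ⟨x.1, (hT x.1 x.2).1⟩
  have hf : ∀ x y : {x // x ∈ T}, f x = f y → x = y := by
    intro x y hxy
    by_contra hne
    have h1 := X.indep (x := ⟨x.1, (hT x.1 x.2).1⟩) (y := ⟨y.1, (hT y.1 y.2).1⟩)
      (hc x.1 x.2 y.1 y.2 (fun h => hne (Subtype.ext h)))
    have h2 : (![qq ⟨x.1, (hT x.1 x.2).1⟩, qq ⟨y.1, (hT y.1 y.2).1⟩] : Fin 2 → VV (P : Subgroup G)) 0 =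
        (![qq ⟨x.1, (hT x.1 x.2).1⟩, qq ⟨y.1, (hT y.1 y.2).1⟩] : Fin 2 → VV (P : Subgroup G)) 1 := hxy
    exact absurd (h1.injective h2) (by decide)
  have h1 := klein_vectors b (rep p (P : Subgroup G)) rep_pow (α := l⁻¹) (β := l ^ 2) (m := m) hm (Finset.univ.image f) ?_ ?_ ?_
  · rw [Finset.card_image_of_injective _ hf, Finset.card_univ, Fintype.card_coe] at h1
    exact h1
  · intro v hv
    obtain ⟨x, _, rfl⟩ := Finset.mem_image.1 hv
    intro h0
    obtain ⟨y, hy, hxy⟩ := X.not_comm (hT x.1 x.2)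
    exact hxy (X.qq_zero h0 ⟨y, hy⟩)
  · intro v hv w hw hvw
    obtain ⟨x, _, rfl⟩ := Finset.mem_image.1 hv
    obtain ⟨y, _, rfl⟩ := Finset.mem_image.1 hw
    exact X.indep (hc x.1 x.2 y.1 y.2 (fun h => hvw (congrArg f (Subtype.ext h))))
  · intro v hv
    obtain ⟨x, _, rfl⟩ := Finset.mem_image.1 hv
    obtain ⟨h, hh, h1, h2⟩ := hgood x.1 x.2
    refine ⟨⟨h, hh⟩, ?_⟩
    exact X.diag (x := ⟨x.1, (hT x.1 x.2).1⟩) (h := ⟨h, hh⟩) (hT x.1 x.2) hl h1 h2

/-- Klein's counting argument -/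
theorem XP.count (X : XP p (P : Subgroup G) z) {l : ZMod p} (hl : l ≠ 0) {m : ℕ}
    (hm : ∀ j : ℕ, (l⁻¹) ^ j = (l ^ 2) ^ j → m ∣ j) (T : Finset G)
    (hT : ∀ x ∈ T, NC p (P : Subgroup G) z x) (hc : ∀ x ∈ T, ∀ y ∈ T, x ≠ y → ¬ Commute x y)
    (hgood : ∀ x ∈ T, ∃ h ∈ Subgroup.normalizer ((P : Subgroup G) : Set G), h * z * h⁻¹ = pw z l ∧
      h * x * h⁻¹ = pw x l⁻¹) : (6 ≤ m → T.card ≤ 2) ∧ (4 ≤ m → T.card ≤ 12) := by
  letI := X.mod
  exact X.count' hl hm T hT hc hgood

end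

end Cfsg.Agent.H19.Pl
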