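import Mathlib
import Cfsg.Agent.H19.Pl3

/-!
# Planes in the extraspecial group of order `p³` and exponent `p`: normalizing elements and automorphisms of planes
-/

set_option autoImplicit false
set_option linter.unusedSectionVars false
set_option linter.style.haveILetI false
open Cfsg Cfsg.Agent.H23
open scoped commutatorElement Pointwise

namespace Cfsg.Agent.H19.Pl

section norm
variable {G : Type*} [Group G] {p : ℕ} [hp : Fact p.Prime]

/-- the stabilizer of the flag -/
def MM (p : ℕ) [Fact p.Prime] {z : G} (hz : z ^ p = 1) (x : G) : Subgroup G where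
  carrier := {g | g * z * g⁻¹ = z ∧ ∃ t : ZMod p, g * x * g⁻¹ = pw z t * x}
  one_mem' := ⟨by group, 0, by rw [pw_zero]; group⟩
  mul_mem' := by
    rintro g h ⟨g1, t, g2⟩ ⟨h1, s, h2⟩
    refine ⟨?_, s + t, ?_⟩
    · have e : g * h * z * (g * h)⁻¹ = g * (h * z * h⁻¹) * g⁻¹ := by group
      rw [e, h1, g1]
    · have e : g * h * x * (g * h)⁻¹ = g * (h * x * h⁻¹) * g⁻¹ := by group
      have e2 : g * (pw z s * x) * g⁻¹ = (g * pw z s * g⁻¹) * (g * x * g⁻¹) := by group
      rw [e, h2, e2, pw_conj, g1, g2, pw_add hz, mul_assoc]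
  inv_mem' := by
    rintro g ⟨g1, t, g2⟩
    have h1 : g⁻¹ * z * g⁻¹⁻¹ = z := by
      conv_lhs => rw [← g1]
      group
    refine ⟨h1, -t, ?_⟩
    have h2 : g⁻¹ * (pw z t * x) * g⁻¹⁻¹ = x := by
      rw [← g2]; group
    have e2 : g⁻¹ * (pw z t * x) * g⁻¹⁻¹ = (g⁻¹ * pw z t * g⁻¹⁻¹) * (g⁻¹ * x * g⁻¹⁻¹) := by group
    rw [e2, pw_conj, h1] at h2
    rw [pw_neg hz, eq_inv_mul_iff_mul_eq]
    exact h2

theorem XP.exists_norm [Finite G] {P : Sylow p G} {z : G} (X : XP p (P : Subgroup G) z) {x : G}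
    (hx : NC p (P : Subgroup G) z x) {l : ZMod p} (hl : l ≠ 0) {d : G} (h1 : d * z * d⁻¹ = pw z l)
    (h2 : d * x * d⁻¹ = pw x l⁻¹) : ∃ h ∈ Subgroup.normalizer ((P : Subgroup G) : Set G),
      h * z * h⁻¹ = pw z l ∧ h * x * h⁻¹ = pw x l⁻¹ := by
  have hz := X.zp
  have hxp := X.exp x hx.1
  have hSM : (P : Subgroup G) ≤ MM p hz x := by
    intro s hs
    refine ⟨?_, ?_⟩
    · rw [(X.z_cen s hs).eq.symm]; group
    · obtain ⟨t, ht⟩ := X.comm s hs x hx.1
      exact ⟨t, by rw [ht]; group⟩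
  have h1' : d⁻¹ * z * d = pw z l⁻¹ := by
    have e : d * pw z l⁻¹ * d⁻¹ = z := by rw [pw_conj, h1, pw_mul hz, mul_inv_cancel₀ hl, pw_one]
    calc d⁻¹ * z * d = d⁻¹ * (d * pw z l⁻¹ * d⁻¹) * d := by rw [e]
      _ = _ := by group
  have h2' : d⁻¹ * x * d = pw x l := by
    have e : d * pw x l * d⁻¹ = x := by rw [pw_conj, h2, pw_mul hxp, inv_mul_cancel₀ hl, pw_one]
    calc d⁻¹ * x * d = d⁻¹ * (d * pw x l * d⁻¹) * d := by rw [e]
      _ = _ := by group
  have hdM : MulAut.conj d • (P : Subgroup G) ≤ MM p hz x := by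
    intro g hg
    rw [Subgroup.mem_smul_pointwise_iff_exists] at hg
    obtain ⟨s, hs, rfl⟩ := hg
    rw [MulAut.smul_def, MulAut.conj_apply]
    obtain ⟨s1, t, s2⟩ := hSM hs
    refine ⟨?_, l * (t * l), ?_⟩
    · have e : d * s * d⁻¹ * z * (d * s * d⁻¹)⁻¹ = d * (s * (d⁻¹ * z * d) * s⁻¹) * d⁻¹ := by group
      rw [e, h1', pw_conj, s1, pw_conj, h1, pw_mul hz, mul_inv_cancel₀ hl, pw_one]
    · have e : d * s * d⁻¹ * x * (d * s * d⁻¹)⁻¹ = d * (s * (d⁻¹ * x * d) * s⁻¹) * d⁻¹ := by group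
      have hc : Commute (pw z t) x := (X.z_cen x hx.1).pow_left _
      have e2 : d * (pw (pw z t) l * pw x l) * d⁻¹ = (d * pw (pw z t) l * d⁻¹) * (d * pw x l * d⁻¹) := by group
      rw [e, h2', pw_conj, s2, pw_mul_base hc, e2, pw_mul hz, pw_conj, pw_conj, h1, h2, pw_mul hz, pw_mul hxp,
        inv_mul_cancel₀ hl, pw_one]
  have hSy : IsSylowOf p (P : Subgroup G) (MM p hz x) := IsSylowOf.mono (isSylowOf_top_of_sylow P) hSM le_top
  obtain ⟨m, hm, hmS⟩ := IsSylowOf.exists_conj_le hSy hdM (P.isPGroup'.map (MulAut.conj d).toMonoidHom)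
  obtain ⟨m1, t, m2⟩ := hm
  obtain ⟨s, hs, hs2⟩ := X.shift hx (-t)
  have hsz : s * z * s⁻¹ = z := by rw [(X.z_cen s hs).eq.symm]; group
  refine ⟨s * m * d, ?_, ?_, ?_⟩
  · rw [H1.mem_normalizer_iff_conj_smul]
    have e : MulAut.conj (s * m * d) • (P : Subgroup G) = MulAut.conj s • (MulAut.conj m • (MulAut.conj d • (P : Subgroup G))) := by
      rw [H1.conj_smul_smul, H1.conj_smul_smul]
    have h3 : MulAut.conj (s * m * d) • (P : Subgroup G) ≤ (P : Subgroup G) := by
      rw [e, ← H1.conj_smul_self_of_mem hs]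
      exact H1.conj_smul_le_conj_smul_iff.2 (by rw [H1.conj_smul_self_of_mem hs]; exact hmS)
    exact Subgroup.eq_of_le_of_card_ge h3 (by rw [H1.card_conj_smul])
  · have e : s * m * d * z * (s * m * d)⁻¹ = s * (m * (d * z * d⁻¹) * m⁻¹) * s⁻¹ := by group
    rw [e, h1, pw_conj, m1, pw_conj, hsz]
  · have e : s * m * d * x * (s * m * d)⁻¹ = s * (m * (d * x * d⁻¹) * m⁻¹) * s⁻¹ := by group
    have e2 : s * (pw z t * x) * s⁻¹ = (s * pw z t * s⁻¹) * (s * x * s⁻¹) := by group
    rw [e, h2, pw_conj, m2, pw_conj, e2, pw_conj, hsz, hs2, ← mul_assoc, ← pw_add hz, add_neg_cancel, pw_zero, one_mul]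

end norm

section shear
variable (p : ℕ) [hp : Fact p.Prime]

/-- the shear `(i, j) ↦ (i + t j, j)` -/
def sh1 (t : ZMod p) : MulAut (Multiplicative (ZMod p × ZMod p)) := AddEquiv.toMultiplicative
  ({ toFun := fun q => (q.1 + t * q.2, q.2)
     invFun := fun q => (q.1 - t * q.2, q.2)
     left_inv := fun q => by ext <;> simp
     right_inv := fun q => by ext <;> simp
     map_add' := fun q r => by
      ext
      · simp; ring
      · simp } : (ZMod p × ZMod p) ≃+ (ZMod p × ZMod p))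

/-- the shear `(i, j) ↦ (i, j + t i)` -/
def sh2 (t : ZMod p) : MulAut (Multiplicative (ZMod p × ZMod p)) := AddEquiv.toMultiplicative
  ({ toFun := fun q => (q.1, q.2 + t * q.1)
     invFun := fun q => (q.1, q.2 - t * q.1)
     left_inv := fun q => by ext <;> simp
     right_inv := fun q => by ext <;> simp
     map_add' := fun q r => by
      ext
      · simp
      · simp; ring } : (ZMod p × ZMod p) ≃+ (ZMod p × ZMod p))

theorem sh1_apply (t : ZMod p) (q : ZMod p × ZMod p) :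
    sh1 p t (Multiplicative.ofAdd q) = Multiplicative.ofAdd (q.1 + t * q.2, q.2) := rfl

theorem sh2_apply (t : ZMod p) (q : ZMod p × ZMod p) :
    sh2 p t (Multiplicative.ofAdd q) = Multiplicative.ofAdd (q.1, q.2 + t * q.1) := rfl

theorem sh1_zero : sh1 p 0 = 1 := by
  refine MulEquiv.ext fun q => ?_
  show Multiplicative.ofAdd ((Multiplicative.toAdd q).1 + 0 * (Multiplicative.toAdd q).2, (Multiplicative.toAdd q).2) = q
  rw [zero_mul, add_zero]; rfl

theorem sh2_zero : sh2 p 0 = 1 := by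
  refine MulEquiv.ext fun q => ?_
  show Multiplicative.ofAdd ((Multiplicative.toAdd q).1, (Multiplicative.toAdd q).2 + 0 * (Multiplicative.toAdd q).1) = q
  rw [zero_mul, add_zero]; rfl

theorem sh1_pow (t : ZMod p) (n : ℕ) : sh1 p t ^ n = sh1 p (n * t) := by
  induction n with
  | zero => rw [pow_zero, Nat.cast_zero, zero_mul, sh1_zero]
  | succ n ih =>
    rw [pow_succ, ih]
    refine MulEquiv.ext fun q => ?_
    obtain ⟨q, rfl⟩ := Multiplicative.ofAdd.surjective q
    rw [MulAut.mul_apply, sh1_apply, sh1_apply, sh1_apply]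
    congr 1
    ext
    · push_cast; ring
    · rfl

theorem sh2_pow (t : ZMod p) (n : ℕ) : sh2 p t ^ n = sh2 p (n * t) := by
  induction n with
  | zero => rw [pow_zero, Nat.cast_zero, zero_mul, sh2_zero]
  | succ n ih =>
    rw [pow_succ, ih]
    refine MulEquiv.ext fun q => ?_
    obtain ⟨q, rfl⟩ := Multiplicative.ofAdd.surjective q
    rw [MulAut.mul_apply, sh2_apply, sh2_apply, sh2_apply]
    congr 1
    ext
    · rfl
    · push_cast; ring

theorem order_sh1 {t : ZMod p} (ht : t ≠ 0) : orderOf (sh1 p t) = p := by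
  refine orderOf_eq_prime ?_ ?_
  · rw [sh1_pow, CharP.cast_eq_zero, zero_mul, sh1_zero]
  · intro h
    have := congrArg (fun f : MulAut (Multiplicative (ZMod p × ZMod p)) =>
      (Multiplicative.toAdd (f (Multiplicative.ofAdd (0, 1)))).1) h
    have h2 : (0 : ZMod p) + t * 1 = 0 := this
    rw [zero_add, mul_one] at h2
    exact ht h2

theorem order_sh2 {t : ZMod p} (ht : t ≠ 0) : orderOf (sh2 p t) = p := by
  refine orderOf_eq_prime ?_ ?_
  · rw [sh2_pow, CharP.cast_eq_zero, zero_mul, sh2_zero]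
  · intro h
    have := congrArg (fun f : MulAut (Multiplicative (ZMod p × ZMod p)) =>
      (Multiplicative.toAdd (f (Multiplicative.ofAdd (1, 0)))).2) h
    have h2 : (0 : ZMod p) + t * 1 = 0 := this
    rw [zero_add, mul_one] at h2
    exact ht h2

end shear

section aut
variable {G : Type*} [Group G] {p : ℕ} [hp : Fact p.Prime] [Finite G] {S : Subgroup G} {z : G}

/-- coordinates on a plane -/
noncomputable def XP.crd (X : XP p S z) {x : G} (hx : NC p S z x) {A : Subgroup G} (hA : A = CS S x) :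
    Multiplicative (ZMod p × ZMod p) ≃* ↥A :=
  MulEquiv.ofBijective
    ({ toFun := fun q => ⟨pw z (Multiplicative.toAdd q).1 * pw x (Multiplicative.toAdd q).2, by
        rw [hA]; exact X.pair_mem hx _ _⟩
       map_one' := by
        apply Subtype.ext
        show pw z (0 : ZMod p) * pw x (0 : ZMod p) = 1
        rw [pw_zero, pw_zero, one_mul]
       map_mul' := by
        intro q r
        apply Subtype.ext
        have hzx := X.z_cen x hx.1
        show pw z ((Multiplicative.toAdd q).1 + (Multiplicative.toAdd r).1) *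
          pw x ((Multiplicative.toAdd q).2 + (Multiplicative.toAdd r).2) =
          (pw z (Multiplicative.toAdd q).1 * pw x (Multiplicative.toAdd q).2) *
          (pw z (Multiplicative.toAdd r).1 * pw x (Multiplicative.toAdd r).2)
        rw [pw_add X.zp, pw_add (X.exp x hx.1)]
        have c := (pw_comm hzx (Multiplicative.toAdd r).1 (Multiplicative.toAdd q).2).eq
        calc _ = pw z (Multiplicative.toAdd q).1 * (pw z (Multiplicative.toAdd r).1 *
              pw x (Multiplicative.toAdd q).2) * pw x (Multiplicative.toAdd r).2 := by group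
          _ = _ := by rw [c]; group } : Multiplicative (ZMod p × ZMod p) →* ↥A) (by
    constructor
    · intro q r h
      have h1 := congrArg Subtype.val h
      have h2 := X.pair_inj hx h1
      exact Prod.ext h2.1 h2.2
    · rintro ⟨a, ha⟩
      obtain ⟨t, i, h⟩ := X.exists_pair hx (hA ▸ ha)
      exact ⟨Multiplicative.ofAdd (t, i), Subtype.ext h.symm⟩)

theorem XP.crd_apply (X : XP p S z) {x : G} (hx : NC p S z x) {A : Subgroup G} (hA : A = CS S x)
    (q : ZMod p × ZMod p) : ((X.crd hx hA (Multiplicative.ofAdd q) : ↥A) : G) = pw z q.1 * pw x q.2 := rfl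

theorem XP.induced (X : XP p S z) {x : G} (hx : NC p S z x) {A : Subgroup G} (hA : A = CS S x)
    (hSL : ∀ φ : MulAut ↥A, orderOf φ = p → ∃ g : G, ∀ a : ↥A, (φ a : G) = g * (a : G) * g⁻¹)
    (f : MulAut (Multiplicative (ZMod p × ZMod p))) (hf : orderOf f = p) : ∃ g : G, ∀ q r : ZMod p × ZMod p,
      f (Multiplicative.ofAdd q) = Multiplicative.ofAdd r →
      g * (pw z q.1 * pw x q.2) * g⁻¹ = pw z r.1 * pw x r.2 := by
  obtain ⟨g, hg⟩ := hSL (MulAut.congr (X.crd hx hA) f)
    ((MulEquiv.orderOf_eq (MulAut.congr (X.crd hx hA)) f).trans hf)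
  refine ⟨g, fun q r hqr => ?_⟩
  have h1 := hg (X.crd hx hA (Multiplicative.ofAdd q))
  rw [X.crd_apply] at h1
  rw [← h1]
  show ((X.crd hx hA (f ((X.crd hx hA).symm (X.crd hx hA (Multiplicative.ofAdd q)))) : ↥A) : G) = _
  rw [MulEquiv.symm_apply_apply, hqr]
  exact X.crd_apply hx hA r

theorem XP.hU (X : XP p S z) {x : G} (hx : NC p S z x) {A : Subgroup G} (hA : A = CS S x)
    (hSL : ∀ φ : MulAut ↥A, orderOf φ = p → ∃ g : G, ∀ a : ↥A, (φ a : G) = g * (a : G) * g⁻¹) (t : ZMod p) :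
    ∃ g, Act z x g !![1, t; 0, 1] := by
  by_cases ht : t = 0
  · subst ht
    refine ⟨1, ?_, ?_⟩ <;>
    simp [pw_zero, pw_one]
  · obtain ⟨g, hg⟩ := X.induced hx hA hSL (sh1 p t) (order_sh1 p ht)
    refine ⟨g, ?_, ?_⟩
    · have h1 := hg (1, 0) (1, 0) (by rw [sh1_apply, mul_zero, add_zero])
      simpa [pw_zero, pw_one] using h1
    · have h1 := hg (0, 1) (t, 1) (by rw [sh1_apply, mul_one, zero_add])
      simpa [pw_zero, pw_one] using h1

theorem XP.hL (X : XP p S z) {x : G} (hx : NC p S z x) {A : Subgroup G} (hA : A = CS S x)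
    (hSL : ∀ φ : MulAut ↥A, orderOf φ = p → ∃ g : G, ∀ a : ↥A, (φ a : G) = g * (a : G) * g⁻¹) (t : ZMod p) :
    ∃ g, Act z x g !![1, 0; t, 1] := by
  by_cases ht : t = 0
  · subst ht
    refine ⟨1, ?_, ?_⟩ <;>
    simp [pw_zero, pw_one]
  · obtain ⟨g, hg⟩ := X.induced hx hA hSL (sh2 p t) (order_sh2 p ht)
    refine ⟨g, ?_, ?_⟩
    · have h1 := hg (1, 0) (1, t) (by rw [sh2_apply, mul_one, zero_add])
      simpa [pw_zero, pw_one] using h1
    · have h1 := hg (0, 1) (0, 1) (by rw [sh2_apply, mul_zero, add_zero])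
      simpa [pw_zero, pw_one] using h1

end aut

end Cfsg.Agent.H19.Pl
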