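import Mathlib
import Cfsg.Agent.H19.Pl4

/-!
# Planes in the extraspecial group of order `p³` and exponent `p`: bounds on `p`
-/

set_option autoImplicit false
set_option linter.unusedSectionVars false
set_option linter.style.haveILetI false
open Cfsg Cfsg.Agent.H23
open scoped commutatorElement Pointwise

namespace Cfsg.Agent.H19.Pl

theorem exists_l {p : ℕ} [hp : Fact p.Prime] (h11 : 11 ≤ p) : ∃ l : ZMod p, l ≠ 0 ∧ ∃ m : ℕ,
    (∀ j : ℕ, (l⁻¹) ^ j = (l ^ 2) ^ j → m ∣ j) ∧ 4 ≤ m ∧ (p ≠ 13 → 6 ≤ m) := by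
  obtain ⟨g, hg⟩ := IsCyclic.exists_generator (α := (ZMod p)ˣ)
  have ho : orderOf g = p - 1 := by
    rw [orderOf_eq_card_of_forall_mem_zpowers hg, Nat.card_eq_fintype_card, ZMod.card_units]
  have hl : (g : ZMod p) ≠ 0 := g.ne_zero
  have key : ∀ j : ℕ, ((g : ZMod p)⁻¹) ^ j = ((g : ZMod p) ^ 2) ^ j → p - 1 ∣ 3 * j := by
    intro j hj
    rw [← ho]
    apply orderOf_dvd_of_pow_eq_one
    apply Units.ext
    rw [Units.val_pow_eq_pow_val, Units.val_one]
    have h1 : ((g : ZMod p)⁻¹) ^ j * (g : ZMod p) ^ j = 1 := by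
      rw [← mul_pow, inv_mul_cancel₀ hl, one_pow]
    rw [hj, ← pow_mul, ← pow_add] at h1
    rw [← h1]; congr 1; ring
  refine ⟨g, hl, ?_⟩
  by_cases h3 : 3 ∣ p - 1
  · obtain ⟨k, hk⟩ := h3
    refine ⟨k, fun j hj => ?_, by omega, ?_⟩
    · have := key j hj
      rw [hk] at this
      exact Nat.dvd_of_mul_dvd_mul_left (by norm_num) this
    · intro h13
      by_contra h6
      have h4 : k = 4 ∨ k = 5 := by omega
      rcases h4 with rfl | rfl
      · omega
      · have : p = 16 := by omega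
        have hpp := hp.out
        rw [this] at hpp
        revert hpp; norm_num
  · refine ⟨p - 1, fun j hj => ?_, by omega, by omega⟩
    have hc : Nat.Coprime (p - 1) 3 := by
      rw [Nat.coprime_comm]
      exact (Nat.Prime.coprime_iff_not_dvd Nat.prime_three).2 h3
    exact hc.dvd_of_dvd_mul_left (key j hj)

variable {G : Type*} [Group G] [Finite G] {p : ℕ} [hp : Fact p.Prime] {P : Sylow p G} {z : G}

theorem XP.good (X : XP p (P : Subgroup G) z) {x : G} (hx : NC p (P : Subgroup G) z x)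
    (hU : ∀ t : ZMod p, ∃ g, Act z x g !![1, t; 0, 1]) (hL : ∀ t : ZMod p, ∃ g, Act z x g !![1, 0; t, 1])
    {l : ZMod p} (hl : l ≠ 0) : ∃ h ∈ Subgroup.normalizer ((P : Subgroup G) : Set G),
      h * z * h⁻¹ = pw z l ∧ h * x * h⁻¹ = pw x l⁻¹ := by
  obtain ⟨d, h1, h2⟩ := exists_act_diag X.zp (X.exp x hx.1) (X.z_cen x hx.1) hU hL hl
  exact X.exists_norm hx hl h1 h2

theorem XP.good_of_conj (X : XP p (P : Subgroup G) z) {x : G} (hx : NC p (P : Subgroup G) z x)
    {g : G} (hg : g * x * g⁻¹ = z) {l : ZMod p} (hl : l ≠ 0) :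
    ∃ h ∈ Subgroup.normalizer ((P : Subgroup G) : Set G), h * z * h⁻¹ = pw z l ∧ h * x * h⁻¹ = pw x l⁻¹ := by
  have hz := X.zp
  have hxp := X.exp x hx.1
  have hPC : (P : Subgroup G) ≤ Subgroup.centralizer {z} := by
    intro a ha
    rw [Subgroup.mem_centralizer_singleton_iff]
    exact (X.z_cen a ha).eq.symm
  have hQC : MulAut.conj g • CS (P : Subgroup G) x ≤ Subgroup.centralizer {z} := by
    intro a ha
    rw [Subgroup.mem_smul_pointwise_iff_exists] at ha
    obtain ⟨s, hs, rfl⟩ := ha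
    rw [MulAut.smul_def, MulAut.conj_apply, Subgroup.mem_centralizer_singleton_iff]
    have h1 := (mem_CS.1 hs).2.eq
    rw [← hg]
    calc g * s * g⁻¹ * (g * x * g⁻¹) = g * (s * x) * g⁻¹ := by group
      _ = g * (x * s) * g⁻¹ := by rw [h1]
      _ = _ := by group
  have hSy : IsSylowOf p (P : Subgroup G) (Subgroup.centralizer {z}) :=
    IsSylowOf.mono (isSylowOf_top_of_sylow P) hPC le_top
  have hPCS : IsPGroup p ↥(CS (P : Subgroup G) x) := P.isPGroup'.to_le inf_le_left
  obtain ⟨c, hc, hcP⟩ := IsSylowOf.exists_conj_le hSy hQC (hPCS.map (MulAut.conj g).toMonoidHom)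
  have hcz : c * z * c⁻¹ = z := by
    rw [Subgroup.mem_centralizer_singleton_iff] at hc
    rw [hc]; group
  set k := c * g with hk
  have hkx : k * x * k⁻¹ = z := by
    have e : k * x * k⁻¹ = c * (g * x * g⁻¹) * c⁻¹ := by rw [hk]; group
    rw [e, hg, hcz]
  have hkz : k * z * k⁻¹ ∈ (P : Subgroup G) := by
    apply hcP
    rw [H1.conj_smul_smul]
    have h1 : z ∈ CS (P : Subgroup G) x := mem_CS.2 ⟨X.z_mem, X.z_cen x hx.1⟩
    have h2 := H1.conj_mem_conj_smul (g := k) h1
    exact h2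
  set y := k * z * k⁻¹ with hy
  have hyNC : NC p (P : Subgroup G) z y := by
    refine ⟨hkz, fun t ht => ?_⟩
    rw [← hkx, ← pw_conj, hy] at ht
    have h1 : z = pw x t := by simpa using ht
    have h2 : pw x t = pw z (1 : ZMod p) := by rw [pw_one]; exact h1.symm
    exact one_ne_zero (X.pw_eq hx h2).2
  have hkz' : k⁻¹ * z * k = x := by rw [← hkx]; group
  have hky' : k⁻¹ * y * k = z := by rw [hy]; group
  refine X.good hx ?_ ?_ hl
  · intro t
    obtain ⟨s, hs, hs2⟩ := X.shift hx t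
    refine ⟨s, ?_, ?_⟩
    · have : s * z * s⁻¹ = z := by rw [(X.z_cen s hs).eq.symm]; group
      simpa [pw_zero, pw_one] using this
    · simpa [pw_zero, pw_one] using hs2
  · intro t
    obtain ⟨s, hs, hs2⟩ := X.shift hyNC t
    have hsz : s * z * s⁻¹ = z := by rw [(X.z_cen s hs).eq.symm]; group
    refine ⟨k⁻¹ * s * k, ?_, ?_⟩
    · have e : k⁻¹ * s * k * z * (k⁻¹ * s * k)⁻¹ = k⁻¹ * (s * (k * z * k⁻¹) * s⁻¹) * k := by group
      have e2 : k⁻¹ * (pw z t * y) * k = (k⁻¹ * pw z t * k⁻¹⁻¹) * (k⁻¹ * y * k) := by group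
      have e3 : k⁻¹ * z * k⁻¹⁻¹ = x := by rw [inv_inv]; exact hkz'
      have h1 : k⁻¹ * s * k * z * (k⁻¹ * s * k)⁻¹ = pw x t * z := by
        rw [e, ← hy, hs2, e2, pw_conj, e3, hky']
      have h2 : pw x t * z = z * pw x t := ((X.z_cen x hx.1).pow_right _).eq.symm
      rw [h2] at h1
      simpa [pw_zero, pw_one] using h1
    · have e : k⁻¹ * s * k * x * (k⁻¹ * s * k)⁻¹ = k⁻¹ * (s * (k * x * k⁻¹) * s⁻¹) * k := by group
      have h1 : k⁻¹ * s * k * x * (k⁻¹ * s * k)⁻¹ = x := by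
        rw [e, hkx, hsz, hkz']
      simpa [pw_zero, pw_one] using h1

/-- S3054 -/
theorem three_planes (hE : Cfsg.IsExtraspecial p ↥P)
    (hcard : Nat.card P = p ^ 3) (hexp : Monoid.exponent ↥P = p)
    (A : Fin 3 → Subgroup G) (hA : Function.Injective A) (hAP : ∀ i, A i ≤ (P : Subgroup G))
    (hAcard : ∀ i, Nat.card ↥(A i) = p ^ 2)
    (hSL : ∀ i, ∀ φ : MulAut ↥(A i), orderOf φ = p → ∃ g : G, ∀ a : ↥(A i), (φ a : G) = g * (a : G) * g⁻¹) :
    p ≤ 13 := by
  classical
  by_contra hlt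
  push Not at hlt
  obtain ⟨z, X⟩ := exists_xp (S := (P : Subgroup G)) hE hcard hexp
  have h1 : ∀ i, ∃ x ∈ A i, NC p (P : Subgroup G) z x := fun i => X.exists_nc (hAP i) (hAcard i)
  choose x hxA hx using h1
  have hCS : ∀ i, A i = CS (P : Subgroup G) (x i) := fun i => X.eq_CS (hAP i) (hAcard i) (hxA i) (hx i)
  obtain ⟨l, hl, m, hm, -, hm6⟩ := exists_l (p := p) (by omega)
  have hcomm : ∀ i j, Commute (x i) (x j) → i = j := by
    intro i j hij
    apply hA
    have h2 : x j ∈ A i := by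
      rw [hCS i]; exact mem_CS.2 ⟨(hx j).1, hij.symm⟩
    rw [hCS j]
    exact X.eq_CS (hAP i) (hAcard i) h2 (hx j)
  have hinj : Function.Injective x := fun i j hij => hcomm i j (by rw [hij])
  have h := (X.count hl hm (Finset.univ.image x) ?_ ?_ ?_).1 (hm6 (by omega))
  · rw [Finset.card_image_of_injective _ hinj, Finset.card_univ, Fintype.card_fin] at h
    omega
  · intro y hy
    obtain ⟨i, _, rfl⟩ := Finset.mem_image.1 hy
    exact hx i
  · intro y hy w hw hyw hc
    obtain ⟨i, _, rfl⟩ := Finset.mem_image.1 hy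
    obtain ⟨j, _, rfl⟩ := Finset.mem_image.1 hw
    exact hyw (congrArg x (hcomm i j hc))
  · intro y hy
    obtain ⟨i, _, rfl⟩ := Finset.mem_image.1 hy
    exact X.good (hx i) (X.hU (hx i) (hCS i) (hSL i)) (X.hL (hx i) (hCS i) (hSL i)) hl

/-- S3055 -/
theorem all_conj (hE : Cfsg.IsExtraspecial p ↥P)
    (hcard : Nat.card P = p ^ 3) (hexp : Monoid.exponent ↥P = p)
    (hconj : ∀ x y : ↥P, x ≠ 1 → y ≠ 1 → ∃ g : G, g * (x : G) * g⁻¹ = (y : G)) :
    p ≤ 7 := by
  classical
  by_contra hlt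
  push Not at hlt
  have h11 : 11 ≤ p := by
    by_contra h
    have hpp := hp.out
    have h3 : p = 8 ∨ p = 9 ∨ p = 10 := by omega
    rcases h3 with rfl | rfl | rfl <;> revert hpp <;> norm_num
  obtain ⟨z, X⟩ := exists_xp (S := (P : Subgroup G)) hE hcard hexp
  obtain ⟨l, hl, m, hm, hm4, hm6⟩ := exists_l (p := p) h11
  have hgood : ∀ x, NC p (P : Subgroup G) z x → ∃ h ∈ Subgroup.normalizer ((P : Subgroup G) : Set G),
      h * z * h⁻¹ = pw z l ∧ h * x * h⁻¹ = pw x l⁻¹ := by
    intro x hx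
    have hx1 : x ≠ 1 := by
      intro h
      exact hx.2 0 (by rw [h, pw_zero])
    obtain ⟨g, hg⟩ := hconj ⟨x, hx.1⟩ ⟨z, X.z_mem⟩ (fun h => hx1 (congrArg Subtype.val h))
      (fun h => X.z_ne (congrArg Subtype.val h))
    exact X.good_of_conj hx hg hl
  -- noncommuting elements
  obtain ⟨x, -, hx⟩ : ∃ x ∈ (P : Subgroup G), NC p (P : Subgroup G) z x := by
    by_contra h
    push Not at h
    have h1 : ∀ a : (P : Subgroup G), ∃ t : ZMod p, (a : G) = pw z t := by
      intro a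
      by_contra hh
      push Not at hh
      exact h a a.2 ⟨a.2, hh⟩
    choose f hf using h1
    have hi : Function.Injective f := by
      intro a b hab
      apply Subtype.ext
      rw [hf a, hf b, hab]
    have := Nat.card_le_card_of_injective f hi
    rw [X.card, Nat.card_zmod] at this
    have h2 := hp.out.one_lt
    have h3 : p ^ 1 < p ^ 3 := Nat.pow_lt_pow_right h2 (by norm_num)
    rw [pow_one] at h3
    omega
  obtain ⟨y, hy, hxy⟩ := X.not_comm hx
  have hyp := X.exp y hy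
  let f : ZMod p → G := fun t => x * pw y t
  have hfS : ∀ t, f t ∈ (P : Subgroup G) := fun t => Subgroup.mul_mem _ hx.1 (pw_mem hy t)
  have hfc : ∀ s t, Commute (f s) (f t) → s = t := by
    intro s t hst
    by_contra hne
    apply hxy
    have h1 : x * pw y s * (x * pw y t) = x * pw y t * (x * pw y s) := hst.eq
    have h2 : pw y s * x * pw y t = pw y t * x * pw y s := by
      have := h1
      rw [mul_assoc, mul_assoc] at this
      have := mul_left_cancel this
      simpa [mul_assoc] using this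
    have h3 : pw y (s - t) * x = x * pw y (s - t) := by
      rw [sub_eq_add_neg, pw_add hyp, pw_neg hyp]
      have hc1 : Commute (pw y s) (pw y t) := pw_comm (Commute.refl y) s t
      have h4 : pw y s * (pw y t)⁻¹ = (pw y t)⁻¹ * pw y s := hc1.inv_right.eq
      rw [h4]
      have h5 : (pw y t)⁻¹ * (pw y s * x * pw y t) * (pw y t)⁻¹ = (pw y t)⁻¹ * (pw y t * x * pw y s) * (pw y t)⁻¹ := by
        rw [h2]
      have h6 : (pw y t)⁻¹ * (pw y s * x * pw y t) * (pw y t)⁻¹ = (pw y t)⁻¹ * pw y s * x := by group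
      have h7 : (pw y t)⁻¹ * (pw y t * x * pw y s) * (pw y t)⁻¹ = x * (pw y s * (pw y t)⁻¹) := by group
      rw [h6, h7, h4] at h5
      exact h5
    exact (X.comm_pw_iff hy (sub_ne_zero.2 hne) h3).symm
  have hinj : Function.Injective f := fun s t hst => hfc s t (by rw [hst])
  have hNC : ∀ t, NC p (P : Subgroup G) z (f t) := by
    intro t
    refine X.nc_of_not_comm (hfS t) (hfS (t + 1)) fun h => ?_
    have := hfc _ _ h
    simp at this
  have h := X.count hl hm (Finset.univ.image f) ?_ ?_ ?_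
  · rw [Finset.card_image_of_injective _ hinj, Finset.card_univ, ZMod.card] at h
    by_cases h13 : p = 13
    · have := h.2 hm4
      omega
    · have := h.1 (hm6 h13)
      omega
  · intro w hw
    obtain ⟨i, _, rfl⟩ := Finset.mem_image.1 hw
    exact hNC i
  · intro w hw v hv hwv hc
    obtain ⟨i, _, rfl⟩ := Finset.mem_image.1 hw
    obtain ⟨j, _, rfl⟩ := Finset.mem_image.1 hv
    exact hwv (congrArg f (hfc i j hc))
  · intro w hw
    obtain ⟨i, _, rfl⟩ := Finset.mem_image.1 hw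
    exact hgood _ (hNC i)

end Cfsg.Agent.H19.Pl
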