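import Mathlib
import Cfsg.Prelude.Def_SylowChains
import Cfsg.Agent.L.SylIn
import Cfsg.Agent.H18.SylIn2

/-!
# Control of Sylow intersections in relational form
-/

set_option autoImplicit false
set_option linter.all false

namespace Cfsg.Agent.H19

open Subgroup Cfsg Cfsg.Agent.L Relation

variable {G : Type*} [Group G] {p : ℕ}

/-- one step of a chain -/
def Stp (p : ℕ) (𝓕 : Set (Subgroup G)) (D : Subgroup G) (A B : Sylow p G) : Prop :=
  ∃ (X : Subgroup G) (x : G), X ∈ sylowMembers p 𝓕 (A : Subgroup G) ∧ X ∈ sylowMembers p 𝓕 (B : Subgroup G) ∧ x ∈ X ∧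
    subgroupConjRight x (B : Subgroup G) = (A : Subgroup G) ∧ D ≤ (B : Subgroup G) ⊓ X

theorem Stp.mono {𝓕 𝓖 : Set (Subgroup G)} {D D' : Subgroup G} {A B : Sylow p G} (h : Stp p 𝓕 D A B) (h1 : 𝓕 ⊆ 𝓖)
    (h2 : D' ≤ D) : Stp p 𝓖 D' A B := by
  obtain ⟨X, x, ⟨ha, ha'⟩, ⟨hb, hb'⟩, h3, h4, h5⟩ := h
  exact ⟨X, x, ⟨h1 ha, ha'⟩, ⟨h1 hb, hb'⟩, h3, h4, h2.trans h5⟩

theorem mem_sylowMembers_iff [Finite G] [hp : Fact p.Prime] {𝓕 : Set (Subgroup G)} {S X : Subgroup G} :
    X ∈ sylowMembers p 𝓕 S ↔ X ∈ 𝓕 ∧ SylIn p (S ⊓ X) X := by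
  constructor
  · rintro ⟨h, P, hP⟩
    refine ⟨h, ?_⟩
    rw [← hP]
    exact sylIn_of_sylow P
  · rintro ⟨h, hS⟩
    refine ⟨h, hS.toSylow, ?_⟩
    rw [SylIn.toSylow_coe]
    rw [Subgroup.subgroupOf_map_subtype, inf_assoc, inf_idem]

theorem chain_iff (𝓕 : Set (Subgroup G)) (D : Subgroup G) (S T : Sylow p G) :
    (∃ (n : ℕ) (c : Fin (n + 1) → Sylow p G) (X : Fin n → Subgroup G) (x : Fin n → G),
      c 0 = S ∧ c (Fin.last n) = T ∧
      ∀ i : Fin n,
        X i ∈ sylowMembers p 𝓕 (c i.castSucc : Subgroup G) ∧ X i ∈ sylowMembers p 𝓕 (c i.succ : Subgroup G) ∧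
        x i ∈ X i ∧ subgroupConjRight (x i) (c i.succ : Subgroup G) = (c i.castSucc : Subgroup G) ∧
        D ≤ (c i.succ : Subgroup G) ⊓ X i) ↔ ReflTransGen (Stp p 𝓕 D) S T := by
  constructor
  · rintro ⟨n, c, X, x, rfl, rfl, h⟩
    have key : ∀ i : Fin (n + 1), ReflTransGen (Stp p 𝓕 D) (c 0) (c i) := by
      intro i
      induction i using Fin.induction with
      | zero => exact ReflTransGen.refl
      | succ i ih => exact ih.tail ⟨X i, x i, h i⟩
    exact key _
  · intro h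
    induction h with
    | refl => exact ⟨0, fun _ => S, Fin.elim0, Fin.elim0, rfl, rfl, fun i => i.elim0⟩
    | @tail B C _ hBC ih =>
      obtain ⟨n, c, X, x, h0, h1, h⟩ := ih
      obtain ⟨Y, y, hY⟩ := hBC
      refine ⟨n + 1, Fin.snoc (α := fun _ => Sylow p G) c C, Fin.snoc (α := fun _ => Subgroup G) X Y,
        Fin.snoc (α := fun _ => G) x y, ?_, ?_, ?_⟩
      · have : (0 : Fin (n + 1 + 1)) = Fin.castSucc 0 := rfl
        rw [this, Fin.snoc_castSucc, h0]
      · rw [Fin.snoc_last]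
      · intro i
        refine Fin.lastCases ?_ (fun i => ?_) i
        · rw [Fin.snoc_last, Fin.snoc_last, Fin.succ_last, Fin.snoc_last, Fin.snoc_castSucc, h1]
          exact hY
        · rw [Fin.succ_castSucc]
          simp only [Fin.snoc_castSucc]
          exact h i

theorem ctl_iff (𝓕 : Set (Subgroup G)) : ControlsSylowIntersections p 𝓕 ↔
    ∀ S T : Sylow p G, S ≠ T → (S : Subgroup G) ⊓ (T : Subgroup G) ≠ ⊥ →
      ReflTransGen (Stp p 𝓕 ((S : Subgroup G) ⊓ (T : Subgroup G))) S T := by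
  unfold ControlsSylowIntersections
  exact forall_congr' fun S => forall_congr' fun T => forall_congr' fun _ => forall_congr' fun _ => chain_iff 𝓕 _ S T

/-- steps of the family induced by `f` in `M`, in ambient form -/
structure AStp (p : ℕ) (f : Subgroup G → Set (Subgroup G)) (M D A B : Subgroup G) : Prop where
  sA : SylIn p A M
  sB : SylIn p B M
  ex : ∃ P F : Subgroup G, SylIn p P M ∧ F ∈ f P ∧ A ≤ normalizer (F : Set G) ∧ B ≤ normalizer (F : Set G) ∧
    ∃ x ∈ M, x ∈ normalizer (F : Set G) ∧ cj x⁻¹ B = A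
  DB : D ≤ B

theorem AStp.mono {f : Subgroup G → Set (Subgroup G)} {M D D' A B : Subgroup G} (h : AStp p f M D A B) (h' : D' ≤ D) :
    AStp p f M D' A B := ⟨h.sA, h.sB, h.ex, h'.trans h.DB⟩

variable [Finite G] [hp : Fact p.Prime]

theorem le_of_sylIn_inf {A P X M : Subgroup G} (hA : SylIn p A M) (hP : SylIn p P M) (hPX : P ≤ X) (hXM : X ≤ M)
    (h : SylIn p (A ⊓ X) X) : A ≤ X := by
  have h1 : SylIn p P X := hP.of_le hPX hXM
  have h2 : Nat.card A ≤ Nat.card (A ⊓ X : Subgroup G) := by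
    calc Nat.card A ≤ Nat.card P := hP.card_le hA.isPGroup hA.le
      _ ≤ _ := h.card_le h1.isPGroup hPX
  have h3 := eq_of_le_of_card_le (inf_le_left : A ⊓ X ≤ A) h2
  rw [← h3]; exact inf_le_right

theorem sylIn_map {M : Subgroup G} (A : Sylow p M) : SylIn p ((A : Subgroup M).map M.subtype) M := sylIn_of_sylow A

theorem regular_imp {f : Subgroup G → Set (Subgroup G)} (hf : IsNormalizerFunctor p f) {M : Subgroup G}
    (h : IsFunctorRegular p f M) {A B : Subgroup G} (hA : SylIn p A M) (hB : SylIn p B M) (hAB : A ⊓ B ≠ ⊥) :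
    ReflTransGen (AStp p f M (A ⊓ B)) A B := by
  by_cases hne : A = B
  · rw [hne]
  have h1 := (ctl_iff _).1 h hA.toSylow hB.toSylow (by
    intro h2
    apply hne
    have h3 := congrArg (fun S : Sylow p M => (S : Subgroup M).map M.subtype) h2
    simpa [SylIn.toSylow_coe, Subgroup.subgroupOf_map_subtype, inf_eq_left.2 hA.le, inf_eq_left.2 hB.le] using h3) (by
    intro h2
    apply hAB
    rw [SylIn.toSylow_coe, SylIn.toSylow_coe] at h2
    have h3 := congrArg (fun S : Subgroup M => S.map M.subtype) h2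
    simp only [Subgroup.map_bot] at h3
    rw [← h3, eq_comm]
    have : (A.subgroupOf M ⊓ B.subgroupOf M) = (A ⊓ B).subgroupOf M := rfl
    rw [this, Subgroup.subgroupOf_map_subtype, inf_eq_left.2 (inf_le_left.trans hA.le)])
  have h2 := ReflTransGen.lift (p := AStp p f M (A ⊓ B)) (fun S : Sylow p M => (S : Subgroup M).map M.subtype) (by
    rintro S T ⟨X, x, hXS, hXT, hxX, hxST, hD⟩
    rw [mem_sylowMembers_iff] at hXS hXT
    obtain ⟨⟨Y, ⟨P, F, hF, rfl⟩, rfl⟩, hXS⟩ := hXS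
    obtain ⟨-, hXT⟩ := hXT
    have hP := sylIn_map P
    have hFP := (hf _ hP.isPGroup).1 F hF
    obtain ⟨Y, hY⟩ : ∃ Y, Y = M ⊓ normalizer (F : Set G) := ⟨_, rfl⟩
    rw [← hY] at hXS hXT hxX hD
    have hPY : (P : Subgroup M) ≤ Y.subgroupOf M := by
      intro y hy
      rw [mem_subgroupOf, hY]
      refine Subgroup.mem_inf.2 ⟨y.2, hFP.2 ?_⟩
      exact le_normalizer ⟨y, hy, rfl⟩
    have hSY : (S : Subgroup M) ≤ Y.subgroupOf M :=
      le_of_sylIn_inf (sylIn_top S) (sylIn_top P) hPY le_top hXS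
    have hTY : (T : Subgroup M) ≤ Y.subgroupOf M :=
      le_of_sylIn_inf (sylIn_top T) (sylIn_top P) hPY le_top hXT
    refine ⟨sylIn_map S, sylIn_map T, ⟨_, F, hP, hF, ?_, ?_, x, x.2, ?_, ?_⟩, ?_⟩
    · rintro _ ⟨y, hy, rfl⟩
      have := hSY hy
      rw [mem_subgroupOf, hY] at this
      exact this.2
    · rintro _ ⟨y, hy, rfl⟩
      have := hTY hy
      rw [mem_subgroupOf, hY] at this
      exact this.2
    · rw [mem_subgroupOf, hY] at hxX
      exact hxX.2
    · change cj (x : G)⁻¹ ((T : Subgroup M).map M.subtype) = (S : Subgroup M).map M.subtype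
      rw [← hxST]
      ext y
      rw [mem_cj]
      constructor
      · rintro ⟨z, hz, e⟩
        refine ⟨x⁻¹ * z * x, ⟨z, hz, by simp [mul_assoc]⟩, ?_⟩
        have e' : (z : G) = x⁻¹⁻¹ * y * (x : G)⁻¹ := e
        simp only [Subgroup.coe_subtype, Subgroup.coe_mul, Subgroup.coe_inv, e']
        group
      · rintro ⟨_, ⟨z, hz, rfl⟩, rfl⟩
        refine ⟨z, hz, ?_⟩
        simp [mul_assoc]
    · intro y hy
      have hyM : y ∈ M := hA.le hy.1
      have : (⟨y, hyM⟩ : M) ∈ (hA.toSylow : Subgroup M) ⊓ (hB.toSylow : Subgroup M) := by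
        rw [SylIn.toSylow_coe, SylIn.toSylow_coe]
        exact hy
      exact ⟨_, (hD this).1, rfl⟩) _ _ h1
  have h3 : ∀ {A : Subgroup G} (hA : SylIn p A M), ((hA.toSylow : Sylow p M) : Subgroup M).map M.subtype = A := by
    intro A hA
    rw [SylIn.toSylow_coe, Subgroup.subgroupOf_map_subtype, inf_eq_left.2 hA.le]
  change ReflTransGen (AStp p f M (A ⊓ B)) ((hA.toSylow : Subgroup M).map M.subtype) ((hB.toSylow : Subgroup M).map M.subtype) at h2
  rw [h3, h3] at h2
  exact h2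

theorem regular_of {f : Subgroup G → Set (Subgroup G)} {M : Subgroup G}
    (h : ∀ A B : Subgroup G, SylIn p A M → SylIn p B M → A ⊓ B ≠ ⊥ → ReflTransGen (AStp p f M (A ⊓ B)) A B) :
    IsFunctorRegular p f M := by
  classical
  rw [IsFunctorRegular, ctl_iff]
  intro S T hST hne
  have hS := sylIn_map S
  have hT := sylIn_map T
  have h1 := h _ _ hS hT (by
    intro h2
    apply hne
    rw [← Subgroup.map_inf_eq _ _ _ M.subtype_injective] at h2
    exact (Subgroup.map_eq_bot_iff_of_injective _ M.subtype_injective).1 h2)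
  let φ : Subgroup G → Sylow p M := fun A => if hA : SylIn p A M then hA.toSylow else S
  have hφ : ∀ A : Subgroup G, SylIn p A M → ((φ A : Sylow p M) : Subgroup M) = A.subgroupOf M := by
    intro A hA
    simp only [φ, dif_pos hA]
    rfl
  have hφ' : ∀ A : Sylow p M, φ ((A : Subgroup M).map M.subtype) = A := by
    intro A
    apply Sylow.ext
    rw [hφ _ (sylIn_map A)]
    rw [Subgroup.subgroupOf, Subgroup.comap_map_eq_self_of_injective M.subtype_injective]
  have h2 := ReflTransGen.lift (p := Stp p ((fun X : Subgroup G => X.subgroupOf M) '' functorFamily p f M)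
      ((S : Subgroup M) ⊓ (T : Subgroup M))) φ (by
    rintro A B ⟨hA, hB, ⟨P, F, hP, hF, hAF, hBF, x, hxM, hxF, hx⟩, hD⟩
    have hXf : (M ⊓ normalizer (F : Set G)).subgroupOf M ∈ (fun X : Subgroup G => X.subgroupOf M) '' functorFamily p f M := by
      refine ⟨_, ⟨hP.toSylow, F, ?_, rfl⟩, rfl⟩
      rw [SylIn.toSylow_coe, Subgroup.subgroupOf_map_subtype, inf_eq_left.2 hP.le]
      exact hF
    have hmem : ∀ A : Subgroup G, SylIn p A M → A ≤ normalizer (F : Set G) →
        (M ⊓ normalizer (F : Set G)).subgroupOf M ∈ sylowMembers p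
          ((fun X : Subgroup G => X.subgroupOf M) '' functorFamily p f M) ((φ A : Sylow p M) : Subgroup M) := by
      intro A hA hAF
      rw [mem_sylowMembers_iff]
      refine ⟨hXf, ?_⟩
      have h3 : ((φ A : Sylow p M) : Subgroup M) ≤ (M ⊓ normalizer (F : Set G)).subgroupOf M := by
        rw [hφ A hA]
        intro y hy
        exact Subgroup.mem_inf.2 ⟨y.2, hAF hy⟩
      rw [inf_eq_left.2 h3]
      exact sylow_sylIn _ h3
    refine ⟨_, ⟨x, hxM⟩, hmem A hA hAF, hmem B hB hBF, ?_, ?_, ?_⟩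
    · exact Subgroup.mem_inf.2 ⟨hxM, hxF⟩
    · rw [hφ A hA, hφ B hB, ← hx]
      ext y
      rw [mem_subgroupOf, mem_cj]
      constructor
      · rintro ⟨z, hz, rfl⟩
        rw [SetLike.mem_coe, mem_subgroupOf] at hz
        simpa [mul_assoc] using hz
      · intro hy
        refine ⟨⟨x, hxM⟩ * y * ⟨x, hxM⟩⁻¹, ?_, by simp [mul_assoc]⟩
        rw [SetLike.mem_coe, mem_subgroupOf]
        simpa [mul_assoc] using hy
    · refine le_inf ?_ ?_
      · rw [hφ B hB]
        intro y hy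
        exact hD (Subgroup.mem_inf.2 ⟨⟨y, hy.1, rfl⟩, ⟨y, hy.2, rfl⟩⟩)
      · intro y hy
        refine Subgroup.mem_inf.2 ⟨y.2, hBF (hD (Subgroup.mem_inf.2 ⟨⟨y, hy.1, rfl⟩, ⟨y, hy.2, rfl⟩⟩))⟩) _ _ h1
  change ReflTransGen _ (φ _) (φ _) at h2
  rw [hφ', hφ'] at h2
  exact h2

end Cfsg.Agent.H19
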