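import Mathlib
import Cfsg.Agent.H19.SCtl1

/-!
# Control of Sylow intersections, II
-/

set_option autoImplicit false
set_option linter.all false

namespace Cfsg.Agent.H19

open Subgroup Cfsg Cfsg.Agent.L Relation

variable {G : Type*} [Group G] {p : ℕ} [Finite G] [hp : Fact p.Prime]

theorem AStp.cj {f : Subgroup G → Set (Subgroup G)} (hf : IsNormalizerFunctor p f) {M D A B : Subgroup G}
    (h : AStp p f M D A B) (g : G) : AStp p f (cj g M) (cj g D) (cj g A) (cj g B) := by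
  obtain ⟨hA, hB, ⟨P, F, hP, hF, hAF, hBF, x, hxM, hxF, hx⟩, hD⟩ := h
  refine ⟨hA.cj g, hB.cj g, ⟨L.cj g P, L.cj g F, hP.cj g, ?_, ?_, ?_, g * x * g⁻¹, conj_mem_cj hxM, ?_, ?_⟩, cj_mono hD⟩
  · rw [((hf P hP.isPGroup).2 g)]
    exact ⟨F, hF, rfl⟩
  · have := cj_mono (g := g) hAF
    rwa [← nz_cj] at this
  · have := cj_mono (g := g) hBF
    rwa [← nz_cj] at this
  · have : g * x * g⁻¹ ∈ L.cj g (nz F) := conj_mem_cj hxF
    rwa [← nz_cj] at this
  · rw [← hx, cj_cj, cj_cj]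
    congr 1
    group

theorem sylIn_top_of {S M A : Subgroup G} (hS : SylIn p S ⊤) (hSM : S ≤ M) (hA : SylIn p A M) : SylIn p A ⊤ := by
  obtain ⟨x, hx, h⟩ := (hS.of_le hSM le_top).exists_conj_eq hA
  rw [← h]
  exact hS.cj_mem (mem_top x)

theorem AStp.top {f : Subgroup G → Set (Subgroup G)} {M D A B S : Subgroup G}
    (h : AStp p f M D A B) (hS : SylIn p S ⊤) (hSM : S ≤ M) : AStp p f ⊤ D A B := by
  obtain ⟨hA, hB, ⟨P, F, hP, hF, hAF, hBF, x, hxM, hxF, hx⟩, hD⟩ := h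
  exact ⟨sylIn_top_of hS hSM hA, sylIn_top_of hS hSM hB, ⟨P, F, sylIn_top_of hS hSM hP, hF, hAF, hBF, x, mem_top x, hxF, hx⟩, hD⟩

theorem chain_mono {f : Subgroup G → Set (Subgroup G)} {M D D' A B : Subgroup G} (h : ReflTransGen (AStp p f M D) A B)
    (h' : D' ≤ D) : ReflTransGen (AStp p f M D') A B :=
  ReflTransGen.mono (fun _ _ h1 => AStp.mono h1 h') _ _ h

theorem chain_cj {f : Subgroup G → Set (Subgroup G)} (hf : IsNormalizerFunctor p f) {M D A B : Subgroup G}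
    (h : ReflTransGen (AStp p f M D) A B) (g : G) : ReflTransGen (AStp p f (cj g M) (cj g D)) (cj g A) (cj g B) :=
  ReflTransGen.lift (fun A => cj g A) (fun _ _ h1 => h1.cj hf g) _ _ h

theorem chain_top {f : Subgroup G → Set (Subgroup G)} {M D A B S : Subgroup G} (h : ReflTransGen (AStp p f M D) A B)
    (hS : SylIn p S ⊤) (hSM : S ≤ M) : ReflTransGen (AStp p f ⊤ D) A B :=
  ReflTransGen.mono (fun _ _ h1 => AStp.top h1 hS hSM) _ _ h

/-- the factorization theorem -/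
theorem regular_factor {f : Subgroup G → Set (Subgroup G)} (hf : IsNormalizerFunctor p f) {S G₁ G₂ : Subgroup G}
    (hS : SylIn p S ⊤) (h₁ : S ≤ G₁) (h₂ : S ≤ G₂)
    (hU : ∀ g : G, ∃ U : Subgroup G, SylIn p U ⊤ ∧ S ⊓ cj g⁻¹ S ≤ U ∧ U ≤ G₁ ⊓ cj g⁻¹ G₂)
    (hr₁ : IsFunctorRegular p f G₁) (hr₂ : IsFunctorRegular p f G₂) : IsFunctorRegular p f ⊤ := by
  apply regular_of
  intro A B hA hB hne
  obtain ⟨a, -, ha⟩ := hS.exists_conj_eq hA
  obtain ⟨b, -, hb⟩ := hS.exists_conj_eq hB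
  obtain ⟨U, hUt, hSU, hUG⟩ := hU (b⁻¹ * a)
  obtain ⟨g, hg⟩ : ∃ g, g = b⁻¹ * a := ⟨_, rfl⟩
  rw [← hg] at hSU hUG
  have hBa : L.cj g⁻¹ S = L.cj a⁻¹ B := by rw [← hb, cj_cj, hg]; congr 1; group
  have hAa : S = L.cj a⁻¹ A := by rw [← ha, cj_inv_cj]
  have hD : S ⊓ L.cj g⁻¹ S = L.cj a⁻¹ (A ⊓ B) := by
    rw [cj_inf, ← hAa, hBa]
  have hne' : S ⊓ L.cj g⁻¹ S ≠ ⊥ := by rw [hD, Ne, cj_eq_bot]; exact hne
  have h1 := regular_imp hf hr₁ (hS.of_le h₁ le_top) (hUt.of_le (hUG.trans inf_le_left) le_top) (by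
    intro h; apply hne'; rw [eq_bot_iff, ← h]; exact le_inf inf_le_left hSU)
  have h2 := regular_imp hf hr₂ (A := L.cj g U) (B := S) (by
    have := (hUt.cj g)
    rw [cj_top] at this
    apply this.of_le _ le_top
    rw [cj_le_iff]; exact hUG.trans inf_le_right) (hS.of_le h₂ le_top) (by
    intro h
    apply hne'
    have h3 := congrArg (L.cj g⁻¹) h
    rw [cj_inf, cj_inv_cj, cj_bot] at h3
    rw [eq_bot_iff, ← h3]
    exact le_inf hSU inf_le_right)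
  have h3 := chain_cj hf h2 g⁻¹
  rw [cj_inv_cj, cj_inf, cj_inv_cj] at h3
  have h4 : ReflTransGen (AStp p f ⊤ (S ⊓ L.cj g⁻¹ S)) S (L.cj g⁻¹ S) := by
    refine ReflTransGen.trans (b := U) ?_ ?_
    · exact chain_mono (chain_top h1 hS h₁) (le_inf inf_le_left hSU)
    · refine chain_mono (chain_top h3 hUt (hUG.trans inf_le_right)) (le_inf hSU inf_le_right)
  have h5 := chain_cj hf h4 a
  rw [hD, cj_cj_inv, hBa, cj_cj_inv, ha, cj_top] at h5
  exact h5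

end Cfsg.Agent.H19
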