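import Mathlib
import Cfsg.Agent.H19.SCtl2

/-!
# Control of Sylow intersections by functor normalizers and singular maximal local subgroups
-/

set_option autoImplicit false
set_option linter.all false

namespace Cfsg.Agent.H19

open Subgroup Cfsg Cfsg.Agent.L Relation

variable {G : Type*} [Group G] {p : ℕ} [Finite G] [hp : Fact p.Prime]

/-- ambient steps for a family in `G` -/
def GStp (p : ℕ) (𝓕 : Set (Subgroup G)) (D A B : Subgroup G) : Prop :=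
  SylIn p A ⊤ ∧ SylIn p B ⊤ ∧ ∃ (X : Subgroup G) (x : G), X ∈ 𝓕 ∧ SylIn p (A ⊓ X) X ∧ SylIn p (B ⊓ X) X ∧ x ∈ X ∧
    cj x⁻¹ B = A ∧ D ≤ B ⊓ X

theorem gchain_mono {𝓕 : Set (Subgroup G)} {D D' A B : Subgroup G} (h : ReflTransGen (GStp p 𝓕 D) A B)
    (h' : D' ≤ D) : ReflTransGen (GStp p 𝓕 D') A B := by
  refine ReflTransGen.mono ?_ _ _ h
  rintro A B ⟨h1, h2, X, x, h3, h4, h5, h6, h7, h8⟩
  exact ⟨h1, h2, X, x, h3, h4, h5, h6, h7, h'.trans h8⟩

theorem ctl_of_gchain {𝓕 : Set (Subgroup G)} (h : ∀ A B : Subgroup G, SylIn p A ⊤ → SylIn p B ⊤ → A ≠ B → A ⊓ B ≠ ⊥ →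
    ReflTransGen (GStp p 𝓕 (A ⊓ B)) A B) : ControlsSylowIntersections p 𝓕 := by
  classical
  rw [ctl_iff]
  intro S T hST hne
  have h1 := h S T (sylIn_top S) (sylIn_top T) (fun h => hST (Sylow.ext h)) hne
  have hnd : ∀ {A : Subgroup G}, SylIn p A ⊤ → ¬ p ∣ A.index := by
    intro A hA
    have := hA.not_dvd
    rwa [Subgroup.relIndex_top_right] at this
  let φ : Subgroup G → Sylow p G := fun A => if hA : SylIn p A ⊤ then IsPGroup.toSylow hA.isPGroup (hnd hA) else S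
  have hφ : ∀ A : Subgroup G, SylIn p A ⊤ → ((φ A : Sylow p G) : Subgroup G) = A := by
    intro A hA
    simp only [φ, dif_pos hA]
    rfl
  have hφ' : ∀ A : Sylow p G, φ (A : Subgroup G) = A := fun A => Sylow.ext (hφ _ (sylIn_top A))
  have h2 := ReflTransGen.lift (p := Stp p 𝓕 ((S : Subgroup G) ⊓ (T : Subgroup G))) φ (by
    rintro A B ⟨hA, hB, X, x, h3, h4, h5, h6, h7, h8⟩
    refine ⟨X, x, ?_, ?_, h6, ?_, ?_⟩
    · rw [mem_sylowMembers_iff, hφ A hA]; exact ⟨h3, h4⟩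
    · rw [mem_sylowMembers_iff, hφ B hB]; exact ⟨h3, h5⟩
    · rw [hφ A hA, hφ B hB]; exact h7
    · rw [hφ B hB]; exact h8) _ _ h1
  change ReflTransGen _ (φ _) (φ _) at h2
  rw [hφ', hφ'] at h2
  exact h2

theorem top_mem_functorFamily {f : Subgroup G → Set (Subgroup G)} {P F : Subgroup G} (hP : SylIn p P ⊤) (hF : F ∈ f P) :
    normalizer (F : Set G) ∈ functorFamily p f ⊤ := by
  refine ⟨hP.toSylow, F, ?_, by rw [top_inf_eq]⟩
  rw [SylIn.toSylow_coe, Subgroup.subgroupOf_map_subtype, inf_top_eq]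
  exact hF

/-- steps at the top -/
theorem GStp.of_AStp {f : Subgroup G → Set (Subgroup G)} {𝓖 : Set (Subgroup G)} (h𝓖 : functorFamily p f ⊤ ⊆ 𝓖)
    {D A B : Subgroup G} (h : AStp p f ⊤ D A B) : GStp p 𝓖 (A ⊓ B ⊓ D) A B := by
  obtain ⟨hA, hB, ⟨P, F, hP, hF, hAF, hBF, x, hxM, hxF, hx⟩, hD⟩ := h
  refine ⟨hA, hB, normalizer (F : Set G), x, h𝓖 (top_mem_functorFamily hP hF), ?_, ?_, hxF, hx, ?_⟩
  · rw [inf_eq_left.2 hAF]; exact hA.of_le hAF le_top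
  · rw [inf_eq_left.2 hBF]; exact hB.of_le hBF le_top
  · rw [inf_eq_left.2 hBF]; exact inf_le_left.trans inf_le_right

theorem GStp.of_AStp' {f : Subgroup G → Set (Subgroup G)} {𝓖 : Set (Subgroup G)} (h𝓖 : functorFamily p f ⊤ ⊆ 𝓖)
    {D A B : Subgroup G} (h : AStp p f ⊤ D A B) : GStp p 𝓖 D A B := by
  obtain ⟨hA, hB, ⟨P, F, hP, hF, hAF, hBF, x, hxM, hxF, hx⟩, hD⟩ := h
  refine ⟨hA, hB, normalizer (F : Set G), x, h𝓖 (top_mem_functorFamily hP hF), ?_, ?_, hxF, hx, ?_⟩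
  · rw [inf_eq_left.2 hAF]; exact hA.of_le hAF le_top
  · rw [inf_eq_left.2 hBF]; exact hB.of_le hBF le_top
  · exact le_inf hD (hD.trans hBF)

theorem exists_maxlocal {N : Subgroup G} (hN : IsPLocal p N) : ∃ M : Subgroup G, IsMaximalPLocal p M ∧ N ≤ M := by
  obtain ⟨M, hNM, hM⟩ := (Set.toFinite {M : Subgroup G | IsPLocal p M}).exists_le_maximal hN
  refine ⟨M, ⟨hM.prop, ?_⟩, hNM⟩
  intro N' hN' h
  exact le_antisymm (hM.le_of_ge hN' h) h

theorem exists_sylIn_inf {Q M : Subgroup G} (hQ : IsPGroup p Q) (hQM : Q ≤ M) :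
    ∃ A R : Subgroup G, SylIn p A ⊤ ∧ SylIn p R M ∧ Q ≤ R ∧ R ≤ A ∧ A ⊓ M = R := by
  obtain ⟨R, hR, hQR⟩ := exists_sylIn_ge hQ hQM
  obtain ⟨A, hA, hRA⟩ := exists_sylIn_ge (H := ⊤) hR.isPGroup le_top
  refine ⟨A, R, hA, hR, hQR, hRA, ?_⟩
  exact (hR.eq_of_le (hA.isPGroup.to_le inf_le_left) inf_le_right (le_inf hRA hR.le)).symm

theorem main_aux {f : Subgroup G → Set (Subgroup G)} (hf : IsNormalizerFunctor p f)
    (hf1 : ∀ P : Subgroup G, IsPGroup p ↥P → P ≠ ⊥ → ∀ F ∈ f P, F ≠ ⊥) {𝓖 : Set (Subgroup G)}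
    (h𝓖 : functorFamily p f ⊤ ⊆ 𝓖) (h𝓖' : ∀ M, IsMaximalPLocal p M → ¬ IsFunctorRegular p f M → M ∈ 𝓖)
    {D : Subgroup G} (hD1 : D ≠ ⊥)
    (ih : ∀ A B : Subgroup G, SylIn p A ⊤ → SylIn p B ⊤ → Nat.card D < Nat.card (A ⊓ B : Subgroup G) → D ≤ A ⊓ B →
      ReflTransGen (GStp p 𝓖 D) A B) (n : ℕ) :
    ∀ M R₀ : Subgroup G, IsMaximalPLocal p M → SylIn p R₀ M → Nat.card G ≤ n + Nat.card R₀ →
      ∀ A B Q₁ Q₂ : Subgroup G, SylIn p A ⊤ → SylIn p B ⊤ → Q₁ ≤ A → Q₂ ≤ B → Q₁ ≤ M → Q₂ ≤ M → D < Q₁ → D < Q₂ →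
        ReflTransGen (GStp p 𝓖 D) A B := by
  induction n using Nat.strong_induction_on with
  | _ n ihn =>
  intro M R₀ hM hR₀ hn A B Q₁ Q₂ hA hB hQ₁ hQ₂ hQ₁M hQ₂M hDQ₁ hDQ₂
  obtain ⟨A₁, R₁, hA₁, hR₁, hQR₁, hRA₁, hAR₁⟩ := exists_sylIn_inf (hA.isPGroup.to_le hQ₁) hQ₁M
  obtain ⟨B₁, R₂, hB₁, hR₂, hQR₂, hRB₂, hBR₂⟩ := exists_sylIn_inf (hB.isPGroup.to_le hQ₂) hQ₂M
  have c1 : ReflTransGen (GStp p 𝓖 D) A A₁ := by
    have h1 : Q₁ ≤ A ⊓ A₁ := le_inf hQ₁ (hQR₁.trans hRA₁)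
    exact ih A A₁ hA hA₁ (lt_of_lt_of_le (card_lt_of_lt hDQ₁) (L.card_le_of_le h1)) (hDQ₁.le.trans h1)
  have c2 : ReflTransGen (GStp p 𝓖 D) B₁ B := by
    have h1 : Q₂ ≤ B₁ ⊓ B := le_inf (hQR₂.trans hRB₂) hQ₂
    exact ih B₁ B hB₁ hB (lt_of_lt_of_le (card_lt_of_lt hDQ₂) (L.card_le_of_le h1)) (hDQ₂.le.trans h1)
  refine c1.trans (ReflTransGen.trans ?_ c2)
  have hDR₁ : D < R₁ := lt_of_lt_of_le hDQ₁ hQR₁
  have hDR₂ : D < R₂ := lt_of_lt_of_le hDQ₂ hQR₂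
  have hne : R₁ ⊓ R₂ ≠ ⊥ := by
    intro h
    apply hD1
    rw [eq_bot_iff, ← h]
    exact le_inf hDR₁.le hDR₂.le
  by_cases hreg : IsFunctorRegular p f M
  · -- regular
    have hch := regular_imp hf hreg hR₁ hR₂ hne
    have hch' := chain_mono hch (D' := D) (le_inf hDR₁.le hDR₂.le)
    by_cases htop : ∃ S : Subgroup G, SylIn p S ⊤ ∧ S ≤ M
    · obtain ⟨S, hS, hSM⟩ := htop
      have hR₁t := sylIn_top_of hS hSM hR₁
      have hR₂t := sylIn_top_of hS hSM hR₂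
      have e1 : R₁ = A₁ := hR₁t.eq_of_le hA₁.isPGroup le_top hRA₁
      have e2 : R₂ = B₁ := hR₂t.eq_of_le hB₁.isPGroup le_top hRB₂
      rw [← e1, ← e2]
      exact ReflTransGen.mono (fun _ _ h1 => GStp.of_AStp' h𝓖 (AStp.top h1 hS hSM)) _ _ hch'
    · -- all Sylow subgroups above members of the chain are connected
      have key : ∀ R : Subgroup G, ReflTransGen (AStp p f M D) R₁ R →
          (SylIn p R M ∧ D < R) ∧ ∀ C : Subgroup G, SylIn p C ⊤ → R ≤ C → ReflTransGen (GStp p 𝓖 D) A₁ C := by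
        intro R hR
        induction hR with
        | refl =>
          refine ⟨⟨hR₁, hDR₁⟩, fun C hC hRC => ?_⟩
          have h1 : R₁ ≤ A₁ ⊓ C := le_inf hRA₁ hRC
          exact ih A₁ C hA₁ hC (lt_of_lt_of_le (card_lt_of_lt hDR₁) (L.card_le_of_le h1)) (hDR₁.le.trans h1)
        | @tail R R' _ hstep ihR =>
          obtain ⟨⟨hRM, hDR⟩, ihR⟩ := ihR
          obtain ⟨hRs, hR's, ⟨P, F, hP, hF, hRF, hR'F, -⟩, hDR'⟩ := hstep
          have hDR'' : D < R' := by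
            refine lt_of_le_of_ne hDR' ?_
            intro h
            have h1 : Nat.card R = Nat.card R' := le_antisymm (hR's.card_le hRs.isPGroup hRs.le) (hRs.card_le hR's.isPGroup hR's.le)
            have h2 := card_lt_of_lt hDR
            rw [h1, ← h] at h2
            exact lt_irrefl _ h2
          refine ⟨⟨hR's, hDR''⟩, fun C hC hRC => ?_⟩
          -- the local subgroup `N_G(F)`
          have hPne : P ≠ ⊥ := by
            intro h
            have h1 := hP.card_le hRs.isPGroup hRs.le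
            have h2 := card_lt_of_lt hDR
            rw [h, Subgroup.card_bot] at h1
            have h3 : 0 < Nat.card D := Nat.card_pos
            omega
          have hFP := (hf P hP.isPGroup).1 F hF
          have hFne := hf1 P hP.isPGroup hPne F hF
          have hloc : IsPLocal p (normalizer (F : Set G)) := ⟨F, hP.isPGroup.to_le hFP.1, hFne, rfl⟩
          obtain ⟨M', hM', hFM'⟩ := exists_maxlocal hloc
          obtain ⟨R₀', hR₀'⟩ := exists_sylIn (p := p) M'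
          -- larger Sylow subgroup
          have hlt : Nat.card R₀ < Nat.card R₀' := by
            obtain ⟨S, hS, hPS⟩ := exists_sylIn_ge (p := p) (H := ⊤) hP.isPGroup le_top
            have hPSlt : P < S := by
              refine lt_of_le_of_ne hPS ?_
              rintro rfl
              exact htop ⟨P, hS, hP.le⟩
            have h1 := lt_inf_nz hS.isPGroup hPSlt
            have h2 : S ⊓ nz P ≤ M' := inf_le_right.trans (hFP.2.trans hFM')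
            calc Nat.card R₀ ≤ Nat.card P := hP.card_le hR₀.isPGroup hR₀.le
              _ < Nat.card (S ⊓ nz P : Subgroup G) := card_lt_of_lt h1
              _ ≤ Nat.card R₀' := hR₀'.card_le (hS.isPGroup.to_le inf_le_left) h2
          obtain ⟨C₀, hC₀, hRC₀⟩ := exists_sylIn_ge (p := p) (H := ⊤) hRs.isPGroup le_top
          refine (ihR C₀ hC₀ hRC₀).trans ?_
          have hGR : Nat.card R₀' ≤ Nat.card G := Subgroup.card_le_card_group R₀'
          exact ihn (Nat.card G - Nat.card R₀') (by omega) M' R₀' hM' hR₀' (by omega) C₀ C R R' hC₀ hC hRC₀ hRC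
            (hRF.trans hFM') (hR'F.trans hFM') hDR hDR''
      exact (key R₂ hch').2 B₁ hB₁ hRB₂
  · -- singular
    obtain ⟨m, hm, hmR⟩ := hR₂.exists_conj_eq hR₁
    have hM𝓖 := h𝓖' M hM hreg
    have hB₂ : SylIn p (cj m B₁) ⊤ := hB₁.cj_mem (mem_top m)
    have h1 : R₁ ≤ A₁ ⊓ cj m B₁ := by
      refine le_inf hRA₁ ?_
      rw [← hmR]; exact cj_mono hRB₂
    have c3 := ih A₁ (cj m B₁) hA₁ hB₂ (lt_of_lt_of_le (card_lt_of_lt hDR₁) (L.card_le_of_le h1)) (hDR₁.le.trans h1)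
    refine c3.tail ⟨hB₂, hB₁, M, m⁻¹, hM𝓖, ?_, ?_, inv_mem hm, by rw [inv_inv], ?_⟩
    · have h2 : cj m B₁ ⊓ M = R₁ := by
        have h3 : cj m M = M := cj_eq_self_of_mem hm
        rw [← h3, ← cj_inf, hBR₂, hmR]
      rw [h2]; exact hR₁
    · rw [hBR₂]; exact hR₂
    · rw [hBR₂]; exact hDR₂.le

theorem main_ctl {f : Subgroup G → Set (Subgroup G)} (hf : IsNormalizerFunctor p f)
    (hf1 : ∀ P : Subgroup G, IsPGroup p ↥P → P ≠ ⊥ → ∀ F ∈ f P, F ≠ ⊥) {𝓖 : Set (Subgroup G)}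
    (h𝓖 : functorFamily p f ⊤ ⊆ 𝓖) (h𝓖' : ∀ M, IsMaximalPLocal p M → ¬ IsFunctorRegular p f M → M ∈ 𝓖) (n : ℕ) :
    ∀ A B : Subgroup G, SylIn p A ⊤ → SylIn p B ⊤ → A ⊓ B ≠ ⊥ → Nat.card G ≤ n + Nat.card (A ⊓ B : Subgroup G) →
      ReflTransGen (GStp p 𝓖 (A ⊓ B)) A B := by
  induction n using Nat.strong_induction_on with
  | _ n ihn =>
  intro A B hA hB hne hn
  by_cases hAB : A = B
  · rw [hAB]
  obtain ⟨D, hD⟩ : ∃ D, D = A ⊓ B := ⟨_, rfl⟩
  rw [← hD] at hne hn ⊢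
  have hDp : IsPGroup p D := by rw [hD]; exact hA.isPGroup.to_le inf_le_left
  have hDA : D < A := by
    refine lt_of_le_of_ne (by rw [hD]; exact inf_le_left) ?_
    intro h
    apply hAB
    have h1 : A ≤ B := by rw [← h, hD]; exact inf_le_right
    exact hA.eq_of_le hB.isPGroup le_top h1
  have hDB : D < B := by
    refine lt_of_le_of_ne (by rw [hD]; exact inf_le_right) ?_
    intro h
    apply hAB
    have h1 : B ≤ A := by rw [← h, hD]; exact inf_le_left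
    exact (hB.eq_of_le hA.isPGroup le_top h1).symm
  have h1 := lt_inf_nz hA.isPGroup hDA
  have h2 := lt_inf_nz hB.isPGroup hDB
  have hloc : IsPLocal p (normalizer (D : Set G)) := ⟨D, hDp, hne, rfl⟩
  obtain ⟨M, hM, hDM⟩ := exists_maxlocal hloc
  obtain ⟨R₀, hR₀⟩ := exists_sylIn (p := p) M
  refine main_aux hf hf1 h𝓖 h𝓖' hne ?_ (Nat.card G) M R₀ hM hR₀ (Nat.le_add_right _ _) A B _ _ hA hB
    (inf_le_left : A ⊓ nz D ≤ A) (inf_le_left : B ⊓ nz D ≤ B) (inf_le_right.trans hDM) (inf_le_right.trans hDM) h1 h2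
  intro A' B' hA' hB' hlt hle
  have hG : Nat.card (A' ⊓ B' : Subgroup G) ≤ Nat.card G := Subgroup.card_le_card_group _
  refine gchain_mono (ihn (Nat.card G - Nat.card (A' ⊓ B' : Subgroup G)) (by omega) A' B' hA' hB' ?_ (by omega)) hle
  intro h
  apply hne
  rw [eq_bot_iff, ← h]; exact hle

end Cfsg.Agent.H19
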