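import Mathlib
import Cfsg.Agent.H10.Basic

/-!
# The least subnormal supplement of a normal subgroup with perfect quotient
-/

set_option autoImplicit false
set_option linter.style.haveILetI false

namespace Cfsg.Agent.H19

open Subgroup
open scoped Pointwise commutatorElement

universe u

theorem sup_eq_top_iff_map {G : Type*} [Group G] (D A : Subgroup G) [D.Normal] :
    A ⊔ D = ⊤ ↔ A.map (QuotientGroup.mk' D) = ⊤ := by
  constructor
  · intro h
    have h1 := congrArg (Subgroup.map (QuotientGroup.mk' D)) h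
    rw [Subgroup.map_sup, QuotientGroup.map_mk'_self, sup_bot_eq] at h1
    rw [h1, ← MonoidHom.range_eq_map, MonoidHom.range_eq_top.mpr (QuotientGroup.mk'_surjective D)]
  · intro h
    have h1 := Subgroup.comap_map_eq (QuotientGroup.mk' D) A
    rw [h, QuotientGroup.ker_mk', Subgroup.comap_top] at h1
    exact h1.symm

theorem supplement_inf {G : Type*} [Group G] {D A B : Subgroup G} [D.Normal] [A.Normal] [B.Normal]
    (hperf : ⁅(⊤ : Subgroup G), (⊤ : Subgroup G)⁆ ⊔ D = ⊤) (hA : A ⊔ D = ⊤) (hB : B ⊔ D = ⊤) :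
    (A ⊓ B) ⊔ D = ⊤ := by
  rw [sup_eq_top_iff_map] at *
  rw [eq_top_iff]
  have h1 : ⁅A, B⁆.map (QuotientGroup.mk' D) ≤ (A ⊓ B).map (QuotientGroup.mk' D) :=
    Subgroup.map_mono (commutator_le_inf A B)
  refine le_trans ?_ h1
  rw [Subgroup.map_commutator, hA, hB]
  rw [Subgroup.map_commutator] at hperf
  have h2 : (⊤ : Subgroup G).map (QuotientGroup.mk' D) = ⊤ := by
    rw [← MonoidHom.range_eq_map, MonoidHom.range_eq_top.mpr (QuotientGroup.mk'_surjective D)]
  rw [h2] at hperf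
  exact hperf.ge

theorem least_supplement_aux (n : ℕ) : ∀ (G : Type u) [Group G] [Finite G], Nat.card G = n →
    ∀ (D : Subgroup G) [D.Normal], ⁅(⊤ : Subgroup G), (⊤ : Subgroup G)⁆ ⊔ D = ⊤ →
    ∃ B : Subgroup G, B.Normal ∧ B ⊔ D = ⊤ ∧ ∀ B' : Subgroup G, B'.IsSubnormal → B' ⊔ D = ⊤ → B ≤ B' := by
  induction n using Nat.strong_induction_on with
  | _ n ih =>
  intro G _ _ hcard D _ hperf
  obtain ⟨N, ⟨hNn, hND⟩, hNmin⟩ := (Set.toFinite {A : Subgroup G | A.Normal ∧ A ⊔ D = ⊤}).exists_minimal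
    ⟨⊤, inferInstance, top_sup_eq _⟩
  have hNall : ∀ A : Subgroup G, A.Normal → A ⊔ D = ⊤ → N ≤ A := by
    intro A hA hAD
    have h1 : (N ⊓ A) ⊔ D = ⊤ := by
      haveI := hNn
      haveI := hA
      exact supplement_inf hperf hND hAD
    have h2 : (N ⊓ A).Normal := by
      haveI := hNn
      haveI := hA
      infer_instance
    exact (hNmin ⟨h2, h1⟩ inf_le_left).trans inf_le_right
  refine ⟨N, hNn, hND, fun B' hB' hB'D => ?_⟩
  by_cases hBt : B' = ⊤
  · rw [hBt]; exact le_top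
  obtain ⟨K, hKn, hBK, hKlt⟩ := hB'.exists_normal_and_le_and_lt_top_of_ne hBt
  haveI := hKn
  have hKD : K ⊔ D = ⊤ := by
    rw [eq_top_iff, ← hB'D]
    exact sup_le_sup_right hBK D
  have hKcard : Nat.card K < n := by
    rw [← hcard]
    refine lt_of_le_of_ne (Nat.le_of_dvd Nat.card_pos (Subgroup.card_subgroup_dvd_card K)) fun h => hKlt.ne ?_
    exact Subgroup.eq_top_of_card_eq K h
  -- supplements to `D ∩ K` in `K`
  have hsup : ∀ A : Subgroup G, A ≤ K → A ⊔ D = ⊤ → A.subgroupOf K ⊔ D.subgroupOf K = ⊤ := by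
    intro A hAK hAD
    rw [eq_top_iff]
    rintro ⟨k, hk⟩ _
    have hk' : k ∈ A ⊔ D := by rw [hAD]; exact mem_top k
    obtain ⟨a, ha, d, hd, had⟩ := Subgroup.mem_sup_of_normal_right.mp hk'
    have hdK : d ∈ K := by
      have : d = a⁻¹ * k := by rw [← had]; group
      rw [this]
      exact mul_mem (inv_mem (hAK ha)) hk
    have : (⟨k, hk⟩ : K) = ⟨a, hAK ha⟩ * ⟨d, hdK⟩ := Subtype.ext had.symm
    rw [this]
    exact mul_mem ((le_sup_left : A.subgroupOf K ≤ _) ha) ((le_sup_right : D.subgroupOf K ≤ _) hd)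
  have hperfK : ⁅(⊤ : Subgroup K), (⊤ : Subgroup K)⁆ ⊔ D.subgroupOf K = ⊤ := by
    have h1 : ⁅K, K⁆ ⊔ D = ⊤ := by
      rw [sup_eq_top_iff_map] at hperf hKD ⊢
      rw [Subgroup.map_commutator] at hperf ⊢
      have h2 : (⊤ : Subgroup G).map (QuotientGroup.mk' D) = ⊤ := by
        rw [← MonoidHom.range_eq_map, MonoidHom.range_eq_top.mpr (QuotientGroup.mk'_surjective D)]
      rw [h2] at hperf
      rw [hKD, hperf]
    have h2 : ⁅K, K⁆ ≤ K := Subgroup.commutator_le_left K K
    have h3 := hsup _ h2 h1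
    have h4 : (⁅K, K⁆ : Subgroup G).subgroupOf K = ⁅(⊤ : Subgroup K), (⊤ : Subgroup K)⁆ := by
      have h5 : (⁅(⊤ : Subgroup K), (⊤ : Subgroup K)⁆).map K.subtype = ⁅K, K⁆ := by
        rw [Subgroup.map_commutator, ← MonoidHom.range_eq_map, Subgroup.range_subtype]
      rw [← h5]
      ext y
      rw [mem_subgroupOf]
      constructor
      · rintro ⟨w, hw, hwy⟩
        have : w = y := Subtype.ext hwy
        rwa [← this]
      · intro hy
        exact ⟨y, hy, rfl⟩
    rwa [h4] at h3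
  obtain ⟨M, hMn, hMD, hMleast⟩ := ih _ hKcard K rfl (D.subgroupOf K) hperfK
  -- `M` is `G`-invariant
  have hMG : (M.map K.subtype).Normal := by
    refine ⟨?_⟩
    rintro _ ⟨m, hm, rfl⟩ g
    have h1 : (M.map (MulAut.conjNormal g : MulAut K).toMonoidHom).Normal :=
      H10.normal_map_equiv hMn _
    have h2 : M.map (MulAut.conjNormal g : MulAut K).toMonoidHom ⊔ D.subgroupOf K = ⊤ := by
      have h3 := congrArg (Subgroup.map (MulAut.conjNormal g : MulAut K).toMonoidHom) hMD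
      rw [Subgroup.map_sup] at h3
      have h4 : (D.subgroupOf K).map (MulAut.conjNormal g : MulAut K).toMonoidHom ≤ D.subgroupOf K := by
        rintro _ ⟨y, hy, rfl⟩
        rw [mem_subgroupOf]
        have : (((MulAut.conjNormal g : MulAut K) y : K) : G) = g * y * g⁻¹ := MulAut.conjNormal_apply g y
        show (((MulAut.conjNormal g : MulAut K) y : K) : G) ∈ D
        rw [this]
        exact (inferInstance : D.Normal).conj_mem _ hy g
      rw [← MonoidHom.range_eq_map, MonoidHom.range_eq_top.mpr (MulEquiv.surjective _)] at h3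
      rw [eq_top_iff, ← h3]
      exact sup_le_sup_left h4 _
    have h5 := hMleast _ h1.isSubnormal h2
    have h6 : M = M.map (MulAut.conjNormal g : MulAut K).toMonoidHom :=
      Subgroup.eq_of_le_of_card_ge h5 (by rw [H10.card_map_equiv])
    have h7 : (MulAut.conjNormal g : MulAut K) m ∈ M := by
      rw [h6]; exact ⟨m, hm, rfl⟩
    exact ⟨_, h7, MulAut.conjNormal_apply g m⟩
  have hMsup : M.map K.subtype ⊔ D = ⊤ := by
    rw [eq_top_iff, ← hKD]
    refine sup_le ?_ le_sup_right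
    intro k hk
    have : (⟨k, hk⟩ : K) ∈ M ⊔ D.subgroupOf K := by rw [hMD]; exact mem_top _
    obtain ⟨a, ha, d, hd, had⟩ := Subgroup.mem_sup_of_normal_right.mp this
    have h8 : (a : G) * d = k := congrArg Subtype.val had
    rw [← h8]
    exact mul_mem ((le_sup_left : M.map K.subtype ≤ _) ⟨a, ha, rfl⟩) ((le_sup_right : D ≤ _) hd)
  have h1 := hNall _ hMG hMsup
  refine h1.trans ?_
  have h2 := hMleast (B'.subgroupOf K) hB'.subgroupOf (hsup B' hBK hB'D)
  rintro _ ⟨m, hm, rfl⟩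
  exact h2 hm

theorem least_supplement {G : Type*} [Group G] [Finite G] (D : Subgroup G) [D.Normal]
    (hperf : ⁅(⊤ : Subgroup G), (⊤ : Subgroup G)⁆ ⊔ D = ⊤) :
    ∃ B : Subgroup G, B.Normal ∧ B ⊔ D = ⊤ ∧ ∀ B' : Subgroup G, B'.IsSubnormal → B' ⊔ D = ⊤ → B ≤ B' :=
  least_supplement_aux _ G rfl D hperf

end Cfsg.Agent.H19
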