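import Mathlib
import Cfsg.Agent.H23.RankOne
import Cfsg.Agent.L.SylIn

/-!
# A subgroup inside every subgroup it normalizes
-/

set_option autoImplicit false
set_option linter.all false

namespace Cfsg.Agent.H19

open Subgroup

/-- `F / C_F(N)` for `N` normal of prime order -/
theorem cyclic_quotient_centralizer {F : Type*} [Group F] [Finite F] (N : Subgroup F)
    [hN : N.Normal] (hp : (Nat.card N).Prime) :
    (∃ g : F, centralizer (N : Set F) ⊔ zpowers g = ⊤) ∧ (centralizer (N : Set F)).index ∣ Nat.card N - 1 := by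
  haveI : Fact (Nat.card N).Prime := ⟨hp⟩
  haveI : IsCyclic N := isCyclic_of_prime_card rfl
  obtain ⟨φ, hφ⟩ : ∃ φ : F →* (ZMod (Nat.card N))ˣ, φ.ker = centralizer (N : Set F) := by
    refine ⟨(IsCyclic.mulAutMulEquiv N).toMonoidHom.comp (MulAut.conjNormal (H := N)), ?_⟩
    ext g
    rw [MonoidHom.mem_ker, MonoidHom.comp_apply]
    have h1 : (IsCyclic.mulAutMulEquiv N).toMonoidHom (MulAut.conjNormal g) = 1 ↔ MulAut.conjNormal (H := N) g = 1 :=
      MulEquiv.map_eq_one_iff _
    rw [h1, mem_centralizer_iff]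
    constructor
    · intro h n hn
      have h2 := congrArg (fun f : MulAut N => ((f ⟨n, hn⟩ : N) : F)) h
      simp only [MulAut.conjNormal_apply, MulAut.one_apply] at h2
      calc n * g = (g * n * g⁻¹) * g := by rw [h2]
        _ = g * n := by group
    · intro h
      ext n
      rw [MulAut.conjNormal_apply, MulAut.one_apply, ← h n n.2]
      group
  haveI : IsCyclic φ.range := inferInstance
  constructor
  · obtain ⟨⟨_, g, rfl⟩, hg⟩ := IsCyclic.exists_generator (α := φ.range)
    refine ⟨g, ?_⟩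
    rw [eq_top_iff]
    intro x _
    obtain ⟨k, hk⟩ := mem_zpowers_iff.1 (hg ⟨φ x, x, rfl⟩)
    have h1 : φ (g ^ k) = φ x := by
      rw [map_zpow]
      exact congrArg Subtype.val hk
    have h2 : x * (g ^ k)⁻¹ ∈ centralizer (N : Set F) := by
      rw [← hφ, MonoidHom.mem_ker, map_mul, map_inv, h1, mul_inv_cancel]
    have h3 : x = x * (g ^ k)⁻¹ * g ^ k := by group
    rw [h3]
    exact mul_mem (mem_sup_left h2) (mem_sup_right (zpow_mem (mem_zpowers g) k))
  · rw [← hφ, index_ker, ← ZMod.card_units (Nat.card N), ← Nat.card_eq_fintype_card]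
    exact card_subgroup_dvd_card _

theorem trichotomy {F : Type*} [Group F] [Finite F] (H : Subgroup F) (hH : H ≠ ⊥)
    (hmin : ∀ R : Subgroup F, R ≠ ⊥ → H ≤ normalizer (R : Set F) → H ≤ R) :
    ∃ N : Subgroup F, N.Normal ∧ N ≠ ⊥ ∧ (∀ M : Subgroup F, M.Normal → M ≠ ⊥ → N ≤ M) ∧ IsSimpleGroup ↥N ∧
      (centralizer (N : Set F) = ⊥ ∨
       (H = N ∧ (Nat.card N).Prime ∧ IsCyclic ↥(centralizer (N : Set F)) ∧
          (∃ k : ℕ, 1 ≤ k ∧ Nat.card ↥(centralizer (N : Set F)) = Nat.card N ^ k) ∧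
          (∃ g : F, centralizer (N : Set F) ⊔ zpowers g = ⊤) ∧
          (centralizer (N : Set F)).index ∣ Nat.card N - 1) ∨
       (H = N ∧ Nat.card N = 2 ∧ centralizer (N : Set F) = ⊤ ∧
          ∃ k : ℕ, 1 ≤ k ∧ Nonempty (F ≃* QuaternionGroup (2 ^ k)))) := by
  have hHM : ∀ M : Subgroup F, M.Normal → M ≠ ⊥ → H ≤ M := by
    intro M hM hMb
    apply hmin M hMb
    rw [normalizer_eq_top]
    exact le_top
  obtain ⟨N, hN⟩ : ∃ N, N = sInf {M : Subgroup F | M.Normal ∧ M ≠ ⊥} := ⟨_, rfl⟩
  have hNn : N.Normal := by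
    constructor
    intro x hx g
    rw [hN, mem_sInf] at hx ⊢
    intro M hM
    exact hM.1.conj_mem x (hx M hM) g
  have hHN : H ≤ N := by
    rw [hN]
    exact le_sInf (fun M hM => hHM M hM.1 hM.2)
  have hNb : N ≠ ⊥ := fun h => hH (le_bot_iff.1 (h ▸ hHN))
  have hNmin : ∀ M : Subgroup F, M.Normal → M ≠ ⊥ → N ≤ M := by
    intro M hM hMb
    rw [hN]
    exact sInf_le ⟨hM, hMb⟩
  -- subgroups normalized by `N`
  have hNN : ∀ K : Subgroup F, K ≠ ⊥ → K ≤ N → N ≤ normalizer (K : Set F) → K = N := by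
    obtain ⟨M, ⟨hM1, hM2, hM3⟩, hMm⟩ := Set.exists_min_image
      {K : Subgroup F | K ≠ ⊥ ∧ K ≤ N ∧ N ≤ normalizer (K : Set F)} (fun K => Nat.card K) (Set.toFinite _)
      ⟨N, hNb, le_rfl, le_normalizer⟩
    have hMn : M.Normal := by
      constructor
      intro m hm g
      have h1 : L.cj g M ≤ N := by
        apply L.cj_le_of_forall
        intro x hx
        exact hNn.conj_mem x (hM2 hx) g
      have h2 : N ≤ normalizer ((L.cj g M : Subgroup F) : Set F) := by
        change N ≤ L.nz (L.cj g M)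
        rw [L.nz_cj]
        intro x hx
        rw [L.mem_cj]
        apply hM3
        have := hNn.conj_mem x hx g⁻¹
        rwa [inv_inv] at this
      have h3 : H ≤ L.cj g M := hmin _ (by rw [Ne, L.cj_eq_bot]; exact hM1) (hHN.trans h2)
      have h4 : H ≤ M := hmin _ hM1 (hHN.trans hM3)
      have h5 : N ≤ normalizer ((M ⊓ L.cj g M : Subgroup F) : Set F) := by
        intro x hx
        rw [mem_normalizer_iff]
        intro y
        rw [mem_inf, mem_inf]
        exact and_congr (mem_normalizer_iff.1 (hM3 hx) y) (mem_normalizer_iff.1 (h2 hx) y)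
      have h6 := hMm (M ⊓ L.cj g M) ⟨fun h => hH (le_bot_iff.1 (h ▸ le_inf h4 h3)), inf_le_left.trans hM2, h5⟩
      have h7 : M ⊓ L.cj g M = L.cj g M := eq_of_le_of_card_ge inf_le_right (by rw [L.card_cj]; exact h6)
      have h8 : L.cj g M ≤ M := inf_eq_right.1 h7
      exact h8 (L.conj_mem_cj hm)
    have hMN : M = N := le_antisymm hM2 (hNmin M hMn hM1)
    intro K hK1 hK2 hK3
    exact eq_of_le_of_card_ge hK2 (hMN ▸ hMm K ⟨hK1, hK2, hK3⟩)
  have hsimple : IsSimpleGroup N := by
    haveI : Nontrivial N := (nontrivial_iff_ne_bot N).2 hNb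
    refine ⟨fun K hK => ?_⟩
    by_cases hKb : K = ⊥
    · exact Or.inl hKb
    right
    have h1 := hNN (K.map N.subtype) (by rwa [Ne, map_eq_bot_iff_of_injective _ N.subtype_injective])
      (map_subtype_le _) (by
        intro x hx
        rw [mem_normalizer_iff]
        intro y
        constructor
        · rintro ⟨k, hk, rfl⟩
          exact ⟨⟨x, hx⟩ * k * ⟨x, hx⟩⁻¹, hK.conj_mem k hk ⟨x, hx⟩, rfl⟩
        · rintro ⟨k, hk, hky⟩
          have h2 := hK.conj_mem k hk ⟨x, hx⟩⁻¹
          refine ⟨_, h2, ?_⟩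
          have h3 : (k : F) = x * y * x⁻¹ := hky
          show x⁻¹ * (k : F) * (x⁻¹)⁻¹ = y
          rw [h3]; group)
    have h2 : (⊤ : Subgroup N).map N.subtype = N := by
      rw [← MonoidHom.range_eq_map, range_subtype]
    exact map_injective N.subtype_injective (h1.trans h2.symm)
  refine ⟨N, hNn, hNb, hNmin, hsimple, ?_⟩
  by_cases hC : centralizer (N : Set F) = ⊥
  · exact Or.inl hC
  right
  haveI := hNn
  have hCn : (centralizer (N : Set F)).Normal := inferInstance
  have hNC : N ≤ centralizer (N : Set F) := hNmin _ hCn hC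
  have hNc : ∀ x ∈ N, ∀ y ∈ N, x * y = y * x := fun x hx y hy => (mem_centralizer_iff.1 (hNC hx) y hy).symm
  have hnrm : ∀ K : Subgroup F, K ≤ centralizer (N : Set F) → N ≤ normalizer (K : Set F) := by
    intro K hK x hx
    rw [mem_normalizer_iff]
    intro y
    constructor
    · intro hy
      have h1 := mem_centralizer_iff.1 (hK hy) x hx
      rw [h1]; simpa using hy
    · intro hy
      have h1 := mem_centralizer_iff.1 (hK hy) x hx
      have h2 : y = x * y * x⁻¹ := by
        calc y = x⁻¹ * (x * y * x⁻¹ * x) := by group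
          _ = x⁻¹ * (x * (x * y * x⁻¹)) := by rw [h1]
          _ = x * y * x⁻¹ := by group
      rw [h2]; exact hy
  have hHN' : H = N := hNN H hH hHN (hnrm H (hHN.trans hNC))
  -- prime order
  have hprime : (Nat.card N).Prime := by
    have h1 : 1 < Nat.card N := (N.one_lt_card_iff_ne_bot).2 hNb
    obtain ⟨q, hq, hqd⟩ := Nat.exists_prime_and_dvd h1.ne'
    haveI : Fact q.Prime := ⟨hq⟩
    obtain ⟨x, hx⟩ := exists_prime_orderOf_dvd_card' q hqd
    have h2 : zpowers (x : F) ≤ N := by rw [zpowers_le]; exact x.2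
    have h3 : zpowers (x : F) ≠ ⊥ := by
      rw [Ne, zpowers_eq_bot]
      intro h
      have h4 : x = 1 := Subtype.ext h
      rw [h4, orderOf_one] at hx
      exact hq.one_lt.ne hx
    have h4 := hNN _ h3 h2 (hnrm _ (h2.trans hNC))
    rw [← h4, Nat.card_zpowers, Subgroup.orderOf_coe x, hx]
    exact hq
  haveI : Fact (Nat.card N).Prime := ⟨hprime⟩
  obtain ⟨hgen, hidx⟩ := cyclic_quotient_centralizer N hprime
  -- elements of prime order in `C`
  have hCp : ∀ y ∈ centralizer (N : Set F), (orderOf y).Prime → zpowers y = N := by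
    intro y hy hyq
    have h1 : zpowers y ≤ centralizer (N : Set F) := by rw [zpowers_le]; exact hy
    have h2 : N ≤ zpowers y := by
      rw [← hHN']
      apply hmin
      · rw [Ne, zpowers_eq_bot]
        rintro rfl
        rw [orderOf_one] at hyq
        exact Nat.not_prime_one hyq
      · rw [hHN']; exact hnrm _ h1
    symm
    apply eq_of_le_of_card_ge h2
    rw [Nat.card_zpowers]
    have h3 : Nat.card N ∣ orderOf y := by
      rw [← Nat.card_zpowers]; exact card_dvd_of_le h2
    rcases (Nat.dvd_prime hyq).1 h3 with h4 | h4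
    · rw [h4] at hprime; exact absurd hprime Nat.not_prime_one
    · exact h4.ge
  have hCpow : Nat.card (centralizer (N : Set F)) =
      Nat.card N ^ (Nat.card (centralizer (N : Set F))).primeFactorsList.length := by
    apply Nat.eq_prime_pow_of_unique_prime_dvd Nat.card_pos.ne'
    intro d hd hdd
    haveI : Fact d.Prime := ⟨hd⟩
    obtain ⟨x, hx⟩ := exists_prime_orderOf_dvd_card' d hdd
    have hx' : orderOf (x : F) = d := by rw [← hx]; exact Subgroup.orderOf_coe x
    have h1 := hCp x x.2 (by rw [hx']; exact hd)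
    rw [← h1, Nat.card_zpowers, hx']
  have hCpg : IsPGroup (Nat.card N) (centralizer (N : Set F)) := IsPGroup.of_card hCpow
  rcases H23.cyclic_or_quaternion hCpg (by
    intro x y hx hy
    have hx' : orderOf (x : F) = Nat.card N := by rw [← hx]; exact Subgroup.orderOf_coe x
    have hy' : orderOf (y : F) = Nat.card N := by rw [← hy]; exact Subgroup.orderOf_coe y
    have h1 := hCp x x.2 (by rw [hx']; exact hprime)
    have h2 := hCp y y.2 (by rw [hy']; exact hprime)
    have h3 : (y : F) ∈ zpowers (x : F) := (h2.trans h1.symm).le (mem_zpowers _)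
    obtain ⟨k, hk⟩ := mem_zpowers_iff.1 h3
    exact mem_zpowers_iff.2 ⟨k, Subtype.ext hk⟩) with hcyc | ⟨h2, n, hn, ⟨e⟩⟩
  · left
    refine ⟨hHN', hprime, hcyc, ⟨_, ?_, hCpow⟩, hgen, hidx⟩
    rw [Nat.one_le_iff_ne_zero]
    intro h0
    rw [h0, pow_zero] at hCpow
    apply hC
    exact card_eq_one.1 hCpow
  · right
    rw [h2] at hidx
    have hCt : centralizer (N : Set F) = ⊤ := index_eq_one.1 (Nat.dvd_one.1 hidx)
    refine ⟨hHN', h2, hCt, n, hn, ⟨?_⟩⟩
    exact (((MulEquiv.subgroupCongr hCt).trans topEquiv).symm).trans e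

end Cfsg.Agent.H19
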